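/-
Every element of the double cover of an alternating group is a commutator.
-/
import Cfsg.Agent.Known.AltCover

set_option autoImplicit false
set_option linter.unusedSectionVars false

namespace CL.AltCC

open Equiv Equiv.Perm Finset CL.Known
open scoped commutatorElement

variable {Ω : Type*} [Fintype Ω] [DecidableEq Ω]

theorem disj_swap {s : Perm Ω} {x y : Ω} (hx : s x = x) (hy : s y = y) : (swap x y).Disjoint s := by
  intro z
  by_cases h1 : z = x
  · exact Or.inr (h1 ▸ hx)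
  by_cases h2 : z = y
  · exact Or.inr (h2 ▸ hy)
  exact Or.inl (swap_apply_of_ne_of_ne h1 h2)

theorem swap_mul_invol {s : Perm Ω} {x y : Ω} (hs : s * s = 1) (hx : s x = x) (hy : s y = y) :
    swap x y * s * (swap x y * s) = 1 := by
  rw [mul_assoc, ← mul_assoc s, ← (disj_swap hx hy).commute.eq, mul_assoc, hs, mul_one, swap_mul_self]

theorem card_swap_mul {s : Perm Ω} {x y : Ω} (hxy : x ≠ y) (hx : s x = x) (hy : s y = y) :
    #(swap x y * s).support = #s.support + 2 := by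
  rw [(disj_swap hx hy).card_support_mul, card_support_swap hxy, add_comm]

/-- A balanced factorisation into two involutions. -/
def Dec (g : Perm Ω) (x : Ω) : Prop :=
  ∃ s t : Perm Ω, s * s = 1 ∧ t * t = 1 ∧ g = s * t ∧ (∀ y, g y = y → s y = y ∧ t y = y) ∧ s x = x ∧
    ((sign g = 1 ∧ #t.support = #s.support) ∨ (sign g = -1 ∧ #t.support = #s.support + 2))

theorem dec_step {g : Perm Ω} (ih : ∀ g' : Perm Ω, #g'.support < #g.support → ∀ x, Dec g' x) {x : Ω}
    (hx : g x ≠ x) : Dec g x := by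
  by_cases h2 : g (g x) = x
  · obtain ⟨s, t, hs, ht, e, hf, -, hc⟩ := ih _ (card_support_swap_mul hx) x
    have eg : g = swap x (g x) * (s * t) := by rw [← e, ← mul_assoc, swap_mul_self, one_mul]
    obtain ⟨sx, tx⟩ := hf x (by simp)
    obtain ⟨sy, ty⟩ := hf (g x) (by simp [h2])
    have hf' : ∀ y, g y = y → y ≠ x ∧ y ≠ g x ∧ s y = y ∧ t y = y := fun y hy => by
      have a1 : y ≠ x := fun h => hx (h ▸ hy)
      have a2 : y ≠ g x := fun h => a1 (g.injective (hy.trans h))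
      exact ⟨a1, a2, hf y (by rw [mul_apply, hy, swap_apply_of_ne_of_ne a1 a2])⟩
    have hsg : sign (swap x (g x) * g) = -sign g := by rw [map_mul, sign_swap hx.symm]; simp
    rw [hsg] at hc
    rcases hc with ⟨c1, c2⟩ | ⟨c1, c2⟩
    · refine ⟨s, swap x (g x) * t, hs, swap_mul_invol ht tx ty, ?_, fun y hy => ?_, sx,
        Or.inr ⟨neg_eq_iff_eq_neg.1 c1, by rw [card_swap_mul hx.symm tx ty, c2]⟩⟩
      · rw [← mul_assoc, ← (disj_swap sx sy).commute.eq, mul_assoc]; exact eg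
      · obtain ⟨a1, a2, a3, a4⟩ := hf' y hy
        exact ⟨a3, by rw [mul_apply, a4, swap_apply_of_ne_of_ne a1 a2]⟩
    · have hti : t⁻¹ = t := inv_eq_of_mul_eq_one_right ht
      have ux : (t * s * t) x = x := by simp [sx, tx]
      have uy : (t * s * t) (g x) = g x := by simp [sy, ty]
      refine ⟨t, swap x (g x) * (t * s * t), ht, swap_mul_invol ?_ ux uy, ?_, fun y hy => ?_, tx,
        Or.inl ⟨neg_inj.1 c1, ?_⟩⟩
      · calc t * s * t * (t * s * t) = t * s * (t * t) * s * t := by simp only [mul_assoc]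
          _ = 1 := by rw [ht, mul_one, mul_assoc t, hs, mul_one, ht]
      · rw [← mul_assoc, ← (disj_swap tx ty).commute.eq, mul_assoc, ← mul_assoc t, ← mul_assoc t, ht,
          one_mul]
        exact eg
      · obtain ⟨a1, a2, a3, a4⟩ := hf' y hy
        exact ⟨a4, by simp only [mul_apply, a3, a4, swap_apply_of_ne_of_ne a1 a2]⟩
      · rw [card_swap_mul hx.symm ux uy, c2]
        nth_rewrite 2 [← hti]
        rw [card_support_conj]
  · obtain ⟨w, hw⟩ := g.surjective x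
    have wx : w ≠ x := fun h => hx (by rw [h] at hw; exact hw)
    have wg : w ≠ g x := fun h => h2 (h ▸ hw)
    have fx : (swap x w * (swap (g x) w * g)) x = x := by simp
    have fw : (swap x w * (swap (g x) w * g)) w = w := by
      simp [hw, swap_apply_of_ne_of_ne hx.symm wx.symm]
    have hf0 : ∀ y, g y = y → y ≠ x ∧ y ≠ g x ∧ y ≠ w ∧ (swap x w * (swap (g x) w * g)) y = y :=
      fun y hy => by
        have a1 : y ≠ x := fun h => hx (h ▸ hy)
        have a2 : y ≠ g x := fun h => a1 (g.injective (hy.trans h))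
        have a3 : y ≠ w := fun h => a1 (by rw [← hw, ← h, hy])
        exact ⟨a1, a2, a3, by
          rw [mul_apply, mul_apply, hy, swap_apply_of_ne_of_ne a2 a3, swap_apply_of_ne_of_ne a1 a3]⟩
    have hlt : #(swap x w * (swap (g x) w * g)).support < #g.support := by
      refine card_lt_card ⟨fun y hy => ?_, fun h => ?_⟩
      · rw [mem_support] at hy ⊢
        exact fun h => hy (hf0 y h).2.2.2
      · exact mem_support.1 (h (mem_support.2 hx)) fx
    obtain ⟨s, t, hs, ht, e, hf, sg, hc⟩ := ih _ hlt (g x)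
    obtain ⟨sx, tx⟩ := hf x fx
    obtain ⟨sw, tw⟩ := hf w fw
    have hsg : sign (swap x w * (swap (g x) w * g)) = sign g := by
      rw [map_mul, map_mul, sign_swap wx.symm, sign_swap wg.symm]; simp
    rw [hsg] at hc
    refine ⟨swap (g x) w * s, swap x w * t, swap_mul_invol hs sg sw, swap_mul_invol ht tx tw, ?_,
      fun y hy => ?_, ?_, ?_⟩
    · rw [mul_assoc, ← mul_assoc s, ← (disj_swap sx sw).commute.eq, mul_assoc, ← e, ← mul_assoc (swap x w),
        swap_mul_self, one_mul, ← mul_assoc, swap_mul_self, one_mul]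
    · obtain ⟨a1, a2, a3, a4⟩ := hf0 y hy
      obtain ⟨a5, a6⟩ := hf y a4
      exact ⟨by rw [mul_apply, a5, swap_apply_of_ne_of_ne a2 a3],
        by rw [mul_apply, a6, swap_apply_of_ne_of_ne a1 a3]⟩
    · rw [mul_apply, sx, swap_apply_of_ne_of_ne hx.symm wx.symm]
    · rw [card_swap_mul wg.symm sg sw, card_swap_mul wx.symm tx tw]
      rcases hc with ⟨c1, c2⟩ | ⟨c1, c2⟩
      · exact Or.inl ⟨c1, by rw [c2]⟩
      · exact Or.inr ⟨c1, by rw [c2]⟩

theorem dec (g : Perm Ω) (x : Ω) : Dec g x := by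
  induction h : #g.support using Nat.strong_induction_on generalizing g x with
  | _ n ih =>
    have ih' : ∀ g' : Perm Ω, #g'.support < #g.support → ∀ x, Dec g' x :=
      fun g' hg' x => ih _ (h ▸ hg') g' x rfl
    by_cases hx : g x = x
    · by_cases h1 : g = 1
      · exact ⟨1, 1, by simp, by simp, by simp [h1], by simp, rfl, Or.inl ⟨by simp [h1], rfl⟩⟩
      · obtain ⟨y, hy⟩ : ∃ y, g y ≠ y := by
          by_contra hc
          push Not at hc
          exact h1 (Equiv.ext hc)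
        obtain ⟨s, t, hs, ht, e, hf, -, hc⟩ := dec_step ih' hy
        exact ⟨s, t, hs, ht, e, hf, (hf x hx).1, hc⟩
    · exact dec_step ih' hx

theorem isConj_invol {s t : Perm Ω} (hs : s * s = 1) (ht : t * t = 1) (h : #t.support = #s.support) :
    IsConj s t := by
  have h1 := cycleType_of_pow_prime_eq_one (p := 2) (by rw [pow_two]; exact hs)
  have h2 := cycleType_of_pow_prime_eq_one (p := 2) (by rw [pow_two]; exact ht)
  rw [← sum_cycleType, ← sum_cycleType, h1, h2, Multiset.sum_replicate, Multiset.sum_replicate,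
    smul_eq_mul, smul_eq_mul] at h
  rw [isConj_iff_cycleType_eq, h1, h2]
  congr 1
  omega

/-- `a` has two cycles of length two. -/
def Two (a : Perm Ω) : Prop :=
  ∃ p q r s : Ω, p ≠ q ∧ p ≠ r ∧ p ≠ s ∧ q ≠ r ∧ q ≠ s ∧ r ≠ s ∧ a p = q ∧ a q = p ∧ a r = s ∧ a s = r

theorem exists_two_of_invol {s : Perm Ω} (hs : s * s = 1) (h : 3 ≤ #s.support) :
    ∃ p r : Ω, s p ≠ p ∧ s r ≠ r ∧ r ≠ p ∧ r ≠ s p := by
  obtain ⟨p, hp⟩ : s.support.Nonempty := card_pos.1 (by omega)
  obtain ⟨r, hr, hr'⟩ : ∃ r ∈ s.support, r ∉ ({p, s p} : Finset Ω) := by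
    refine exists_mem_notMem_of_card_lt_card ?_
    have := card_le_two (a := p) (b := s p)
    omega
  simp only [mem_insert, mem_singleton, not_or] at hr'
  exact ⟨p, r, mem_support.1 hp, mem_support.1 hr, hr'.1, hr'.2⟩

theorem two_of {s a : Perm Ω} (hs : s * s = 1) (h : 3 ≤ #s.support) (ha : ∀ y, s y ≠ y → a y = s y) :
    Two a := by
  obtain ⟨p, r, h1, h2, h3, h4⟩ := exists_two_of_invol hs h
  have e : ∀ y, s (s y) = y := fun y => by rw [← mul_apply, hs]; rfl
  refine ⟨p, s p, r, s r, h1.symm, h3.symm, fun h => h4 (by rw [h, e]), h4.symm,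
    fun h => h3 (s.injective h).symm, h2.symm, ha _ h1, ?_, ha _ h2, ?_⟩
  · rw [ha _ (by rw [e]; exact h1.symm), e]
  · rw [ha _ (by rw [e]; exact h2.symm), e]

/-- `g = [a, b]` with `a`, `b` even and `a` having two cycles of length two. -/
def Good (g : Perm Ω) : Prop :=
  ∃ a b : Perm Ω, Two a ∧ sign a = 1 ∧ sign b = 1 ∧ g = a * b * a⁻¹ * b⁻¹

theorem good_of {g a a' : Perm Ω} (h2 : Two a) (hs : sign a = 1) (hc : IsConj a⁻¹ a') (e : g = a * a') :
    Good g := by
  obtain ⟨b, rfl⟩ := isConj_iff.1 hc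
  rcases Int.units_eq_one_or (sign b) with hb | hb
  · exact ⟨a, b, h2, hs, hb, by rw [e]; simp only [mul_assoc]⟩
  · obtain ⟨p, q, r, s, hpq, h⟩ := h2
    have hc : a * swap p q = swap p q * a := by
      rw [mul_swap_eq_swap_mul, h.2.2.2.2.2.1, h.2.2.2.2.2.2.1, swap_comm]
    refine ⟨a, b * swap p q, ⟨p, q, r, s, hpq, h⟩, hs, by rw [map_mul, hb, sign_swap hpq]; simp, ?_⟩
    have : swap p q * a⁻¹ * (swap p q)⁻¹ = a⁻¹ := by
      rw [mul_inv_eq_iff_eq_mul, eq_inv_mul_iff_mul_eq, ← mul_assoc, hc, mul_inv_cancel_right]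
    rw [e]
    conv_lhs => rw [← this]
    simp only [mul_assoc, mul_inv_rev]

theorem good_invol {g s t : Perm Ω} (hs : s * s = 1) (ht : t * t = 1) (h : #t.support = #s.support)
    (h3 : 3 ≤ #s.support) (hsg : sign s = 1) (e : g = s * t) : Good g :=
  good_of (two_of hs h3 fun _ _ => rfl) hsg
    (by rw [inv_eq_of_mul_eq_one_right hs]; exact isConj_invol hs ht h) e

theorem split_invol {s : Perm Ω} (hs : s * s = 1) {x y : Ω} (hx : s x = x) (hy : s y ≠ y) :
    ∃ s0 c : Perm Ω, s0 * s0 = 1 ∧ #s.support = #s0.support + 2 ∧ c.IsThreeCycle ∧ s0.Disjoint c ∧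
      s * swap x y = s0 * c := by
  have e : ∀ y, s (s y) = y := fun y => by rw [← mul_apply, hs]; rfl
  have hxy : x ≠ y := fun h => hy (h ▸ hx)
  have hxs : x ≠ s y := fun h => hxy (s.injective (hx.trans h))
  have c0 : swap y (s y) * s = s * swap y (s y) := by rw [mul_swap_eq_swap_mul, e, swap_comm]
  have f1 : (swap y (s y) * s) y = y := by simp
  have f2 : (swap y (s y) * s) (s y) = s y := by simp [e]
  have f3 : (swap y (s y) * s) x = x := by simp [hx, swap_apply_of_ne_of_ne hxy hxs]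
  refine ⟨swap y (s y) * s, swap y (s y) * swap y x, ?_, ?_,
    isThreeCycle_swap_mul_swap_same hy.symm hxy.symm hxs.symm, fun z => ?_, ?_⟩
  · rw [mul_assoc, ← mul_assoc s, ← c0, mul_assoc, hs, mul_one, swap_mul_self]
  · rw [← card_swap_mul hy.symm f1 f2, ← mul_assoc, swap_mul_self, one_mul]
  · by_cases h1 : z = x
    · exact Or.inl (h1 ▸ f3)
    by_cases h2 : z = y
    · exact Or.inl (h2 ▸ f1)
    by_cases h3 : z = s y
    · exact Or.inl (h3 ▸ f2)
    exact Or.inr (by rw [mul_apply, swap_apply_of_ne_of_ne h2 h1, swap_apply_of_ne_of_ne h2 h3])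
  · rw [c0, mul_assoc, ← mul_assoc (swap y (s y)), swap_mul_self, one_mul, swap_comm]

theorem exists_two_fixed (h5 : 5 ≤ Fintype.card Ω) (a b c : Ω) :
    ∃ u v : Ω, u ≠ v ∧ u ≠ a ∧ u ≠ b ∧ u ≠ c ∧ v ≠ a ∧ v ≠ b ∧ v ≠ c := by
  have h3 : #({a, b, c} : Finset Ω) ≤ 3 := card_le_three
  have : 1 < #(({a, b, c} : Finset Ω)ᶜ) := by rw [card_compl]; omega
  obtain ⟨u, hu, v, hv, huv⟩ := one_lt_card.1 this
  simp only [mem_compl, mem_insert, mem_singleton, not_or] at hu hv
  exact ⟨u, v, huv, hu.1, hu.2.1, hu.2.2, hv.1, hv.2.1, hv.2.2⟩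

theorem two_dbl {p q r s : Ω} (h1 : p ≠ q) (h2 : p ≠ r) (h3 : p ≠ s) (h4 : q ≠ r) (h5 : q ≠ s) (h6 : r ≠ s) :
    Two (swap p q * swap r s) := by
  refine ⟨p, q, r, s, h1, h2, h3, h4, h5, h6, ?_, ?_, ?_, ?_⟩ <;>
    simp only [mul_apply, swap_apply_def] <;> grind

theorem good (h5 : 5 ≤ Fintype.card Ω) {g : Perm Ω} (hg : sign g = 1) : Good g := by
  by_cases h1 : g = 1
  · obtain ⟨a, b, i, j, h1', h2, h3, h4, h5, h6⟩ :=
      AltExt.exists_four (Ω := Ω) (by rw [Nat.card_eq_fintype_card]; omega)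
    exact ⟨swap a b * swap i j, 1, two_dbl h1' h2 h4 h3 h5 h6, by simp [h1', h6], by simp,
      by rw [h1, mul_one, mul_inv_cancel, inv_one, mul_one]⟩
  obtain ⟨x, hx⟩ : ∃ y, g y ≠ y := by
    by_contra hc
    push Not at hc
    exact h1 (Equiv.ext hc)
  obtain ⟨s, t, hs, ht, e, -, sx, ⟨-, hc⟩ | ⟨hc, -⟩⟩ := dec g x
  swap
  · rw [hg] at hc; exact absurd hc (by decide)
  have tx : t x ≠ x := fun h => hx (by rw [e, mul_apply, h, sx])
  obtain ⟨y, sy, ty⟩ : ∃ y, s y ≠ y ∧ t y = y := by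
    by_contra hn
    push Not at hn
    have : s.support ⊂ t.support := ⟨fun y hy => mem_support.2 (hn y (mem_support.1 hy)),
      fun h => mem_support.1 (h (mem_support.2 tx)) sx⟩
    have := card_lt_card this
    omega
  have hxy : x ≠ y := fun h => sy (h ▸ sx)
  obtain ⟨s0, c, hs0, cs, hc3, hd, es⟩ := split_invol hs sx sy
  obtain ⟨t0, d, ht0, ct, hd3, hd', et⟩ := split_invol ht ty tx
  by_cases h0 : #s0.support = 0
  · obtain ⟨p, q, hpq, rfl⟩ := card_support_eq_two.1 (show #s.support = 2 by omega)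
    obtain ⟨r, w, hrw, rfl⟩ := card_support_eq_two.1 (show #t.support = 2 by omega)
    by_cases hov : r = p ∨ r = q ∨ w = p ∨ w = q
    · obtain ⟨u, v, huv, hu, hv⟩ : ∃ u v : Ω, u ≠ v ∧ (u ≠ p ∧ u ≠ q ∧ u ≠ r ∧ u ≠ w) ∧
          (v ≠ p ∧ v ≠ q ∧ v ≠ r ∧ v ≠ w) := by
        rcases hov with rfl | rfl | rfl | rfl
        · obtain ⟨u, v, h⟩ := exists_two_fixed h5 r q w; exact ⟨u, v, by tauto⟩
        · obtain ⟨u, v, h⟩ := exists_two_fixed h5 p r w; exact ⟨u, v, by tauto⟩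
        · obtain ⟨u, v, h⟩ := exists_two_fixed h5 w q r; exact ⟨u, v, by tauto⟩
        · obtain ⟨u, v, h⟩ := exists_two_fixed h5 p w r; exact ⟨u, v, by tauto⟩
      have su := swap_apply_of_ne_of_ne hu.1 hu.2.1
      have sv := swap_apply_of_ne_of_ne hv.1 hv.2.1
      have tu := swap_apply_of_ne_of_ne hu.2.2.1 hu.2.2.2
      have tv := swap_apply_of_ne_of_ne hv.2.2.1 hv.2.2.2
      refine good_invol (s := swap u v * swap p q) (t := swap u v * swap r w) (swap_mul_invol hs su sv)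
        (swap_mul_invol ht tu tv) ?_ ?_ (by simp [huv, hpq]) ?_
      · rw [card_swap_mul huv su sv, card_swap_mul huv tu tv, hc]
      · rw [card_swap_mul huv su sv]; omega
      · rw [e, (disj_swap su sv).commute.eq, mul_assoc, ← mul_assoc (swap u v), swap_mul_self, one_mul]
    · push Not at hov
      obtain ⟨a1, a2, a3, a4⟩ := hov
      refine good_of (a := swap p r * swap q w) (a' := swap r w * (swap p r * swap q w)⁻¹ * (swap r w)⁻¹)
        (two_dbl a1.symm hpq a3.symm a2 hrw a4.symm) (by simp [a1.symm, a4.symm])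
        (isConj_iff.2 ⟨_, rfl⟩) ?_
      rw [e]
      ext z
      simp only [mul_inv_rev, swap_inv, mul_apply, swap_apply_def]
      grind
  have hev : 2 ≤ #s0.support := by
    have := card_support_ne_one s0
    omega
  rcases Int.units_eq_one_or (sign s) with hsg | hsg
  · exact good_invol hs ht hc (by omega) hsg e
  have h3 : 3 ≤ #s0.support := by
    by_contra hn
    have h2 := (card_support_eq_two.1 (show #s0.support = 2 by omega)).sign_eq
    have h4 := congrArg sign es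
    rw [map_mul, map_mul, hsg, sign_swap hxy, h2, hc3.sign] at h4
    exact absurd h4 (by decide)
  refine good_of (a := s * swap x y) (a' := swap x y * t) ?_ (by rw [map_mul, hsg, sign_swap hxy]; simp) ?_ ?_
  · rw [es]
    refine two_of hs0 h3 fun z hz => ?_
    rw [mul_apply, (hd z).resolve_left hz]
  · have e1 : swap x y * t = (t * swap y x)⁻¹ := by
      rw [mul_inv_rev, swap_inv, inv_eq_of_mul_eq_one_right ht, swap_comm]
    rw [e1, es, et, isConj_iff_cycleType_eq, cycleType_inv, cycleType_inv, ← isConj_iff_cycleType_eq]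
    refine Disjoint.isConj_mul (isConj_invol hs0 ht0 (by omega)) ?_ hd hd'
    rw [isConj_iff_cycleType_eq, hc3.cycleType, hd3.cycleType]
  · rw [e, mul_assoc, ← mul_assoc (swap x y), swap_mul_self, one_mul]

section Cover

variable {Γ : Type*} [Group Γ] {τ : Γ →* Perm Ω}

theorem exists_z (h2 : Nat.card τ.ker = 2) :
    ∃ z : Γ, z ∈ τ.ker ∧ z ≠ 1 ∧ z * z = 1 ∧ ∀ w ∈ τ.ker, w = 1 ∨ w = z := by
  obtain ⟨z, hz, hu⟩ := (Nat.card_eq_two_iff' (1 : τ.ker)).1 h2
  have hw : ∀ w ∈ τ.ker, w = 1 ∨ w = z := fun w hw => by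
    by_cases h : (⟨w, hw⟩ : τ.ker) = 1
    · exact Or.inl (congrArg Subtype.val h)
    · exact Or.inr (congrArg Subtype.val (hu _ h))
  have hz1 : (z : Γ) ≠ 1 := fun h => hz (Subtype.ext h)
  refine ⟨z, z.2, hz1, ?_, hw⟩
  exact (hw _ (τ.ker.mul_mem z.2 z.2)).resolve_right fun h => hz1 (by simpa using h)

theorem not_section (h : AltExt τ) (hperf : commutator Γ = ⊤) {z : Γ} (hz : z ∈ τ.ker) (hz1 : z ≠ 1)
    (η : alternatingGroup Ω →* Γ) (hη : ∀ g, τ (η g) = g) : False := by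
  have key : ∀ X : Γ, ∃ a, ∃ ζ ∈ Subgroup.center Γ, X = η a * ζ := fun X => by
    obtain ⟨ζ, hζ, -, e⟩ := h.exists_eq_mul (Y := η ⟨τ X, h.mem_alt X⟩) (Y' := X) (hη _)
    exact ⟨_, ζ, h.central hζ, e⟩
  have hle : commutator Γ ≤ η.range := by
    rw [commutator_def, Subgroup.commutator_le]
    intro X _ Y _
    obtain ⟨a, ζ, hζ, rfl⟩ := key X
    obtain ⟨b, ξ, hξ, rfl⟩ := key Y
    refine ⟨⁅a, b⁆, ?_⟩
    rw [map_commutatorElement, commutatorElement_def, commutatorElement_def]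
    have c1 := Subgroup.mem_center_iff.1 hζ
    have c2 := Subgroup.mem_center_iff.1 hξ
    calc η a * η b * (η a)⁻¹ * (η b)⁻¹ = η a * (η b * ξ * (η a)⁻¹ * ξ⁻¹) * (η b)⁻¹ := by
          rw [mul_assoc (η b), ← c2, ← mul_assoc (η b), mul_inv_cancel_right, mul_assoc (η a)]
      _ = η a * (ζ * (η b * ξ) * ζ⁻¹ * (η a)⁻¹ * ξ⁻¹) * (η b)⁻¹ := by
          rw [← c1, mul_inv_cancel_right]
      _ = _ := by simp only [mul_assoc, mul_inv_rev]
  obtain ⟨a, rfl⟩ := hle (hperf ▸ Subgroup.mem_top z)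
  rw [MonoidHom.mem_ker, hη] at hz
  exact hz1 (by rw [show a = 1 from Subtype.ext hz, map_one])

variable (h : AltExt τ) (hperf : commutator Γ = ⊤) (h2 : Nat.card τ.ker = 2) {z : Γ} (hz : z ∈ τ.ker)
  (hz1 : z ≠ 1) (hzz : z * z = 1) (hw : ∀ w ∈ τ.ker, w = 1 ∨ w = z)
include h hperf h2 hz hz1 hzz hw

theorem sq_dbl {a b i j : Ω} (h1 : a ≠ b) (h3 : a ≠ i) (h4 : b ≠ i) (h5 : a ≠ j) (h6 : b ≠ j) (h7 : i ≠ j)
    {U : Γ} (hU : τ U = swap a i * swap b j) : U * U = z := by
  obtain ⟨X, w, hwk, hX, hXX⟩ := h.exists_family_of_not_dvd (by rw [h2]; decide) h1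
  have hwz : w = z := by
    refine (hw w hwk).resolve_left fun h0 => ?_
    obtain ⟨η, hη⟩ := exists_alt_section τ h1 X (fun i a b => (hX i a b).2) (fun i a b => (hX i a b).1)
      (h0 ▸ hXX)
    exact not_section h hperf hz hz1 η hη
  obtain ⟨ζ, hζ, hc, rfl⟩ := h.exists_eq_mul (Y := X i * X j) (Y' := U)
    (by rw [map_mul, (hX i h3 h4).2, (hX j h5 h6).2, c3_mul_c3 h1 h3 h4 h5 h6 h7, hU])
  have hζ2 : ζ * ζ = 1 := by
    rcases hw ζ hζ with rfl | rfl
    · exact one_mul _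
    · exact hzz
  rw [mul_assoc, ← mul_assoc ζ, ← (hc _).eq, mul_assoc (X i * X j) ζ ζ, hζ2, mul_one, ← pow_two,
    hXX i j h3 h4 h5 h6 h7, hwz]

theorem nonsplit {A : Γ} (hA : Two (τ A)) : ∃ C : Γ, C * A = z * A * C := by
  obtain ⟨p, q, r, s, h1, h3, h4, h5, h6, h7, e1, e2, e3, e4⟩ := hA
  obtain ⟨U, hU⟩ := h.exists_lift (g := swap p q * swap r s) (by simp [h1, h7])
  obtain ⟨X, hX⟩ := h.exists_lift (c3_mem_alt h1 h5 : c3 p q r ∈ _)
  obtain ⟨Y, hY⟩ := h.exists_lift (c3_mem_alt h1 h6 : c3 p q s ∈ _)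
  have hV : τ (X * Y) = swap p r * swap q s := by rw [map_mul, hX, hY, c3_mul_c3 h1 h3 h5 h4 h6 h7]
  have hUV : τ (U * (X * Y)) = swap p s * swap q r := by
    rw [map_mul, hU, hV]
    ext y
    simp only [mul_apply, swap_apply_def]
    grind
  have s1 := sq_dbl h hperf h2 hz hz1 hzz hw h3 h1 h5.symm h4 h7 h6 hU
  have s2 := sq_dbl h hperf h2 hz hz1 hzz hw h1 h3 h5 h4 h6 h7 hV
  have s3 := sq_dbl h hperf h2 hz hz1 hzz hw h1 h4 h6 h3 h5 h7.symm hUV
  have cz := Subgroup.mem_center_iff.1 (h.central hz)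
  have hf : ∀ y, (y = p ∨ y = q ∨ y = r ∨ y = s) → τ (U⁻¹ * A) y = y := by
    intro y hy
    rw [map_mul, map_inv, hU]
    simp only [mul_inv_rev, swap_inv, mul_apply, swap_apply_def]
    grind
  have hcm : ∀ (W : Γ) (k : Ω), (k = r ∨ k = s) → τ W = c3 p q k → Commute W (U⁻¹ * A) := by
    intro W k hk hW
    have hk1 : p ≠ k := by rcases hk with rfl | rfl <;> assumption
    have hk2 : q ≠ k := by rcases hk with rfl | rfl <;> assumption
    have hc : Commute (τ W) (τ (U⁻¹ * A)) := by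
      refine Perm.Disjoint.commute fun y => ?_
      by_cases hy : y = p ∨ y = q ∨ y = r ∨ y = s
      · exact Or.inr (hf y hy)
      · push Not at hy
        refine Or.inl (hW ▸ c3_apply_of_ne hy.1 hy.2.1 ?_)
        rcases hk with rfl | rfl
        · exact hy.2.2.1
        · exact hy.2.2.2
    have h3 := h.comm_cube (hW ▸ isThreeCycle_c3 h1 hk1 hk2) hc
    rw [← commutatorElement_eq_one_iff_commute]
    refine (hw _ (AltExt.comm_mem_ker hc)).resolve_right fun e => hz1 ?_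
    rw [e, pow_three', hzz, one_mul] at h3
    exact h3
  have hc := (hcm X r (Or.inl rfl) hX).mul_left (hcm Y s (Or.inr rfl) hY)
  generalize X * Y = V at *
  have hVU : V * U = z * U * V := by
    have a1 : U * (V * U) * V = U * (z * U * V) * V := by
      calc U * (V * U) * V = U * V * (U * V) := by simp only [mul_assoc]
        _ = z * (z * z) := by rw [s3, hzz, mul_one]
        _ = z * (U * U * (V * V)) := by rw [s1, s2]
        _ = _ := by rw [← mul_assoc U, ← mul_assoc U, cz U]; simp only [mul_assoc]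
    exact mul_left_cancel (mul_right_cancel a1)
  refine ⟨V, ?_⟩
  calc V * A = V * U * (U⁻¹ * A) := by group
    _ = z * U * (V * (U⁻¹ * A)) := by rw [hVU, mul_assoc]
    _ = z * A * V := by rw [hc.eq]; group

end Cover

theorem isComm {Γ : Type*} [Group Γ] {τ : Γ →* Perm Ω} (h : AltExt τ) (hperf : commutator Γ = ⊤)
    (h2 : Nat.card τ.ker = 2) (h5 : 5 ≤ Fintype.card Ω) (g : Γ) : ∃ a b : Γ, a * b * a⁻¹ * b⁻¹ = g := by
  obtain ⟨z, hz, hz1, hzz, hw⟩ := exists_z h2
  obtain ⟨a, b, ha, sa, sb, e⟩ := good h5 (mem_alternatingGroup.1 (h.mem_alt g))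
  obtain ⟨A, rfl⟩ := h.exists_lift (mem_alternatingGroup.2 sa)
  obtain ⟨B, rfl⟩ := h.exists_lift (mem_alternatingGroup.2 sb)
  obtain ⟨ζ, hζ, hc, e'⟩ := h.exists_eq_mul (Y := A * B * A⁻¹ * B⁻¹) (Y' := g) (by simp [e])
  rcases hw ζ hζ with rfl | rfl
  · exact ⟨A, B, by rw [e', mul_one]⟩
  · obtain ⟨C, hC⟩ := nonsplit h hperf h2 hz hz1 hzz hw ha
    refine ⟨A, B * C, ?_⟩
    have hzi : ζ⁻¹ = ζ := inv_eq_of_mul_eq_one_right hzz
    have : C * A⁻¹ * C⁻¹ = A⁻¹ * ζ := by
      rw [← hzi, ← mul_inv_rev, ← mul_inv_cancel_right (ζ * A) C, ← hC]; group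
    calc A * (B * C) * A⁻¹ * (B * C)⁻¹ = A * B * (C * A⁻¹ * C⁻¹) * B⁻¹ := by group
      _ = A * B * A⁻¹ * (ζ * B⁻¹) := by rw [this]; simp only [mul_assoc]
      _ = g := by rw [e', ← (hc _).eq]; simp only [mul_assoc]

theorem main {G : Type*} [Group G] (hperf : commutator G = ⊤) {n : ℕ} (hn : 5 ≤ n)
    (hZ : Nat.card (Subgroup.center G) = 2) (e : G ⧸ Subgroup.center G ≃* alternatingGroup (Fin n))
    (g : G) : ∃ a b : G, a * b * a⁻¹ * b⁻¹ = g := by
  let σ : G →* alternatingGroup (Fin n) := e.toMonoidHom.comp (QuotientGroup.mk' _)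
  have hk : σ.ker = Subgroup.center G := by
    ext x
    simp [σ, MonoidHom.mem_ker]
  exact isComm (altExt_of_hom (σ := σ) (e.surjective.comp (QuotientGroup.mk'_surjective _)) hk.le) hperf
    (by rw [ker_subtype_comp, hk, hZ]) (by simpa using hn) g

end CL.AltCC
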