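/-
Numerical functions bounding the orders of nilpotent subgroups of symmetric and alternating groups.
-/
import Cfsg.Agent.Known.AltMisc

set_option autoImplicit false

namespace CL.Known

open Nat

/-- the `2`-part of `n!` -/
def f2 (n : ℕ) : ℕ := Nat.gcd n ! (2 ^ n)

theorem f2_eq (n : ℕ) : f2 n = 2 ^ (n !).factorization 2 := by
  apply Nat.dvd_antisymm
  · obtain ⟨k, -, hk⟩ := (Nat.dvd_prime_pow Nat.prime_two).1 (Nat.gcd_dvd_right n ! (2 ^ n))
    have h1 : 2 ^ k ∣ n ! := hk ▸ Nat.gcd_dvd_left _ _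
    rw [f2, hk]
    exact pow_dvd_pow 2 ((Nat.prime_two.pow_dvd_iff_le_factorization n.factorial_ne_zero).1 h1)
  · refine Nat.dvd_gcd (Nat.ordProj_dvd _ _) (pow_dvd_pow 2 ?_)
    simpa using Nat.factorization_factorial_le_div_pred Nat.prime_two n

theorem f2_pos (n : ℕ) : 0 < f2 n := by rw [f2_eq]; positivity

theorem f2_mul_le (a b : ℕ) : f2 a * f2 b ≤ f2 (a + b) := by
  rw [f2_eq, f2_eq, f2_eq, ← pow_add]
  refine Nat.pow_le_pow_right two_pos ?_
  have h := (Nat.factorization_le_iff_dvd (mul_ne_zero a.factorial_ne_zero b.factorial_ne_zero)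
    (a + b).factorial_ne_zero).2 (Nat.factorial_mul_factorial_dvd_factorial_add a b) 2
  rwa [Nat.factorization_mul a.factorial_ne_zero b.factorial_ne_zero] at h

theorem f2_succ (n : ℕ) : f2 (n + 1) = 2 ^ (n + 1).factorization 2 * f2 n := by
  rw [f2_eq, f2_eq, Nat.factorial_succ, Nat.factorization_mul (by omega) n.factorial_ne_zero, Finsupp.add_apply,
    pow_add]

theorem f2_succ_of_even {n : ℕ} (h : n % 2 = 0) : f2 (n + 1) = f2 n := by
  rw [f2_succ, Nat.factorization_eq_zero_of_not_dvd (by omega), pow_zero, one_mul]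

theorem f2_four_mul_add_one (m : ℕ) : f2 (4 * m + 1) = f2 (4 * m) := f2_succ_of_even (by omega)

theorem f2_four_mul_add_two (m : ℕ) : f2 (4 * m + 2) = 2 * f2 (4 * m) := by
  rw [f2_succ, f2_four_mul_add_one]
  have : (4 * m + 1 + 1).factorization 2 = 1 := by
    rw [show 4 * m + 1 + 1 = 2 * (2 * m + 1) by ring, Nat.factorization_mul (by omega) (by omega), Finsupp.add_apply,
      Nat.factorization_eq_zero_of_not_dvd (n := 2 * m + 1) (by omega), Nat.prime_two.factorization_self]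
  rw [this, pow_one]

theorem f2_four_mul_add_three (m : ℕ) : f2 (4 * m + 3) = 2 * f2 (4 * m) := by
  rw [f2_succ_of_even (by omega), f2_four_mul_add_two]

theorem f2_four : f2 4 = 8 := by decide +kernel

/-- the largest order of a nilpotent subgroup of `S_n` -/
def nilF (n : ℕ) : ℕ := if n % 4 = 3 then 3 * f2 (n - 3) else f2 n

theorem nilF_of_ne {n : ℕ} (h : n % 4 ≠ 3) : nilF n = f2 n := if_neg h

theorem nilF_of_eq {n : ℕ} (h : n % 4 = 3) : nilF n = 3 * f2 (n - 3) := if_pos h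

theorem nilF_pos (n : ℕ) : 0 < nilF n := by
  unfold nilF
  have := f2_pos n
  have := f2_pos (n - 3)
  split_ifs <;> omega

theorem nilF_four_mul (m : ℕ) : nilF (4 * m) = f2 (4 * m) := nilF_of_ne (by omega)

theorem nilF_four_mul_add_one (m : ℕ) : nilF (4 * m + 1) = f2 (4 * m) := by
  rw [nilF_of_ne (by omega), f2_four_mul_add_one]

theorem nilF_four_mul_add_two (m : ℕ) : nilF (4 * m + 2) = 2 * f2 (4 * m) := by
  rw [nilF_of_ne (by omega), f2_four_mul_add_two]

theorem nilF_four_mul_add_three (m : ℕ) : nilF (4 * m + 3) = 3 * f2 (4 * m) := by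
  rw [nilF_of_eq (by omega)]; rfl

theorem f2_le_nilF (n : ℕ) : f2 n ≤ nilF n := by
  by_cases h : n % 4 = 3
  · obtain ⟨m, rfl⟩ : ∃ m, n = 4 * m + 3 := ⟨n / 4, by omega⟩
    rw [nilF_four_mul_add_three, f2_four_mul_add_three]; omega
  · rw [nilF_of_ne h]

theorem f2_lt_nilF {n : ℕ} (h : n % 4 = 3) : f2 n < nilF n := by
  obtain ⟨m, rfl⟩ : ∃ m, n = 4 * m + 3 := ⟨n / 4, by omega⟩
  rw [nilF_four_mul_add_three, f2_four_mul_add_three]
  have := f2_pos (4 * m)
  omega

theorem nilF_mul_aux (a b : ℕ) : nilF a * nilF b ≤ nilF (a + b) ∧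
    ((a + b) % 4 = 3 → nilF a * nilF b = nilF (a + b) → a % 4 = 3 ∨ b % 4 = 3) := by
  obtain ⟨m, r, hr, rfl⟩ : ∃ m r, r < 4 ∧ a = 4 * m + r := ⟨a / 4, a % 4, by omega, by omega⟩
  obtain ⟨k, s, hs, rfl⟩ : ∃ k s, s < 4 ∧ b = 4 * k + s := ⟨b / 4, b % 4, by omega, by omega⟩
  have h1 : f2 (4 * m) * f2 (4 * k) ≤ f2 (4 * (m + k)) := by rw [mul_add]; exact f2_mul_le _ _
  have h2 : f2 (4 * (m + k)) * 8 ≤ f2 (4 * (m + k + 1)) := by
    rw [← f2_four, mul_add 4 (m + k) 1]; exact f2_mul_le _ _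
  have h3 := f2_pos (4 * (m + k))
  have e0 : ∀ j, 4 * m + r + (4 * k + s) = 4 * (m + k) + j → j < 4 → nilF (4 * m + r + (4 * k + s)) =
      nilF (4 * (m + k) + j) := fun j h _ => by rw [h]
  have e1 : ∀ j, 4 * m + r + (4 * k + s) = 4 * (m + k + 1) + j → j < 4 → nilF (4 * m + r + (4 * k + s)) =
      nilF (4 * (m + k + 1) + j) := fun j h _ => by rw [h]
  interval_cases r <;> interval_cases s
  all_goals first
    | rw [e0 0 (by omega) (by norm_num)]
    | rw [e0 1 (by omega) (by norm_num)]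
    | rw [e0 2 (by omega) (by norm_num)]
    | rw [e0 3 (by omega) (by norm_num)]
    | rw [e1 0 (by omega) (by norm_num)]
    | rw [e1 1 (by omega) (by norm_num)]
    | rw [e1 2 (by omega) (by norm_num)]
  all_goals
    simp only [add_zero, nilF_four_mul, nilF_four_mul_add_one, nilF_four_mul_add_two, nilF_four_mul_add_three]
    constructor
    · nlinarith
    · intro h e
      first
      | omega
      | exfalso; nlinarith

theorem nilF_mul_le (a b : ℕ) : nilF a * nilF b ≤ nilF (a + b) := (nilF_mul_aux a b).1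

theorem nilF_mono {a b : ℕ} (h : a ≤ b) : nilF a ≤ nilF b := by
  obtain ⟨c, rfl⟩ := Nat.exists_eq_add_of_le h
  exact (Nat.le_mul_of_pos_right _ (nilF_pos c)).trans (nilF_mul_le a c)

theorem three_pow_lt_nilF {n : ℕ} (h : 16 ≤ n) : 4 * 3 ^ n < nilF n ^ 2 := by
  induction n using Nat.strong_induction_on with
  | _ n ih =>
    by_cases h24 : n < 24
    · interval_cases n <;> decide +kernel
    · obtain ⟨m, rfl⟩ : ∃ m, n = m + 8 := ⟨n - 8, by omega⟩
      have h1 := ih m (by omega) (by omega)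
      have h2 := nilF_mul_le m 8
      have h3 : nilF 8 = 128 := by decide +kernel
      rw [h3] at h2
      have h4 : (nilF m * 128) ^ 2 ≤ nilF (m + 8) ^ 2 := Nat.pow_le_pow_left h2 2
      rw [pow_add]
      nlinarith

theorem sq_le_three_pow {p : ℕ} (hp : 3 ≤ p) : p ^ 2 ≤ 3 ^ (p - 1) := by
  induction p, hp using Nat.le_induction with
  | base => norm_num
  | succ k hk ih =>
    obtain ⟨j, rfl⟩ : ∃ j, k = j + 1 := ⟨k - 1, by omega⟩
    simp only [Nat.add_sub_cancel] at ih ⊢
    rw [pow_succ 3]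
    nlinarith

theorem prime_pow_sq_le {p j n : ℕ} (hp : p.Prime) (h2 : p ≠ 2) (h : p ^ j ∣ n !) : (p ^ j) ^ 2 ≤ 3 ^ n := by
  have h3 : 3 ≤ p := by have := hp.two_le; omega
  have h1 := ((hp.pow_dvd_iff_le_factorization n.factorial_ne_zero).1 h).trans
    (Nat.factorization_factorial_le_div_pred hp n)
  rw [← pow_mul, mul_comm, pow_mul]
  calc (p ^ 2) ^ j ≤ (3 ^ (p - 1)) ^ j := Nat.pow_le_pow_left (sq_le_three_pow h3) j
    _ = 3 ^ (j * (p - 1)) := by rw [← pow_mul, mul_comm]
    _ ≤ 3 ^ n := Nat.pow_le_pow_right (by norm_num) ((Nat.le_div_iff_mul_le (by omega)).1 h1)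

/-- the largest order of a nilpotent subgroup of `A_n` -/
def nilA (n : ℕ) : ℕ :=
  if n ≤ 1 then 1 else if n = 3 then 3 else if n = 5 then 5 else if n = 6 then 9 else if n = 9 then 81 else nilF n / 2

/-- the degrees at which the bound for `A_n` is not half of the bound for `S_n` -/
def NilExc (n : ℕ) : Prop := n = 0 ∨ n = 1 ∨ n = 3 ∨ n = 5 ∨ n = 6 ∨ n = 9

instance : DecidablePred NilExc := fun n => by unfold NilExc; infer_instance

theorem nilA_of_not_exc {n : ℕ} (h : ¬ NilExc n) : nilA n = nilF n / 2 := by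
  unfold NilExc at h
  unfold nilA
  rw [if_neg (by omega), if_neg (by omega), if_neg (by omega), if_neg (by omega), if_neg (by omega)]

theorem le_nilA_of_two_mul_le {n k : ℕ} (h : 2 * k ≤ nilF n) : k ≤ nilA n := by
  by_cases he : NilExc n
  · have : ∀ n, NilExc n → nilF n ≤ 2 * nilA n := by
      rintro n (rfl | rfl | rfl | rfl | rfl | rfl) <;> decide +kernel
    have := this n he
    omega
  · rw [nilA_of_not_exc he]; omega

theorem two_mul_le_nilF {n k : ℕ} (he : ¬ NilExc n) (h : k ≤ nilA n) : 2 * k ≤ nilF n := by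
  rw [nilA_of_not_exc he] at h; omega

theorem nilA_mul_le_of_exc {a b : ℕ} (ha : NilExc a) (hb : NilExc b) : nilA a * nilA b ≤ nilA (a + b) ∧
    ((a + b) % 4 = 3 → 7 ≤ a + b → 2 * (nilA a * nilA b) < nilF (a + b)) := by
  rcases ha with rfl | rfl | rfl | rfl | rfl | rfl <;> rcases hb with rfl | rfl | rfl | rfl | rfl | rfl <;>
    decide +kernel

set_option synthInstance.maxSize 2048 in
theorem odd_prime_pow_le {p j n : ℕ} (hp : p.Prime) (h2 : p ≠ 2) (h : p ^ j ∣ n !) : p ^ j ≤ nilA n ∧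
    (n % 4 = 3 → 7 ≤ n → 2 * p ^ j < nilF n) := by
  by_cases h16 : 16 ≤ n
  · have h1 := three_pow_lt_nilF h16
    have h3 := prime_pow_sq_le hp h2 h
    have h4 : 2 * p ^ j < nilF n := by
      by_contra hc
      have := Nat.pow_le_pow_left (not_lt.1 hc) 2
      nlinarith
    exact ⟨le_nilA_of_two_mul_le h4.le, fun _ _ => h4⟩
  · have key : ∀ n < 16, ∀ p < 16, ∀ j < 16, p.Prime → p ≠ 2 → p ^ j ∣ n ! → p ^ j ≤ nilA n ∧
        (n % 4 = 3 → 7 ≤ n → 2 * p ^ j < nilF n) := by
      decide +kernel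
    rcases Nat.eq_zero_or_pos j with rfl | hj
    · exact key n (by omega) 3 (by norm_num) 0 (by norm_num) Nat.prime_three (by norm_num) (by simp)
    · have h1 : p ≤ n := hp.dvd_factorial.1 ((dvd_pow_self p hj.ne').trans h)
      have h3 := ((hp.pow_dvd_iff_le_factorization n.factorial_ne_zero).1 h).trans
        ((Nat.factorization_factorial_le_div_pred hp n).trans (Nat.div_le_self _ _))
      exact key n (by omega) p (by omega) j (by omega) hp h2 h

theorem nilA_le_nilF (n : ℕ) : nilA n ≤ nilF n := by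
  by_cases he : NilExc n
  · rcases he with rfl | rfl | rfl | rfl | rfl | rfl <;> decide +kernel
  · rw [nilA_of_not_exc he]; exact Nat.div_le_self _ _

theorem two_mul_nilF_mul_le {a b n : ℕ} (ha : 2 ≤ a) (hb : 2 ≤ b) (hab : a.Coprime b) (han : a ∣ n) (hbn : b ∣ n)
    (hn : 0 < n) : 2 * (nilF a * nilF b) ≤ nilF n ∧ (n % 2 = 1 → 2 * (nilF a * nilF b) < nilF n) := by
  have h1 : a * b ≤ n := Nat.le_of_dvd hn (hab.mul_dvd_of_dvd_of_dvd han hbn)
  have h2 := nilF_mul_le a b
  have hne : a ≠ b := by rintro rfl; rw [Nat.coprime_self] at hab; omega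
  constructor
  · by_cases h3 : a + b + 2 ≤ n
    · have h4 := nilF_mul_le (a + b) 2
      have h5 : nilF 2 = 2 := by decide +kernel
      have h6 := nilF_mono h3
      rw [h5] at h4
      omega
    · have h4 : (a = 2 ∧ b = 3) ∨ (a = 3 ∧ b = 2) := by
        obtain ⟨a, rfl⟩ := Nat.exists_eq_add_of_le ha
        obtain ⟨b, rfl⟩ := Nat.exists_eq_add_of_le hb
        have h7 : a * b + a + b < 2 := by nlinarith
        omega
      have h5 : nilF 6 ≤ nilF n := nilF_mono (by rcases h4 with ⟨rfl, rfl⟩ | ⟨rfl, rfl⟩ <;> omega)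
      rcases h4 with ⟨rfl, rfl⟩ | ⟨rfl, rfl⟩ <;> exact le_trans (by decide +kernel) h5
  · intro hodd
    have ha2 : a % 2 = 1 := by
      by_contra hc
      have := (Nat.dvd_of_mod_eq_zero (show a % 2 = 0 by omega)).trans han
      omega
    have hb2 : b % 2 = 1 := by
      by_contra hc
      have := (Nat.dvd_of_mod_eq_zero (show b % 2 = 0 by omega)).trans hbn
      omega
    have h3 : a + b + 4 ≤ n := by
      obtain ⟨a, rfl⟩ := Nat.exists_eq_add_of_le (show 3 ≤ a by omega)
      obtain ⟨b, rfl⟩ := Nat.exists_eq_add_of_le (show 3 ≤ b by omega)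
      have h7 : 1 ≤ a + b := by omega
      nlinarith
    have h4 := nilF_mul_le (a + b) 4
    have h5 : nilF 4 = 8 := by decide +kernel
    have h6 := nilF_mono h3
    have h7 := nilF_pos (a + b)
    rw [h5] at h4
    omega

end CL.Known
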