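/-
Orders of nilpotent subgroups of symmetric and alternating groups.
-/
import Cfsg.Agent.Known.AltNilpNum
import Cfsg.Agent.Known.AltIso
import Cfsg.Agent.Known.AltAbelian2
import Cfsg.Agent.Known.AltWreath
import Cfsg.Agent.Grp.NilpSub

set_option autoImplicit false

namespace CL.Known

open Equiv Equiv.Perm MulAction Nat
open scoped Pointwise

universe u

variable {Ω : Type u}

theorem isNilpotent_pres {H : Subgroup (Perm Ω)} {p : Ω → Prop} (h : PInv H p) (hH : Group.IsNilpotent H) :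
    Group.IsNilpotent (pres h) := Group.nilpotent_of_surjective _ (pres_surj h)

theorem orbit_of_commuting_factor [Finite Ω] {N P Q : Subgroup (Perm Ω)} (ht : IsPretransitive N Ω) (hP : P ≤ N)
    (hc : ∀ u ∈ P, ∀ v ∈ Q, u * v = v * u) (hN : ∀ g ∈ N, ∃ u ∈ P, ∃ v ∈ Q, g = u * v) (h1 : P ≠ ⊥) (x : Ω) :
    Nat.card (pres (pinv_orbit P x)) = Nat.card P ∧ 2 ≤ Nat.card (orbit P x) ∧
      Nat.card (orbit P x) ∣ Nat.card P ∧ Nat.card (orbit P x) ∣ Nat.card Ω := by
  have hinj : Function.Injective (presHom (pinv_orbit P x)) := by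
    rw [injective_iff_map_eq_one]
    intro g hg
    refine Subtype.ext (Equiv.ext fun y => ?_)
    obtain ⟨⟨k, hk⟩, rfl⟩ := ht.exists_smul_eq x y
    obtain ⟨u, hu, v, hv, rfl⟩ := hN k hk
    have h2 : (g : Perm Ω) (u x) = u x :=
      congrArg (fun f : Perm {y // y ∈ orbit P x} => (f ⟨u x, ⟨⟨u, hu⟩, rfl⟩⟩ : Ω)) hg
    change ((g : Perm Ω) * (u * v)) x = (u * v) x
    rw [hc u hu v hv, ← mul_assoc, hc g g.2 v hv, mul_assoc, Perm.mul_apply, Perm.mul_apply, h2, Perm.mul_apply]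
  have hcard : Nat.card (pres (pinv_orbit P x)) = Nat.card P :=
    (Nat.card_congr (MonoidHom.ofInjective hinj).toEquiv).symm
  refine ⟨hcard, ?_, ?_, ?_⟩
  · by_contra hlt
    haveI : Subsingleton {y // y ∈ orbit P x} := Finite.card_le_one_iff_subsingleton.1 (by
      change Nat.card (orbit P x) ≤ 1; omega)
    apply h1
    rw [← Subgroup.card_eq_one, ← hcard, Subgroup.card_eq_one]
    exact Subsingleton.elim _ _
  · rw [Nat.card_coe_set_eq, ← index_stabilizer]; exact Subgroup.index_dvd_card _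
  · haveI : (P.subgroupOf N).Normal := ⟨fun g hg k => by
      obtain ⟨u, hu, v, hv, e⟩ := hN k k.2
      rw [Subgroup.mem_subgroupOf] at hg ⊢
      have : ((k * g * k⁻¹ : N) : Perm Ω) = u * g * u⁻¹ := by
        rw [Subgroup.coe_mul, Subgroup.coe_mul, Subgroup.coe_inv, e, mul_assoc u v, ← hc g hg v hv]
        group
      rw [this]
      exact mul_mem (mul_mem hu hg) (inv_mem hu)⟩
    have hb := (IsBlock.orbit_of_normal (G := N) (N := P.subgroupOf N) x).ncard_dvd_card ⟨x, mem_orbit_self x⟩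
    have e : orbit (P.subgroupOf N) x = orbit P x := by
      ext y
      constructor
      · rintro ⟨g, rfl⟩; exact ⟨⟨g.1.1, g.2⟩, rfl⟩
      · rintro ⟨g, rfl⟩; exact ⟨⟨⟨g.1, hP g.2⟩, g.2⟩, rfl⟩
    rwa [e] at hb

theorem nilpotent_transitive_cases [Finite Ω] [Nonempty Ω] {N : Subgroup (Perm Ω)} (hN : Group.IsNilpotent N)
    (ht : IsPretransitive N Ω) : (∃ p : ℕ, p.Prime ∧ IsPGroup p N) ∨
      ∃ (p q : Ω → Prop) (A : Subgroup (Perm {x // p x})) (B : Subgroup (Perm {x // q x})),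
        Group.IsNilpotent A ∧ Group.IsNilpotent B ∧ Nat.card N = Nat.card A * Nat.card B ∧
        2 ≤ Nat.card {x // p x} ∧ 2 ≤ Nat.card {x // q x} ∧ (Nat.card {x // p x}).Coprime (Nat.card {x // q x}) ∧
        Nat.card {x // p x} ∣ Nat.card Ω ∧ Nat.card {x // q x} ∣ Nat.card Ω := by
  by_cases h1 : Nat.card N = 1
  · exact Or.inl ⟨2, Nat.prime_two, IsPGroup.of_card (n := 0) (by simpa using h1)⟩
  obtain ⟨p, hp, hd⟩ := Nat.exists_prime_and_dvd h1
  haveI := Fact.mk hp
  obtain ⟨S⟩ : Nonempty (Sylow p N) := inferInstance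
  haveI : (S : Subgroup N).Normal := (Group.isNilpotent_of_finite_tfae.out 0 3 rfl rfl).1 hN p inferInstance S
  obtain ⟨K, hK⟩ := Subgroup.exists_right_complement'_of_coprime (N := (S : Subgroup N)) S.card_coprime_index
  by_cases hK1 : K = ⊥
  · refine Or.inl ⟨p, hp, ?_⟩
    rw [hK1, Subgroup.isComplement'_bot_right] at hK
    exact (hK ▸ S.isPGroup' : IsPGroup p (⊤ : Subgroup N)).of_equiv Subgroup.topEquiv
  right
  have hS1 : (S : Subgroup N) ≠ ⊥ := S.ne_bot_of_dvd_card hd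
  have hcop : (Nat.card (S : Subgroup N)).Coprime (Nat.card K) := by
    rw [← hK.symm.index_eq_card]; exact S.card_coprime_index
  set P := (S : Subgroup N).map N.subtype
  set Q := K.map N.subtype
  have hP : P ≤ N := Subgroup.map_subtype_le _
  have hQ : Q ≤ N := Subgroup.map_subtype_le _
  have cP : Nat.card P = Nat.card (S : Subgroup N) := card_map_subtype _
  have cQ : Nat.card Q = Nat.card K := card_map_subtype _
  have hc : ∀ u ∈ P, ∀ v ∈ Q, u * v = v * u := fun u hu v hv =>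
    CL.Grp.commute_of_mem_isNilpotent hN (hP hu) (hQ hv)
      (Nat.Coprime.coprime_dvd_right (cQ ▸ Q.orderOf_dvd_natCard hv)
        (Nat.Coprime.coprime_dvd_left (cP ▸ P.orderOf_dvd_natCard hu) hcop))
  have hf : ∀ g ∈ N, ∃ u ∈ P, ∃ v ∈ Q, g = u * v := fun g hg => by
    obtain ⟨⟨u, v⟩, e⟩ := hK.2 ⟨g, hg⟩
    exact ⟨u.1.1, ⟨u.1, u.2, rfl⟩, v.1.1, ⟨v.1, v.2, rfl⟩, (congrArg Subtype.val e).symm⟩
  obtain ⟨x⟩ := ‹Nonempty Ω›
  obtain ⟨a1, a2, a3, a4⟩ := orbit_of_commuting_factor ht hP hc hf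
    (by rwa [Ne, Subgroup.map_eq_bot_iff_of_injective _ N.subtype_injective]) x
  obtain ⟨b1, b2, b3, b4⟩ := orbit_of_commuting_factor ht hQ (fun u hu v hv => (hc v hv u hu).symm)
    (fun g hg => by
      obtain ⟨u, hu, v, hv, e⟩ := hf g hg
      exact ⟨v, hv, u, hu, e.trans (hc u hu v hv)⟩)
    (by rwa [Ne, Subgroup.map_eq_bot_iff_of_injective _ N.subtype_injective]) x
  refine ⟨_, _, pres (pinv_orbit P x), pres (pinv_orbit Q x), isNilpotent_pres _ (CL.Grp.isNilpotent_of_le hN hP),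
    isNilpotent_pres _ (CL.Grp.isNilpotent_of_le hN hQ), ?_, a2, b2, ?_, a4, b4⟩
  · rw [a1, b1, cP, cQ, hK.card_mul_card]
  · exact Nat.Coprime.coprime_dvd_right (cQ ▸ b3) (Nat.Coprime.coprime_dvd_left (cP ▸ a3) hcop)

theorem card_dvd_factorial [Finite Ω] (N : Subgroup (Perm Ω)) : Nat.card N ∣ (Nat.card Ω)! := by
  rw [← Nat.card_perm]; exact N.card_subgroup_dvd_card

theorem card_le_f2_of_isPGroup [Finite Ω] {N : Subgroup (Perm Ω)} (h : IsPGroup 2 N) :
    Nat.card N ≤ f2 (Nat.card Ω) := by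
  haveI := Fact.mk Nat.prime_two
  obtain ⟨k, hk⟩ := h.exists_card_eq
  have := card_dvd_factorial N
  rw [hk] at this ⊢
  rw [f2_eq]
  exact Nat.pow_le_pow_right two_pos
    ((Nat.prime_two.pow_dvd_iff_le_factorization (Nat.factorial_ne_zero _)).1 this)

theorem two_mul_card_le_f2_of_isPGroup [Fintype Ω] [DecidableEq Ω] {N : Subgroup (Perm Ω)} (h : IsPGroup 2 N)
    (hA : N ≤ alternatingGroup Ω) (h2 : 2 ≤ Nat.card Ω) : 2 * Nat.card N ≤ f2 (Nat.card Ω) := by
  haveI := Fact.mk Nat.prime_two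
  obtain ⟨k, hk⟩ := h.exists_card_eq
  have h1 : 2 * Nat.card N ∣ Nat.card (⊤ : Subgroup (Perm Ω)) := two_mul_card_dvd_of_le_alt le_top hA fun hc => by
    obtain ⟨t, ht⟩ := exists_odd_perm h2
    have := mem_alternatingGroup.1 (hc (Subgroup.mem_top t))
    rw [ht] at this
    exact absurd this (by decide)
  rw [Subgroup.card_top, Nat.card_perm, hk, ← pow_succ'] at h1
  rw [hk, ← pow_succ', f2_eq]
  exact Nat.pow_le_pow_right two_pos
    ((Nat.prime_two.pow_dvd_iff_le_factorization (Nat.factorial_ne_zero _)).1 h1)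

theorem card_le_nilA_of_isPGroup [Finite Ω] {N : Subgroup (Perm Ω)} {p : ℕ} (hp : p.Prime) (h2 : p ≠ 2)
    (h : IsPGroup p N) : Nat.card N ≤ nilA (Nat.card Ω) ∧
      (Nat.card Ω % 4 = 3 → 7 ≤ Nat.card Ω → 2 * Nat.card N < nilF (Nat.card Ω)) := by
  haveI := Fact.mk hp
  obtain ⟨k, hk⟩ := h.exists_card_eq
  have := card_dvd_factorial N
  rw [hk] at this ⊢
  exact odd_prime_pow_le hp h2 this

theorem card_eq_one_of_isEmpty [IsEmpty Ω] (N : Subgroup (Perm Ω)) : Nat.card N = 1 := by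
  rw [Subgroup.card_eq_one]; exact Subsingleton.elim _ _

theorem card_le_nilF (Ω : Type u) [Fintype Ω] [DecidableEq Ω] (N : Subgroup (Perm Ω)) :
    Group.IsNilpotent N → Nat.card N ≤ nilF (Nat.card Ω) := by
  revert Ω
  refine @orbit_induction _ ?_ ?_
  · intro Ω _ _ H ht ih hH
    rcases isEmpty_or_nonempty Ω with h0 | h0
    · rw [card_eq_one_of_isEmpty]; exact nilF_pos _
    rcases nilpotent_transitive_cases hH ht with ⟨p, hp, h⟩ | ⟨p, q, A, B, hA, hB, e, a2, b2, hab, ha, hb⟩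
    · by_cases h2 : p = 2
      · exact (card_le_f2_of_isPGroup (h2 ▸ h)).trans (f2_le_nilF _)
      · exact (card_le_nilA_of_isPGroup hp h2 h).1.trans (nilA_le_nilF _)
    · classical
      have hn : 0 < Nat.card Ω := Nat.card_pos
      have h1 := Nat.le_of_dvd hn (hab.mul_dvd_of_dvd_of_dvd ha hb)
      have h2 := (two_mul_nilF_mul_le a2 b2 hab ha hb hn).1
      have h3 := Nat.mul_le_mul (ih _ A (by nlinarith) hA) (ih _ B (by nlinarith) hB)
      omega
  · intro Ω _ _ H p _ h _ _ _ ih1 ih2 hH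
    rw [← card_add_card_not p]
    exact (card_le_pres_mul h).trans ((Nat.mul_le_mul (ih1 (isNilpotent_pres h hH))
      (ih2 (isNilpotent_pres h.not hH))).trans (nilF_mul_le _ _))

theorem nilpotent_transitive_cases' [Fintype Ω] [DecidableEq Ω] [Nonempty Ω] {N : Subgroup (Perm Ω)}
    (hN : Group.IsNilpotent N) (ht : IsPretransitive N Ω) : IsPGroup 2 N ∨
      (Nat.card N ≤ nilA (Nat.card Ω) ∧
        (Nat.card Ω % 4 = 3 → 7 ≤ Nat.card Ω → 2 * Nat.card N < nilF (Nat.card Ω))) := by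
  rcases nilpotent_transitive_cases hN ht with ⟨p, hp, h⟩ | ⟨p, q, A, B, hA, hB, e, a2, b2, hab, ha, hb⟩
  · by_cases h2 : p = 2
    · exact Or.inl (h2 ▸ h)
    · exact Or.inr (card_le_nilA_of_isPGroup hp h2 h)
  · classical
    have h2 := two_mul_nilF_mul_le a2 b2 hab ha hb Nat.card_pos
    have h3 := Nat.mul_le_mul (card_le_nilF _ A hA) (card_le_nilF _ B hB)
    refine Or.inr ⟨le_nilA_of_two_mul_le (by omega), fun h4 _ => ?_⟩
    have := h2.2 (by omega)
    omega

theorem mul_eq_of_le {a b c d : ℕ} (h1 : a ≤ c) (h2 : b ≤ d) (hc : 0 < c) (hd : 0 < d) (h : c * d ≤ a * b) :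
    a = c ∧ b = d := by
  constructor
  · by_contra hne
    have : a * b < c * d := Nat.mul_lt_mul_of_lt_of_le (by omega) h2 hd
    omega
  · by_contra hne
    have : a * b < c * d := Nat.mul_lt_mul_of_le_of_lt h1 (by omega) hc
    omega

theorem card_orbit_of_isPretransitive {N : Subgroup (Perm Ω)} (ht : IsPretransitive N Ω) (x : Ω) :
    Nat.card (orbit N x) = Nat.card Ω := by
  rw [orbit_eq_univ, Nat.card_univ]

theorem exists_orbit_three_of_card_eq_nilF (Ω : Type u) [Fintype Ω] [DecidableEq Ω] (N : Subgroup (Perm Ω)) :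
    Group.IsNilpotent N → Nat.card Ω % 4 = 3 → Nat.card N = nilF (Nat.card Ω) →
      ∃ x : Ω, Nat.card (orbit N x) = 3 := by
  revert Ω
  refine @orbit_induction _ ?_ ?_
  · intro Ω _ _ H ht _ hH h3 e
    haveI : Nonempty Ω := (Nat.card_pos_iff.1 (by omega)).1
    by_cases h7 : 7 ≤ Nat.card Ω
    · exfalso
      rcases nilpotent_transitive_cases' hH ht with h | h
      · have := card_le_f2_of_isPGroup h
        have := f2_lt_nilF h3
        omega
      · have := h.2 h3 h7
        omega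
    · obtain ⟨x⟩ := ‹Nonempty Ω›
      exact ⟨x, by rw [card_orbit_of_isPretransitive ht]; omega⟩
  · intro Ω _ _ H p _ h _ _ _ ih1 ih2 hH h3 e
    rw [← card_add_card_not p] at h3 e
    have n1 := isNilpotent_pres h hH
    have n2 := isNilpotent_pres h.not hH
    have h1 := card_le_nilF _ _ n1
    have h2 := card_le_nilF _ _ n2
    have h4 := card_le_pres_mul h
    have h5 := nilF_mul_aux (Nat.card {x // p x}) (Nat.card {x // ¬ p x})
    have h6 := Nat.mul_le_mul h1 h2
    obtain ⟨e1, e2⟩ := mul_eq_of_le h1 h2 (nilF_pos _) (nilF_pos _) (by omega)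
    rcases h5.2 h3 (by omega) with h7 | h7
    · obtain ⟨x, hx⟩ := ih1 n1 h7 e1
      exact ⟨x, by rw [← card_orbit_pres h, hx]⟩
    · obtain ⟨x, hx⟩ := ih2 n2 h7 e2
      exact ⟨x, by rw [← card_orbit_pres h.not, hx]⟩

theorem card_le_nilA (Ω : Type u) [Fintype Ω] [DecidableEq Ω] (N : Subgroup (Perm Ω)) :
    Group.IsNilpotent N → N ≤ alternatingGroup Ω → Nat.card N ≤ nilA (Nat.card Ω) ∧
      (Nat.card Ω % 4 = 3 → 7 ≤ Nat.card Ω → 2 * Nat.card N = nilF (Nat.card Ω) →
        ∃ x : Ω, Nat.card (orbit N x) = 3) := by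
  revert Ω
  refine @orbit_induction _ ?_ ?_
  · intro Ω _ _ H ht _ hH hA
    by_cases h1 : Nat.card Ω ≤ 1
    · haveI := Finite.card_le_one_iff_subsingleton.1 h1
      refine ⟨?_, fun _ _ => by omega⟩
      rw [nilA, if_pos h1, Subsingleton.elim H ⊥, Subgroup.card_bot]
    haveI : Nonempty Ω := (Nat.card_pos_iff.1 (by omega)).1
    rcases nilpotent_transitive_cases' hH ht with h | h
    · have h2 := two_mul_card_le_f2_of_isPGroup h hA (by omega)
      refine ⟨le_nilA_of_two_mul_le (h2.trans (f2_le_nilF _)), fun h3 _ e => ?_⟩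
      have := f2_lt_nilF h3
      omega
    · refine ⟨h.1, fun h3 h7 e => ?_⟩
      have := h.2 h3 h7
      omega
  · intro Ω _ _ H p _ h _ _ _ ih1 ih2 hH hA
    rw [← card_add_card_not p]
    have n1 := isNilpotent_pres h hH
    have n2 := isNilpotent_pres h.not hH
    have h1 := card_le_nilF _ _ n1
    have h2 := card_le_nilF _ _ n2
    have h4 := card_le_pres_mul h
    have h5 := nilF_mul_aux (Nat.card {x // p x}) (Nat.card {x // ¬ p x})
    have h6 := Nat.mul_le_mul h1 h2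
    have l1 : Nat.card {x // p x} % 4 = 3 → Nat.card (pres h) = nilF (Nat.card {x // p x}) →
        ∃ x : Ω, Nat.card (orbit H x) = 3 := fun h7 e1 => by
      obtain ⟨x, hx⟩ := exists_orbit_three_of_card_eq_nilF _ _ n1 h7 e1
      exact ⟨x, by rw [← card_orbit_pres h, hx]⟩
    have l2 : Nat.card {x // ¬ p x} % 4 = 3 → Nat.card (pres h.not) = nilF (Nat.card {x // ¬ p x}) →
        ∃ x : Ω, Nat.card (orbit H x) = 3 := fun h7 e1 => by
      obtain ⟨x, hx⟩ := exists_orbit_three_of_card_eq_nilF _ _ n2 h7 e1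
      exact ⟨x, by rw [← card_orbit_pres h.not, hx]⟩
    by_cases hA1 : pres h ≤ alternatingGroup _
    · have hA2 := pres_not_le_alt h hA hA1
      obtain ⟨i1, j1⟩ := ih1 n1 hA1
      obtain ⟨i2, j2⟩ := ih2 n2 hA2
      by_cases x2 : NilExc (Nat.card {x // ¬ p x})
      · by_cases x1 : NilExc (Nat.card {x // p x})
        · have h7 := nilA_mul_le_of_exc x1 x2
          have h8 := Nat.mul_le_mul i1 i2
          refine ⟨by omega, fun h3 h9 e => ?_⟩
          have := h7.2 h3 h9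
          omega
        · have k1 := two_mul_le_nilF x1 i1
          have h8 := Nat.mul_le_mul k1 h2
          rw [mul_assoc] at h8
          refine ⟨le_nilA_of_two_mul_le (by omega), fun h3 h9 e => ?_⟩
          obtain ⟨e1, e2⟩ := mul_eq_of_le k1 h2 (nilF_pos _) (nilF_pos _) (by rw [mul_assoc]; omega)
          rcases h5.2 h3 (by omega) with h7 | h7
          · obtain ⟨x, hx⟩ := j1 h7 (by unfold NilExc at x1; omega) e1
            exact ⟨x, by rw [← card_orbit_pres h, hx]⟩
          · exact l2 h7 e2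
      · have k2 := two_mul_le_nilF x2 i2
        have h8 := Nat.mul_le_mul h1 k2
        rw [mul_left_comm] at h8
        refine ⟨le_nilA_of_two_mul_le (by omega), fun h3 h9 e => ?_⟩
        obtain ⟨e1, e2⟩ := mul_eq_of_le h1 k2 (nilF_pos _) (nilF_pos _) (by rw [mul_left_comm]; omega)
        rcases h5.2 h3 (by omega) with h7 | h7
        · exact l1 h7 e1
        · obtain ⟨x, hx⟩ := j2 h7 (by unfold NilExc at x2; omega) e2
          exact ⟨x, by rw [← card_orbit_pres h.not, hx]⟩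
    · have h8 := two_mul_card_le_pres_mul h hA hA1
      refine ⟨le_nilA_of_two_mul_le (by omega), fun h3 h9 e => ?_⟩
      obtain ⟨e1, e2⟩ := mul_eq_of_le h1 h2 (nilF_pos _) (nilF_pos _) (by omega)
      rcases h5.2 h3 (by omega) with h7 | h7
      · exact l1 h7 e1
      · exact l2 h7 e2

theorem pow_factorization_perm [Finite Ω] : 2 ^ (Nat.card (Perm Ω)).factorization 2 = f2 (Nat.card Ω) := by
  rw [Nat.card_perm, f2_eq]

theorem pow_factorization_alt [Fintype Ω] [DecidableEq Ω] (h : 2 ≤ Nat.card Ω) :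
    2 * 2 ^ (Nat.card (alternatingGroup Ω)).factorization 2 = f2 (Nat.card Ω) := by
  haveI : Nontrivial Ω := Finite.one_lt_card_iff_nontrivial.1 h
  rw [← pow_factorization_perm, ← two_mul_nat_card_alternatingGroup,
    Nat.factorization_mul two_ne_zero Nat.card_pos.ne', Finsupp.add_apply, Nat.prime_two.factorization_self, pow_add,
    pow_one]

theorem card_sylow_two_perm [Finite Ω] (P : Sylow 2 (Perm Ω)) : Nat.card P = f2 (Nat.card Ω) := by
  haveI := Fact.mk Nat.prime_two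
  rw [P.card_eq_multiplicity, pow_factorization_perm]

theorem card_sylow_two_alt [Fintype Ω] [DecidableEq Ω] (h : 2 ≤ Nat.card Ω) (P : Sylow 2 (alternatingGroup Ω)) :
    2 * Nat.card P = f2 (Nat.card Ω) := by
  haveI := Fact.mk Nat.prime_two
  rw [P.card_eq_multiplicity, pow_factorization_alt h]

theorem isSylowIn_alt_of_card [Fintype Ω] [DecidableEq Ω] (h : 2 ≤ Nat.card Ω) {B : Subgroup (Perm Ω)}
    (hB : B ≤ alternatingGroup Ω) (hc : 2 * Nat.card B = f2 (Nat.card Ω)) :
    CL.Grp.IsSylowIn 2 B (alternatingGroup Ω) := by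
  haveI := Fact.mk Nat.prime_two
  rw [← pow_factorization_alt h] at hc
  exact isSylowIn_of_card hB (Nat.eq_of_mul_eq_mul_left two_pos hc) (Nat.ordProj_mul_ordCompl_eq_self _ 2).symm
    (Nat.not_dvd_ordCompl Nat.prime_two Nat.card_pos.ne')

theorem card_alt_three [Fintype Ω] [DecidableEq Ω] (h : Nat.card Ω = 3) : Nat.card (alternatingGroup Ω) = 3 := by
  rw [card_alt_of_card h (by norm_num)]; rfl

theorem eq_alt_of_card_three [Fintype Ω] [DecidableEq Ω] (h : Nat.card Ω = 3) {A : Subgroup (Perm Ω)}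
    (hA : Group.IsNilpotent A) (ht : IsPretransitive A Ω) : A = alternatingGroup Ω := by
  haveI : Nonempty Ω := (Nat.card_pos_iff.1 (by omega)).1
  have h1 := card_le_nilF _ A hA
  have h2 := Nat.le_of_dvd Nat.card_pos (card_dvd_of_isPretransitive ht)
  have h3 : nilF 3 = 3 := by decide +kernel
  rw [h, h3] at h1
  apply eq_alternatingGroup_of_index_eq_two
  have h4 := A.card_mul_index
  rw [Nat.card_perm, h, show Nat.card A = 3 by omega] at h4
  change _ = 6 at h4
  omega

theorem eq_pext_of_orbit_three [Fintype Ω] [DecidableEq Ω] {N : Subgroup (Perm Ω)} (hN : Group.IsNilpotent N) {x : Ω}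
    (hx : Nat.card (orbit N x) = 3) : ∃ (p : Ω → Prop) (_ : DecidablePred p) (B : Subgroup (Perm {y // ¬ p y})),
      Nat.card {y // p y} = 3 ∧ Group.IsNilpotent B ∧ N ≤ pext (alternatingGroup _) B ∧
        (N ≤ alternatingGroup Ω → B ≤ alternatingGroup _) := by
  classical
  have h := pinv_orbit N x
  have e := eq_alt_of_card_three hx (isNilpotent_pres h hN) (pres_orbit_isPretransitive N x)
  refine ⟨_, inferInstance, pres h.not, hx, isNilpotent_pres h.not hN, ?_, fun hA => pres_not_le_alt h hA ?_⟩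
  · convert le_pext h using 2
    convert e.symm
  · convert e.le

theorem eq_pext_of_card_eq_nilF [Fintype Ω] [DecidableEq Ω] {N : Subgroup (Perm Ω)} (hN : Group.IsNilpotent N)
    (h3 : Nat.card Ω % 4 = 3) (e : Nat.card N = nilF (Nat.card Ω)) :
    ∃ (p : Ω → Prop) (_ : DecidablePred p) (B : Subgroup (Perm {y // ¬ p y})),
      Nat.card {y // p y} = 3 ∧ CL.Grp.IsSylowIn 2 B ⊤ ∧ N = pext (alternatingGroup _) B := by
  haveI := Fact.mk Nat.prime_two
  obtain ⟨x, hx⟩ := exists_orbit_three_of_card_eq_nilF _ N hN h3 e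
  obtain ⟨p, _, B, hp, hB, hle, -⟩ := eq_pext_of_orbit_three hN hx
  have h1 := card_add_card_not p
  have h2 := card_le_nilF _ B hB
  have h4 := Subgroup.card_le_of_le hle
  have h5 : Nat.card Ω - 3 = Nat.card {y // ¬ p y} := by omega
  rw [nilF_of_ne (by omega)] at h2
  rw [nilF_of_eq h3, h5] at e
  have h6 := card_pext (alternatingGroup _) B
  rw [card_alt_three hp] at h6
  refine ⟨p, inferInstance, B, hp, isSylowIn_top_iff_card.2 ?_, Subgroup.eq_of_le_of_card_ge hle (by omega)⟩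
  rw [pow_factorization_perm]; omega

theorem eq_pext_of_two_mul_card_eq_nilF [Fintype Ω] [DecidableEq Ω] {N : Subgroup (Perm Ω)}
    (hN : Group.IsNilpotent N) (hA : N ≤ alternatingGroup Ω)
    (h3 : Nat.card Ω % 4 = 3) (h7 : 7 ≤ Nat.card Ω) (e : 2 * Nat.card N = nilF (Nat.card Ω)) :
    ∃ (p : Ω → Prop) (_ : DecidablePred p) (B : Subgroup (Perm {y // ¬ p y})),
      Nat.card {y // p y} = 3 ∧ CL.Grp.IsSylowIn 2 B (alternatingGroup _) ∧ N = pext (alternatingGroup _) B := by
  obtain ⟨x, hx⟩ := (card_le_nilA _ N hN hA).2 h3 h7 e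
  obtain ⟨p, _, B, hp, hB, hle, hBA⟩ := eq_pext_of_orbit_three hN hx
  have h1 := card_add_card_not p
  have h2 := two_mul_le_nilF (by unfold NilExc; omega) (card_le_nilA _ B hB (hBA hA)).1
  have h4 := Subgroup.card_le_of_le hle
  have h5 : Nat.card Ω - 3 = Nat.card {y // ¬ p y} := by omega
  rw [nilF_of_ne (by omega)] at h2
  rw [nilF_of_eq h3, h5] at e
  have h6 := card_pext (alternatingGroup _) B
  rw [card_alt_three hp] at h6
  exact ⟨p, inferInstance, B, hp, isSylowIn_alt_of_card (by omega) (hBA hA) (by omega),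
    Subgroup.eq_of_le_of_card_ge hle (by omega)⟩

theorem exists_pext_three [Fintype Ω] [DecidableEq Ω] {Δ : Type*} [Fintype Δ] [DecidableEq Δ]
    (h : Nat.card Ω = Nat.card Δ + 3)
    (P : Subgroup (Perm Δ)) (hP : Group.IsNilpotent P) : ∃ M : Subgroup (Perm Ω), Group.IsNilpotent M ∧
      Nonempty (M ≃* P × Multiplicative (ZMod 3)) ∧ (P ≤ alternatingGroup Δ → M ≤ alternatingGroup Ω) := by
  classical
  obtain ⟨p, hp, hq⟩ := exists_pred_card (α := Ω) (k := 3) (by omega)
  obtain ⟨e⟩ : Nonempty (Δ ≃ {x // ¬ p x}) := Finite.card_eq.1 (by omega)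
  haveI := Fact.mk Nat.prime_three
  have f : alternatingGroup {x // p x} ≃* Multiplicative (ZMod 3) :=
    mulEquivOfPrimeCardEq (card_alt_three hp) (by simp)
  obtain ⟨g⟩ := (piso_map e P).nonempty_mulEquiv
  have k : pext (alternatingGroup {x // p x}) (P.map e.permCongrHom.toMonoidHom) ≃* P × Multiplicative (ZMod 3) :=
    (pextEquiv _ _).symm.trans (MulEquiv.prodComm.trans (g.symm.prodCongr f))
  refine ⟨_, Group.nilpotent_of_mulEquiv k.symm, ⟨k⟩, fun hA => pext_le_alt le_rfl ?_⟩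
  rintro _ ⟨a, ha, rfl⟩
  simpa using hA ha

end CL.Known
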