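/-
Class numbers of symplectic and orthogonal groups in characteristic two, part D: the weighted number of unipotent classes.
-/
import Cfsg.Agent.Known.Cl2C

set_option autoImplicit false

open Module QuadraticMap

namespace CL.Cl2

open Quad

universe u

variable {K : Type u} [Field K] [Finite K] {ρ : Prop} {k m : ℕ} (h2 : (2 : K) = 0)
include h2

theorem gs_eq' {X : Quad K} (L : Submodule K X.V) (c : X.V) (h1 : ∀ l ∈ L, polar X.Q c l ^ 2 = X.Q l)
    (h3 : ∀ x, (∀ l ∈ L, polar X.Q x l = 0) → x ∈ L) : 0 < gs X.Q * ψ (X.Q c) := by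
  have : Finite X.V := Module.finite_of_finite K
  rw [gs_eq h2 L c h1 h3, mul_assoc, ψ_mul_self, mul_one]
  exact_mod_cast Nat.card_pos

theorem Vp.gs {a : K} {X : Quad K} (h : Vp ρ k a X) (hρ : ρ) : 0 < gs X.Q * ψ a := by
  obtain ⟨v, g, h⟩ := h
  have h0 : X.q k v = a := (h k fun _ => hρ).trans ((if_neg (by omega)).trans (if_pos rfl))
  have h1 := (g.nil.q_top h2 v).symm.trans ((h _ fun _ => hρ).trans (if_pos rfl))
  refine h0 ▸ gs_eq' h2 (LinearMap.range (X.e ^ (k + 1))) ((X.e ^ k) v) ?_ fun x hx =>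
    g.mem_range (i := k + 1) (g.nil.adj fun y => (polar_comm _ _ _).trans (hx _ ⟨y, rfl⟩)) (by omega)
  rintro _ ⟨x, rfl⟩
  obtain ⟨c, y, rfl⟩ := g.span x
  rw [← f_def, ← q_def, g.nil.f_top h2 _ _ (by omega), g.nil.q_top h2, lc_one]
  simp only [map_add, map_smul, LinearMap.add_apply, LinearMap.smul_apply, h1, f_e_left, f_e_right,
    g.nil.f_zero _ _ (le_refl (2 * k + 1 + 1 + 0)), g.nil.f_zero _ _ (le_refl (2 * k + 1 + (0 + 1))),
    smul_eq_mul]
  ring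

theorem Wp.gs_odd {a : K} {X : Quad K} (h : Wp ρ (2 * k + 1) a X) : 0 < gs X.Q := by
  obtain ⟨v, w, g, f, h⟩ := h
  have h0 := (g.nil.q_top h2 v).symm.trans ((h _ (by simp)).1.trans (if_neg (by omega)))
  have h1 := (g.nil.q_top h2 w).symm.trans ((h _ (by simp)).2.trans (if_neg (by omega)))
  have := gs_eq' h2 (LinearMap.range (X.e ^ (k + 1))) 0 ?_ fun x hx =>
    g.mem_range (i := k + 1) (g.nil.adj fun y => (polar_comm _ _ _).trans (hx _ ⟨y, rfl⟩)) (by omega)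
  · rwa [map_zero, ψ_zero, mul_one] at this
  rintro _ ⟨x, rfl⟩
  obtain ⟨c, y, rfl⟩ := g.span x
  rw [polar_zero_left, ← q_def, g.nil.q_top h2, lc_two]
  simp only [map_add, map_smul, LinearMap.add_apply, LinearMap.smul_apply, h0, h1, f_e_left, f_e_right,
    g.nil.f_zero _ _ (le_refl (2 * k + 1 + 1 + 0)), g.nil.f_zero _ _ (le_refl (2 * k + 1 + (0 + 1))),
    smul_eq_mul, g.nil.γ_comm h2 w v]
  linear_combination -(c 0 * c 1 * X.f (2 * k + 1) 0 v w) * h2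

theorem Wp.gs_even {a : K} {X : Quad K} (h : Wp ρ (2 * k) a X) (hρ : ρ) : 0 < gs X.Q * ψ a := by
  obtain ⟨v, w, g, f, h⟩ := h
  have h0 : X.q k v = a := (h k fun _ => hρ).1.trans (if_pos rfl)
  have h1 : X.q k w = 1 := (h k fun _ => hρ).2.trans (if_pos rfl)
  have h3 : X.f (2 * k) 0 v w = 1 := (f _).trans (if_pos rfl)
  refine h0 ▸ gs_eq' h2 (LinearMap.range (X.e ^ (k + 1)) ⊔ K ∙ (X.e ^ k) w) ((X.e ^ k) v) (fun l hl => ?_) fun x hx => ?_
  · obtain ⟨_, ⟨x, rfl⟩, z, hz, rfl⟩ := Submodule.mem_sup.1 hl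
    obtain ⟨b, rfl⟩ := Submodule.mem_span_singleton.1 hz
    rw [polar_add_right, polar_smul_right, CL.Cls.map_add', CL.Cls.map_smul', polar_smul_right, ← f_def, ← f_def, ← f_def,
      ← q_def, ← q_def, g.nil.f_zero _ _ (by omega), g.nil.f_zero x _ (by omega), g.nil.q_zero h2 _ (by omega), h1,
      g.nil.f_top h2 _ _ (two_mul k).symm, h3]
    simp
  · obtain ⟨u, rfl⟩ := g.mem_range (i := k + 1) (j := k) (g.nil.adj fun y => (polar_comm _ _ _).trans
      (hx _ (Submodule.mem_sup_left ⟨y, rfl⟩))) (by omega)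
    obtain ⟨c, y, rfl⟩ := g.span u
    have := hx _ (Submodule.mem_sup_right (Submodule.mem_span_singleton_self _))
    rw [← f_def, g.nil.f_top h2 _ _ (two_mul k).symm, lc_two] at this
    simp only [map_add, map_smul, LinearMap.add_apply, LinearMap.smul_apply, h3, f_e_left, g.nil.γ_even h2,
      g.nil.f_zero _ _ (le_refl (2 * k + 1 + 0)), smul_eq_mul, mul_one, mul_zero, add_zero] at this
    rw [lc_two, this, zero_smul, zero_add, map_add, map_smul, pow_e1]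
    exact add_mem (Submodule.mem_sup_right (Submodule.smul_mem _ _ (Submodule.mem_span_singleton_self _)))
      (Submodule.mem_sup_left ⟨y, rfl⟩)

variable {x : ℝ} (hx : 0 ≤ x) {N : ℕ} {s : ℕ → ℤ} {P P₁ P₂ M : Quad K → Prop}
include hx

omit h2 in
theorem Z_mono (h : ∀ T : Quad K, finrank K T.V < N → P T → P₁ T) : Z ρ x N P ≤ Z ρ x N P₁ :=
  Finset.sum_le_sum_of_subset_of_nonneg
    (fun _ hc => let ⟨T, h1, h2, h3⟩ := mem_cls.1 hc; mem_cls.2 ⟨T, h1, h2, h T h2 h3⟩) fun _ _ _ => pow_nonneg hx _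

omit h2 in
/-- The weighted number of classes with a sign condition. -/
noncomputable def Y (ρ : Prop) (x : ℝ) (N : ℕ) (P : Quad K → Prop) (s : ℕ → ℤ) : ℝ := Z ρ x N fun T => P T ∧ Sg ρ s T

omit h2 in
theorem Y_union (h : ∀ T, P T → P₁ T ∨ P₂ T) : Y ρ x N P s ≤ Y ρ x N P₁ s + Y ρ x N P₂ s :=
  Z_union hx fun T hT => (h T hT.1).imp (⟨·, hT.2⟩) (⟨·, hT.2⟩)

theorem Y_pos {d : ℕ} (h1 : ∀ X X', M X → M X' → iso K ρ X X') (h3 : ∀ X, M X → finrank K X.V = d + 2)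
    (h4 : ∀ X, M X → ρ → 0 < gs X.Q) :
    Y ρ x (N + 1) (Dec ρ M P) s ≤ x ^ (d + 2) * Y ρ x N P fun n => s (d + 2 + n) :=
  Z_split hx (by omega) h1 h3 fun _ ⟨⟨X, Y, k1, k2, k3⟩, k4⟩ => ⟨X, Y, k1, ⟨k2, k4.of_pos h2 k3 (h3 X k1) (h4 X k1)⟩, k3⟩

theorem Y_neg {d : ℕ} (h1 : ∀ X X', M X → M X' → iso K ρ X X') (h3 : ∀ X, M X → finrank K X.V = d + 2)
    (h4 : ∀ X, M X → ρ → gs X.Q < 0) :
    Y ρ x (N + 1) (Dec ρ M P) s ≤ x ^ (d + 2) * Y ρ x N P (-fun n => s (d + 2 + n)) :=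
  Z_split hx (by omega) h1 h3 fun _ ⟨⟨X, Y, k1, k2, k3⟩, k4⟩ => ⟨X, Y, k1, ⟨k2, k4.of_neg h2 k3 (h3 X k1) (h4 X k1)⟩, k3⟩

omit h2 hx in
/-- Bounds for the weighted numbers of classes of level `2k`. -/
def Inv (K : Type u) [Field K] [Finite K] (ρ : Prop) (x : ℝ) (k : ℕ) (α β γ : ℝ) : Prop :=
  ∀ N s, 2 * Y ρ x N (A (K := K) ρ k) s ≤ α ∧ Y ρ x N (B (K := K) ρ k) s + Y ρ x N (B (K := K) ρ k) (-s) ≤ β ∧
    2 * Y ρ x N (B (K := K) ρ k) s ≤ γ

theorem Inv.step (hx2 : x ^ 2 = 1 / 2) {α β γ : ℝ} (h : Inv K ρ x k α β γ) (ω α' β' γ' : ℝ)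
    (c1 : ((1 / 2) ^ k) ^ 2 / 2 * (ω + α + 2 * β) ≤ ω) (c2 : ω + α + β + ((1 / 2) ^ k) ^ 2 / 4 * β' ≤ β')
    (c3 : ω + α + γ + ((1 / 2) ^ k) ^ 2 / 4 * γ' ≤ γ') (c4 : (1 / 2) ^ k / 2 * (α' + ω + α + 2 * β) ≤ α')
    (c5 : 0 ≤ ω ∧ 0 ≤ α' ∧ 0 ≤ β' ∧ 0 ≤ γ') : Inv K ρ x (k + 1) α' β' γ' := by
  obtain ⟨a, ha⟩ := exists_ψ_neg h2
  have hu : (0 : ℝ) ≤ (1 / 2) ^ k := by positivity
  have e1 : x ^ (2 * k + 2) = (1 / 2) ^ k / 2 := by rw [pow_add, pow_mul, hx2]; ring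
  have e2 : x ^ (2 * (2 * k) + 2) = ((1 / 2) ^ k) ^ 2 / 2 := by rw [pow_add, pow_mul, hx2]; ring
  have e3 : x ^ (2 * (2 * k + 1) + 2) = ((1 / 2) ^ k) ^ 2 / 4 := by rw [pow_add, pow_mul, hx2]; ring
  generalize ((1 : ℝ) / 2) ^ k = u at *
  have n1 : ∀ N s, Y ρ x N (Nil (K := K) (2 * k + 1)) s ≤
      Y ρ x N (O (K := K) k) s + (Y ρ x N (A (K := K) ρ k) s + Y ρ x N (B (K := K) ρ k) s) := fun N s =>
    (Y_union hx (P₂ := Nil (2 * k)) fun T hT => (em _).symm.imp_left (⟨hT, ·⟩)).trans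
      (add_le_add_right (Y_union hx fun T hT => (em _).imp (⟨hT, ·⟩) (⟨hT, ·⟩)) _)
  have o1 : ∀ N s, 2 * Y ρ x N (O (K := K) k) s ≤ ω := fun N => by
    induction N with
    | zero => exact fun s => by rw [Y, Z_zero, mul_zero]; exact c5.1
    | succ N ih =>
      intro s
      have k1 := (Y_union hx (N := N + 1) (s := s) (ρ := ρ) fun T hT => O.split h2 (k := k) (ρ := ρ) ha hT).trans
        (add_le_add (Y_pos h2 hx (Wp.iso h2) (fun _ => Wp.finrank) fun X hX hρ => by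
          simpa [ψ_zero] using hX.gs_even h2 hρ)
          (Y_neg h2 hx (Wp.iso h2) (fun _ => Wp.finrank) fun X hX hρ => by simpa [ha] using hX.gs_even h2 hρ))
      rw [e2] at k1
      generalize (fun n => s (2 * (2 * k) + 2 + n)) = s' at k1
      have := mul_le_mul_of_nonneg_left (show 2 * (Y ρ x N (Nil (K := K) (2 * k + 1)) s' + Y ρ x N (B (K := K) ρ k) (-s')) ≤
        ω + α + 2 * β by linarith [n1 N s', ih s', h N s']) (show 0 ≤ u ^ 2 / 2 by positivity)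
      linarith
  have b1 : ∀ N s, Y ρ x (N + 1) (B (K := K) ρ (k + 1)) s ≤ Y ρ x (N + 1) (Nil (K := K) (2 * k + 1)) s +
      u ^ 2 / 4 * Y ρ x N (B (K := K) ρ (k + 1)) fun n => s (2 * (2 * k + 1) + 2 + n) := fun N s =>
    (Y_union hx fun T hT => B.split h2 hT).trans (add_le_add_right (e3 ▸ Y_pos h2 hx (Wp.iso h2) (fun _ => Wp.finrank)
      fun X hX _ => hX.gs_odd h2) _)
  intro N
  induction N with
  | zero => exact fun s => by simp only [Y, Z_zero, mul_zero, add_zero]; exact c5.2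
  | succ N ih =>
    refine fun s => ⟨?_, ?_, ?_⟩
    · have k1 := (Y_union hx (N := N + 1) (s := s) (ρ := ρ) fun T hT => A.split h2 (k := k) (ρ := ρ) ha hT).trans
        (add_le_add (Y_pos h2 hx (Vp.iso h2) (fun _ => Vp.finrank) fun X hX hρ => by simpa [ψ_zero] using hX.gs h2 hρ)
          (Y_neg h2 hx (Vp.iso h2) (fun _ => Vp.finrank) fun X hX hρ => by simpa [ha] using hX.gs h2 hρ))
      rw [e1] at k1
      generalize (fun n => s (2 * k + 2 + n)) = s' at k1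
      have k2 := Y_union hx (N := N) (s := s') (ρ := ρ) (P₁ := A (K := K) ρ (k + 1)) (P₂ := Nil (2 * k + 1)) fun T hT => hT
      have := mul_le_mul_of_nonneg_left (show 2 * (Y ρ x N (fun Y => A (K := K) ρ (k + 1) Y ∨ Nil (2 * k + 1) Y) s' +
        Y ρ x N (B (K := K) ρ k) (-s')) ≤ α' + ω + α + 2 * β by linarith [n1 N s', ih s', h N s', o1 N s'])
        (show 0 ≤ u / 2 by positivity)
      linarith
    · have := mul_le_mul_of_nonneg_left (ih fun n => s (2 * (2 * k + 1) + 2 + n)).2.1 (show 0 ≤ u ^ 2 / 4 by positivity)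
      have k1 : Y ρ x (N + 1) (B (K := K) ρ (k + 1)) (-s) ≤ _ + u ^ 2 / 4 * Y ρ x N (B (K := K) ρ (k + 1))
        (-fun n => s (2 * (2 * k + 1) + 2 + n)) := b1 N (-s)
      linarith [b1 N s, n1 (N + 1) s, n1 (N + 1) (-s), h (N + 1) s, h (N + 1) (-s), o1 (N + 1) s, o1 (N + 1) (-s)]
    · have := mul_le_mul_of_nonneg_left (ih fun n => s (2 * (2 * k + 1) + 2 + n)).2.2 (show 0 ≤ u ^ 2 / 4 by positivity)
      linarith [b1 N s, n1 (N + 1) s, h (N + 1) s, o1 (N + 1) s]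

omit h2 hx in
theorem Inv.mono {α β γ α' β' γ' : ℝ} (h : Inv K ρ x k α β γ) (h1 : α ≤ α') (h3 : β ≤ β') (h4 : γ ≤ γ') :
    Inv K ρ x k α' β' γ' := fun N s => ⟨(h N s).1.trans h1, (h N s).2.1.trans h3, (h N s).2.2.trans h4⟩

theorem Inv.tail (hx2 : x ^ 2 = 1 / 2) {b c : ℝ} (hb : 0 ≤ b) (hc : 4 * b + (5 * b / 2 + 2) * (1 / 2) ^ k ≤ c)
    (hc' : c * (1 / 2) ^ k ≤ b) (h : Inv K ρ x k (2 * b * (1 / 2) ^ k) (b - c * (1 / 2) ^ k) (b - c * (1 / 2) ^ k))
    (N : ℕ) (s : ℕ → ℤ) : 2 * Y ρ x N (fun T : Quad K => T.OK ∧ IsNilpotent T.e) s ≤ b := by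
  have H : ∀ j, k ≤ j → Inv K ρ x j (2 * b * (1 / 2) ^ j) (b - c * (1 / 2) ^ j) (b - c * (1 / 2) ^ j) := fun j hj => by
    induction j, hj using Nat.le_induction with
    | base => exact h
    | succ j hj ih =>
      have hu : (0 : ℝ) < (1 / 2) ^ j := by positivity
      have hu' : ((1 : ℝ) / 2) ^ j ≤ (1 / 2) ^ k := pow_le_pow_of_le_one (by norm_num) (by norm_num) hj
      have h5 : 4 * b + (5 * b / 2 + 2) * (1 / 2) ^ j ≤ c := by nlinarith
      have h6 : 0 ≤ c := by nlinarith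
      have h7 : c * (1 / 2) ^ j ≤ b := by nlinarith
      rw [pow_succ]
      refine ih.step h2 hx hx2 ((b + 1) * ((1 / 2) ^ j) ^ 2) _ _ _ ?_ ?_ ?_ ?_ ?_ <;>
        generalize ((1 : ℝ) / 2) ^ j = u at *
      · have : (b + 1) * u ^ 2 + 2 * b * u + 2 * (b - c * u) ≤ 2 * (b + 1) := by nlinarith [mul_nonneg hb hu.le]
        nlinarith [mul_le_mul_of_nonneg_left this (sq_nonneg u)]
      · nlinarith [mul_le_mul_of_nonneg_left h5 hu.le, mul_nonneg h6 (pow_nonneg hu.le 3)]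
      · nlinarith [mul_le_mul_of_nonneg_left h5 hu.le, mul_nonneg h6 (pow_nonneg hu.le 3)]
      · have : 2 * b * (u * (1 / 2)) + (b + 1) * u ^ 2 + 2 * b * u + 2 * (b - c * u) ≤ 2 * b := by
          nlinarith [mul_nonneg hb hu.le, mul_le_mul_of_nonneg_left h5 hu.le, mul_nonneg hb (sq_nonneg u), sq_nonneg u]
        nlinarith [mul_le_mul_of_nonneg_left this hu.le]
      · exact ⟨by positivity, by positivity, by nlinarith, by nlinarith⟩
  have k1 := H (N + k) (by omega) N s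
  have k2 : Y ρ x N (fun T : Quad K => T.OK ∧ IsNilpotent T.e) s ≤ Y ρ x N (Nil (K := K) (2 * (N + k))) s :=
    Z_mono hx fun T hT ⟨⟨h3, n, h4⟩, h5⟩ => ⟨⟨h3, fun v => pow_of_le (n := finrank K T.V)
      (Module.End.ker_pow_le_ker_pow_finrank _ n (by simp [h4])) (by omega)⟩, h5⟩
  have k3 := Y_union hx (N := N) (s := s) (ρ := ρ) (P := Nil (K := K) (2 * (N + k))) (P₁ := A ρ (N + k))
    (P₂ := B ρ (N + k)) fun T hT => (em _).imp (⟨hT, ·⟩) (⟨hT, ·⟩)
  have hu : (0 : ℝ) ≤ (1 / 2) ^ (N + k) := by positivity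
  have : 2 * b ≤ c := by nlinarith [show (0 : ℝ) ≤ (1 / 2) ^ k by positivity]
  nlinarith [mul_le_mul_of_nonneg_right this hu]

omit h2 hx [Finite K] in
theorem Nil.subsingleton {T : Quad K} (h : Nil (2 * 0) T) : Subsingleton T.V := ⟨fun a b => (h.2 a).trans (h.2 b).symm⟩

theorem Y_sp (hx2 : x ^ 2 = 1 / 2) (N : ℕ) :
    5 * Z False x N (fun T : Quad K => T.OK ∧ IsNilpotent T.e) ≤ 76 := by
  have h0 : Inv K False x 0 2 0 0 := fun N s => by
    have k : ∀ s, Y False x N (B (K := K) False 0) s = 0 := fun s => Z_false fun T hT => hT.1.2 (.inr fun h => h rfl)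
    have := Z_le_one (ρ := False) (x := x) (N := N) (P := fun T : Quad K => A False 0 T ∧ Sg False s T)
      fun T hT => hT.1.1.subsingleton
    rw [k, k, Y]
    exact ⟨by linarith, by norm_num, by norm_num⟩
  have h1 := h0.step h2 hx hx2 2 4 5.334 5.334 (by norm_num) (by norm_num) (by norm_num) (by norm_num) (by norm_num)
  have h1 := h1.step h2 hx hx2 2.096 5.588 12.192 12.192 (by norm_num) (by norm_num) (by norm_num) (by norm_num) (by norm_num)
  have h1 := h1.step h2 hx hx2 0.967 4.42 19.045 19.045 (by norm_num) (by norm_num) (by norm_num) (by norm_num) (by norm_num)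
  have h1 := h1.step h2 hx hx2 0.335 2.857 23.894 23.894 (by norm_num) (by norm_num) (by norm_num) (by norm_num) (by norm_num)
  have h1 := h1.step h2 hx hx2 0.1 1.637 26.878 26.878 (by norm_num) (by norm_num) (by norm_num) (by norm_num) (by norm_num)
  have h1 := h1.step h2 hx hx2 0.028 0.88 28.55 28.55 (by norm_num) (by norm_num) (by norm_num) (by norm_num) (by norm_num)
  have h1 := h1.step h2 hx hx2 0.008 0.457 29.44 29.44 (by norm_num) (by norm_num) (by norm_num) (by norm_num) (by norm_num)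
  have := (h1.mono (by norm_num) (by norm_num) (by norm_num)).tail h2 hx hx2 (b := 30.4) (c := 122.25) (by norm_num)
    (by norm_num) (by norm_num) N 0
  have k := Z_mono hx (ρ := False) (N := N) (P := fun T : Quad K => T.OK ∧ IsNilpotent T.e)
    (P₁ := fun T => (T.OK ∧ IsNilpotent T.e) ∧ Sg False 0 T) fun T _ hT => ⟨hT, False.elim⟩
  rw [Y] at this
  linarith

theorem Y_o (hx2 : x ^ 2 = 1 / 2) (N : ℕ) (s : ℕ → ℤ) :
    Y True x N (fun T : Quad K => T.OK ∧ IsNilpotent T.e) s ≤ 15 := by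
  have h0 : Inv K True x 0 0 1 2 := fun N s => by
    have k1 : ∀ s, Y True x N (B (K := K) True 0) s ≤ 1 := fun s => Z_le_one fun T hT => hT.1.1.subsingleton
    have k2 : ∀ s : ℕ → ℤ, s 0 ≤ 0 → Y True x N (B (K := K) True 0) s = 0 := fun s hs => Z_false fun T hT => by
      have := hT.1.1.subsingleton
      have h3 := hT.2 trivial
      rw [finrank_zero_of_subsingleton, gs_eq h2 ⊤ 0 (fun l _ => by rw [Subsingleton.elim l 0]; simp) fun _ _ => trivial,
        map_zero, ψ_zero, mul_one] at h3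
      exact (mul_nonpos_of_nonpos_of_nonneg hs (Nat.cast_nonneg _)).not_gt h3
    refine ⟨(mul_eq_zero_of_right _ (Z_false fun T hT => ?_)).le, ?_, by linarith [k1 s]⟩
    · have := hT.1.1.subsingleton
      exact hT.1.2.elim (fun ⟨v, hv⟩ => hv (by rw [Subsingleton.elim v 0, map_zero])) fun h => h fun _ => trivial
    · rcases le_total (s 0) 0 with h | h
      · linarith [k2 s h, k1 (-s)]
      · linarith [k2 (-s) (neg_nonpos.2 h), k1 s]
  have h1 := h0.step h2 hx hx2 2 4 4 5.34 (by norm_num) (by norm_num) (by norm_num) (by norm_num) (by norm_num)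
  have h1 := h1.step h2 hx hx2 1.72 4.58 10.37 11.8 (by norm_num) (by norm_num) (by norm_num) (by norm_num) (by norm_num)
  have h1 := h1.step h2 hx hx2 0.82 3.74 16.03 17.48 (by norm_num) (by norm_num) (by norm_num) (by norm_num) (by norm_num)
  have h1 := h1.step h2 hx hx2 0.29 2.41 20.14 21.6 (by norm_num) (by norm_num) (by norm_num) (by norm_num) (by norm_num)
  have := (h1.mono (by norm_num) (by norm_num) (by norm_num)).tail h2 hx hx2 (b := 30) (c := 125) (by norm_num)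
    (by norm_num) (by norm_num) N s
  linarith

end CL.Cl2
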