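/-
Class numbers of symplectic and orthogonal groups in characteristic two, part E: the part without eigenvalue one, upper
bounds.
-/
import Cfsg.Agent.Known.Cl2D
import Cfsg.Agent.Cls.OrthOddEven

set_option autoImplicit false

open Module QuadraticMap Polynomial Finset

namespace CL.Cl2

open Quad CL.GLn CL.Known CL.ClassNo

universe u

variable {K : Type u} [Field K] [Finite K] {ρ : Prop}

theorem two_le_card : (2 : ℝ) ≤ Nat.card K := by exact_mod_cast Finite.one_lt_card (α := K)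

variable (h2 : (2 : K) = 0)
include h2

theorem card_srp_two (m : ℕ) : (srp K m).card = Nat.card K ^ (m / 2) := by
  rw [← card_recip_one, ← card_mon]
  congr 1
  ext f
  simp only [mem_srp, mem_mon]
  refine and_congr_right fun h1 => and_congr_right fun _ => and_congr_left fun h5 => ⟨fun h4 => ?_, fun h => by simp [h]⟩
  exact (mul_self_eq_one_iff.1 (norm_coeff_zero_of_recip h1 h4 h5)).elim id fun e => by linear_combination e - h2

open Classical in
theorem sum_tame_le (m : ℕ) : ∑ f ∈ srp K m, (if f.eval 1 ≠ 0 then (1 : ℝ) else 0) ≤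
    if 2 ∣ m then glw (Nat.card K) (m / 2) else 0 := by
  rw [sum_boole]
  rcases m with _ | m
  · simpa [glw] using (card_filter_le _ _).trans (card_srp_two h2 0).le
  have h3 := card_filter_add_card_filter_not (s := srp K (m + 1)) fun f => f.eval 1 ≠ 0
  have h4 : (srp K m).card ≤ ((srp K (m + 1)).filter fun f => ¬ f.eval 1 ≠ 0).card :=
    card_le_card_of_injOn (fun f => (X - C 1) * f) (fun f hf => by
      obtain ⟨f1, f2, f3, f4⟩ := mem_srp.1 hf
      refine mem_coe.2 (mem_filter.2 ⟨mem_srp.2 ⟨(monic_X_sub_C 1).mul f1, ?_, by simpa using f3, ?_⟩, by simp⟩)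
      · rw [(monic_X_sub_C 1).natDegree_mul f1, natDegree_X_sub_C, f2, add_comm]
      · rw [recip_mul, recip_X_sub_C one_ne_zero, f4, RingHom.id_apply, inv_one])
      fun f _ g _ e => mul_left_cancel₀ (X_sub_C_ne_zero 1) e
  rw [card_srp_two h2] at h3 h4
  have h5 : (((srp K (m + 1)).filter fun f => f.eval 1 ≠ 0).card : ℝ) + Nat.card K ^ (m / 2) ≤
      Nat.card K ^ ((m + 1) / 2) := by exact_mod_cast (Nat.add_le_add_left h4 _).trans h3.le
  split_ifs with h
  · rw [show (m + 1) / 2 = m / 2 + 1 by omega] at h5 ⊢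
    rw [glw]
    linarith [pow_succ (Nat.card K : ℝ) (m / 2)]
  · rw [show (m + 1) / 2 = m / 2 by omega] at h5
    linarith

omit [Finite K] in
theorem neg_eq_self {V : Type*} [AddCommGroup V] [Module K V] (v : V) : -v = v :=
  neg_eq_of_add_eq_zero_left (by rw [← two_smul K, h2, zero_smul])

theorem nc_tame_le (N : ℕ) : (nc (fun T : Trip K => (T.OK 1 ∧ finrank K T.V = N) ∧ ∀ v, T.g v = v → v = 0) : ℝ) ≤
    if 2 ∣ N then (Nat.card K : ℝ) ^ (N / 2) else 0 := by
  classical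
  have h := trip_count (K := K) (P := fun T => (T.OK 1 ∧ finrank K T.V = N) ∧ ∀ v, T.g v = v → v = 0) (fun _ h => h.1)
    (fun _ f => if f.eval 1 ≠ 0 then (1 : ℝ) else 0) (fun _ f => if f.eval 1 ≠ 0 then (1 : ℝ) else 0) _ _
    (fun _ _ => by positivity) (fun _ _ => by positivity) (fun _ => sum_tame_le h2) (fun _ => sum_tame_le h2) two_pos
    fun T s hT hs => ?_
  · rw [← Kc, Kc_sparse rfl two_ne_zero] at h
    split_ifs at h ⊢
    · linarith [Kc_glw_le (two_le_card (K := K)) (N / 2)]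
    · linarith
  rw [prod_eq_one (s := univ) (f := fun e : Fin N => if (lay (e + 1) s).eval 1 ≠ 0 then (1 : ℝ) else 0)
    fun e _ => if_pos fun h0 => ?_, one_add_one_eq_two, mul_le_iff_le_one_right two_pos, Nat.cast_le_one]
  · have := Bd.finite (P := fun S : Trip K => ((S.OK 1 ∧ finrank K S.V = N) ∧ ∀ v, S.g v = v → v = 0) ∧
      HasED (S.g : End K S.V) s) ⟨N, fun _ h => h.1.1.2⟩
    refine Finite.card_le_one_iff_subsingleton.2 ⟨?_⟩
    rintro ⟨_, S, rfl, ⟨⟨a1, -⟩, a2⟩, a3⟩ ⟨_, S', rfl, ⟨⟨b1, -⟩, -⟩, b3⟩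
    obtain ⟨x, hx⟩ := a3.sim b3
    exact Subtype.ext (Quotient.sound (wall_conj (σ := RingHom.id K) (fun _ => rfl) S.B a1.nondeg a1.symm S'.B b1.nondeg
      b1.symm S.g a1.isom S'.g b1.isom (wallTame_of a2 fun v hv => a2 v (hv.trans (neg_eq_self h2 v))) x hx))
  · have h3 := (of_mem_bs ((dvd_lay_iff (monic_X_sub_C 1) (irreducible_X_sub_C 1)).1 (dvd_iff_isRoot.2 h0))).2.2
    have h4 := hs.count_eq (monic_X_sub_C 1) (irreducible_X_sub_C 1) e
    simp only [kd_eq_zero_of_inj (f := (T.g : End K T.V)) (c := 1) (by simpa using hT.2), natDegree_X_sub_C] at h4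
    exact Multiset.count_eq_zero.1 (by omega) h3

omit h2 [Finite K] in
/-- The underlying formed space. -/
def Quad.trip (T : Quad K) : Trip K := ⟨T.V, polarBilin T.Q, T.g⟩

omit h2 [Finite K] in
/-- No eigenvalue one. -/
def Tame (T : Quad K) : Prop := T.OK ∧ ∀ v, T.g v = v → v = 0

omit [Finite K] in
theorem Tame.iso {T T' : Quad K} (h : Tame T) (h' : Tame T') (e : Trip.iso K T.trip T'.trip) : iso K True T T' := by
  obtain ⟨φ, h3, h4⟩ : ∃ φ : T.V ≃ₗ[K] T'.V, (∀ v, φ (T.g v) = T'.g (φ v)) ∧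
    ∀ u v, polar T'.Q (φ u) (φ v) = polar T.Q u v := e
  refine ⟨φ, h3, h4, fun _ v => ?_⟩
  obtain ⟨w, rfl⟩ := LinearMap.surjective_of_injective (f := T.e) (LinearMap.ker_eq_bot.1 (LinearMap.ker_eq_bot'.2
    fun v hv => h.2 v (by rw [g_eq, hv, zero_add]))) v
  have h5 : φ (T.e w) = T'.e (φ w) := add_right_cancel ((map_add φ _ _).symm.trans (by rw [← g_eq, h3, g_eq]))
  have h6 : T.Q (T.e w) = polar T.Q (T.e w) w := h.1.q_succ h2 0 w
  have h7 : T'.Q (T'.e (φ w)) = polar T'.Q (T'.e (φ w)) (φ w) := h'.1.q_succ h2 0 (φ w)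
  rw [h6, ← h4, h5, h7]

theorem card_tame_le (N d : ℕ) : (((cls ρ N (Tame (K := K))).filter (dim · = d)).card : ℝ) ≤
    if 2 ∣ d then (Nat.card K : ℝ) ^ (d / 2) else 0 := by
  refine le_trans (Nat.cast_le.2 ?_) (nc_tame_le h2 d)
  have := Bd.finite (P := fun T : Trip K => (T.OK 1 ∧ finrank K T.V = d) ∧ ∀ v, T.g v = v → v = 0) ⟨d, fun _ h => h.1.2⟩
  rw [← Nat.card_eq_finsetCard]
  choose T h3 h4 h5 using fun c : ((cls ρ N (Tame (K := K))).filter (dim · = d)) => mem_cls.1 (mem_filter.1 c.2).1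
  refine Nat.card_le_card_of_injective (fun c => ⟨_, (T c).trip, rfl, ⟨⟨(h5 c).1.nondeg, fun x y =>
    (polar_comm _ _ _).trans (one_mul _).symm, (h5 c).1.polar_g⟩, ?_⟩, (h5 c).2⟩) fun a b e => Subtype.ext ?_
  · have := (mem_filter.1 c.2).2
    rwa [← h3] at this
  · rw [← h3, ← h3]
    exact Quotient.sound (iso_of_true ((h5 a).iso h2 (h5 b) (Quotient.exact (Subtype.mk.inj e))))

omit h2 [Finite K] in
theorem Quad.OK.split {T : Quad K} (h : T.OK) :
    ∃ U S : Quad K, (U.OK ∧ IsNilpotent U.e) ∧ Tame S ∧ iso K True (qsum U S) T := by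
  obtain ⟨N, hN, h1⟩ := (T.e.eventually_isCompl_ker_pow_range_pow.and (Filter.eventually_ge_atTop 1)).exists
  have hU : ∀ w ∈ LinearMap.ker (T.e ^ N), T.g w ∈ LinearMap.ker (T.e ^ N) := fun w hw =>
    g_eq w ▸ add_mem ((pow_e1 N w).trans (pow_of_le hw N.le_succ)) hw
  have hW : ∀ w ∈ LinearMap.range (T.e ^ N), T.g w ∈ LinearMap.range (T.e ^ N) := by
    rintro _ ⟨w, rfl⟩
    exact ⟨T.g w, by rw [g_eq, g_eq, map_add, pow_e1, e_pow]⟩
  obtain ⟨a1, a2, a3⟩ := iso_of_isCompl h hN hU hW (by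
    rintro u hu _ ⟨w, rfl⟩
    exact h.f_zero hu w (zero_add N).ge)
  refine ⟨_, _, ⟨a1, N, LinearMap.ext ((qres_nil a1).2 fun _ hx => hx).2⟩, ⟨a2, fun v hv => Subtype.ext ?_⟩, a3⟩
  refine Submodule.disjoint_def.1 hN.disjoint _ (pow_of_le (n := 1) ?_ h1) (Subtype.prop v)
  exact sub_eq_zero.2 (congrArg Subtype.val hv)

theorem card_cls_le (σ : ℤ) (hσ : σ ≠ 0) (n : ℕ) {x c : ℝ} (hx : 0 ≤ x) (hx2 : x ^ 2 = 1 / 2)
    (hY : ∀ s, Y ρ x (2 * n + 1) (fun T : Quad K => T.OK ∧ IsNilpotent T.e) s ≤ c) :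
    ((cls ρ (2 * n + 1) fun T : Quad K => T.OK ∧ finrank K T.V = 2 * n ∧ (ρ → 0 < σ * gs T.Q)).card : ℝ) ≤
      c * Nat.card K ^ n := by
  classical
  let F : (ℕ → ℤ) → ℕ → Finset (Quotient (iso K ρ)) := fun s j =>
    (cls ρ (2 * n + 1) fun T : Quad K => (T.OK ∧ IsNilpotent T.e) ∧ Sg ρ s T).filter (dim · = j)
  let s : ℕ → ℤ := fun j => if (F (fun _ => -1) j).card ≤ (F (fun _ => 1) j).card then 1 else -1
  have h3 : ∀ τ j, F (fun _ => τ j) j ⊆ F τ j := fun τ j c hc => by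
    obtain ⟨T, rfl, a1, a2, a3⟩ := mem_cls.1 (mem_filter.1 hc).1
    refine mem_filter.2 ⟨mem_cls.2 ⟨T, rfl, a1, a2, fun hρ => ?_⟩, (mem_filter.1 hc).2⟩
    rw [show finrank K T.V = j from (mem_filter.1 hc).2]
    exact a3 hρ
  have h4 : ∀ τ j, τ = 1 ∨ τ = -1 → (F (fun _ => τ) j).card ≤ (F s j).card := fun τ j hτ =>
    le_trans (by simp only [s]; split_ifs <;> rcases hτ with rfl | rfl <;> omega) (card_le_card (h3 s j))
  let φ : Quotient (iso K ρ) → Quotient (iso K ρ) → Quotient (iso K ρ) := Quotient.map₂ qsum fun _ _ h _ _ => iso_qsum h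
  have h5 : (cls ρ (2 * n + 1) fun T : Quad K => T.OK ∧ finrank K T.V = 2 * n ∧ (ρ → 0 < σ * gs T.Q)) ⊆
      (cls ρ (2 * n + 1) (Tame (K := K))).biUnion fun t =>
        (F (fun _ => if 0 < σ * gs t.out.Q then 1 else -1) (2 * n - dim t)).image (φ · t) := fun c hc => by
    obtain ⟨T, rfl, -, a1, a2, a3⟩ := mem_cls.1 hc
    obtain ⟨U, S, b1, b2, b3⟩ := a1.split
    have b4 := iso_finrank b3
    rw [finrank_qsum, a2] at b4
    refine mem_biUnion.2 ⟨Quotient.mk _ S, mem_cls.2 ⟨S, rfl, by omega, b2⟩, mem_image.2 ⟨Quotient.mk _ U, mem_filter.2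
      ⟨mem_cls.2 ⟨U, rfl, by omega, b1, fun hρ => ?_⟩, Nat.eq_sub_of_add_eq b4⟩, Quotient.sound (iso_of_true b3)⟩⟩
    obtain ⟨e, -, -, he⟩ : iso K ρ (Quotient.mk (iso K ρ) S).out S := Quotient.mk_out S
    have b5 := a3 hρ
    rw [gs_of_iso h2 b3 trivial, mul_left_comm] at b5
    rw [gs_congr e (he hρ)]
    split_ifs with b6
    · rw [one_mul]; exact (pos_iff_pos_of_mul_pos b5).2 b6
    · rw [neg_one_mul, neg_pos]
      exact (neg_iff_neg_of_mul_pos b5).2 (lt_of_le_of_ne (not_lt.1 b6) (mul_ne_zero hσ (gs_ne_zero h2 b2.1.nondeg)))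
  have h6 : ∀ (P : Quad K → Prop), ∀ t ∈ cls ρ (2 * n + 1) P, dim t ∈ range (2 * n + 1) := fun P t ht => by
    obtain ⟨T, rfl, a1, -⟩ := mem_cls.1 ht
    exact mem_range.2 a1
  have hq := two_le_card (K := K)
  calc _ ≤ ∑ t ∈ cls ρ (2 * n + 1) (Tame (K := K)), ((F s (2 * n - dim t)).card : ℝ) := by
        exact_mod_cast (card_le_card h5).trans (card_biUnion_le.trans (sum_le_sum fun t _ =>
          card_image_le.trans (h4 _ _ (by split_ifs <;> simp))))
    _ ≤ ∑ d ∈ range (2 * n + 1), (F s (2 * n + 1 - 1 - d)).card * x ^ (2 * n + 1 - 1 - d) * Nat.card K ^ n := by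
        rw [← sum_fiberwise_of_maps_to (h6 _)]
        refine sum_le_sum fun d hd => ?_
        rw [sum_congr rfl (g := fun _ => ((F s (2 * n - d)).card : ℝ)) fun t ht => by rw [(mem_filter.1 ht).2], sum_const,
          nsmul_eq_mul, mul_comm, mul_assoc, Nat.add_sub_cancel]
        refine mul_le_mul_of_nonneg_left ((card_tame_le h2 _ d).trans ?_) (Nat.cast_nonneg _)
        split_ifs with h
        · obtain ⟨a, rfl⟩ := h
          obtain ⟨b, rfl⟩ := Nat.exists_eq_add_of_le (show a ≤ n by have := mem_range.1 hd; omega)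
          rw [show 2 * (a + b) - 2 * a = 2 * b by omega, pow_mul, hx2, Nat.mul_div_cancel_left _ two_pos, pow_add,
            mul_left_comm, ← mul_pow]
          exact le_mul_of_one_le_right (by positivity) (one_le_pow₀ (by linarith))
        · positivity
    _ = Y ρ x (2 * n + 1) (fun T : Quad K => T.OK ∧ IsNilpotent T.e) s * Nat.card K ^ n := by
        rw [← sum_mul, sum_range_reflect (fun j => ((F s j).card : ℝ) * x ^ j), Y, Z, ← sum_fiberwise_of_maps_to (h6 _)]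
        refine congrArg (· * _) (sum_congr rfl fun j _ => ?_)
        rw [sum_congr rfl (g := fun _ => x ^ j) fun t ht => by rw [(mem_filter.1 ht).2], sum_const, nsmul_eq_mul]
    _ ≤ _ := mul_le_mul_of_nonneg_right (hY s) (by positivity)

omit h2 in
theorem card_conj_le {G : Type*} [Group G] {V : Type u} [AddCommGroup V] [Module K V] [FiniteDimensional K V]
    (φ : G →* (V ≃ₗ[K] V)) (hφ : Function.Injective φ) (Q : G → QuadraticForm K V)
    (hs : ∀ g g', ∀ e : V ≃ₗ[K] V, (∀ u v, polar (Q g') (e u) (e v) = polar (Q g) u v) →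
      (ρ → ∀ v, Q g' (e v) = Q g v) → ∃ c, φ c = e) {N : ℕ} (hN : finrank K V < N) {P : Quad K → Prop}
    (h : ∀ g, P ⟨V, Q g, φ g⟩) : Nat.card (ConjClasses G) ≤ (cls ρ N P).card := by
  rw [← Nat.card_eq_finsetCard]
  refine Nat.card_le_card_of_injective (fun c => ⟨_, mem_cls.2 ⟨_, rfl, hN, h (Quotient.out c)⟩⟩) fun a b e => ?_
  obtain ⟨y, h1, h3, h4⟩ := Quotient.exact (Subtype.mk.inj e)
  obtain ⟨c, rfl⟩ := hs _ _ y h3 h4
  rw [← mk_out a, ← mk_out b, ConjClasses.mk_eq_mk_iff_isConj, isConj_iff]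
  exact ⟨c, mul_inv_eq_iff_eq_mul.2 (hφ (by rw [map_mul, map_mul]; exact LinearEquiv.ext h1))⟩

theorem exists_inv_quad {V : Type*} [AddCommGroup V] [Module K V] (Q : QuadraticForm K V) (g : V ≃ₗ[K] V)
    (hg : ∀ u v, polar Q (g u) (g v) = polar Q u v) :
    ∃ Q' : QuadraticForm K V, (∀ u v, polar Q' u v = polar Q u v) ∧ ∀ v, Q' (g v) = Q' v := by
  obtain ⟨l, hl⟩ := exists_lin_sq h2 (Q := Q.comp (g : V →ₗ[K] V) - Q) fun x y => by
    have := hg x y
    simp only [polar, _root_.sub_apply, QuadraticMap.comp_apply, LinearEquiv.coe_coe, map_add] at this ⊢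
    linear_combination this
  simp only [_root_.sub_apply, QuadraticMap.comp_apply, LinearEquiv.coe_coe] at hl
  obtain ⟨μ, hμ⟩ : l ∈ LinearMap.range (LinearMap.dualMap ((g : End K V) - 1)) := by
    rw [LinearMap.range_dualMap_eq_dualAnnihilator_ker, Submodule.mem_dualAnnihilator]
    intro w hw
    have := hl w
    rwa [show g w = w from sub_eq_zero.1 hw, sub_self, sq_eq_zero_iff] at this
  refine ⟨Q + linMulLin μ μ, fun u v => ?_, fun v => ?_⟩
  · simp only [polar, _root_.add_apply, linMulLin_apply, map_add]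
    linear_combination μ u * μ v * h2
  · have : μ (g v) - μ v = l v := (map_sub μ _ _).symm.trans (LinearMap.congr_fun hμ v)
    simp only [_root_.add_apply, linMulLin_apply]
    linear_combination (μ (g v) + μ v + l v) * this - hl v + (μ v * l v + l v ^ 2) * h2

omit h2 [Finite K] in
theorem exists_x : ∃ x : ℝ, 0 ≤ x ∧ x ^ 2 = 1 / 2 := ⟨√(1 / 2), by positivity, Real.sq_sqrt (by norm_num)⟩

theorem card_sp_le (n : ℕ) : 5 * Nat.card (ConjClasses (Matrix.symplecticGroup (Fin n) K)) ≤ 76 * Nat.card K ^ n := by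
  obtain ⟨x, hx, hx2⟩ := exists_x
  choose Q h3 h4 using fun g : Matrix.symplecticGroup (Fin n) K => exists_inv_quad h2 (Cls.qfPlus n K) (Sp.spLin _ K g)
    fun u v => by rw [Cls.polar_qfPlus_eq_stdForm h2, Cls.polar_qfPlus_eq_stdForm h2]; exact Sp.spLin_mem g u v
  simp only [Cls.polar_qfPlus_eq_stdForm h2] at h3
  have h5 := card_conj_le (ρ := False) (Sp.spLin _ K) Sp.spLin_injective Q
    (fun g g' e he _ => Sp.exists_spLin_eq fun u v => by simpa only [h3] using he u v) (N := 2 * n + 1) (by simp [two_mul])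
    (P := fun T => T.OK ∧ finrank K T.V = 2 * n ∧ (False → 0 < 1 * gs T.Q)) fun g =>
      ⟨⟨fun v hv => (Sp.stdForm_nondegenerate _ K).1 v fun y => (h3 g v y).symm.trans (hv y), h4 g⟩, by simp [two_mul],
        False.elim⟩
  have h6 := card_cls_le h2 (ρ := False) 1 one_ne_zero n hx hx2 (c := 76 / 5) fun s => by
    linarith [Y_sp h2 hx hx2 (2 * n + 1), show Y False x (2 * n + 1) (fun T : Quad K => T.OK ∧ IsNilpotent T.e) s ≤ _
      from Z_mono hx fun _ _ h => h.1]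
  have h7 := (Nat.cast_le.2 h5).trans h6
  rw [← Nat.cast_le (α := ℝ)]
  push_cast
  linarith

theorem card_o_le {V : Type u} [AddCommGroup V] [Module K V] [FiniteDimensional K V] {Q : QuadraticForm K V}
    (hQ : (polarBilin Q).Nondegenerate) {G : Type*} [Group G] (φ : G ≃* Cls.OG Q) {n : ℕ} (hn : finrank K V = 2 * n) :
    Nat.card (ConjClasses G) ≤ 15 * Nat.card K ^ n := by
  obtain ⟨x, hx, hx2⟩ := exists_x
  have h3 := gs_ne_zero h2 hQ.1
  have h5 := card_conj_le (ρ := True) ((Cls.OG Q).subtype.comp φ.toMonoidHom) (Subtype.val_injective.comp φ.injective)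
    (fun _ => Q) (fun _ _ e _ he => (φ.surjective ⟨e, he trivial⟩).imp fun _ h => congrArg Subtype.val h) (N := 2 * n + 1)
    (by omega) (P := fun T => T.OK ∧ finrank K T.V = 2 * n ∧ (True → 0 < gs Q * gs T.Q)) fun g =>
      ⟨⟨hQ.1, (φ g).2⟩, hn, fun _ => mul_self_pos.2 h3⟩
  exact_mod_cast (Nat.cast_le.2 h5).trans (card_cls_le h2 _ h3 n hx hx2 (Y_o h2 hx hx2 _))

end CL.Cl2
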