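/-
Class numbers of symplectic and orthogonal groups in characteristic two, part F: the lower bound for orthogonal groups.
-/
import Cfsg.Agent.Known.Cl2E

set_option autoImplicit false

open Module QuadraticMap Polynomial Finset

namespace CL.Cl2

open Quad CL.GLn CL.Known CL.ClassNo

universe u

variable {K : Type u} [Field K]

/-- The characteristic polynomial of `g + g⁻¹`. -/
noncomputable def cp (T : Quad K) : K[X] := LinearMap.charpoly ((T.g : End K T.V) + (T.g.symm : End K T.V))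

theorem cp_qsum (T S : Quad K) : cp (qsum T S) = cp T * cp S :=
  (congrArg (fun f : End K (T.V × S.V) => f.charpoly) (LinearMap.ext fun _ => rfl)).trans
    (LinearMap.charpoly_prodMap ((T.g : End K T.V) + (T.g.symm : End K T.V)) ((S.g : End K S.V) + (S.g.symm : End K S.V)))

theorem cp_congr {T S : Quad K} (e : T.V ≃ₗ[K] S.V) (h : ∀ v, e (T.g v) = S.g (e v)) : cp T = cp S :=
  Sim.charpoly ⟨e, fun v => (map_add e _ _).trans (congrArg₂ (· + ·) (h v) (S.g.injective (by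
    simp only [LinearEquiv.coe_coe, ← h, LinearEquiv.apply_symm_apply])))⟩

theorem ok_qsum {T S : Quad K} (h : T.OK) (h' : S.OK) : (qsum T S).OK :=
  ⟨fun x hx => Prod.ext (h.nondeg _ fun y => by simpa using (polar_prod _ _ _ _).symm.trans (hx (y, 0)))
    (h'.nondeg _ fun y => by simpa using (polar_prod _ _ _ _).symm.trans (hx (0, y))),
    fun v => congrArg₂ (· + ·) (h.isom v.1) (h'.isom v.2)⟩

theorem coeff_one_charpoly {W : Type*} [AddCommGroup W] [Module K W] [FiniteDimensional K W] {Y Z : End K W}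
    (h : Z * Y = 1) : Y.charpoly.coeff 1 = -(Y.charpoly.coeff 0 * LinearMap.trace K W Z) := by
  let e := finBasis K W
  have h1 : LinearMap.toMatrix e e Z * LinearMap.toMatrix e e Y = 1 := by rw [← LinearMap.toMatrix_mul, h, LinearMap.toMatrix_one]
  rw [← LinearMap.charpoly_toMatrix Y e, ← Matrix.inv_eq_right_inv h1, Matrix.charpoly_inv _ (.of_mul_eq_one _ h1),
    LinearMap.trace_eq_matrix_trace K e, ← C_1, ← C_neg, ← C_pow, ← C_mul, coeff_C_mul, coeff_C_mul,
    Matrix.coeff_charpolyRev_eq_neg_trace, coeff_zero_eq_eval_zero, Matrix.eval_charpolyRev, mul_one, mul_neg]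

variable (h2 : (2 : K) = 0)
include h2

theorem sum_symm {ι : Type*} (s : Finset ι) {F : ι → ι → K} (h : ∀ i j, F i j = F j i) :
    ∑ i ∈ s, ∑ j ∈ s, F i j = ∑ i ∈ s, F i i := by
  classical
  induction s using Finset.induction_on with
  | empty => simp
  | insert a s ha ih =>
    simp only [sum_insert ha, sum_add_distrib, ih, h _ a]
    linear_combination (∑ j ∈ s, F a j) * h2

theorem form_eq_trace {W : Type*} [AddCommGroup W] [Module K W] [FiniteDimensional K W] {b : LinearMap.BilinForm K W}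
    (hb : b.Nondegenerate) (hs : ∀ u v, b u v = b v u) {Z : End K W} (hZ : ∀ u v, b (Z u) v = b u (Z v)) {c : W}
    (hc : ∀ a, b c a ^ 2 = b a (Z a)) : b c c = LinearMap.trace K W Z := by
  let e := finBasis K W
  have h1 : ∀ x, x = ∑ i, b x (e i) • b.dualBasis hb e i := fun x => by
    simpa only [LinearMap.BilinForm.dualBasis_repr_apply] using ((b.dualBasis hb e).sum_repr x).symm
  have h3 : ∀ i, b (b.dualBasis hb e i) (Z (e i)) = ∑ j, b (Z (e i)) (e j) * b (b.dualBasis hb e i) (b.dualBasis hb e j) :=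
    fun i => by conv_lhs => rw [h1 (Z (e i))]; simp only [map_sum, map_smul, smul_eq_mul]
  have h4 : b c c = ∑ i, ∑ j, b c (e i) * b c (e j) * b (b.dualBasis hb e j) (b.dualBasis hb e i) := by
    conv_lhs => rw [h1 c]
    simp only [map_sum, map_smul, smul_eq_mul, LinearMap.sum_apply, LinearMap.smul_apply, mul_sum, mul_assoc]
  rw [LinearMap.trace_eq_matrix_trace K (b.dualBasis hb e), Matrix.trace, h4, sum_symm h2 _ fun i j => by
    rw [hs (b.dualBasis hb e j), mul_comm (b c (e i))]]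
  simp only [Matrix.diag, LinearMap.toMatrix_apply, LinearMap.BilinForm.dualBasis_repr_apply, hZ, h3]
  rw [sum_symm h2 _ fun i j => by rw [hs (b.dualBasis hb e j), ← hZ (e j), hs (e i)]]
  exact sum_congr rfl fun i _ => by rw [← pow_two, hc]

variable [Finite K]

theorem exists_model {W : Type u} [AddCommGroup W] [Module K W] [FiniteDimensional K W] {b : LinearMap.BilinForm K W}
    (hb : b.Nondegenerate) (hs : ∀ u v, b u v = b v u) {Y Z : End K W} (hY : ∀ u v, b (Y u) v = b u (Y v))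
    (hYZ : ∀ v, Y (Z v) = v) : ∃ T : Quad K, T.OK ∧ finrank K T.V = 2 * finrank K W ∧
      0 < gs T.Q * ψ (LinearMap.trace K W Z) ∧ cp T = Y.charpoly ^ 2 := by
  have hZ : ∀ u v, b (Z u) v = b u (Z v) := fun u v => by rw [← hYZ v, ← hY, hYZ, hYZ]
  let Q : QuadraticForm K (W × W) := LinearMap.BilinMap.toQuadraticMap
    (b.compl₁₂ (LinearMap.fst K W W) (LinearMap.snd K W W) + b.compl₁₂ (LinearMap.fst K W W) (Z ∘ₗ LinearMap.fst K W W) +
      b.compl₁₂ (LinearMap.snd K W W) (Z ∘ₗ LinearMap.snd K W W))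
  have hQ : ∀ v, Q v = b v.1 v.2 + b v.1 (Z v.1) + b v.2 (Z v.2) := fun _ => rfl
  have hp : ∀ u v, polar Q u v = b u.1 v.2 + b u.2 v.1 := fun u v => by
    simp only [polar, hQ, Prod.fst_add, Prod.snd_add, map_add, LinearMap.add_apply, hs v.1 u.2, hs v.1 (Z u.1),
      hs v.2 (Z u.2), hZ]
    linear_combination (b u.1 (Z v.1) + b u.2 (Z v.2)) * h2
  let g : (W × W) ≃ₗ[K] (W × W) := (LinearEquiv.prodComm K W W).trans ((LinearEquiv.refl K W).skewProd (.refl K W) Y)
  have hg : ∀ v, g v = (v.2, v.1 + Y v.2) := fun _ => rfl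
  obtain ⟨φ, hφ⟩ := exists_lin_sq h2 (Q := LinearMap.BilinMap.toQuadraticMap (b.compl₂ Z)) fun x y => by
    rw [LinearMap.BilinMap.polar_toQuadraticMap, LinearMap.compl₂_apply, LinearMap.compl₂_apply, hs y, hZ]
    linear_combination b x (Z y) * h2
  obtain ⟨c, rfl⟩ := (b.toDual hb).surjective φ
  have hc : ∀ a, b c a ^ 2 = b a (Z a) := hφ
  refine ⟨⟨W × W, Q, g⟩, ⟨fun x hx => Prod.ext (hb.1 _ fun y => by simpa [hp] using hx (0, y))
    (hb.1 _ fun y => by simpa [hp] using hx (y, 0)), fun v => ?_⟩, by simp [two_mul], ?_, ?_⟩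
  · change Q (g v) = Q v
    have h3 : Z (Y v.2) = v.2 := sub_eq_zero.1 (hb.1 _ fun y => by
      rw [map_sub, LinearMap.sub_apply, hZ, hY, hYZ, sub_self])
    simp only [hg, hQ, map_add, LinearMap.add_apply, h3, hY, hYZ, hs v.2 v.1]
    linear_combination (b v.1 v.2 + b v.2 (Y v.2)) * h2
  · have := gs_eq' h2 (X := ⟨W × W, Q, g⟩) (LinearMap.range (LinearMap.inl K W W)) (0, c)
      (by rintro _ ⟨a, rfl⟩; simp [hp, hQ, hc])
      fun x hx => ⟨x.1, Prod.ext rfl (hb.1 _ fun y => by simpa [hp] using hx _ ⟨y, rfl⟩).symm⟩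
    rwa [show Q (0, c) = b c c ^ 2 by simp [hQ, hc], ψ_sq h2, form_eq_trace h2 hb hs hZ hc] at this
  · rw [pow_two, ← LinearMap.charpoly_prodMap]
    refine congrArg LinearMap.charpoly (LinearMap.ext fun v => ?_)
    change g v + g.symm v = (Y v.1, Y v.2)
    rw [show g.symm v = (v.2 - Y v.1, v.1) from g.symm_apply_eq.2 (by simp [hg]), hg, Prod.mk_add_mk, sub_eq_add_neg,
      neg_eq_self h2, ← add_assoc, add_right_comm v.1, ← two_smul K, ← two_smul K, h2, zero_smul, zero_smul, zero_add,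
      zero_add]

theorem exists_of_poly {p : K[X]} (hp : p.Monic) (h0 : p.coeff 0 ≠ 0) :
    ∃ T : Quad K, T.OK ∧ finrank K T.V = 2 * p.natDegree ∧ 0 < gs T.Q * ψ (p.coeff 1 / p.coeff 0) ∧ cp T = p ^ 2 := by
  have := finite_adjoinRoot hp.ne_zero
  let l : AdjoinRoot p →ₗ[K] K := lcoeff K (p.natDegree - 1) ∘ₗ AdjoinRoot.modByMonicHom hp
  have nd : ∀ u, (∀ v, l (u * v) = 0) → u = 0 := fun u hu => by
    obtain ⟨r, hr, rfl⟩ : ∃ r : K[X], r.degree < p.degree ∧ AdjoinRoot.mk p r = u := by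
      obtain ⟨r, rfl⟩ := AdjoinRoot.mk_surjective u
      exact ⟨r %ₘ p, degree_modByMonic_lt _ hp, AdjoinRoot.mk_eq_mk.2 (dvd_modByMonic_sub _ _)⟩
    by_cases h : r = 0
    · rw [h, map_zero]
    have h3 := natDegree_lt_natDegree h hr
    have h4 := hu (AdjoinRoot.mk p (X ^ (p.natDegree - 1 - r.natDegree)))
    rw [← map_mul, LinearMap.comp_apply, AdjoinRoot.modByMonicHom_mk, (modByMonic_eq_self_iff hp).2 (degree_lt_degree (by
      rw [natDegree_mul_X_pow _ h]; omega)), lcoeff_apply, show p.natDegree - 1 = r.natDegree +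
        (p.natDegree - 1 - r.natDegree) by omega, Nat.add_sub_cancel_left, coeff_mul_X_pow] at h4
    exact absurd h4 (leadingCoeff_ne_zero.2 h)
  have h3 : AdjoinRoot.root p * (-(p.coeff 0)⁻¹ • AdjoinRoot.mk p p.divX) = 1 := by
    have h4 := congrArg (AdjoinRoot.mk p) (X_mul_divX_add p)
    rw [AdjoinRoot.mk_self, map_add, map_mul, AdjoinRoot.mk_X, AdjoinRoot.mk_C, ← AdjoinRoot.algebraMap_eq,
      Algebra.algebraMap_eq_smul_one, add_eq_zero_iff_eq_neg] at h4
    rw [mul_smul_comm, h4, smul_neg, neg_smul, neg_neg, smul_smul, inv_mul_cancel₀ h0, one_smul]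
  obtain ⟨T, h4, h5, h6, h7⟩ := exists_model h2 (b := (LinearMap.mul K (AdjoinRoot p)).compr₂ l)
    ⟨nd, fun u hu => nd u fun v => mul_comm u v ▸ hu v⟩ (fun u v => congrArg l (mul_comm u v))
    (Y := Algebra.lmul K _ (AdjoinRoot.root p)) (Z := Algebra.lmul K _ (-(p.coeff 0)⁻¹ • AdjoinRoot.mk p p.divX))
    (fun u v => congrArg l (by simp only [Algebra.coe_lmul_eq_mul, LinearMap.mul_apply']; ring))
    fun v => by rw [← End.mul_apply, ← map_mul, h3, map_one, End.one_apply]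
  have h8 := coeff_one_charpoly (Y := Algebra.lmul K _ (AdjoinRoot.root p))
    (Z := Algebra.lmul K _ (-(p.coeff 0)⁻¹ • AdjoinRoot.mk p p.divX)) (by rw [← map_mul, mul_comm, h3, map_one])
  rw [charpoly_lmul_root hp] at h7 h8
  refine ⟨T, h4, h5.trans (by rw [finrank_adjoinRoot]), ?_, h7⟩
  rwa [h8, neg_eq_self h2, mul_div_cancel_left₀ _ h0]

theorem exists_plane (a : K) : ∃ T : Quad K, T.OK ∧ finrank K T.V = 2 ∧ 0 < gs T.Q * ψ a ∧ cp T = X ^ 2 := by
  let Q : QuadraticForm K (K × K) := linMulLin (LinearMap.fst K K K) (LinearMap.fst K K K) +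
    linMulLin (LinearMap.fst K K K) (LinearMap.snd K K K) + a • linMulLin (LinearMap.snd K K K) (LinearMap.snd K K K)
  have hQ : ∀ v, Q v = v.1 * v.1 + v.1 * v.2 + a * (v.2 * v.2) := fun _ => rfl
  have hp : ∀ u v, polar Q u v = u.1 * v.2 + u.2 * v.1 := fun u v => by
    simp only [polar, hQ, Prod.fst_add, Prod.snd_add]
    linear_combination (u.1 * v.1 + a * u.2 * v.2) * h2
  refine ⟨⟨K × K, Q, .refl _ _⟩, ⟨fun x hx => Prod.ext (by simpa [hp] using hx (0, 1)) (by simpa [hp] using hx (1, 0)),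
    fun _ => rfl⟩, by simp, ?_, ?_⟩
  · simpa [hQ] using gs_eq' h2 (X := ⟨K × K, Q, .refl _ _⟩) (LinearMap.range (LinearMap.inl K K K)) (0, 1)
      (by rintro _ ⟨a, rfl⟩; simp [hp, hQ, pow_two])
      fun x hx => ⟨x.1, Prod.ext rfl (by simpa [hp, eq_comm] using hx _ ⟨1, rfl⟩)⟩
  · rw [cp, show ((LinearEquiv.refl K (K × K) : End K (K × K)) + ((LinearEquiv.refl K (K × K)).symm : End K (K × K))) = 0
      from LinearMap.ext fun v => add_eq_zero_iff_eq_neg.2 (neg_eq_self h2 v).symm, LinearMap.charpoly_zero]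
    simp

omit h2 [Finite K] in
/-- The polynomials realised in the orthogonal group of sign `σ`. -/
def Good (σ : ℤ) (p : K[X]) : Prop :=
  (p.coeff 0 ≠ 0 ∧ 0 < σ * ψ (p.coeff 1 / p.coeff 0)) ∨ (p.coeff 0 = 0 ∧ p.coeff 1 ≠ 0)

theorem exists_of_good {σ : ℤ} (hσ : σ ≠ 0) {p : K[X]} (hp : p.Monic) {n : ℕ} (hn : p.natDegree = n + 2) (h : Good σ p) :
    ∃ T : Quad K, T.OK ∧ finrank K T.V = 2 * (n + 2) ∧ 0 < σ * gs T.Q ∧ cp T = p ^ 2 := by
  have k : ∀ a b c : ℤ, 0 < a * c → 0 < b * c → 0 < a * b := fun a b c h h' => by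
    rcases pos_and_pos_or_neg_and_neg_of_mul_pos h with ⟨h3, h4⟩ | ⟨h3, h4⟩
    exacts [mul_pos h3 ((pos_iff_pos_of_mul_pos h').2 h4), mul_pos_of_neg_of_neg h3 ((neg_iff_neg_of_mul_pos h').2 h4)]
  rcases h with ⟨h0, h⟩ | ⟨h0, h⟩
  · obtain ⟨T, h3, h4, h5, h6⟩ := exists_of_poly h2 hp h0
    exact ⟨T, h3, hn ▸ h4, k _ _ _ h h5, h6⟩
  obtain ⟨r, rfl⟩ := X_dvd_iff.2 h0
  have hr := monic_X.of_mul_monic_left hp
  rw [monic_X.natDegree_mul hr, natDegree_X] at hn
  obtain ⟨T, h3, h4, -, h6⟩ := exists_of_poly h2 hr (by rwa [coeff_X_mul] at h)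
  obtain ⟨a, ha⟩ : ∃ a : K, 0 < σ * gs T.Q * ψ a := by
    obtain ⟨α, hα⟩ := exists_ψ_neg h2
    rcases (mul_ne_zero hσ (gs_ne_zero h2 h3.nondeg)).lt_or_gt with h | h
    exacts [⟨α, by rwa [hα, mul_neg_one, neg_pos]⟩, ⟨0, by rwa [ψ_zero, mul_one]⟩]
  obtain ⟨H, g3, g4, g5, g6⟩ := exists_plane h2 a
  refine ⟨qsum T H, ok_qsum h3 g3, by rw [finrank_qsum]; omega, ?_, by rw [cp_qsum, h6, g6]; ring⟩
  exact (k _ _ _ ha g5).trans_eq ((mul_assoc _ _ _).trans (congrArg _ (gs_prod h2 _ _).symm))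

theorem card_good {σ : ℤ} (hσ : σ ≠ 0) (n : ℕ) :
    Nat.card K ^ (n + 2) ≤ 2 * Nat.card {p : K[X] // p.Monic ∧ p.natDegree = n + 2 ∧ Good σ p} := by
  classical
  obtain ⟨α, hα⟩ := exists_ψ_neg h2
  have h3 := card_filter_add_card_filter_not (s := mon (F := K) (n + 2) fun _ => True) (Good σ)
  have h4 : ((mon (F := K) (n + 2) fun _ => True).filter fun p => ¬ Good σ p).card ≤
      ((mon (F := K) (n + 2) fun _ => True).filter (Good σ)).card :=
    card_le_card_of_injOn (fun p => p + C (if p.coeff 0 = 0 then 1 else α * p.coeff 0) * X) (fun p hp => by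
      obtain ⟨h5, h6⟩ := mem_filter.1 hp
      obtain ⟨f1, f2, -⟩ := mem_mon.1 h5
      have h7 : (C (if p.coeff 0 = 0 then 1 else α * p.coeff 0) * X).degree < p.degree :=
        degree_lt_degree (lt_of_le_of_lt (b := 1) (by compute_degree!) (by omega))
      refine mem_coe.2 (mem_filter.2 ⟨mem_mon.2 ⟨f1.add_of_left h7,
        (natDegree_eq_of_degree_eq (degree_add_eq_left_of_degree_lt h7)).trans f2, trivial⟩, ?_⟩)
      simp only [Good, not_or, not_and, not_not, not_lt] at h6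
      simp only [Good, coeff_add, coeff_C_mul, coeff_X_zero, coeff_X_one, mul_zero, add_zero, mul_one]
      by_cases h0 : p.coeff 0 = 0
      · exact .inr ⟨h0, by rw [if_pos h0, h6.2 h0, zero_add]; exact one_ne_zero⟩
      · refine .inl ⟨h0, ?_⟩
        rw [if_neg h0, add_div, mul_div_cancel_right₀ _ h0, ψ_add h2, hα, mul_neg_one, mul_neg, neg_pos]
        exact lt_of_le_of_ne (h6.1 h0) (mul_ne_zero hσ (left_ne_zero_of_mul_eq_one (ψ_mul_self _))))
      fun p _ r _ e => by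
        have : p.coeff 0 = r.coeff 0 := by simpa using congrArg (coeff · 0) e
        simpa only [this, add_left_inj] using e
  rw [card_mon, Nat.card_congr (Equiv.subtypeEquivRight fun _ => and_congr_right' (and_true _).to_iff), card_monic] at h3
  rw [Nat.subtype_card ((mon (F := K) (n + 2) fun _ => True).filter (Good σ)) fun f => by simp [mem_mon, and_assoc]]
  omega

theorem le_card_o {a b : K} (hab : ∀ z₁ z₂ : K, z₁ ^ 2 + a * z₁ * z₂ + b * z₂ ^ 2 = 0 → z₁ = 0 ∧ z₂ = 0)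
    {V : Type u} [AddCommGroup V] [Module K V] [FiniteDimensional K V] {Q : QuadraticForm K V}
    (hQ : (polarBilin Q).Nondegenerate) {G : Type*} [Group G] [Finite G] (φ : G ≃* Cls.OG Q) {n : ℕ}
    (hn : finrank K V = 2 * (n + 2)) : Nat.card K ^ (n + 2) ≤ 2 * Nat.card (ConjClasses G) := by
  have nd : ∀ {T : Quad K}, T.OK → (polarBilin T.Q).Nondegenerate := fun h => Cls.nondeg_iff.2 h.nondeg
  have h3 : 0 < -gs (Cls.qfPlus (n + 1 + 1) K) * gs (Cls.qfMinus (n + 1) K a b) := by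
    obtain ⟨T, h4, h5, h6, -⟩ := exists_of_good h2 (neg_ne_zero.2 (gs_ne_zero h2 (Cls.nondeg_qfPlus (m := n + 1 + 1)).1))
      (p := X ^ (n + 2) + X) (by monicity!) (n := n) (by compute_degree!) (.inr (by simp [coeff_X_pow]))
    rcases Cls.exists_equiv_qfPlus_or_qfMinus (nd h4) (m := n + 1) h5 hab with ⟨e, he⟩ | ⟨e, he⟩ <;>
      rw [gs_congr e he] at h6
    · exact absurd (neg_mul (gs (Cls.qfPlus (n + 1 + 1) K)) _ ▸ h6) (neg_nonpos.2 (mul_self_nonneg _)).not_gt
    · exact h6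
  have key : ∀ p : {p : K[X] // p.Monic ∧ p.natDegree = n + 2 ∧ Good (gs Q) p},
      ∃ g : G, cp ⟨V, Q, (φ g).1⟩ = p.1 ^ 2 := fun p => by
    obtain ⟨T, h4, h5, h6, h7⟩ := exists_of_good h2 (gs_ne_zero h2 hQ.1) p.2.1 p.2.2.1 p.2.2.2
    obtain ⟨e, he⟩ : ∃ e : T.V ≃ₗ[K] V, ∀ v, Q (e v) = T.Q v := by
      rcases Cls.exists_equiv_qfPlus_or_qfMinus (nd h4) (m := n + 1) h5 hab with ⟨e, he⟩ | ⟨e, he⟩ <;>
        rcases Cls.exists_equiv_qfPlus_or_qfMinus hQ (m := n + 1) hn hab with ⟨f, hf⟩ | ⟨f, hf⟩ <;>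
        rw [gs_congr e he, gs_congr f hf] at h6
      · exact ⟨e.trans f.symm, fun v => by rw [← hf, ← he]; simp⟩
      · nlinarith
      · nlinarith
      · exact ⟨e.trans f.symm, fun v => by rw [← hf, ← he]; simp⟩
    obtain ⟨g, hg⟩ := φ.surjective ⟨e.symm.trans (T.g.trans e), fun v => by
      simp only [LinearEquiv.trans_apply, he, h4.isom]
      rw [← he, e.apply_symm_apply]⟩
    exact ⟨g, (cp_congr (S := ⟨V, Q, (φ g).1⟩) e fun v => by simp [hg]).symm.trans h7⟩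
  choose g hg using key
  refine (card_good h2 (gs_ne_zero h2 hQ.1) n).trans (Nat.mul_le_mul_left _
    (Nat.card_le_card_of_injective (fun p => ConjClasses.mk (g p)) fun p r e => Subtype.ext ?_))
  obtain ⟨c, hc⟩ := isConj_iff.1 (ConjClasses.mk_eq_mk_iff_isConj.1 e)
  have := (hg p).symm.trans ((cp_congr (T := ⟨V, Q, (φ (g p)).1⟩) (S := ⟨V, Q, (φ (g r)).1⟩) (φ c).1 fun v => by
    simp [← hc]).trans (hg r))
  exact (sq_eq_sq_iff_eq_or_eq_neg.1 this).elim id fun h => h.trans (neg_eq_self h2 _)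

end CL.Cl2
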