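/-
Class numbers of classical groups, part 12: subgroups of index two; more estimates.
-/
import Cfsg.Agent.Known.ClassNo11

set_option autoImplicit false

open Finset

namespace CL.ClassNo

section Group

variable {G : Type*} [Group G] [Finite G]

omit [Finite G] in
theorem card_comm_classes (p : G → Prop) (hp : ∀ a b, IsConj a b → p a → p b) :
    Nat.card {x : G × G // p x.1 ∧ Commute x.1 x.2} =
      Nat.card {c : ConjClasses G // ∃ g, ConjClasses.mk g = c ∧ p g} * Nat.card G := by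
  choose t ht using fun u : G => isConj_iff.1 (ConjClasses.mk_eq_mk_iff_isConj.1 (mk_out (ConjClasses.mk u)))
  rw [← Nat.card_prod]
  refine Nat.card_congr (Equiv.ofBijective (fun x => (⟨_, x.1.1, rfl, x.2.1⟩, x.1.2 * t x.1.1)) ⟨?_, ?_⟩)
  · rintro ⟨⟨u, v⟩, h0, h1⟩ ⟨⟨u', v'⟩, h0', h2⟩ h
    have h3 : ConjClasses.mk u = ConjClasses.mk u' := congrArg (·.1.1) h
    have h4 : v * t u = v' * t u' := congrArg (·.2) h
    have h5 : ∀ {u v : G}, Commute u v → u = v * t u * Quotient.out (ConjClasses.mk u) * (v * t u)⁻¹ := fun {u v} h => by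
      rw [mul_inv_rev, ← mul_assoc, mul_assoc v, mul_assoc v, ht, ← h.eq, mul_inv_cancel_right]
    obtain rfl : u = u' := (h5 h1).trans (by rw [h4, h3]; exact (h5 h2).symm)
    obtain rfl := mul_right_cancel h4
    rfl
  · rintro ⟨⟨_, g, rfl, hg⟩, y⟩
    set u := y * Quotient.out (ConjClasses.mk g) * y⁻¹ with hu
    have h1 : ConjClasses.mk u = ConjClasses.mk g :=
      (ConjClasses.mk_eq_mk_iff_isConj.2 (isConj_iff.2 ⟨y, rfl⟩)).symm.trans (mk_out _)
    refine ⟨⟨(u, y * (t u)⁻¹), hp _ _ (ConjClasses.mk_eq_mk_iff_isConj.1 h1.symm) hg, ?_⟩,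
      Prod.ext (Subtype.ext h1) (inv_mul_cancel_right _ _)⟩
    have h2 := ht u
    rw [h1] at h2
    change u * (y * (t u)⁻¹) = y * (t u)⁻¹ * u
    generalize t u = w at h2
    rw [(congrArg (· * _) hu).trans (by group : _ = y * Quotient.out (ConjClasses.mk g) * w⁻¹), ← h2]
    group

theorem index_two_classes (φ : G →* ℤˣ) (hφ : ∃ t, φ t ≠ 1) : 2 * Nat.card (ConjClasses φ.ker) = Nat.card (ConjClasses G) +
    3 * Nat.card {c : ConjClasses G // ∃ u, ConjClasses.mk u = c ∧ ∀ v, Commute u v → φ v = 1} := by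
  classical
  have := Fintype.ofFinite G
  let S : Finset (G × G) := univ.filter fun x => Commute x.1 x.2
  have h1 : 2 * Nat.card φ.ker = Nat.card G := by
    rw [← φ.ker.index_mul_card, Subgroup.index_ker, (MonoidHom.range_eq_top).2 fun a => ?_, Subgroup.card_top,
      Nat.card_eq_fintype_card (α := ℤˣ), Fintype.card_units_int]
    obtain ⟨t, ht⟩ := hφ
    rcases Int.units_eq_one_or a with rfl | rfl
    exacts [⟨1, map_one φ⟩, ⟨t, (Int.units_eq_one_or _).resolve_left ht⟩]
  have h2 : ∑ x ∈ S, (φ x.2 : ℤ) = Nat.card {x : G × G // (∀ v, Commute x.1 v → φ v = 1) ∧ Commute x.1 x.2} := by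
    rw [Nat.card_eq_fintype_card, Fintype.card_subtype, card_filter, sum_filter, Fintype.sum_prod_type,
      Fintype.sum_prod_type]
    push_cast
    refine sum_congr rfl fun u _ => ?_
    by_cases h : ∀ v, Commute u v → φ v = 1
    · exact sum_congr rfl fun v _ => by by_cases h' : Commute u v <;> simp [h', h, and_iff_right h]
    simp only [h, false_and, if_false, sum_const_zero]
    rw [← sum_filter, sum_subtype (p := (· ∈ Subgroup.centralizer {u})) _
      (by simp [Subgroup.mem_centralizer_iff, commute_iff_eq])]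
    refine sum_hom_units_eq_zero ((Units.coeHom ℤ).comp (φ.comp (Subgroup.centralizer {u}).subtype)) fun e => h fun v hv => ?_
    exact Units.ext (DFunLike.congr_fun e (⟨v, Subgroup.mem_centralizer_singleton_iff.2 hv.symm⟩ : Subgroup.centralizer {u}) :)
  have h3 : ∑ x ∈ S, (φ x.1 : ℤ) = ∑ x ∈ S, (φ x.2 : ℤ) :=
    sum_equiv (Equiv.prodComm _ _) (by simp [S, Commute.symm_iff]) fun _ _ => rfl
  have h4 : ∑ x ∈ S, (φ x.1 : ℤ) * φ x.2 = ∑ x ∈ S, (φ x.2 : ℤ) :=
    sum_equiv (Equiv.prodShear (Equiv.refl _) Equiv.mulLeft) (by simp [S, commute_iff_eq, mul_assoc]) fun _ _ => by simp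
  have h5 : ∑ x ∈ S, (1 + φ x.1 : ℤ) * (1 + φ x.2) = 4 * Nat.card {x : φ.ker × φ.ker // Commute x.1 x.2} := by
    rw [Nat.card_congr (α := {x : φ.ker × φ.ker // Commute x.1 x.2}) (β := {x // x ∈ S.filter fun y : G × G => φ y.1 = 1 ∧ φ y.2 = 1})
      ⟨fun x => ⟨(x.1.1, x.1.2), mem_filter.2 ⟨mem_filter.2 ⟨mem_univ _, (congrArg Subtype.val x.2.eq :)⟩,
          x.1.1.2, x.1.2.2⟩⟩,
        fun x => ⟨(⟨x.1.1, (mem_filter.1 x.2).2.1⟩, ⟨x.1.2, (mem_filter.1 x.2).2.2⟩),
          Subtype.ext (mem_filter.1 (mem_filter.1 x.2).1).2⟩, fun _ => rfl, fun _ => rfl⟩,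
      Nat.card_eq_finsetCard, card_filter, Nat.cast_sum, mul_sum]
    refine sum_congr rfl fun x _ => ?_
    rcases Int.units_eq_one_or (φ x.1) with h | h <;> rcases Int.units_eq_one_or (φ x.2) with h' | h' <;> simp [h, h']
  have h6 : (S.card : ℤ) = Nat.card (ConjClasses G) * Nat.card G := by
    rw [← Nat.cast_mul, ← card_comm_eq_card_conjClasses_mul_card, Nat.card_eq_fintype_card, Fintype.card_subtype]
  rw [card_comm_classes (fun u => ∀ v, Commute u v → φ v = 1) fun a b h ha v hv => ?_] at h2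
  · simp only [add_mul, mul_add, one_mul, mul_one, sum_add_distrib, sum_const, nsmul_eq_mul, h3, h4, h2, h6,
      card_comm_eq_card_conjClasses_mul_card, ← h1] at h5
    push_cast at h5
    zify
    exact mul_right_cancel₀ (b := 2 * (Nat.card φ.ker : ℤ)) (mul_ne_zero two_ne_zero (Nat.cast_ne_zero.2 Nat.card_pos.ne')) (by linear_combination -h5)
  · obtain ⟨c, rfl⟩ := isConj_iff.1 h
    simpa only [map_mul, mul_right_comm _ (φ v), map_inv, inv_mul_cancel, one_mul] using ha (c⁻¹ * v * c) (by simpa [mul_assoc] using hv.conj c⁻¹)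

theorem two_mul_card_le (φ : G →* ℤˣ) {z : G} (hz : ∀ g, g * z = z * g) (h : φ z = -1) {p : ConjClasses φ.ker → Prop}
    {R : ConjClasses G → Prop} (hp : ∀ u, p (ConjClasses.mk u) → R (ConjClasses.mk u.1) ∧ R (ConjClasses.mk (u.1 * z))) :
    2 * Nat.card {c // p c} ≤ Nat.card {c // R c} := by
  rw [← Fintype.card_bool, ← Nat.card_eq_fintype_card, ← Nat.card_prod]
  refine Nat.card_le_card_of_injective (fun x => ⟨ConjClasses.mk ((Quotient.out x.2.1).1 * if x.1 then z else 1), by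
    have := hp _ ((mk_out x.2.1).symm ▸ x.2.2)
    cases x.1
    exacts [by simpa using this.1, this.2]⟩) ?_
  rintro ⟨a, c⟩ ⟨b, d⟩ e
  obtain ⟨y, hy⟩ := isConj_iff.1 (ConjClasses.mk_eq_mk_iff_isConj.1 (Subtype.mk.inj e))
  have h1 := congrArg φ hy
  simp only [map_mul, (MonoidHom.mem_ker).1 (Subtype.prop _), map_inv, one_mul, mul_inv_cancel_comm] at h1
  obtain rfl : a = b := by cases a <;> cases b <;> simp_all
  have h2 : y * (Quotient.out c.1).1 = (Quotient.out d.1).1 * y := by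
    cases a
    · simpa [mul_inv_eq_iff_eq_mul] using hy
    · rw [← mul_inv_eq_iff_eq_mul]
      refine mul_right_cancel (b := z) ?_
      simpa [mul_assoc, ← hz] using hy
  refine Prod.ext rfl (Subtype.ext ((mk_out _).symm.trans ((ConjClasses.mk_eq_mk_iff_isConj.2
    (Known.isConj_coe_iff.2 ?_)).trans (mk_out _))))
  rcases Int.units_eq_one_or (φ y) with h3 | h3
  · exact ⟨y, h3, h2⟩
  · exact ⟨y * z, by simp [MonoidHom.mem_ker, h3, h], by rw [mul_assoc, ← hz, ← mul_assoc, h2, mul_assoc]⟩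

end Group

section Estimates

open PowerSeries

theorem coeff_scale {β β' : ℕ → ℕ → ℝ} (h0 : ∀ e m, 0 ≤ β e m) {t : ℝ} (ht : 1 ≤ t)
    (h : ∀ e m, β e m ≤ t ^ (m / 2) * β' e m) (k N : ℕ) : coeff N (∏ e ∈ range k, ser (e + 1) (β e)) ≤
      t ^ (N / 2) * coeff N (∏ e ∈ range k, ser (e + 1) (β' e)) := by
  rw [coeff_prod_ser, coeff_prod_ser, mul_sum]
  refine sum_le_sum fun m hm => (prod_le_prod (fun e _ => h0 _ _) fun e _ => h _ _).trans ?_
  rw [prod_mul_distrib, prod_pow_eq_pow_sum]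
  refine mul_le_mul_of_nonneg_right (pow_le_pow_right₀ ht ?_) (prod_nonneg fun e _ =>
    nonneg_of_mul_nonneg_right ((h0 _ _).trans (h _ _)) (by positivity))
  rw [Nat.le_div_iff_mul_le two_pos, sum_mul, ← mem_typ.1 hm]
  exact sum_le_sum fun e _ => (Nat.div_mul_le_self _ _).trans (Nat.le_mul_of_pos_left _ (Nat.succ_pos _))

theorem big_scale {q t : ℝ} (hq : 0 ≤ q) (ht : 1 ≤ t) : ∀ m, big (t * q) m ≤ t ^ (m / 2) * big q m
  | 0 => by simp [big]
  | 1 => by simp [big]
  | m + 2 => by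
    rw [big, big, Nat.add_div_right _ two_pos, mul_add]
    refine add_le_add (le_mul_of_one_le_left (Nat.cast_nonneg _) (one_le_pow₀ ht))
      ((mul_le_mul_of_nonneg_left (big_scale hq ht m) (by positivity)).trans_eq (by ring))

theorem allc_five {q : ℝ} (hq : 5 ≤ q) (n : ℕ) : allc (big q) q (2 * n + 1) ≤ 14.6 * q ^ n := by
  obtain ⟨t, rfl⟩ : ∃ t, q = t * 5 := ⟨q / 5, by ring⟩
  have ht : 1 ≤ t := by linarith
  refine (coeff_scale (β := fun e => if Even e then big (t * 5) else sml (t * 5))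
    (β' := fun e => if Even e then big 5 else sml 5)
    (fun e m => by split_ifs; exacts [big_nonneg (by linarith) m, sml_nonneg (by linarith) m]) ht
    (fun e m => by split_ifs; exacts [big_scale (by norm_num) ht m, by simp [sml, mul_pow]]) _ _).trans ?_
  obtain ⟨x, hx, h⟩ := exists_sqrt_inv (q := 5) (by norm_num)
  have hz : x ^ 2 = 1 / 5 := by linarith
  have h1 : 0.447 ≤ x ∧ x ≤ 0.4473 := ⟨by nlinarith, by nlinarith⟩
  have h2 := allc_big_le hx.le (by linarith) h (a := 1.32) (b := 1.126) (fun k => (euler_inv_le (sq_nonneg x) hz.le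
    (by norm_num) 1 (D := 0.0521) (by norm_num) (by norm_num) (by norm_num) k).trans (by norm_num))
    (fun k => (prod_tail_le (s := 0.4473 / 5) (ρ := 1 / 5) (D := 0.1119) (by norm_num) (by norm_num) (by norm_num)
      (by norm_num) (by norm_num) (by norm_num) (fun i => by positivity)
      (fun i => by rw [hz, pow_succ]; nlinarith [pow_pos (show (0 : ℝ) < 1 / 5 by norm_num) i]) k).trans (by norm_num))
    (2 * n)
  rw [show x ^ 4 = (x ^ 2) ^ 2 by ring, hz, pow_succ, ← mul_assoc, ← le_div_iff₀ hx] at h2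
  rw [show (2 * n + 1) / 2 = n by omega, mul_pow, mul_left_comm]
  refine mul_le_mul_of_nonneg_left (le_of_mul_pow_le h (by norm_num) (h2.trans ?_)) (by positivity)
  rw [div_le_iff₀ hx]
  nlinarith

theorem allc_three (n : ℕ) : allc (big 3) 3 (2 * n + 1) ≤ 28.4 * 3 ^ n := by
  obtain ⟨x, hx, h⟩ := exists_sqrt_inv (q := 3) (by norm_num)
  have h2 := allc_third hx.le (by linarith) h (2 * n)
  rw [pow_succ, ← mul_assoc, ← le_div_iff₀ hx] at h2
  refine le_of_mul_pow_le h (by norm_num) (h2.trans ?_)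
  rw [div_le_iff₀ hx]
  nlinarith

/-- Computable form of the coefficients of a product. -/
def cf (β : ℕ → ℕ → ℕ) : ℕ → ℕ → ℕ
  | 0, n => if n = 0 then 1 else 0
  | k + 1, n => ∑ j ∈ range (n + 1), if j % (k + 1) = 0 then β k (j / (k + 1)) * cf β k (n - j) else 0

theorem coeff_eq_cf (β : ℕ → ℕ → ℕ) : ∀ k n, coeff n (∏ e ∈ range k, ser (e + 1) fun m => β e m) = (cf β k n : ℝ)
  | 0, n => by simp [cf, coeff_one]
  | k + 1, n => by
    rw [prod_range_succ, mul_comm, coeff_mul, cf, Nat.sum_antidiagonal_eq_sum_range_succ_mk]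
    simp [coeff_ser, coeff_eq_cf β k, Nat.dvd_iff_mod_eq_zero]

/-- The coefficients of `((1 + X) / (1 - X)) ^ 2`. -/
def lin (m : ℕ) : ℕ := (if m = 0 then 1 else 0) + 4 * m

theorem allc_lin_small : ∀ n < 10, 2 ≤ n → cf (fun e m => if e % 2 = 0 then lin m else if m % 2 = 0 then 3 ^ (m / 2) else 0)
    (2 * n + 1) (2 * n + 1) ≤ 10 * 3 ^ n := by
  decide +kernel

theorem allc_lin {n : ℕ} (hn : 2 ≤ n) : allc (fun m => lin m) 3 (2 * n + 1) ≤ 10 * 3 ^ n := by
  rcases lt_or_ge n 10 with h | h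
  · have h1 := Nat.cast_le (α := ℝ).2 (allc_lin_small n h hn)
    rw [← coeff_eq_cf] at h1
    push_cast at h1
    refine le_of_eq_of_le (congrArg (coeff _) (prod_congr rfl fun e _ => congrArg _ (funext fun m => ?_))) h1
    simp only [Nat.even_iff]
    split_ifs <;> simp [sml, Nat.even_iff, *]
  have h1 : ∀ m : ℕ, 3 ≤ m → (m : ℝ) * 0.7 ^ m ≤ 1.03 := fun m hm => by
    induction m, hm using Nat.le_induction with
    | base => norm_num
    | succ m hm ih =>
      have : (3 : ℝ) ≤ m := by exact_mod_cast hm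
      rw [pow_succ]
      push_cast
      nlinarith [pow_pos (show (0 : ℝ) < 0.7 by norm_num) m]
  have h2 : ∀ e, (0.7 : ℝ) ^ (e + 2) ≤ 0.49 := fun e => by
    rw [pow_add]; nlinarith [pow_le_one₀ (show (0 : ℝ) ≤ 0.7 by norm_num) (by norm_num) (n := e)]
  let B : ℕ → ℝ := fun e => if Even (e + 1) then 1 + 4 * (0.7 ^ (e + 2) / (1 - 0.7 ^ (e + 2)) ^ 2)
    else (1 - 3 * (0.7 ^ (e + 2)) ^ 2)⁻¹ * 1
  have h3 : ∀ e, 1 ≤ B e := fun e => by
    simp only [B]
    split_ifs
    · exact le_add_of_nonneg_right (by positivity)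
    · rw [mul_one, one_le_inv₀ (by nlinarith [h2 e, pow_pos (show (0 : ℝ) < 0.7 by norm_num) (e + 2)])]
      exact sub_le_self _ (by positivity)
  have h4 := (coeff_prod_le (β := fun e => if Even e then fun m => lin m else sml 3) (x := 0.7) (c := 4.12) (n := 2 * n + 1)
    (fun e m => by split_ifs; exacts [Nat.cast_nonneg _, sml_nonneg (by norm_num) m]) (by norm_num) (fun m _ => by
      rcases lt_or_ge m 3 with h | h
      · interval_cases m <;> norm_num [lin]
      · simp only [Even.zero, if_true, lin, if_neg (by omega : m ≠ 0)]; push_cast; linarith [h1 m h]) (B := B) (fun e => by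
      simp only [B]
      split_ifs
      · have := (hasSum_ite_eq 0 (1 : ℝ)).add ((hasSum_coe_mul_geometric_of_norm_lt_one (r := (0.7 : ℝ) ^ (e + 2))
          (by rw [Real.norm_of_nonneg (by positivity)]; linarith [h2 e])).mul_left 4)
        refine le_of_eq_of_le (sum_congr rfl fun m _ => ?_) (sum_le_hasSum _ (fun m _ => by positivity) this)
        rcases m with _ | m <;> simp [lin, mul_assoc]
      · exact sum_sml_le (by norm_num) (by positivity)
          (by nlinarith [h2 e, pow_pos (show (0 : ℝ) < 0.7 by norm_num) (e + 2)]) _) (2 * n)).trans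
    (mul_le_mul_of_nonneg_left (prod_head_tail (fun i => zero_le_one.trans (h3 i)) h3 (fun _ => le_rfl) 12
      (s := 5 * 0.7 ^ 14) (ρ := 0.7) (D := 0.1131) (by norm_num) (by norm_num) (by norm_num) (by norm_num) (by norm_num)
      (by norm_num) (fun i => by
        have h5 : (0.7 : ℝ) ^ (12 + i + 2) ≤ 0.01 := by
          rw [add_right_comm, pow_add]; nlinarith [pow_le_one₀ (show (0 : ℝ) ≤ 0.7 by norm_num) (by norm_num) (n := i)]
        have h6 : (0 : ℝ) < 0.7 ^ (12 + i + 2) := by positivity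
        rw [mul_assoc, ← pow_add, show 14 + i = 12 + i + 2 by ring]
        simp only [B]
        generalize (0.7 : ℝ) ^ (12 + i + 2) = t at h5 h6
        split_ifs
        · rw [add_le_add_iff_left, ← mul_div_assoc, div_le_iff₀ (by nlinarith)]
          nlinarith [mul_pos h6 h6, mul_pos h6 (mul_pos h6 h6)]
        · rw [mul_one, inv_le_comm₀ (by nlinarith) (by positivity), inv_eq_one_div, div_le_iff₀ (by positivity)]
          nlinarith) _) (by norm_num))
  have h5 : (4.12 : ℝ) * ((∏ i ∈ range 12, B i) * (1 / (1 - 0.1131))) ≤ 329 := by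
    simp only [B, prod_range_succ]
    norm_num [Nat.even_iff]
  have h6 : (47 : ℝ) ≤ 1.47 ^ n := le_trans (by norm_num) (pow_le_pow_right₀ (by norm_num) h)
  refine le_of_mul_le_mul_right ((h4.trans h5).trans ?_) (by positivity)
  rw [pow_succ, pow_mul, mul_assoc, ← mul_assoc (3 ^ n), ← mul_pow]
  norm_num at h6 ⊢
  linarith

end Estimates

end CL.ClassNo
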