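/-
Class numbers of classical groups, part 13: the groups `Ω(2n+1,q)`, `q` odd.
-/
import Cfsg.Agent.Known.ClassNo12

set_option autoImplicit false

open Module Polynomial Finset QuadraticMap

namespace CL.ClassNo

open CL.GLn CL.Known CL.Known.Trip CL.Cls

universe u

variable {K : Type u} [Field K]

/-- There is a commuting isometry of determinant one and non-trivial spinor norm. -/
def Cm (T : Trip K) : Prop := ∃ c : End K T.V, (∀ u v, T.B (c u) (c v) = T.B u v) ∧ (∀ v, c (T.g v) = T.g (c v)) ∧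
  LinearMap.det (1 + c) ≠ 0 ∧ ¬ IsSquare (2 ^ finrank K T.V * LinearMap.det (1 + c))

theorem Cm.of_iso {T S : Trip K} (h : Cm T) (e : iso K T S) : Cm S := by
  obtain ⟨c, h1, h2, h3, h4⟩ := h
  obtain ⟨e, e1, e2⟩ := e
  have h5 : LinearMap.det (1 + e.conj c) = LinearMap.det (1 + c) := (Sim.det ⟨e, fun v => by simp⟩).symm
  refine ⟨e.conj c, fun u v => ?_, fun v => ?_, h5.trans_ne h3, by rwa [h5, ← e.finrank_eq]⟩
  · simp only [LinearEquiv.conj_apply_apply, e2, h1]
    rw [← e2, e.apply_symm_apply, e.apply_symm_apply]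
  · obtain ⟨v, rfl⟩ := e.surjective v
    simp only [LinearEquiv.conj_apply_apply, ← e1, e.symm_apply_apply, h2]

theorem Cm.tsum (h2 : (2 : K) ≠ 0) {S : Trip K} (h : Cm S) (A : Trip K) : Cm (tsum A S) := by
  obtain ⟨c, h1, h3, h4, h5⟩ := h
  have h6 : LinearMap.det (1 + (LinearMap.id.prodMap c : End K (A.V × S.V))) = 2 ^ finrank K A.V * LinearMap.det (1 + c) := by
    rw [show 1 + (LinearMap.id.prodMap c : End K (A.V × S.V)) = ((2 : K) • LinearMap.id).prodMap (1 + c) from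
      LinearMap.ext fun v => Prod.ext (two_smul K v.1).symm rfl, LinearMap.det_prodMap, LinearMap.det_smul,
      LinearMap.det_id, mul_one]
  refine ⟨LinearMap.id.prodMap c, fun u v => congrArg (A.B u.1 v.1 + ·) (h1 _ _), fun v => Prod.ext rfl (h3 _),
    h6.trans_ne (mul_ne_zero (pow_ne_zero _ h2) h4), fun h => h5 ?_⟩
  rw [← isSquare_sq_mul_iff (pow_ne_zero (finrank K A.V) h2)]
  refine (congrArg IsSquare ?_).mp h
  refine (congrArg₂ (2 ^ · * ·) (finrank_prod (M := A.V) (M' := S.V)) h6).trans (by ring)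

theorem adj_aeval {V : Type*} [AddCommGroup V] [Module K V] {B : LinearMap.BilinForm K V} {x y : End K V}
    (h : ∀ u v, B (x u) v = B u (y v)) (p : K[X]) : ∀ u v, B (aeval x p u) v = B u (aeval y p v) := by
  induction p using Polynomial.induction_on with
  | C a => simp
  | add p q hp hq => simp [hp, hq]
  | monomial n a ih =>
    intro u v
    rw [pow_succ, ← mul_assoc, map_mul, aeval_X, End.mul_apply, ih, h, mul_comm _ X, map_mul (aeval y) X, aeval_X,
      End.mul_apply]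

theorem recip_dvd_of_reflect {π h : K[X]} {N : ℕ} (h0 : π.coeff 0 ≠ 0) (hd : π ∣ h) (hN : h.natDegree ≤ N)
    (hr : h.reflect N = h) : recip (RingHom.id K) π ∣ h := by
  obtain ⟨k, rfl⟩ := hd
  rcases eq_or_ne k 0 with rfl | hk
  · simp
  rw [natDegree_mul (by rintro rfl; simp at h0) hk] at hN
  obtain ⟨M, rfl⟩ := Nat.exists_eq_add_of_le (le_of_add_le_left hN)
  rw [← hr, reflect_mul _ _ le_rfl (by omega)]
  exact Dvd.dvd.mul_right ⟨C (π.coeff 0), by
    rw [recip, mul_right_comm, ← C_mul, RingHom.id_apply, inv_mul_cancel₀ h0, C_1, one_mul, Polynomial.map_id, reverse]⟩ _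

theorem exists_not_dvd {π p : K[X]} (hπ : π.Monic) (hi : Irreducible π) (h0 : π.coeff 0 ≠ 0) (h1 : π.eval 1 ≠ 0)
    (h1' : π.eval (-1) ≠ 0) (hp : ¬ π ∣ p) : ∃ k d, (p * (X + 1) ^ (2 * k)).natDegree ≤ d ∧
      ∀ ρ, ρ = π ∨ ρ = recip (RingHom.id K) π → ¬ ρ ∣ p * (X + 1) ^ (2 * k) * X ^ d + (p * (X + 1) ^ (2 * k)).reflect d := by
  have key : ∀ (r : K[X]) d, r.natDegree ≤ d → ¬ π ∣ r * X ^ d + r.reflect d →
      ∀ ρ, ρ = π ∨ ρ = recip (RingHom.id K) π → ¬ ρ ∣ r * X ^ d + r.reflect d := fun r d hd h => by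
    rintro _ (rfl | rfl)
    · exact h
    refine fun h' => h (recip_recip (σ := RingHom.id K) (fun _ => rfl) hπ h0 ▸ recip_dvd_of_reflect (N := d + d)
      (by simpa [coeff_zero_recip hπ]) h' ?_ ?_)
    · exact natDegree_add_le_of_degree_le (natDegree_mul_le.trans (add_le_add hd (natDegree_X_pow_le d)))
        (natDegree_reflect_le.trans (by omega))
    · rw [reflect_add, reflect_mul _ _ hd (natDegree_X_pow_le d), ← mul_one (r.reflect d),
        reflect_mul _ _ (natDegree_reflect_le.trans (by omega)) (by simp), reflect_reflect]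
      simp [add_comm]
  by_cases h : π ∣ p * X ^ p.natDegree + p.reflect p.natDegree; swap
  · exact ⟨0, _, le_rfl, key _ _ le_rfl (by simpa using h)⟩
  have h3 : ((X + 1 : K[X]) ^ (2 * 1)).natDegree ≤ 2 := by compute_degree!
  refine ⟨1, _, natDegree_mul_le.trans (add_le_add le_rfl h3), key _ _ (natDegree_mul_le.trans (add_le_add le_rfl h3))
    fun h' => ?_⟩
  rw [reflect_mul _ _ le_rfl h3, show reflect 2 ((X + 1 : K[X]) ^ (2 * 1)) = (X + 1) ^ 2 by
    rw [mul_one, _root_.sq, reflect_mul _ _ (F := 1) (G := 1) (by compute_degree!) (by compute_degree!)]; simp [add_comm]] at h'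
  have h4 : π ∣ p * ((X - C 0) ^ p.natDegree * ((X - C 1) * (X - C (-1)) ^ 3)) := by
    convert dvd_sub h' (h.mul_right ((X + 1) ^ 2)) using 1
    simp only [map_zero, map_one, map_neg]
    ring
  have h5 : ∀ c, π ∣ X - C c → π.eval c = 0 := fun c hc =>
    dvd_iff_isRoot.1 (hi.associated_of_dvd (irreducible_X_sub_C c) hc).symm.dvd
  rcases hi.prime.dvd_or_dvd ((hi.prime.dvd_or_dvd h4).resolve_left hp) with h6 | h6
  · exact h0 ((coeff_zero_eq_eval_zero _).trans (h5 _ (hi.prime.dvd_of_dvd_pow h6)))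
  · exact (hi.prime.dvd_or_dvd h6).elim (fun h => h1 (h5 _ h)) fun h => h1' (h5 _ (hi.prime.dvd_of_dvd_pow h))

theorem det_eq_one_of_ok {T : Trip K} {ε : K} (h : T.OK ε) (h1 : LinearMap.det (1 + (T.g : End K T.V)) ≠ 0) :
    LinearMap.det (T.g : End K T.V) = 1 := by
  have h2 := coeff_zero_mul_pow_of_recip (recip_charpoly_of_isometry (σ := RingHom.id K) (fun _ => rfl) _ h.nondeg _ h.isom)
    (c := -1) (by simp) fun e => h1 (by
      rw [LinearMap.eval_charpoly] at e
      rw [show 1 + (T.g : End K T.V) = (-1 : K) • (algebraMap K _ (-1) - (T.g : End K T.V)) by simp [add_comm],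
        LinearMap.det_smul, e, mul_zero])
  rwa [LinearMap.det_eq_sign_charpoly_coeff, mul_comm, ← LinearMap.charpoly_natDegree (T.g : End K T.V)]

variable [Finite K] (h2 : (2 : K) ≠ 0)
include h2

theorem cm_of_aeval {T : Trip K} (h : T.OK 1) (h1 : LinearMap.det (1 - (T.g : End K T.V)) ≠ 0)
    (h1' : LinearMap.det (1 + (T.g : End K T.V)) ≠ 0) {p : K[X]} {d : ℕ} (hd : p.natDegree ≤ d)
    (hp : ¬ IsSquare (LinearMap.det (aeval (T.g : End K T.V) p)))
    (hh : LinearMap.det (aeval (T.g : End K T.V) (p * X ^ d + p.reflect d)) ≠ 0) : Cm T := by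
  set x : End K T.V := (T.g : End K T.V) with hx
  set y : End K T.V := (T.g.symm : End K T.V)
  have hxy : x * y = 1 := LinearMap.ext T.g.apply_symm_apply
  have hyx : y * x = 1 := LinearMap.ext T.g.symm_apply_apply
  have hc : Commute x y := hxy.trans hyx.symm
  have a1 := adj_aeval (B := T.B) (x := x) (y := y) (fun u v => by
    rw [← h.isom u]; exact congrArg _ (T.g.apply_symm_apply v).symm) p
  have a2 := adj_aeval (B := T.B) (x := y) (y := x) (fun u v => by
    rw [← h.isom _ v]; exact congrArg (T.B · _) (T.g.apply_symm_apply u)) p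
  have e0 : Even (finrank K T.V) := by
    have h3 : LinearMap.det (-x) = 1 := det_eq_one_of_ok (ok_tneg h) (by rwa [sub_eq_add_neg] at h1)
    rw [← neg_one_smul K, LinearMap.det_smul, det_eq_one_of_ok h h1', mul_one] at h3
    exact (neg_one_pow_eq_one_iff_even fun e => h2 (by linear_combination -e)).1 h3
  obtain ⟨a, ha⟩ := (LinearMap.isUnit_iff_isUnit_det (aeval x p)).2 (Ne.isUnit fun e => hp (e ▸ IsSquare.zero))
  set b := aeval x p + aeval y p
  have hb : LinearMap.det b ≠ 0 := by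
    rw [map_add, map_mul, map_pow, aeval_X, ← mul_one (aeval x (reflect d p)), ← one_pow d, ← hyx, hc.symm.mul_pow,
      ← mul_assoc, aeval_reflect_mul_pow hxy d p hd hc, ← add_mul, map_mul] at hh
    exact left_ne_zero_of_mul hh
  have c1 : Commute (aeval x p) x := commute_aeval (.refl _) p
  have c2 : Commute (aeval y p) x := commute_aeval hc.symm p
  have c3 : Commute (aeval x p) (aeval y p) := commute_aeval c2.symm p
  have hinj : ∀ f : End K T.V, LinearMap.det f ≠ 0 → ∀ v, f v = 0 → v = 0 := fun f hf v hv =>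
    ((End.isUnit_iff f).1 ((LinearMap.isUnit_iff_isUnit_det f).2 hf.isUnit)).1 (hv.trans (map_zero f).symm)
  obtain ⟨w, -, hw⟩ := wall_two_forms (σ := RingHom.id K) (fun _ => rfl) T.B h.nondeg T.g h.isom (wallTame_of
    (fun v hv => hinj _ h1 v (by simp [hx, hv])) fun v hv => hinj _ h1' v (by simp [hx, hv])) h.symm (T.B.comp b 1)
    (fun u hu => hinj b hb u (h.nondeg _ hu)) (fun u v => by
      simp only [b, LinearMap.BilinForm.comp_apply, LinearMap.add_apply, map_add, a1, a2, End.one_apply, one_mul,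
        RingHom.id_apply]
      rw [← a1, ← a2, h.symm u, h.symm u, one_mul, one_mul, add_comm])
    fun u v => (congrArg (T.B · _) (LinearMap.congr_fun (c1.add_left c2).eq u)).trans (h.isom _ _)
  have h3 : LinearMap.det b = LinearMap.det (w : End K T.V) ^ 2 := by
    have h4 := congrArg Matrix.det (LinearMap.BilinForm.toMatrix_comp (finBasis K T.V) (finBasis K T.V) T.B w w)
    rw [show T.B.comp (w : End K T.V) w = T.B.comp b 1 from LinearMap.ext₂ hw, LinearMap.BilinForm.toMatrix_comp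
      (finBasis K T.V) (finBasis K T.V)] at h4
    simp only [Matrix.det_mul, Matrix.det_transpose, LinearMap.det_toMatrix, map_one, mul_one] at h4
    exact mul_right_cancel₀ (det_ne_zero_of_nondeg h.nondeg _) (h4.trans (by ring))
  have h4 : LinearMap.det (1 + aeval y p * (a⁻¹).1) * LinearMap.det (aeval x p) = LinearMap.det b := by
    rw [← map_mul, add_mul, one_mul, mul_assoc, ← ha, a.inv_mul, mul_one, ha]
  refine ⟨aeval y p * (a⁻¹).1, fun u v => ?_, LinearMap.congr_fun (c2.mul_left (ha ▸ c1).units_inv_left).eq,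
    left_ne_zero_of_mul (h4.trans_ne hb), fun h5 => hp ?_⟩
  · obtain ⟨u, rfl⟩ := ((End.isUnit_iff _).1 a.isUnit).2 u
    obtain ⟨v, rfl⟩ := ((End.isUnit_iff _).1 a.isUnit).2 v
    rw [← End.mul_apply, ← End.mul_apply, mul_assoc, a.inv_mul, mul_one, ha, a1, a2, ← End.mul_apply, c3.eq, End.mul_apply]
  · obtain ⟨k, hk⟩ := e0
    rw [hk, ← two_mul, mul_comm 2, pow_mul, isSquare_sq_mul_iff (pow_ne_zero _ h2)] at h5
    have h6 := (isSquare_mul_iff (left_ne_zero_of_mul (h4.trans_ne hb)) (right_ne_zero_of_mul (h4.trans_ne hb))).1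
      ⟨_, h4.trans (h3.trans (_root_.sq _))⟩
    exact h6.1 h5

theorem cm_of_mem {T : Trip K} (h : T.OK 1) {s : Multiset K[X]} (hs : HasED (T.g : End K T.V) s) {π : K[X]} (hπ : π.Monic)
    (hi : Irreducible π) (h1 : π.eval 1 ≠ 0) (h1' : π.eval (-1) ≠ 0) {e : ℕ} (he : Odd e) (hm : π ^ e ∈ s) : Cm T := by
  classical
  obtain ⟨A, D, S, -, -, a3, a4, ⟨a, ha⟩, ⟨d, hd⟩, a7, a8⟩ := exists_decomp h
  refine ((Cm.tsum h2 ?_ _).tsum h2 _).of_iso a4
  have b1 := hasED_ed (A.g : End K A.V)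
  have b2 := hasED_ed (-(D.g : End K D.V))
  have b3 := hasED_ed (S.g : End K S.V)
  have b4 : ∀ v, S.g v = v → v = 0 := fun v hv => congrArg Prod.snd (a7 (0, v) (Prod.ext (map_zero (tneg D).g) hv))
  rw [← (Elu.hasED_prodMap b1 (Elu.hasED_prodMap b2 b3)).eq_of_sim hs (iso_sim a4), Multiset.mem_add, Multiset.mem_add] at hm
  have h3 : ∀ c k, π ^ e ∣ (X - C c) ^ k → π.eval c = 0 := fun c k hc => dvd_iff_isRoot.1 (hi.associated_of_dvd
    (irreducible_X_sub_C c) (hi.prime.dvd_of_dvd_pow ((dvd_pow_self _ he.pos.ne').trans hc))).symm.dvd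
  replace hm := (hm.resolve_left fun h => h1 (h3 _ a ((b1.aeval_eq_zero_iff _).1 (by simpa using ha) _ h))).resolve_left
    fun h => h1' (h3 _ d ((b2.aeval_eq_zero_iff _).1 (by
      simp only [map_pow, map_sub, aeval_X, map_neg, map_one]
      rw [neg_sub_neg, ← neg_sub, neg_pow, hd, mul_zero]) _ h))
  generalize ed (S.g : End K S.V) = s at b3 hm
  obtain ⟨hX, hρ⟩ := ok_recip a3 b3
  have h0 : π.coeff 0 ≠ 0 := fun h => hX _ hm (dvd_pow (X_dvd_iff.2 h) he.pos.ne')
  have h4 : ∀ c : K, (∀ v, S.g v = c • v → v = 0) → ∀ P ∈ s, P.eval c ≠ 0 := fun c hc P hP h => by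
    obtain ⟨v, hv⟩ := ((End.hasEigenvalue_iff_isRoot_charpoly (S.g : End K S.V) c).2 (b3.charpoly_eq ▸
      dvd_iff_isRoot.1 ((dvd_iff_isRoot.2 h).trans (Multiset.dvd_prod hP)))).exists_hasEigenvector
    exact hv.2 (hc v hv.apply_eq_smul)
  have h5 := h4 1 (by simpa using b4)
  have h5' := h4 (-1) (by simpa using a8)
  obtain ⟨y, hy⟩ := FiniteField.exists_nonsquare (ringChar_ne_two_of_two_ne_zero h2)
  have := finite_adjoinRoot hi.ne_zero
  have : Fact (Irreducible π) := ⟨hi⟩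
  have : Finite (AdjoinRoot π) := Module.finite_of_finite K
  obtain ⟨z, hz⟩ := FiniteField.norm_surjective K (AdjoinRoot π) y
  obtain ⟨p₀, rfl⟩ := AdjoinRoot.mk_surjective z
  have hy0 : y ≠ 0 := by rintro rfl; exact hy IsSquare.zero
  have h6 : ¬ π ∣ p₀ := fun h => hy0 (by rw [← hz, AdjoinRoot.mk_eq_zero.2 h, Algebra.norm_zero])
  have r1 := monic_recip (σ := RingHom.id K) h0
  have r2 := irreducible_recip (σ := RingHom.id K) (fun _ => rfl) hπ hi h0
  obtain ⟨t, p, ht, htρ, hp, hp', ht'⟩ : ∃ (t : Multiset K[X]) (p : K[X]), t ≤ s ∧ t.map (recip (RingHom.id K)) = t ∧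
      (t.map fun P => Algebra.norm K (AdjoinRoot.mk P p)).prod = y ^ e ∧ ¬ π ∣ p ∧
      ∀ P ∈ t, ∃ ρ, (ρ = π ∨ ρ = recip (RingHom.id K) π) ∧ P = ρ ^ e := by
    by_cases h1 : recip (RingHom.id K) π = π
    · exact ⟨{π ^ e}, p₀, Multiset.singleton_le.2 hm, by simp [recip_pow, h1], by simp [norm_mk_pow hπ, hz], h6, by simp⟩
    obtain ⟨a, b, hab⟩ := isCoprime_of_monic_irreducible_ne r1 r2 hπ hi h1
    have e1 : AdjoinRoot.mk π (p₀ * a * recip (RingHom.id K) π + b * π) = AdjoinRoot.mk π p₀ :=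
      AdjoinRoot.mk_eq_mk.2 ⟨b - p₀ * b, by linear_combination p₀ * hab⟩
    refine ⟨{π ^ e, recip (RingHom.id K) π ^ e}, p₀ * a * recip (RingHom.id K) π + b * π, ?_, ?_, ?_,
      by rwa [← AdjoinRoot.mk_eq_zero, e1, AdjoinRoot.mk_eq_zero], by simp⟩
    · refine (Multiset.le_iff_subset (by simpa using fun h2 => h1 (pow_inj_of_monic_irreducible hπ hi r1 r2 he.pos
        h2).1.symm)).2 fun P hP => ?_
      simp only [Multiset.insert_eq_cons, Multiset.mem_cons, Multiset.mem_singleton] at hP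
      rcases hP with rfl | rfl
      · exact hm
      · rw [← hρ, ← recip_pow]; exact Multiset.mem_map_of_mem _ hm
    · simp [recip_pow, recip_recip (σ := RingHom.id K) (fun _ => rfl) hπ h0, Multiset.cons_swap, ← Multiset.cons_zero]
    · have e2 : AdjoinRoot.mk (recip (RingHom.id K) π) (p₀ * a * recip (RingHom.id K) π + b * π) = AdjoinRoot.mk _ 1 :=
        AdjoinRoot.mk_eq_mk.2 ⟨p₀ * a - a, by linear_combination hab⟩
      simp [norm_mk_pow hπ, norm_mk_pow r1, e1, e2, hz, -map_add, -map_mul]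
  obtain ⟨r, rfl⟩ := Multiset.le_iff_exists_add.1 ht
  rw [Multiset.map_add, htρ, add_right_inj] at hρ
  have l : ∀ {q : K[X] → Prop}, (∀ P ∈ t + r, q P) → ∀ P ∈ t, q P := fun h P hP => h P (Multiset.mem_add.2 (.inl hP))
  have l' : ∀ {q : K[X] → Prop}, (∀ P ∈ t + r, q P) → ∀ P ∈ r, q P := fun h P hP => h P (Multiset.mem_add.2 (.inr hP))
  obtain ⟨T₁, c1, c2⟩ := exists_trip_tame (one_mul (1 : K)) (l b3.primary) (l hX) htρ (l h5) (l h5')
  obtain ⟨T₂, c3, c4⟩ := exists_trip_tame (one_mul (1 : K)) (l' b3.primary) (l' hX) hρ (l' h5) (l' h5')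
  obtain ⟨x, hx⟩ := b3.sim (Elu.hasED_prodMap c2 c4)
  refine ((Cm.tsum h2 ?_ T₂).of_iso (iso_tsum_comm _ _)).of_iso ((iso K).symm (wall_conj (σ := RingHom.id K) (fun _ => rfl)
    S.B a3.nondeg a3.symm _ (ok_tsum c1 c3).nondeg (ok_tsum c1 c3).symm S.g a3.isom (tsum T₁ T₂).g (ok_tsum c1 c3).isom
    (wallTame_of b4 a8) x hx))
  have h7 : ∀ c : K, (∀ P ∈ t, P.eval c ≠ 0) → LinearMap.det (algebraMap K _ c - (T₁.g : End K T₁.V)) ≠ 0 := fun c hc => by
    rw [← LinearMap.eval_charpoly, c2.charpoly_eq, eval_multiset_prod]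
    exact Multiset.prod_ne_zero fun h => let ⟨P, hP, h⟩ := Multiset.mem_map.1 h; hc P hP h
  have h8 : LinearMap.det (1 + (T₁.g : End K T₁.V)) ≠ 0 := by
    rw [show 1 + (T₁.g : End K T₁.V) = (-1 : K) • (algebraMap K _ (-1) - (T₁.g : End K T₁.V)) by simp [add_comm],
      LinearMap.det_smul]
    exact mul_ne_zero (by simp) (h7 _ (l h5'))
  obtain ⟨k, d, h9, h10⟩ := exists_not_dvd hπ hi h0 h1 h1' hp'
  refine cm_of_aeval h2 c1 (by simpa using h7 _ (l h5)) h8 h9 (fun h => hy ?_) ?_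
  · rw [map_mul, map_mul, HasED.det_aeval c2, hp, map_pow, map_pow, map_add, aeval_X, map_one, add_comm, mul_comm, mul_comm 2,
      pow_mul, isSquare_sq_mul_iff (pow_ne_zero _ h8)] at h
    obtain ⟨j, rfl⟩ := he
    rwa [pow_succ, mul_comm 2, pow_mul, isSquare_sq_mul_iff (pow_ne_zero _ hy0)] at h
  · rw [HasED.det_aeval c2]
    refine Multiset.prod_ne_zero fun h => ?_
    obtain ⟨P, hP, h⟩ := Multiset.mem_map.1 h
    obtain ⟨ρ, h11, rfl⟩ := ht' P hP
    have h12 : ρ.Monic ∧ Irreducible ρ := by rcases h11 with rfl | rfl; exacts [⟨hπ, hi⟩, ⟨r1, r2⟩]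
    have := finite_adjoinRoot h12.2.ne_zero
    have : Fact (Irreducible ρ) := ⟨h12.2⟩
    rw [norm_mk_pow h12.1, pow_eq_zero_iff he.pos.ne', Algebra.norm_eq_zero_iff, AdjoinRoot.mk_eq_zero] at h
    exact h10 ρ h11 h

open Classical in
theorem sum_omB_lin (m : ℕ) : ∑ f ∈ srp K m, (if ∀ π : K[X], π.Monic → Irreducible π → π ∣ f →
    π.eval 1 = 0 ∨ π.eval (-1) = 0 then omB f else 0) ≤ lin m := by
  let w : ℕ → ℝ := fun a => if a = 0 then 1 else 2
  have h1 : ∀ k, ∑ x ∈ antidiagonal k, w x.2 = 1 + 2 * k := fun k => by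
    induction k with
    | zero => simp [w]
    | succ k ih => rw [Nat.sum_antidiagonal_succ, ih]; simp [w]; ring
  have h3 : ∑ x ∈ antidiagonal m, w x.1 * w x.2 = lin m := by
    rcases m with _ | m
    · simp [w, lin]
    · rw [Nat.sum_antidiagonal_succ]
      simp only [w, if_true, Nat.succ_ne_zero, if_false, ← mul_sum]
      rw [h1]
      simp [lin]
      ring
  rw [← sum_filter, ← h3]
  refine (sum_le_sum_of_subset_of_nonneg (t := (antidiagonal m).image fun x => (X - C 1) ^ x.1 * (X - C (-1)) ^ x.2)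
    (fun f hf => ?_) fun _ _ _ => omB_nonneg _).trans ((sum_image_le_of_nonneg fun _ _ => omB_nonneg _).trans
      (sum_le_sum fun x _ => ?_))
  · obtain ⟨hf, h⟩ := mem_filter.1 hf
    obtain ⟨f1, rfl, -⟩ := mem_srp.1 hf
    clear hf h3
    obtain ⟨s, s1, rfl⟩ := exists_multiset_prod_eq f1
    suffices H : ∃ a b, s.prod = (X - C 1) ^ a * (X - C (-1)) ^ b by
      obtain ⟨a, b, H⟩ := H
      refine mem_image.2 ⟨(a, b), ?_, H.symm⟩
      rw [H, ((monic_X_sub_C _).pow _).natDegree_mul ((monic_X_sub_C _).pow _)]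
      simp [-map_one, -map_neg]
    refine Multiset.prod_induction (fun f => ∃ a b, f = (X - C 1) ^ a * (X - C (-1 : K)) ^ b) s ?_ ⟨0, 0, by simp⟩ fun P hP => ?_
    · rintro _ _ ⟨a, b, rfl⟩ ⟨c, d, rfl⟩
      exact ⟨a + c, b + d, by ring⟩
    have h4 : ∀ c, P.eval c = 0 → P = X - C c := fun c hc => (eq_of_monic_of_associated (monic_X_sub_C c) (s1 P hP).1
      ((irreducible_X_sub_C c).associated_of_dvd (s1 P hP).2 (dvd_iff_isRoot.2 hc))).symm
    exact (h P (s1 P hP).1 (s1 P hP).2 (Multiset.dvd_prod hP)).elim (fun h => ⟨1, 0, by simpa using h4 _ h⟩)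
      fun h => ⟨0, 1, by simpa using h4 _ h⟩
  · have h4 : (1 : K) + 1 ≠ 0 := by rwa [one_add_one_eq_two]
    have h5 : (-1 : K) - 1 ≠ 0 := fun e => h2 (by linear_combination -e)
    simp [omB, w, h4, h5]

theorem omega_odd_bounds {V : Type u} [AddCommGroup V] [Module K V] [FiniteDimensional K V] {Q : QuadraticForm K V}
    (hQ : (polarBilin Q).Nondegenerate) {n : ℕ} (hn : 2 ≤ n) (hV : finrank K V = 2 * n + 1) :
    Nat.card K ^ n ≤ 2 * Nat.card (ConjClasses (commutator (OG Q))) ∧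
      10 * Nat.card (ConjClasses (commutator (OG Q))) ≤ 73 * Nat.card K ^ n := by
  have : Finite V := Module.finite_of_finite K
  have : Finite (V ≃ₗ[K] V) := Finite.of_injective _ DFunLike.coe_injective
  have h1 : dickson hQ (negOG Q) = -1 := (Int.units_eq_one_or _).resolve_left fun h => h2 (by
    rw [dickson_eq_one_iff_det hQ h2, show ((negOG Q).1 : V →ₗ[K] V) = (-1 : K) • LinearMap.id from
      LinearMap.ext fun x => by simp [negOG_app], LinearMap.det_smul, hV] at h
    simp only [pow_succ, pow_mul, LinearMap.det_id] at h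
    linear_combination -h)
  have h3 := index_two_classes (dickson hQ) ⟨_, h1.trans_ne (by decide)⟩
  rw [(Nat.card_eq_zero (α := {_c : ConjClasses (OG Q) // _})).2 (.inl ⟨fun x => by
    obtain ⟨_, u, -, h⟩ := x
    exact absurd (h1.symm.trans (h _ (negOG_comm u))) (by decide)⟩)] at h3
  have h4 := index_two_classes ((spinor hQ).comp (dickson hQ).ker.subtype) (by
    obtain ⟨t, ht⟩ := dickson_prod_spinor_surjective hQ h2 (by omega) (1, -1)
    exact ⟨⟨t, congrArg Prod.fst ht⟩, (congrArg Prod.snd ht).trans_ne (by decide)⟩)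
  have h5 : Nat.card (ConjClasses ((spinor hQ).comp (dickson hQ).ker.subtype).ker) =
      Nat.card (ConjClasses (commutator (OG Q))) := by
    have h6 := mem_commutator_OG_iff hQ (.inl (exists_ne_zero_ne_one_of_two_ne_zero h2))
    have := card_classes_congr ((MulEquiv.subgroupCongr (Subgroup.ext fun g => (and_iff_right g.2).symm.trans
      (h6 g.1).symm)).trans (Subgroup.subgroupOfEquivOfLe (H := commutator (OG Q)) fun g hg => ((h6 g).1 hg).1))
      (fun _ => True) (fun _ => True) (G := ((spinor hQ).comp (dickson hQ).ker.subtype).ker) fun _ => Iff.rfl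
    rwa [Nat.card_congr (Equiv.subtypeUnivEquiv fun c => ⟨_, mk_out c, trivial⟩),
      Nat.card_congr (Equiv.subtypeUnivEquiv fun c => ⟨_, mk_out c, trivial⟩)] at this
  have h6 := le_card_OG h2 hQ (.refl _) (· ∈ srp K (2 * n + 1)) fun f hf => by
    obtain ⟨f1, f2, f3, f4⟩ := mem_srp.1 hf
    refine ⟨f2.trans hV.symm, ?_⟩
    by_cases h : f.eval 1 = 0
    · exact exists_trip_root h2 f1 f3 f4 (one_mul 1) h _
    refine exists_trip_root h2 f1 f3 f4 (c := -1) (by simp) (not_not.1 fun h' => h2 ?_) _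
    have h7 := coeff_zero_mul_pow_of_recip f4 (one_mul 1) h
    have h8 := coeff_zero_mul_pow_of_recip f4 (by simp) h'
    simp only [f2, pow_succ, pow_mul, one_pow, mul_one] at h7 h8
    linear_combination -h8 - h7
  rw [Nat.card_eq_finsetCard, ← Nat.cast_le (α := ℝ), card_srp h2, rr, show (2 * n + 1) / 2 = n by omega,
    Nat.mul_div_cancel_left _ two_pos] at h6
  have h7 := card_OG_le_all h2 hQ (.refl _)
  rw [hV, coeff_sml_odd, add_zero] at h7
  rw [h5] at h4
  refine ⟨by norm_cast at h6; omega, ?_⟩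
  rw [← Nat.cast_inj (R := ℝ)] at h3 h4
  rw [← Nat.cast_le (α := ℝ)]
  push_cast at h3 h4 ⊢
  rcases (three_le_card h2).eq_or_lt with hq | hq; swap
  · have := Fintype.ofFinite K
    have h8 := odd_card_of_two_ne_zero h2
    rw [← Nat.card_eq_fintype_card] at h8
    have h9 := allc_five (q := Nat.card K) (by exact_mod_cast (by omega : 5 ≤ Nat.card K)) n
    have h10 := Nat.cast_le (α := ℝ).2 (Nat.card_le_card_of_injective (Subtype.val : {c : ConjClasses (dickson hQ).ker //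
      ∃ u, ConjClasses.mk u = c ∧ ∀ v, Commute u v → (spinor hQ).comp (dickson hQ).ker.subtype v = 1} → _)
      Subtype.val_injective)
    linarith
  have h8 := Nat.cast_le (α := ℝ).2 (two_mul_card_le (dickson hQ) negOG_comm h1
    (p := fun c => ∃ u, ConjClasses.mk u = c ∧ ∀ v, Commute u v → (spinor hQ).comp (dickson hQ).ker.subtype v = 1)
    (R := fun c => ∀ u, ConjClasses.mk u = c → ∀ v, Commute u v → dickson hQ v = 1 → spinor hQ v = 1) fun u ⟨u', hu, h⟩ => by
      have key : ∀ z : OG Q, (∀ g, Commute g z) → ∀ w, ConjClasses.mk w = ConjClasses.mk (u.1 * z) →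
          ∀ v, Commute w v → dickson hQ v = 1 → spinor hQ v = 1 := fun z hz w hw v hv hv' => by
        obtain ⟨a, rfl⟩ := isConj_iff.1 (ConjClasses.mk_eq_mk_iff_isConj.1 hu)
        obtain ⟨b, hb⟩ := isConj_iff.1 (ConjClasses.mk_eq_mk_iff_isConj.1 hw)
        have h9 : Commute (u'.1 * z) (a.1⁻¹ * (b * v * b⁻¹) * a.1⁻¹⁻¹) := by
          have := (hv.conj b).conj a.1⁻¹
          rwa [hb, show a.1⁻¹ * ((a * u' * a⁻¹).1 * z) * a.1⁻¹⁻¹ = u'.1 * z by
            simp [mul_assoc, ← (hz _).eq]] at this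
        simpa [mul_right_comm _ (spinor hQ v), mul_comm _ (spinor hQ a)] using h ⟨a.1⁻¹ * (b * v * b⁻¹) * a.1⁻¹⁻¹,
          by simp [MonoidHom.mem_ker, hv']⟩ (Subtype.ext (by simpa using (h9.mul_left (hz _).symm.inv_left).eq))
      exact ⟨by simpa using key 1 Commute.one_right, key _ negOG_comm⟩)
  have h9 := card_OG_le h2 hQ (.refl _) (fun c => ∀ u, ConjClasses.mk u = c → ∀ v, Commute u v → dickson hQ v = 1 →
    spinor hQ v = 1) _ (fun g hg s hs e he π b1 b2 b3 => not_not.1 fun h => by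
      rw [not_or] at h
      obtain ⟨c, c1, c2, c3, c4⟩ := cm_of_mem h2 (ok_OG hQ g) hs b1 b2 h.1 h.2 he.add_one
        (of_mem_bs ((dvd_lay_iff b1 b2).1 b3)).2.2
      let v : OG Q := ⟨LinearEquiv.ofInjectiveEndo c ((injective_iff_map_eq_zero _).2 fun x hx => hQ.1 x fun y => by
        rw [← c1, hx, LinearMap.map_zero₂]), mem_OG_of_polar h2 c1⟩
      exact c4 ((spinor_eq_one_iff_det hQ h2 v c3).1 (hg g rfl v (OG.ext' fun x => (c2 x).symm)
        ((dickson_eq_one_iff_det hQ h2 v).2 (det_eq_one_of_ok (ok_OG hQ v) c3))))) (sum_omB_lin h2)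
  rw [hV, coeff_sml_odd, add_zero] at h9
  rw [← hq] at h7 h9 ⊢
  push_cast at h7 h8 h9 ⊢
  linarith [allc_three n, allc_lin hn, pow_pos (zero_lt_three' ℝ) n]

end CL.ClassNo
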