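/-
The 2-part of the multiplier of Co1: checks (generated by tools/pc/gm.py).
-/
import Cfsg.Agent.Known.GCo1P2A

set_option autoImplicit false
set_option maxRecDepth 100000
set_option linter.all false

namespace CL.Pc.GCo1
open Cfsg CL.Spor

open scoped CL.Spor.Leech
namespace P2
theorem r0_ok : allL (chkRel D) r0 = true := by decide +kernel
theorem r1_ok : allL (chkRel D) r1 = true := by decide +kernel
theorem r2_ok : allL (chkRel D) r2 = true := by decide +kernel
theorem g1 : goalsChk D S (rels.map (·.s)) 1 10 = true := by decide +kernel
theorem g11 : goalsChk D S (rels.map (·.s)) 11 4 = true := by decide +kernel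
end P2

end CL.Pc.GCo1
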