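/-
The 2-part of the multiplier of Co1: checks (generated by tools/pc/gm.py).
-/
import Cfsg.Agent.Known.GCo1P2A

set_option autoImplicit false
set_option maxRecDepth 100000
set_option linter.all false

namespace CL.Pc.GCo1
open Cfsg CL.Spor

open scoped CL.Spor.Leech
namespace P2
theorem g15 : goalsChk D S (rels.map (·.s)) 15 3 = true := by decide +kernel
theorem g18 : goalsChk D S (rels.map (·.s)) 18 3 = true := by decide +kernel
theorem g21 : goalsChk D S (rels.map (·.s)) 21 1 = true := by decide +kernel
theorem w1 : rowsChk D (eqB (lazyA A 37 W) (D.n + D.NF) 18 [1676, 12933350, 14001150, 1903959, 2443164, 10257854, 10757590]) 1 4 = true := by decide +kernel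
theorem w5 : rowsChk D (eqB (lazyA A 37 W) (D.n + D.NF) 18 [1676, 12933350, 14001150, 1903959, 2443164, 10257854, 10757590]) 5 1 = true := by decide +kernel
theorem w6 : rowsChk D (eqB (lazyA A 37 W) (D.n + D.NF) 18 [1676, 12933350, 14001150, 1903959, 2443164, 10257854, 10757590]) 6 1 = true := by decide +kernel
theorem w7 : rowsChk D (eqB (lazyA A 37 W) (D.n + D.NF) 18 [1676, 12933350, 14001150, 1903959, 2443164, 10257854, 10757590]) 7 1 = true := by decide +kernel
theorem w8 : rowsChk D (eqB (lazyA A 37 W) (D.n + D.NF) 18 [1676, 12933350, 14001150, 1903959, 2443164, 10257854, 10757590]) 8 1 = true := by decide +kernel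
theorem w9 : rowsChk D (eqB (lazyA A 37 W) (D.n + D.NF) 18 [1676, 12933350, 14001150, 1903959, 2443164, 10257854, 10757590]) 9 1 = true := by decide +kernel
theorem w10 : rowsChk D (eqB (lazyA A 37 W) (D.n + D.NF) 18 [1676, 12933350, 14001150, 1903959, 2443164, 10257854, 10757590]) 10 1 = true := by decide +kernel
theorem w11 : rowsChk D (eqB (lazyA A 37 W) (D.n + D.NF) 18 [1676, 12933350, 14001150, 1903959, 2443164, 10257854, 10757590]) 11 1 = true := by decide +kernel
theorem w12 : rowsChk D (eqB (lazyA A 37 W) (D.n + D.NF) 18 [1676, 12933350, 14001150, 1903959, 2443164, 10257854, 10757590]) 12 1 = true := by decide +kernel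
theorem w13 : rowsChk D (eqB (lazyA A 37 W) (D.n + D.NF) 18 [1676, 12933350, 14001150, 1903959, 2443164, 10257854, 10757590]) 13 1 = true := by decide +kernel
theorem w14 : rowsChk D (eqB (lazyA A 37 W) (D.n + D.NF) 18 [1676, 12933350, 14001150, 1903959, 2443164, 10257854, 10757590]) 14 1 = true := by decide +kernel
theorem w15 : rowsChk D (eqB (lazyA A 37 W) (D.n + D.NF) 18 [1676, 12933350, 14001150, 1903959, 2443164, 10257854, 10757590]) 15 1 = true := by decide +kernel
theorem w16 : rowsChk D (eqB (lazyA A 37 W) (D.n + D.NF) 18 [1676, 12933350, 14001150, 1903959, 2443164, 10257854, 10757590]) 16 1 = true := by decide +kernel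
theorem w17 : rowsChk D (eqB (lazyA A 37 W) (D.n + D.NF) 18 [1676, 12933350, 14001150, 1903959, 2443164, 10257854, 10757590]) 17 1 = true := by decide +kernel
end P2

end CL.Pc.GCo1
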