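/-
The 2-part of the multiplier of Co1: checks (generated by tools/pc/gm.py).
-/
import Cfsg.Agent.Known.GCo1P2A

set_option autoImplicit false
set_option maxRecDepth 100000
set_option linter.all false

namespace CL.Pc.GCo1
open Cfsg CL.Spor

open scoped CL.Spor.Leech
namespace P2
theorem w18 : rowsChk D (eqB (lazyA A 37 W) (D.n + D.NF) 18 [1676, 12933350, 14001150, 1903959, 2443164, 10257854, 10757590]) 18 1 = true := by decide +kernel
theorem w19 : rowsChk D (eqB (lazyA A 37 W) (D.n + D.NF) 18 [1676, 12933350, 14001150, 1903959, 2443164, 10257854, 10757590]) 19 1 = true := by decide +kernel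
theorem w20 : rowsChk D (eqB (lazyA A 37 W) (D.n + D.NF) 18 [1676, 12933350, 14001150, 1903959, 2443164, 10257854, 10757590]) 20 1 = true := by decide +kernel
theorem w21 : rowsChk D (eqB (lazyA A 37 W) (D.n + D.NF) 18 [1676, 12933350, 14001150, 1903959, 2443164, 10257854, 10757590]) 21 1 = true := by decide +kernel
theorem f0 : fusChk D (eqB (lazyA A 37 W) (D.n + D.NF) 18 [1676, 12933350, 14001150, 1903959, 2443164, 10257854, 10757590]) 0 = true := by decide +kernel
theorem f1 : fusChk D (eqB (lazyA A 37 W) (D.n + D.NF) 18 [1676, 12933350, 14001150, 1903959, 2443164, 10257854, 10757590]) 1 = true := by decide +kernel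
theorem f2 : fusChk D (eqB (lazyA A 37 W) (D.n + D.NF) 18 [1676, 12933350, 14001150, 1903959, 2443164, 10257854, 10757590]) 2 = true := by decide +kernel
theorem f3 : fusChk D (eqB (lazyA A 37 W) (D.n + D.NF) 18 [1676, 12933350, 14001150, 1903959, 2443164, 10257854, 10757590]) 3 = true := by decide +kernel
theorem f4 : fusChk D (eqB (lazyA A 37 W) (D.n + D.NF) 18 [1676, 12933350, 14001150, 1903959, 2443164, 10257854, 10757590]) 4 = true := by decide +kernel
theorem ch_ok : chainChk (lazyA A 37 W) D.n 18 1 ch [] (D.p ^ D.n) = true := by decide +kernel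
end P2

end CL.Pc.GCo1
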