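/-
The 5-part of the multiplier of Co1 (generated by tools/pc/gm.py).
-/
import Cfsg.Agent.Known.GCo1

set_option autoImplicit false
set_option maxRecDepth 100000
set_option linter.all false

namespace CL.Pc.GCo1
open Cfsg CL.Spor

open scoped CL.Spor.Leech
namespace P5
noncomputable def WT : ℕ := 0xebceb2cb6db6cb6aaebaaaae8a6926924a206a071c81a69610c075a6d96d95556156166165114515114cd3cf34d40e3c20c128b000000f3ad36d38e38aaac30aa69a4a28a2481a69a6a0288104579c71a7196d65d56165d549451249451038e40e3904011052471c0000036db4db4b2ebaac229a28a69a691c79a81a79a68830650a0000000000000000000000000000000000000000000000000000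
def relT : ℕ := 0x200000000040000000008000000000000000000000041041030000008206000000000000000000041040c30c2000000000000000000000000000000000000000
def dT : ℕ := 0x4688
def eT : ℕ := 0x400000081861c0c3082082060820618608200000000000
def D : Data :=
  ⟨5, 4, 16777216, 266305, 5, 14, 20, 188, 5, fun i j => tget 39 0x7fffffffff relT (tri i j), 15, 5, 1,
    fun k l => tget 3 7 dT (Nat.add (Nat.mul 5 k) l), fun k l => tget 45 0x1fffffffffff eT (Nat.add (Nat.mul 5 k) l)⟩
def S : Fin2 :=
  ⟨29, 5, [0, 0x201, 0x501, 0x70f0040f, 0x70a],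
    [0, 0, 0, 0, 0, 0, 0, 0, 0x4020000000204, 0x2000300, 0, 0x400000001, 0x300020002, 3, 0x300],
    []⟩
def r0 : List RelC := [⟨0, 4, 0x42, 0xd03⟩, ⟨0, 3, 0x1041041, 0xe03⟩, ⟨0, 3, 0x42, 0xc0200b01⟩, ⟨0, 2, 0x1041041, 0xe0300902⟩, ⟨1, 0x44, 0x101, 0xd0300b01⟩, ⟨1, 0x43, 0x1040c1, 0x130300e0200d0200b03⟩, ⟨1, 0x83, 0x1041040c2, 0x130100d0100b010080100703⟩]
def rels : List RelC := (r0 ++ [])
noncomputable def W (i : ℕ) : ℕ := tget 209 0x1ffffffffffffffffffffffffffffffffffffffffffffffffffff WT i
def ch : List (ℕ × ℕ × List ℕ) := [(0x6cef6, 13, [2]), (0x4fb, 155, [4, 3]), (0x87c5, 10, [1])]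
theorem r0_ok : allL (chkRel D) r0 = true := by decide +kernel
theorem g1 : goalsChk D S (rels.map (·.s)) 1 4 = true := by decide +kernel
theorem w1 : rowsChk D (eqB (lazyA A 36 W) (D.n + D.NF) 10 [1676, 12933350, 14001150, 1903959, 2443164, 10257854, 10757590]) 1 4 = true := by decide +kernel
theorem f0 : fusChk D (eqB (lazyA A 36 W) (D.n + D.NF) 10 [1676, 12933350, 14001150, 1903959, 2443164, 10257854, 10757590]) 0 = true := by decide +kernel
theorem ch_ok : chainChk (lazyA A 36 W) D.n 10 4 ch [] (D.p ^ D.n) = true := by decide +kernel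
theorem params : Params D S rels 0 :=
  ⟨(by norm_num : Nat.Prime 5), by decide +kernel, by decide +kernel, by decide +kernel, by decide +kernel,
    by decide +kernel, by decide +kernel, by decide +kernel, by decide +kernel, by decide +kernel,
    by decide +kernel, by decide +kernel⟩
theorem checks : Checks D S rels :=
  ⟨by decide +kernel, allL_app r0_ok (allL_end), cover_step g1 (cover_end (by decide)), by decide +kernel⟩
variable {x : ℕ → Spor.Co1}
theorem bound (h : Ful x) : PBound Spor.Co1 5 0 :=
  h.pbound params checks (cover_step w1 (cover_end (by decide))) (show ∀ k < 1, _ from below_step f0 (below_end)) ch_ok (by decide +kernel)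
end P5

end CL.Pc.GCo1
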