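/-
The 7-part of the multiplier of Co1 (generated by tools/pc/gm.py).
-/
import Cfsg.Agent.Known.GCo1

set_option autoImplicit false
set_option maxRecDepth 100000
set_option linter.all false

namespace CL.Pc.GCo1
open Cfsg CL.Spor

open scoped CL.Spor.Leech
namespace P7
noncomputable def WT : ℕ := 0x3af3ae34e2eb30c309a28a8a2491e79a82081a392199e75a7196db69b5575d659649445345449034d3cd34f08514713ceb8cb8e32db4b2eb30aa29a49a69a299e71c79e79a0982984800000000000000000000000000000000000000000000000000
def relT : ℕ := 0x200
def dT : ℕ := 0x24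
def eT : ℕ := 0xa080
def D : Data :=
  ⟨7, 2, 68719476736, 1090785345, 7, 12, 9, 9, 1, fun i j => tget 2 3 relT (tri i j), 6, 3, 1,
    fun k l => tget 2 3 dT (Nat.add (Nat.mul 3 k) l), fun k l => tget 7 0x7f eT (Nat.add (Nat.mul 3 k) l)⟩
def S : Fin2 :=
  ⟨26, 7, [0, 0x201, 0x501],
    [0, 0, 0, 0, 6, 0],
    []⟩
def r0 : List RelC := [⟨1, 0x42, 0x81, 0x401⟩]
def rels : List RelC := (r0 ++ [])
noncomputable def W (i : ℕ) : ℕ := tget 203 0x7ffffffffffffffffffffffffffffffffffffffffffffffffff WT i
def ch : List (ℕ × ℕ × List ℕ) := [(0x71a72, 18, [2]), (0x107, 21, [1])]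
theorem r0_ok : allL (chkRel D) r0 = true := by decide +kernel
theorem g1 : goalsChk D S (rels.map (·.s)) 1 2 = true := by decide +kernel
theorem w1 : rowsChk D (eqB (lazyA A 35 W) (D.n + D.NF) 8 [1676, 12933350, 14001150, 1903959, 2443164, 10257854, 10757590]) 1 2 = true := by decide +kernel
theorem f0 : fusChk D (eqB (lazyA A 35 W) (D.n + D.NF) 8 [1676, 12933350, 14001150, 1903959, 2443164, 10257854, 10757590]) 0 = true := by decide +kernel
theorem ch_ok : chainChk (lazyA A 35 W) D.n 8 6 ch [] (D.p ^ D.n) = true := by decide +kernel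
theorem params : Params D S rels 0 :=
  ⟨(by norm_num : Nat.Prime 7), by decide +kernel, by decide +kernel, by decide +kernel, by decide +kernel,
    by decide +kernel, by decide +kernel, by decide +kernel, by decide +kernel, by decide +kernel,
    by decide +kernel, by decide +kernel⟩
theorem checks : Checks D S rels :=
  ⟨by decide +kernel, allL_app r0_ok (allL_end), cover_step g1 (cover_end (by decide)), by decide +kernel⟩
variable {x : ℕ → Spor.Co1}
theorem bound (h : Ful x) : PBound Spor.Co1 7 0 :=
  h.pbound params checks (cover_step w1 (cover_end (by decide))) (show ∀ k < 1, _ from below_step f0 (below_end)) ch_ok (by decide +kernel)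
end P7

end CL.Pc.GCo1
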