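/-
Bounds for the multiplier of Co1 (generated by tools/pc/gm.py).
-/
import Cfsg.Agent.Known.GCo1P2
import Cfsg.Agent.Known.GCo1P3
import Cfsg.Agent.Known.GCo1P5
import Cfsg.Agent.Known.GCo1P7

set_option autoImplicit false
set_option maxRecDepth 100000
set_option linter.all false

namespace CL.Pc.GCo1
open Cfsg CL.Spor

open scoped CL.Spor.Leech
variable {x : ℕ → Spor.Co1}
theorem bounds (h : Ful x) : Bounds Spor.Co1 [(2, 1), (3, 0), (5, 0), (7, 0), (11, 0), (13, 0), (23, 0)] :=
  have := h.fin
  .cons (by norm_num) (P2.bound h) (.cons (by norm_num) (P3.bound h) (.cons (by norm_num) (P5.bound h) (.cons (by norm_num) (P7.bound h) (.cons' h.card (by norm_num) (by decide) (.cons' h.card (by norm_num) (by decide) (.cons' h.card (by norm_num) (by decide) (.nil)))))))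

end CL.Pc.GCo1
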