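/-
The 3-part of the multiplier of G24 (generated by tools/pc/gm.py).
-/
import Cfsg.Agent.Known.GG24

set_option autoImplicit false
set_option maxRecDepth 100000
set_option linter.all false

namespace CL.Pc.GG24
open Cfsg CL.Spor

namespace P3
noncomputable def WT : ℕ := 0xc3871841441450c3042042042000c3492471451441861030c10820810b8b2482082841841451451010c10810c1000000000820920a2851051440430420400000000000000000000000000000000
def relT : ℕ := 0x3030000c200000000
def dT : ℕ := 0xe4
def eT : ℕ := 0xc3030c1c308100000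
def D : Data :=
  ⟨3, 3, 4096, 65, 3, 11, 14, 21, 2, fun i j => tget 8 0xff relT (tri i j), 10, 4, 1,
    fun k l => tget 2 3 dT (Nat.add (Nat.mul 4 k) l), fun k l => tget 20 0xfffff eT (Nat.add (Nat.mul 4 k) l)⟩
def S : Fin2 :=
  ⟨24, 3, [0, 0x201, 0x501, 0x406],
    [0, 0, 0, 0, 0, 0, 0, 0x10200, 0x20200, 1],
    []⟩
def r0 : List RelC := [⟨0, 2, 0x1041, 0x902⟩, ⟨1, 0x83, 0xc2, 0x80200702⟩, ⟨1, 0x43, 0xc1, 0x80200701⟩]
def rels : List RelC := (r0 ++ [])
noncomputable def W (i : ℕ) : ℕ := tget 130 0x3ffffffffffffffffffffffffffffffff WT i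
def ch : List (ℕ × ℕ × List ℕ) := [(1, 416, [2, 1]), (0, 416, [3])]
theorem r0_ok : allL (chkRel D) r0 = true := by decide +kernel
theorem g1 : goalsChk D S (rels.map (·.s)) 1 3 = true := by decide +kernel
theorem w1 : rowsChk D (eqB (lazyA A 23 W) (D.n + D.NF) 6 [0, 1, 5, 3]) 1 3 = true := by decide +kernel
theorem f0 : fusChk D (eqB (lazyA A 23 W) (D.n + D.NF) 6 [0, 1, 5, 3]) 0 = true := by decide +kernel
theorem ch_ok : chainChk (lazyA A 23 W) D.n 6 2 ch [] (D.p ^ D.n) = true := by decide +kernel
theorem params : Params D S rels 0 :=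
  ⟨(by norm_num : Nat.Prime 3), by decide +kernel, by decide +kernel, by decide +kernel, by decide +kernel,
    by decide +kernel, by decide +kernel, by decide +kernel, by decide +kernel, by decide +kernel,
    by decide +kernel, by decide +kernel⟩
theorem checks : Checks D S rels :=
  ⟨by decide +kernel, allL_app r0_ok (allL_end), cover_step g1 (cover_end (by decide)), by decide +kernel⟩
universe u
variable {G : Type u} {X : Type*} [Group G] [MulAction G X] {pt : ℕ → X} {x : ℕ → G}
theorem bound (h : Ful pt x) : PBound G 3 0 :=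
  h.pbound params checks (cover_step w1 (cover_end (by decide))) (show ∀ k < 1, _ from below_step f0 (below_end)) ch_ok (by decide +kernel)
end P3

end CL.Pc.GG24
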