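/-
A presentation of G24 (generated by tools/pc/gm.py).
-/
import Cfsg.Agent.Known.GG24
import Cfsg.Agent.Known.GG24L1
import Cfsg.Agent.Known.GG24L2
import Cfsg.Agent.Known.GG24L3
import Cfsg.Agent.Known.GG24L4

set_option autoImplicit false
set_option maxRecDepth 100000
set_option linter.all false

namespace CL.Pc.GG24
open Cfsg CL.Spor

noncomputable def rs0 : List (ℕ × ℕ) := [(0xb2cb, 0), (0xd34d, 0), (0x34b34b, 0), (0xc1c9, 0), (0xe20a1c9247, 0), (0x38a1ce287, 0), (0x38b1ce2c7, 0), (0x2c92492471c7, 0), (0x8105145105, 0), (0xa105144145106, 0), (0x104, 0), (0x72c8149204, 0), (0xb145244244, 0), (0x1c61c6105144, 0), (0x38a1483471c4, 0), (0x38814e205, 0), (0xa38810e287144, 0), (0x2cd28e2c7, 0), (0x1020810c3, 0), (0x60820810c3042, 0), (0x41, 0), (0x2182101, 0), (0x348201341, 0), (0x2082472811c1, 0), (0x2c82482091840ce2c2, 0), (0xe2c91c7105141084081, 0), (0xb20828a1450c8308242, 0), (0x30e1ca1ca14414408e242,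 0), (0xd30820920a1450c11cd042, 0), (0xe2c72871c51051030cb082, 0), (0xd2092081061060c8343382, 0), (0x38b2491c51451051450c1243, 0), (0x3491c72471841440c1189242, 0), (0xc2, 0), (0x185, 0), (0x207, 0), (0x289, 0), (0x30b, 0), (0x38d, 0)]
noncomputable def rs : List (ℕ × ℕ) := (rs0 ++ [])
noncomputable def p1 : PLev := ⟨32766, [1, 2, 3, 4, 5, 6, 7, 8, 9, 10, 11, 12, 13, 14], TC.GG24L1.invL, TC.GG24L1.rels, TC.GG24L1.subs, [4, 5, 6, 7, 8, 9, 10, 11, 12, 13, 14], 416⟩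
noncomputable def p2 : PLev := ⟨32752, [4, 5, 6, 7, 8, 9, 10, 11, 12, 13, 14], TC.GG24L2.invL, TC.GG24L2.rels, TC.GG24L2.subs, [7, 8, 9, 10, 11, 12, 13, 14], 315⟩
noncomputable def p3 : PLev := ⟨32640, [7, 8, 9, 10, 11, 12, 13, 14], TC.GG24L3.invL, TC.GG24L3.rels, TC.GG24L3.subs, [11, 12, 13, 14], 160⟩
noncomputable def p4 : PLev := ⟨30720, [11, 12, 13, 14], TC.GG24L4.invL, TC.GG24L4.rels, TC.GG24L4.subs, [], 12⟩
theorem rs0_ok : allL (fun p : ℕ × ℕ => eqB A 14 17 [0, 1, 5, 3] p.1 p.2) rs0 = true := by decide +kernel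
theorem rs_ok : ∀ p ∈ rs, (fun p : ℕ × ℕ => eqB A 14 17 [0, 1, 5, 3] p.1 p.2) p = true :=
  allL_app rs0_ok (allL_end)
theorem p1_ok : p1.Valid := ⟨_, TC.GG24L1.valid, TC.GG24L1.cert_N.le⟩
theorem p2_ok : p2.Valid := ⟨_, TC.GG24L2.valid, TC.GG24L2.cert_N.le⟩
theorem p3_ok : p3.Valid := ⟨_, TC.GG24L3.valid, TC.GG24L3.cert_N.le⟩
theorem p4_ok : p4.Valid := ⟨_, TC.GG24L4.valid, TC.GG24L4.cert_N.le⟩
universe u
theorem pres : PresBound.{u} rs 14 251596800 :=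
  presBound_of (f := 2) (defs := []) (vs := [p1, p2, p3, p4]) (valid_cons p1_ok (valid_cons p2_ok (valid_cons p3_ok (valid_cons p4_ok (valid_nil))))) (by decide +kernel)

end CL.Pc.GG24
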