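/-
The 3-part of the multiplier of Po8p2 (generated by tools/pc/gm.py).
-/
import Cfsg.Agent.Known.GPo8p2

set_option autoImplicit false
set_option maxRecDepth 100000
set_option linter.all false

namespace CL.Pc.GPo8p2
open Cfsg CL.Spor

namespace P3
noncomputable def WT : ℕ := 0x1559334f2493062010c2084041b2499c72069240a38a086082082055649340a2881471410c104104000000002c8a879c59260c40a40155943502cb2051c504304104100000000000000002c8a671c594000055438e4092c6205044084080000000000000000b2499a5164800000000000000000000000000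
def relT : ℕ := 0xa001400280050000000000200040008000000041030006000008230c2000000000000000
def dT : ℕ := 0x58c8b1a22c688
def eT : ℕ := 0xc1028a206081440c1040820618200000000000000028000000100000018704082041000000608000000000000028a000001040000006180040c2040000008200000000
def D : Data :=
  ⟨3, 5, 4096, 65, 3, 12, 39, 24, 4, fun i j => tget 15 0x7fff relT (tri i j), 21, 6, 3,
    fun k l => tget 3 7 dT (Nat.add (Nat.mul 6 k) l), fun k l => tget 33 0x1ffffffff eT (Nat.add (Nat.mul 6 k) l)⟩
def S : Fin2 :=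
  ⟨27, 3, [0, 0x201, 0x80800501, 0x403, 0x803, 0x1401],
    [0, 0, 0, 0, 0, 0, 0, 0x20000000000000000, 0, 0x20000, 0, 0x2000200000000, 2, 0x100000000, 0x1000000, 0, 0x1010002000000000000, 0x1010202010000000100, 0x10000000000, 0x100, 0],
    []⟩
def r0 : List RelC := [⟨0, 2, 0x2082, 0xc01⟩, ⟨0, 5, 0x2082, 0x1302⟩, ⟨0, 2, 0x1041, 0x901⟩, ⟨0, 0xc3, 0x83, 0xe02⟩, ⟨0, 4, 0x42, 0xd02⟩, ⟨0, 5, 0x42, 0x1202⟩, ⟨0, 3, 0x42, 0xd0100b01⟩, ⟨1, 0x85, 0x142, 0x1302012020110101002⟩, ⟨2, 0x43, 0xc1, 0x701⟩, ⟨3, 0x44, 0x101, 0x100200d0100b0100702⟩]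
def rels : List RelC := (r0 ++ [])
noncomputable def W (i : ℕ) : ℕ := tget 107 0x7ffffffffffffffffffffffffff WT i
def ch : List (ℕ × ℕ × List ℕ) := [(1, 120, [5]), (0, 120, [4, 2]), (9, 120, [3]), (2, 120, [1])]
theorem r0_ok : allL (chkRel D) r0 = true := by decide +kernel
theorem g1 : goalsChk D S (rels.map (·.s)) 1 5 = true := by decide +kernel
theorem w1 : rowsChk D (eqB (lazyA A 19 W) (D.n + D.NF) 8 [0, 1, 8, 9, 2, 24]) 1 5 = true := by decide +kernel
theorem f0 : fusChk D (eqB (lazyA A 19 W) (D.n + D.NF) 8 [0, 1, 8, 9, 2, 24]) 0 = true := by decide +kernel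
theorem f1 : fusChk D (eqB (lazyA A 19 W) (D.n + D.NF) 8 [0, 1, 8, 9, 2, 24]) 1 = true := by decide +kernel
theorem f2 : fusChk D (eqB (lazyA A 19 W) (D.n + D.NF) 8 [0, 1, 8, 9, 2, 24]) 2 = true := by decide +kernel
theorem ch_ok : chainChk (lazyA A 19 W) D.n 8 2 ch [] (D.p ^ D.n) = true := by decide +kernel
theorem params : Params D S rels 0 :=
  ⟨(by norm_num : Nat.Prime 3), by decide +kernel, by decide +kernel, by decide +kernel, by decide +kernel,
    by decide +kernel, by decide +kernel, by decide +kernel, by decide +kernel, by decide +kernel,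
    by decide +kernel, by decide +kernel⟩
theorem checks : Checks D S rels :=
  ⟨by decide +kernel, allL_app r0_ok (allL_end), cover_step g1 (cover_end (by decide)), by decide +kernel⟩
universe u
variable {G : Type u} {X : Type*} [Group G] [MulAction G X] {pt : ℕ → X} {x : ℕ → G}
theorem bound (h : Ful pt x) : PBound G 3 0 :=
  h.pbound params checks (cover_step w1 (cover_end (by decide))) (show ∀ k < 3, _ from below_step f2 (below_step f1 (below_step f0 (below_end)))) ch_ok (by decide +kernel)
end P3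

end CL.Pc.GPo8p2
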