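/-
Bounded presentations of `SL_n(q)`: the doubly transitive groups.
-/
import Cfsg.Agent.Known.PresSLn
import Cfsg.Agent.S2401

set_option autoImplicit false

namespace CL.Known

open Matrix Equiv Equiv.Perm

variable {Ω : Type} [Fintype Ω] [DecidableEq Ω] {K : Type*} [Field K]

theorem exists_perm_lift {W : Type*} [Group W] [MulAction W Ω]
    (h : ∀ w : W, sign (MulAction.toPermHom W Ω w) ^ (Fintype.card Ω + 1) = 1) :
    ∃ ι : W →* SpecialLinearGroup Ω K, ∀ w i j, i ≠ j → ∀ t, ι w * elt i j t * (ι w)⁻¹ = elt (w • i) (w • j) t := by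
  let ρ := MulAction.toPermHom W Ω
  let M : W → Matrix Ω Ω K := fun w => ((sign (ρ w) : ℤ) : K) • permMatrixHom (ρ w)
  have h1 : ∀ w, (M w).det = 1 := fun w => by
    rw [det_smul, permMatrixHom_apply, det_permutation, sign_inv, ← pow_succ, ← Int.cast_pow, ← Units.val_pow_eq_pow_val,
      h w]
    simp
  refine ⟨MonoidHom.mk' (fun w => ⟨M w, h1 w⟩) fun a b => Subtype.ext ?_, fun w i j hij t => ?_⟩
  · change M (a * b) = M a * M b
    simp [M, smul_smul, mul_comm]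
  · rw [mul_inv_eq_iff_eq_mul]
    apply Subtype.ext
    have : w • i ≠ w • j := by simpa using hij
    change M w * (elt i j t).1 = (elt _ _ t).1 * M w
    simp only [M, elt_val hij, elt_val this, mul_add, add_mul,
      mul_one, one_mul, add_right_inj, smul_mul_assoc, mul_smul_comm, permMatrixHom_apply, permMatrix,
      PEquiv.toMatrix_toPEquiv_mul, PEquiv.mul_toMatrix_toPEquiv]
    ext k l
    simp [ρ, single_apply, mul_add, ← Perm.inv_def, Equiv.eq_symm_apply]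

theorem bp_perm3 : BP (Perm (Fin 3)) 2 2 := by
  refine (BP.free 2).of_list (FreeGroup.lift ![swap 0 1, swap 0 1 * swap 0 2]) (MonoidHom.range_eq_top.1 ?_)
    [FreeGroup.of 0 * FreeGroup.of 0,
      FreeGroup.of 0 * FreeGroup.of 1 * (FreeGroup.of 0)⁻¹ * (FreeGroup.of 1 * FreeGroup.of 1)⁻¹] (by simp; decide)
    fun J _ φ hφ => ?_
  · rw [range_lift_pair]
    refine eq_top_of_alt_le (alt_le_of_c3 (a := 0) (b := 2) (by decide) fun x h0 h2 => ?_) fun h => ?_
    · obtain rfl : x = 1 := by omega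
      exact Subgroup.subset_closure (Or.inr (by decide))
    · exact absurd (mem_alternatingGroup.1 (h (Subgroup.subset_closure (Or.inl rfl)))) (by decide)
  · simp only [List.mem_cons, List.not_mem_nil, or_false, forall_eq_or_imp, forall_eq, map_mul, map_inv,
      mul_inv_eq_one] at hφ
    obtain ⟨h1, h2⟩ := hφ
    set A := φ (FreeGroup.of 0)
    set B := φ (FreeGroup.of 1)
    have h3 : B * A = A * (B * B) := by rw [← h2, ← mul_assoc, ← mul_assoc, h1, one_mul, inv_eq_of_mul_eq_one_right h1]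
    have h4 : B * B * B = 1 := by
      have : B * (A * A) = A * A * (B * B * B * B) := by
        rw [← mul_assoc, h3, mul_assoc, mul_assoc B, h3, ← mul_assoc B, h3]; group
      rw [h1, mul_one, one_mul] at this
      exact (right_eq_mul.1 this)
    have h5 : A * B * (A * B) = 1 := by
      rw [mul_assoc, ← mul_assoc B, h3, ← mul_assoc, ← mul_assoc, h1, one_mul, h4]
    have h6 : A * (A * B) * A = A * B * A * (A * B) := by
      rw [← mul_assoc, h1, one_mul, h3, mul_assoc (A * B), ← mul_assoc A A, h1, one_mul, mul_assoc]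
    obtain ⟨ρ, hρ⟩ := star_lift_fin 2 ![1, A, A * B] rfl (fun i => by fin_cases i; exacts [one_mul 1, h1, h5])
      (fun i j hi hj => by
        fin_cases i <;> fin_cases j <;> first | exact absurd rfl hi | exact absurd rfl hj | rfl | exact h6 | exact h6.symm)
      fun i j k => by omega
    refine ker_le_of_comp ρ ?_
    ext i
    fin_cases i
    · simpa using (hρ 1).symm
    · simp only [MonoidHom.comp_apply, FreeGroup.lift_apply_of]
      exact ((map_mul ρ _ _).trans (by rw [hρ, hρ]; simp [← mul_assoc, h1]; rfl)).symm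

theorem bp_alt_of_carm {k : ℕ} (l : List (Fin k × Fin k)) (hl : ∀ i j, i ≠ j → (i, j) ∈ l ∨ (j, i) ∈ l)
    (hl' : ∀ p ∈ l, p.1 ≠ p.2) : BP (alternatingGroup (Fin (k + 2))) k (k + l.length) := by
  have n01 : (0 : Fin (k + 2)) ≠ Fin.succ 0 := (Fin.succ_ne_zero _).symm
  have n0 : ∀ i : Fin k, (0 : Fin (k + 2)) ≠ i.succ.succ := fun i => (Fin.succ_ne_zero _).symm
  have n1 : ∀ i : Fin k, (Fin.succ 0 : Fin (k + 2)) ≠ i.succ.succ := fun i e =>
    Fin.succ_ne_zero _ (Fin.succ_injective _ e).symm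
  have ex : ∀ x : Fin (k + 2), 0 ≠ x → Fin.succ 0 ≠ x → ∃ i : Fin k, x = i.succ.succ := fun x h0 h1 => by
    obtain ⟨x, rfl⟩ := Fin.exists_succ_eq.2 h0.symm
    obtain ⟨x, rfl⟩ := Fin.exists_succ_eq.2 (fun e => h1 (e ▸ rfl) : x ≠ 0)
    exact ⟨x, rfl⟩
  let f : FreeGroup (Fin k) →* alternatingGroup (Fin (k + 2)) :=
    FreeGroup.lift fun i => ⟨c3 0 (Fin.succ 0) i.succ.succ, c3_mem_alt n01 (n1 i)⟩
  have := (BP.free k).of_list f (fun g => ?_) ((List.finRange k).map (fun i => FreeGroup.of i ^ 3) ++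
    l.map fun p => (FreeGroup.of p.1 * FreeGroup.of p.2) ^ 2) ?_ fun J _ φ hφ => ?_
  · simpa using this
  · obtain ⟨_, ⟨w, rfl⟩, e⟩ := alt_le_of_c3 (H := f.range.map (Subgroup.subtype _)) n01 (fun x h0 h1 => by
      obtain ⟨i, rfl⟩ := ex x h0 h1
      exact ⟨_, ⟨FreeGroup.of i, rfl⟩, by simp [f]⟩) g.2
    exact ⟨w, Subtype.ext e⟩
  · simp only [List.mem_append, List.mem_map, or_imp, forall_and, forall_exists_index, and_imp,
      forall_apply_eq_imp_iff₂, map_pow, map_mul, f, FreeGroup.lift_apply_of]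
    exact ⟨fun i _ => Subtype.ext (c3_pow_three n01 (n0 i) (n1 i)), fun p hp => Subtype.ext
      (c3_mul_c3_sq n01 (n0 _) (n1 _) (n0 _) (n1 _) fun e => hl' p hp (Fin.succ_injective _ (Fin.succ_injective _ e)))⟩
  · simp only [List.mem_append, List.mem_map, or_imp, forall_and, forall_exists_index, and_imp,
      forall_apply_eq_imp_iff₂, map_pow, map_mul, List.mem_finRange, forall_const] at hφ
    obtain ⟨η, h1, h2⟩ := carmichael_univ n01 (Fin.cases 1 (Fin.cases 1 fun i => φ (FreeGroup.of i)))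
      (fun x h0 h1 => by obtain ⟨i, rfl⟩ := ex x h0 h1; exact (map_pow φ _ _).symm.trans (hφ.1 _ i rfl)) fun x y a0 a1 b0 b1 hxy => by
        obtain ⟨i, rfl⟩ := ex x a0 a1
        obtain ⟨j, rfl⟩ := ex y b0 b1
        change (φ (FreeGroup.of i) * φ (FreeGroup.of j)) ^ 2 = 1
        rcases hl i j (fun e => hxy (e ▸ rfl)) with h | h
        · exact hφ.2 _ h
        · exact (SemiconjBy.orderOf_eq (φ (FreeGroup.of j)) (mul_assoc _ _ _).symm ▸
            orderOf_dvd_iff_pow_eq_one.2 (hφ.2 _ h) |> orderOf_dvd_iff_pow_eq_one.1)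
    refine ker_le_of_comp h1.toHom ?_
    ext i
    simp only [MonoidHom.comp_apply, f, FreeGroup.lift_apply_of]
    exact (h2 _ (n0 i) (n1 i)).symm

theorem normalClosure_c3 {a b o : Ω} (hab : a ≠ b) (hao : a ≠ o) (hbo : b ≠ o) :
    Subgroup.normalClosure {(⟨c3 a b o, c3_mem_alt hab hbo⟩ : alternatingGroup Ω)} = ⊤ := by
  rw [eq_top_iff]
  intro g _
  obtain ⟨g', h, e⟩ := alt_le_of_c3 (H := (Subgroup.normalClosure
    {(⟨c3 a b o, c3_mem_alt hab hbo⟩ : alternatingGroup Ω)}).map (Subgroup.subtype _)) hab (fun x hax hbx => by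
      by_cases hx : x = o
      · exact ⟨_, Subgroup.subset_normalClosure (Set.mem_singleton _), by rw [hx]; rfl⟩
      · refine ⟨_, inv_mem (Subgroup.normalClosure_normal.conj_mem _
          (Subgroup.subset_normalClosure (Set.mem_singleton _)) ⟨swap a b * swap o x, by simp [hab, Ne.symm hx]⟩), ?_⟩
        change (_ * c3 a b o * _⁻¹)⁻¹ = _
        rw [c3_conj, inv_eq_iff_eq_inv, c3_inv hab hax hbx]
        simp [swap_apply_def, hao, hax, hbo, hbx, hax.symm, hbx.symm, hab.symm]) g.2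
  rwa [← Subtype.ext e]

theorem exists_alt_of_perm (g : Perm Ω) {p q : Ω} (h : p ≠ q) :
    ∃ w : alternatingGroup Ω, (w : Perm Ω) = g ∨ (w : Perm Ω) = g * swap p q := by
  rcases Int.units_eq_one_or (sign g) with e | e
  exacts [⟨⟨g, mem_alternatingGroup.2 e⟩, Or.inl rfl⟩, ⟨⟨g * swap p q, by simp [e, h]⟩, Or.inr rfl⟩]

theorem exists_two_outside (s : Finset Ω) (h : s.card + 2 ≤ Fintype.card Ω) : ∃ p q, p ≠ q ∧ p ∉ s ∧ q ∉ s := by
  obtain ⟨p, hp, q, hq, e⟩ := Finset.one_lt_card.1 (show 1 < sᶜ.card by rw [Finset.card_compl]; omega)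
  exact ⟨p, q, e, Finset.mem_compl.1 hp, Finset.mem_compl.1 hq⟩

theorem transData_alt {o₀ o₁ o₂ o₃ : Ω} (n01 : o₀ ≠ o₁) (n02 : o₀ ≠ o₂) (n03 : o₀ ≠ o₃) (n12 : o₁ ≠ o₂) (n13 : o₁ ≠ o₃)
    (n23 : o₂ ≠ o₃) {S : List (alternatingGroup Ω)}
    {T : List Ω} {D : List (Ω × Ω)} (fix : ∀ s ∈ S, s • o₀ = o₀ ∧ s • o₁ = o₁)
    (stab : altOn (Finset.univ \ {o₀, o₁}) ≤ (Subgroup.closure {s | s ∈ S}).map (Subgroup.subtype _))
    (hT : T = [o₂, o₃] ∨ T = [o₂] ∧ 5 ≤ Fintype.card Ω)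
    (hD : D = [(o₂, o₃), (o₃, o₂)] ∨ D = [(o₂, o₃)] ∧ 6 ≤ Fintype.card Ω) :
    ∃ sec, TransData sec o₀ o₁ o₂ S T D := by
  have e3 : ∀ a b c, a ≠ b → b ≠ c → a ≠ c → ∃ g : Perm Ω, g o₀ = a ∧ g o₁ = b ∧ g o₂ = c := fun a b c h1 h2 h3 => by
    obtain ⟨g, hg⟩ := Perm.exists_extending_pair ![o₀, o₁, o₂] ![a, b, c]
      (List.nodup_ofFn.1 (by simp [*])) (List.nodup_ofFn.1 (by simp [*]))
    exact ⟨g, hg 0, hg 1, hg 2⟩
  have two : ∀ i j, ∃ w : alternatingGroup Ω, i ≠ j → w • o₀ = i ∧ w • o₁ = j := fun i j => by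
    by_cases hij : i = j
    · exact ⟨1, fun h => absurd hij h⟩
    obtain ⟨g, hg⟩ := Perm.exists_extending_pair ![o₀, o₁] ![i, j]
      (List.nodup_ofFn.1 (by simp [*])) (List.nodup_ofFn.1 (by simp [*]))
    obtain ⟨w, hw⟩ := exists_alt_of_perm g n23
    refine ⟨w, fun _ => ?_⟩
    change (w : Perm Ω) o₀ = i ∧ (w : Perm Ω) o₁ = j
    rcases hw with e | e <;> simpa [e, swap_apply_of_ne_of_ne, *] using And.intro (hg 0) (hg 1)
  choose sec hsec using two
  refine ⟨sec, n01, n02.symm, n12.symm, hsec, fix, fun w w0 w1 => ?_, ?_, fun a b c h1 h2 h3 => ?_,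
    fun a b c h1 h2 h3 => ?_, ?_, fun a b c d h1 h2 h3 h4 h5 h6 => ?_⟩
  · obtain ⟨w', h, e⟩ := stab (mem_altOn.2 ⟨w.2, fun x hx => by
      simp only [Finset.mem_sdiff, Finset.mem_univ, Finset.mem_insert, Finset.mem_singleton, true_and]
      rintro (rfl | rfl)
      exacts [hx w0, hx w1]⟩)
    rwa [← Subtype.ext e]
  · rcases hT with rfl | ⟨rfl, -⟩ <;> simp [n02.symm, n03.symm, n12.symm, n13.symm]
  · obtain ⟨g, rfl, rfl, rfl⟩ := e3 a b c h1 h2 h3
    change ∃ w : alternatingGroup Ω, ∃ c' ∈ T, (w : Perm Ω) o₀ = _ ∧ (w : Perm Ω) o₁ = _ ∧ (w : Perm Ω) c' = _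
    rcases hT with rfl | ⟨rfl, h⟩
    · obtain ⟨w, e | e⟩ := exists_alt_of_perm g n23
      · exact ⟨w, o₂, by simp, by simp [e]⟩
      · exact ⟨w, o₃, by simp, by simp [e, swap_apply_of_ne_of_ne, *]⟩
    · obtain ⟨p, q, n, hp, hq⟩ := exists_two_outside {o₀, o₁, o₂} (by have := Finset.card_le_three (a := o₀) (b := o₁) (c := o₂); omega)
      simp only [Finset.mem_insert, Finset.mem_singleton, not_or, ← ne_eq, ne_comm (a := p), ne_comm (a := q)] at hp hq
      obtain ⟨w, e | e⟩ := exists_alt_of_perm g n <;> exact ⟨w, o₂, by simp, by simp [e, swap_apply_of_ne_of_ne, *]⟩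
  · obtain ⟨g, rfl, rfl, rfl⟩ := e3 a b c h1 h2 h3
    change ∃ w : alternatingGroup Ω, (w : Perm Ω) o₀ = _ ∧
      ((w : Perm Ω) o₁ = _ ∧ (w : Perm Ω) o₂ = _ ∨ (w : Perm Ω) o₁ = _ ∧ (w : Perm Ω) o₂ = _)
    obtain ⟨w, e | e⟩ := exists_alt_of_perm g n12 <;> exact ⟨w, by simp [e, swap_apply_of_ne_of_ne, *]⟩
  · rcases hD with rfl | ⟨rfl, -⟩ <;> simp [n02.symm, n03.symm, n12.symm, n13.symm, n23, n23.symm]
  · obtain ⟨g, hg⟩ := Perm.exists_extending_pair ![o₀, o₁, o₂, o₃] ![a, b, c, d]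
      (List.nodup_ofFn.1 (by simp [*])) (List.nodup_ofFn.1 (by simp [*]))
    obtain rfl : g o₀ = a := hg 0
    obtain rfl : g o₁ = b := hg 1
    obtain rfl : g o₂ = c := hg 2
    obtain rfl : g o₃ = d := hg 3
    change ∃ w : alternatingGroup Ω, ∃ p ∈ D, (w : Perm Ω) o₀ = _ ∧ (w : Perm Ω) o₁ = _ ∧ (w : Perm Ω) p.1 = _ ∧
      (w : Perm Ω) p.2 = _
    rcases hD with rfl | ⟨rfl, h⟩
    · obtain ⟨w, e | e⟩ := exists_alt_of_perm g n23
      · exact ⟨w, (o₂, o₃), by simp, by simp [e]⟩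
      · exact ⟨w, (o₃, o₂), by simp, by simp [e, swap_apply_of_ne_of_ne, *]⟩
    · obtain ⟨p, q, n, hp, hq⟩ := exists_two_outside {o₀, o₁, o₂, o₃}
        (by have := Finset.card_le_four (a := o₀) (b := o₁) (c := o₂) (d := o₃); omega)
      simp only [Finset.mem_insert, Finset.mem_singleton, not_or, ← ne_eq, ne_comm (a := p), ne_comm (a := q)] at hp hq
      obtain ⟨w, e | e⟩ := exists_alt_of_perm g n <;>
        exact ⟨w, (o₂, o₃), by simp, by simp [e, swap_apply_of_ne_of_ne, *]⟩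

theorem sign_alt (w : alternatingGroup Ω) :
    sign (MulAction.toPermHom (alternatingGroup Ω) Ω w) ^ (Fintype.card Ω + 1) = 1 := by
  rw [show MulAction.toPermHom (alternatingGroup Ω) Ω w = w from rfl, mem_alternatingGroup.1 w.2, one_pow]

variable [Finite K]

theorem bp_SL3 (h : StLift (Fin 3) K) : BP (SpecialLinearGroup (Fin 3) K) 4 13 := by
  obtain ⟨ι, hι⟩ := exists_perm_lift (K := K) (Ω := Fin 3) (W := Perm (Fin 3)) (by decide)
  have two : ∀ i j, ∃ w : Perm (Fin 3), i ≠ j → w • (0 : Fin 3) = i ∧ w • (1 : Fin 3) = j := by decide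
  choose sec hsec using two
  refine bp_SL h bp_perm3 ι hι (sec := sec) (o₀ := 0) (o₁ := 1) (o₂ := 2) (S := []) (T := [2]) (D := [])
    ⟨by decide, by decide, by decide, hsec, by simp, fun w h0 h1 => ?_, by decide, by decide, by decide, by simp,
      fun a b c d => by omega⟩ (by decide) (w₀ := swap 0 1) ?_
  · rw [(by decide : ∀ w : Perm (Fin 3), w • (0 : Fin 3) = 0 → w • (1 : Fin 3) = 1 → w = 1) w h0 h1]
    exact one_mem _
  · rw [eq_top_iff, ← closure_isSwap, Subgroup.closure_le]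
    intro g hg
    obtain ⟨c, rfl⟩ := isConj_iff.1 (isConj_of_cycleType_eq ((isSwap_iff_cycleType.1 (swap_isSwap_iff.2
      (by decide : (0 : Fin 3) ≠ 1))).trans (isSwap_iff_cycleType.1 hg).symm))
    exact Subgroup.normalClosure_normal.conj_mem _ (Subgroup.subset_normalClosure (Set.mem_singleton _)) c

theorem bp_SL4 (h : StLift (Fin 4) K) : BP (SpecialLinearGroup (Fin 4) K) 4 19 := by
  obtain ⟨ι, hι⟩ := exists_perm_lift (K := K) (Ω := Fin 4) sign_alt
  obtain ⟨sec, d⟩ := transData_alt (Ω := Fin 4) (o₀ := 0) (o₁ := 1) (o₂ := 2) (o₃ := 3) (by decide) (by decide)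
    (by decide) (by decide) (by decide) (by decide) (S := []) (by simp)
    (altOn_le_of_c3 (a := 2) (b := 3) (by decide) (by decide) (by decide) fun x => by simp; omega)
    (Or.inl rfl) (Or.inl rfl)
  exact bp_SL h (bp_alt_of_carm (k := 2) [(0, 1)] (by decide) (by decide)) ι hι d le_rfl
    (normalClosure_c3 d.n01 d.n20.symm d.n21.symm)

theorem bp_SL5 (h : StLift (Fin 5) K) : BP (SpecialLinearGroup (Fin 5) K) 5 21 := by
  obtain ⟨ι, hι⟩ := exists_perm_lift (K := K) (Ω := Fin 5) sign_alt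
  obtain ⟨sec, d⟩ := transData_alt (Ω := Fin 5) (o₀ := 0) (o₁ := 1) (o₂ := 2) (o₃ := 3) (by decide) (by decide)
    (by decide) (by decide) (by decide) (by decide) (S := [⟨c3 2 3 4, c3_mem_alt (by decide) (by decide)⟩]) (by decide)
    (altOn_le_of_c3 (a := 2) (b := 3) (by decide) (by decide) (by decide) fun x hx h2 h3 => by
      obtain rfl : x = 4 := by simp at hx; omega
      exact ⟨_, Subgroup.subset_closure (List.mem_singleton_self _), rfl⟩)
    (Or.inr ⟨rfl, by simp⟩) (Or.inl rfl)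
  exact bp_SL h (bp_alt_of_carm (k := 3) [(0, 1), (0, 2), (1, 2)] (by decide) (by decide)) ι hι d (by simp)
    (normalClosure_c3 d.n01 d.n20.symm d.n21.symm)

theorem bp_alt (h : 3 ≤ Fintype.card Ω) : BP (alternatingGroup Ω) 3 7 :=
  let ⟨π, h1, h2, _⟩ := pres_alt h
  ⟨π, MonoidHom.range_eq_top.1 h2, h1⟩

theorem bp_SL_big (h : StLift Ω K) (h6 : 6 ≤ Fintype.card Ω) : BP (SpecialLinearGroup Ω K) 5 23 := by
  obtain ⟨ι, hι⟩ := exists_perm_lift (K := K) (Ω := Ω) sign_alt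
  obtain ⟨o⟩ : Nonempty (Fin 5 ↪ Ω) := Function.Embedding.nonempty_of_card_le (by simp; omega)
  have n : ∀ i j, i ≠ j → o i ≠ o j := fun i j hij e => hij (o.injective e)
  have m : ∀ i, i ≠ 0 → i ≠ 1 → o i ∈ Finset.univ \ {o 0, o 1} := fun i h0 h1 => by simp [h0, h1]
  have hc := c3_mem_altOn (m 2 (by decide) (by decide)) (m 3 (by decide) (by decide)) (m 4 (by decide) (by decide))
    (n _ _ (by decide)) (n _ _ (by decide))
  obtain ⟨ν, h1, h2, h3⟩ := exists_gen3' (isThreeCycle_c3 (n _ _ (by decide)) (n _ _ (by decide)) (n _ _ (by decide))) hc 1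
  have fx : ∀ g : Perm Ω, (∀ x, g x ≠ x → x ∈ Finset.univ \ {o 0, o 1}) → g (o 0) = o 0 ∧ g (o 1) = o 1 := fun g hg =>
    ⟨by_contra fun e => by simpa using hg _ e, by_contra fun e => by simpa using hg _ e⟩
  obtain ⟨sec, d⟩ := transData_alt (n 0 1 (by decide)) (n 0 2 (by decide)) (n 0 3 (by decide)) (n 1 2 (by decide))
    (n 1 3 (by decide)) (n 2 3 (by decide)) (S := [⟨_, altOn_le_alt _ hc⟩, ⟨ν, mem_alternatingGroup.2 h1⟩])
    (by simpa using ⟨fx _ (mem_altOn.1 hc).2, fx _ h2⟩)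
    (h3 _ ⟨_, Subgroup.subset_closure List.mem_cons_self, rfl⟩ fun g hg => by
      have : ν ∈ (Subgroup.closure {s | s ∈ [(⟨_, altOn_le_alt _ hc⟩ : alternatingGroup Ω),
        ⟨ν, mem_alternatingGroup.2 h1⟩]}).map (Subgroup.subtype _) :=
          ⟨⟨ν, mem_alternatingGroup.2 h1⟩, Subgroup.subset_closure (by simp), rfl⟩
      exact mul_mem (mul_mem this hg) (inv_mem this))
    (Or.inr ⟨rfl, by omega⟩) (Or.inr ⟨rfl, h6⟩)
  exact bp_SL h (bp_alt (by omega)) ι hι d (by simp) (normalClosure_c3 d.n01 d.n20.symm d.n21.symm)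

theorem bp_SLn {n : ℕ} (hn : 3 ≤ n) (h : StLift (Fin n) K) : BP (SpecialLinearGroup (Fin n) K) 5 23 := by
  obtain rfl | rfl | rfl | h6 : n = 3 ∨ n = 4 ∨ n = 5 ∨ 6 ≤ n := by omega
  exacts [(bp_SL3 h).le (by decide) (by decide), (bp_SL4 h).le (by decide) (by decide),
    (bp_SL5 h).mono (by decide), bp_SL_big h (by simpa using h6)]

theorem stLift_fin {n : ℕ} (hn : 3 ≤ n) : StLift (Fin n) K := fun J _ x h => by
  obtain ⟨e, he⟩ := Cfsg.Agent.S2401.result (K := K) n hn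
  refine ⟨(PresentedGroup.toGroup (f := fun a => x a.1.1.1 a.1.1.2 a.2) ?_).comp e.symm.toMonoidHom, fun i j hij t => ?_⟩
  · rintro _ ((⟨a, t, u, rfl⟩ | ⟨a, b, t, u, h1, h2, rfl⟩) | ⟨a, b, h1, t, u, h2, rfl⟩) <;>
      simp only [map_mul, map_inv, FreeGroup.lift_apply_of, mul_inv_eq_one]
    · exact (h.add _ _ a.2 t u).symm
    · exact (h.comm _ _ _ _ a.2 b.2 h1 h2 t u).mul_inv_cancel
    · rw [← h2]
      exact h.mul _ _ _ a.2 (h2 ▸ b.2) h1 t u
  · rw [show elt i j t = e (PresentedGroup.of (⟨(i, j), hij⟩, t)) from Subtype.ext ((elt_val hij t).trans (he ⟨(i, j), hij⟩ t).symm)]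
    simp

theorem bp_SL_fin {n : ℕ} (hn : 3 ≤ n) : BP (SpecialLinearGroup (Fin n) K) 5 23 := bp_SLn hn (stLift_fin hn)

theorem bp_PSL_fin {n : ℕ} (hn : 3 ≤ n) : BP (ProjectiveSpecialLinearGroup (Fin n) K) 5 24 :=
  have := isCyclic_center_SL (Fin n) K
  (bp_SL_fin hn).quotient_center

end CL.Known
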