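/-
Bounded presentations of the symplectic groups.
-/
import Cfsg.Agent.Known.PresC2
import Cfsg.Agent.Known.PresSLn2
import Cfsg.Agent.Known.StbSp

set_option autoImplicit false

namespace CL.Known

open Matrix CL.Chev CL.Sp CL.Chev.SysC

variable {F : Type*} [Field F]

/-- the matrix with an extra first row and column -/
def succMat {n : ℕ} (A : Matrix (Fin n) (Fin n) F) : Matrix (Fin (n + 1)) (Fin (n + 1)) F :=
  of fun i j => Fin.cases (Fin.cases 1 (fun _ => 0) j) (fun i => Fin.cases 0 (A i) j) i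

/-- the embedding of `SL_n` in `SL_{n+1}` -/
def succSL (n : ℕ) (F : Type*) [Field F] : SpecialLinearGroup (Fin n) F →* SpecialLinearGroup (Fin (n + 1)) F where
  toFun A := ⟨succMat A.1, by
    rw [det_succ_row_zero, Fin.sum_univ_succ]
    simp [succMat, submatrix]
    exact A.2⟩
  map_one' := Subtype.ext (by ext i j; cases i using Fin.cases <;> cases j using Fin.cases <;> simp [succMat, one_apply, eq_comm])
  map_mul' A B := Subtype.ext (by
    change succMat (A.1 * B.1) = succMat A.1 * succMat B.1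
    ext i j
    cases i using Fin.cases <;> cases j using Fin.cases <;> simp [succMat, mul_apply, Fin.sum_univ_succ])

theorem succSL_elt {n : ℕ} {i j : Fin n} (h : i ≠ j) (t : F) : succSL n F (elt i j t) = elt i.succ j.succ t := by
  apply Subtype.ext
  change succMat (elt i j t).1 = _
  rw [elt_val h, elt_val (by simpa)]
  ext k l
  cases k using Fin.cases <;> cases l using Fin.cases <;> simp [succMat, one_apply, single_apply, eq_comm]

theorem exists_two_gen_SL' [Finite F] (n : ℕ) :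
    ∃ a b : SpecialLinearGroup (Fin (n + 1)) F, Subgroup.closure {a, b} = ⊤ := by
  rcases n with _ | n
  · exact ⟨1, 1, eq_top_iff.2 fun g _ => elt_induction (· ∈ _) (one_mem _) (fun i j h => by omega) (fun _ _ => mul_mem) g⟩
  · exact exists_two_gen_SL (by omega)

/-- the Levi subgroup `SL_m` of `Sp_{2m}` -/
def levM (m : ℕ) (F : Type*) [Field F] : SpecialLinearGroup (Fin m) F →* symplecticGroup (Fin m) F where
  toFun A := ⟨fromBlocks A.1 0 0 (A⁻¹).1ᵀ, by
    have h1 : A.1 * (A⁻¹).1 = 1 := congrArg Subtype.val (mul_inv_cancel A)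
    simp only [SymplecticGroup.mem_iff, J, fromBlocks_transpose, fromBlocks_multiply]
    simp [-Matrix.SpecialLinearGroup.coe_inv, h1, ← transpose_mul]⟩
  map_one' := Subtype.ext (by simp)
  map_mul' A B := Subtype.ext (by
    simp [-Matrix.SpecialLinearGroup.coe_inv, fromBlocks_multiply, Matrix.SpecialLinearGroup.coe_mul])

/-- the Levi subgroup `SL_m` of `Sp_{2m}` -/
noncomputable def lev (m : ℕ) (F : Type*) [Field F] : SpecialLinearGroup (Fin m) F →* Isom (stdForm (Fin m) F) :=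
  (spEquiv _ F).toMonoidHom.comp (levM m F)

theorem lev_injective (m : ℕ) : Function.Injective (lev m F) := (spEquiv _ F).injective.comp fun A B h =>
  Subtype.ext (fromBlocks_inj.1 (congrArg Subtype.val h)).1

theorem lev_elt {m : ℕ} {i j : Fin m} (h : i ≠ j) (t : F) :
    (lev m F (elt i j t)).1 = yv (.inl i) (.inr j) (-t) := by
  ext1 v
  change fromBlocks (elt i j t).1 0 0 ((elt i j t)⁻¹).1ᵀ *ᵥ v = _
  rw [← addHom_neg (stRel_elt.add i j h), elt_val h, elt_val h, yv_apply (by simpa using h.symm), fromBlocks_mulVec]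
  ext (k | k) <;> simp [add_mulVec, single_mulVec, sg, Pi.single_apply, Function.update_apply]
  split_ifs <;> simp

variable {n : ℕ}

theorem sysC_x (r : PhiK 2 (n + 2)) : ∃ a b, b ≠ a.swap ∧ eps a + eps b = r.1 ∧ ∃ s : F, s * s = 1 ∧
    ∀ t : F, ((sys F n).x r t).1 = yv a b (s * t) :=
  ⟨_, _, ((cover F n).sec r).2, congrArg Subtype.val ((cover F n).ρ_sec r), _, units_cast_mul_self _, fun _ => rfl⟩

theorem sysC_x' {r : PhiK 2 (n + 2)} {a b} (h : b ≠ a.swap) (e : eps a + eps b = r.1) : ∃ s : F, s * s = 1 ∧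
    ∀ t : F, ((sys F n).x r t).1 = yv a b (s * t) := by
  obtain ⟨c, d, h', e', s, hs, hx⟩ := sysC_x (F := F) r
  rcases eps_add_eq' h (e.trans e'.symm) with ⟨rfl, rfl⟩ | ⟨rfl, rfl⟩
  exacts [⟨s, hs, hx⟩, ⟨s, hs, fun t => (hx t).trans (yv_comm h' _)⟩]

theorem mem_phiA {k : ℤ} (hk : k = 0 ∨ k = 1 ∨ k = 2) {r : PhiK k (n + 2)} :
    r ∈ (euclK hk n).rs.PhiJ {none}ᶜ ↔ 1 ⬝ᵥ r.1 = 0 := by
  have := (euclK hk n).sum_rt 1 r
  have e : ∀ i, (euclK hk n).vec ((euclK hk n).simple i) = sVec k i := fun _ => rfl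
  simp only [Fintype.sum_option, e, sVec, dotProduct_comm 1 (aVec _), aVec_one, EuclK.vec_eq] at this
  rw [← this]
  rcases hk with rfl | rfl | rfl <;> simp [RS.mem_PhiJ, Eucl.rs, -zsmul_eq_mul]

theorem sysC_lev {r : PhiK 2 (n + 2)} {i j : Fin (n + 2)} (h : i ≠ j) (e : eps (.inl i) + eps (.inr j) = r.1) :
    ∃ s : F, s * s = 1 ∧ ∀ t, (sys F n).x r t = lev _ F (elt i j (s * t)) := by
  obtain ⟨s, hs, hx⟩ := sysC_x' (F := F) (by simpa using h.symm) e
  exact ⟨-s, by simpa, fun t => Subtype.ext (by rw [hx, lev_elt h, neg_mul, neg_neg])⟩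

theorem range_lev : (lev (n + 2) F).range = (sys F n).XS ((euclK (.inr (.inr rfl)) n).rs.PhiJ {none}ᶜ) := by
  refine le_antisymm ?_ ((sys F n).XS_le_iff.2 fun r hr t => ?_)
  · rintro _ ⟨g, rfl⟩
    refine elt_induction (fun g => lev _ F g ∈ _) (by simp) (fun i j h t => ?_)
      (fun a b ha hb => by rw [map_mul]; exact mul_mem ha hb) g
    obtain ⟨s, hs, hx⟩ := sysC_lev (F := F) (r := rt ⟨(.inl i, .inr j, 1), by simpa using h.symm⟩) h rfl
    rw [← one_mul t, ← hs, mul_assoc, ← hx]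
    exact (sys F n).x_mem_XS ((mem_phiA _).2 (by simp [rt, eps])) _
  · obtain ⟨a, b, h, e, -⟩ := sysC_x (F := F) r
    rw [mem_phiA, ← e] at hr
    rcases a with i | i <;> rcases b with j | j <;> simp [eps] at hr
    · obtain ⟨s, -, hx⟩ := sysC_lev (F := F) (by simpa [eq_comm] using h) e
      exact ⟨_, (hx t).symm⟩
    · obtain ⟨s, -, hx⟩ := sysC_lev (F := F) (by simpa using h) ((add_comm _ _).trans e)
      exact ⟨_, (hx t).symm⟩

theorem bp_Sp [Finite F] {d r : ℕ} (h : BP (SpecialLinearGroup (Fin (n + 2)) F) d r) :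
    BP (symplecticGroup (Fin (n + 2)) F) (d + 3) (r + 25) := by
  refine (bp_amalgam (faithful F n) (grp F n) (ker_torus F n _) (EuclK.irred _ (by simp)) (o := none) (o' := some 0)
    ?_ ?_ ?_ (lev_injective _) range_lev (succSL _ F) (exists_two_gen_SL' n) ?_ ?_ h).of_equiv (spEquiv _ F).symm
  · rw [Eucl.cartan_eq, EuclK.cvec_simple]; simp [euclK, sVec, aVec]
  · rw [Eucl.cartan_eq, EuclK.cvec_simple]; simp [euclK, sVec, aVec]
  · rintro (_ | k) h1 h2
    · exact absurd rfl h1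
    · rw [Eucl.cartan_eq, EuclK.cvec_simple]
      simpa [euclK, sVec, aVec, Pi.single_apply, eq_comm (a := (0 : Fin (n + 2)))] using h2
  · rintro (_ | k) h1 h2 r hr t
    · exact absurd rfl h1
    obtain ⟨k, rfl⟩ := Fin.exists_succ_eq.2 fun e : k = 0 => h2 (e ▸ rfl)
    have n1 := k.castSucc_lt_succ.ne
    rcases (RS.mem_PhiJ_singleton _).1 hr with rfl | rfl
    · obtain ⟨s, -, hx⟩ := sysC_lev (F := F) (r := (euclK (.inr (.inr rfl)) n).rs.simple (some k.succ))
        ((Fin.succ_injective _).ne n1.symm) (sub_eq_add_neg _ _).symm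
      exact ⟨_, ((hx t).trans (congrArg _ (succSL_elt n1.symm _).symm)).symm⟩
    · obtain ⟨s, -, hx⟩ := sysC_lev (F := F) ((Fin.succ_injective _).ne n1) (Eq.trans (by simp [eps, euclK, sVec, aVec, Eucl.rs]; abel)
        ((euclK (.inr (.inr rfl)) n).vec_neg ((euclK (.inr (.inr rfl)) n).rs.simple (some k.succ))).symm)
      exact ⟨_, ((hx t).trans (congrArg _ (succSL_elt n1 _).symm)).symm⟩
  · intro g r hr t
    obtain ⟨a, ha, e⟩ : ∃ a : Fin (n + 2) ⊕ Fin (n + 2), (a = .inl 0 ∨ a = .inr 0) ∧ eps a + eps a = r.1 := by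
      rcases (RS.mem_PhiJ_singleton _).1 hr with rfl | rfl
      · exact ⟨_, .inl rfl, (two_smul _ _).symm⟩
      · exact ⟨_, .inr rfl, Eq.trans (by simp [eps, euclK, sVec, Eucl.rs, two_smul]) ((euclK _ n).vec_neg _).symm⟩
    obtain ⟨s, -, hx⟩ := sysC_x' (F := F) (swap_ne a).symm e
    refine elt_induction (fun g => Commute _ (lev _ F (succSL _ F g))) (by simp) (fun i j h u => ?_)
      (fun a b ha hb => by rw [map_mul, map_mul]; exact ha.mul_right hb) g
    have h' : (Sum.inr j.succ : Fin (n + 2) ⊕ Fin (n + 2)) ≠ (Sum.inl i.succ).swap := by simpa using h.symm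
    have fx := yv_fix h' (c := a) (by rcases ha with rfl | rfl <;> simp [eq_comm]) (by rcases ha with rfl | rfl <;> simp [eq_comm]) (-u)
    refine (mul_inv_eq_iff_eq_mul.1 (Subtype.ext ?_)).symm
    rw [succSL_elt h, Subgroup.coe_mul, Subgroup.coe_mul, Subgroup.coe_inv, lev_elt (by simpa), hx,
      (conj_yv (yv_mem _ _ _) (swap_ne a).symm (μ := 1) (ν := 1) (by simpa) (by simpa)).2, one_mul, one_mul]

theorem isCyclic_center_Sp [Finite F] (m : ℕ) : IsCyclic (Subgroup.center (symplecticGroup (Fin (m + 1)) F)) :=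
  isCyclic_of_card_dvd_prime (p := 2) (card_center_symplecticGroup (F := F) (l := Fin (m + 1)) ▸ Nat.gcd_dvd_left _ _)

theorem bp_Sp4 [Finite F] : BP (symplecticGroup (Fin 2) F) 6 33 := bp_Sp (n := 0) bp_SL2

theorem bp_Sp_fin [Finite F] {m : ℕ} (h : 2 ≤ m) : BP (symplecticGroup (Fin m) F) 8 48 := by
  obtain ⟨n, rfl⟩ : ∃ n, m = n + 2 := ⟨m - 2, by omega⟩
  rcases n with _ | n
  exacts [bp_Sp4.le (by decide) (by decide), bp_Sp (bp_SL_fin (by omega))]

theorem bp_PSp_fin [Finite F] {m : ℕ} (h : 2 ≤ m) : BP (Cfsg.PSp m F) 8 49 := by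
  obtain ⟨n, rfl⟩ : ∃ n, m = n + 1 := ⟨m - 1, by omega⟩
  have := isCyclic_center_Sp (F := F) n
  exact (bp_Sp_fin h).quotient_center

end CL.Known
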