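/-
Two-generation of the symplectic groups.
-/
import Cfsg.Agent.Known.PresSp

set_option autoImplicit false

namespace CL.Known

open Matrix CL.Chev CL.Sp CL.Chev.SysC CL.Chev.SL2

theorem mem_of_mul_mem_coprime {G : Type*} [Group G] {H : Subgroup G} {t s : G} (h : Commute t s) {p n : ℕ}
    (ht : t ^ p = 1) (hs : s ^ n = 1) (hc : n.Coprime p) (hm : t * s ∈ H) : t ∈ H ∧ s ∈ H := by
  obtain ⟨j, hj⟩ := exists_pow_eq_self_of_coprime (hc.coprime_dvd_right (orderOf_dvd_of_pow_eq_one ht))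
  have := pow_mem (pow_mem hm n) j
  rw [h.mul_pow, hs, mul_one, hj] at this
  exact ⟨this, (mul_mem_cancel_left this).1 hm⟩

/-- the signed cycle of length `2 m` -/
def cyc (n : ℕ) : Equiv.Perm (Fin (n + 2) ⊕ Fin (n + 2)) :=
  Equiv.swap (.inl 0) (.inr 0) * Equiv.sumCongr (Equiv.addRight 1) (Equiv.addRight 1)

theorem cyc_swap {n : ℕ} (a : Fin (n + 2) ⊕ Fin (n + 2)) : cyc n a.swap = (cyc n a).swap := by
  rcases a with i | i <;> by_cases h : i + 1 = 0 <;> simp [cyc, h, Equiv.swap_apply_of_ne_of_ne]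

theorem cyc_inl {n : ℕ} (i : Fin (n + 1)) : cyc n (.inl i.castSucc) = .inl i.succ := by
  simp [cyc, Equiv.swap_apply_of_ne_of_ne]

theorem cyc_inr {n : ℕ} (i : Fin (n + 1)) : cyc n (.inr i.castSucc) = .inr i.succ :=
  (cyc_swap (.inl _)).trans (by rw [cyc_inl]; rfl)

theorem cyc_ne {n : ℕ} (a : Fin (n + 2) ⊕ Fin (n + 2)) : cyc n a ≠ a := by
  rcases a with i | i <;> by_cases h : i + 1 = 0 <;> simp [cyc, h, Equiv.swap_apply_of_ne_of_ne]

theorem cyc_swap_ne {n : ℕ} (a : Fin (n + 2) ⊕ Fin (n + 2)) : (cyc n a).swap ≠ a.swap := fun e =>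
  cyc_ne a (by simpa using congrArg Sum.swap e)

theorem cyc_induction {n : ℕ} {P : Fin (n + 2) ⊕ Fin (n + 2) → Prop} (h : ∀ a, P a ↔ P (cyc n a)) {a} (ha : P a) (b) :
    P b := by
  have h1 : ∀ i, P (.inl i) ↔ P (.inl 0) := fun i => by
    induction i using Fin.induction with
    | zero => rfl
    | succ i ih => rw [← cyc_inl, ← h, ih]
  have h2 : ∀ i, P (.inr i) ↔ P (.inl 0) := fun i => by
    induction i using Fin.induction with
    | zero => rw [← h1 (Fin.last _), h (.inl _)]; simp [cyc]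
    | succ i ih => rw [← cyc_inr, ← h, ih]
  rcases a with a | a <;> rcases b with b | b <;> simp_all

variable {F : Type*} [Field F] {m n : ℕ}

theorem exists_mono (σ : Equiv.Perm (Fin m ⊕ Fin m)) (h : ∀ a, σ a.swap = (σ a).swap) :
    ∃ g ∈ Isom (stdForm (Fin m) F), ∀ a, ∃ μ : F, g (Pi.single a 1) = μ • Pi.single (σ a) 1 := by
  let c : Fin m ⊕ Fin m → Fˣ := fun b => Sum.elim (fun _ => 1)
    (fun i => Units.map (Int.castRingHom F).toMonoidHom (sg (σ (.inl i)))) (σ.symm b)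
  let g := (Pi.basisFun F _).equiv ((Pi.basisFun F _).unitsSMul c) σ
  have hg : ∀ a, g (Pi.single a 1) = (c (σ a) : F) • Pi.single (σ a) 1 := fun a => by
    rw [← Pi.basisFun_apply, Module.Basis.equiv_apply, Module.Basis.unitsSMul_apply, Pi.basisFun_apply]; rfl
  suffices (stdForm (Fin m) F).comp g g = stdForm (Fin m) F from
    ⟨g, fun x y => LinearMap.congr_fun₂ this x y, fun a => ⟨_, hg a⟩⟩
  refine LinearMap.BilinForm.ext_basis (Pi.basisFun F _) fun a b => ?_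
  simp only [LinearMap.BilinForm.comp_apply, LinearEquiv.coe_coe, Pi.basisFun_apply, hg, map_smul, LinearMap.smul_apply,
    form_single, ← h, Pi.single_apply, σ.injective.eq_iff, smul_eq_mul]
  split_ifs with e
  · subst e
    rcases b with i | i
    · simpa [c, sg] using units_cast_mul_self (F := F) _
    · have := sg_swap (σ (.inl i))
      rw [← h] at this
      simpa [c, show σ (.inr i) = σ (Sum.inl i).swap from rfl, this, show sg (Sum.inr i) = -1 from rfl]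
        using units_cast_mul_self (F := F) _
  · simp

theorem conj_yv_mem {H : Subgroup ((Fin m ⊕ Fin m → F) ≃ₗ[F] (Fin m ⊕ Fin m → F))} {g} (hg : g ∈ Isom (stdForm (Fin m) F))
    (hH : g ∈ H) {a b a' b'} (h : b ≠ a.swap) (h1 : ∃ μ : F, g (Pi.single a 1) = μ • Pi.single a' 1)
    (h2 : ∃ μ : F, g (Pi.single b 1) = μ • Pi.single b' 1) : ∃ c : F, c ≠ 0 ∧ ∀ t, yv a b t ∈ H ↔ yv a' b' (c * t) ∈ H := by
  obtain ⟨μ, h1⟩ := h1
  obtain ⟨ν, h2⟩ := h2
  refine ⟨μ * ν, mul_ne_zero (map_single h1 h2).1 (map_single h1 h2).2.1, fun t => ?_⟩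
  rw [← (conj_yv hg h h1 h2).2, mul_mem_cancel_right (inv_mem hH), mul_mem_cancel_left hH]

theorem forall_iff_of_mul {P Q : F → Prop} (h : ∃ c, c ≠ 0 ∧ ∀ t, P t ↔ Q (c * t)) :
    ((∀ t, P t) ↔ ∀ t, Q t) ∧ ((∃ t ≠ 0, P t) ↔ ∃ t ≠ 0, Q t) := by
  obtain ⟨c, hc, h⟩ := h
  refine ⟨⟨fun H t => mul_inv_cancel_left₀ hc t ▸ (h _).1 (H _), fun H t => (h t).2 (H _)⟩,
    fun ⟨t, ht, H⟩ => ⟨_, mul_ne_zero hc ht, (h t).1 H⟩, fun ⟨t, ht, H⟩ => ⟨c⁻¹ * t, by simp [*], (h _).2 ?_⟩⟩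
  rwa [mul_inv_cancel_left₀ hc]

theorem isom_le_of_cyc {H : Subgroup ((Fin (n + 2) ⊕ Fin (n + 2) → F) ≃ₗ[F] (Fin (n + 2) ⊕ Fin (n + 2) → F))} {w}
    (hw : w ∈ Isom (stdForm (Fin (n + 2)) F)) (hH : w ∈ H)
    (h : ∀ a, ∃ μ : F, w (Pi.single a 1) = μ • Pi.single (cyc n a) 1) (h1 : ∀ a t, yv a a t ∈ H)
    (h2 : ∀ t, yv (.inl 0) (.inr 1) t ∈ H) : Isom (stdForm (Fin (n + 2)) F) ≤ H := by
  have h3 := cyc_induction (P := fun a => ∀ t, yv a (cyc n a).swap t ∈ H) (fun a => by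
    rw [← cyc_swap (cyc n a)]
    exact (forall_iff_of_mul (conj_yv_mem hw hH (cyc_swap_ne a) (h _) (h _))).1) (a := .inl 0)
    (by rw [show cyc n (.inl 0) = .inl 1 from cyc_inl 0]; exact h2)
  have key : ∀ (r : PhiK 2 (n + 2)) a b, b ≠ a.swap → eps a + eps b = r.1 → (∀ t, yv a b t ∈ H) →
      ∀ t, (sys F n).x r t ∈ H.subgroupOf (Isom (stdForm (Fin (n + 2)) F)) := fun r a b e1 e2 e3 t => by
    obtain ⟨s, -, hx⟩ := sysC_x' (F := F) e1 e2
    rw [Subgroup.mem_subgroupOf, hx]; exact e3 _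
  rw [← Subgroup.subgroupOf_eq_top, eq_top_iff, ← grp, StSys.grp, ← (euclK (.inr (.inr rfl)) n).rs.PhiJ_univ]
  refine StSys.XS_PhiJ_le' ?_ ?_ <;> rintro (_ | i) -
  · exact key _ (.inl 0) (.inl 0) (by simp) (two_smul ℤ _).symm (h1 _)
  · exact key _ _ _ (cyc_swap_ne _) (by simp [cyc_inr, eps, euclK, sVec, aVec, Eucl.rs]; abel)
      (h3 (.inr i.castSucc))
  · exact key _ (.inr 0) (.inr 0) (by simp) (Eq.trans (by simp [eps, euclK, sVec, Eucl.rs, two_smul])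
      ((euclK _ n).vec_neg _).symm) (h1 _)
  · exact key _ _ _ (cyc_swap_ne _) (Eq.trans (by simp [cyc_inl, eps, euclK, sVec, aVec, Eucl.rs]; abel)
      ((euclK _ n).vec_neg _).symm) (h3 (.inl i.castSucc))

theorem exists_diag (a : Fin m ⊕ Fin m) {k : F} (hk : k ≠ 0) : ∃ h ∈ Isom (stdForm (Fin m) F),
    (∀ H : Subgroup _, (∀ a t, yv a a t ∈ H) → h ∈ H) ∧ h (Pi.single a 1) = k • Pi.single a 1 ∧
      h (Pi.single a.swap 1) = k⁻¹ • Pi.single a.swap 1 ∧ ∀ c, c ≠ a → c ≠ a.swap → h (Pi.single c 1) = Pi.single c 1 := by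
  have e := units_cast_mul_self (F := F) (sg a)
  obtain ⟨a1, a2⟩ := n_left (swap_ne a).symm (t := k) (u := k⁻¹) (by rw [mul_inv_cancel₀ hk, one_mul, e])
  obtain ⟨b1, b2⟩ := n_left (swap_ne a).symm (t := (-1 : F)) (u := -1) (by simpa using e)
  refine ⟨(yv a a k * yv a.swap a.swap k⁻¹ * yv a a k) * (yv a a (-1) * yv a.swap a.swap (-1) * yv a a (-1)),
    mul_mem (mul_mem (mul_mem (yv_mem _ _ _) (yv_mem _ _ _)) (yv_mem _ _ _))
      (mul_mem (mul_mem (yv_mem _ _ _) (yv_mem _ _ _)) (yv_mem _ _ _)),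
    fun H h => mul_mem (mul_mem (mul_mem (h _ _) (h _ _)) (h _ _)) (mul_mem (mul_mem (h _ _) (h _ _)) (h _ _)),
    ?_, ?_, fun c c1 c2 => ?_⟩
  · rw [LinearEquiv.mul_apply, b1, map_smul, a2, smul_smul]; congr 1; linear_combination k * e
  · rw [LinearEquiv.mul_apply, b2, map_smul, a1, smul_smul]; congr 1; linear_combination k⁻¹ * e
  · simp only [LinearEquiv.mul_apply, yv_fix (swap_ne a).symm c2 c2,
      yv_fix (swap_ne a.swap).symm (c := c) (by simpa) (by simpa)]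

theorem commute_yv {g : (Fin m ⊕ Fin m → F) ≃ₗ[F] (Fin m ⊕ Fin m → F)} (hg : g ∈ Isom (stdForm (Fin m) F)) {a}
    (h : g (Pi.single a 1) = Pi.single a 1) (t : F) : Commute (yv a a t) g := by
  refine (mul_inv_eq_iff_eq_mul.1 ?_).symm
  rw [(conj_yv hg (swap_ne a).symm (μ := 1) (ν := 1) (by simpa) (by simpa)).2, one_mul, one_mul]

theorem exists_two_gen_isom [Finite F] (h : n = 0 → 2 < Nat.card F) :
    ∃ a ∈ Isom (stdForm (Fin (n + 2)) F), ∃ b ∈ Isom (stdForm (Fin (n + 2)) F),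
      Isom (stdForm (Fin (n + 2)) F) ≤ Subgroup.closure {a, b} := by
  obtain ⟨w, hw, hw'⟩ := exists_mono (F := F) (cyc n) cyc_swap
  obtain ⟨p, _⟩ := CharP.exists F
  have hp := CharP.char_is_prime F p
  have add := fun a : Fin (n + 2) ⊕ Fin (n + 2) => yv_add (F := F) (swap_ne a).symm
  have tp : ∀ a : Fin (n + 2) ⊕ Fin (n + 2), yv a a (1 : F) ^ p = 1 := fun a => by
    rw [← addHom_nsmul (add a), nsmul_one, CharP.cast_eq_zero, addHom_zero (add a)]
  have cy : ∀ {H}, w ∈ H → ∀ a b, ((∀ t, yv a a t ∈ H) → ∀ t, yv b b t ∈ H) ∧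
      ((∃ t ≠ (0 : F), yv a a t ∈ H) → ∃ t ≠ (0 : F), yv b b t ∈ H) := fun {H} hH a b =>
    ⟨fun h => cyc_induction (P := fun a => ∀ t, yv a a t ∈ H)
      (fun a => (forall_iff_of_mul (conj_yv_mem hw hH (swap_ne a).symm (hw' a) (hw' a))).1) h b,
    fun h => cyc_induction (P := fun a => ∃ t ≠ (0 : F), yv a a t ∈ H)
      (fun a => (forall_iff_of_mul (conj_yv_mem hw hH (swap_ne a).symm (hw' a) (hw' a))).2) h b⟩
  have n01 : (Sum.inr 1 : Fin (n + 2) ⊕ Fin (n + 2)) ≠ (Sum.inl 0).swap := by simp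
  have := Fintype.ofFinite F
  by_cases hq : 2 < Nat.card F
  · obtain ⟨k, k0, hk, ho⟩ := exists_field_gen F
    have k1 : k⁻¹ ≠ 1 := fun e => by have := Nat.le_of_dvd one_pos (ho 1 (by simp [inv_eq_one.1 e])); omega
    obtain ⟨d, d0, d1, d2, d3, d4⟩ := exists_diag (.inl 1 : Fin (n + 2) ⊕ Fin (n + 2)) k0
    have d5 := d4 (.inl 0) (by simp) (by simp)
    have dq : d ^ (Nat.card F - 1) = 1 := by
      refine LinearEquiv.toLinearMap_injective ((Pi.basisFun F _).ext fun c => ?_)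
      have key : ∀ μ : F, μ ≠ 0 → d (Pi.single c 1) = μ • Pi.single c 1 →
          (d ^ (Nat.card F - 1)) (Pi.single c 1) = Pi.single c 1 := fun μ h0 e => by
        have : ∀ j : ℕ, (d ^ j) (Pi.single c 1) = μ ^ j • Pi.single c 1 := fun j => by
          induction j with
          | zero => simp
          | succ j ih => rw [pow_succ', LinearEquiv.mul_apply, ih, map_smul, e, smul_smul, pow_succ]
        rw [this, Nat.card_eq_fintype_card, FiniteField.pow_card_sub_one_eq_one μ h0, one_smul]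
      rw [Pi.basisFun_apply]
      by_cases c1 : c = .inl 1
      · exact key k k0 (c1 ▸ d2)
      by_cases c2 : c = (Sum.inl 1).swap
      exacts [key _ (inv_ne_zero k0) (c2 ▸ d3), key 1 one_ne_zero (by rw [d4 c c1 c2, one_smul])]
    set x := yv (.inl 0 : Fin (n + 2) ⊕ Fin (n + 2)) (.inr 1) (1 : F) with hx
    have c1 := commute_yv (yv_mem _ _ _) (yv_fix n01 (c := .inl 0) (by simp) (by simp) (1 : F)) 1
    have c2 := commute_yv (yv_mem _ _ _) (yv_fix n01 (c := .inr 1) (by simp) (by simp) (1 : F))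
    refine ⟨yv (.inl 0) (.inl 0) 1 * (x * d * x⁻¹), 
      mul_mem (yv_mem _ _ _) (mul_mem (mul_mem (yv_mem _ _ _) d0) (inv_mem (yv_mem _ _ _))), w, hw, ?_⟩
    set H := Subgroup.closure {yv (.inl 0) (.inl 0) 1 * (x * d * x⁻¹), w}
    have m2 : w ∈ H := Subgroup.subset_closure (Or.inr rfl)
    obtain ⟨m3, m4⟩ := mem_of_mul_mem_coprime ((c1.mul_right (commute_yv d0 d5 1)).mul_right c1.inv_right) (tp _)
      (by rw [conj_pow, dq, mul_one, mul_inv_cancel]) (by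
        obtain ⟨e, -, he⟩ := FiniteField.card F p
        rw [Nat.card_eq_fintype_card, he]
        exact ((Nat.coprime_self_sub_left (Nat.one_le_pow _ _ hp.pos)).2 (Nat.coprime_one_left _)).coprime_dvd_right
          (dvd_pow_self p e.ne_zero)) (show _ ∈ H from Subgroup.subset_closure (Or.inl rfl))
    obtain ⟨c, c0, m5⟩ := (cy m2 _ (.inr 1)).2 ⟨1, one_ne_zero, m3⟩
    have e1 : ∀ t, x * d * x⁻¹ * yv (.inr 1) (.inr 1) t * (x * d * x⁻¹)⁻¹ = yv (.inr 1) (.inr 1) (k⁻¹ ^ 2 * t) := fun t => by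
      have e := (conj_yv d0 (swap_ne _).symm d3 d3).2 t
      rw [Sum.swap_inl] at e
      rw [sq, ← (c2 (_ * t)).symm.mul_inv_cancel, ← e]
      nth_rewrite 2 [← (c2 t).symm.inv_left.mul_inv_cancel]
      simp only [← hx]
      group
    have sp : ∀ {y : F → _} {g α c}, (∀ s t, y (s + t) = y s * y t) → (∀ t, g * y t * g⁻¹ = y (α * t)) → PowGen α → g ∈ H →
        c ≠ 0 → y c ∈ H → ∀ t, y t ∈ H := fun {y g α c} a1 a2 a3 a4 a5 a6 t => by
      have := addHom_mem (x := fun t => y (t * c)) (fun s t => by rw [add_mul, a1]) a3 (H := H) (by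
        rintro _ ⟨i, rfl⟩
        simp only
        rw [← conj_pow_of_conj a2]
        exact mul_mem (mul_mem (pow_mem a4 i) a6) (inv_mem (pow_mem a4 i))) (t * c⁻¹)
      rwa [inv_mul_cancel_right₀ a5] at this
    have ho' : ∀ n : ℕ, k⁻¹ ^ n = 1 → Nat.card F - 1 ∣ n := fun n e => ho n (by rwa [inv_pow, inv_eq_one] at e)
    have m6 := fun a => (cy m2 _ a).1 (sp (add _) e1 (powGen_pow (inv_ne_zero k0) ho' two_pos (.inl le_rfl)) m4 c0 m5)
    have e2 : ∀ t, d * yv (.inl 0) (.inr 1) t * d⁻¹ = yv (.inl 0) (.inr 1) (k⁻¹ ^ 1 * t) := fun t => by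
      rw [(conj_yv d0 n01 (μ := 1) (by rw [d5, one_smul]) d3).2, one_mul, pow_one]; rfl
    refine isom_le_of_cyc hw m2 hw' m6 (sp (yv_add n01) e2 (powGen_pow (inv_ne_zero k0) ho' one_pos (.inl one_le_two))
      (d1 H m6) (sub_ne_zero.2 k1.symm) ?_)
    convert mul_mem m4 (inv_mem (d1 H m6)) using 1
    rw [sub_eq_add_neg, yv_add n01, ← mul_neg_one, ← pow_one k⁻¹, ← e2, addHom_neg (yv_add n01)]
    group
  obtain ⟨n, rfl⟩ : ∃ n', n = n' + 1 := ⟨n - 1, by have := mt h hq; omega⟩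
  have h2 : Fintype.card F = 2 := by have := Fintype.one_lt_card (α := F); rw [Nat.card_eq_fintype_card] at hq; omega
  have f2 := field_two h2
  have all : ∀ {y : F → _} {H : Subgroup ((Fin (n + 3) ⊕ Fin (n + 3) → F) ≃ₗ[F] (Fin (n + 3) ⊕ Fin (n + 3) → F))},
      (∀ s t, y (s + t) = y s * y t) →
      (∃ t ≠ 0, y t ∈ H) → ∀ t, y t ∈ H := by
    rintro y H a1 ⟨c, c0, hc⟩ t
    rcases f2 t with rfl | rfl
    exacts [addHom_zero a1 ▸ one_mem _, (f2 c).resolve_left c0 ▸ hc]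
  have u1 : ∀ s : ℤˣ, ((s : ℤ) : F) = 1 := fun s => (f2 _).resolve_left (units_cast_ne_zero s)
  have m1 : (-1 : F) = 1 := (f2 _).resolve_left (by simp)
  let z : Idx (n + 3) := ⟨(.inr 0, .inr 1, 1), by simp⟩
  have R : Rel (y (F := F) z) (y (star z)) := ⟨(cover F _).add z, (cover F _).add (star z), fun t ht u => (cover F _).self z t u ht⟩
  have s3 : (y z 1 * y (star z) (1 : F)) ^ 3 = 1 := by
    have e1 := R.n_eq one_ne_zero
    have e2 := R.h_one
    rw [hh, m1] at e2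
    nth_rewrite 2 [e1] at e2
    rw [nn, inv_one, m1] at e2
    rw [← e2]; simp only [pow_succ, pow_zero, one_mul, mul_assoc]
  have f1 : ∀ c, c ≠ .inr 0 → c ≠ .inr 1 → y (star z) (1 : F) (Pi.single c 1) = Pi.single c 1 := fun c c1 c2 =>
    yv_fix (star z).2 c1 c2 _
  have s0 : y z 1 * y (star z) (1 : F) ∈ Isom (stdForm _ F) := mul_mem (yv_mem _ _ _) (yv_mem _ _ _)
  refine ⟨yv (.inl 2) (.inl 2) 1 * (y z 1 * y (star z) 1), mul_mem (yv_mem _ _ _) s0, w, hw, ?_⟩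
  set H := Subgroup.closure {yv (.inl 2) (.inl 2) 1 * (y z 1 * y (star z) 1), w}
  have m2 : w ∈ H := Subgroup.subset_closure (Or.inr rfl)
  obtain ⟨m3, m4⟩ := mem_of_mul_mem_coprime (p := 2) (commute_yv s0 (by
      rw [LinearEquiv.mul_apply, f1 _ (by simp) (by simp)]
      exact yv_fix z.2 (by simp [z, Fin.ext_iff, Nat.mod_eq_of_lt]) (by simp [z, Fin.ext_iff, Nat.mod_eq_of_lt]) _) 1)
    (by rw [sq, ← add, ← addHom_zero (add _), ← m1, neg_add_eq_zero.2 m1.symm]) s3 (by decide)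
    (show _ ∈ H from Subgroup.subset_closure (Or.inl rfl))
  have m6 := fun a => all (add a) ((cy m2 _ a).2 ⟨1, one_ne_zero, m3⟩)
  refine isom_le_of_cyc hw m2 hw' m6 (all (yv_add n01) ⟨1, one_ne_zero, ?_⟩)
  have m7 : ∀ a t, tv (stdForm_isAlt _ F) (Pi.single a 1) t ∈ H := fun a t => yv_self a t ▸ m6 a t
  rw [yv_of_ne (by simp), one_smul]
  refine mul_mem ?_ (mul_mem (m7 _ _) (m7 _ _))
  convert tv_conj_mem _ m4 s0 (m7 (.inl 0) 1) using 2
  rw [LinearEquiv.mul_apply, f1 _ (by simp) (by simp), y, yv_comm z.2]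
  exact ((yv_right (swap_ne_of z.2) _).trans (by simp [u1, z])).symm

theorem exists_two_gen_Sp [Finite F] (hm : 2 ≤ m) (h : m = 2 → 2 < Nat.card F) :
    ∃ a b : symplecticGroup (Fin m) F, Subgroup.closure {a, b} = ⊤ := by
  obtain ⟨n, rfl⟩ : ∃ n, m = n + 2 := ⟨m - 2, by omega⟩
  obtain ⟨a, ha, b, hb, e⟩ := exists_two_gen_isom (F := F) (n := n) fun e => h (by omega)
  refine two_gen_of_surjective (spEquiv _ F).symm.toMonoidHom (spEquiv _ F).symm.surjective ⟨⟨a, ha⟩, ⟨b, hb⟩, ?_⟩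
  rw [eq_top_iff]
  intro g _
  rw [← Subgroup.mem_map_iff_mem (Subgroup.subtype_injective _), MonoidHom.map_closure, Set.image_pair]
  exact e g.2

theorem exists_two_gen_PSp [Finite F] (hm : 2 ≤ m) (h : m = 2 → 2 < Nat.card F) :
    ∃ a b : Cfsg.PSp m F, Subgroup.closure {a, b} = ⊤ :=
  two_gen_of_surjective _ (QuotientGroup.mk'_surjective _) (exists_two_gen_Sp hm h)

end CL.Known
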