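/-
Hall subgroups of symmetric and alternating groups, part 1: additions without carries, disjoint cycles in a subgroup
containing a Sylow subgroup, and the cases where `2` or `3` is missing.
-/
import Cfsg.Agent.Known.AltOn
import Cfsg.Agent.Known.AltAbSylow
import Cfsg.Agent.Known.AltMisc
import Cfsg.Agent.Grp.Hall

set_option autoImplicit false
set_option linter.unusedSectionVars false

namespace CL.Known.HallSym

open Equiv Equiv.Perm MulAction

/-- Adding `x` and `y` produces no carry in any prime base `s ≤ M`. -/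
def NC (M x y : ℕ) : Prop := ∀ s : ℕ, s.Prime → s ≤ M → ∀ a : ℕ, x % s ^ a + y % s ^ a < s ^ a

theorem NC.symm {M x y : ℕ} (h : NC M x y) : NC M y x := fun s hs hM a => by
  rw [add_comm]; exact h s hs hM a

theorem NC.dvd_one {M x y N : ℕ} (h : NC M x y) (hN : ∀ s : ℕ, s.Prime → s ∣ N → s ≤ M) (hx : N ∣ x + 1) : N ∣ y := by
  refine (Nat.dvd_iff_prime_pow_dvd_dvd y N).2 fun s k hs hk => ?_
  rcases k with _ | k
  · simp
  have h1 := h s hs (hN s hs ((dvd_pow_self s k.succ_ne_zero).trans hk)) (k + 1)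
  obtain ⟨c, hc⟩ := hk.trans hx
  have h2 := Nat.mod_add_div x (s ^ (k + 1))
  have h3 := Nat.mod_lt x (pow_pos hs.pos (k + 1))
  generalize s ^ (k + 1) = Q at *
  have h4 : Q ∣ x % Q + 1 := (Nat.dvd_add_iff_left (Dvd.intro (x / Q) rfl)).2 ⟨c, by omega⟩
  have := Nat.le_of_dvd (by omega) h4
  exact Nat.dvd_of_mod_eq_zero (by omega)

theorem NC.dvd_two {M x y N : ℕ} (h : NC M x y) (hN : ∀ s : ℕ, s.Prime → s ∣ N → s ≤ M) (hx : N ∣ x + 2) :
    N ∣ y * (y - 1) := by
  refine (Nat.dvd_iff_prime_pow_dvd_dvd _ N).2 fun s k hs hk => ?_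
  rcases k with _ | k
  · simp
  have h1 := h s hs (hN s hs ((dvd_pow_self s k.succ_ne_zero).trans hk)) (k + 1)
  obtain ⟨c, hc⟩ := hk.trans hx
  have h2 := Nat.mod_add_div x (s ^ (k + 1))
  have h5 := Nat.mod_add_div y (s ^ (k + 1))
  generalize s ^ (k + 1) = Q at *
  have h4 : Q ∣ x % Q + 2 := (Nat.dvd_add_iff_left (Dvd.intro (x / Q) rfl)).2 ⟨c, by omega⟩
  have := Nat.le_of_dvd (by omega) h4
  rcases (by omega : y % Q = 0 ∨ y % Q = 1) with e | e
  · exact (Nat.dvd_of_mod_eq_zero e).mul_right _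
  · exact Dvd.dvd.mul_left ⟨y / Q, by omega⟩ _

theorem nc_arith {x l d : ℤ} (hx : 3 ≤ x) (hl : 1 ≤ l) (hd : 1 ≤ d) (h : (x - 1) * (x - 2) = (x * l + 2) * d) :
    (x = 10 ∧ l = 1) ∨ l = x - 3 := by
  obtain ⟨y, hy⟩ : ∃ y, y = x - 3 - l * d := ⟨_, rfl⟩
  have h1 : 2 * d - 2 = x * y := by rw [hy]; linarith
  have h2 : 0 ≤ y := by nlinarith
  have h3 : (x * y + 2) * l + 2 * y = 2 * x - 6 := by rw [← h1, hy]; ring
  rcases h2.eq_or_lt with e | e
  · right; rw [← e] at h3; linarith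
  have h4 : l * y < 2 := by nlinarith
  have h5 : l = 1 := by nlinarith
  have h6 : y = 1 := by nlinarith
  rw [h5, h6] at h3
  exact Or.inl ⟨by linarith, h5⟩

/-- `(M + m).choose m` has a prime factor `≤ M`, with the exception of `35`. -/
theorem NC.eq {M m : ℕ} (h : NC M M m) (h2 : 2 ≤ m) (hm : m < M) : M = 4 ∧ m = 3 := by
  obtain ⟨l, hl⟩ := h.symm.dvd_one (fun s _ hs => (Nat.le_of_dvd m.succ_pos hs).trans hm) dvd_rfl
  replace hl : M = (m + 1) * l := hl
  have hp : (M + 1).Prime := by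
    by_contra hp
    have := Nat.le_of_dvd (by omega) (h.dvd_one (fun s hs hd => Nat.le_of_lt_succ
      ((Nat.le_of_dvd M.succ_pos hd).lt_of_ne fun e : s = M + 1 => hp (e ▸ hs))) dvd_rfl)
    omega
  have ho := hp.eq_two_or_odd
  obtain ⟨d, hd⟩ := h.dvd_two (N := M + 2) (fun s hs ⟨c, hc⟩ => by
    rcases c with _ | _ | c
    · omega
    · have := hs.eq_two_or_odd; omega
    · nlinarith) dvd_rfl
  have hl0 : 1 ≤ l := Nat.pos_of_ne_zero (by rintro rfl; omega)
  have hd0 : 1 ≤ d := Nat.pos_of_ne_zero (by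
    rintro rfl
    rcases Nat.mul_eq_zero.1 hd with e | e <;> omega)
  have h3 := nc_arith (x := (m + 1 : ℕ)) (l := l) (d := d) (by omega) (by omega) (by omega) (by
    zify [(by omega : 1 ≤ m)] at hd hl
    push_cast
    rw [← hl, ← hd]; ring)
  rcases h3 with ⟨e, e'⟩ | e
  · obtain rfl : m = 9 := by omega
    obtain rfl : l = 1 := by omega
    subst hl
    exact absurd (h 2 Nat.prime_two (by omega) 4) (by decide)
  obtain ⟨k, rfl⟩ : ∃ k, m = k + 3 := ⟨m - 3, by omega⟩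
  obtain rfl : l = k + 1 := by omega
  rcases k with _ | k
  · exact ⟨hl, rfl⟩
  have h4 := h.symm.dvd_two (N := k + 1 + 3 + 2) (fun s _ hs => (Nat.le_of_dvd (by omega) hs).trans (by nlinarith))
    dvd_rfl
  have h5 : k + 6 ∣ 12 := by
    refine (Nat.dvd_add_right (Dvd.intro ((k + 1) * ((k + 6) * (k + 1) + 7)) rfl)).1 ?_
    convert h4 using 1
    rw [hl, show (k + 1 + 3 + 1) * (k + 1 + 1) - 1 = k * k + 7 * k + 9 from (Nat.sub_eq_of_eq_add (by ring))]
    ring
  have h6 := Nat.le_of_dvd (by omega) h5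
  have h7 : k ≤ 6 := by omega
  subst hl
  interval_cases k
  · exact absurd (h 7 (by norm_num) (by omega) 1) (by decide)
  all_goals first | omega | exact absurd (h 13 (by norm_num) (by omega) 1) (by decide)

variable {Ω : Type*} [Fintype Ω] [DecidableEq Ω]

/-- A subgroup containing a Sylow subgroup of the normal subgroup `N` contains a conjugate of each `s`-subgroup. -/
theorem exists_conj_mem {G : Type*} [Group G] [Finite G] {N K B : Subgroup G} [N.Normal] {s : ℕ} (hs : s.Prime)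
    (h : ¬ s ∣ K.relIndex N) (hB : IsPGroup s B) : ∃ g : G, ∀ b ∈ B, g * b * g⁻¹ ∈ N → g * b * g⁻¹ ∈ K := by
  have := Fact.mk hs
  obtain ⟨P, hP⟩ := (hB.comap_subtype (K := N)).exists_le_sylow
  obtain ⟨R⟩ : Nonempty (Sylow s (K.subgroupOf N)) := inferInstance
  let R' := (R.isPGroup'.map (K.subgroupOf N).subtype).toSylow (by
    rw [Subgroup.index_map_subtype]
    exact fun e => (hs.dvd_mul.1 e).elim R.not_dvd_index h)
  obtain ⟨g, hg⟩ := exists_smul_eq N P R'
  refine ⟨g, fun b hb hN => ?_⟩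
  have h1 : b ∈ N := by simpa [mul_assoc] using ‹N.Normal›.conj_mem _ hN (g : G)⁻¹
  have h2 : g * ⟨b, h1⟩ * g⁻¹ ∈ (R' : Subgroup N) := by
    rw [← hg, Sylow.coe_subgroup_smul]
    exact Subgroup.smul_mem_pointwise_smul _ (MulAut.conj g) _ (hP hb)
  obtain ⟨x, -, hx⟩ := h2
  have h3 : (x.1 : G) = g * b * (g : G)⁻¹ := congrArg Subtype.val hx
  exact h3 ▸ x.2

theorem exists_base {N K : Subgroup (Perm Ω)} [N.Normal] {s : ℕ} (hs : s.Prime) (h : ¬ s ∣ K.relIndex N) (a : ℕ)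
    {Q : ℕ} (hQ : Q = s ^ a) : ∃ ι : ZMod Q × Fin (Fintype.card Ω / Q) ↪ Ω, ∀ f, wE ι f 1 ∈ N → wE ι f 1 ∈ K := by
  subst hQ
  have : NeZero (s ^ a) := ⟨pow_ne_zero _ hs.ne_zero⟩
  obtain ⟨ι⟩ : Nonempty (ZMod (s ^ a) × Fin (Fintype.card Ω / s ^ a) ↪ Ω) :=
    Function.Embedding.nonempty_of_card_le (by simpa using Nat.mul_div_le _ _)
  obtain ⟨g, hg⟩ := exists_conj_mem (B := (wBaseHom ι).range) hs h (by
    rintro ⟨_, f, rfl⟩
    refine ⟨a, Subtype.ext ?_⟩
    change wBaseHom ι f ^ s ^ a = 1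
    rw [← map_pow, show f ^ s ^ a = 1 from ?_, map_one]
    ext l
    simp [-Nat.cast_pow])
  exact ⟨ι.trans g.toEmbedding, fun f => conj_wE ι f 1 g ▸ hg _ ⟨Multiplicative.ofAdd f, rfl⟩⟩

theorem exists_cycle_mem {K : Subgroup (Perm Ω)} {q : ℕ} (hq : q.Prime) (h2 : q ≠ 2) (hn : q ≤ Fintype.card Ω)
    (h : ¬ q ∣ K.relIndex (alternatingGroup Ω)) : ∃ c ∈ K, c.IsCycle ∧ c.support.card = q := by
  obtain ⟨c, hc, hc'⟩ := exists_cycle_card (Ω := Ω) hq.two_le (by rwa [Nat.card_eq_fintype_card])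
  have := Fact.mk hq
  obtain ⟨g, hg⟩ := exists_conj_mem (B := Subgroup.zpowers c) hq h
    (IsPGroup.of_card (n := 1) (by rw [Nat.card_zpowers, hc.orderOf, hc', pow_one]))
  refine ⟨_, hg c (Subgroup.mem_zpowers c) ?_, hc.conj, by rw [card_support_conj, hc']⟩
  rw [mem_alternatingGroup, hc.conj.sign, card_support_conj, hc', (hq.odd_of_ne_two h2).neg_one_pow, neg_neg]

section Base

variable {Q : ℕ} [NeZero Q] {Λ : Type*} [Fintype Λ] [DecidableEq Λ] (ι : ZMod Q × Λ ↪ Ω)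

/-- The cycle on the block `l`. -/
noncomputable def cyc (l : Λ) : Perm Ω := wE ι (Pi.single l 1) 1

theorem cyc_pow_apply (l : Λ) (k : ℕ) (a : ZMod Q) : (cyc ι l ^ k) (ι (a, l)) = ι (a + k, l) := by
  simp [cyc, wE_base_pow, wE_apply]

theorem cyc_apply (l : Λ) (a : ZMod Q) : cyc ι l (ι (a, l)) = ι (a + 1, l) := by simp [cyc, wE_apply]

theorem exists_of_cyc_ne {l : Λ} {x : Ω} (h : cyc ι l x ≠ x) : ∃ a, x = ι (a, l) := by
  by_cases hx : x ∈ Set.range ι
  · obtain ⟨⟨a, m⟩, rfl⟩ := hx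
    by_cases e : m = l
    · exact ⟨a, by rw [e]⟩
    · exact absurd (by simp [cyc, wE_apply, e]) h
  · exact absurd (wE_apply_of_notMem _ _ _ hx) h

theorem support_cyc (hQ : 1 < Q) (l : Λ) : (cyc ι l).support = Finset.univ.image fun a => ι (a, l) := by
  have := Fact.mk hQ
  ext x
  simp only [mem_support, Finset.mem_image, Finset.mem_univ, true_and]
  exact ⟨fun h => (exists_of_cyc_ne ι h).imp fun _ => Eq.symm, by rintro ⟨a, rfl⟩; simp [cyc_apply]⟩

theorem card_support_cyc (hQ : 1 < Q) (l : Λ) : (cyc ι l).support.card = Q := by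
  rw [support_cyc ι hQ, Finset.card_image_of_injective _ fun a b e => by simpa using e]
  simp

theorem isCycle_cyc (hQ : 1 < Q) (l : Λ) : (cyc ι l).IsCycle := by
  have := Fact.mk hQ
  refine ⟨ι (0, l), by simp [cyc_apply], fun y hy => ?_⟩
  obtain ⟨a, rfl⟩ := exists_of_cyc_ne ι hy
  exact ⟨a.val, by rw [zpow_natCast, cyc_pow_apply]; simp⟩

theorem mod_le_card {Δ : Finset Ω} (h : ∀ l, ∀ x ∈ Δ, cyc ι l x ∈ Δ) :
    Δ.card % Q ≤ (Δ \ Finset.univ.map ι).card := by
  have h1 : ∀ l a (k : ℕ), ι (a, l) ∈ Δ → ι (a + k, l) ∈ Δ := fun l a k ha => by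
    induction k with
    | zero => simpa using ha
    | succ k ih => simpa [cyc_apply, add_assoc] using h l _ ih
  have h2 : Δ ∩ Finset.univ.map ι = (Finset.univ ×ˢ Finset.univ.filter fun l => ι (0, l) ∈ Δ).map ι := by
    ext x
    simp only [Finset.mem_inter, Finset.mem_map, Finset.mem_univ, true_and, Finset.mem_product, Finset.mem_filter]
    constructor
    · rintro ⟨hx, ⟨a, l⟩, rfl⟩
      exact ⟨_, by simpa using h1 l a (-a).val hx, rfl⟩
    · rintro ⟨⟨a, l⟩, hx, rfl⟩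
      exact ⟨by simpa using h1 l 0 a.val hx, _, rfl⟩
  rw [← Finset.card_sdiff_add_card_inter Δ (Finset.univ.map ι), h2, Finset.card_map, Finset.card_product,
    Finset.card_univ, ZMod.card, Nat.add_mul_mod_self_left]
  exact Nat.mod_le _ _

theorem card_uncovered (hΛ : Fintype.card Λ = Fintype.card Ω / Q) :
    (Finset.univ \ Finset.univ.map ι).card = Fintype.card Ω % Q := by
  rw [Finset.card_sdiff_of_subset (Finset.subset_univ _), Finset.card_map, Finset.card_univ, Finset.card_univ,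
    Fintype.card_prod, ZMod.card, hΛ, Nat.mod_def]

theorem exists_covered (hΛ : Fintype.card Λ = Fintype.card Ω / Q) {S : Finset Ω} (h : Q ≤ S.card) :
    ∃ a l, ι (a, l) ∈ S := by
  by_contra hne
  push Not at hne
  have h1 := Finset.card_le_card (s := S) (t := Finset.univ \ Finset.univ.map ι) fun x hx => by
    simp only [Finset.mem_sdiff, Finset.mem_univ, Finset.mem_map, true_and]
    rintro ⟨⟨a, l⟩, rfl⟩
    exact hne a l hx
  have := Nat.mod_lt (Fintype.card Ω) (Nat.pos_of_neZero Q)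
  rw [card_uncovered ι hΛ] at h1
  omega

theorem cyc_apply_ne {l m : Λ} (h : m ≠ l) (a : ZMod Q) : cyc ι l (ι (a, m)) = ι (a, m) := by simp [cyc, wE_apply, h]

theorem exists_block (h3 : 3 ≤ Fintype.card Λ) (l : Λ) (z : Ω) : ∃ j ≠ l, cyc ι j z = z := by
  by_cases hz : z ∈ Set.range ι
  · obtain ⟨⟨a, m⟩, rfl⟩ := hz
    obtain ⟨j, -, h1, h2⟩ := exists_third (s := Finset.univ) h3 l m
    exact ⟨j, h1.symm, cyc_apply_ne ι h2 a⟩
  · obtain ⟨j, -, h1, -⟩ := exists_third (s := Finset.univ) h3 l l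
    exact ⟨j, h1.symm, wE_apply_of_notMem _ _ _ hz⟩

theorem cyc_mem_alt (hQ : 1 < Q) (ho : Odd Q) (l : Λ) : cyc ι l ∈ alternatingGroup Ω := by
  rw [mem_alternatingGroup, (isCycle_cyc ι hQ l).sign, card_support_cyc ι hQ, ho.neg_one_pow, neg_neg]

end Base

/-- No carries for disjoint sets invariant under the short elements of `Y`. -/
theorem no_carry {Y : Subgroup (Perm Ω)} {s : ℕ} (hs : s.Prime) (h : ¬ s ∣ Y.index) (a : ℕ) {Δ Δ' : Finset Ω}
    (hd : Disjoint Δ Δ') (h1 : ∀ c ∈ Y, c.support.card ≤ s ^ a → ∀ x ∈ Δ, c x ∈ Δ)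
    (h2 : ∀ c ∈ Y, c.support.card ≤ s ^ a → ∀ x ∈ Δ', c x ∈ Δ') : Δ.card % s ^ a + Δ'.card % s ^ a < s ^ a := by
  rcases a with _ | a
  · simp [Nat.mod_one]
  have : NeZero (s ^ (a + 1)) := ⟨pow_ne_zero _ hs.ne_zero⟩
  have hQ : 1 < s ^ (a + 1) := Nat.one_lt_pow a.succ_ne_zero hs.one_lt
  obtain ⟨ι, hι⟩ := exists_base (N := ⊤) (K := Y) hs (by rwa [Subgroup.relIndex_top_right]) (a + 1) rfl
  have h3 := mod_le_card ι fun l => h1 _ (hι _ trivial) (card_support_cyc ι hQ l).le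
  have h4 := mod_le_card ι fun l => h2 _ (hι _ trivial) (card_support_cyc ι hQ l).le
  have h5 := card_uncovered ι (Fintype.card_fin _)
  have h6 := Nat.mod_lt (Fintype.card Ω) (lt_trans one_pos hQ)
  have h7 := Finset.card_le_card (Finset.union_subset (Finset.sdiff_subset_sdiff (Finset.subset_univ Δ)
    (subset_refl (Finset.univ.map ι))) (Finset.sdiff_subset_sdiff (Finset.subset_univ Δ') subset_rfl))
  rw [Finset.card_union_of_disjoint (hd.mono Finset.sdiff_subset Finset.sdiff_subset)] at h7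
  omega

theorem exists_pow_pow {d : Perm Ω} (hd : d.IsCycle) (hp : d.support.card.Prime) {i : ℕ} (hi : d ^ i ≠ 1) :
    ∃ m, (d ^ i) ^ m = d :=
  exists_pow_eq_self_of_coprime (by
    rw [hd.orderOf]
    exact ((Nat.Prime.coprime_iff_not_dvd hp).2 fun e => hi (orderOf_dvd_iff_pow_eq_one.1 (hd.orderOf ▸ e))).symm)

/-- A cycle of prime length preserving an equivalence relation moves only singletons or lies in a class. -/
theorem rel_support {c : Perm Ω} (hc : c.IsCycle) (hp : c.support.card.Prime) {r : Ω → Ω → Prop} (hr : Equivalence r)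
    (h : ∀ x y, r x y → r (c x) (c y)) {x y : Ω} (hx : c x ≠ x) (hy : y ≠ x) (hxy : r x y) :
    ∀ z ∈ c.support, r x z := by
  have h1 : ∀ (g : Perm Ω) (k : ℕ), (∀ x y, r x y → r (g x) (g y)) → r x (g x) → r x ((g ^ k) x) :=
    fun g k hg h1 => by
      induction k with
      | zero => exact hr.refl x
      | succ k ih => exact pow_succ' g k ▸ hr.trans h1 (hg _ _ ih)
  have h0 : ∀ (k : ℕ) x y, r x y → r ((c ^ k) x) ((c ^ k) y) := fun k x y hxy => by
    induction k with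
    | zero => exact hxy
    | succ k ih => exact pow_succ' c k ▸ h _ _ ih
  have h2 : r x (c x) := by
    by_cases e : c y = y
    · exact hr.trans hxy (hr.symm (e ▸ h x y hxy))
    obtain ⟨i, rfl⟩ := hc.exists_pow_eq hx e
    obtain ⟨m, hm⟩ := exists_pow_pow hc hp (i := i) fun e => hy (by rw [e]; rfl)
    exact hm ▸ h1 _ m (h0 i) hxy
  intro z hz
  obtain ⟨i, rfl⟩ := hc.exists_pow_eq hx (mem_support.1 hz)
  exact h1 c i h h2

theorem support_subset_of_odd {K : Subgroup (Perm Ω)} (hK : ¬ 2 ∣ Nat.card K) {p : ℕ} (hp : p.Prime) (h2 : p ≠ 2)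
    (δ : ℕ) : ∀ d ∈ K, ∀ e ∈ K, d.IsCycle → e.IsCycle → d.support.card = p → e.support.card = p →
      (d.support \ e.support).card = δ → ∀ w ∈ d.support, w ∈ e.support → δ = 0 := by
  induction δ using Nat.strong_induction_on with | _ δ ih => ?_
  intro d hd e he cd ce pd pe hδ w wd we
  rcases (by omega : δ = 0 ∨ δ = 1 ∨ 1 < δ) with h | h | h
  · exact h
  · refine (hK ?_).elim
    let L := Subgroup.closure ({d, e} : Set (Perm Ω))
    have h1 : ∀ g ∈ L, ∀ x, g x ∈ d.support ∪ e.support ↔ x ∈ d.support ∪ e.support := fun g hg => by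
      refine Subgroup.closure_induction (fun g hg x => ?_) (fun _ => Iff.rfl)
        (fun a b _ _ ha hb x => (ha _).trans (hb x)) (fun a _ ha x => by simpa using (ha (a⁻¹ x)).symm) hg
      by_cases e1 : g x = x
      · rw [e1]
      have : g.support ⊆ d.support ∪ e.support := by rcases hg with rfl | rfl <;> simp
      exact iff_of_true (this (apply_mem_support.2 (mem_support.2 e1))) (this (mem_support.2 e1))
    have h3 : orbit L w = ↑(d.support ∪ e.support) := by
      ext x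
      refine ⟨by rintro ⟨g, rfl⟩; exact (h1 g.1 g.2 w).2 (Finset.mem_union_left _ wd), fun hx => ?_⟩
      rcases Finset.mem_union.1 hx with hx | hx
      · obtain ⟨i, rfl⟩ := cd.exists_pow_eq (mem_support.1 wd) (mem_support.1 hx)
        exact ⟨⟨d ^ i, pow_mem (Subgroup.subset_closure (by simp)) i⟩, rfl⟩
      · obtain ⟨i, rfl⟩ := ce.exists_pow_eq (mem_support.1 we) (mem_support.1 hx)
        exact ⟨⟨e ^ i, pow_mem (Subgroup.subset_closure (by simp)) i⟩, rfl⟩
    have h4 := card_orbit_mul_card_stabilizer (G := L) w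
    rw [h3, Nat.card_coe_set_eq, Set.ncard_coe_finset, ← Finset.sdiff_union_self_eq_union,
      Finset.card_union_of_disjoint Finset.sdiff_disjoint, hδ, h, pe] at h4
    refine (Dvd.dvd.mul_right ?_ _).trans ((dvd_of_eq h4).trans (Subgroup.card_dvd_of_le
      ((Subgroup.closure_le _).2 (by rintro _ (rfl | rfl) <;> assumption))))
    have := hp.eq_two_or_odd
    omega
  obtain ⟨u, hu, v, hv, huv⟩ := Finset.one_lt_card.1 (hδ ▸ h)
  rw [Finset.mem_sdiff] at hu hv
  obtain ⟨i, rfl⟩ := cd.exists_pow_eq (mem_support.1 hu.1) (mem_support.1 hv.1)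
  have h1 : ∀ x, (d ^ i) x ∈ (d ^ i * e * (d ^ i)⁻¹).support ↔ x ∈ e.support := fun x => by simp [support_conj]
  have h3 : ∀ x, x ∉ d.support → (d ^ i) x = x := fun x hx => pow_apply_eq_self_of_apply_eq_self (by simpa using hx) i
  obtain ⟨y, ye, yd⟩ : ∃ y ∈ e.support, y ∉ d.support := by
    by_contra hne
    push Not at hne
    exact hu.2 ((Finset.eq_of_subset_of_card_le hne (by omega)).ge hu.1)
  have h4 := ih _ ?_ e he _ (mul_mem (mul_mem (pow_mem hd i) he) (inv_mem (pow_mem hd i))) ce ce.conj pe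
    (by rw [card_support_conj, pe]) rfl y ye (h3 y yd ▸ (h1 y).2 ye)
  · rw [Finset.card_eq_zero, Finset.sdiff_eq_empty_iff_subset] at h4
    replace h4 := Finset.eq_of_subset_of_card_le h4 (by rw [card_support_conj])
    obtain ⟨m, hm⟩ := exists_pow_pow cd (pd ▸ hp) (i := i) fun e => huv (by rw [e]; rfl)
    obtain ⟨j, rfl⟩ := cd.exists_pow_eq (mem_support.1 wd) (mem_support.1 hu.1)
    refine (hu.2 ?_).elim
    rw [← hm, ← pow_mul (d ^ i)]
    induction m * j with
    | zero => exact we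
    | succ k ih => exact pow_succ' (d ^ i) k ▸ h4.ge ((h1 _).2 ih)
  · refine lt_of_le_of_lt (Finset.card_le_card (t := ((d.support \ e.support).erase u).map (d ^ i).toEmbedding)
      fun x hx => ?_) (by rw [Finset.card_map, ← hδ]; exact Finset.card_erase_lt_of_mem (Finset.mem_sdiff.2 hu))
    obtain ⟨x, rfl⟩ := (d ^ i).surjective x
    rw [Finset.mem_sdiff, h1] at hx
    refine Finset.mem_map_of_mem _ (Finset.mem_erase.2 ⟨fun e => hv.2 (e ▸ hx.1), Finset.mem_sdiff.2 ⟨?_, hx.2⟩⟩)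
    by_contra e
    exact hx.2 (h3 x e ▸ hx.1)

/-- A group of odd order does not contain Sylow subgroups of the alternating group for two primes. -/
theorem false_of_odd {K : Subgroup (Perm Ω)} (hK : ¬ 2 ∣ Nat.card K) {p q : ℕ} (hp : p.Prime) (hq : q.Prime)
    (h2 : p ≠ 2) (hpq : p < q) (hn : q ≤ Fintype.card Ω) (ip : ¬ p ∣ K.relIndex (alternatingGroup Ω))
    (iq : ¬ q ∣ K.relIndex (alternatingGroup Ω)) : False := by
  have := NeZero.mk hp.ne_zero
  obtain ⟨c, hc, cc, qc⟩ := exists_cycle_mem hq (by have := hp.two_le; omega) hn iq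
  obtain ⟨ι, hι⟩ := exists_base hp ip 1 (pow_one p).symm
  have key : ∀ d ∈ K, ∀ e ∈ K, d.IsCycle → e.IsCycle → d.support.card = p → e.support.card = p →
      ∀ w ∈ d.support, w ∈ e.support → d.support ⊆ e.support := fun d hd e he cd ce pd pe w wd we =>
    Finset.sdiff_eq_empty_iff_subset.1 (Finset.card_eq_zero.1
      (support_subset_of_odd hK hp h2 _ d hd e he cd ce pd pe rfl w wd we))
  obtain ⟨a, l, hx⟩ := exists_covered ι (Fintype.card_fin _) (S := c.support) (by omega)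
  have hl := hι _ (cyc_mem_alt ι hp.one_lt (hp.odd_of_ne_two h2) l)
  have hm : ∀ a, ι (a, l) ∈ (cyc ι l).support := fun a => by simp [support_cyc ι hp.one_lt]
  have := Fact.mk hp.one_lt
  have h1 := rel_support cc (qc ▸ hq)
    (r := fun x y => x = y ∨ ∃ d ∈ K, d.IsCycle ∧ d.support.card = p ∧ x ∈ d.support ∧ y ∈ d.support)
    ⟨fun _ => Or.inl rfl, fun h => h.imp Eq.symm fun ⟨d, h1, h2, h3, h4, h5⟩ => ⟨d, h1, h2, h3, h5, h4⟩, by
      rintro x y z (rfl | ⟨d, h1, h2, h3, h4, h5⟩) h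
      · exact h
      rcases h with rfl | ⟨e, e1, e2, e3, e4, e5⟩
      · exact Or.inr ⟨d, h1, h2, h3, h4, h5⟩
      · exact Or.inr ⟨e, e1, e2, e3, key d h1 e e1 h2 e2 h3 e3 y h5 e4 h4, e5⟩⟩
    (fun x y h => h.imp (congrArg c) fun ⟨d, h1, h2, h3, h4, h5⟩ => ⟨c * d * c⁻¹, mul_mem (mul_mem hc h1) (inv_mem hc),
      h2.conj, by rw [card_support_conj, h3], by simpa [support_conj] using h4, by simpa [support_conj] using h5⟩)
    (mem_support.1 hx) (y := ι (a + 1, l)) (by simp)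
    (Or.inr ⟨_, hl, isCycle_cyc ι hp.one_lt l, card_support_cyc ι hp.one_lt l, hm _, hm _⟩)
  have h3 := Finset.card_le_card (s := c.support) (t := (cyc ι l).support) fun z hz => by
    rcases h1 z hz with rfl | ⟨d, h1, h2, h3, h4, h5⟩
    · exact hm a
    · exact key d h1 _ hl h2 (isCycle_cyc ι hp.one_lt l) h3 (card_support_cyc ι hp.one_lt l) _ h4 (hm a) h5
  rw [card_support_cyc ι hp.one_lt] at h3
  omega

theorem three_dvd_orderOf {w : Perm Ω} {u v z : Ω} (h1 : w u = v) (h2 : w v = z) (h3 : w z = u) (hv : v ≠ u)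
    (hz : z ≠ u) : 3 ∣ orderOf w := by
  have h4 : (w ^ (orderOf w % 3)) u = u := by
    conv_rhs => rw [← Perm.one_apply u, ← pow_orderOf_eq_one w, ← Nat.mod_add_div (orderOf w) 3, pow_add, pow_mul,
      Perm.mul_apply, pow_apply_eq_self_of_apply_eq_self (f := w ^ 3) (x := u) (by simp [pow_succ, h1, h2, h3])]
  have h5 := Nat.mod_lt (orderOf w) (by omega : 0 < 3)
  apply Nat.dvd_of_mod_eq_zero
  generalize orderOf w % 3 = k at *
  interval_cases k
  · rfl
  · exact (hv (by simpa [h1] using h4)).elim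
  · exact (hz (by simpa [pow_succ, h1, h2] using h4)).elim

/-- A subgroup containing Sylow subgroups of the alternating group for `2` and `q ≥ 5` has order divisible by `3`. -/
theorem three_dvd_card {K : Subgroup (Perm Ω)} {q : ℕ} (hq : q.Prime) (h2 : q ≠ 2) (hn : q ≤ Fintype.card Ω)
    (h6 : 6 ≤ Fintype.card Ω) (i2 : ¬ 2 ∣ K.relIndex (alternatingGroup Ω))
    (iq : ¬ q ∣ K.relIndex (alternatingGroup Ω)) : 3 ∣ Nat.card K := by
  obtain ⟨c, hc, cc, qc⟩ := exists_cycle_mem hq h2 hn iq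
  obtain ⟨ι, hι⟩ := exists_base Nat.prime_two i2 1 (pow_one 2).symm
  have h3 : 3 ≤ Fintype.card (Fin (Fintype.card Ω / 2)) := by rw [Fintype.card_fin]; omega
  have ht : ∀ l m, cyc ι l * cyc ι m ∈ K := fun l m => by
    rw [cyc, cyc, wE_mul, mul_one]
    exact hι _ (sign_wE_single_add_single ι l m)
  have hz : ∀ a b : ZMod 2, a ≠ b → b = a + 1 := by decide
  have hz' : ∀ a : ZMod 2, a + 1 + 1 = a := by decide
  let r : Ω → Ω → Prop := fun x y => x = y ∨ ∃ l a b, x = ι (a, l) ∧ y = ι (b, l)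
  have hr : Equivalence r := ⟨fun _ => Or.inl rfl, fun h => h.imp Eq.symm fun ⟨l, a, b, h1, h2⟩ => ⟨l, b, a, h2, h1⟩, by
    rintro x y z (rfl | ⟨l, a, b, rfl, rfl⟩) h
    · exact h
    rcases h with rfl | ⟨m, a', b', e, rfl⟩
    · exact Or.inr ⟨l, a, b, rfl, rfl⟩
    · obtain rfl : l = m := by simpa using congrArg Prod.snd (ι.injective e)
      exact Or.inr ⟨l, a, b', rfl, rfl⟩⟩
  by_cases h : ∀ x y, r x y → r (c x) (c y)
  · have hq2 := hq.two_le
    obtain ⟨a, l, hx⟩ := exists_covered ι (Fintype.card_fin _) (S := c.support) (by omega)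
    have h1 := rel_support cc (qc ▸ hq) hr h (mem_support.1 hx) (y := ι (a + 1, l)) (by simp)
      (Or.inr ⟨l, _, _, rfl, rfl⟩)
    have h3 := Finset.card_le_card (s := c.support) (t := (cyc ι l).support) fun z hz => by
      rcases h1 z hz with rfl | ⟨m, a', b, e, rfl⟩
      · simp [support_cyc ι one_lt_two]
      · obtain rfl : l = m := by simpa using congrArg Prod.snd (ι.injective e)
        simp [support_cyc ι one_lt_two]
    rw [card_support_cyc ι one_lt_two] at h3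
    omega
  push Not at h
  obtain ⟨k, a, l, b, e, h⟩ : ∃ k a l b, c (ι (a, k)) = ι (b, l) ∧ ¬ r (ι (b, l)) (c (ι (a + 1, k))) := by
    obtain ⟨x, y, rfl | ⟨k, a, a', rfl, rfl⟩, h⟩ := h
    · exact (h (hr.refl _)).elim
    obtain rfl := hz a a' (by rintro rfl; exact h (hr.refl _))
    obtain ⟨b, l, hx⟩ := exists_covered ι (Fintype.card_fin _) (S := {c (ι (a, k)), c (ι (a + 1, k))})
      (Finset.card_pair fun e => h (Or.inl e)).ge
    rcases Finset.mem_insert.1 hx with e | e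
    · exact ⟨k, a, l, b, e.symm, e ▸ h⟩
    · rw [Finset.mem_singleton] at e
      exact ⟨k, a + 1, l, b, e.symm, by rw [hz', e]; exact fun h' => h (hr.symm h')⟩
  obtain ⟨j, hj, e1⟩ := exists_block ι h3 k (c⁻¹ (ι (b + 1, l)))
  obtain ⟨m, hm, e2⟩ := exists_block ι h3 l (c (ι (a + 1, k)))
  have e3 : cyc ι l (c (ι (a + 1, k))) = c (ι (a + 1, k)) := by
    by_contra hne
    obtain ⟨b', hb⟩ := exists_of_cyc_ne ι hne
    exact h (Or.inr ⟨l, b, b', rfl, hb⟩)
  have e4 : cyc ι k (c⁻¹ (ι (b + 1, l))) = c⁻¹ (ι (b + 1, l)) := by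
    by_contra hne
    obtain ⟨a', ha⟩ := exists_of_cyc_ne ι hne
    rw [Perm.inv_eq_iff_eq] at ha
    by_cases e5 : a = a'
    · rw [← e5, e] at ha
      simp at ha
    · exact h (Or.inr ⟨l, b, b + 1, rfl, by rw [← hz a a' e5, ha]⟩)
  refine (three_dvd_orderOf (w := cyc ι l * cyc ι m * (c * (cyc ι k * cyc ι j) * c⁻¹)) (u := ι (b, l))
    (v := c (ι (a + 1, k))) (z := ι (b + 1, l)) ?_ ?_ ?_ (fun e => h (Or.inl e.symm)) (by simp)).trans
    (K.orderOf_dvd_natCard (mul_mem (ht l m) (mul_mem (mul_mem hc (ht k j)) (inv_mem hc))))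
  · simp only [Perm.mul_apply, Perm.coe_inv]
    rw [← e, symm_apply_apply, cyc_apply_ne ι hj.symm, cyc_apply, e2, e3]
  · simp only [Perm.mul_apply, Perm.coe_inv]
    rw [symm_apply_apply, cyc_apply_ne ι hj.symm, cyc_apply, hz', e, cyc_apply_ne ι hm.symm, cyc_apply]
  · simp only [Perm.mul_apply]
    rw [e1, e4, Perm.coe_inv, apply_symm_apply, cyc_apply_ne ι hm.symm, cyc_apply, hz']

end CL.Known.HallSym
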