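/-
Hall subgroups of symmetric and alternating groups, part 2: the classes of points joined by 3-cycles, and the
classification (P. Hall, Thompson).
-/
import Cfsg.Agent.Known.HallSym1
import Cfsg.Agent.Cls.SL2Small

set_option autoImplicit false
set_option linter.unusedSectionVars false

namespace CL.Known.HallSym

open Equiv Equiv.Perm MulAction

variable {Ω : Type*} [Fintype Ω] [DecidableEq Ω]

/-- The permutations preserving a relation. -/
def relStab (r : Ω → Ω → Prop) : Subgroup (Perm Ω) where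
  carrier := {g | ∀ x y, r (g x) (g y) ↔ r x y}
  mul_mem' h h' x y := (h _ _).trans (h' x y)
  one_mem' _ _ := Iff.rfl
  inv_mem' {g} h x y := by simpa using (h (g⁻¹ x) (g⁻¹ y)).symm

theorem le_relStab {r : Ω → Ω → Prop} {K : Subgroup (Perm Ω)} (h : ∀ g ∈ K, ∀ x y, r x y → r (g x) (g y)) :
    K ≤ relStab r := fun g hg x y => ⟨fun e => by simpa using h _ (inv_mem hg) _ _ e, h g hg x y⟩

/-- The stabiliser of the partition into `Δ` and its complement. -/
def bip (Δ : Finset Ω) : Subgroup (Perm Ω) := relStab fun x y => (x ∈ Δ ↔ y ∈ Δ)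

theorem apply_mem_iff {Δ : Finset Ω} {g : Perm Ω} (h : ∀ x ∈ Δ, g x ∈ Δ) (x : Ω) : g x ∈ Δ ↔ x ∈ Δ :=
  ⟨fun e => by simpa using perm_symm_on_of_perm_on_finset h e, h x⟩

theorem mem_bip {Δ : Finset Ω} {g : Perm Ω} (h : ∀ x ∈ Δ, g x ∈ Δ) : g ∈ bip Δ := fun x y => by
  simp only [apply_mem_iff h]

theorem apply_mem_compl {Δ : Finset Ω} {g : Perm Ω} (h : ∀ x ∈ Δ, g x ∈ Δ) : ∀ x ∈ Δᶜ, g x ∈ Δᶜ := fun x => by
  simp only [Finset.mem_compl, apply_mem_iff h, imp_self]

theorem index_eq_relIndex {Y : Subgroup (Perm Ω)} {g : Perm Ω} (hg : g ∈ Y) (h : g ∉ alternatingGroup Ω) :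
    Y.index = Y.relIndex (alternatingGroup Ω) := by
  have : Nontrivial Ω := by
    by_contra hn
    rw [not_nontrivial_iff_subsingleton] at hn
    exact h (Subsingleton.elim g 1 ▸ one_mem _)
  have h1 := Subgroup.relIndex_mul_index (inf_le_left : Y ⊓ alternatingGroup Ω ≤ Y)
  have h2 := Subgroup.relIndex_mul_index (inf_le_right : Y ⊓ alternatingGroup Ω ≤ _)
  have h3 := (alternatingGroup Ω).relIndex_dvd_index_of_normal Y
  rw [Subgroup.inf_relIndex_left] at h1
  rw [Subgroup.inf_relIndex_right] at h2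
  rw [alternatingGroup.index_eq_two] at h2 h3
  rcases (Nat.dvd_prime Nat.prime_two).1 h3 with e | e
  · exact (h (Subgroup.relIndex_eq_one.1 e hg)).elim
  · rw [e] at h1; omega

/-- An element of prime order `s > n / 2` does not preserve a partition with small classes and few singletons. -/
theorem not_dvd_card_relStab {r : Ω → Ω → Prop} (hr : Equivalence r) {s : ℕ} (hs : s.Prime)
    (hn : Fintype.card Ω < 2 * s) (h1 : ∀ S : Finset Ω, S.card = s → ∃ x ∈ S, (∃ y ≠ x, r x y) ∧ ∃ z ∈ S, ¬ r x z) :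
    ¬ s ∣ Nat.card (relStab r) := fun h => by
  have := Fact.mk hs
  obtain ⟨g, hg⟩ := exists_prime_orderOf_dvd_card' s h
  rw [← Subgroup.orderOf_coe] at hg
  have hc := isCycle_of_prime_order' (hg ▸ hs) (hg ▸ hn)
  rw [hc.orderOf] at hg
  obtain ⟨x, hx, ⟨y, h2, h3⟩, z, hz, h4⟩ := h1 _ hg
  exact h4 (rel_support hc (hg ▸ hs) hr (fun a b => (g.2 a b).2) (mem_support.1 hx) h2 h3 z hz)

section Cls

open Classical in
/-- The class of a point. -/
noncomputable def cls (r : Ω → Ω → Prop) (x : Ω) : Finset Ω := Finset.univ.filter (r x)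

variable {r : Ω → Ω → Prop}

theorem mem_cls {x y : Ω} : y ∈ cls r x ↔ r x y := by simp [cls]

theorem card_cls_apply {g : Perm Ω} (hg : g ∈ relStab r) (x : Ω) : (cls r (g x)).card = (cls r x).card := by
  rw [← Finset.card_map (s := cls r x) g.toEmbedding]
  congr 1
  ext y
  obtain ⟨y, rfl⟩ := g.surjective y
  simp [mem_cls, hg x y]

variable (hr : Equivalence r)
include hr

theorem cls_eq {x y : Ω} (h : r x y) : cls r x = cls r y := by
  ext z
  simp only [mem_cls]
  exact ⟨hr.trans (hr.symm h), hr.trans h⟩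

theorem disjoint_cls {x y : Ω} (h : ¬ r x y) : Disjoint (cls r x) (cls r y) :=
  Finset.disjoint_left.2 fun _ h1 h2 => h (hr.trans (mem_cls.1 h1) (hr.symm (mem_cls.1 h2)))

theorem apply_mem_cls {g : Perm Ω} (hg : g ∈ relStab r) {x : Ω} (h : r x (g x)) : ∀ y ∈ cls r x, g y ∈ cls r x :=
  fun y hy => mem_cls.2 (hr.trans h ((hg x y).2 (mem_cls.1 hy)))

theorem apply_mem_cls_of_short {g : Perm Ω} (hg : g ∈ relStab r) {x : Ω} (h : g.support.card < 2 * (cls r x).card) :
    ∀ y ∈ cls r x, g y ∈ cls r x := by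
  refine apply_mem_cls hr hg (by_contra fun hx => ?_)
  have h1 : cls r x ⊆ g.support := fun y hy => mem_support.2 fun e =>
    hx (hr.trans (mem_cls.1 hy) (hr.symm (e ▸ (hg x y).2 (mem_cls.1 hy))))
  have h2 := Finset.card_le_card (Finset.union_subset h1 (t := cls r (g x)) fun y hy => by
    obtain ⟨y, rfl⟩ := g.surjective y
    exact apply_mem_support.2 (h1 (mem_cls.2 ((hg x y).1 (mem_cls.1 hy)))))
  rw [Finset.card_union_of_disjoint (disjoint_cls hr hx), card_cls_apply hg] at h2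
  omega

end Cls

/-- The points `x`, `y` lie in a set whose alternating group is contained in `K`. -/
def Rel3 (K : Subgroup (Perm Ω)) (x y : Ω) : Prop := x = y ∨ ∃ O : Finset Ω, 3 ≤ O.card ∧ altOn O ≤ K ∧ x ∈ O ∧ y ∈ O

variable {K : Subgroup (Perm Ω)}

theorem rel3_equiv : Equivalence (Rel3 K) :=
  ⟨fun _ => Or.inl rfl, fun h => h.imp Eq.symm fun ⟨O, h1, h2, h3, h4⟩ => ⟨O, h1, h2, h4, h3⟩, by
    rintro x y z (rfl | ⟨O, h1, h2, h3, h4⟩) h
    · exact h
    rcases h with rfl | ⟨O', e1, e2, e3, e4⟩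
    · exact Or.inr ⟨O, h1, h2, h3, h4⟩
    · exact Or.inr ⟨O ∪ O', h1.trans (Finset.card_le_card Finset.subset_union_left),
        altOn_union_le h1 e1 (Finset.not_disjoint_iff.2 ⟨y, h4, e3⟩) h2 e2, Finset.mem_union_left _ h3,
        Finset.mem_union_right _ e4⟩⟩

theorem le_relStab_rel3 : K ≤ relStab (Rel3 K) := le_relStab fun g hg x y h =>
  h.imp (congrArg g) fun ⟨O, h1, h2, h3, h4⟩ => ⟨O.map g.toEmbedding, by rwa [Finset.card_map], fun k hk => by
    have := h2 (conj_mem_altOn (h := g⁻¹) (t := O) hk fun z hz => by simpa using hz)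
    simpa [mul_assoc] using mul_mem (mul_mem hg this) (inv_mem hg), by simpa using h3, by simpa using h4⟩

theorem altOn_cls_le {x : Ω} (h : 1 < (cls (Rel3 K) x).card) :
    3 ≤ (cls (Rel3 K) x).card ∧ altOn (cls (Rel3 K) x) ≤ K := by
  classical
  obtain ⟨y, hy, hyx⟩ := Finset.exists_mem_ne h x
  obtain ⟨O₀, h0⟩ := (mem_cls.1 hy).resolve_left hyx.symm
  obtain ⟨O, hO, hm⟩ := (Finset.univ.filter fun O : Finset Ω => 3 ≤ O.card ∧ altOn O ≤ K ∧ x ∈ O).exists_max_image
    Finset.card ⟨O₀, by simp [h0.1, h0.2.1, h0.2.2.1]⟩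
  simp only [Finset.mem_filter, Finset.mem_univ, true_and] at hO hm
  suffices cls (Rel3 K) x = O from this ▸ ⟨hO.1, hO.2.1⟩
  ext z
  refine mem_cls.trans ⟨?_, fun hz => Or.inr ⟨O, hO.1, hO.2.1, hO.2.2, hz⟩⟩
  rintro (rfl | ⟨O', h1, h2, h3, h4⟩)
  · exact hO.2.2
  exact (Finset.eq_of_subset_of_card_le Finset.subset_union_left (hm (O ∪ O')
    ⟨hO.1.trans (Finset.card_le_card Finset.subset_union_left),
      altOn_union_le hO.1 h1 (Finset.not_disjoint_iff.2 ⟨x, hO.2.2, h3⟩) hO.2.1 h2,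
      Finset.mem_union_left _ hO.2.2⟩)).ge (Finset.mem_union_right _ h4)

theorem card_small_le (i3 : ¬ 3 ∣ K.relIndex (alternatingGroup Ω)) {S : Finset Ω}
    (h : ∀ x ∈ S, (cls (Rel3 K) x).card < 3) : S.card ≤ 2 := by
  by_contra hS
  obtain ⟨ι, hι⟩ := exists_base Nat.prime_three i3 1 (pow_one 3).symm
  obtain ⟨a, l, hx⟩ := exists_covered ι (Fintype.card_fin _) (S := S) (by omega)
  have h1 := card_support_cyc ι (by omega) l
  have h2 := altOn_support_le (card_support_eq_three_iff.1 h1) (hι _ (cyc_mem_alt ι (by omega) (by decide) l))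
  have h3 := Finset.card_le_card (s := (cyc ι l).support) (t := cls (Rel3 K) (ι (a, l))) fun y hy =>
    mem_cls.2 (Or.inr ⟨_, h1.ge, h2, by simp [support_cyc ι (by omega : 1 < 3)], hy⟩)
  have := h _ hx
  omega

theorem dvd_card_of_altOn_le {O : Finset Ω} (h : altOn O ≤ K) {s : ℕ} (hs : s.Prime) (h2 : s ≠ 2) (hO : s ≤ O.card) :
    s ∣ Nat.card K := by
  have h3 := hs.two_le
  have : Nontrivial O := Finite.one_lt_card_iff_nontrivial.1 (by simp; omega)
  refine Dvd.dvd.trans ?_ (Subgroup.card_dvd_of_le h)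
  rw [← Nat.card_congr (altOnEquiv O).toEquiv]
  refine ((Nat.coprime_primes hs Nat.prime_two).2 h2).dvd_of_dvd_mul_left ?_
  rw [two_mul_nat_card_alternatingGroup, Nat.card_perm]
  exact Nat.dvd_factorial hs.pos (by simpa using hO)

/-- A `π`-subgroup containing a Sylow subgroup of the alternating group for each prime of `π`. -/
structure Rich (π : Set ℕ) (K : Subgroup (Perm Ω)) : Prop where
  pi : Cfsg.IsPiSubgroup π K
  idx : ∀ s : ℕ, s.Prime → s ∈ π → ¬ s ∣ K.relIndex (alternatingGroup Ω)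

/-- The proper Hall subgroups for at least two primes: stabilisers of partitions into `k` and `n - k` points. -/
def Typ (π : Set ℕ) (n k : ℕ) : Prop :=
  (k = 1 ∧ n.Prime ∧ ∀ r : ℕ, r.Prime → r ≤ n → (r ∈ π ↔ r < n)) ∨
    ((k = 3 ∧ n = 7 ∨ k = 4 ∧ n = 8) ∧ ∀ r : ℕ, r.Prime → r ≤ n → (r ∈ π ↔ r = 2 ∨ r = 3))

theorem iff_two_three {π : Set ℕ} (h2 : 2 ∈ π) (h3 : 3 ∈ π) (h5 : 5 ∉ π) (h7 : 7 ∉ π) {n : ℕ} (hn : n ≤ 8) (r : ℕ)
    (hr : r.Prime) (h : r ≤ n) : r ∈ π ↔ r = 2 ∨ r = 3 := by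
  have : r ≤ 8 := h.trans hn
  interval_cases r <;> first | exact absurd hr (by decide) | simp [h2, h3, h5, h7]

theorem Rich.two_three {π : Set ℕ} (hK : Rich π K) (h2 : 2 ∈ π) (h3 : 3 ∈ π) {t : ℕ} (ht : t.Prime)
    (htn : t ≤ Fintype.card Ω) (htπ : t ∉ π) : ∃ Δ : Finset Ω, K ≤ bip Δ ∧ Typ π (Fintype.card Ω) Δ.card := by
  have i3 := hK.idx 3 Nat.prime_three h3
  have hr := rel3_equiv (K := K)
  have hKY := le_relStab_rel3 (K := K)
  have hs := fun S => card_small_le i3 (S := S)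
  have h5 : 5 ≤ t := ht.five_le_of_ne_two_of_ne_three (by rintro rfl; exact htπ h2) (by rintro rfl; exact htπ h3)
  have : Nonempty Ω := Fintype.card_pos_iff.1 (by omega)
  obtain ⟨x₀, -, hM⟩ := Finset.univ.exists_max_image (fun x => (cls (Rel3 K) x).card) Finset.univ_nonempty
  simp only [Finset.mem_univ, forall_const] at hM
  have hM3 : 3 ≤ (cls (Rel3 K) x₀).card := by
    by_contra h
    have := hs Finset.univ fun x _ => (hM x).trans_lt (not_le.1 h)
    rw [Finset.card_univ] at this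
    omega
  have hπ : ∀ s : ℕ, s.Prime → s ≤ (cls (Rel3 K) x₀).card → s ∈ π := fun s hs h => by
    by_cases e : s = 2
    · exact e ▸ h2
    · exact hK.pi s hs (dvd_card_of_altOn_le (altOn_cls_le (by omega)).2 hs e h)
  have hY : ∀ s : ℕ, s.Prime → s ∈ π → ¬ s ∣ (relStab (Rel3 K)).index := fun s hs h e => by
    obtain ⟨y, hy, hyx⟩ := Finset.exists_mem_ne (s := cls (Rel3 K) x₀) (by omega) x₀
    have h1 : ∀ z, Rel3 K z (swap y x₀ z) := fun z => by
      rw [swap_apply_def]
      split_ifs with e1 e2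
      exacts [e1 ▸ hr.symm (mem_cls.1 hy), e2 ▸ mem_cls.1 hy, hr.refl z]
    rw [index_eq_relIndex (g := swap y x₀) (fun a b => ⟨fun h => hr.trans (h1 a) (hr.trans h (hr.symm (h1 b))),
      fun h => hr.trans (hr.symm (h1 a)) (hr.trans h (h1 b))⟩) (by simp [hyx])] at e
    exact hK.idx s hs h (e.trans (Subgroup.relIndex_dvd_of_le_left _ hKY))
  generalize Rel3 K = r at *
  have nc : ∀ s : ℕ, s.Prime → s ∈ π → ∀ (a : ℕ) (Δ Δ' : Finset Ω), Disjoint Δ Δ' →
      (∀ c ∈ relStab r, ∀ x ∈ Δ, c x ∈ Δ) → (∀ c ∈ relStab r, ∀ x ∈ Δ', c x ∈ Δ') →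
      Δ.card % s ^ a + Δ'.card % s ^ a < s ^ a := fun s hs h a Δ Δ' hd h1 h2 =>
    no_carry hs (hY s hs h) a hd (fun c hc _ => h1 c hc) fun c hc _ => h2 c hc
  have nc' : ∀ s : ℕ, s.Prime → s ∈ π → ∀ (a : ℕ) x y, ¬ r x y → s ^ a < 2 * (cls r x).card →
      s ^ a < 2 * (cls r y).card → (cls r x).card % s ^ a + (cls r y).card % s ^ a < s ^ a :=
    fun s hs h a x y hd h1 h2 => no_carry hs (hY s hs h) a (disjoint_cls hr hd)
      (fun c hc e => apply_mem_cls_of_short hr hc (e.trans_lt h1)) fun c hc e =>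
      apply_mem_cls_of_short hr hc (e.trans_lt h2)
  have key : ∀ x y, 3 ≤ (cls r x).card → (cls r y).card = (cls r x).card → ¬ r x y → (cls r x).card = 4 :=
    fun x y h1 h2 h3 => (NC.eq (m := (cls r x).card - 1) (fun s hs h a => by
      by_cases e : s ^ a < 2 * (cls r x).card
      · have h4 := nc' s hs (hπ s hs (h.trans (hM x))) a x y h3 e (h2 ▸ e)
        have h5 := Nat.mod_lt ((cls r x).card - 1) (pow_pos hs.pos a)
        have h6 : ((cls r x).card - 1 + 1) % s ^ a = (((cls r x).card - 1) % s ^ a + 1) % s ^ a := by simp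
        rw [Nat.sub_add_cancel (by omega)] at h6
        rw [h2] at h4
        rcases h5.nat_succ_le.eq_or_lt with e | e
        · rw [Nat.succ_eq_add_one] at e
          rw [e, Nat.mod_self] at h6
          omega
        · rw [Nat.succ_eq_add_one] at e
          rw [Nat.mod_eq_of_lt e] at h6
          omega
      · have := Nat.mod_le (cls r x).card (s ^ a)
        have := Nat.mod_le ((cls r x).card - 1) (s ^ a)
        omega) (by omega) (by omega)).1
  by_cases hA : ∃ x y, 3 ≤ (cls r x).card ∧ (cls r y).card = (cls r x).card ∧ ¬ r x y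
  · obtain ⟨x, y, h1, hy, hxy⟩ := hA
    have hx := key x y h1 hy hxy
    rw [hx] at hy
    have h57 : ∀ s : ℕ, s.Prime → 5 ≤ s → s ≤ 7 → s ∉ π := fun s hs e e' h => by
      have := nc' s hs h 1 x y hxy (by rw [pow_one]; omega) (by rw [pow_one]; omega)
      rw [hx, hy, pow_one, Nat.mod_eq_of_lt (by omega)] at this
      omega
    have hM4 : (cls r x₀).card ≤ 4 := by
      by_contra h
      exact h57 5 Nat.prime_five le_rfl (by omega) (hπ 5 Nat.prime_five (by omega))
    have hU : (cls r x ∪ cls r y).card = 8 := by rw [Finset.card_union_of_disjoint (disjoint_cls hr hxy), hx, hy]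
    have h4 : ∀ z, (cls r z).card = 4 → z ∈ cls r x ∪ cls r y := fun z hz => by
      by_contra h
      simp only [Finset.mem_union, mem_cls, not_or] at h
      have := no_carry Nat.prime_three (hY 3 Nat.prime_three h3) 1
        (Finset.disjoint_union_left.2 ⟨disjoint_cls hr h.1, disjoint_cls hr h.2⟩)
        (fun c hc e w hw => Finset.mem_union.2 ((Finset.mem_union.1 hw).imp
          (apply_mem_cls_of_short hr hc (by omega) w) (apply_mem_cls_of_short hr hc (by omega) w)))
        fun c hc e => apply_mem_cls_of_short hr hc (by omega)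
      rw [hU, hz] at this
      omega
    have hi : ∀ c ∈ relStab r, ∀ w ∈ cls r x ∪ cls r y, c w ∈ cls r x ∪ cls r y := fun c hc w hw => h4 _ (by
      rw [card_cls_apply hc]
      rcases Finset.mem_union.1 hw with e | e <;> rwa [← cls_eq hr (mem_cls.1 e)])
    have h6 := nc 3 Nat.prime_three h3 2 _ _ disjoint_compl_right hi fun c hc => apply_mem_compl (hi c hc)
    have h7 : (cls r x ∪ cls r y)ᶜ.card ≤ 5 := by
      by_cases e : ∀ z ∈ (cls r x ∪ cls r y)ᶜ, (cls r z).card < 3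
      · exact (hs _ e).trans (by omega)
      push Not at e
      obtain ⟨z, hz, e⟩ := e
      have h8 : ∀ w ∈ (cls r x ∪ cls r y)ᶜ, (cls r w).card ≤ 3 := fun w hw => by
        have := hM w
        have : (cls r w).card ≠ 4 := fun e => Finset.mem_compl.1 hw (h4 w e)
        omega
      have h9 := hs ((cls r x ∪ cls r y)ᶜ \ cls r z) fun w hw => by
        rw [Finset.mem_sdiff, mem_cls] at hw
        have := h8 z hz
        have := h8 w hw.1
        by_contra
        have := key z w e (by omega) hw.2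
        omega
      have := Finset.le_card_sdiff (cls r z) (cls r x ∪ cls r y)ᶜ
      have := h8 z hz
      omega
    have h8 := Finset.card_add_card_compl (cls r x ∪ cls r y)
    have h9 : (cls r x ∪ cls r y)ᶜ.card = 0 := by rw [hU] at h6; omega
    refine ⟨cls r x, hKY.trans (le_of_eq (congrArg relStab (funext₂ fun a b => propext ?_))), Or.inr
      ⟨Or.inr ⟨hx, by omega⟩, iff_two_three h2 h3 (h57 5 Nat.prime_five le_rfl (by omega))
        (h57 7 (by norm_num) (by omega) le_rfl) (by omega)⟩⟩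
    have h10 : ∀ w, r x w ∨ r y w := fun w => by
      simpa [mem_cls] using ((Finset.compl_eq_empty_iff _).1 (Finset.card_eq_zero.1 h9)).ge (Finset.mem_univ w)
    simp only [mem_cls]
    refine ⟨fun h => ⟨fun e => hr.trans e h, fun e => hr.trans e (hr.symm h)⟩, fun h => ?_⟩
    by_cases e : r x a
    · exact hr.trans (hr.symm e) (h.1 e)
    · exact hr.trans (hr.symm ((h10 a).resolve_left e)) ((h10 b).resolve_left fun e' => e (h.2 e'))
  push Not at hA
  have hi : ∀ x, 3 ≤ (cls r x).card → ∀ c ∈ relStab r, ∀ w ∈ cls r x, c w ∈ cls r x := fun x h c hc =>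
    apply_mem_cls hr hc (hA x _ h (card_cls_apply hc x))
  by_cases hB : ∃ y, 3 ≤ (cls r y).card ∧ ¬ r x₀ y
  · obtain ⟨y, h1, hy⟩ := hB
    obtain ⟨e1, e2⟩ := NC.eq (fun s hs h a => nc s hs (hπ s hs h) a _ _ (disjoint_cls hr hy) (hi _ hM3) (hi _ h1))
      (by omega) ((hM y).lt_of_ne fun e => hy (hA _ _ hM3 e))
    have hU : (cls r x₀ ∪ cls r y).card = 7 := by rw [Finset.card_union_of_disjoint (disjoint_cls hr hy), e1, e2]
    have hi' : ∀ c ∈ relStab r, ∀ w ∈ cls r x₀ ∪ cls r y, c w ∈ cls r x₀ ∪ cls r y := fun c hc w hw =>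
      Finset.mem_union.2 ((Finset.mem_union.1 hw).imp (hi _ hM3 c hc w) (hi _ h1 c hc w))
    have h6 := nc 3 Nat.prime_three h3 1 _ _ disjoint_compl_right hi' fun c hc => apply_mem_compl (hi' c hc)
    have h7 := nc 2 Nat.prime_two h2 1 _ _ disjoint_compl_right hi' fun c hc => apply_mem_compl (hi' c hc)
    have h8 := hs (cls r x₀ ∪ cls r y)ᶜ fun w hw => by
      simp only [Finset.mem_compl, Finset.mem_union, mem_cls, not_or] at hw
      have := hM w
      have : (cls r w).card ≠ 4 := fun e => hw.1 (hA _ _ hM3 (by omega))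
      have : (cls r w).card ≠ 3 := fun e => hw.2 (hA _ _ h1 (by omega))
      omega
    have h9 := Finset.card_add_card_compl (cls r x₀ ∪ cls r y)
    have h57 : ∀ s : ℕ, s.Prime → 5 ≤ s → s ≤ 7 → s ∉ π := fun s hs e e' h => by
      have := nc s hs h 1 _ _ (disjoint_cls hr hy) (hi _ hM3) (hi _ h1)
      rw [e1, e2, pow_one, Nat.mod_eq_of_lt (by omega), Nat.mod_eq_of_lt (by omega)] at this
      omega
    rw [hU] at h6 h7 h9
    exact ⟨cls r y, fun g hg => mem_bip (hi _ h1 g (hKY hg)), Or.inr ⟨Or.inl ⟨e2, by omega⟩,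
      iff_two_three h2 h3 (h57 5 Nat.prime_five le_rfl (by omega)) (h57 7 (by norm_num) (by omega) le_rfl) (by omega)⟩⟩
  push Not at hB
  have h6 := hs (cls r x₀)ᶜ fun w hw => not_le.1 fun e => Finset.mem_compl.1 hw (mem_cls.2 (hB w e))
  have h7 := Finset.card_add_card_compl (cls r x₀)
  have h8 : ¬ t ≤ (cls r x₀).card := fun e => htπ (hπ t ht e)
  have h9 : (cls r x₀)ᶜ.card ≠ 2 := fun e => by
    have := (NC.eq (fun s hs h a => nc s hs (hπ s hs h) a _ _ disjoint_compl_right (hi _ hM3)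
      fun c hc => apply_mem_compl (hi _ hM3 c hc)) (by omega) (by omega)).2
    omega
  obtain rfl : t = Fintype.card Ω := by omega
  exact ⟨(cls r x₀)ᶜ, fun g hg => mem_bip (apply_mem_compl (hi _ hM3 g (hKY hg))), Or.inl ⟨by omega, ht, fun s hs h =>
    ⟨fun e => h.lt_of_ne (by rintro rfl; exact htπ e), fun e => hπ s hs (by omega)⟩⟩⟩

/-- The classification of the Hall subgroups of symmetric and alternating groups. -/
theorem Rich.classify {π : Set ℕ} (hK : Rich π K)
    (h2 : ∃ r s : ℕ, r.Prime ∧ s.Prime ∧ r ≠ s ∧ r ∈ π ∧ s ∈ π ∧ r ≤ Fintype.card Ω ∧ s ≤ Fintype.card Ω)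
    (hns : ∃ r : ℕ, r.Prime ∧ r ≤ Fintype.card Ω ∧ r ∉ π) :
    2 ∈ π ∧ ∃ Δ : Finset Ω, K ≤ bip Δ ∧ Typ π (Fintype.card Ω) Δ.card := by
  obtain ⟨p, q, hp, hq, hpq, pπ, qπ, pn, qn⟩ := h2
  obtain ⟨t, ht, htn, htπ⟩ := hns
  wlog h : p < q generalizing p q
  · exact this q p hq hp hpq.symm qπ pπ qn pn (by omega)
  have h2 : 2 ∈ π := by
    by_contra h2
    exact false_of_odd (fun e => h2 (hK.pi 2 Nat.prime_two e)) hp hq (by rintro rfl; exact h2 pπ) h qn
      (hK.idx p hp pπ) (hK.idx q hq qπ)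
  refine ⟨h2, hK.two_three h2 (by_contra fun h3 => h3 (hK.pi 3 Nat.prime_three ?_)) ht htn htπ⟩
  have hq2 : q ≠ 2 := by have := hp.two_le; omega
  have h5 : 5 ≤ q := hq.five_le_of_ne_two_of_ne_three hq2 (by rintro rfl; exact h3 qπ)
  by_cases h6 : 6 ≤ Fintype.card Ω
  · exact three_dvd_card hq hq2 qn h6 (hK.idx 2 Nat.prime_two h2) (hK.idx q hq qπ)
  obtain rfl : q = 5 := by omega
  have h7 : Nat.card Ω = 5 := by rw [Nat.card_eq_fintype_card]; omega
  have := alternatingGroup.isSimpleGroup h7.ge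
  have : Nontrivial Ω := Finite.one_lt_card_iff_nontrivial.1 (by omega)
  have h8 := (K.subgroupOf (alternatingGroup Ω)).card_mul_index
  have h9 := hK.idx 2 Nat.prime_two h2
  have h10 := hK.idx 5 hq qπ
  rw [Subgroup.relIndex] at h9 h10
  have h11 : Nat.card (alternatingGroup Ω) = 60 := by rw [nat_card_alternatingGroup, h7]; rfl
  refine Dvd.dvd.trans (by_contra fun h12 => ?_) (Subgroup.card_comap_dvd_of_injective K _
    (alternatingGroup Ω).subtype_injective)
  have h13 : (K.subgroupOf (alternatingGroup Ω)).index = 3 := by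
    have h14 : (K.subgroupOf (alternatingGroup Ω)).index ∣ 60 := h11 ▸ Dvd.intro_left _ h8
    have h15 : 3 ∣ (K.subgroupOf (alternatingGroup Ω)).index :=
      (Nat.prime_three.dvd_mul.1 (Dvd.dvd.trans (by rw [h11]; decide) (dvd_of_eq h8.symm))).resolve_left h12
    have := Nat.le_of_dvd (by omega) h14
    generalize (K.subgroupOf (alternatingGroup Ω)).index = i at *
    interval_cases i <;> omega
  have h14 := SL2.card_dvd_factorial_of_core _ h13 ((Subgroup.normalCore_normal _).eq_bot_or_eq_top.resolve_right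
    fun e => by
      rw [eq_top_iff.2 (e.ge.trans (Subgroup.normalCore_le _)), Subgroup.index_top] at h13
      omega)
  rw [h11] at h14
  exact absurd h14 (by decide)

end CL.Known.HallSym
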