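/-
Hall subgroups of symmetric and alternating groups, part 3: existence, conjugacy, and failure of the containment
property.
-/
import Cfsg.Agent.Known.HallSym2

set_option autoImplicit false
set_option linter.unusedSectionVars false

namespace CL.Known.HallSym

open Equiv Equiv.Perm MulAction Cfsg CL.Grp
open scoped Pointwise

theorem hallD_of_one {G : Type*} [Group G] [Finite G] {π : Set ℕ}
    (h : ∀ r s : ℕ, r.Prime → s.Prime → r ∈ π → s ∈ π → r ∣ Nat.card G → s ∣ Nat.card G → r = s) : HallD π G := by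
  obtain ⟨s, hs, h1, h2⟩ : ∃ s : ℕ, s.Prime ∧ (∀ r : ℕ, r.Prime → r ∈ π → r ∣ Nat.card G → r = s) ∧
      (s ∣ Nat.card G → s ∈ π) := by
    by_cases e : ∃ s : ℕ, s.Prime ∧ s ∈ π ∧ s ∣ Nat.card G
    · obtain ⟨s, hs, h1, h2⟩ := e
      exact ⟨s, hs, fun r hr e e' => h r s hr hs e h1 e' h2, fun _ => h1⟩
    · obtain ⟨s, h1, hs⟩ := Nat.exists_infinite_primes (Nat.card G + 1)
      exact ⟨s, hs, fun r hr e1 e2 => (e ⟨r, hr, e1, e2⟩).elim,
        fun e => absurd (Nat.le_of_dvd Nat.card_pos e) (by omega)⟩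
  have := Fact.mk hs
  obtain ⟨P⟩ : Nonempty (Sylow s G) := inferInstance
  refine ⟨P, ⟨fun r hr e => ?_, fun r hr e e' => ?_⟩, fun K hK => ?_⟩
  · obtain ⟨k, hk⟩ := P.isPGroup'.exists_card_eq
    obtain rfl := (Nat.prime_dvd_prime_iff_eq hr hs).1 (hr.dvd_of_dvd_pow (hk ▸ e))
    exact h2 (e.trans (Subgroup.card_subgroup_dvd_card _))
  · obtain rfl := h1 r hr e (e'.trans (Subgroup.index_dvd_card _))
    exact P.not_dvd_index e'
  · obtain ⟨Q, hQ⟩ := (IsPGroup.of_card (Nat.eq_prime_pow_of_unique_prime_dvd Nat.card_pos.ne' fun hr e =>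
      h1 _ hr (hK _ hr e) (e.trans (Subgroup.card_subgroup_dvd_card K)))).exists_le_sylow
    obtain ⟨g, rfl⟩ := exists_smul_eq G P Q
    exact ⟨g, hQ⟩

theorem hallD_of_all {G : Type*} [Group G] {π : Set ℕ} (h : ∀ r : ℕ, r.Prime → r ∣ Nat.card G → r ∈ π) : HallD π G :=
  ⟨⊤, ⟨fun r hr e => h r hr (by rwa [Subgroup.card_top] at e), fun r hr _ => by simpa using hr.ne_one⟩,
    fun K _ => ⟨1, by simp⟩⟩

theorem exists_hall_ge_of_isDPi {G : Type*} [Group G] [Finite G] {π : Set ℕ} (h : IsDPiGroup π G) {L : Subgroup G}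
    (hL : IsPiSubgroup π L) : ∃ M, IsPiHall π M ∧ L ≤ M := by
  obtain ⟨M, h1, hM⟩ := exists_maximal_ge_of_wellFoundedGT _ L hL
  refine ⟨M, ⟨hM.prop, fun s hs e => ?_⟩, h1⟩
  have := Fact.mk hs
  obtain ⟨P⟩ : Nonempty (Sylow s G) := inferInstance
  obtain ⟨N, h2, hN⟩ := exists_maximal_ge_of_wellFoundedGT (IsPiSubgroup π) (P : Subgroup G) fun r hr e' => by
    obtain ⟨k, hk⟩ := P.isPGroup'.exists_card_eq
    rwa [(Nat.prime_dvd_prime_iff_eq hr hs).1 (hr.dvd_of_dvd_pow (hk ▸ e'))]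
  obtain ⟨g, rfl⟩ := h N M hN hM
  rw [← hall_conj_eq_map, hall_index_conj]
  exact fun e' => P.not_dvd_index (e'.trans (Subgroup.index_dvd_of_le h2))

variable {Ω : Type*} [Fintype Ω] [DecidableEq Ω] {π : Set ℕ}

theorem le_card_of_dvd {K : Subgroup (Perm Ω)} {s : ℕ} (hs : s.Prime) (h : s ∣ Nat.card K) : s ≤ Fintype.card Ω := by
  have := h.trans (Subgroup.card_subgroup_dvd_card K)
  rwa [Nat.card_perm, hs.dvd_factorial, Nat.card_eq_fintype_card] at this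

theorem index_stabilizer_finset (Δ : Finset Ω) : (stabilizer (Perm Ω) Δ).index = (Fintype.card Ω).choose Δ.card := by
  rw [index_stabilizer, ← Finset.card_univ, ← Finset.card_powersetCard, ← Set.ncard_coe_finset]
  congr 1
  ext Δ'
  simp only [Finset.mem_coe, Finset.mem_powersetCard, Finset.subset_univ, true_and]
  refine ⟨by rintro ⟨g, rfl⟩; exact Finset.card_smul_finset g Δ, fun h => ?_⟩
  obtain ⟨g, rfl⟩ := Perm.exists_map_finset_eq Δ Δ' h.symm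
  exact ⟨g, (Finset.map_eq_image g.toEmbedding Δ).symm⟩

theorem stabilizer_le_bip (Δ : Finset Ω) : stabilizer (Perm Ω) Δ ≤ bip Δ := fun _ hg =>
  mem_bip fun x hx => (mem_stabilizer_finset.1 hg x).2 hx

theorem bip_cases {Δ : Finset Ω} {g : Perm Ω} (hg : g ∈ bip Δ) : (∀ x, g x ∈ Δ ↔ x ∈ Δ) ∨ ∀ x, g x ∈ Δ ↔ x ∉ Δ := by
  by_contra h
  push Not at h
  obtain ⟨⟨x, hx⟩, y, hy⟩ := h
  have := hg x y
  tauto

theorem relIndex_bip {Δ : Finset Ω} (h0 : Δ.Nonempty) (h : Δ.card = Δᶜ.card) :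
    (stabilizer (Perm Ω) Δ).relIndex (bip Δ) = 2 := by
  obtain ⟨g, hg⟩ := Perm.exists_map_finset_eq Δ Δᶜ h
  obtain ⟨x₀, h0⟩ := h0
  have h1 : ∀ x, g x ∈ Δ ↔ x ∉ Δ := fun x => by
    rw [← not_iff_not, not_not, ← Finset.mem_compl, ← hg]; simp
  refine Subgroup.index_eq_two_iff'.2 ⟨⟨g, fun x y => by simp only [h1, not_iff_not]⟩, fun b => ?_⟩
  simp only [Subgroup.mem_subgroupOf, mem_stabilizer_finset, Subgroup.coe_mul, Perm.smul_def, Perm.mul_apply, h1]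
  rcases bip_cases b.2 with e | e
  · exact Or.inr ⟨e, fun e' => (e' x₀).2 h0 ((e x₀).2 h0)⟩
  · exact Or.inl ⟨fun x => by rw [e, not_not], fun e' => (e x₀).1 ((e' x₀).2 h0) h0⟩

theorem not_dvd_card_bip {Δ : Finset Ω} {s : ℕ} (hs : s.Prime) (hn : Fintype.card Ω < 2 * s) (h1 : Δ.card < s)
    (h2 : Δᶜ.card < s) (h3 : 1 < Δᶜ.card) : ¬ s ∣ Nat.card (bip Δ) :=
  not_dvd_card_relStab (r := fun x y => (x ∈ Δ ↔ y ∈ Δ)) ⟨fun _ => Iff.rfl, Iff.symm, Iff.trans⟩ hs hn fun S hS => by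
    obtain ⟨x, hx, e1⟩ := Finset.exists_mem_notMem_of_card_lt_card (hS ▸ h1 : Δ.card < S.card)
    obtain ⟨z, hz, e2⟩ := Finset.exists_mem_notMem_of_card_lt_card (hS ▸ h2 : Δᶜ.card < S.card)
    obtain ⟨y, hy, e3⟩ := Finset.exists_mem_ne h3 x
    exact ⟨x, hx, ⟨y, e3, iff_of_false e1 (Finset.mem_compl.1 hy)⟩, z, hz, fun e => e1 (e.2 (by simpa using e2))⟩

theorem isPiHall_bip (h2 : 2 ∈ π) {Δ : Finset Ω} (h : Typ π (Fintype.card Ω) Δ.card) : IsPiHall π (bip Δ) := by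
  have h1 := Finset.card_add_card_compl Δ
  have h3 := Subgroup.relIndex_mul_index (stabilizer_le_bip Δ)
  rw [index_stabilizer_finset] at h3
  refine ⟨fun s hs e => by_contra fun e' => ?_, fun s hs e e' => ?_⟩
  · have h4 := le_card_of_dvd hs e
    rcases h with ⟨hk, hp, h⟩ | ⟨hk, h⟩
    · have h5 := (h s hs h4).2.mt e'
      have h6 := (h 2 Nat.prime_two hp.two_le).1 h2
      exact not_dvd_card_bip hs (by omega) (by omega) (by omega) (by omega) e
    · have h5 := (h s hs h4).2.mt e'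
      have h6 := hs.five_le_of_ne_two_of_ne_three (by omega) (by omega)
      exact not_dvd_card_bip hs (by omega) (by omega) (by omega) (by omega) e
  have h4 := e'.trans (Dvd.intro_left _ h3)
  rcases h with ⟨hk, hp, h⟩ | ⟨hk, h⟩
  · rw [hk, Nat.choose_one_right, Nat.prime_dvd_prime_iff_eq hs hp] at h4
    exact absurd ((h s hs h4.le).1 e) (by omega)
  have h5 : s ∣ 35 := by
    rcases hk with ⟨e1, e2⟩ | ⟨e1, e2⟩
    · rwa [e1, e2] at h4
    · rw [relIndex_bip (Finset.card_pos.1 (by omega)) (by omega), e1, e2, show Nat.choose 8 4 = 70 from rfl] at h3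
      rwa [show (bip Δ).index = 35 by omega] at e'
  have h6 : s = 5 ∨ s = 7 := (hs.dvd_mul.1 (show s ∣ 5 * 7 from h5)).imp
    (Nat.prime_dvd_prime_iff_eq hs Nat.prime_five).1 (Nat.prime_dvd_prime_iff_eq hs (by norm_num)).1
  have := (h s hs (by omega)).1 e
  omega

theorem conj_bip (g : Perm Ω) (Δ : Finset Ω) : MulAut.conj g • bip Δ = bip (Δ.map g.toEmbedding) := by
  ext k
  rw [hall_mem_conj]
  refine ⟨fun h x y => ?_, fun h x y => ?_⟩
  · simpa using h (g⁻¹ x) (g⁻¹ y)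
  · simpa using h (g x) (g y)

theorem Typ.eq {n k k' : ℕ} (h : Typ π n k) (h' : Typ π n k') : k = k' := by
  rcases h with ⟨hk, hp, h⟩ | ⟨hk, h⟩ <;> rcases h' with ⟨hk', hp', h'⟩ | ⟨hk', h'⟩
  · omega
  · have := (h' 5 Nat.prime_five (by omega)).1 ((h 5 Nat.prime_five (by omega)).2 (by omega)); omega
  · have := (h 5 Nat.prime_five (by omega)).1 ((h' 5 Nat.prime_five (by omega)).2 (by omega)); omega
  · omega

theorem exists_conj_bip (h2 : 2 ∈ π) {Δ Δ' : Finset Ω} (h : Typ π (Fintype.card Ω) Δ.card)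
    (h' : Typ π (Fintype.card Ω) Δ'.card) : ∃ g ∈ alternatingGroup Ω, MulAut.conj g • bip Δ = bip Δ' := by
  obtain ⟨g, rfl⟩ := Perm.exists_map_finset_eq Δ Δ' (h.eq h')
  by_cases hg : g ∈ alternatingGroup Ω
  · exact ⟨g, hg, conj_bip g Δ⟩
  have : Nontrivial Ω := by
    by_contra hn
    rw [not_nontrivial_iff_subsingleton] at hn
    exact hg (Subsingleton.elim g 1 ▸ one_mem _)
  obtain ⟨k, hk, hk'⟩ := SetLike.not_le_iff_exists.1 fun e : bip Δ ≤ alternatingGroup Ω =>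
    (isPiHall_bip h2 h).2 2 Nat.prime_two h2 (alternatingGroup.index_eq_two (α := Ω) ▸ Subgroup.index_dvd_of_le e)
  refine ⟨g * k, ?_, by rw [map_mul, mul_smul, Subgroup.conj_smul_eq_self_of_mem hk, conj_bip]⟩
  rw [mem_alternatingGroup] at hg hk' ⊢
  rw [map_mul, Int.units_ne_iff_eq_neg.1 hg, Int.units_ne_iff_eq_neg.1 hk']
  rfl

theorem rich_map {M : Subgroup (alternatingGroup Ω)} (h : IsPiHall π M) :
    Rich π (M.map (alternatingGroup Ω).subtype) :=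
  ⟨hall_pi_map (isPiHall_isPiSubgroup h) _, fun s hs e => by
    rw [Subgroup.relIndex, Subgroup.subgroupOf, Subgroup.comap_map_eq_self_of_injective (Subgroup.subtype_injective _)]
    exact h.2 s hs e⟩

section Proper

variable (h2 : ∃ r s : ℕ, r.Prime ∧ s.Prime ∧ r ≠ s ∧ r ∈ π ∧ s ∈ π ∧ r ≤ Fintype.card Ω ∧ s ≤ Fintype.card Ω)
  (hns : ∃ r : ℕ, r.Prime ∧ r ≤ Fintype.card Ω ∧ r ∉ π)
include h2 hns

theorem hall_perm {H : Subgroup (Perm Ω)} (h : IsPiHall π H) :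
    2 ∈ π ∧ ∃ Δ : Finset Ω, H = bip Δ ∧ Typ π (Fintype.card Ω) Δ.card := by
  obtain ⟨h3, Δ, h4, h5⟩ := Rich.classify ⟨h.1, (isPiHall_subgroupOf_normal h _).2⟩ h2 hns
  exact ⟨h3, Δ, isPiHall_eq_of_le h (isPiHall_bip h3 h5).1 h4, h5⟩

theorem hall_alt {M : Subgroup (alternatingGroup Ω)} (h : IsPiHall π M) :
    2 ∈ π ∧ ∃ Δ : Finset Ω, M = (bip Δ).subgroupOf _ ∧ Typ π (Fintype.card Ω) Δ.card := by
  obtain ⟨h3, Δ, h4, h5⟩ := (rich_map h).classify h2 hns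
  exact ⟨h3, Δ, isPiHall_eq_of_le h (isPiHall_subgroupOf_normal (isPiHall_bip h3 h5) _).1
    (Subgroup.map_le_iff_le_comap.1 h4), h5⟩

end Proper

/-- The three cases for a set of primes. -/
theorem hall_cases (π : Set ℕ) (Ω : Type*) [Fintype Ω] [DecidableEq Ω] :
    (HallD π (Perm Ω) ∧ HallD π (alternatingGroup Ω)) ∨
    ((∃ r s : ℕ, r.Prime ∧ s.Prime ∧ r ≠ s ∧ r ∈ π ∧ s ∈ π ∧ r ≤ Fintype.card Ω ∧ s ≤ Fintype.card Ω) ∧
      ∃ r : ℕ, r.Prime ∧ r ≤ Fintype.card Ω ∧ r ∉ π) := by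
  by_contra h
  simp only [not_or, not_and_or (a := ∃ _, _)] at h
  have h1 : ∀ s : ℕ, s.Prime → s ∣ Nat.card (Perm Ω) → s ≤ Fintype.card Ω := fun s hs e =>
    le_card_of_dvd (K := ⊤) hs (by rwa [Subgroup.card_top])
  rcases h with ⟨h, h2 | h2⟩ <;> push Not at h2
  · exact h ⟨hallD_of_one fun r s hr hs e1 e2 e3 e4 => by_contra fun e =>
      absurd (h2 r s hr hs e e1 e2 (h1 r hr e3)) (not_lt.2 (h1 s hs e4)),
      hallD_of_one fun r s hr hs e1 e2 e3 e4 => by_contra fun e =>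
      absurd (h2 r s hr hs e e1 e2 (le_card_of_dvd hr e3)) (not_lt.2 (le_card_of_dvd hs e4))⟩
  · exact h ⟨hallD_of_all fun r hr e => h2 r hr (h1 r hr e), hallD_of_all fun r hr e => h2 r hr (le_card_of_dvd hr e)⟩

/-- The colouring `000111(2)(3)`. -/
def col (n : ℕ) (x : Fin n) : ℕ := if x.1 < 6 then x.1 / 3 else x.1

theorem isPiSubgroup_col {n : ℕ} (hn : n ≤ 8) (h2 : 2 ∈ π) (h3 : 3 ∈ π) :
    IsPiSubgroup π (relStab fun x y => col n x = col n y) := fun s hs e => by_contra fun e' => by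
  have h4 := le_card_of_dvd hs e
  have h5 := hs.five_le_of_ne_two_of_ne_three (by rintro rfl; exact e' h2) (by rintro rfl; exact e' h3)
  rw [Fintype.card_fin] at h4
  refine not_dvd_card_relStab (r := fun x y => col n x = col n y) ⟨fun _ => rfl, Eq.symm, Eq.trans⟩ hs
    (by rw [Fintype.card_fin]; omega) (fun S hS => ?_) e
  replace hS : 5 ≤ S.card := by omega
  clear e h4
  revert S
  interval_cases n <;> first | omega | decide +kernel

theorem not_isDPi {n : ℕ} (hn : 5 ≤ n)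
    (h2 : ∃ r s : ℕ, r.Prime ∧ s.Prime ∧ r ≠ s ∧ r ∈ π ∧ s ∈ π ∧ r ≤ Fintype.card (Fin n) ∧ s ≤ Fintype.card (Fin n))
    (hns : ∃ r : ℕ, r.Prime ∧ r ≤ Fintype.card (Fin n) ∧ r ∉ π) : ¬ IsDPiGroup π (alternatingGroup (Fin n)) := by
  intro hD
  have key : ∀ L : Subgroup (Perm (Fin n)), IsPiSubgroup π L → ∃ Δ : Finset (Fin n), Typ π n Δ.card ∧
      ∀ g ∈ L, sign g = 1 → g ∈ bip Δ := fun L hL => by
    obtain ⟨M, hM, h⟩ := exists_hall_ge_of_isDPi hD (L := L.subgroupOf _) fun s hs e =>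
      hL s hs (e.trans (Subgroup.card_comap_dvd_of_injective L _ (Subgroup.subtype_injective _)))
    obtain ⟨-, Δ, rfl, h'⟩ := hall_alt h2 hns hM
    exact ⟨Δ, by simpa using h', fun g hg e => h (x := ⟨g, e⟩) hg⟩
  obtain ⟨Δ₀, h0, -⟩ := key ⊥ (hall_pi_bot π)
  rcases h0 with ⟨hk, hp, h⟩ | ⟨hk, h⟩
  · obtain ⟨Γ, -, hΓ⟩ := Finset.exists_subset_card_eq (s := (Finset.univ : Finset (Fin n))) (n := 2) (by simp; omega)
    have h3 := Finset.card_add_card_compl Γ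
    rw [Fintype.card_fin] at h3
    obtain ⟨Δ, h4, h5⟩ := key (bip Γ) fun s hs e => (h s hs (by simpa using le_card_of_dvd hs e)).2
      (lt_of_le_of_ne (by simpa using le_card_of_dvd hs e) (by
        rintro rfl
        exact not_dvd_card_bip hs (by simp; omega) (by omega) (by omega) (by omega) e))
    obtain ⟨x, rfl⟩ := Finset.card_eq_one.1 (h4.eq (Or.inl ⟨rfl, hp, h⟩))
    have h6 : ∀ g ∈ bip Γ, sign g = 1 → g x = x := fun g hg e => by
      rcases bip_cases (h5 g hg e) with e' | e'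
      · simpa using (e' x).2
      obtain ⟨y, -, y1, -⟩ := exists_third (s := Finset.univ) (by simp; omega) x x
      obtain ⟨z, -, z1, z2⟩ := exists_third (s := Finset.univ) (by simp; omega) x y
      simp only [Finset.mem_singleton] at e'
      exact (z2 (g.injective (((e' y).2 y1.symm).trans ((e' z).2 z1.symm).symm))).elim
    by_cases hx : x ∈ Γ
    · obtain ⟨y, hy, y1⟩ := Finset.exists_mem_ne (s := Γ) (by omega) x
      obtain ⟨a, ha, b, hb, hab⟩ := Finset.one_lt_card.1 (by omega : 1 < Γᶜ.card)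
      rw [Finset.mem_compl] at ha hb
      refine y1 (Eq.trans ?_ (h6 (swap x y * swap a b) (mul_mem (mem_bip fun z hz => ?_) (mem_bip fun z hz => ?_))
        (by simp [hab, y1.symm])))
      · rw [Perm.mul_apply, swap_apply_of_ne_of_ne (a := a) (by rintro rfl; exact ha hx)
          (by rintro rfl; exact hb hx), swap_apply_left]
      · rw [swap_apply_def]; split_ifs <;> assumption
      · rwa [swap_apply_of_ne_of_ne (by rintro rfl; exact ha hz) (by rintro rfl; exact hb hz)]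
    · obtain ⟨y, hy, y1, -⟩ := exists_third (s := Γᶜ) (by omega) x x
      obtain ⟨z, hz, z1, z2⟩ := exists_third (s := Γᶜ) (by omega) x y
      rw [Finset.mem_compl] at hy hz
      refine y1 ((h6 (c3 x y z) (mem_bip fun w hw => ?_) (c3_mem_alt y1 z2)).symm.trans (c3_apply_fst y1 z1))
      rwa [c3_apply_of_ne (by rintro rfl; exact hx hw) (by rintro rfl; exact hy hw) (by rintro rfl; exact hz hw)]
  obtain ⟨Δ, h4, h5⟩ := key _ (isPiSubgroup_col (n := n) (by omega) ((h 2 Nat.prime_two (by omega)).2 (Or.inl rfl))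
    ((h 3 Nat.prime_three (by omega)).2 (Or.inr rfl)))
  have h6 := h4.eq (Or.inr ⟨hk, h⟩)
  rcases hk with ⟨e, rfl⟩ | ⟨e, rfl⟩
  · have h7 : ∀ x y, (c3 0 1 2 x ∈ Δ ↔ c3 0 1 2 y ∈ Δ) ↔ (x ∈ Δ ↔ y ∈ Δ) :=
      h5 (c3 0 1 2) (show ∀ x y, _ by decide +kernel) (by decide +kernel)
    have h8 : ∀ x y, ((swap 0 3 * swap 0 1 * swap 0 4 * swap 2 5 : Perm (Fin 7)) x ∈ Δ ↔
        (swap 0 3 * swap 0 1 * swap 0 4 * swap 2 5 : Perm (Fin 7)) y ∈ Δ) ↔ (x ∈ Δ ↔ y ∈ Δ) :=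
      h5 (swap 0 3 * swap 0 1 * swap 0 4 * swap 2 5) (show ∀ x y, _ by decide +kernel) (by decide +kernel)
    rw [e] at h6
    clear h4 h5
    revert Δ
    decide +kernel
  · have h7 : ∀ x y, (c3 0 1 2 x ∈ Δ ↔ c3 0 1 2 y ∈ Δ) ↔ (x ∈ Δ ↔ y ∈ Δ) :=
      h5 (c3 0 1 2) (show ∀ x y, _ by decide +kernel) (by decide +kernel)
    have h8 : ∀ x y, ((swap 0 3 * swap 0 1 * swap 0 4 * swap 2 5 : Perm (Fin 8)) x ∈ Δ ↔
        (swap 0 3 * swap 0 1 * swap 0 4 * swap 2 5 : Perm (Fin 8)) y ∈ Δ) ↔ (x ∈ Δ ↔ y ∈ Δ) :=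
      h5 (swap 0 3 * swap 0 1 * swap 0 4 * swap 2 5) (show ∀ x y, _ by decide +kernel) (by decide +kernel)
    rw [e] at h6
    clear h4 h5
    revert Δ
    decide +kernel

end CL.Known.HallSym
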