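/-
Central extensions of `PSL₃(4)` by elementary abelian 2-groups: the two subgroups over `E₁₆`.
-/
import Cfsg.Agent.Fus.Heis
import Cfsg.Agent.Known.GLAut1
import Cfsg.Agent.Cls.PSL34
import Cfsg.Agent.Grp.Gaschutz
import Cfsg.Agent.Loc.SigGen
import Cfsg.Agent.Even.CharP

set_option autoImplicit false
set_option linter.unusedSectionVars false

namespace CL.L34Cov

open Subgroup Cfsg CL.Grp CL.Even Matrix CL.GLn CL.Fus
open scoped MatrixGroups

section Abs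

variable {X L : Type*} [Group X] [Group L] {ψ : X →* L} (hs : Function.Surjective ψ) (hk : ψ.ker = center X)
include hs hk

theorem sq_comap (hZ : ∀ z ∈ center X, z * z = 1) {A : Subgroup L} (sq : ∀ a ∈ A, a * a = 1)
    (tr : ∀ a ∈ A, a ≠ 1 → ∀ b ∈ A, b ≠ 1 → IsConj a b) {a b c : L} (ha : a ∈ A) (hb : b ∈ A) (hc : c ∈ A)
    (a1 : a ≠ 1) (b1 : b ≠ 1) (c1 : c ≠ 1) (ab : a * b ≠ 1) (ac : a * c ≠ 1) (bc : b * c ≠ 1) (abc : a * (b * c) ≠ 1) :
    ∀ x ∈ A.comap ψ, x * x = 1 := by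
  have h1 : ∀ x, ψ x ∈ A → x * x ∈ center X := fun x hx => hk ▸ (by rw [MonoidHom.mem_ker, map_mul, sq _ hx])
  obtain ⟨x, rfl⟩ := hs a
  obtain ⟨y, rfl⟩ := hs b
  obtain ⟨z, rfl⟩ := hs c
  have h2 : ∀ w, ψ w ∈ A → ψ w ≠ 1 → w * w = x * x := fun w hw w1 => by
    obtain ⟨g, hg⟩ := isConj_iff.1 (tr _ ha a1 _ hw w1)
    obtain ⟨g, rfl⟩ := hs g
    have h3 : w⁻¹ * (g * x * g⁻¹) ∈ center X := hk ▸ (by simp [MonoidHom.mem_ker, hg])
    have h4 : g * x * g⁻¹ * (g * x * g⁻¹) = x * x := by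
      rw [conj_mul, mem_center_iff.1 (h1 x ha) g, mul_inv_cancel_right]
    generalize g * x * g⁻¹ = v at h3 h4
    obtain ⟨t, rfl⟩ : ∃ t, v = w * t := ⟨w⁻¹ * v, by simp⟩
    rw [inv_mul_cancel_left] at h3
    rw [← h4, mul_assoc, ← mul_assoc t, ← mem_center_iff.1 h3 w, mul_assoc, hZ t h3, mul_one]
  have hc' := mem_center_iff.1 (h1 x ha)
  have hss := hZ _ (h1 x ha)
  generalize x * x = s at h2 hc' hss
  have h3 : ∀ v w, ψ v ∈ A → ψ w ∈ A → ψ v ≠ 1 → ψ w ≠ 1 → ψ v * ψ w ≠ 1 → w * v = v * w * s :=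
    fun v w hv hw v1 w1 vw => by
      have e := h2 (v * w) (by rw [map_mul]; exact mul_mem hv hw) (by rwa [map_mul])
      have e1 := h2 v hv v1
      have e2 := h2 w hw w1
      refine mul_left_cancel (a := v) (mul_right_cancel (b := w) ?_)
      calc v * (w * v) * w = s := by rw [← e]; group
        _ = v * v * (s * (w * w)) := by rw [e1, e2, hss, mul_one]
        _ = v * (v * w * s) * w := by rw [mul_assoc v w, hc' w]; group
  have h4 : s = 1 := by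
    have e := h3 x (y * z) ha (by rw [map_mul]; exact mul_mem hb hc) a1 (by rwa [map_mul]) (by rwa [map_mul])
    rw [mul_assoc, h3 x z ha hc a1 c1 ac, ← mul_assoc, ← mul_assoc, h3 x y ha hb a1 b1 ab, mul_assoc _ s z, ← hc' z,
      mul_assoc, mul_assoc, mul_assoc, hss, mul_one] at e
    exact left_eq_mul.1 e
  intro w hw
  by_cases w1 : ψ w = 1
  · exact hZ w (hk ▸ w1)
  · exact (h2 w hw w1).trans h4

omit hk in
theorem compl [Finite X] {A B : Subgroup L} (hA : IsElementaryAbelian 2 (A.comap ψ))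
    (hB : IsElementaryAbelian 2 (B.comap ψ)) (hS : IsSylowIn 2 (A.comap ψ ⊔ B.comap ψ) ⊤) (hn : B ≤ 𝒩(A))
    {P : Type*} [Group P] {φ : P →* L} (hφ : Function.Injective φ) (h1 : φ.range ≤ 𝒩(A)) (h2 : φ.range ⊓ A = ⊥)
    (h3 : 𝒩(A) ≤ A ⊔ φ.range) :
    ∃ C : Subgroup X, C ≤ 𝒩(A.comap ψ) ∧ C ⊓ A.comap ψ = ⊥ ∧ A.comap ψ ⊔ C = 𝒩(A.comap ψ) ∧ Nonempty (C ≃* P) := by
  have hN : 𝒩(A).comap ψ = 𝒩(A.comap ψ) := comap_normalizer_eq_of_surjective A hs
  set H := A.comap ψ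
  set K := B.comap ψ
  have hK : K ≤ 𝒩(H) := hN ▸ comap_mono hn
  obtain ⟨E, e1, e2, e3⟩ := CL.Loc.ea_exists_compl hB (inf_le_right : H ⊓ K ≤ K)
  have := (elem_subgroupOf hA 𝒩(H)).1
  obtain ⟨C, hC⟩ := gaschutz_exists (H.subgroupOf 𝒩(H)) ((H ⊔ K).subgroupOf 𝒩(H)) (by
      obtain ⟨n, hn⟩ := IsPGroup.iff_card.1 (elem_isP (elem_subgroupOf hA 𝒩(H)))
      rw [hn]
      exact Nat.Coprime.pow_left _ ((Nat.Prime.coprime_iff_not_dvd Nat.prime_two).2
        (hS.of_le (sup_le le_normalizer hK) le_top).not_dvd)) (E.subgroupOf 𝒩(H))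
    (eq_bot_iff.2 fun x hx => Subtype.ext (mem_bot.1 (e2.le ⟨hx.1, hx.2, e1 hx.1⟩))) (by
      rw [← subgroupOf_sup le_normalizer (e1.trans hK)]
      congr 1
      exact le_antisymm (sup_le_sup_left e1 H) (sup_le le_sup_left (e3.ge.trans (sup_le le_sup_right
        (inf_le_left.trans le_sup_left)))))
  refine ⟨C.map 𝒩(H).subtype, map_subtype_le C, eq_bot_iff.2 ?_, ?_, ?_⟩
  · rintro _ ⟨⟨x, hx, rfl⟩, h⟩
    exact mem_bot.2 (congrArg Subtype.val (mem_bot.1 (hC.disjoint.le_bot ⟨h, hx⟩)))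
  · have := congrArg (map 𝒩(H).subtype) hC.sup_eq_top
    rwa [Subgroup.map_sup, subgroupOf_map_subtype, inf_eq_left.2 le_normalizer, ← MonoidHom.range_eq_map, range_subtype] at this
  · have hD : IsComplement' (φ.range.subgroupOf 𝒩(A)) (A.subgroupOf 𝒩(A)) :=
      isComplement'_of_disjoint_and_mul_eq_univ
        (disjoint_iff.2 (eq_bot_iff.2 fun x hx => Subtype.ext (mem_bot.1 (h2.le ⟨hx.1, hx.2⟩)))) (by
        rw [← mul_normal, ← subgroupOf_sup h1 le_normalizer, subgroupOf_eq_top.2 (sup_comm A _ ▸ h3), coe_top])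
    let f : 𝒩(H) →* 𝒩(A) ⧸ A.subgroupOf 𝒩(A) := (QuotientGroup.mk' _).comp
      ((ψ.comp 𝒩(H).subtype).codRestrict 𝒩(A) fun x => hN.ge x.2)
    have hf : Function.Surjective f := (QuotientGroup.mk'_surjective _).comp fun y => by
      obtain ⟨x, hx⟩ := hs y
      exact ⟨⟨x, hN.le (by rw [mem_comap, hx]; exact y.2)⟩, Subtype.ext hx⟩
    have hker : H.subgroupOf 𝒩(H) = f.ker := by
      ext x
      exact (QuotientGroup.eq_one_iff (N := A.subgroupOf 𝒩(A)) ⟨ψ x, hN.ge x.2⟩).symm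
    exact ⟨(((equivMapOfInjective C _ 𝒩(H).subtype_injective).symm.trans hC.symm.QuotientMulEquiv.symm).trans
      (((QuotientGroup.quotientMulEquivOfEq hker).trans (QuotientGroup.quotientKerEquivOfSurjective f hf)).trans
        hD.QuotientMulEquiv)).trans ((subgroupOfEquivOfLe h1).trans (MonoidHom.ofInjective hφ).symm)⟩

end Abs

section Mat

variable {F : Type*} [Field F] [Fintype F]

/-- the image of a unitriangular matrix -/
def u (a b c : F) : PSL(3, F) := QuotientGroup.mk (ut3 a b c : SL(3, F))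

theorem u_mul (a b c a' b' c' : F) : u a b c * u a' b' c' = u (a + a') (b + b') (c + c' + a * b') := by
  rw [u, u, u, ← QuotientGroup.mk_mul, ← Subgroup.coe_mul, ut3_mul]

theorem u_inj {a b c a' b' c' : F} : u a b c = u a' b' c' ↔ a = a' ∧ b = b' ∧ c = c' :=
  ⟨fun h => ut3_inj.1 (Subtype.ext (psl_mk_injective_of_unipotent (isNilpotent_of_mem_utSL (ut3 a b c).2)
    (isNilpotent_of_mem_utSL (ut3 a' b' c').2) h)), by rintro ⟨rfl, rfl, rfl⟩; rfl⟩

theorem u_zero : u (0 : F) 0 0 = 1 := by rw [u, ut3_zero]; rfl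

theorem u_eq_one {a b c : F} : u a b c = 1 ↔ a = 0 ∧ b = 0 ∧ c = 0 := by rw [← u_zero, u_inj]

theorem u_inv (a b c : F) : (u a b c)⁻¹ = u (-a) (-b) (a * b - c) := by
  rw [inv_eq_iff_mul_eq_one, u_mul, u_eq_one]
  exact ⟨by ring, by ring, by ring⟩

variable (F) in
/-- the last column -/
def A : Subgroup PSL(3, F) where
  carrier := {x | ∃ b c, x = u 0 b c}
  one_mem' := ⟨0, 0, u_zero.symm⟩
  mul_mem' := by rintro _ _ ⟨b, c, rfl⟩ ⟨b', c', rfl⟩; exact ⟨_, _, by rw [u_mul, add_zero]⟩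
  inv_mem' := by rintro _ ⟨b, c, rfl⟩; exact ⟨_, _, by rw [u_inv, neg_zero]⟩

variable (F) in
/-- the first row -/
def B : Subgroup PSL(3, F) where
  carrier := {x | ∃ a c, x = u a 0 c}
  one_mem' := ⟨0, 0, u_zero.symm⟩
  mul_mem' := by rintro _ _ ⟨b, c, rfl⟩ ⟨b', c', rfl⟩; exact ⟨_, _, by rw [u_mul, add_zero]⟩
  inv_mem' := by rintro _ ⟨b, c, rfl⟩; exact ⟨_, _, by rw [u_inv, neg_zero]⟩

/-- a matrix of determinant one -/
def sl {n : ℕ} (M : Matrix (Fin n) (Fin n) F) (h : M.det = 1) : SL(n, F) := ⟨M, h⟩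

theorem sl_coe {n : ℕ} (M : Matrix (Fin n) (Fin n) F) (h : M.det = 1) : (sl M h : Matrix (Fin n) (Fin n) F) = M := rfl

/-- the upper left block -/
def D : SL(2, F) →* SL(3, F) := MonoidHom.mk'
  (fun M => sl !![M 0 0, M 0 1, 0; M 1 0, M 1 1, 0; 0, 0, 1] (by
    have := M.det_coe
    rw [det_fin_two] at this
    simpa [det_fin_three] using this)) fun M N => by
  ext i j
  fin_cases i <;> fin_cases j <;> simp [sl_coe, Matrix.mul_apply, Fin.sum_univ_succ]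

theorem D_coe (M : SL(2, F)) : (D M : Matrix (Fin 3) (Fin 3) F) = !![M 0 0, M 0 1, 0; M 1 0, M 1 1, 0; 0, 0, 1] := rfl

theorem ut3_coe (a b c : F) : ((ut3 a b c : SL(3, F)) : Matrix (Fin 3) (Fin 3) F) = !![1, a, c; 0, 1, b; 0, 0, 1] := rfl

/-- the Levi factor -/
def φ : SL(2, F) →* PSL(3, F) := (QuotientGroup.mk' _).comp D

theorem φ_conj (M : SL(2, F)) (b c : F) :
    φ M * u 0 b c * (φ M)⁻¹ = u 0 (M 1 0 * c + M 1 1 * b) (M 0 0 * c + M 0 1 * b) := by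
  rw [mul_inv_eq_iff_eq_mul]
  refine congrArg (QuotientGroup.mk (s := center SL(3, F))) (a₁ := D M * _) (a₂ := _ * D M) ?_
  ext i j
  fin_cases i <;> fin_cases j <;> simp [D_coe, ut3_coe, Matrix.mul_apply, Fin.sum_univ_succ]

theorem φ_eq {M : SL(2, F)} {b c : F} (h : φ M = u 0 b c) : M = 1 := by
  obtain ⟨t, ht⟩ := psl_mk_eq_mk_iff.1 (show (QuotientGroup.mk (ut3 0 b c : SL(3, F)) : PSL(3, F)) = QuotientGroup.mk (D M) from h.symm)
  have h := fun i j => congrFun (congrFun ht i) j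
  have h1 : t = 1 := by simpa [D_coe, ut3_coe] using (h 2 2).symm
  ext i j
  fin_cases i <;> fin_cases j
  · simpa [D_coe, ut3_coe, h1] using h 0 0
  · simpa [D_coe, ut3_coe, h1] using h 0 1
  · simpa [D_coe, ut3_coe, h1] using h 1 0
  · simpa [D_coe, ut3_coe, h1] using h 1 1

theorem φ_inj : Function.Injective (φ (F := F)) :=
  (injective_iff_map_eq_one _).2 fun _ h => φ_eq (h.trans u_zero.symm)

theorem φ_norm : (φ (F := F)).range ≤ 𝒩(A F) := le_norm_of_cj_le (by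
  rintro _ ⟨M, rfl⟩ _ ⟨_, ⟨b, c, rfl⟩, rfl⟩
  exact ⟨_, _, φ_conj M b c⟩)

theorem φ_inf : (φ (F := F)).range ⊓ A F = ⊥ := eq_bot_iff.2 fun _ ⟨⟨M, hM⟩, b, c, e⟩ => by
  rw [← hM, φ_eq (hM.trans e), map_one]; exact one_mem _

theorem A_conj : ∀ a ∈ A F, a ≠ 1 → IsConj (u 0 0 1) a := by
  rintro _ ⟨b, c, rfl⟩ h
  by_cases hc : c = 0
  · have hb : b ≠ 0 := fun hb => h (u_eq_one.2 ⟨rfl, hb, hc⟩)
    exact isConj_iff.2 ⟨φ (sl !![0, -b⁻¹; b, 0] (by simp [det_fin_two, hb])), by rw [φ_conj]; simp [hc, sl_coe]⟩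
  · exact isConj_iff.2 ⟨φ (sl !![c, 0; b, c⁻¹] (by simp [det_fin_two, hc])), by rw [φ_conj]; simp [sl_coe]⟩

theorem B_norm : B F ≤ 𝒩(A F) := le_norm_of_cj_le (by
  rintro _ ⟨a, c, rfl⟩ _ ⟨_, ⟨b, c', rfl⟩, rfl⟩
  rw [MulEquiv.coe_toMonoidHom, MulAut.conj_apply, u_inv, u_mul, u_mul, add_zero, add_neg_cancel]
  exact ⟨_, _, rfl⟩)

theorem norm_le (hF : Fintype.card F = 4) : 𝒩(A F) ≤ A F ⊔ (φ (F := F)).range := by
  intro g hg
  obtain ⟨g, rfl⟩ := QuotientGroup.mk_surjective g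
  have key : ∀ b c : F, g 2 0 * c + g 2 1 * b = 0 := fun b c => by
    obtain ⟨b', c', e⟩ := conj_mem hg (⟨b, c, rfl⟩ : u 0 b c ∈ A F)
    have e1 : g * (ut3 0 b c : SL(3, F)) * g⁻¹ = (ut3 0 b' c' : SL(3, F)) := by
      refine psl_mk_injective_of_unipotent ?_ (isNilpotent_of_mem_utSL (ut3 0 b' c').2) e
      refine ⟨2, ?_⟩
      have h1 : (((ut3 0 b c : SL(3, F)) : Matrix (Fin 3) (Fin 3) F) - 1) ^ 2 = 0 := by
        ext i j
        fin_cases i <;> fin_cases j <;> simp [ut3_coe, _root_.sq, Matrix.mul_apply, Fin.sum_univ_succ, Matrix.one_apply]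
      have h2 : ((g⁻¹ : SL(3, F)) : Matrix (Fin 3) (Fin 3) F) * g = 1 := by
        rw [← Matrix.SpecialLinearGroup.coe_mul, inv_mul_cancel, Matrix.SpecialLinearGroup.coe_one]
      have h3 : (g : Matrix (Fin 3) (Fin 3) F) * (g⁻¹ : SL(3, F)) = 1 := by
        rw [← Matrix.SpecialLinearGroup.coe_mul, mul_inv_cancel, Matrix.SpecialLinearGroup.coe_one]
      rw [Matrix.SpecialLinearGroup.coe_mul, Matrix.SpecialLinearGroup.coe_mul]
      generalize ((g⁻¹ : SL(3, F)) : Matrix (Fin 3) (Fin 3) F) = g' at h2 h3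
      generalize ((ut3 0 b c : SL(3, F)) : Matrix (Fin 3) (Fin 3) F) = x at h1
      have h4 : (g : Matrix (Fin 3) (Fin 3) F) * x * g' - 1 = g * (x - 1) * g' := by
        rw [Matrix.mul_sub, Matrix.sub_mul, Matrix.mul_one, h3]
      rw [h4, _root_.sq, Matrix.mul_assoc, Matrix.mul_assoc, ← Matrix.mul_assoc g', ← Matrix.mul_assoc g', h2,
        Matrix.one_mul, ← Matrix.mul_assoc (x - 1), ← _root_.sq, h1]
      simp
    have e2 := congrArg (fun x : SL(3, F) => x 2 2) (mul_inv_eq_iff_eq_mul.1 e1)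
    simpa [ut3_coe, Matrix.mul_apply, Fin.sum_univ_succ, ← add_assoc] using e2
  have h0 : g 2 0 = 0 := by simpa using key 0 1
  have h1 : g 2 1 = 0 := by simpa using key 1 0
  have hd : (g 0 0 * g 1 1 - g 0 1 * g 1 0) * g 2 2 = 1 := by
    have := g.det_coe
    rw [det_fin_three, h0, h1] at this
    linear_combination this
  have hz : g 2 2 ≠ 0 := right_ne_zero_of_mul_eq_one hd
  have h3 : g 2 2 ^ 3 = 1 := by simpa [hF] using FiniteField.pow_card_sub_one_eq_one _ hz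
  let t := g 2 2 ^ 2
  have e : (QuotientGroup.mk g : PSL(3, F)) = u 0 (t * g 1 2) (t * g 0 2) *
      φ (sl !![t * g 0 0, t * g 0 1; t * g 1 0, t * g 1 1] (by
        rw [det_fin_two_of]; linear_combination g 2 2 ^ 3 * hd + h3)) := by
    refine (psl_mk_eq_mk_iff (t := _ * D _)).2 ⟨t, ?_⟩
    ext i j
    fin_cases i <;> fin_cases j <;> simp [D_coe, sl_coe, ut3_coe, Matrix.mul_apply, Fin.sum_univ_succ, h0, h1]
    linear_combination -h3
  exact e ▸ mul_mem_sup ⟨_, _, rfl⟩ ⟨_, rfl⟩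

theorem exists_aut [CharP F 2] : ∃ θ : MulAut PSL(3, F), ∀ a b c : F, θ (u a b c) = u b a (a * b + c) := by
  let J : SL(3, F) := sl !![0, 0, 1; 0, 1, 0; 1, 0, 0] (by simp [det_fin_three, CharTwo.neg_eq])
  refine ⟨MulAut.conj (QuotientGroup.mk J) * graphAut (Fin 3) F, fun a b c => ?_⟩
  rw [MulAut.mul_apply, MulAut.conj_apply, mul_inv_eq_iff_eq_mul, u, graphAut_mk]
  refine congrArg (QuotientGroup.mk (s := center SL(3, F))) (a₁ := J * _) (a₂ := _ * J) (Subtype.ext ?_)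
  rw [Matrix.SpecialLinearGroup.coe_mul, coe_slGraph, ← Subgroup.coe_inv, ut3_inv]
  ext i j
  fin_cases i <;> fin_cases j <;>
    simp [J, sl_coe, ut3_coe, Matrix.mul_apply, Fin.sum_univ_succ, CharTwo.neg_eq, CharTwo.sub_eq_add]

theorem card_A : Nat.card (A F) = Fintype.card F ^ 2 := by
  rw [← Nat.card_congr (Equiv.ofBijective (fun p : F × F => (⟨u 0 p.1 p.2, _, _, rfl⟩ : A F))
    ⟨fun p q h => Prod.ext (u_inj.1 (congrArg Subtype.val h)).2.1 (u_inj.1 (congrArg Subtype.val h)).2.2,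
      fun ⟨_, b, c, h⟩ => ⟨(b, c), Subtype.ext h.symm⟩⟩)]
  simp [_root_.sq]

theorem card_B : Nat.card (B F) = Fintype.card F ^ 2 := by
  rw [← Nat.card_congr (Equiv.ofBijective (fun p : F × F => (⟨u p.1 0 p.2, _, _, rfl⟩ : B F))
    ⟨fun p q h => Prod.ext (u_inj.1 (congrArg Subtype.val h)).1 (u_inj.1 (congrArg Subtype.val h)).2.2,
      fun ⟨_, b, c, h⟩ => ⟨(b, c), Subtype.ext h.symm⟩⟩)]
  simp [_root_.sq]

theorem sup_eq : A F ⊔ B F = (utSL (Fin 3) F).map (QuotientGroup.mk' _) := by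
  refine le_antisymm (sup_le ?_ ?_) ?_
  · rintro _ ⟨b, c, rfl⟩; exact mem_map_of_mem _ (ut3 0 b c).2
  · rintro _ ⟨b, c, rfl⟩; exact mem_map_of_mem _ (ut3 b 0 c).2
  · rintro _ ⟨x, hx, rfl⟩
    obtain ⟨a, b, c, e⟩ := exists_ut3 ⟨x, hx⟩
    have : QuotientGroup.mk' _ x = u 0 b c * u a 0 0 := by
      rw [u_mul, show x = _ from congrArg Subtype.val e]; simp [u]
    exact this ▸ mul_mem_sup ⟨_, _, rfl⟩ ⟨_, _, rfl⟩

theorem mem_sup {x : PSL(3, F)} (h : x ∈ A F ⊔ B F) : ∃ a b c, x = u a b c := by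
  obtain ⟨x, hx, rfl⟩ := sup_eq.le h
  obtain ⟨a, b, c, e⟩ := exists_ut3 ⟨x, hx⟩
  exact ⟨a, b, c, congrArg (fun y : utSL (Fin 3) F => (QuotientGroup.mk y : PSL(3, F))) e⟩

theorem syl [CharP F 2] : IsSylowIn 2 (A F ⊔ B F) ⊤ := by
  have := syl_map (QuotientGroup.mk' (center SL(3, F)))
    (isSylowIn_top ((isPGroup_utSL 2).toSylow (not_dvd_index_utSL (n := Fin 3) (F := F) 2)))
  rwa [map_top_of_surjective _ (QuotientGroup.mk'_surjective _), IsPGroup.toSylow_coe, ← sup_eq] at this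

theorem eq_or (hF : Fintype.card F = 4) {E : Subgroup PSL(3, F)} (hE : E ≤ A F ⊔ B F) (h : IsElementaryAbelian 2 E)
    (hc : Nat.card E = 16) : E = A F ∨ E = B F := by
  have h2 := (CL.Cls.exists_omega_of_card_four hF).1
  have k : ∀ a b c : F, u a b c ∈ E → a = 0 ∨ b = 0 := fun a b c hx => by
    have := h.2 _ hx
    rw [_root_.sq, u_mul, u_eq_one] at this
    exact mul_eq_zero.1 (by linear_combination this.2.2 - c * h2)
  by_cases h1 : E ≤ A F
  · exact Or.inl (eq_of_le_of_card_ge h1 (by rw [card_A, hF, hc]; decide))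
  refine Or.inr (eq_of_le_of_card_ge (fun y hy => ?_) (by rw [card_B, hF, hc]; decide))
  obtain ⟨x, hx, hn⟩ := SetLike.not_le_iff_exists.1 h1
  obtain ⟨a, b, c, rfl⟩ := mem_sup (hE hx)
  obtain ⟨a', b', c', rfl⟩ := mem_sup (hE hy)
  have ha : a ≠ 0 := fun e => hn ⟨b, c, by rw [e]⟩
  have hb := (k a b c hx).resolve_left ha
  have e := comm_of_mem (elem_le_cent h hx) hy
  rw [u_mul, u_mul, u_inj, hb] at e
  have : b' = 0 := (mul_eq_zero.1 (by linear_combination -e.2.2 : a * b' = 0)).resolve_left ha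
  exact ⟨a', c', by rw [this]⟩

theorem cent_le {x : PSL(3, F)} (h : x ∈ A F ⊔ B F) (h1 : Commute x (u 0 1 0)) (h2 : Commute x (u 1 0 0)) :
    x ∈ A F ⊓ B F := by
  obtain ⟨a, b, c, rfl⟩ := mem_sup h
  rw [Commute, SemiconjBy, u_mul, u_mul, u_inj] at h1 h2
  have ha : a = 0 := by linear_combination h1.2.2
  have hb : b = 0 := by linear_combination -h2.2.2
  exact ⟨⟨b, c, by rw [ha]⟩, a, c, by rw [hb]⟩

variable {X : Type*} [Group X] [Finite X]

theorem ea_A (hF : Fintype.card F = 4) (hZ : IsElementaryAbelian 2 (center X)) {ψ : X →* PSL(3, F)}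
    (hs : Function.Surjective ψ) (hk : ψ.ker = center X) : IsElementaryAbelian 2 ((A F).comap ψ) := by
  obtain ⟨h2, w, hw, -⟩ := CL.Cls.exists_omega_of_card_four hF
  have w0 : w ≠ 0 := fun e => by simp [e] at hw
  have w1 : 1 + w ≠ 0 := fun e => w0 (pow_eq_zero_iff two_ne_zero |>.1 (by rw [hw, add_comm, e]))
  have h := sq_comap hs hk (fun z hz => by simpa [_root_.sq] using hZ.2 z hz) (A := A F)
    (by rintro _ ⟨b, c, rfl⟩; rw [u_mul, u_eq_one]; exact ⟨by ring, by linear_combination b * h2, by linear_combination c * h2⟩)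
    (fun a ha a1 b hb b1 => (A_conj a ha a1).symm.trans (A_conj b hb b1)) (a := u 0 1 0) (b := u 0 0 1) (c := u 0 0 w)
    ⟨_, _, rfl⟩ ⟨_, _, rfl⟩ ⟨_, _, rfl⟩ (by simp [u_eq_one]) (by simp [u_eq_one]) (by simp [u_eq_one, w0])
    (by simp [u_eq_one, u_mul]) (by simp [u_eq_one, u_mul]) (by simp [u_eq_one, u_mul, w1]) (by simp [u_eq_one, u_mul])
  exact elem_iff.2 ⟨fun x hx y hy => by
    rw [← inv_eq_of_mul_eq_one_right (h _ (mul_mem hy hx)), _root_.mul_inv_rev, inv_eq_of_mul_eq_one_right (h x hx),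
      inv_eq_of_mul_eq_one_right (h y hy)], fun x hx => by rw [_root_.sq, h x hx]⟩

/-- the conclusion for one subgroup -/
def Spl (F : Type*) [Field F] (H : Subgroup X) : Prop :=
  ∃ C : Subgroup X, C ≤ 𝒩(H) ∧ C ⊓ H = ⊥ ∧ H ⊔ C = 𝒩(H) ∧ Nonempty (C ≃* PSL(2, F))

theorem both (hF : Fintype.card F = 4) (hZ : IsElementaryAbelian 2 (center X)) {ψ : X →* PSL(3, F)}
    (hs : Function.Surjective ψ) (hk : ψ.ker = center X) (hS : IsSylowIn 2 ((A F).comap ψ ⊔ (B F).comap ψ) ⊤) :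
    (IsElementaryAbelian 2 ((A F).comap ψ) ∧ Spl F ((A F).comap ψ)) ∧
      (IsElementaryAbelian 2 ((B F).comap ψ) ∧ Spl F ((B F).comap ψ)) ∧
      (A F).comap ψ ⊓ (B F).comap ψ =
        (center ↥((A F).comap ψ ⊔ (B F).comap ψ)).map ((A F).comap ψ ⊔ (B F).comap ψ).subtype := by
  have : CharP F 2 := CharTwo.of_one_ne_zero_of_two_eq_zero one_ne_zero (CL.Cls.exists_omega_of_card_four hF).1
  obtain ⟨θ, hθ⟩ := exists_aut (F := F)
  have hs' : Function.Surjective (θ.toMonoidHom.comp ψ) := θ.surjective.comp hs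
  have hk' : (θ.toMonoidHom.comp ψ).ker = center X := by rw [← hk]; ext x; simp
  have e1 : (A F).comap (θ.toMonoidHom.comp ψ) = (B F).comap ψ := by
    rw [← comap_comap]
    refine congrArg _ (eq_of_le_of_card_ge ?_ ?_).symm
    · rintro _ ⟨a, c, rfl⟩; exact ⟨_, _, hθ a 0 c⟩
    · rw [card_B, ← card_A, comap_equiv_eq_map_symm', card_map_of_injective θ.symm.injective]
  have e2 : (B F).comap (θ.toMonoidHom.comp ψ) = (A F).comap ψ := by
    rw [← comap_comap]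
    refine congrArg _ (eq_of_le_of_card_ge ?_ ?_).symm
    · rintro _ ⟨a, c, rfl⟩; exact ⟨_, _, hθ 0 a c⟩
    · rw [card_A, ← card_B, comap_equiv_eq_map_symm', card_map_of_injective θ.symm.injective]
  have hA := ea_A hF hZ hs hk
  have hB := ea_A hF hZ hs' hk'
  have hc : center SL(2, F) = ⊥ := eq_bot_iff.2 fun g hg => by
    obtain ⟨r, h1, h2⟩ := Matrix.SpecialLinearGroup.mem_center_iff.1 hg
    have : r = 1 := by simpa [CharTwo.neg_eq] using h1
    exact mem_bot.2 (Subtype.ext (by rw [← h2, this, map_one]; rfl))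
  let e : SL(2, F) ≃* PSL(2, F) := ((QuotientGroup.quotientMulEquivOfEq hc).trans QuotientGroup.quotientBot).symm
  obtain ⟨C, c1, c2, c3, ⟨c4⟩⟩ := compl hs hA (e1 ▸ hB) hS B_norm φ_inj φ_norm φ_inf (norm_le hF)
  obtain ⟨C', d1, d2, d3, ⟨d4⟩⟩ := compl hs' hB (e2 ▸ hA) (by rwa [e1, e2, sup_comm]) B_norm φ_inj φ_norm φ_inf
    (norm_le hF)
  rw [e1] at hB d1 d2 d3
  refine ⟨⟨hA, C, c1, c2, c3, ⟨c4.trans e⟩⟩, ⟨hB, C', d1, d2, d3, ⟨d4.trans e⟩⟩, le_antisymm (fun x hx => ?_) ?_⟩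
  · exact ⟨⟨x, mem_sup_left hx.1⟩, mem_center_iff.2 fun y => Subtype.ext (comm_of_mem
      ((cent_sup _ _).ge ⟨elem_le_cent hA hx.1, elem_le_cent hB hx.2⟩) y.2), rfl⟩
  · rintro _ ⟨x, hx, rfl⟩
    obtain ⟨y, hy⟩ := hs (u 0 1 0)
    obtain ⟨z, hz⟩ := hs (u 1 0 0)
    have k : ∀ w ∈ (A F).comap ψ ⊔ (B F).comap ψ, Commute (ψ x) (ψ w) := fun w hw =>
      Commute.map (congrArg Subtype.val (mem_center_iff.1 hx ⟨w, hw⟩)).symm ψ
    exact cent_le ((comap_sup_eq ψ _ _ hs).le x.2) (hy ▸ k y (mem_sup_left ⟨_, _, hy⟩))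
      (hz ▸ k z (mem_sup_right ⟨_, _, hz⟩))

theorem main (hZ : IsElementaryAbelian 2 (center X)) (hF : Fintype.card F = 4) (e : X ⧸ center X ≃* PSL(3, F))
    (T : Sylow 2 X) (H K : Subgroup X) (hHK : H ≠ K) (hHT : H ≤ T) (hKT : K ≤ T) (hZH : center X ≤ H)
    (hZK : center X ≤ K) (hH : IsElementaryAbelian 2 (H.map (QuotientGroup.mk' (center X))) ∧
      Nat.card (H.map (QuotientGroup.mk' (center X))) = 16)
    (hK : IsElementaryAbelian 2 (K.map (QuotientGroup.mk' (center X))) ∧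
      Nat.card (K.map (QuotientGroup.mk' (center X))) = 16) :
    IsElementaryAbelian 2 H ∧ IsElementaryAbelian 2 K ∧ H ⊓ K = (center ↥(H ⊔ K)).map (H ⊔ K).subtype ∧
      Spl F H ∧ Spl F K := by
  have : CharP F 2 := CharTwo.of_one_ne_zero_of_two_eq_zero one_ne_zero (CL.Cls.exists_omega_of_card_four hF).1
  obtain ⟨g, -, hg⟩ := syl_conj_le (syl (F := F)) (T.isPGroup'.map (e.toMonoidHom.comp (QuotientGroup.mk' _))) le_top
  let e' := e.trans (MulAut.conj g)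
  let ψ : X →* PSL(3, F) := e'.toMonoidHom.comp (QuotientGroup.mk' _)
  have hs : Function.Surjective ψ := e'.surjective.comp (QuotientGroup.mk'_surjective _)
  have hk : ψ.ker = center X := by ext x; simp [ψ]
  have hT : (T : Subgroup X).map ψ ≤ A F ⊔ B F := by rintro _ ⟨x, hx, rfl⟩; exact hg ⟨_, ⟨x, hx, rfl⟩, rfl⟩
  have k : ∀ H : Subgroup X, H ≤ T → center X ≤ H → IsElementaryAbelian 2 (H.map (QuotientGroup.mk' (center X))) ∧
      Nat.card (H.map (QuotientGroup.mk' (center X))) = 16 → H = (A F).comap ψ ∨ H = (B F).comap ψ :=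
    fun H h1 h2 h3 => by
      have := eq_or hF ((map_mono h1).trans hT) (by rw [← Subgroup.map_map]; exact elem_map _ h3.1)
        (by rw [← Subgroup.map_map, card_map_of_injective e'.injective, h3.2])
      rwa [← comap_map_eq_self (hk.le.trans h2), (comap_injective hs).eq_iff, (comap_injective hs).eq_iff]
  have hS : IsSylowIn 2 ((A F).comap ψ ⊔ (B F).comap ψ) ⊤ := by
    rw [comap_sup_eq ψ _ _ hs]
    refine ⟨le_top, syl.isPGroup.comap_of_ker_isPGroup ψ (hk ▸ elem_isP hZ), ?_⟩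
    rw [relIndex_top_right, index_comap_of_surjective _ hs, ← relIndex_top_right]
    exact syl.not_dvd
  obtain ⟨h1, h2, h3⟩ := both hF hZ hs hk hS
  rcases k H hHT hZH hH with rfl | rfl <;> rcases k K hKT hZK hK with rfl | rfl
  · exact absurd rfl hHK
  · exact ⟨h1.1, h2.1, h3, h1.2, h2.2⟩
  · exact ⟨h2.1, h1.1, by rw [inf_comm, h3, sup_comm], h2.2, h1.2⟩
  · exact absurd rfl hHK

end Mat

end CL.L34Cov
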