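/-
Representations of `SL_n(q)` in which the weights of the transvection groups have multiplicity one.
-/
import Cfsg.Agent.Known.LSSL

set_option autoImplicit false

open Module Matrix Cfsg CL.GLn

namespace CL.LS

variable {F : Type*} [Field F] {n : Type*} [Fintype n] [DecidableEq n]

theorem det_one_add_vecMulVec (u φ : n → F) : (1 + vecMulVec u φ).det = 1 + φ ⬝ᵥ u := by
  rw [vecMulVec_eq Unit, det_one_add_replicateCol_mul_replicateRow]

theorem coe_mul_tv {g : SpecialLinearGroup n F} {v φ : n → F} (h : φ ⬝ᵥ v = 0) :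
    ((g * tv v φ : SpecialLinearGroup n F) : Matrix n n F) = g + vecMulVec ((g : Matrix n n F) *ᵥ v) φ := by
  rw [Matrix.SpecialLinearGroup.coe_mul, coe_tv h, mul_add, mul_one, mul_vecMulVec]

theorem coe_tv_mul {g : SpecialLinearGroup n F} {v φ : n → F} (h : φ ⬝ᵥ v = 0) :
    ((tv v φ * g : SpecialLinearGroup n F) : Matrix n n F) = g + vecMulVec v (φ ᵥ* (g : Matrix n n F)) := by
  rw [Matrix.SpecialLinearGroup.coe_mul, coe_tv h, add_mul, one_mul, vecMulVec_mul]

theorem mul_tv_mulVec {g : SpecialLinearGroup n F} {v φ : n → F} (hg : (g : Matrix n n F) *ᵥ v = v) (h : φ ⬝ᵥ v = 0)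
    (x : n → F) : ((g * tv v φ : SpecialLinearGroup n F) : Matrix n n F) *ᵥ x =
      (g : Matrix n n F) *ᵥ x + (φ ⬝ᵥ x) • v := by
  rw [coe_mul_tv h, hg, add_mulVec, vecMulVec_mulVec, op_smul_eq_smul]

theorem isNilpotent_mul_tv {g : SpecialLinearGroup n F} (hg : IsNilpotent ((g : Matrix n n F) - 1)) {v φ : n → F}
    (hv : (g : Matrix n n F) *ᵥ v = v) (h : φ ⬝ᵥ v = 0) :
    IsNilpotent (((g * tv v φ : SpecialLinearGroup n F) : Matrix n n F) - 1) := by
  rw [coe_mul_tv h, hv, add_sub_right_comm]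
  set N := (g : Matrix n n F) - 1 with hN
  have h1 : N *ᵥ v = 0 := by rw [hN, sub_mulVec, hv, one_mulVec, sub_self]
  have h2 : (N + vecMulVec v φ) * (N + vecMulVec v φ) = (N + vecMulVec v φ) * N := by
    rw [mul_add, add_mul N _ (vecMulVec v φ), mul_vecMulVec, h1, vecMulVec_mul_self_of_dot h]
    simp
  have h3 : ∀ j : ℕ, (N + vecMulVec v φ) ^ (j + 1) = (N + vecMulVec v φ) * N ^ j := fun j => by
    induction j with
    | zero => simp
    | succ j ih => rw [pow_succ', ih, ← mul_assoc, h2, mul_assoc, ← pow_succ']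
  obtain ⟨k, hk⟩ := hg
  exact ⟨k + 1, by rw [h3, hk, mul_zero]⟩

/-- Induction over unipotent elements. -/
theorem unip_induction (P : SpecialLinearGroup n F → Prop) (h1 : P 1)
    (step : ∀ (g : SpecialLinearGroup n F) (v φ : n → F), v ≠ 0 → (g : Matrix n n F) *ᵥ v = v →
      (∀ x, (g : Matrix n n F) *ᵥ x = x → φ ⬝ᵥ x = 0) → IsNilpotent ((g : Matrix n n F) - 1) →
      P (g * tv v φ) → P g)
    (g : SpecialLinearGroup n F) (hg : IsNilpotent ((g : Matrix n n F) - 1)) : P g := by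
  classical
  induction h : LinearMap.ker (Matrix.toLin' ((g : Matrix n n F) - 1)) using WellFoundedGT.induction generalizing g with
  | _ S ih =>
  subst h
  set N := (g : Matrix n n F) - 1 with hN
  by_cases h0 : N = 0
  · rwa [show g = 1 from sl_ext (sub_eq_zero.1 h0)]
  have hk := Nat.find_spec hg
  obtain ⟨k, hk2⟩ : ∃ k, Nat.find hg = k + 2 := by
    have a1 : Nat.find hg ≠ 1 := fun e => h0 (by rwa [e, pow_one] at hk)
    have a0 : Nat.find hg ≠ 0 := fun e => h0 (by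
      rw [e, pow_zero] at hk
      rw [← one_mul N, hk, zero_mul])
    exact ⟨Nat.find hg - 2, by omega⟩
  have h2 : N ^ (k + 1) ≠ 0 := Nat.find_min hg (by omega)
  rw [hk2] at hk
  obtain ⟨x, hx⟩ : ∃ x, N ^ (k + 1) *ᵥ x ≠ 0 := by
    by_contra hn
    push Not at hn
    exact h2 (Matrix.toLin'.injective (LinearMap.ext fun x => by rw [toLin'_apply, hn x]; simp))
  set v := N ^ (k + 1) *ᵥ x with hv
  have hNv : N *ᵥ v = 0 := by rw [hv, mulVec_mulVec, ← pow_succ', hk, zero_mulVec]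
  have hfix : ∀ y, (g : Matrix n n F) *ᵥ y = y ↔ N *ᵥ y = 0 := fun y => by
    rw [hN, sub_mulVec, one_mulVec, sub_eq_zero]
  obtain ⟨η, hη, -⟩ := exists_dot_of_notMem (W := ⊥) hx
  have hφ : ∀ y, (-(η ᵥ* N)) ⬝ᵥ y = -(η ⬝ᵥ (N *ᵥ y)) := fun y => by rw [neg_dotProduct, dotProduct_mulVec]
  have hφv : (-(η ᵥ* N)) ⬝ᵥ v = 0 := by rw [hφ, hNv]; simp
  have hgv := (hfix v).2 hNv
  refine step g v (-(η ᵥ* N)) hx hgv (fun y hy => by rw [hφ, (hfix y).1 hy]; simp) hg
    (ih _ ?_ _ (isNilpotent_mul_tv hg hgv hφv) rfl)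
  have hmem : ∀ y, y ∈ LinearMap.ker (Matrix.toLin'
      (((g * tv v (-(η ᵥ* N)) : SpecialLinearGroup n F) : Matrix n n F) - 1)) ↔
      N *ᵥ y = (η ⬝ᵥ (N *ᵥ y)) • v := fun y => by
    rw [LinearMap.mem_ker, toLin'_apply, sub_mulVec, mul_tv_mulVec hgv hφv, hφ, one_mulVec, add_sub_right_comm,
      neg_smul, add_neg_eq_zero, hN, sub_mulVec, one_mulVec]
  refine lt_of_le_of_ne (fun y hy => (hmem y).2 ?_) fun e => hx ?_
  · rw [show N *ᵥ y = 0 from hy]; simp
  · have h3 : N *ᵥ (N ^ k *ᵥ x) = v := by rw [hv, mulVec_mulVec, ← pow_succ']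
    have h4 := (hmem (N ^ k *ᵥ x)).2 (by rw [h3, hη, one_smul])
    rw [← e] at h4
    exact h3.symm.trans h4

/-- The condition on `(n, q)`. -/
def SLGood (n F : Type*) [Fintype n] [Field F] : Prop :=
  5 ≤ Fintype.card n ∨ (Fintype.card n = 4 ∧ ∃ b : F, b ≠ 0 ∧ b ^ 2 ≠ 1) ∨
    (Fintype.card n = 3 ∧ ∃ a : F, a ≠ 0 ∧ a ^ 3 ≠ 1)

omit [DecidableEq n] in
theorem SLGood.three_le (h : SLGood n F) : 3 ≤ Fintype.card n := by
  rcases h with h | ⟨h, -⟩ | ⟨h, -⟩ <;> omega

section Rep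

variable {K V : Type*} [Field K] [AddCommGroup V] [Module K V]

theorem comm_of_finrank_one {G : Type*} [Group G] (ρ : G →* Module.End K V) {W : Submodule K V}
    (hW : finrank K W = 1) {g h : G} (hg : ∀ x ∈ W, ρ g x ∈ W) (hh : ∀ x ∈ W, ρ h x ∈ W) {x : V} (hx : x ∈ W) :
    ρ (g * h) x = ρ (h * g) x := by
  by_cases h0 : x = 0
  · simp [h0]
  have key := (finrank_eq_one_iff_of_nonzero' (⟨x, hx⟩ : W) fun e => h0 (congrArg Subtype.val e)).1 hW
  obtain ⟨a, ha⟩ := key ⟨_, hg x hx⟩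
  obtain ⟨b, hb⟩ := key ⟨_, hh x hx⟩
  have ha' : ρ g x = a • x := (congrArg Subtype.val ha).symm
  have hb' : ρ h x = b • x := (congrArg Subtype.val hb).symm
  rw [map_mul, map_mul, Module.End.mul_apply, Module.End.mul_apply, ha', hb', map_smul, map_smul, ha', hb', smul_comm]

variable {ρ : SpecialLinearGroup n F →* Module.End K V} {ψ : AddChar F K} {e w : n → F}

theorem map_mem_wsp_lam {g : SpecialLinearGroup n F} {a : F} (ha : a ≠ 0) (he : (g : Matrix n n F) *ᵥ e = a • e)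
    (hw : (g : Matrix n n F) *ᵥ w = a • w) : ∀ x ∈ wsp ρ ψ (slA e) (lam e w), ρ g x ∈ wsp ρ ψ (slA e) (lam e w) := by
  intro x hx
  have := map_mem_wsp (slA_mul g ha he) hx
  rwa [lam_comp_annAct, hw, smul_smul, inv_mul_cancel₀ ha, one_smul] at this

theorem tv_mem_wsp_lam {v f : n → F} (h1 : f ⬝ᵥ e = 0) (h2 : f ⬝ᵥ w = 0) (h3 : f ⬝ᵥ v = 0) :
    ∀ x ∈ wsp ρ ψ (slA e) (lam e w), ρ (tv v f) x ∈ wsp ρ ψ (slA e) (lam e w) :=
  map_mem_wsp_lam one_ne_zero (by rw [tv_mulVec h3, h1]; simp) (by rw [tv_mulVec h3, h2]; simp)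

theorem tv_fix_of_torus (hW : finrank K (wsp ρ ψ (slA e) (lam e w)) = 1) {v f : n → F} (h1 : f ⬝ᵥ e = 0)
    (h2 : f ⬝ᵥ w = 0) (h3 : f ⬝ᵥ v = 0) (g : SpecialLinearGroup n F) {a b d : F} (ha : a ≠ 0) (hd : d ≠ 0)
    (hbd : b ≠ d) (he : (g : Matrix n n F) *ᵥ e = a • e) (hw : (g : Matrix n n F) *ᵥ w = a • w)
    (hv : (g : Matrix n n F) *ᵥ v = b • v) (hf : f ᵥ* (g : Matrix n n F) = d • f) {x : V}
    (hx : x ∈ wsp ρ ψ (slA e) (lam e w)) : ρ (tv v f) x = x := by
  have hbd' := sub_ne_zero.2 hbd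
  set c := d / (b - d) with hc
  have k : ∀ {y : n → F}, f ⬝ᵥ y = 0 → (c • f) ⬝ᵥ y = 0 := fun h => by rw [smul_dotProduct, h, smul_zero]
  have e1 : g * tv v (c • f) = tv v (c • f) * (tv v f * g) := by
    apply sl_ext
    rw [← mul_assoc, tv_mul_tv_left (k h3) h3, coe_mul_tv (k h3), coe_tv_mul (by rw [add_dotProduct, k h3, h3, add_zero]),
      hv, add_vecMul, smul_vecMul, hf, smul_vecMulVec, ← vecMulVec_smul, smul_smul, smul_smul, ← add_smul]
    congr 3
    rw [hc]; field_simp; ring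
  have hg := map_mem_wsp_lam (ρ := ρ) (ψ := ψ) ha he hw
  have e2 := comm_of_finrank_one ρ hW hg (tv_mem_wsp_lam (k h1) (k h2) (k h3)) hx
  rw [e1, map_mul, map_mul ρ (tv v (c • f)) g, Module.End.mul_apply, Module.End.mul_apply] at e2
  have e3 := rho_injective _ e2
  rw [← comm_of_finrank_one ρ hW hg (tv_mem_wsp_lam h1 h2 h3) hx, map_mul, Module.End.mul_apply] at e3
  exact rho_injective _ e3

theorem tv_fix (hn : SLGood n F) (hW : finrank K (wsp ρ ψ (slA e) (lam e w)) = 1) {v f : n → F}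
    (h1 : f ⬝ᵥ e = 0) (h2 : f ⬝ᵥ w = 0) (h3 : f ⬝ᵥ v = 0) {x : V} (hx : x ∈ wsp ρ ψ (slA e) (lam e w)) :
    ρ (tv v f) x = x := by
  classical
  by_cases hf : f = 0
  · rw [hf, tv_zero_right, map_one]; rfl
  by_cases hA : LinearMap.ker (dotR f) ≤ Submodule.span F {e, w, v}
  swap
  · obtain ⟨u, hu, hu2⟩ := SetLike.not_le_iff_exists.1 hA
    have hu1 : f ⬝ᵥ u = 0 := by rw [dotProduct_comm]; exact hu
    obtain ⟨f', k0, k⟩ := exists_dot_of_notMem hu2
    have k1 := k e (Submodule.subset_span (by simp))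
    have k2 := k w (Submodule.subset_span (by simp))
    have k3 := k v (Submodule.subset_span (by simp))
    have e1 : tv v f' * tv u f = tv u f * tv v f' * tv v f := by
      apply sl_ext
      rw [coe_mul_tv h3, mul_tv_mulVec (by rw [tv_mulVec hu1, h3]; simp) k3, tv_mulVec hu1, coe_tv_mul_tv k3 hu1,
        coe_tv_mul_tv hu1 k3, k0, h3, k3]
      simp only [one_smul, zero_smul, add_zero]
      abel
    have e2 := comm_of_finrank_one ρ hW (tv_mem_wsp_lam k1 k2 k3) (tv_mem_wsp_lam h1 h2 hu1) hx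
    rw [e1, map_mul, Module.End.mul_apply] at e2
    exact rho_injective _ e2
  have hk := (dotR f).finrank_range_add_finrank_ker
  rw [LinearMap.range_eq_top.2 (LinearMap.surjective_iff_ne_zero.2 (dotR_ne_zero hf)), finrank_top, finrank_self,
    finrank_fintype_fun_eq_card] at hk
  have hle := Submodule.finrank_mono hA
  obtain ⟨y, hy, -⟩ := exists_dot_of_notMem (W := ⊥) hf
  rw [dotProduct_comm] at hy
  have hm : ∀ (c : F) {z : n → F}, f ⬝ᵥ z = 0 → (1 + vecMulVec (c • y) f) *ᵥ z = z := fun c z hz => by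
    rw [add_mulVec, one_mulVec, vecMulVec_mulVec, hz]; simp
  have hm' : ∀ c : F, f ᵥ* (1 + vecMulVec (c • y) f) = (1 + c) • f := fun c => by
    rw [vecMul_add, vecMul_one, vecMul_vecMulVec, dotProduct_smul, hy, add_smul]; simp
  have hdet : ∀ c : F, (1 + vecMulVec (c • y) f).det = 1 + c := fun c => by
    rw [det_one_add_vecMulVec, dotProduct_smul, hy]; simp
  rcases hn with hn | ⟨hn, b, hb, hb2⟩ | ⟨hn, a, ha, ha3⟩
  · have : finrank F (Submodule.span F ({e, w, v} : Set (n → F))) ≤ 3 :=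
      (finrank_span_le_card _).trans (by
        rw [Set.toFinset_insert, Set.toFinset_insert, Set.toFinset_singleton]; exact Finset.card_le_three)
    omega
  · have hv : v ∉ Submodule.span F ({e, w} : Set (n → F)) := fun hv => by
      have a1 : Submodule.span F ({e, w, v} : Set (n → F)) ≤ Submodule.span F {e, w} := Submodule.span_le.2 (by
        rintro _ (rfl | rfl | rfl)
        · exact Submodule.subset_span (by simp)
        · exact Submodule.subset_span (by simp)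
        · exact hv)
      have a2 := Submodule.finrank_mono a1
      have : finrank F (Submodule.span F ({e, w} : Set (n → F))) ≤ 2 :=
        (finrank_span_le_card _).trans (by
          rw [Set.toFinset_insert, Set.toFinset_singleton]; exact Finset.card_le_two)
      omega
    obtain ⟨f', k0, k⟩ := exists_dot_of_notMem hv
    have k1 := k e (Submodule.subset_span (by simp))
    have k2 := k w (Submodule.subset_span (by simp))
    have hn' : ∀ {z : n → F}, f' ⬝ᵥ z = 0 → (1 + vecMulVec ((b - 1) • v) f') *ᵥ z = z := fun hz => by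
      rw [add_mulVec, one_mulVec, vecMulVec_mulVec, hz]; simp
    refine tv_fix_of_torus hW h1 h2 h3 ⟨(1 + vecMulVec ((b - 1) • v) f') * (1 + vecMulVec ((b⁻¹ - 1) • y) f), ?_⟩
      one_ne_zero (inv_ne_zero hb) (b := b) (fun h => hb2 ?_) ?_ ?_ ?_ ?_ hx
    · rw [det_mul, hdet, det_one_add_vecMulVec, dotProduct_smul, k0]
      simp [hb]
    · rw [pow_two]; nth_rewrite 2 [h]; exact mul_inv_cancel₀ hb
    · change (_ * _ : Matrix n n F) *ᵥ e = _
      rw [← mulVec_mulVec, hm _ h1, hn' k1, one_smul]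
    · change (_ * _ : Matrix n n F) *ᵥ w = _
      rw [← mulVec_mulVec, hm _ h2, hn' k2, one_smul]
    · change (_ * _ : Matrix n n F) *ᵥ v = _
      rw [← mulVec_mulVec, hm _ h3, add_mulVec, one_mulVec, vecMulVec_mulVec, k0]
      simp [sub_smul]
    · change f ᵥ* (_ * _ : Matrix n n F) = _
      have : f ᵥ* (1 + vecMulVec ((b - 1) • v) f') = f := by
        rw [vecMul_add, vecMul_one, vecMul_vecMulVec, dotProduct_smul, h3, smul_zero, zero_smul, add_zero]
      rw [← vecMul_vecMul, this, hm']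
      simp
  · refine tv_fix_of_torus hW h1 h2 h3 ⟨a • (1 + vecMulVec (((a ^ 3)⁻¹ - 1) • y) f), ?_⟩ ha
      (d := a * (a ^ 3)⁻¹) (by simp [ha]) (b := a) (fun h => ha3 ?_) ?_ ?_ ?_ ?_ hx
    · rw [det_smul, hdet, hn]
      simp [ha]
    · rw [← inv_eq_one]
      exact (mul_left_cancel₀ ha (h.symm.trans (mul_one a).symm))
    · change (a • _ : Matrix n n F) *ᵥ e = _
      rw [smul_mulVec, hm _ h1]
    · change (a • _ : Matrix n n F) *ᵥ w = _
      rw [smul_mulVec, hm _ h2]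
    · change (a • _ : Matrix n n F) *ᵥ v = _
      rw [smul_mulVec, hm _ h3]
    · change f ᵥ* (a • _ : Matrix n n F) = _
      rw [vecMul_smul, hm', smul_smul]
      simp

/-- Unipotent elements fixing `e` and `w` act trivially on the weight line. -/
theorem unip_fix (hn : SLGood n F) (hW : finrank K (wsp ρ ψ (slA e) (lam e w)) = 1) {g : SpecialLinearGroup n F}
    (hg : IsNilpotent ((g : Matrix n n F) - 1)) (he : (g : Matrix n n F) *ᵥ e = e) (hw : (g : Matrix n n F) *ᵥ w = w)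
    {x : V} (hx : x ∈ wsp ρ ψ (slA e) (lam e w)) : ρ g x = x := by
  refine unip_induction (fun g => (g : Matrix n n F) *ᵥ e = e → (g : Matrix n n F) *ᵥ w = w → ρ g x = x)
    (fun _ _ => by rw [map_one]; rfl) (fun g v φ _ hv hφ _ ih he hw => ?_) g hg he hw
  have := ih (by rw [mul_tv_mulVec hv (hφ v hv), he, hφ e he]; simp)
    (by rw [mul_tv_mulVec hv (hφ v hv), hw, hφ w hw]; simp)
  rwa [map_mul, Module.End.mul_apply, tv_fix hn hW (hφ e he) (hφ w hw) (hφ v hv) hx] at this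

theorem unip_smul (hn : SLGood n F) (hw : w ∉ F ∙ e) (hW : finrank K (wsp ρ ψ (slA e) (lam e w)) = 1)
    {g : SpecialLinearGroup n F} (hg : IsNilpotent ((g : Matrix n n F) - 1)) (he : (g : Matrix n n F) *ᵥ e = e) {c : F}
    (hc : (g : Matrix n n F) *ᵥ w = w + c • e) {x : V} (hx : x ∈ wsp ρ ψ (slA e) (lam e w)) : ρ g x = ψ c • x := by
  obtain ⟨φ, h1, h2⟩ := exists_dot_of_notMem hw
  have h3 : (c • φ) ⬝ᵥ e = 0 := by rw [smul_dotProduct, h2 e (Submodule.mem_span_singleton_self e), smul_zero]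
  have h4 : (-(c • φ)) ⬝ᵥ e = 0 := by rw [neg_dotProduct, h3, neg_zero]
  have h5 := unip_fix hn hW (isNilpotent_mul_tv hg he h4) (by rw [mul_tv_mulVec he h4, he, h4]; simp)
    (by rw [mul_tv_mulVec he h4, hc, neg_dotProduct, smul_dotProduct, h1]; simp) hx
  have h6 : g = g * tv e (-(c • φ)) * slA e ⟨c • φ, h3⟩ := by
    rw [mul_assoc, slA, tv_mul_tv_left h4 h3, neg_add_cancel, tv_zero_right, mul_one]
  rw [h6, map_mul, Module.End.mul_apply, hx, map_smul, h5, lam_apply, smul_dotProduct, h1]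
  simp

end Rep

end CL.LS
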