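/-
Characters of `SL_n(q)` in which the weights of the transvection groups have multiplicity one:
values on unipotent elements, a lower bound for the degree and a divisibility property.
-/
import Cfsg.Agent.Known.LSSL2
import Cfsg.Agent.Char.Prod
import Cfsg.Agent.Char.Integrality

set_option autoImplicit false

open Module Matrix Cfsg CL.GLn

namespace CL.LS

variable {F : Type*} [Field F] [Fintype F] {n : Type*} [Fintype n] [DecidableEq n]

theorem sum_comp_of_surjective {A B : Type*} [AddCommGroup A] [AddCommGroup B] [Fintype A] [Fintype B]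
    (f : A →+ B) (hf : Function.Surjective f) (H : B → ℂ) : ∑ a, H (f a) = Nat.card f.ker * ∑ b, H b := by
  classical
  rw [← Finset.sum_fiberwise Finset.univ f, Finset.mul_sum]
  refine Finset.sum_congr rfl fun b _ => ?_
  rw [Finset.sum_congr rfl fun a ha => by rw [(Finset.mem_filter.1 ha).2], Finset.sum_const, nsmul_eq_mul,
    AddMonoidHom.card_fiber_eq_of_mem_range f (hf b) ⟨0, map_zero f⟩]
  congr 2
  rw [Nat.card_eq_fintype_card, Fintype.card_subtype]
  simp [AddMonoidHom.mem_ker]

omit [Fintype n] [DecidableEq n] in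
theorem card_span_single {e : n → F} (he : e ≠ 0) : Nat.card (F ∙ e) = Fintype.card F := by
  rw [Module.natCard_eq_pow_finrank (K := F), finrank_span_singleton he, pow_one, Nat.card_eq_fintype_card]

theorem sum_lam {e : n → F} (he : e ≠ 0) [Fintype (Dual F (annE e))] (H : Dual F (annE e) → ℂ) :
    ∑ w, H (lam e w) = Fintype.card F * ∑ l, H l := by
  let f : (n → F) →+ Dual F (annE e) := AddMonoidHom.mk' (lam e) fun x y => by ext φ; simp [dotProduct_add]
  have h := sum_comp_of_surjective f (fun l => (exists_lam e l).imp fun _ h => h.symm) H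
  have h2 : Nat.card f.ker = Nat.card (F ∙ e) :=
    Nat.card_congr (Equiv.subtypeEquivRight fun w => lam_eq_zero_iff (e := e) (w := w))
  rwa [h2, card_span_single he] at h

open Classical in
theorem fix_count {ψ : AddChar F ℂ} (hψ : ψ ≠ 1) (N : (n → F) →ₗ[F] n → F) {e η : n → F} (hη : η ⬝ᵥ e = 1) :
    (Fintype.card F : ℂ) * Nat.card (LinearMap.ker N) = Nat.card ((F ∙ e).comap N) +
      (Fintype.card F - 1) * ∑ w, if N w ∈ F ∙ e then ψ (N w ⬝ᵥ η) else 0 := by
  set D := (F ∙ e).comap N
  let c : Dual F D := dotR η ∘ₗ N ∘ₗ D.subtype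
  have h1 : (∑ w, if N w ∈ F ∙ e then ψ (N w ⬝ᵥ η) else 0) = ∑ w : D, ψ (c w) := by
    rw [← Finset.sum_filter]
    exact Finset.sum_subtype _ (fun x => by simp [D]) _
  have h2 : LinearMap.ker c = (LinearMap.ker N).comap D.subtype := by
    ext w
    obtain ⟨a, ha⟩ := Submodule.mem_span_singleton.1 (show N w ∈ F ∙ e from w.2)
    change N w ⬝ᵥ η = 0 ↔ N w = 0
    refine ⟨fun h => ?_, fun h => by rw [h, zero_dotProduct]⟩
    rw [← ha, smul_dotProduct, dotProduct_comm, hη, smul_eq_mul, mul_one] at h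
    rw [← ha, h, zero_smul]
  have h3 : Nat.card (LinearMap.ker N) = Nat.card (LinearMap.ker c) := by
    rw [h2]
    exact Nat.card_congr (Submodule.comapSubtypeEquivOfLe fun x hx => by
      rw [Submodule.mem_comap, show N x = 0 from hx]; exact zero_mem _).toEquiv.symm
  rw [h1, h3]
  by_cases hc : c = 0
  · rw [hc, LinearMap.ker_zero, Nat.card_congr Submodule.topEquiv.toEquiv]
    simp only [LinearMap.zero_apply, AddChar.map_zero_eq_one, Finset.sum_const, Finset.card_univ, nsmul_eq_mul,
      Nat.card_eq_fintype_card]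
    ring
  · rw [sum_psi_dual hψ hc, card_ker_dual hc, Module.natCard_eq_pow_finrank (K := F) (V := D),
      ← Module.Dual.finrank_ker_add_one_of_ne_zero hc, Nat.add_sub_cancel, Nat.card_eq_fintype_card]
    push_cast
    ring

variable {V : Type*} [AddCommGroup V] [Module ℂ V] [FiniteDimensional ℂ V]
  {ρ : Representation ℂ (SpecialLinearGroup n F) V} {ψ : AddChar F ℂ}

/-- All non-zero weights of all transvection groups have multiplicity one. -/
def MultOne (ρ : Representation ℂ (SpecialLinearGroup n F) V) (ψ : AddChar F ℂ) : Prop :=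
  ∀ e : n → F, e ≠ 0 → ∀ l : Dual F (annE e), l ≠ 0 → finrank ℂ (wsp ρ ψ (slA e) l) = 1

/-- The number of fixed vectors. -/
noncomputable def fixN (g : SpecialLinearGroup n F) : ℕ := Nat.card (LinearMap.ker (toLin' ((g : Matrix n n F) - 1)))

open Classical in
theorem char_formula (hψ : ψ ≠ 1) (hn : SLGood n F) (h1 : MultOne ρ ψ) {e : n → F} (he : e ≠ 0)
    {g : SpecialLinearGroup n F} (hg : IsNilpotent ((g : Matrix n n F) - 1)) (hge : (g : Matrix n n F) *ᵥ e = e) :
    (Fintype.card F : ℂ) * ((Fintype.card F - 1) * ρ.character g - fixN g) =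
      Fintype.card F * (Fintype.card F - 1) * (LinearMap.trace ℂ V (ρ g * wproj ρ ψ (slA e) 0) - 1) -
        Nat.card ((F ∙ e).comap (toLin' ((g : Matrix n n F) - 1))) := by
  let _ := Fintype.ofFinite (Dual F (annE e))
  obtain ⟨η, hη, -⟩ := exists_dot_of_notMem (W := ⊥) he
  set N := toLin' ((g : Matrix n n F) - 1) with hN
  have hNw : ∀ w, N w = (g : Matrix n n F) *ᵥ w - w := fun w => by rw [hN, toLin'_apply, sub_mulVec, one_mulVec]
  set τ := fun l => LinearMap.trace ℂ V (ρ g * wproj ρ ψ (slA e) l) with hτ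
  have a1 : ρ.character g = ∑ l, τ l := by
    rw [hτ, ← map_sum, ← Finset.mul_sum, show ∑ l, wproj ρ ψ (slA e) l = 1 from LinearMap.ext fun v => by
      rw [LinearMap.sum_apply, sum_wproj hψ (slA_add e)]; rfl, mul_one]
    rfl
  have a2 : ∀ w, τ (lam e w) = (if N w ∈ F ∙ e then ψ (N w ⬝ᵥ η) else 0) + if lam e w = 0 then τ 0 - 1 else 0 := by
    intro w
    by_cases hw : lam e w = 0
    · obtain ⟨a, rfl⟩ := Submodule.mem_span_singleton.1 (lam_eq_zero_iff.1 hw)
      rw [if_pos hw, hw, hNw, mulVec_smul, hge, sub_self, if_pos (zero_mem _)]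
      simp
    rw [if_neg hw, add_zero]
    split_ifs with h
    · obtain ⟨c, hc⟩ := Submodule.mem_span_singleton.1 h
      rw [hτ]
      dsimp only
      rw [trace_mul_wproj_of_smul hψ (slA_add e) fun v hv => unip_smul hn (mt lam_eq_zero_iff.2 hw) (h1 e he _ hw) hg
        hge (c := c) (by rw [hc, hNw]; simp) hv, h1 e he _ hw, ← hc, smul_dotProduct, dotProduct_comm, hη]
      simp
    · refine trace_mul_wproj_of_ne hψ (slA_add e) (slA_mul g one_ne_zero (hge.trans (one_smul F e).symm)) ?_
      rwa [lam_comp_annAct, inv_one, one_smul, Ne, lam_eq_iff, ← hNw]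
  have a3 := sum_lam he τ
  have a4 := sum_lam he fun l => if l = 0 then τ 0 - 1 else 0
  rw [Finset.sum_congr rfl fun w _ => a2 w, Finset.sum_add_distrib, a4, Finset.sum_ite_eq' _ (0 : Dual F (annE e)),
    if_pos (Finset.mem_univ _), ← a1] at a3
  have a5 := fix_count hψ N hη
  rw [fixN, ← hN]
  linear_combination -((Fintype.card F : ℂ) - 1) * a3 - a5

theorem char_unip (hψ : ψ ≠ 1) (hn : SLGood n F) (h1 : MultOne ρ ψ) {g : SpecialLinearGroup n F}
    (hg : IsNilpotent ((g : Matrix n n F) - 1)) : (Fintype.card F - 1) * ρ.character g - fixN g =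
      (Fintype.card F - 1) * finrank ℂ V - (Fintype.card F : ℂ) ^ Fintype.card n := by
  classical
  refine unip_induction (fun g => (Fintype.card F - 1) * ρ.character g - fixN g =
      (Fintype.card F - 1) * finrank ℂ V - (Fintype.card F : ℂ) ^ Fintype.card n) ?_
    (fun g v φ hv hgv hφ hg ih => ?_) g hg
  · simp [fixN]
  have h0 := hφ v hgv
  have a1 := char_formula hψ hn h1 hv hg hgv
  have a2 := char_formula hψ hn h1 hv (isNilpotent_mul_tv hg hgv h0) (by rw [mul_tv_mulVec hgv h0, hgv, h0]; simp)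
  have a3 : ρ (g * tv v φ) * wproj ρ ψ (slA v) 0 = ρ g * wproj ρ ψ (slA v) 0 := LinearMap.ext fun x => by
    have := wproj_mem (ρ := ρ) (ψ := ψ) (slA_add v) 0 x ⟨φ, h0⟩
    rw [LinearMap.zero_apply, AddChar.map_zero_eq_one, one_smul] at this
    rw [map_mul, Module.End.mul_apply, Module.End.mul_apply, Module.End.mul_apply]
    exact congrArg _ this
  have a4 : (F ∙ v).comap (toLin' (((g * tv v φ : SpecialLinearGroup n F) : Matrix n n F) - 1)) =
      (F ∙ v).comap (toLin' ((g : Matrix n n F) - 1)) := by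
    ext w
    simp only [Submodule.mem_comap, toLin'_apply, sub_mulVec, one_mulVec]
    rw [mul_tv_mulVec hgv h0, add_sub_right_comm]
    exact Submodule.add_mem_iff_left _ (Submodule.smul_mem _ _ (Submodule.mem_span_singleton_self v))
  rw [a3, a4, ← a1, ih] at a2
  exact (mul_left_cancel₀ (Nat.cast_ne_zero.2 Fintype.card_ne_zero) a2).symm

theorem card_orbits_utSL [LinearOrder n] :
    Nat.card (MulAction.orbitRel.Quotient (utSL n F) (n → F)) ≤ Fintype.card n * (Fintype.card F - 1) + 1 := by
  classical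
  have := Nat.card_le_card_of_surjective (fun x : Option (n × Fˣ) =>
    (Quotient.mk'' (x.elim 0 fun p => Pi.single p.1 (p.2 : F)) : MulAction.orbitRel.Quotient (utSL n F) (n → F))) ?_
  · simpa [Fintype.card_units] using this
  rintro ⟨v⟩
  by_cases hv : v = 0
  · exact ⟨none, by rw [hv]; rfl⟩
  obtain ⟨i, hi, hmax⟩ := (Finset.univ.filter fun i => v i ≠ 0).exists_max_image id
    (by simpa [Finset.filter_nonempty_iff] using Function.ne_iff.1 hv)
  have hi' : v i ≠ 0 := by simpa using hi
  set u : n → F := Pi.single i (v i) - v with hu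
  have hui : u i = 0 := by simp [hu]
  have h0 : (Pi.single i (v i)⁻¹ : n → F) ⬝ᵥ u = 0 := by simp [hui]
  refine ⟨some (i, Units.mk0 _ hi'), Quotient.sound' ⟨⟨tv u (Pi.single i (v i)⁻¹), mem_utSL.2 ⟨fun a b hab => ?_,
    fun a => ?_⟩⟩, ?_⟩⟩
  · rw [coe_tv h0, Matrix.add_apply, one_apply_ne hab.ne', vecMulVec_apply, zero_add]
    by_cases hb : b = i
    · subst hb
      have : v a = 0 := by
        by_contra h
        exact absurd (hmax a (by simpa using h)) (not_le.2 hab)
      simp [hu, this, hab.ne']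
    · simp [hb]
  · rw [coe_tv h0, Matrix.add_apply, one_apply_eq, vecMulVec_apply]
    by_cases ha : a = i
    · simp [ha, hui]
    · simp [ha]
  · change (tv u (Pi.single i (v i)⁻¹) : Matrix n n F) *ᵥ v = Pi.single i (v i)
    rw [tv_mulVec h0]
    simp [hi', hu]

theorem deg_lower (hψ : ψ ≠ 1) (hn : SLGood n F) (h1 : MultOne ρ ψ) :
    Fintype.card F ^ Fintype.card n ≤ (Fintype.card F - 1) * (finrank ℂ V + Fintype.card n) + 1 := by
  classical
  let _ : LinearOrder n := LinearOrder.lift' (Fintype.equivFin n) (Fintype.equivFin n).injective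
  obtain ⟨m, hm⟩ := ((CL.Char.isCharacter_character ρ).comp (utSL n F).subtype).exists_nat_classInner
    CL.Char.isIrrCharacter_one.isCharacter
  have h2 := CL.Char.classInner_card_fixedBy_one (G := utSL n F) (n → F)
  have h3 := card_orbits_utSL (n := n) (F := F)
  rw [CL.Char.classInner_one_right] at hm h2
  have h4 : ∀ g : utSL n F, (Fintype.card F - 1) * ρ.character g - Nat.card (MulAction.fixedBy (n → F) g) =
      (Fintype.card F - 1) * finrank ℂ V - (Fintype.card F : ℂ) ^ Fintype.card n := fun g => by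
    rw [← char_unip hψ hn h1 (isNilpotent_of_mem_utSL g.2), fixN]
    congr 2
    refine Nat.card_congr (Equiv.subtypeEquivRight fun w => ?_)
    rw [LinearMap.mem_ker, toLin'_apply, sub_mulVec, one_mulVec, sub_eq_zero]
    rfl
  have h5 := Finset.sum_congr (rfl : (Finset.univ : Finset (utSL n F)) = _) fun g _ => h4 g
  rw [Finset.sum_sub_distrib, ← Finset.mul_sum, Finset.sum_const, Finset.card_univ, nsmul_eq_mul,
    ← Nat.card_eq_fintype_card (α := utSL n F)] at h5
  have h6 : (Nat.card (utSL n F) : ℂ) ≠ 0 := Nat.cast_ne_zero.2 Nat.card_pos.ne'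
  set o := Nat.card (MulAction.orbitRel.Quotient (utSL n F) (n → F))
  obtain ⟨r, hr⟩ : ∃ r, Fintype.card F = r + 1 := ⟨_, (Nat.sub_add_cancel Fintype.card_pos).symm⟩
  have h7 : ((r + 1) ^ Fintype.card n + r * m : ℕ) = ((r * finrank ℂ V + o : ℕ) : ℂ) := by
    rw [hr] at h5
    push_cast at h5 ⊢
    rw [← hm, ← h2]
    field_simp
    simp only [Subgroup.coe_subtype]
    linear_combination h5
  have h8 := Nat.cast_injective h7
  rw [hr, Nat.add_sub_cancel] at h3 ⊢
  nlinarith [Nat.zero_le (r * m)]

theorem deg_dvd (hψ : ψ ≠ 1) (h1 : MultOne ρ ψ) [ρ.IsIrreducible] :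
    finrank ℂ V ∣ Nat.card (Projectivization F (n → F)) *
      (Fintype.card F ^ (Fintype.card n - 1) * (Fintype.card F ^ (Fintype.card n - 1) - 1)) := by
  classical
  let _ := Fintype.ofFinite (Projectivization F (n → F))
  let T : SpecialLinearGroup n F → Projectivization F (n → F) → Prop := fun g p =>
    ∀ x, (g : Matrix n n F) *ᵥ x - x ∈ p.submodule
  have hT : ∀ g h p, T g p → T (h * g * h⁻¹) (h • p) := by
    intro g h p hp x
    induction p using Projectivization.ind with
    | h v hv =>
    obtain ⟨a, ha⟩ := Submodule.mem_span_singleton.1 (hp ((h⁻¹ : SpecialLinearGroup n F) • x))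
    refine Submodule.mem_span_singleton.2 ⟨a, ?_⟩
    change a • h • v = (h * g * h⁻¹) • x - x
    rw [← smul_comm h a v, ha, smul_sub, smul_inv_smul, mul_smul, mul_smul]
    rfl
  have hI := CL.Char.isIntegral_sum_mul_char_div ρ (fun g => ∑ p, if T g p then 1 else 0) (fun g h => by
    refine (Fintype.sum_equiv (MulAction.toPerm h) (fun p => if T g p then (1 : ℂ) else 0) _ fun p =>
      if_congr ⟨hT g h p, fun hp => ?_⟩ rfl rfl).symm
    simpa [mul_assoc] using hT _ h⁻¹ _ hp) fun g => IsIntegral.sum _ fun p _ => by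
      split_ifs
      · exact isIntegral_one
      · exact isIntegral_zero
  set Q := Fintype.card F ^ (Fintype.card n - 1) with hQ
  have hp : ∀ p, ∃ m : ℕ, m + (Q - 1) = finrank ℂ V ∧
      ∑ g, (if T g p then 1 else 0) * ρ.character g = (Q * m : ℕ) := by
    intro p
    have he := p.rep_nonzero
    set e := p.rep
    let _ := Fintype.ofFinite (Dual F (annE e))
    have hc : Nat.card (annE e) = Q := by rw [card_annE he, Nat.card_eq_fintype_card]
    refine ⟨finrank ℂ (wsp ρ ψ (slA e) 0), ?_, ?_⟩
    · rw [← sum_finrank_wsp (ρ := ρ) hψ (slA_add e), ← Finset.add_sum_erase _ _ (Finset.mem_univ 0),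
        Finset.sum_congr rfl fun l hl => h1 e he l (Finset.ne_of_mem_erase hl), Finset.sum_const,
        Finset.card_erase_of_mem (Finset.mem_univ _), Finset.card_univ, ← Nat.card_eq_fintype_card, card_dual, hc]
      simp
    have a1 := trace_mul_wproj (ρ := ρ) (ψ := ψ) (a := slA e) 1 0
    rw [map_one, one_mul, trace_wproj hψ (slA_add e), hc] at a1
    have hQ0 : (Q : ℂ) ≠ 0 := by simp [hQ]
    push_cast
    rw [a1, mul_inv_cancel_left₀ hQ0]
    simp only [ite_mul, one_mul, zero_mul, LinearMap.zero_apply, neg_zero, AddChar.map_zero_eq_one]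
    rw [← Finset.sum_filter]
    obtain ⟨η, hη, -⟩ := exists_dot_of_notMem (W := ⊥) he
    refine (Finset.sum_bij (fun φ _ => slA e φ) (fun φ _ => ?_) (fun φ _ φ' _ h => ?_) (fun g hg => ?_)
      fun _ _ => rfl).symm
    · refine Finset.mem_filter.2 ⟨Finset.mem_univ _, fun x => ?_⟩
      rw [slA, tv_mulVec φ.2, add_sub_cancel_left, p.submodule_eq]
      exact Submodule.smul_mem _ _ (Submodule.mem_span_singleton_self e)
    · have := congrArg (fun g : SpecialLinearGroup n F => η ᵥ* (g : Matrix n n F)) h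
      simp only [coe_slA, vecMul_add, vecMul_vecMulVec, hη, one_smul, add_right_inj] at this
      exact Subtype.ext this
    · have hg' := (Finset.mem_filter.1 hg).2
      have a2 : (g : Matrix n n F) = 1 + vecMulVec e (η ᵥ* ((g : Matrix n n F) - 1)) := by
        refine Matrix.toLin'.injective (LinearMap.ext fun x => ?_)
        have := hg' x
        rw [p.submodule_eq] at this
        obtain ⟨a, ha⟩ := Submodule.mem_span_singleton.1 this
        rw [toLin'_apply, toLin'_apply, add_mulVec, one_mulVec, vecMulVec_mulVec, ← dotProduct_mulVec, sub_mulVec,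
          one_mulVec, ← ha, dotProduct_smul, hη, op_smul_eq_smul, smul_eq_mul, mul_one, ha, add_sub_cancel]
      have a3 := g.2
      rw [a2, det_one_add_vecMulVec, add_eq_left] at a3
      exact ⟨⟨_, a3⟩, Finset.mem_univ _, sl_ext ((coe_slA e _).trans a2.symm)⟩
  choose m hm1 hm2 using hp
  simp_rw [Finset.sum_mul] at hI
  rw [Finset.sum_comm, Finset.sum_congr rfl fun p _ => hm2 p, ← Nat.cast_sum] at hI
  have hV : finrank ℂ V ≠ 0 := by
    have := CL.Char.nontrivial_of_irr ρ
    exact finrank_pos.ne'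
  have h2 : finrank ℂ V ∣ ∑ p, Q * m p := CL.Char.dvd_of_isIntegral_div hV hI
  have h3 : ∑ p, Q * m p + Nat.card (Projectivization F (n → F)) * (Q * (Q - 1)) =
      finrank ℂ V * (Nat.card (Projectivization F (n → F)) * Q) := by
    rw [Nat.card_eq_fintype_card, ← Finset.card_univ, ← smul_eq_mul, ← Finset.sum_const, ← Finset.sum_add_distrib,
      Finset.sum_congr rfl fun p _ => by rw [← mul_add, hm1 p], Finset.sum_const, smul_eq_mul]
    ring
  exact (Nat.dvd_add_right h2).1 (h3 ▸ dvd_mul_right _ _)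

end CL.LS
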