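/-
The smallest degree of a non-linear character of `SL_n(q)`.
-/
import Cfsg.Agent.Known.LSSL3

set_option autoImplicit false

open Module Matrix Cfsg CL.GLn

namespace CL.LS

def slChk (n q k : ℕ) : Bool :=
  decide (n < 3) || decide (q < 2) || decide (k < 2) || decide (n < k) ||
    ((q ^ n - 1) / (q - 1) * (q ^ (n - 1) * (q ^ (n - 1) - 1))) % ((q ^ n - 1) / (q - 1) - k) != 0 ||
    decide (100 * n + q ∈ [302, 304, 402, 403, 310])

theorem sl_arith_fin0 : ∀ n < 15, ∀ q < 48, ∀ k < 15, slChk n q k = true := by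
  decide +kernel

theorem sl_arith_fin : ∀ n < 15, ∀ q < 48, ∀ k < n + 1, 3 ≤ n → 2 ≤ q → 2 ≤ k →
    ((q ^ n - 1) / (q - 1) * (q ^ (n - 1) * (q ^ (n - 1) - 1))) % ((q ^ n - 1) / (q - 1) - k) = 0 →
    (n, q) = (3, 2) ∨ (n, q) = (3, 4) ∨ (n, q) = (4, 2) ∨ (n, q) = (4, 3) ∨ (n, q) = (3, 10) := by
  intro n hn q hq k hk a b c d
  have := sl_arith_fin0 n hn q hq k (by omega)
  simp only [slChk, d, bne_self_eq_false, Bool.or_false, Bool.or_eq_true, decide_eq_true_eq, List.mem_cons,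
    List.not_mem_nil, or_false] at this
  simp only [Prod.mk.injEq]
  omega

theorem cube_lt_pow (m : ℕ) : (m + 15) ^ 3 < 2 ^ (m + 12) := by
  induction m with
  | zero => norm_num
  | succ m ih => rw [show m + 1 + 12 = m + 12 + 1 from rfl, pow_succ 2]; nlinarith [Nat.zero_le (m ^ 3), Nat.zero_le (m ^ 2)]

theorem cube_lt_pow' (m : ℕ) : (m + 5) ^ 3 < 48 ^ (m + 2) := by
  induction m with
  | zero => norm_num
  | succ m ih => rw [show m + 1 + 2 = m + 2 + 1 from rfl, pow_succ 48]; nlinarith [Nat.zero_le (m ^ 3), Nat.zero_le (m ^ 2)]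

theorem sl_arith {n q N d : ℕ} (hn : 3 ≤ n) (hq : 2 ≤ q) (hN : q ^ n = N * (q - 1) + 1)
    (h1 : q ^ n ≤ (q - 1) * (d + n) + 1) (h2 : d ∣ N * (q ^ (n - 1) * (q ^ (n - 1) - 1)))
    (hex : ¬ ((n, q) = (3, 2) ∨ (n, q) = (3, 4) ∨ (n, q) = (4, 2) ∨ (n, q) = (4, 3) ∨ (n, q) = (3, 10))) :
    N ≤ d + 1 := by
  by_contra hc
  obtain ⟨j, hj⟩ : ∃ j, N = d + (j + 2) := ⟨N - d - 2, by omega⟩
  obtain ⟨r, rfl⟩ : ∃ r, q = r + 2 := ⟨q - 2, by omega⟩
  obtain ⟨m, rfl⟩ : ∃ m, n = m + 3 := ⟨n - 3, by omega⟩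
  have e1 : r + 2 - 1 = r + 1 := rfl
  have e2 : m + 3 - 1 = m + 2 := rfl
  have hk : j + 2 ≤ m + 3 := by
    rw [hN, e1, mul_comm, add_le_add_iff_right] at h1
    have := Nat.le_of_mul_le_mul_left h1 (by omega)
    omega
  have key : m + 3 < 15 ∧ r + 2 < 48 := by
    rw [e1] at hN
    rw [e2] at h2
    obtain ⟨M, hM⟩ := Nat.sub_one_dvd_pow_sub_one (r + 2) (m + 2)
    rw [e1] at hM
    have hpos : 0 < (r + 2) ^ (m + 2) := by positivity
    have hM' : (r + 2) ^ (m + 2) = (r + 1) * M + 1 := by omega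
    have hNM : N = (r + 2) * M + 1 := by
      refine Nat.eq_of_mul_eq_mul_right (show 0 < r + 1 by omega) ?_
      rw [pow_succ, hM'] at hN
      nlinarith
    rw [hM] at h2
    set g := Nat.gcd d ((r + 2) ^ (m + 2))
    have a1 : d ∣ Nat.gcd d N * (g * ((r + 1) * Nat.gcd d M)) := by
      rw [Nat.dvd_gcd_mul_iff_dvd_mul, mul_left_comm, Nat.dvd_gcd_mul_iff_dvd_mul, ← mul_assoc, ← mul_assoc,
        Nat.dvd_mul_gcd_iff_dvd_mul]
      convert h2 using 1
      ring
    have a2 : Nat.gcd d N ≤ j + 2 := Nat.le_of_dvd (by omega)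
      ((Nat.dvd_add_right (Nat.gcd_dvd_left d N)).1 (hj ▸ Nat.gcd_dvd_right d N))
    have a3 : Nat.gcd d M ≤ j + 1 := Nat.le_of_dvd (by omega) ((Nat.dvd_add_right (Nat.gcd_dvd_left d M)).1
      ((show d + (j + 1) = (r + 2) * M by omega) ▸ (Nat.gcd_dvd_right d M).mul_left _))
    have a4 : g ∣ (j + 2) * (r + 1) + 1 := by
      refine (Nat.dvd_add_right ((Nat.gcd_dvd_left d _).mul_right (r + 1))).1 ?_
      rw [show d * (r + 1) + ((j + 2) * (r + 1) + 1) = (r + 2) ^ (m + 2) * (r + 2) by rw [← pow_succ, hN, hj]; ring]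
      exact (Nat.gcd_dvd_right _ _).mul_right _
    have hd : 0 < d := by
      have : m + 3 < (r + 2) ^ (m + 2) := by
        calc m + 3 < 2 ^ (m + 2) := by
              have := Nat.lt_two_pow_self (n := m)
              rw [pow_add]; omega
          _ ≤ _ := Nat.pow_le_pow_left (by omega) _
      nlinarith
    have a5 : d ≤ (j + 2) * (g * ((r + 1) * (j + 1))) :=
      (Nat.le_of_dvd (by
        have := Nat.gcd_pos_of_pos_left N hd
        have := Nat.gcd_pos_of_pos_left M hd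
        have := Nat.gcd_pos_of_pos_left ((r + 2) ^ (m + 2)) hd
        positivity) a1).trans (by gcongr)
    rcases Nat.eq_zero_or_pos m with rfl | hm
    · refine ⟨by omega, ?_⟩
      have a6 : g ≤ 4 := by
        have b1 : g ∣ (r + 2) ^ 2 := Nat.gcd_dvd_right _ _
        have b2 : g ∣ (j + 1) ^ 2 := by
          refine (Nat.dvd_add_right (a4.mul_right ((j + 2) * (r + 2) + (j + 1)))).1 ?_
          rw [show ((j + 2) * (r + 1) + 1) * ((j + 2) * (r + 2) + (j + 1)) + (j + 1) ^ 2 =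
            (j + 2) ^ 2 * (r + 2) ^ 2 by ring]
          exact b1.mul_left _
        have := Nat.le_of_dvd (by positivity) b2
        nlinarith
      have a7 : M = r + 3 := by
        refine Nat.eq_of_mul_eq_mul_left (show 0 < r + 1 by omega) ?_
        rw [show 0 + 2 = 2 from rfl] at hM'
        have : (r + 2) ^ 2 = (r + 1) * (r + 3) + 1 := by ring
        omega
      have a8 : d ≤ 3 * (4 * ((r + 1) * 2)) := a5.trans (by gcongr; omega)
      subst a7
      nlinarith
    have a6 : g ≤ (j + 2) * (r + 2) := (Nat.le_of_dvd (by omega) a4).trans (by nlinarith)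
    have a7 : (r + 2) ^ m * (r + 2) ^ 3 < (m + 3) ^ 3 * (r + 2) ^ 3 := by
      have b1 : d ≤ (j + 2) * ((j + 2) * (r + 2) * ((r + 1) * (j + 1))) := a5.trans (by gcongr)
      have b2 : (j + 2) ^ 3 ≤ (m + 3) ^ 3 := Nat.pow_le_pow_left hk 3
      rw [← pow_add, hN, hj]
      calc (d + (j + 2)) * (r + 1) + 1
          ≤ ((j + 2) * ((j + 2) * (r + 2) * ((r + 1) * (j + 1))) + (j + 2)) * (r + 1) + 1 := by gcongr
        _ < (j + 2) ^ 3 * (r + 2) ^ 3 := by ring_nf; nlinarith [Nat.zero_le (r * j), Nat.zero_le (r ^ 2 * j), Nat.zero_le (r * j ^ 2)]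
        _ ≤ _ := by gcongr
    have a8 := Nat.lt_of_mul_lt_mul_right a7
    constructor
    · by_contra h
      obtain ⟨s, rfl⟩ : ∃ s, m = s + 12 := ⟨m - 12, by omega⟩
      have := cube_lt_pow s
      have := Nat.pow_le_pow_left (show 2 ≤ r + 2 by omega) (s + 12)
      rw [show s + 12 + 3 = s + 15 from rfl] at a8
      omega
    · by_contra h
      rcases Nat.lt_or_ge m 2 with h3 | h3
      · obtain rfl : m = 1 := by omega
        have b1 : g ≤ 4 * (r + 1) + 1 := (Nat.le_of_dvd (by omega) a4).trans (by gcongr)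
        have b2 : d ≤ 4 * ((4 * (r + 1) + 1) * ((r + 1) * 3)) := a5.trans (by gcongr; omega)
        have b3 : (r + 2) ^ (1 + 3) ≤ (4 * ((4 * (r + 1) + 1) * ((r + 1) * 3)) + 4) * (r + 1) + 1 := by
          rw [hN, hj]; gcongr
        obtain ⟨s, rfl⟩ : ∃ s, r = s + 46 := ⟨r - 46, by omega⟩
        ring_nf at b3
        omega
      · obtain ⟨s, rfl⟩ : ∃ s, m = s + 2 := ⟨m - 2, by omega⟩
        have := cube_lt_pow' s
        have := Nat.pow_le_pow_left (show 48 ≤ r + 2 by omega) (s + 2)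
        rw [show s + 2 + 3 = s + 5 from rfl] at a8
        omega
  have e3 : ((r + 2) ^ (m + 3) - 1) / (r + 2 - 1) = N := by
    rw [hN, Nat.add_sub_cancel, Nat.mul_div_cancel _ (by omega)]
  refine hex (sl_arith_fin _ key.1 _ key.2 (j + 2) (by omega) hn hq (by omega) ?_)
  rw [e3, show N - (j + 2) = d by omega]
  exact Nat.mod_eq_zero_of_dvd h2

variable {F : Type*} [Field F] [Fintype F]

theorem exists_pow_ne_one {i : ℕ} (h : ¬ Fintype.card F - 1 ∣ i) : ∃ a : F, a ≠ 0 ∧ a ^ i ≠ 1 := by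
  rw [← FiniteField.forall_pow_eq_one_iff, not_forall] at h
  obtain ⟨x, hx⟩ := h
  exact ⟨x, x.ne_zero, fun e => hx (Units.ext (by simpa using e))⟩

theorem sl_min_degree {n : ℕ} (hn : 3 ≤ n)
    (hex : (n, Fintype.card F) ≠ (3, 2) ∧ (n, Fintype.card F) ≠ (3, 4) ∧ (n, Fintype.card F) ≠ (4, 2) ∧
      (n, Fintype.card F) ≠ (4, 3)) {k : ℕ} (ρ : Representation ℂ (SpecialLinearGroup (Fin n) F) (Fin k → ℂ))
    (hρ : ρ.IsIrreducible) (hk : 2 ≤ k) : Nat.card (Projectivization F (Fin n → F)) ≤ k + 1 := by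
  obtain ⟨ψ, hψ⟩ := exists_psi_complex (F := F)
  have hq : 2 ≤ Fintype.card F := Fintype.one_lt_card
  have h3 : 3 ≤ Fintype.card (Fin n) := by simpa using hn
  have hN := Projectivization.card' F (Fin n → F)
  rw [Nat.card_fun, Nat.card_eq_fintype_card (α := F), Nat.card_fin] at hN
  have hker : MonoidHom.ker ρ ≤ Subgroup.center _ := (CL.SLn.normal_le_center_or_eq_top (.inl h3) _).resolve_right
    fun h => not_commutator_le_ker ρ hρ hk (h ▸ le_top)
  by_cases h1 : MultOne ρ ψ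
  · have hg : SLGood (Fin n) F := by
      rw [SLGood, Fintype.card_fin]
      obtain ⟨x1, x2, x3, x4⟩ := hex
      rcases (show n = 3 ∨ n = 4 ∨ 5 ≤ n by omega) with rfl | rfl | h
      · refine .inr (.inr ⟨rfl, exists_pow_ne_one fun h => ?_⟩)
        rcases (Nat.dvd_prime Nat.prime_three).1 h with h | h
        · exact x1 (by rw [show Fintype.card F = 2 by omega])
        · exact x2 (by rw [show Fintype.card F = 4 by omega])
      · refine .inr (.inl ⟨rfl, exists_pow_ne_one fun h => ?_⟩)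
        rcases (Nat.dvd_prime Nat.prime_two).1 h with h | h
        · exact x3 (by rw [show Fintype.card F = 2 by omega])
        · exact x4 (by rw [show Fintype.card F = 3 by omega])
      · exact .inl h
    have a1 := deg_lower hψ hg h1
    have a2 := deg_dvd hψ h1
    rw [finrank_fin_fun, Fintype.card_fin] at a1 a2
    refine sl_arith hn hq hN a1 a2 ?_
    rintro (h | h | h | h | h)
    · exact hex.1 h
    · exact hex.2.1 h
    · exact hex.2.2.1 h
    · exact hex.2.2.2 h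
    · have := FiniteField.isPrimePow_card F
      rw [(Prod.mk.inj h).2] at this
      exact absurd this (by decide)
  · simp only [MultOne, not_forall] at h1
    obtain ⟨e, he, l, hl, h1⟩ := h1
    have a1 := one_le_finrank_wsp_slA hψ h3 hker he hl
    have a2 := mul_le_finrank_sl (ρ := ρ) hψ h3 he hl
    rw [finrank_fin_fun, Fintype.card_fin, Nat.card_eq_fintype_card] at a2
    have a3 := (Nat.mul_le_mul_right _ (show 2 ≤ _ from lt_of_le_of_ne a1 (Ne.symm h1))).trans a2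
    obtain ⟨r, hr⟩ : ∃ r, Fintype.card F = r + 2 := ⟨Fintype.card F - 2, by omega⟩
    obtain ⟨m, rfl⟩ : ∃ m, n = m + 2 := ⟨n - 2, by omega⟩
    rw [hr, show m + 2 - 1 = m + 1 from rfl] at a3
    rw [hr, show r + 2 - 1 = r + 1 from rfl, pow_succ] at hN
    have a4 : r + 2 ≤ (r + 2) ^ (m + 1) := Nat.le_self_pow (by omega) _
    obtain ⟨Q, hQ⟩ : ∃ Q, (r + 2) ^ (m + 1) = Q + 1 := ⟨_, (Nat.sub_add_cancel (by omega)).symm⟩
    rw [hQ] at hN a3 a4
    refine Nat.le_of_mul_le_mul_right (c := r + 1) ?_ (by omega)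
    rw [Nat.add_sub_cancel] at a3
    nlinarith

end CL.LS
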