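/-
Landazuri-Seitz bounds for special unitary groups, by induction along long root subgroups.
-/
import Cfsg.Agent.Known.LSSp
import Cfsg.Agent.Cls.UniSimple
import Cfsg.Agent.Cls.UniStab

set_option autoImplicit false

open Module CL.Uni

namespace CL.LS

universe u v w

variable {F : Type u} [Field F] {q : ℕ} {σ : F →+* F} {N : Type v} [AddCommGroup N] [Module F N]
  [FiniteDimensional F N] {B : N →ₛₗ[σ] N →ₗ[F] F}

omit [FiniteDimensional F N] in
theorem sub_bar_skew (h : IsHerm B q) (x : F) : σ (x - σ x) = -(x - σ x) := by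
  rw [map_sub, h.bar_bar, neg_sub]

open Classical in
/-- The transvections with centre `v`, parametrised additively by `F`. -/
noncomputable def suT (h : IsHerm B q) (v : N) (x : F) : SUG B :=
  if hv : B v v = 0 then
    ⟨(h.exists_tv hv (sub_bar_skew h x)).choose, (h.exists_tv hv (sub_bar_skew h x)).choose_spec.1⟩
  else 1

theorem isTv_suT (h : IsHerm B q) {v : N} (hv : B v v = 0) (x : F) :
    IsTv B v (x - σ x) (suT h v x).1 := by
  rw [suT, dif_pos hv]
  exact (h.exists_tv hv (sub_bar_skew h x)).choose_spec.2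

theorem eq_suT (h : IsHerm B q) {v : N} (hv : B v v = 0) {x : F} {g : SUG B}
    (hg : IsTv B v (x - σ x) g.1) : g = suT h v x :=
  Subtype.ext (hg.unique (isTv_suT h hv x))

theorem suT_add (h : IsHerm B q) {v : N} (hv : B v v = 0) (x y : F) :
    suT h v (x + y) = suT h v x * suT h v y := by
  refine (eq_suT h hv ?_).symm
  have := (isTv_suT h hv x).mul (isTv_suT h hv y) hv
  rwa [show x - σ x + (y - σ y) = x + y - σ (x + y) by rw [map_add]; ring] at this

theorem suT_fixed (h : IsHerm B q) {v : N} (hv : B v v = 0) {x : F} (hx : σ x = x) :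
    suT h v x = 1 := by
  refine (eq_suT h hv ?_).symm
  rw [hx, sub_self]
  exact isTv_zero v

theorem suT_smul (h : IsHerm B q) {v : N} (hv : B v v = 0) (a x : F) :
    suT h (a • v) x = suT h v (a * σ a * x) := by
  refine eq_suT h hv ?_
  have := isTv_smul.mp (isTv_suT h (v := a • v) (by simp [LinearMap.map_smulₛₗ, hv]) x)
  rwa [show (x - σ x) * (a * σ a) = a * σ a * x - σ (a * σ a * x) by
    rw [map_mul, map_mul, h.bar_bar]; ring] at this

theorem suT_conj (h : IsHerm B q) {v : N} (hv : B v v = 0) (k : SUG B) (x : F) :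
    suT h (k.1 v) x * k = k * suT h v x := by
  have hk := SUG_le_UG k.2
  rw [← eq_suT h (v := k.1 v) (by rw [hk, hv]) (g := k * suT h v x * k⁻¹) ((isTv_suT h hv x).conj hk)]
  group

theorem suT_zero (h : IsHerm B q) (x : F) : suT h 0 x = 1 :=
  (eq_suT h (by simp) fun y => by simp).symm

variable {K M : Type*} [Field K] [AddCommGroup M] [Module K M] [FiniteDimensional K M]
  {ψ : AddChar F K}

omit [FiniteDimensional F N] in
/-- The orthogonal complement of a hyperbolic pair. -/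
theorem hyp_perp (h : IsHerm B q) {e f : N} (he : B e e = 0) (hf : B f f = 0) (hef : B e f = 1) :
    Disjoint (Submodule.span F {e, f}) (perp B (Submodule.span F {e, f})) := by
  refine h.disjoint_perp_iff.mpr fun u hu h0 => ?_
  obtain ⟨a, b, rfl⟩ := Submodule.mem_span_pair.mp hu
  have h1 := h0 e (Submodule.subset_span (by simp))
  have h2 := h0 f (Submodule.subset_span (by simp))
  simp only [map_add, LinearMap.map_smulₛₗ, LinearMap.add_apply, LinearMap.smul_apply, he, hf, hef,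
    h.flip_one hef, smul_eq_mul, mul_zero, mul_one, zero_add, add_zero, map_eq_zero] at h1 h2
  simp [h1, h2]

theorem finrank_hyp_perp (h : IsHerm B q) {e f : N} (he : B e e = 0) (hf : B f f = 0) (hef : B e f = 1) :
    finrank F (perp B (Submodule.span F {e, f})) + 2 = finrank F N := by
  have h1 := h.finrank_add_finrank_perp (Submodule.span F {e, f})
  have h2 := finrank_span_eq_card (linearIndependent_hyperbolic he hf (by simp [hef])
    (by simp [h.flip_one hef]))
  rw [Matrix.range_cons_cons_empty] at h2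
  simp only [Fintype.card_fin] at h2
  omega

/-- The Heisenberg bound for a non-trivial weight of a long root subgroup. -/
theorem pow_le_finrank_wsp_suT (h : IsHerm B q) (hψ : ψ ≠ 1) (ρ : SUG B →* Module.End K M) {e f : N}
    (he : B e e = 0) (hf : B f f = 0) (hef : B e f = 1) {l : Dual F F} (hl : l ≠ 0)
    (hW : wsp ρ ψ (suT h e) l ≠ ⊥) : q ^ (finrank F N - 2) ≤ finrank K (wsp ρ ψ (suT h e) l) := by
  have := h.bar.finite
  have := h.finite
  set W := perp B (Submodule.span F {e, f}) with hWd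
  have hH : IsHerm (B.domRestrict₁₂ W W) q := h.restrict (h.disjoint_perp_perp (hyp_perp h he hf hef))
  have heW : ∀ u : W, B e u = 0 := fun u => u.2 e (Submodule.subset_span (by simp))
  have hE : ∀ u : W, ∃ (c : F) (g : SUG B), IsEich B e u c g.1 := fun u => by
    obtain ⟨c, hc⟩ := h.bar.exists_trace_eq (h.self_fixed u)
    obtain ⟨g, hg, hg'⟩ := h.exists_eich he (heW u) hc
    exact ⟨c, ⟨g, hg⟩, hg'⟩
  choose c E hE using hE
  have hinv : ∀ u : W, ∀ m ∈ wsp ρ ψ (suT h e) l, ρ (E u) m ∈ wsp ρ ψ (suT h e) l := fun u m hm => by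
    have := map_mem_wsp (σ := LinearMap.id) (g := E u) (fun x => by
      have := suT_conj h he (E u) x
      rwa [(hE u).fix he (h.flip_zero (heW u))] at this) hm
    simpa using this
  have hcard := card_le_finrank_sq ρ _ hW E E hinv hinv (fun i j => ψ (l (B i j))) (fun i i' hii => by
    have h1 := dual_eq_of_psi hψ (l := l ∘ₗ (B.domRestrict₁₂ W W i)) (l' := l ∘ₗ (B.domRestrict₁₂ W W i'))
      fun j => congrFun hii j
    refine hH.ext_left fun j => ?_
    have h2 := LinearMap.congr_fun h1 j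
    have h3 : l 1 ≠ 0 := fun h0 => hl (LinearMap.ext_ring h0)
    have h4 : ∀ y, l y = y * l 1 := fun y => by rw [← smul_eq_mul, ← map_smul, smul_eq_mul, mul_one]
    simp only [LinearMap.comp_apply] at h2
    rw [h4, h4 (B.domRestrict₁₂ W W i' j)] at h2
    exact mul_right_cancel₀ h3 h2) (fun i j m hm => by
    have h1 : E j * E i = E i * E j * suT h e (B i j) := by
      refine Subtype.ext (((hE j).mul (hE i) he (h.flip_zero (heW j)) (heW i)).unique ?_)
      have h2 := ((hE i).mul (hE j) he (h.flip_zero (heW i)) (heW j)).mul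
        (isEich_zero.mpr (by rw [neg_neg]; exact isTv_suT h he (B i j))) he
        (by simp [h.flip_zero (heW i), h.flip_zero (heW j)]) (by simp)
      convert h2 using 1
      · rw [add_zero, add_comm]
      · rw [h.symm]; simp; ring
      · rfl
    rw [h1, map_mul, Module.End.mul_apply, hm, map_smul])
  rw [Module.natCard_eq_pow_finrank (K := F), h.bar.card, ← pow_mul, mul_comm, pow_mul] at hcard
  have h2 := finrank_hyp_perp h he hf hef
  rw [← hWd] at h2
  rw [← h2, Nat.add_sub_cancel]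
  exact (Nat.pow_le_pow_iff_left two_ne_zero).mp hcard

theorem add_mul_card_le {G A : Type*} [Group G] [AddCommGroup A] [Module F A] [Finite F] [Finite A]
    {ρ : G →* Module.End K M} {a : A → G} (hψ : ψ ≠ 1) (ha : ∀ x y, a (x + y) = a x * a y)
    {I : Type*} [Finite I] (L : I → Dual F A) (hL : Function.Injective L) (h0 : ∀ i, L i ≠ 0) {m : ℕ}
    (hm : ∀ i, m ≤ finrank K (wsp ρ ψ a (L i))) :
    finrank K (wsp ρ ψ a 0) + Nat.card I * m ≤ finrank K M := by
  classical
  let _ := Fintype.ofFinite I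
  let _ := Fintype.ofFinite (Dual F A)
  rw [← sum_finrank_wsp (ρ := ρ) hψ ha]
  refine le_trans ?_ (Finset.sum_le_sum_of_subset (Finset.subset_univ (insert 0 (Finset.univ.image L))))
  rw [Finset.sum_insert (by simpa using h0), Finset.sum_image fun _ _ _ _ e => hL e, Nat.card_eq_fintype_card]
  refine Nat.add_le_add_left ?_ _
  rw [← Finset.card_univ, ← smul_eq_mul]
  exact Finset.card_nsmul_le_sum _ _ _ fun i _ => hm i

/-- The non-trivial weights of a long root subgroup contribute `(q - 1) q ^ (n - 2)`. -/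
theorem su_step (h : IsHerm B q) (hψ : ψ ≠ 1) (ρ : SUG B →* Module.End K M) (hn : 3 ≤ finrank F N)
    {e f : N} (he : B e e = 0) (hf : B f f = 0) (hef : B e f = 1) {x : F} (hx : ρ (suT h e x) ≠ 1) :
    finrank K (wsp ρ ψ (suT h e) 0) + (q - 1) * q ^ (finrank F N - 2) ≤ finrank K M := by
  have := h.bar.finite
  obtain ⟨l, hl, hlx⟩ := exists_weight hψ (suT_add h he) hx
  have hl0 : l ≠ 0 := fun h0 => hlx (by simp [h0])
  rw [← h.bar.card_fixed_ne_zero]
  refine add_mul_card_le hψ (suT_add h he) (fun s : {s : F // s ≠ 0 ∧ σ s = s} => s.1 • l)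
    (fun s s' hs => Subtype.ext (smul_left_injective F hl0 hs)) (fun s => smul_ne_zero s.2.1 hl0) fun s => ?_
  refine (pow_le_finrank_wsp_suT h hψ ρ he hf hef hl0 hl).trans ?_
  obtain ⟨a, ha⟩ := h.bar.exists_norm_eq s.2.2
  have ha0 : a ≠ 0 := fun h0 => s.2.1 (by rw [← ha, h0, zero_mul])
  obtain ⟨g, hg, hge, -⟩ := h.exists_mem_SUG_hyperbolic hn he hf (by simp [hef]) (e' := a⁻¹ • e)
    (f' := σ a • f) (by simp [LinearMap.map_smulₛₗ, he]) (by simp [LinearMap.map_smulₛₗ, hf])
    (by simp [LinearMap.map_smulₛₗ, hef, ha0])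
  refine finrank_wsp_le' (g := ⟨g, hg⟩) fun y => ⟨s.1 * y, ?_, by simp [← smul_eq_mul]⟩
  rw [← suT_conj h he, hge, suT_smul h he, ← ha]
  congr 2
  have : σ a ≠ 0 := by simpa using ha0
  rw [map_inv₀]
  field_simp

/-- The skew-Hermitian maps attached to a totally isotropic pair of vectors. -/
def IsPl (B : N →ₛₗ[σ] N →ₗ[F] F) (v w : N) (p : F × F × F × F) (g : SUG B) : Prop :=
  ∀ n, g.1 n = n + ((p.1 - σ p.1) * B v n + (p.2.2.2 - σ p.2.2.1) * B w n) • v +
    ((p.2.2.1 - σ p.2.2.2) * B v n + (p.2.1 - σ p.2.1) * B w n) • w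

theorem exists_isPl (h : IsHerm B q) {v w : N} (hv : B v v = 0) (hw : B w w = 0) (hvw : B v w = 0)
    (p : F × F × F × F) : ∃ g, IsPl B v w p g := by
  obtain ⟨g, hg, hg'⟩ := h.exists_eich (r := v) (w := (p.2.2.1 - σ p.2.2.2) • w) hv (by simp [hvw]) (c := 0)
    (by simp [LinearMap.map_smulₛₗ, hw])
  refine ⟨suT h v p.1 * suT h w p.2.1 * ⟨g, hg⟩, fun n => ?_⟩
  simp only [Subgroup.coe_mul, LinearEquiv.mul_apply]
  rw [isTv_suT h hv, isTv_suT h hw, hg']
  simp only [map_add, map_sub, map_smul, LinearMap.map_smulₛₗ, LinearMap.smul_apply, hv, hw, hvw,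
    h.flip_zero hvw, smul_eq_mul, h.bar_bar]
  module

omit [FiniteDimensional F N] in
theorem IsPl.unique {v w : N} {p : F × F × F × F} {g g' : SUG B} (h : IsPl B v w p g) (h' : IsPl B v w p g') :
    g = g' := Subtype.ext (LinearEquiv.ext fun n => (h n).trans (h' n).symm)

omit [FiniteDimensional F N] in
theorem IsPl.mul {v w : N} (hv : B v v = 0) (hw : B w w = 0) (hvw : B v w = 0) (hwv : B w v = 0)
    {p p' : F × F × F × F} {g g' : SUG B} (h : IsPl B v w p g) (h' : IsPl B v w p' g') :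
    IsPl B v w (p + p') (g * g') := fun n => by
  simp only [Subgroup.coe_mul, LinearEquiv.mul_apply]
  rw [h, h']
  simp only [map_add, map_smul, hv, hw, hvw, hwv, smul_eq_mul, Prod.fst_add, Prod.snd_add]
  module

theorem isPl_suT (h : IsHerm B q) {v w : N} (hv : B v v = 0) (hw : B w w = 0) (hvw : B v w = 0)
    (a b t : F) : IsPl B v w (t * (a * σ a), t * (b * σ b), t * (σ a * b), t * (a * σ b))
      (suT h (a • v + b • w) t) := fun n => by
  rw [isTv_suT h (by simp [LinearMap.map_smulₛₗ, hv, hw, hvw, h.flip_zero hvw])]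
  simp only [map_add, map_mul, LinearMap.map_smulₛₗ, LinearMap.smul_apply, LinearMap.add_apply,
    smul_eq_mul, h.bar_bar]
  module

omit [FiniteDimensional F N] in
theorem div_fixed_of_psi (h : IsBar σ q) (hψ : ψ ≠ 1) {a b : F} (ha0 : a ≠ 0)
    (ha : ∀ t, σ t = t → ψ (t * a) = 1) (hb : ∀ t, σ t = t → ψ (t * b) = 1) : σ (b / a) = b / a := by
  by_contra hne
  refine ha0 (eq_zero_of_forall_psi hψ fun u => ?_)
  set s := b / a with hs
  have h1 : s - σ s ≠ 0 := sub_ne_zero.mpr (Ne.symm hne)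
  have h1' : σ s - s ≠ 0 := sub_ne_zero.mpr hne
  set y := (u - σ u) / (s - σ s) with hy
  have h2 : σ y = y := by
    rw [hy, map_div₀, map_sub, map_sub, h.bar_bar, h.bar_bar]
    field_simp
    ring
  have h3 : σ (u - s * y) = u - s * y := by
    rw [map_sub, map_mul, h2, hy]
    field_simp
    ring
  have h4 : u * a = (u - s * y) * a + y * b := by
    rw [hs]
    field_simp
    ring
  rw [h4, AddChar.map_add_eq_mul, ha _ h3, hb _ h2, one_mul]

omit [FiniteDimensional K M] in
/-- A long root subgroup acts non-trivially on the fixed points of a suitable commuting one. -/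
theorem exists_fixed_moved (h : IsHerm B q) (hψ : ψ ≠ 1) (ρ : SUG B →* Module.End K M) {v w : N}
    (hv : B v v = 0) (hw : B w w = 0) (hvw : B v w = 0) {x : F} (hx : ρ (suT h v x) ≠ 1) :
    ∃ (a : F) (l : Dual F F) (m : M), l ≠ 0 ∧ m ≠ 0 ∧ m ∈ wsp ρ ψ (suT h v) l ∧
      m ∈ wsp ρ ψ (suT h (a • v + w)) 0 := by
  have := h.bar.finite
  choose P hP using exists_isPl h hv hw hvw
  have hadd : ∀ p p', P (p + p') = P p * P p' := fun p p' =>
    (hP _).unique ((hP p).mul hv hw hvw (h.flip_zero hvw) (hP p'))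
  have hT : ∀ a b t, suT h (a • v + b • w) t =
      P (t • (a * σ a, b * σ b, σ a * b, a * σ b)) := fun a b t =>
    (isPl_suT h hv hw hvw a b t).unique (hP _)
  have hT1 : ∀ t, suT h v t = P (t • (1, 0, 0, 0)) := fun t => by simpa using hT 1 0 t
  obtain ⟨l, hl, hlx⟩ := exists_weight hψ hadd (hT1 x ▸ hx)
  obtain ⟨m, hm, hm0⟩ := (Submodule.ne_bot_iff _).mp hl
  have hfix : ∀ a b t, σ t = t → ψ (t * l (a * σ a, b * σ b, σ a * b, a * σ b)) = 1 := fun a b t ht => by
    have h1 := hm (t • (a * σ a, b * σ b, σ a * b, a * σ b))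
    rw [← hT, suT_fixed h (by simp [LinearMap.map_smulₛₗ, hv, hw, hvw, h.flip_zero hvw]) ht, map_one,
      map_smul, Module.End.one_apply] at h1
    exact (smul_left_injective K hm0 (h1.symm.trans (one_smul K m).symm))
  set A := l (1, 0, 0, 0) with hA
  have hA0 : A ≠ 0 := fun h0 => hlx (by rw [map_smul, ← hA, h0, smul_zero, AddChar.map_zero_eq_one])
  have hl4 : ∀ a : F, l (a * σ a, 1 * σ 1, σ a * 1, a * σ 1) =
      a * σ a * A + l (0, 1, 0, 0) + σ a * l (0, 0, 1, 0) + a * l (0, 0, 0, 1) := fun a => by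
    simp only [hA, ← smul_eq_mul (a * σ a), ← smul_eq_mul (σ a) (l _), ← smul_eq_mul a (l _), ← map_smul,
      ← map_add]
    congr 1
    simp
  have hdiv : ∀ a : F, σ ((a * σ a * A + l (0, 1, 0, 0) + σ a * l (0, 0, 1, 0) + a * l (0, 0, 0, 1)) / A) =
      (a * σ a * A + l (0, 1, 0, 0) + σ a * l (0, 0, 1, 0) + a * l (0, 0, 0, 1)) / A := fun a =>
    div_fixed_of_psi h.bar hψ hA0 (fun t ht => by simpa using hfix 1 0 t ht)
      fun t ht => hl4 a ▸ hfix a 1 t ht
  set d := l (0, 1, 0, 0) / A with hd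
  set b := l (0, 0, 1, 0) / A with hb
  set c := l (0, 0, 0, 1) / A with hc
  have hdiv' : ∀ a : F, σ (a * σ a + d + σ a * b + a * c) = a * σ a + d + σ a * b + a * c := fun a => by
    have := hdiv a
    rwa [show (a * σ a * A + l (0, 1, 0, 0) + σ a * l (0, 0, 1, 0) + a * l (0, 0, 0, 1)) / A =
      a * σ a + d + σ a * b + a * c by rw [hd, hb, hc]; field_simp] at this
  have hdf : σ d = d := by simpa using hdiv' 0
  have hk : ∀ a : F, (σ b - c) * a = (b - σ c) * σ a := fun a => by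
    have := hdiv' a
    simp only [map_add, map_mul, h.bar_bar, hdf] at this
    linear_combination this
  have hbc : c = σ b := by
    obtain ⟨u, hu⟩ := h.bar.exists_ne
    have h1 := hk 1
    have h2 := hk u
    rw [map_one, mul_one, mul_one] at h1
    rw [← h1] at h2
    exact (sub_eq_zero.mp ((mul_eq_mul_left_iff.mp h2).resolve_left (Ne.symm hu))).symm
  obtain ⟨g, hg⟩ := h.bar.exists_norm_eq (a := b * σ b - d) (by rw [map_sub, h.bar.norm_fixed, hdf])
  refine ⟨g - b, A • LinearMap.id, m, fun h0 => hA0 (by simpa using LinearMap.congr_fun h0 1), hm0,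
    fun t => ?_, fun t => ?_⟩
  · rw [hT1, hm, map_smul, ← hA]
    simp [mul_comm]
  · have h1 := hT (g - b) 1 t
    rw [one_smul] at h1
    rw [h1, hm, map_smul, hl4]
    have h2 : (g - b) * σ (g - b) * A + l (0, 1, 0, 0) + σ (g - b) * l (0, 0, 1, 0) +
        (g - b) * l (0, 0, 0, 1) = A * ((g - b) * σ (g - b) + d + σ (g - b) * b + (g - b) * c) := by
      rw [hd, hb, hc]
      field_simp
    rw [h2, hbc, map_sub, show (g - b) * (σ g - σ b) + d + (σ g - σ b) * b + (g - b) * σ b = 0 by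
      linear_combination hg]
    simp

/-- Extension of an isometry of a non-degenerate subspace by the identity. -/
noncomputable def suExt (h : IsHerm B q) {W : Submodule F N} (hW : Disjoint W (perp B W)) :
    SUG (B.domRestrict₁₂ W W) →* SUG B :=
  ((sumHom (h.isCompl_perp hW)).comp ((MonoidHom.inl _ _).comp (SUG _).subtype)).codRestrict _ fun g =>
    mem_SUG.mpr ⟨h.sumHom_mem_UG _ (SUG_le_UG g.2) (Subgroup.one_mem _), by
      simp [dt_sumHom, (mem_SUG.mp g.2).2]⟩

theorem suExt_left (h : IsHerm B q) {W : Submodule F N} (hW : Disjoint W (perp B W))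
    (g : SUG (B.domRestrict₁₂ W W)) (x : W) : (suExt h hW g).1 x = g.1 x :=
  sumHom_left (h.isCompl_perp hW) (g.1, 1) x

theorem suExt_right (h : IsHerm B q) {W : Submodule F N} (hW : Disjoint W (perp B W))
    (g : SUG (B.domRestrict₁₂ W W)) {y : N} (hy : y ∈ perp B W) : (suExt h hW g).1 y = y :=
  sumHom_right (h.isCompl_perp hW) (g.1, 1) ⟨y, hy⟩

theorem suExt_suT (h : IsHerm B q) {W : Submodule F N} (hW : Disjoint W (perp B W)) {w : W}
    (hw : B w w = 0) (t : F) : suExt h hW (suT (h.restrict hW) w t) = suT h w t := by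
  refine eq_suT h hw fun n => ?_
  obtain ⟨x, y, rfl⟩ := exists_add_of_isCompl (h.isCompl_perp hW) n
  rw [map_add, suExt_left, suExt_right h hW _ y.2, isTv_suT (h.restrict hW) hw, map_add, y.2 w w.2]
  simp only [Submodule.coe_add, Submodule.coe_smul, LinearMap.domRestrict₁₂_apply]
  module

omit [FiniteDimensional K M] in
theorem suT_ne_one_of (h : IsHerm B q) (ρ : SUG B →* Module.End K M) (hn : 3 ≤ finrank F N)
    {e f e' f' : N} (he : B e e = 0) (hf : B f f = 0) (hef : B e f = 1) (he' : B e' e' = 0)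
    (hf' : B f' f' = 0) (hef' : B e' f' = 1) {x : F} (hx : ρ (suT h e x) ≠ 1) : ρ (suT h e' x) ≠ 1 := by
  obtain ⟨g, hg, hge, -⟩ := h.exists_mem_SUG_hyperbolic hn he hf (by simp [hef]) he' hf' (by rw [hef, hef'])
  intro h1
  have h2 := suT_conj h he ⟨g, hg⟩ x
  rw [hge] at h2
  refine hx (LinearMap.ext fun m => rho_injective (ρ := ρ) ⟨g, hg⟩ ?_)
  rw [← Module.End.mul_apply, ← map_mul, ← h2, map_mul, h1, one_mul, Module.End.one_apply]

omit [FiniteDimensional K M] in
theorem exists_two_pairs (h : IsHerm B q) (hψ : ψ ≠ 1) (ρ : SUG B →* Module.End K M) (hn : 4 ≤ finrank F N)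
    {v : N} (hv : B v v = 0) {x : F} (hx : ρ (suT h v x) ≠ 1) :
    ∃ (e f f' : N) (l : Dual F F) (m : M), B e e = 0 ∧ B f f = 0 ∧ B e f = 1 ∧ B f' f' = 0 ∧ B v f' = 1 ∧
      B e v = 0 ∧ B f v = 0 ∧ B e f' = 0 ∧ B f f' = 0 ∧ ρ (suT h e x) ≠ 1 ∧
      l ≠ 0 ∧ m ≠ 0 ∧ m ∈ wsp ρ ψ (suT h v) l ∧ m ∈ wsp ρ ψ (suT h e) 0 := by
  have hv0 : v ≠ 0 := fun h0 => hx (by rw [h0, suT_zero, map_one])
  obtain ⟨f, hf, hvf⟩ := h.exists_hyperbolic hv0 hv
  have hH := h.restrict (h.disjoint_perp_perp (hyp_perp h hv hf hvf))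
  have h2 := finrank_hyp_perp h hv hf hvf
  obtain ⟨w, hw0, hw⟩ := hH.exists_isotropic (by omega)
  obtain ⟨w', hw', hww⟩ := hH.exists_hyperbolic hw0 hw
  simp only [LinearMap.domRestrict₁₂_apply] at hw hw' hww
  have a1 : B v w = 0 := w.2 v (Submodule.subset_span (by simp))
  have a2 : B v w' = 0 := w'.2 v (Submodule.subset_span (by simp))
  have a3 : B f w = 0 := w.2 f (Submodule.subset_span (by simp))
  have a4 : B f w' = 0 := w'.2 f (Submodule.subset_span (by simp))
  obtain ⟨a, l, m, hl, hm, h3, h4⟩ := exists_fixed_moved h hψ ρ hv hw a1 hx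
  have b1 : B (a • v + w) (a • v + w) = 0 := by
    simp [LinearMap.map_smulₛₗ, hv, hw, a1, h.flip_zero a1]
  have b2 : B (a • v + w) w' = 1 := by simp [LinearMap.map_smulₛₗ, a2, hww]
  refine ⟨a • v + w, w', f - σ a • w', l, m, b1, hw', b2, ?_, ?_, ?_, h.flip_zero a2, ?_, ?_,
    suT_ne_one_of h ρ (by omega) hv hf hvf b1 hw' b2 hx, hl, hm, h3, h4⟩
  · simp [LinearMap.map_smulₛₗ, hf, hw', a4, h.flip_zero a4]
  · simp [hvf, a2]
  · simp [LinearMap.map_smulₛₗ, hv, h.flip_zero a1]
  · simp [LinearMap.map_smulₛₗ, hvf, a2, hww, h.flip_zero a3]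
  · simp [hw', h.flip_zero a4]

theorem su_four (h : IsHerm B q) (hψ : ψ ≠ 1) (ρ : SUG B →* Module.End K M) {e f v f' : N}
    (he : B e e = 0) (hf : B f f = 0) (hef : B e f = 1) (hv : B v v = 0) (hf' : B f' f' = 0)
    (hvf : B v f' = 1) (hev : B e v = 0) (hfv : B f v = 0) (hef' : B e f' = 0) {l : Dual F F} {m : M}
    (hl : l ≠ 0) (hm : m ≠ 0) (h1 : m ∈ wsp ρ ψ (suT h v) l) (h2 : m ∈ wsp ρ ψ (suT h e) 0) :
    q - 1 ≤ finrank K (wsp ρ ψ (suT h e) 0) := by
  have := h.bar.finite
  have hg : ∀ s : {s : F // s ≠ 0 ∧ σ s = s}, ∃ g : SUG B, ρ g m ∈ wsp ρ ψ (suT h e) 0 ∧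
      ∀ t, ρ (suT h v t) (ρ g m) = ψ ((s.1 • l) t) • ρ g m := fun s => by
    obtain ⟨a, ha⟩ := h.bar.exists_norm_eq s.2.2
    have ha0 : a ≠ 0 := fun h0 => s.2.1 (by rw [← ha, h0, zero_mul])
    have ha1 : σ a ≠ 0 := by simpa using ha0
    obtain ⟨g, hg, g1, -, g2, g3⟩ := h.exists_diag he hf hef ha0
    obtain ⟨k, hk, k1, -, k2, k3⟩ := h.exists_diag hv hf' hvf (inv_ne_zero ha0)
    have hgk : g * k ∈ SUG B := mem_SUG.mpr ⟨Subgroup.mul_mem _ hg hk, by
      rw [map_mul, g3, k3, map_inv₀]; field_simp⟩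
    have e1 : (g * k) e = a • e := by
      rw [LinearEquiv.mul_apply, k2 e (h.flip_zero hev) (h.flip_zero hef'), g1]
    have e2 : (g * k) v = a⁻¹ • v := by
      rw [LinearEquiv.mul_apply, k1, map_smul, g2 v hev hfv]
    refine ⟨⟨g * k, hgk⟩, fun t => ?_, fun t => ?_⟩
    · have h3 := suT_conj h he ⟨g * k, hgk⟩ ((a * σ a)⁻¹ * t)
      rw [e1, suT_smul h he, ← mul_assoc, mul_inv_cancel₀ (mul_ne_zero ha0 ha1), one_mul] at h3
      rw [← Module.End.mul_apply, ← map_mul, h3, map_mul, Module.End.mul_apply, h2, map_smul]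
      simp
    · have h3 := suT_conj h hv ⟨g * k, hgk⟩ (s.1 * t)
      rw [e2, suT_smul h hv, show a⁻¹ * σ a⁻¹ * (s.1 * t) = t by rw [← ha, map_inv₀]; field_simp] at h3
      rw [← Module.End.mul_apply, ← map_mul, h3, map_mul, Module.End.mul_apply, h1, map_smul]
      simp [← smul_eq_mul]
  choose g g1 g2 using hg
  have hli := linearIndependent_of_weights (fun t => ρ (suT h v t)) (fun s t => ψ ((s.1 • l) t))
    (fun s s' hs => Subtype.ext (smul_left_injective F hl (dual_eq_of_psi hψ (congrFun hs))))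
    (fun s => ρ (g s) m) g2 fun s h0 => hm (rho_injective (g s) (h0.trans (map_zero _).symm))
  let _ := Fintype.ofFinite {s : F // s ≠ 0 ∧ σ s = s}
  rw [← h.bar.card_fixed_ne_zero, Nat.card_eq_fintype_card]
  exact (LinearIndependent.of_comp (v := fun s => (⟨_, g1 s⟩ : wsp ρ ψ (suT h e) 0))
    (Submodule.subtype _) hli).fintype_card_le_finrank

theorem su_bound_aux (hψ : ψ ≠ 1) (k : ℕ) : ∀ (N : Type v) [AddCommGroup N] [Module F N]
    [FiniteDimensional F N] (B : N →ₛₗ[σ] N →ₗ[F] F) (h : IsHerm B q) (M : Type w) [AddCommGroup M]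
    [Module K M] [FiniteDimensional K M] (ρ : SUG B →* Module.End K M) (v : N) (x : F),
    finrank F N = k + 3 → B v v = 0 → ρ (suT h v x) ≠ 1 →
      q ^ (k + 3) ≤ (q + 1) * finrank K M + q ^ ((k + 3) % 2) := by
  induction k using Nat.strong_induction_on with
  | _ k ih =>
  intro N _ _ _ B h M _ _ _ ρ v x hn hv hx
  obtain ⟨r, rfl⟩ : ∃ r, q = r + 1 := ⟨q - 1, by have := h.bar.two_le; omega⟩
  rcases k with _ | k
  · have hv0 : v ≠ 0 := fun h0 => hx (by rw [h0, suT_zero, map_one])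
    obtain ⟨f, hf, hvf⟩ := h.exists_hyperbolic hv0 hv
    have h1 := su_step h hψ ρ (by omega) hv hf hvf hx
    rw [hn] at h1
    have h2 := Nat.mul_le_mul_left (r + 1 + 1) (le_trans (Nat.le_add_left _ _) h1)
    simp only [Nat.add_sub_cancel, zero_add, Nat.reduceSub, pow_one, Nat.reduceMod] at h2 ⊢
    nlinarith
  obtain ⟨e, f, f', l, m, he, hf, hef, hf', hvf, hev, hfv, hef', -, hx', hl, hm, h1, h2⟩ :=
    exists_two_pairs h hψ ρ (by omega) hv hx
  have h3 := su_step h hψ ρ (by omega) he hf hef hx'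
  rw [hn] at h3
  have h4 : (r + 1) ^ (k + 2) ≤ (r + 1 + 1) * finrank K (wsp ρ ψ (suT h e) 0) + (r + 1) ^ (k % 2) := by
    rcases k with _ | k
    · have h5 := su_four h hψ ρ he hf hef hv hf' hvf hev hfv hef' hl hm h1 h2
      simp only [Nat.add_sub_cancel, zero_add, Nat.reduceMod, pow_zero] at h5 ⊢
      nlinarith
    have hW := h.disjoint_perp_perp (hyp_perp h he hf hef)
    have hd := finrank_hyp_perp h he hf hef
    have heW : e ∈ perp B (perp B (Submodule.span F {e, f})) :=
      h.le_perp_perp _ (Submodule.subset_span (by simp))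
    have hinv : ∀ g, ∀ u ∈ wsp ρ ψ (suT h e) 0, ρ (suExt h hW g) u ∈ wsp ρ ψ (suT h e) 0 :=
      fun g u hu => by
        have := map_mem_wsp (σ := LinearMap.id) (g := suExt h hW g) (fun x => by
          have := suT_conj h he (suExt h hW g) x
          rwa [suExt_right h hW g heW] at this) hu
        simpa using this
    let ρ' : SUG (B.domRestrict₁₂ (perp B (Submodule.span F {e, f})) (perp B (Submodule.span F {e, f}))) →*
        Module.End K (wsp ρ ψ (suT h e) 0) :=
      { toFun := fun g => (ρ (suExt h hW g)).restrict (hinv g)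
        map_one' := by ext u; simp
        map_mul' := fun g g' => by ext u; simp }
    have hvW : v ∈ perp B (Submodule.span F {e, f}) := mem_perp_span.mpr (by simp [hev, hfv])
    obtain ⟨t, ht⟩ : ∃ t, ψ (l t) ≠ 1 := by
      by_contra h0
      push Not at h0
      exact hl (dual_eq_of_psi hψ fun t => by simp [h0])
    have h5 := ih k (by omega) _ _ (h.restrict hW) _ ρ' ⟨v, hvW⟩ t (by omega) hv fun h0 => by
      have h6 := congrArg Subtype.val (LinearMap.congr_fun h0 ⟨m, h2⟩)
      change ρ (suExt h hW _) m = m at h6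
      rw [suExt_suT h hW (w := ⟨v, hvW⟩) hv, h1] at h6
      exact ht (smul_left_injective K hm (h6.trans (one_smul K m).symm))
    rwa [show (k + 3) % 2 = (k + 1) % 2 by omega] at h5
  rw [show (k + 1 + 3) % 2 = k % 2 by omega]
  have h5 := Nat.mul_le_mul_left (r + 1 + 1) h3
  simp only [Nat.add_sub_cancel, show k + 1 + 3 - 2 = k + 2 by omega] at h5
  rw [show k + 1 + 3 = k + 2 + 2 by omega, pow_add _ (k + 2)]
  nlinarith

/-- The Landazuri-Seitz bound for special unitary groups. -/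
theorem su_bound {F : Type*} [Field F] [Fintype F] {n q : ℕ} (hn : 3 ≤ n) (hF : Fintype.card F = q ^ 2)
    (h32 : ¬ (n = 3 ∧ q = 2)) {k : ℕ} (ρ : Representation ℂ (Cfsg.SU n F q) (Fin k → ℂ))
    (hρ : ρ.IsIrreducible) (hk : 2 ≤ k) : (q ^ n - q ^ (n % 2)) / (q + 1) ≤ k := by
  have hb := isBar_bar hF
  have h := isHerm_stdB hb (Fin n)
  have hN : finrank F (Fin n → F) = n := by simp
  obtain ⟨ψ, hψ⟩ := exists_psi_complex (F := F)
  let ρ' : SUG (stdB (bar hF) (Fin n)) →* Module.End ℂ (Fin k → ℂ) :=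
    MonoidHom.comp ρ (suEquiv hb n).symm.toMonoidHom
  obtain ⟨v, x, hv, hx⟩ : ∃ v x, stdB (bar hF) (Fin n) v v = 0 ∧ ρ' (suT h v x) ≠ 1 := by
    by_contra h0
    push Not at h0
    have h1 : ⊤ ≤ ρ'.ker := by
      rw [← h.closure_tv_eq_top (by rwa [hN]), Subgroup.closure_le]
      rintro g ⟨v, c, hv, hc, hg⟩
      obtain ⟨x, rfl⟩ := hb.exists_sub_bar_eq hc
      rw [eq_suT h hv hg]
      exact h0 v x hv
    refine not_commutator_le_ker ρ hρ hk fun g _ => ?_
    simpa [ρ'] using h1 (Subgroup.mem_top (suEquiv hb n g))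
  obtain ⟨j, rfl⟩ : ∃ j, n = j + 3 := ⟨n - 3, by omega⟩
  have h1 := su_bound_aux hψ j _ _ h _ ρ' v x hN hv hx
  rw [finrank_fin_fun] at h1
  exact Nat.div_le_of_le_mul (by omega)

end CL.LS
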