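/-
Landazuri-Seitz bound for the Suzuki groups.
-/
import Cfsg.Agent.Known.LSSp
import Cfsg.Agent.Chev.SzInst
import Cfsg.Agent.Chev.SzStruct

set_option autoImplicit false

open Module Cfsg

namespace CL.LS

/-- Heisenberg bound when the commutator pairing has a radical. -/
theorem card_le_mul_finrank_sq {K G V : Type*} [Field K] [Group G] [AddCommGroup V] [Module K V]
    [FiniteDimensional K V] (ρ : G →* Module.End K V) (W : Submodule K V) (hW : W ≠ ⊥) {I J : Type*}
    [Finite I] (x : I → G) (y : J → G) (hx : ∀ i, ∀ v ∈ W, ρ (x i) v ∈ W) (hy : ∀ j, ∀ v ∈ W, ρ (y j) v ∈ W)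
    (c : I → J → K) {r : ℕ} (hc : ∀ i, Nat.card {i' // c i' = c i} ≤ r)
    (h : ∀ i j, ∀ v ∈ W, ρ (y j * x i) v = c i j • ρ (x i * y j) v) : Nat.card I ≤ r * finrank K W ^ 2 := by
  have h1 := card_le_mul_ncard (Set.finite_range c) c (fun i => ⟨i, rfl⟩) hc
  have h2 := card_le_finrank_sq ρ W hW (I := Set.range c) (fun s => x s.2.choose) y (fun s => hx _) hy
    (fun s => s.1) Subtype.val_injective fun s j v hv => by rw [h _ j v hv, s.2.choose_spec]
  exact h1.trans (Nat.mul_le_mul_left _ h2)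

variable {G F K V : Type*} [Group G] [Field F] [Finite F] [Field K] [AddCommGroup V] [Module K V]
  [FiniteDimensional K V] (M : CL.Chev.Sz.Model G F) {ρ : G →* Module.End K V} {ψ : AddChar F K}

include M in
theorem sz_bound (hψ : ψ ≠ 1) (hρ : ρ.ker ≠ ⊤) {r : ℕ} (hr : Nat.card F = 2 * r ^ 2) :
    r * (Nat.card F - 1) ≤ finrank K V := by
  let _ := Fintype.ofFinite F
  have := M.isSimpleGroup
  have hker : ρ.ker = ⊥ := ((inferInstance : ρ.ker.Normal).eq_bot_or_eq_top).resolve_right hρ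
  have ha : ∀ x y : F, M.T 0 (x + y) = M.T 0 x * M.T 0 y := fun x y => by rw [M.T_mul]; simp
  obtain ⟨l, hl, hl1⟩ := exists_weight (ρ := ρ) hψ ha (x := 1) fun e => by
    have : M.T 0 1 ∈ ρ.ker := e
    rw [hker, Subgroup.mem_bot, M.T_eq_one] at this
    exact one_ne_zero this.2
  have hlx : ∀ (l : Dual F F) (x : F), l x = l 1 * x := fun l x => by
    rw [mul_comm, ← smul_eq_mul, ← map_smul, smul_eq_mul, mul_one]
  have hc : l 1 ≠ 0 := fun e => hl1 (by rw [e, AddChar.map_zero_eq_one])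
  have hinv : ∀ a : F, ∀ v ∈ wsp ρ ψ (M.T 0) l, ρ (M.T a 0) v ∈ wsp ρ ψ (M.T 0) l := fun a v hv =>
    map_mem_wsp (σ := LinearMap.id) (fun x => by rw [M.T_mul, M.T_mul]; simp) hv
  obtain ⟨e, he⟩ := exists_eq_psi_mul hψ (ψ.compAddMonoidHom M.σ.toAddMonoidHom)
  have he' : ∀ t, ψ (M.σ t) = ψ (e * t) := he
  have hσ : Function.Surjective M.σ := Finite.injective_iff_surjective.1 M.σ.injective
  have h2 := M.toTits.two
  have hH := card_le_mul_finrank_sq ρ _ hl (fun a => M.T a 0) (fun a => M.T a 0) hinv hinv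
    (fun i j => ψ (l (M.σ j * i + M.σ i * j))) (r := 2) (fun i => ?_) (fun i j v hv => ?_)
  · have h3 : r ≤ finrank K (wsp ρ ψ (M.T 0) l) := by
      rw [hr] at hH
      exact (Nat.pow_le_pow_iff_left (by omega : 2 ≠ 0)).1 (by omega)
    have h4 := mul_ncard_le (ρ := ρ) hψ ha (fun l => l 1) {c | c ≠ 0} (m := r) fun t ht => by
      obtain ⟨c, hc1⟩ : ∃ c : Fˣ, Units.map M.σ.toMonoidHom c * c ^ 2 = Units.mk0 t ht * (Units.mk0 _ hc)⁻¹ := by
        refine (Finite.injective_iff_surjective (f := fun c : Fˣ => Units.map M.σ.toMonoidHom c * c ^ 2)).1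
          (fun c d hcd => ?_) _
        have h5 : M.σ c * c ^ 2 = M.σ d * d ^ 2 := congrArg Units.val hcd
        have h6 := M.toTits.σ_mul_sq_eq_one (y := (c : F) / d) (by
          rw [map_div₀, div_pow, div_mul_div_comm, h5]
          exact div_self (mul_ne_zero (M.toTits.σ_ne_zero d.ne_zero) (pow_ne_zero _ d.ne_zero)))
        exact Units.ext ((div_eq_one_iff_eq d.ne_zero).1 h6)
      have hc2 : M.σ c * c ^ 2 = t * (l 1)⁻¹ := by simpa using congrArg Units.val hc1
      refine ⟨l ∘ₗ LinearMap.mulLeft F (M.σ c * c ^ 2), h3.trans (finrank_wsp_le (g := (M.D c)⁻¹) (fun x => ?_) l), ?_⟩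
      · rw [LinearMap.mulLeft_apply, eq_inv_mul_iff_mul_eq, ← mul_assoc, M.D_conj_T, mul_zero]
      · rw [LinearMap.comp_apply, LinearMap.mulLeft_apply, hlx, hc2]
        field_simp
    rwa [show ({c | c ≠ 0} : Set F).ncard = Nat.card F - 1 from card_ne_zero_eq] at h4
  · have key : ∀ i' : {i' // (fun j => ψ (l (M.σ j * i' + M.σ i' * j))) = fun j => ψ (l (M.σ j * i + M.σ i * j))},
        (i' : F) ∈ ({i, i + M.σ e * l 1 / M.σ (l 1)} : Set F) := by
      rintro ⟨i', hi'⟩
      obtain ⟨u, hu⟩ := hσ (l 1 * (i' - i))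
      have h5 : e * u + l 1 * M.σ (i' - i) = 0 := eq_zero_of_forall_psi hψ fun t => by
        have h6 := congrFun hi' t
        have h7 : ψ (l (M.σ t * i' + M.σ i' * t) - l (M.σ t * i + M.σ i * t)) = 1 := by
          rw [AddChar.map_sub_eq_div, h6]
          exact div_self (ψ.val_isUnit _).ne_zero
        rw [← h7, mul_add, AddChar.map_add_eq_mul, show t * (e * u) = e * (u * t) by ring, ← he', map_mul, hu,
          ← AddChar.map_add_eq_mul, hlx l (_ + _), hlx l (_ + _), map_sub]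
        congr 1; ring
      have h8 := congrArg M.σ h5
      rw [map_add, map_mul, map_mul, hu, M.σσ, map_zero] at h8
      have h9 := M.toTits.σ_ne_zero hc
      by_cases h0 : i' - i = 0
      · exact Or.inl (sub_eq_zero.1 h0)
      · right
        have h10 : M.σ e * l 1 + M.σ (l 1) * (i' - i) = 0 :=
          mul_left_cancel₀ h0 (by linear_combination h8)
        change i' = _
        field_simp
        linear_combination h10 - M.σ e * l 1 * h2
    calc _ ≤ Nat.card ({i, i + M.σ e * l 1 / M.σ (l 1)} : Set F) :=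
          Nat.card_le_card_of_injective (fun i' => ⟨i'.1, key i'⟩) fun a b h => Subtype.ext (congrArg (·.1) h)
      _ ≤ 2 := (Set.ncard_insert_le _ _).trans_eq (by rw [Set.ncard_singleton])
  · have : M.T j 0 * M.T i 0 = M.T i 0 * M.T j 0 * M.T 0 (M.σ j * i + M.σ i * j) := by
      rw [M.T_mul, M.T_mul, M.T_mul, M.T_inj]
      exact ⟨by ring, by linear_combination -(M.σ i * j) * h2⟩
    rw [this, map_mul, Module.End.mul_apply, hv, map_smul]

end CL.LS
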