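/-
Arithmetic for the minimal degrees of orthogonal groups.
-/
import Cfsg.Agent.Base

set_option autoImplicit false

namespace CL.LS

theorem mco_odd {q x d t : ℤ} (hq : 2 ≤ q) (hx : 1 ≤ x) (hd : 0 ≤ d) (ht : 0 ≤ t)
    (h : q * (q ^ 6 * x ^ 2 - 1) * (q ^ 4 * x ^ 2 - 1) = d * (q ^ 2 - 1) * (q + q ^ 5 * x ^ 2 - t)) :
    q ^ 6 * x ^ 2 - 1 < (q ^ 2 - 1) * (d + 1) := by
  by_contra h0
  push Not at h0
  obtain ⟨A, hA⟩ : ∃ A, A = q ^ 5 * x ^ 2 - q := ⟨_, rfl⟩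
  obtain ⟨J, hJ⟩ : ∃ J, J = q ^ 6 * x ^ 2 - 1 - (q ^ 2 - 1) * d := ⟨_, rfl⟩
  obtain ⟨i, hi⟩ : ∃ i, i = 2 * q - t := ⟨_, rfl⟩
  have h1 : A * (J - q * i) = i * (q ^ 2 - 1 - J) := by rw [hA, hJ, hi]; linear_combination h
  have hJ1 : q ^ 2 - 1 ≤ J := by rw [hJ]; linarith
  have hq2 : 4 ≤ q ^ 2 := by nlinarith
  have hq3 : 4 * q ≤ q ^ 3 := by nlinarith
  have hA1 : 2 * q ^ 3 + 2 * q < A := by
    have : q ^ 5 ≤ q ^ 5 * x ^ 2 := le_mul_of_one_le_right (by positivity) (by nlinarith)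
    nlinarith
  have hi1 : 0 < A + i := by
    by_contra h2
    have h3 : 0 < q * (q ^ 6 * x ^ 2 - 1) * (q ^ 4 * x ^ 2 - 1) := by
      have : 1 < q ^ 4 * x ^ 2 := by nlinarith
      have : 1 < q ^ 6 * x ^ 2 := by nlinarith
      exact mul_pos (mul_pos (by linarith) (by linarith)) (by linarith)
    have h4 : d * (q ^ 2 - 1) * (q + q ^ 5 * x ^ 2 - t) ≤ 0 :=
      mul_nonpos_of_nonneg_of_nonpos (mul_nonneg hd (by linarith)) (by linarith)
    linarith
  have hi2 : 0 < i := by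
    by_contra h2
    have : J * (A + i) = (q * A + q ^ 2 - 1) * i := by linear_combination h1
    have h3 : (q * A + q ^ 2 - 1) * i ≤ 0 := mul_nonpos_of_nonneg_of_nonpos (by nlinarith) (not_lt.mp h2)
    linarith [mul_pos (show 0 < J by linarith) hi1]
  have hi3 : i ≤ 2 * q := by linarith
  rcases lt_trichotomy J (q * i) with h2 | h2 | h2
  · have h3 : J - q * i ≤ -1 := by omega
    have h4 : J - (q ^ 2 - 1) ≤ q ^ 2 + 1 := by nlinarith
    have h5 : i * (J - (q ^ 2 - 1)) ≤ 2 * q * (q ^ 2 + 1) := mul_le_mul hi3 h4 (by linarith) (by linarith)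
    nlinarith
  · rw [h2, sub_self, mul_zero] at h1
    have h3 : q * (q - i) = 1 := by
      linear_combination (mul_eq_zero.mp h1.symm).resolve_left hi2.ne'
    have := Int.eq_one_or_neg_one_of_mul_eq_one h3
    omega
  · nlinarith [mul_pos (show 0 < A by nlinarith) (show 0 < J - q * i by linarith),
      mul_nonneg hi2.le (show 0 ≤ J - (q ^ 2 - 1) by linarith)]

theorem mco_even {q z d t ε G : ℤ} (hq : 2 ≤ q) (hz : q ^ 2 ≤ z) (hd : 0 ≤ d) (ht : 0 ≤ t)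
    (hε : ε = -1 ∨ ε = 1 ∧ 4 ≤ q) (hG : q ^ 2 * z ^ 2 - 1 = (q ^ 2 - 1) * G)
    (h : (q ^ 2 * z - ε) * (q * z + ε * q) * (q ^ 2 * z ^ 2 - 1) = d * (q ^ 2 - 1) * (q + q ^ 2 * z ^ 2 - t)) :
    (q ^ 2 * z - ε) * (q * z + ε * q) < (q ^ 2 - 1) * (d + 1) := by
  have hε2 : ε ^ 2 = 1 := by rcases hε with h | h <;> simp [h]
  have hq2 : 4 ≤ q ^ 2 := by nlinarith
  obtain ⟨A, hA⟩ : ∃ A, A = q ^ 2 * z ^ 2 - 1 := ⟨_, rfl⟩
  obtain ⟨B, hB⟩ : ∃ B, B = q * G + ε * q * z := ⟨_, rfl⟩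
  obtain ⟨i, hi⟩ : ∃ i, i = q + 1 - t := ⟨_, rfl⟩
  have hX : (q ^ 2 * z - ε) * (q * z + ε * q) = (q ^ 2 - 1) * B := by
    rw [hB]; linear_combination q * hG - q * hε2
  have hX' : (q ^ 2 - 1) * B = q * A + ε * q * z * (q ^ 2 - 1) := by rw [hA, hB, hG]; ring
  rw [hX] at h ⊢
  by_contra h0
  have h1 : d + 1 ≤ B := le_of_mul_le_mul_left (not_lt.mp h0) (by linarith)
  have h2 : B * A = d * (A + i) := mul_left_cancel₀ (show q ^ 2 - 1 ≠ 0 by linarith) (by
    rw [hA, hi]; linear_combination h)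
  have hz1 : 4 ≤ z := by linarith
  have hA0 : q ^ 4 * z ≤ A + 1 := by rw [hA]; nlinarith [mul_le_mul_of_nonneg_left hz (show 0 ≤ q ^ 2 * z by positivity)]
  have hA1 : 2 * (q * z * (q ^ 2 - 1)) < A := by
    have : 2 * q ^ 3 * z ≤ q ^ 4 * z := by
      have : 0 ≤ q ^ 3 * z := by positivity
      nlinarith
    nlinarith
  have hA2 : 0 < q * z * (q ^ 2 - 1) := mul_pos (by positivity) (by linarith)
  have hi1 : 0 < A + i := by
    by_contra h3
    have : d * (A + i) ≤ 0 := mul_nonpos_of_nonneg_of_nonpos hd (not_lt.mp h3)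
    nlinarith [mul_pos (show 0 < B by linarith) (show 0 < A by linarith)]
  have h3 : (B - d) * (A + i) = B * i := by linear_combination h2
  have hi2 : 0 < i := by
    by_contra h4
    nlinarith [mul_pos (show 0 < B - d by linarith) hi1]
  have hi3 : i ≤ q + 1 := by linarith
  rcases (show B - d = 1 ∨ 2 ≤ B - d by omega) with h4 | h4
  · rw [h4, one_mul] at h3
    have h5 : i - 1 = q * ((G + ε * z) * i - q * z ^ 2) := by rw [hA, hB] at h3; linear_combination h3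
    have h6 : i = 1 ∨ i = q + 1 := by
      obtain ⟨k, hk⟩ : ∃ k, k = (G + ε * z) * i - q * z ^ 2 := ⟨_, rfl⟩
      rw [← hk] at h5
      rcases (show k ≤ -1 ∨ k = 0 ∨ k = 1 ∨ 2 ≤ k by omega) with h | h | h | h
      · nlinarith
      · left; rw [h] at h5; linarith
      · right; rw [h] at h5; linarith
      · nlinarith
    rcases h6 with h6 | h6
    · have h7 : (q ^ 2 - q - 1) * A + (q ^ 2 - 1) = ε * (q * z * (q ^ 2 - 1)) := by
        rw [h6] at h3; linear_combination (q ^ 2 - 1) * h3 + hX'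
      have h8 : A ≤ (q ^ 2 - q - 1) * A := le_mul_of_one_le_left (by linarith) (by nlinarith)
      rcases hε with h | ⟨h, -⟩ <;> rw [h] at h7 <;> linarith
    · have h7 : q ^ 2 - 1 - A = ε * (q * z * (q ^ 2 - 1)) := by
        rw [h6] at h3; linear_combination (q - 1) * h3 + hX'
      have h8 : q ^ 2 - 1 ≤ q * z * (q ^ 2 - 1) := le_mul_of_one_le_left (by linarith) (by nlinarith)
      rcases hε with h | ⟨h, -⟩ <;> rw [h] at h7 <;> linarith
  · have h5 : 2 * A < B * (q + 1) := by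
      nlinarith [mul_le_mul_of_nonneg_left hi3 (show 0 ≤ B by linarith),
        mul_le_mul_of_nonneg_right h4 hi1.le]
    have h6 : (q - 2) * A < ε * (q * z * (q ^ 2 - 1)) := by
      nlinarith [mul_lt_mul_of_pos_left h5 (show 0 < q - 1 by linarith)]
    rcases hε with h | ⟨h, h'⟩ <;> rw [h] at h6
    · nlinarith [mul_nonneg (show 0 ≤ q - 2 by linarith) (show 0 ≤ A by linarith)]
    · nlinarith [mul_nonneg (show 0 ≤ q - 4 by linarith) (show 0 ≤ A by linarith)]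

end CL.LS
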