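/-
Counting and `SL₂` computations in orthogonal spaces over finite fields.
-/
import Cfsg.Agent.Known.MCAvg
import Cfsg.Agent.Cls.OrthSiegel

set_option autoImplicit false

open Module QuadraticMap CL.Cls
open scoped Classical

namespace CL.LS

variable {F N : Type*} [Field F] [AddCommGroup N] [Module F N] {Q : QuadraticForm F N}

/-- Splitting off a hyperbolic pair. -/
def hypEquiv {W : Submodule F N} {p p' : N} (h : IsHyp Q p p') (hp : p ∈ W) (hp' : p' ∈ W) :
    F × F × hypC Q W p p' ≃ W where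
  toFun z := ⟨z.1 • p + z.2.1 • p' + z.2.2, W.add_mem (W.add_mem (W.smul_mem _ hp) (W.smul_mem _ hp'))
    (hypC_le z.2.2.2)⟩
  invFun w := (polar Q p' w, polar Q p w, ⟨_, h.proj_mem hp hp' w.2⟩)
  left_inv z := by
    obtain ⟨a, b, y, hy⟩ := z
    obtain ⟨-, h1, h2⟩ := mem_hypC.mp hy
    simp [h.polar_left, h.polar_right, h.polar_eq, h.polar_eq', h1, h2]
    abel
  right_inv w := Subtype.ext (by simp)

variable [Fintype F] [Fintype N]

theorem sum_hyp {W : Submodule F N} {p p' : N} (h : IsHyp Q p p') (hp : p ∈ W) (hp' : p' ∈ W)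
    {M : Type*} [AddCommMonoid M] (g : N → M) :
    ∑ w : W, g w = ∑ b : F, ∑ a : F, ∑ y : hypC Q W p p', g (a • p + b • p' + y) := by
  rw [← (hypEquiv h hp hp').sum_comp, Fintype.sum_prod_type]
  simp_rw [Fintype.sum_prod_type]
  rw [Finset.sum_comm]
  rfl

theorem sum_perp {W : Submodule F N} {p p' : N} (h : IsHyp Q p p') (hp : p ∈ W) (hp' : p' ∈ W)
    {M : Type*} [AddCommMonoid M] (g : N → M) :
    ∑ w : W, (if polar Q p w = 0 then g w else 0) = ∑ a : F, ∑ y : hypC Q W p p', g (a • p + y) := by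
  rw [sum_hyp h hp hp' fun w => if polar Q p w = 0 then g w else 0, Finset.sum_eq_single 0]
  · refine Finset.sum_congr rfl fun a _ => Finset.sum_congr rfl fun y _ => ?_
    simp [h.polar_left, (mem_hypC.mp y.2).2.1]
  · refine fun b _ hb => Finset.sum_eq_zero fun a _ => Finset.sum_eq_zero fun y _ => ?_
    simp [h.polar_left, h.polar_eq, (mem_hypC.mp y.2).2.1, hb]
  · simp

/-- The number of vectors of `W` on a level set of `Q`. -/
noncomputable def nu (Q : QuadraticForm F N) (W : Submodule F N) (c : F) : ℕ :=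
  ∑ w : W, if Q w = c then 1 else 0

theorem sum_level {W : Submodule F N} {p p' : N} (h : IsHyp Q p p') (hp : p ∈ W) (hp' : p' ∈ W) (c : F)
    {R : Type*} [CommSemiring R] (g : F → R) :
    ∑ w : W, (if Q w = c then g (polar Q p w) else 0) =
      Fintype.card F * nu Q (hypC Q W p p') c * g 0 + Fintype.card (hypC Q W p p') * ∑ t : Fˣ, g t := by
  rw [sum_hyp h hp hp' fun w => if Q w = c then g (polar Q p w) else 0, sum_eq_add_sum_units, Finset.mul_sum]
  have h1 : ∀ (a b : F) (y : hypC Q W p p'), Q (a • p + b • p' + y) = a * b + Q y := fun a b y =>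
    h.map_comb_add a b (mem_hypC.mp y.2).2.1 (mem_hypC.mp y.2).2.2
  have h2 : ∀ (a b : F) (y : hypC Q W p p'), polar Q p (a • p + b • p' + y) = b := fun a b y => by
    simp [h.polar_left, h.polar_eq, (mem_hypC.mp y.2).2.1]
  simp_rw [h1, h2]
  congr 1
  · rw [nu, mul_assoc, Nat.cast_sum, Finset.sum_mul]
    simp
  · refine Finset.sum_congr rfl fun t _ => ?_
    have h3 : ∀ y : hypC Q W p p', (∑ a : F, if a * t + Q y = c then g t else 0) = g t := fun y => by
      rw [Finset.sum_eq_single ((c - Q y) * (t : F)⁻¹)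
        (fun a _ ha => if_neg fun h0 => ha (by rw [← h0]; simp)) (by simp)]
      simp
    rw [Finset.sum_comm, Finset.sum_congr rfl fun y _ => h3 y]
    simp

theorem card_submodule (W : Submodule F N) : Fintype.card W = Fintype.card F ^ finrank F W :=
  Module.card_eq_pow_finrank

theorem nu_hyp {W : Submodule F N} {p p' : N} (h : IsHyp Q p p') (hp : p ∈ W) (hp' : p' ∈ W) (c : F) :
    nu Q W c = Fintype.card F * nu Q (hypC Q W p p') c +
      Fintype.card (hypC Q W p p') * (Fintype.card F - 1) := by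
  have := sum_level h hp hp' c fun _ => (1 : ℕ)
  simpa [Fintype.card_units, nu] using this

theorem card_hypC {W : Submodule F N} {p p' : N} (h : IsHyp Q p p') (hp : p ∈ W) (hp' : p' ∈ W) :
    Fintype.card W = Fintype.card F ^ 2 * Fintype.card (hypC Q W p p') := by
  rw [card_submodule, card_submodule, ← finrank_hypC h hp hp', pow_add, mul_comm]

theorem card_hypC_eq {W W' : Submodule F N} {p p' r r' : N} (h : IsHyp Q p p') (hp : p ∈ W) (hp' : p' ∈ W)
    (h' : IsHyp Q r r') (hr : r ∈ W') (hr' : r' ∈ W') (hc : Fintype.card W = Fintype.card W') :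
    Fintype.card (hypC Q W p p') = Fintype.card (hypC Q W' r r') := by
  rw [card_hypC h hp hp', card_hypC h' hr hr'] at hc
  exact Nat.eq_of_mul_eq_mul_left (pow_pos Fintype.card_pos 2) hc

theorem nu_hypC_eq {W W' : Submodule F N} {p p' r r' : N} (h : IsHyp Q p p') (hp : p ∈ W) (hp' : p' ∈ W)
    (h' : IsHyp Q r r') (hr : r ∈ W') (hr' : r' ∈ W') (hc : Fintype.card W = Fintype.card W') {c : F}
    (hn : nu Q W c = nu Q W' c) : nu Q (hypC Q W p p') c = nu Q (hypC Q W' r r') c := by
  rw [nu_hyp h hp hp', nu_hyp h' hr hr', card_hypC_eq h hp hp' h' hr hr' hc] at hn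
  exact Nat.eq_of_mul_eq_mul_left Fintype.card_pos (Nat.add_right_cancel hn)

/-- Summation over pairs of vectors of an `SL₂`-invariant function. -/
theorem sum_pairs {R : Type*} [CommRing R] (D : N → N → Prop) [∀ a b, Decidable (D a b)] (f : N → N → R)
    (φ : N →ₗ[F] F)
    (hD : ∀ (a b : N) (α β γ δ : F), α * δ - β * γ = 1 → D a b →
      D (α • a + β • b) (γ • a + δ • b) ∧ f (α • a + β • b) (γ • a + δ • b) = f a b) :
    ∑ a, ∑ b, (if D a b then f a b else 0) =
      ∑ a, ∑ b, (if D a b ∧ φ a = 0 ∧ φ b = 0 then f a b else 0) +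
        ((Fintype.card F : R) ^ 2 - 1) * ∑ a, ∑ b, (if D a b ∧ φ a = 1 ∧ φ b = 0 then f a b else 0) := by
  set S : F × F → R := fun z => ∑ x : N × N, if D x.1 x.2 ∧ φ x.1 = z.1 ∧ φ x.2 = z.2 then f x.1 x.2 else 0
    with hS
  have h1 : ∑ a, ∑ b, (if D a b then f a b else 0) = ∑ z, S z := by
    rw [hS, Finset.sum_comm (s := Finset.univ (α := F × F)), ← Fintype.sum_prod_type']
    refine Finset.sum_congr rfl fun x _ => ?_
    rw [Finset.sum_eq_single (φ x.1, φ x.2) (fun z _ hz => if_neg fun h0 => hz (Prod.ext h0.2.1.symm h0.2.2.symm))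
      (by simp)]
    simp
  have h2 : ∀ z, z ≠ 0 → S z = S (1, 0) := by
    rintro ⟨α, γ⟩ hz
    obtain ⟨β, δ, hd⟩ : ∃ β δ, α * δ - β * γ = 1 := by
      by_cases hα : α = 0
      · have hγ : γ ≠ 0 := fun h0 => hz (by rw [hα, h0]; rfl)
        exact ⟨-γ⁻¹, 0, by simp [hγ]⟩
      · exact ⟨0, α⁻¹, by simp [hα]⟩
    have e1 : ∀ a b : N, δ • (α • a + β • b) + (-β) • (γ • a + δ • b) = a := fun a b => by
      linear_combination (norm := module) hd • a
    have e2 : ∀ a b : N, (-γ) • (α • a + β • b) + α • (γ • a + δ • b) = b := fun a b => by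
      linear_combination (norm := module) hd • b
    let σ : N × N ≃ N × N :=
      { toFun := fun x => (α • x.1 + β • x.2, γ • x.1 + δ • x.2)
        invFun := fun x => (δ • x.1 + (-β) • x.2, (-γ) • x.1 + α • x.2)
        left_inv := fun x => Prod.ext (e1 _ _) (e2 _ _)
        right_inv := fun x => Prod.ext (by linear_combination (norm := module) hd • x.1)
          (by linear_combination (norm := module) hd • x.2) }
    refine (Fintype.sum_equiv σ _ _ fun x => ?_).symm
    by_cases h0 : D x.1 x.2 ∧ φ x.1 = 1 ∧ φ x.2 = 0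
    · obtain ⟨h3, h4⟩ := hD _ _ α β γ δ hd h0.1
      rw [if_pos h0, if_pos ⟨h3, by simp [σ, h0.2], by simp [σ, h0.2]⟩]
      exact h4.symm
    · rw [if_neg h0, if_neg fun h3 => h0 ?_]
      have h4 := (hD _ _ δ (-β) (-γ) α (by linear_combination hd) h3.1).1
      obtain ⟨-, h5, h6⟩ := h3
      simp only [σ, Equiv.coe_fn_mk, e1, e2, map_add, map_smul, smul_eq_mul] at h4 h5 h6
      exact ⟨h4, by linear_combination δ * h5 - β * h6 + (1 - φ x.1) * hd,
        by linear_combination α * h6 - γ * h5 - φ x.2 * hd⟩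
  rw [h1, ← Finset.add_sum_erase _ _ (Finset.mem_univ 0), Finset.sum_congr rfl fun z hz =>
    h2 z (Finset.ne_of_mem_erase hz), Finset.sum_const, Finset.card_erase_of_mem (Finset.mem_univ _),
    Finset.card_univ, Fintype.card_prod, nsmul_eq_mul, Nat.cast_sub (Nat.mul_pos Fintype.card_pos Fintype.card_pos)]
  simp only [hS, Fintype.sum_prod_type, Prod.fst_zero, Prod.snd_zero]
  push_cast
  ring

omit [Fintype F] [Fintype N]

theorem eich_sl {a b : N} (ha : Q a = 0) (hb : Q b = 0) (hab : polar Q a b = 0) {α β γ δ : F}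
    (hd : α * δ - β * γ = 1) : (Q (α • a + β • b) = 0 ∧ Q (γ • a + δ • b) = 0 ∧
      polar Q (α • a + β • b) (γ • a + δ • b) = 0) ∧
      eich Q (α • a + β • b) (γ • a + δ • b) = eich Q a b := by
  have h1 : ∀ s t : F, Q (s • a + t • b) = 0 := fun s t => by simp [map_add', map_smul', ha, hb, hab]
  have h2 : polar Q (α • a + β • b) (γ • a + δ • b) = 0 := by
    simp [polar_self', ha, hb, hab, polar_comm Q b a]
  refine ⟨⟨h1 _ _, h1 _ _, h2⟩, OG.ext' fun x => ?_⟩
  rw [eich_app (h1 _ _) h2, eich_app ha hab, h1, hb]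
  simp only [polar_add_left, polar_smul_left, smul_eq_mul]
  linear_combination (norm := module) hd • (polar Q b x • a - polar Q a x • b)

/-- Two orthogonal hyperbolic pairs. -/
structure Hyp2 (Q : QuadraticForm F N) (e f p p' : N) : Prop where
  ef : IsHyp Q e f
  pp : IsHyp Q p p'
  ep : polar Q e p = 0
  ep' : polar Q e p' = 0
  fp : polar Q f p = 0
  fp' : polar Q f p' = 0

/-- The action of a matrix of `SL₂` on the span of two orthogonal hyperbolic pairs. -/
def IsSL (Q : QuadraticForm F N) (e f p p' : N) (a b c d : F) (g : OG Q) : Prop :=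
  ∀ x, g.1 x = x + ((a - 1) * polar Q f x + b * polar Q p' x) • e +
    (c * polar Q f x + (d - 1) * polar Q p' x) • p + ((d - 1) * polar Q e x - c * polar Q p x) • f +
    ((a - 1) * polar Q p x - b * polar Q e x) • p'

variable {e f p p' : N}

theorem IsSL.unique {a b c d a' b' c' d' : F} {g g' : OG Q} (h : IsSL Q e f p p' a b c d g)
    (h' : IsSL Q e f p p' a' b' c' d' g') (ha : a = a') (hb : b = b') (hc : c = c') (hd : d = d') :
    g = g' := by
  subst ha hb hc hd
  exact OG.ext' fun x => (h x).trans (h' x).symm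

theorem IsSL.congr {a b c d a' b' c' d' : F} {g : OG Q} (h : IsSL Q e f p p' a b c d g) (ha : a = a')
    (hb : b = b') (hc : c = c') (hd : d = d') : IsSL Q e f p p' a' b' c' d' g := by
  subst ha hb hc hd
  exact h

theorem IsSL.mul (H : Hyp2 Q e f p p') {a b c d a' b' c' d' : F} {g g' : OG Q}
    (h : IsSL Q e f p p' a b c d g) (h' : IsSL Q e f p p' a' b' c' d' g') :
    IsSL Q e f p p' (a * a' + b * c') (a * b' + b * d') (c * a' + d * c') (c * b' + d * d') (g * g') :=
  fun x => by
    rw [OG.mul_app, h, h']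
    simp only [polar_add_right, polar_smul_right, smul_eq_mul, H.ef.polar_left, H.ef.polar_right,
      H.ef.polar_eq, H.ef.polar_eq', H.pp.polar_left, H.pp.polar_right, H.pp.polar_eq, H.pp.polar_eq',
      H.ep, H.ep', H.fp, H.fp', polar_comm Q p e, polar_comm Q p' e, polar_comm Q p f, polar_comm Q p' f]
    module

theorem Hyp2.isSL_x (H : Hyp2 Q e f p p') (t : F) : IsSL Q e f p p' 1 t 0 1 (eich Q e (t • p')) :=
  fun x => by
    rw [eich_app H.ef.left (by simp [H.ep']), map_smul', H.pp.right]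
    simp only [polar_smul_left, smul_eq_mul]
    module

theorem Hyp2.isSL_y (H : Hyp2 Q e f p p') (t : F) : IsSL Q e f p p' 1 0 t 1 (eich Q p (t • f)) :=
  fun x => by
    rw [eich_app H.pp.left (by simp [polar_comm Q p f, H.fp]), map_smul', H.ef.right]
    simp only [polar_smul_left, smul_eq_mul]
    module

theorem IsSL.app_e (H : Hyp2 Q e f p p') {a b c d : F} {g : OG Q} (h : IsSL Q e f p p' a b c d g) :
    g.1 e = a • e + c • p := by
  rw [h]
  simp only [H.ef.polar_left, H.ef.polar_eq', H.ep, H.ep', polar_comm Q p e, polar_comm Q p' e]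
  module

theorem IsSL.app_p (H : Hyp2 Q e f p p') {a b c d : F} {g : OG Q} (h : IsSL Q e f p p' a b c d g) :
    g.1 p = b • e + d • p := by
  rw [h]
  simp only [H.pp.polar_left, H.pp.polar_eq', H.ep, H.fp]
  module

end CL.LS
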