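/-
Invariant linear forms on the orthogonal complement of a partially singular triple.
-/
import Cfsg.Agent.Known.MCOGeom
import Cfsg.Agent.Cls.OrthOmega

set_option autoImplicit false

open Module QuadraticMap CL.Cls
open scoped Classical

namespace CL.LS

variable {F N : Type*} [Field F] [AddCommGroup N] [Module F N] {Q : QuadraticForm F N}

theorem movIn_fix {W : Submodule F N} (hW : NDon Q W) {g : OG Q} (hg : g ∈ movIn Q W) {x : N}
    (hx : ∀ y ∈ W, polar Q x y = 0) : g.1 x = x := by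
  refine sub_eq_zero.mp (hW _ (mem_movIn.mp hg x) fun y hy => ?_)
  rw [polar_sub_left, OG.polar_app_left, hx y hy, hx _ (movIn_app_mem (Subgroup.inv_mem _ hg) hy), sub_zero]

theorem eq_zero_of_eich_inv {D : Submodule F N} (φ : N →ₗ[F] F)
    (hinv : ∀ a ∈ D, ∀ b ∈ D, ∀ u ∈ D, Q a = 0 → polar Q a b = 0 → φ ((eich Q a b).1 u) = φ u)
    {a a' b u : N} (h : IsHyp Q a a') (ha : a ∈ D) (ha' : a' ∈ D) (hb : b ∈ hypC Q D a a')
    (hu : u ∈ hypC Q D a a') (hbu : polar Q b u ≠ 0) {x : N} (hx : x ∈ D) : φ x = 0 := by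
  obtain ⟨b1, b2, b3⟩ := mem_hypC.mp hb
  obtain ⟨u1, u2, u3⟩ := mem_hypC.mp hu
  have h1 : φ a = 0 := by
    have := hinv a ha b b1 u u1 h.left b2
    rw [eich_app_of_perp h.left b2 u2] at this
    simpa [hbu] using this
  have h2 : φ a' = 0 := by
    have := hinv a' ha' b b1 u u1 h.right b3
    rw [eich_app_of_perp h.right b3 u3] at this
    simpa [hbu] using this
  obtain ⟨y1, y2, y3⟩ := mem_hypC.mp (h.proj_mem ha ha' hx)
  have := hinv a ha _ y1 a' ha' h.left y2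
  rw [eich_app h.left y2] at this
  simpa [h1, h2, h.polar_eq] using this

/-- The diagonal isometry of a hyperbolic pair. -/
noncomputable def hypDiag (Q : QuadraticForm F N) (e f : N) (β : F) : OG Q :=
  refl Q (e - f) * refl Q (e - β • f)

theorem map_sub_smul_hyp {e f : N} (h : IsHyp Q e f) (β : F) : Q (e - β • f) = -β := by
  rw [Cls.map_sub', map_smul', h.left, h.right, polar_smul_right, h.polar_eq]
  simp

theorem hypDiag_left {e f : N} (h : IsHyp Q e f) {β : F} (hβ : β ≠ 0) : (hypDiag Q e f β).1 e = β • e := by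
  have h1 := map_sub_smul_hyp h 1
  rw [one_smul] at h1
  rw [hypDiag, OG.mul_app, refl_app, refl_app, map_sub_smul_hyp h, h1]
  simp only [polar_sub_left, polar_sub_right, polar_smul_left, polar_smul_right, h.polar_left, h.polar_right,
    h.polar_eq, h.polar_eq', smul_eq_mul]
  match_scalars <;> field_simp <;> ring

theorem hypDiag_right {e f : N} (h : IsHyp Q e f) {β : F} (hβ : β ≠ 0) :
    (hypDiag Q e f β).1 f = β⁻¹ • f := by
  have h1 := map_sub_smul_hyp h 1
  rw [one_smul] at h1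
  rw [hypDiag, OG.mul_app, refl_app, refl_app, map_sub_smul_hyp h, h1]
  simp only [polar_sub_left, polar_sub_right, polar_smul_left, polar_smul_right, h.polar_left, h.polar_right,
    h.polar_eq, h.polar_eq', smul_eq_mul]
  match_scalars <;> field_simp <;> ring

theorem hypDiag_fix {e f x : N} (β : F) (he : polar Q e x = 0) (hf : polar Q f x = 0) :
    (hypDiag Q e f β).1 x = x := by
  rw [hypDiag, OG.mul_app, refl_app_of_polar (x := x) (by simp [he, hf]), refl_app_of_polar (by simp [he, hf])]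

variable [Fintype F] [Fintype N]

omit [Fintype N] in
theorem exists_sq_ne_one (h : 3 < Fintype.card F) : ∃ β : F, β ≠ 0 ∧ β ^ 2 ≠ 1 := by
  by_contra h0
  push Not at h0
  have h1 : (Finset.univ : Finset F) ⊆ {0, 1, -1} := fun x _ => by
    by_cases hx : x = 0
    · simp [hx]
    · rcases sq_eq_one_iff.mp (h0 x hx) with h | h <;> simp [h]
  have := (Finset.card_le_card h1).trans Finset.card_le_three
  rw [Finset.card_univ] at this
  omega

/-- The standing hypotheses on the orthogonal space. -/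
structure OC (Q : QuadraticForm F N) : Prop where
  nd : (polarBilin Q).Nondegenerate
  dim : 7 ≤ finrank F N

omit [Fintype F] [Fintype N] in
theorem exists_polar_ne_zero_of_pos {W : Submodule F N} (hW : NDon Q W) (h : 0 < finrank F W) :
    ∃ b ∈ W, ∃ u ∈ W, polar Q b u ≠ 0 := by
  obtain ⟨b, hb, hb0⟩ := exists_mem_ne_zero_of_finrank_pos h
  exact ⟨b, hb, hW.exists_polar_ne_zero hb hb0⟩

theorem eq_zero_of_eich_inv' {D W : Submodule F N} (φ : N →ₗ[F] F)
    (hinv : ∀ a ∈ D, ∀ b ∈ D, ∀ u ∈ D, Q a = 0 → polar Q a b = 0 → φ ((eich Q a b).1 u) = φ u)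
    (hW : NDon Q W) (h3 : 3 ≤ finrank F W) (hle : W ≤ D) {x : N} (hx : x ∈ D) : φ x = 0 := by
  obtain ⟨a, ha, a', ha', h⟩ := hW.exists_isHyp h3
  have h1 := finrank_hypC h ha ha'
  obtain ⟨b, hb, u, hu, hbu⟩ := exists_polar_ne_zero_of_pos (hW.hypC h ha ha') (by omega)
  exact eq_zero_of_eich_inv φ hinv h (hle ha) (hle ha') (mem_hypC.mpr ⟨hle (hypC_le hb), (mem_hypC.mp hb).2⟩)
    (mem_hypC.mpr ⟨hle (hypC_le hu), (mem_hypC.mp hu).2⟩) hbu hx

theorem exists_singular_polar_eq_one {W : Submodule F N} (hW : NDon Q W) (h3 : 3 ≤ finrank F W) {w : N}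
    (hw : w ∈ W) (hw0 : w ≠ 0) : ∃ r ∈ W, Q r = 0 ∧ polar Q r w = 1 := by
  obtain ⟨a, ha, a', ha', h⟩ := hW.exists_isHyp h3
  by_contra h0
  push Not at h0
  refine hw0 (hW w hw fun y hy => singular_induction h ha ha' (P := fun y => polar Q w y = 0)
    (fun x hx hq => ?_) (fun x _ y _ hx hy => by simp [hx, hy]) hy)
  by_contra h1
  exact h0 ((polar Q w x)⁻¹ • x) (W.smul_mem _ hx) (by simp [map_smul', hq]) (by simp [polar_comm Q x w, h1])

omit [Fintype F] in
theorem two_le_nu {W : Submodule F N} {z : N} (hz : z ∈ W) (hz0 : z ≠ 0) (hq : Q z = 0) : 2 ≤ nu Q W 0 := by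
  refine le_trans ?_ (Finset.sum_le_sum_of_subset (Finset.subset_univ {0, ⟨z, hz⟩}))
  rw [Finset.sum_pair fun h => hz0 (congrArg Subtype.val h).symm]
  simp [hq]

theorem polar_eq_zero_of_inv (h : OC Q) {c : F} (hc : c ≠ 0 → 9 ≤ finrank F N)
    (hs : finrank F N = 8 → 3 < Fintype.card F ∨
      nu Q ⊤ 0 = Fintype.card F ^ 3 + (Fintype.card F ^ 3 - 1) * Fintype.card F ^ 4)
    {e p w w' : N} (he : Q e = 0) (he0 : e ≠ 0) (hp : Q p = 0) (hep : polar Q e p = 0) (hpe : p ∉ F ∙ e)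
    (hew : polar Q e w = 0) (hpw : polar Q p w = 0) (hw : Q w = c) (h1 : polar Q w' e = 0)
    (h2 : polar Q w' p = 0) (h3 : c = 0 → Q w' = 0)
    (hinv : ∀ g ∈ commutator (OG Q), g.1 e = e → g.1 p = p → g.1 w = w → ∀ u, polar Q e u = 0 →
      polar Q p u = 0 → polar Q w u = 0 → polar Q w' (g.1 u) = polar Q w' u)
    {u : N} (hu1 : polar Q e u = 0) (hu2 : polar Q p u = 0) (hu3 : polar Q w u = 0) : polar Q w' u = 0 := by
  have hdim := h.dim
  let D : Submodule F N := perp Q e ⊓ perp Q p ⊓ perp Q w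
  have hD : ∀ x, x ∈ D ↔ polar Q e x = 0 ∧ polar Q p x = 0 ∧ polar Q w x = 0 := fun x => by
    simp [D, mem_perp, and_assoc]
  have hinv' : ∀ a ∈ D, ∀ b ∈ D, ∀ u ∈ D, Q a = 0 → polar Q a b = 0 →
      polarBilin Q w' ((eich Q a b).1 u) = polarBilin Q w' u := fun a ha b hb u hu _ _ => by
    obtain ⟨a1, a2, a3⟩ := (hD a).mp ha
    obtain ⟨b1, b2, b3⟩ := (hD b).mp hb
    obtain ⟨u1, u2, u3⟩ := (hD u).mp hu
    exact hinv _ (eich_mem_commutator h.nd (by omega) a b)
      (eich_app_of_polar (by rwa [polar_comm]) (by rwa [polar_comm]))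
      (eich_app_of_polar (by rwa [polar_comm]) (by rwa [polar_comm]))
      (eich_app_of_polar (by rwa [polar_comm]) (by rwa [polar_comm])) u u1 u2 u3
  have huD : u ∈ D := (hD u).mpr ⟨hu1, hu2, hu3⟩
  obtain ⟨f, hef⟩ := exists_hyp h.nd he0 he
  have hW1 := (ndon_top h.nd).hypC hef Submodule.mem_top Submodule.mem_top
  have d1 := finrank_hypC hef (W := ⊤) Submodule.mem_top Submodule.mem_top
  rw [finrank_top] at d1
  obtain ⟨p₁, hp₁⟩ : ∃ p₁, p₁ = p - polar Q f p • e := ⟨_, rfl⟩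
  have hp1 : p₁ ∈ hypC Q ⊤ e f := by simpa [hep, hp₁] using hef.proj_mem (x := p) (W := ⊤) trivial trivial trivial
  have hp10 : p₁ ≠ 0 := fun h0 => hpe (Submodule.mem_span_singleton.mpr ⟨_, (sub_eq_zero.mp (hp₁ ▸ h0)).symm⟩)
  have hp1q : Q p₁ = 0 := by rw [hp₁, map_sub_smul_singular he hep, hp]
  obtain ⟨p', hp', hpp⟩ := hW1.exists_hyp hp1 hp10 hp1q
  have hW2 := hW1.hypC hpp hp1 hp'
  have d2 := finrank_hypC hpp hp1 hp'
  have hw1 := hef.proj_mem (x := w) (W := ⊤) trivial trivial trivial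
  have hp1w : polar Q p₁ w = 0 := by simp [hp₁, hpw, hew]
  have hp1e : polar Q p₁ e = 0 := by rw [polar_comm]; exact (mem_hypC.mp hp1).2.1
  have hw2 := hpp.proj_mem hp1 hp' hw1
  simp only [hew, zero_smul, sub_zero, polar_sub_right, polar_smul_right, hp1w, hp1e, smul_zero] at hw2
  obtain ⟨w₂, hw₂⟩ : ∃ w₂, w₂ = w - polar Q f w • e - (polar Q p' w - polar Q f w • polar Q p' e) • p₁ :=
    ⟨_, rfl⟩
  rw [← hw₂] at hw2
  have hle : ∀ x ∈ hypC Q (hypC Q ⊤ e f) p₁ p', polar Q w₂ x = 0 → x ∈ D := fun x hx hx' => by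
    obtain ⟨x1, x2, -⟩ := mem_hypC.mp hx
    obtain ⟨-, x3, -⟩ := mem_hypC.mp x1
    refine (hD x).mpr ⟨x3, by simpa [hp₁, x3] using x2, by simpa [hw₂, x3, x2] using hx'⟩
  by_cases hw20 : w₂ = 0
  · exact eq_zero_of_eich_inv' _ hinv' hW2 (by omega) (fun x hx => hle x hx (by simp [hw20])) huD
  have hw2q : Q w₂ = c := by
    rw [hw₂, map_sub_smul_singular hp1q (by simp [hp1w, hp1e]), map_sub_smul_singular he hew, hw]
  obtain ⟨r, hr, hrq, hrw⟩ := exists_singular_polar_eq_one hW2 (by omega) hw2 hw20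
  have hrr : IsHyp Q (w₂ - c • r) r := ⟨by
    rw [Cls.map_sub', map_smul', hrq, polar_smul_right, polar_comm, hrw, hw2q]; simp, hrq, by
    simp [polar_comm Q w₂ r, hrw, polar_self', hrq]⟩
  have hr' := Submodule.sub_mem _ hw2 (Submodule.smul_mem _ c hr)
  have hW3 := hW2.hypC hrr hr' hr
  have d3 := finrank_hypC hrr hr' hr
  have hle3 : hypC Q (hypC Q (hypC Q ⊤ e f) p₁ p') (w₂ - c • r) r ≤ D := fun x hx => by
    obtain ⟨x1, x2, x3⟩ := mem_hypC.mp hx
    exact hle x x1 (by simpa [x3] using x2)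
  by_cases h9 : 9 ≤ finrank F N
  · exact eq_zero_of_eich_inv' _ hinv' hW3 (by omega) hle3 huD
  have hc0 : c = 0 := by_contra fun h0 => h9 (hc h0)
  subst hc0
  rw [zero_smul, sub_zero] at hrr hW3 d3 hle3
  have hw2D : w₂ ∈ D := hle _ hw2 hrr.polar_left
  have h4 : polar Q w' w₂ = 0 := by
    obtain ⟨b, hb, v, hv, hbv⟩ := exists_polar_ne_zero_of_pos hW3 (by omega)
    have := hinv' _ hw2D b (hle3 hb) v (hle3 hv) hw2q (mem_hypC.mp hb).2.1
    rw [eich_app_of_perp hw2q (mem_hypC.mp hb).2.1 (mem_hypC.mp hv).2.1] at this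
    simpa [hbv] using this
  have h5 : polar Q w' p₁ = 0 := by simp [hp₁, h1, h2]
  have hw2e : polar Q w₂ e = 0 := by rw [polar_comm]; exact (mem_hypC.mp (hypC_le hw2)).2.1
  have hw2p : polar Q w₂ p₁ = 0 := by rw [polar_comm]; exact (mem_hypC.mp hw2).2.1
  obtain ⟨z, hz, α, β, γ, hzw⟩ : ∃ z ∈ hypC Q (hypC Q (hypC Q ⊤ e f) p₁ p') w₂ r, ∃ α β γ : F,
      z = w' - α • e - β • p₁ - γ • w₂ := by
    have k1 := hef.proj_mem (x := w') (W := ⊤) trivial trivial trivial
    have k2 := hpp.proj_mem hp1 hp' k1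
    have k3 := hrr.proj_mem hw2 hr k2
    simp only [polar_comm Q e w', h1, zero_smul, sub_zero, polar_sub_right, polar_smul_right, hp1e,
      polar_comm Q p₁ w', h5, smul_zero, polar_comm Q w₂ w', h4, hw2e, hw2p] at k3
    exact ⟨_, k3, _, _, _, rfl⟩
  have hzq : Q z = 0 := by
    rw [hzw, map_sub_smul_singular hw2q (by simp [polar_comm Q w₂ w', h4, hw2e, hw2p]),
      map_sub_smul_singular hp1q (by simp [polar_comm Q p₁ w', h5, hp1e]),
      map_sub_smul_singular he (by rwa [polar_comm]), h3 rfl]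
  have hzD : ∀ x ∈ D, polar Q w' x = polar Q z x := fun x hx => by
    obtain ⟨x1, x2, x3⟩ := (hD x).mp hx
    simp [hzw, hw₂, hp₁, x1, x2, x3]
  by_cases hz0 : z = 0
  · rw [hzD u huD, hz0, polar_zero_left]
  exfalso
  obtain ⟨a, ha, hza⟩ := hW3.exists_hyp hz hz0 hzq
  have d4 := finrank_hypC hza hz ha
  rcases hs (by omega) with h6 | h6
  · obtain ⟨β, hβ, hβ1⟩ := exists_sq_ne_one h6
    obtain ⟨z1, z2, z3⟩ := (hD z).mp (hle3 hz)
    obtain ⟨a1, a2, a3⟩ := (hD a).mp (hle3 ha)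
    have k1 := map_sub_smul_hyp hza 1
    rw [one_smul] at k1
    have := hinv (hypDiag Q z a (β ^ 2)) (refl_mul_refl_mem_commutator h.nd (by simp [k1])
      (by simp [map_sub_smul_hyp hza, hβ]) (by
        rw [k1, map_sub_smul_hyp hza]
        refine ⟨fun ⟨s, hs⟩ => ⟨s * β, by linear_combination β ^ 2 * hs⟩,
          fun ⟨s, hs⟩ => ⟨s / β, by field_simp; linear_combination hs⟩⟩))
      (hypDiag_fix _ (by rwa [polar_comm]) (by rwa [polar_comm]))
      (hypDiag_fix _ (by rwa [polar_comm]) (by rwa [polar_comm]))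
      (hypDiag_fix _ (by rwa [polar_comm]) (by rwa [polar_comm])) a a1 a2 a3
    rw [hypDiag_right hza (pow_ne_zero 2 hβ), polar_smul_right, hzD a (hle3 ha), hza.polar_eq, smul_eq_mul,
      mul_one, inv_eq_one] at this
    exact hβ1 this
  · have k0 := two_le_nu hz hz0 hzq
    rw [nu_hyp (W := ⊤) hef trivial trivial, nu_hyp hpp hp1 hp', nu_hyp hrr hw2 hr, card_submodule, card_submodule,
      card_submodule, show finrank F (hypC Q ⊤ e f) = 6 by omega,
      show finrank F (hypC Q (hypC Q ⊤ e f) p₁ p') = 4 by omega,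
      show finrank F (hypC Q (hypC Q (hypC Q ⊤ e f) p₁ p') w₂ r) = 2 by omega] at h6
    obtain ⟨s, hs⟩ : ∃ s, Fintype.card F = s + 1 := ⟨_, (Nat.succ_pred_eq_of_pos Fintype.card_pos).symm⟩
    rw [hs, Nat.add_sub_cancel, show (s + 1) ^ 3 - 1 = s * ((s + 1) ^ 2 + (s + 1) + 1) from
      Nat.sub_eq_of_eq_add (by ring)] at h6
    have : (s + 1) ^ 3 * nu Q (hypC Q (hypC Q (hypC Q ⊤ e f) p₁ p') w₂ r) 0 = (s + 1) ^ 3 * 1 := by
      linarith
    have := Nat.eq_of_mul_eq_mul_left (by positivity) this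
    omega

end CL.LS
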