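/-
Weight spaces of the unipotent radical of the stabiliser of a singular point in `Ω(Q)`.
-/
import Cfsg.Agent.Known.MCOInv

set_option autoImplicit false

open Module QuadraticMap CL.Cls
open scoped Classical

namespace CL.LS

variable {F N : Type*} [Field F] [AddCommGroup N] [Module F N] [Fintype F] [Fintype N]
  {Q : QuadraticForm F N}

/-- The group `Ω(Q)`. -/
abbrev Om (Q : QuadraticForm F N) : Type _ := commutator (OG Q)

namespace OC

variable (h : OC Q)

/-- Eichler transformations as elements of `Ω(Q)`. -/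
noncomputable def E (u v : N) : Om Q := ⟨eich Q u v, eich_mem_commutator h.nd (by have := h.dim; omega) u v⟩

theorem E_add {u v w : N} (hu : Q u = 0) (huv : polar Q u v = 0) (huw : polar Q u w = 0) :
    h.E u (v + w) = h.E u v * h.E u w := Subtype.ext (eich_mul hu huv huw).symm

theorem E_conj (g : Om Q) (u v : N) : g * h.E u v * g⁻¹ = h.E (g.1.1 u) (g.1.1 v) :=
  Subtype.ext (eich_conj g.1 u v)

theorem E_mul (g : Om Q) (u v : N) : h.E (g.1.1 u) (g.1.1 v) * g = g * h.E u v := by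
  rw [← h.E_conj]; group

theorem E_swap {u v : N} (hu : Q u = 0) (hv : Q v = 0) (huv : polar Q u v = 0) : h.E v u = h.E u (-v) :=
  Subtype.ext (eich_swap hu hv huv)

theorem E_add_smul {u v : N} (hu : Q u = 0) (huv : polar Q u v = 0) (c : F) : h.E u (v + c • u) = h.E u v :=
  Subtype.ext (eich_add_smul hu huv c)

theorem E_smul_left {u v : N} (hu : Q u = 0) (huv : polar Q u v = 0) (c : F) :
    h.E (c • u) v = h.E u (c • v) := Subtype.ext (eich_smul_left hu huv c)

theorem E_zero_right (u : N) : h.E u 0 = 1 := Subtype.ext (eich_zero_right u)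

theorem E_zero_left (u : N) : h.E 0 u = 1 := Subtype.ext (eich_zero_left u)

theorem E_smul_self (u : N) (c : F) : h.E u (c • u) = 1 := Subtype.ext (eich_smul_self u c)

/-- The unipotent radical, parametrised by the complement of a hyperbolic pair. -/
noncomputable def fam (e f : N) (u : hypC Q ⊤ e f) : Om Q := h.E e u

variable {K M : Type*} [Field K] [AddCommGroup M] [Module K M] (ρ : Om Q →* Module.End K M)
  (ψ : AddChar F K)

/-- The weight space of the vector `w` for the unipotent radical attached to `e`. -/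
def Wt (e w : N) : Submodule K M where
  carrier := {v | ∀ u, polar Q e u = 0 → ρ (h.E e u) v = ψ (polar Q w u) • v}
  add_mem' hu hv x hx := by rw [map_add, hu x hx, hv x hx, smul_add]
  zero_mem' x _ := by simp
  smul_mem' c v hv x hx := by rw [map_smul, hv x hx, smul_comm]

/-- The linear form attached to a vector. -/
def lw (Q : QuadraticForm F N) (W : Submodule F N) : N →ₗ[F] Dual F W :=
  W.subtype.dualMap ∘ₗ polarBilin Q

/-- The projection onto a weight space. -/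
noncomputable def pr (e f w : N) : Module.End K M :=
  wproj ρ ψ (h.fam e f) (lw Q _ w)

variable {h ρ ψ}

theorem mem_Wt {e w : N} {v : M} :
    v ∈ h.Wt ρ ψ e w ↔ ∀ u, polar Q e u = 0 → ρ (h.E e u) v = ψ (polar Q w u) • v := Iff.rfl

theorem map_mem_Wt (g : Om Q) {e w : N} {v : M} (hv : v ∈ h.Wt ρ ψ e w) :
    ρ g v ∈ h.Wt ρ ψ (g.1.1 e) (g.1.1 w) := fun u hu => by
  obtain ⟨u, rfl⟩ := g.1.1.surjective u
  rw [OG.polar_app] at hu
  rw [← Module.End.mul_apply, ← map_mul, h.E_mul, map_mul, Module.End.mul_apply, hv u hu, map_smul,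
    OG.polar_app]

theorem Wt_add_smul (e w : N) (c : F) : h.Wt ρ ψ e (w + c • e) = h.Wt ρ ψ e w :=
  Submodule.ext fun _ => forall₂_congr fun u hu => by simp [hu]

theorem Wt_smul {e : N} (he : Q e = 0) (w : N) {c : F} (hc : c ≠ 0) :
    h.Wt ρ ψ (c • e) (c • w) = h.Wt ρ ψ e w :=
  Submodule.ext fun v => ⟨fun hv u hu => by
    have := hv (c⁻¹ • u) (by simp [hu])
    rwa [h.E_smul_left he (by simp [hu]), smul_inv_smul₀ hc, polar_smul_left, polar_smul_right,
      smul_inv_smul₀ hc] at this, fun hv u hu => by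
    have hu' : polar Q e u = 0 := by simpa [hc] using hu
    rw [h.E_smul_left he hu', hv _ (by simp [hu']), polar_smul_left, polar_smul_right]⟩

theorem finrank_Wt_conj [FiniteDimensional K M] (g : Om Q) (e w : N) :
    finrank K (h.Wt ρ ψ (g.1.1 e) (g.1.1 w)) = finrank K (h.Wt ρ ψ e w) := by
  have key : ∀ (g : Om Q) (e w : N), finrank K (h.Wt ρ ψ e w) ≤ finrank K (h.Wt ρ ψ (g.1.1 e) (g.1.1 w)) :=
    fun g e w => LinearMap.finrank_le_finrank_of_injective (f := (ρ g).restrict fun _ hv => map_mem_Wt g hv)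
      fun _ _ h0 => Subtype.ext (rho_injective g (congrArg Subtype.val h0))
  refine le_antisymm ((key g⁻¹ _ _).trans ?_) (key g e w)
  rw [Subgroup.coe_inv, OG.inv_app_app, OG.inv_app_app]

omit [Fintype F] [Fintype N] in
theorem lw_apply (W : Submodule F N) (w : N) (u : W) : lw Q W w u = polar Q w u := rfl

omit [Fintype F] in
theorem lw_bijective {W : Submodule F N} (hW : NDon Q W) : Function.Bijective fun w : W => lw Q W w := by
  have h1 : Function.Injective (lw Q W ∘ₗ W.subtype) := (injective_iff_map_eq_zero _).mpr fun w hw =>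
    Subtype.ext (hW w w.2 fun y hy => LinearMap.congr_fun hw ⟨y, hy⟩)
  exact ⟨h1, (LinearMap.injective_iff_surjective_of_finrank_eq_finrank Subspace.dual_finrank_eq.symm).mp h1⟩

variable {e f : N}

theorem fam_add (hef : IsHyp Q e f) (x y : hypC Q ⊤ e f) : h.fam e f (x + y) = h.fam e f x * h.fam e f y :=
  h.E_add hef.left (mem_hypC.mp x.2).2.1 (mem_hypC.mp y.2).2.1

theorem wsp_eq (hef : IsHyp Q e f) {w : N} (hw : polar Q e w = 0) :
    wsp ρ ψ (h.fam e f) (lw Q _ w) = h.Wt ρ ψ e w := by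
  refine Submodule.ext fun v => ⟨fun hv u hu => ?_, fun hv u => hv u (mem_hypC.mp u.2).2.1⟩
  have h1 := hef.proj_mem (W := ⊤) (x := u) trivial trivial trivial
  have := hv ⟨_, h1⟩
  simp only [fam, lw_apply, hu, zero_smul, sub_zero] at this
  rw [sub_eq_add_neg, ← neg_smul, h.E_add_smul hef.left hu] at this
  simpa [polar_comm Q w e, hw] using this

theorem pr_mem (hef : IsHyp Q e f) {w : N} (hw : polar Q e w = 0) (v : M) :
    h.pr ρ ψ e f w v ∈ h.Wt ρ ψ e w := wsp_eq (h := h) (ρ := ρ) (ψ := ψ) hef hw ▸ wproj_mem (fam_add hef) _ v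

theorem pr_of_mem (hψ : ψ ≠ 1) (hef : IsHyp Q e f) {w : N} (hw : polar Q e w = 0) {v : M}
    (hv : v ∈ h.Wt ρ ψ e w) : h.pr ρ ψ e f w v = v := wproj_of_mem hψ ((wsp_eq hef hw).ge hv)

theorem pr_of_mem_ne (hψ : ψ ≠ 1) (hef : IsHyp Q e f) {w w' : N} (hw : polar Q e w = 0)
    (hw' : polar Q e w' = 0) (hne : w' - w ∉ F ∙ e) {v : M} (hv : v ∈ h.Wt ρ ψ e w') :
    h.pr ρ ψ e f w v = 0 := by
  refine wproj_of_mem_ne hψ (fun h0 => hne ?_) ((wsp_eq hef hw').ge hv)
  have h1 := hef.proj_mem (W := ⊤) (x := w' - w) trivial trivial trivial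
  have h2 := (ndon_top h.nd).hypC hef trivial trivial _ h1 fun y hy => by
    have := LinearMap.congr_fun h0 ⟨y, hy⟩
    simp only [lw_apply] at this
    simp [this, (mem_hypC.mp hy).2]
  rw [polar_sub_right Q e, hw, hw', sub_zero, zero_smul, sub_zero, sub_eq_zero] at h2
  exact Submodule.mem_span_singleton.mpr ⟨_, h2.symm⟩

theorem sum_pr (hψ : ψ ≠ 1) (hef : IsHyp Q e f) : ∑ w : hypC Q ⊤ e f, h.pr ρ ψ e f w = 1 := by
  let _ := Fintype.ofFinite (Dual F (hypC Q ⊤ e f))
  refine LinearMap.ext fun v => ?_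
  rw [LinearMap.sum_apply, Module.End.one_apply]
  exact (Fintype.sum_bijective _ (lw_bijective ((ndon_top h.nd).hypC hef trivial trivial)) _ _
    fun _ => rfl).trans (sum_wproj (ρ := ρ) hψ (fam_add (h := h) hef) v)

theorem E_mul_pr (hef : IsHyp Q e f) {w u : N} (hw : polar Q e w = 0) (hu : polar Q e u = 0) :
    ρ (h.E e u) * h.pr ρ ψ e f w = ψ (polar Q w u) • h.pr ρ ψ e f w :=
  LinearMap.ext fun v => pr_mem hef hw v u hu

theorem pr_mul_E (hef : IsHyp Q e f) {w u : N} (hw : polar Q e w = 0) (hu : polar Q e u = 0) :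
    h.pr ρ ψ e f w * ρ (h.E e u) = ψ (polar Q w u) • h.pr ρ ψ e f w := by
  rw [← E_mul_pr hef hw hu, pr, wproj, smul_mul_assoc, mul_smul_comm, Finset.sum_mul, Finset.mul_sum]
  refine congrArg _ (Finset.sum_congr rfl fun x _ => ?_)
  have hx := (mem_hypC.mp x.2).2.1
  rw [smul_mul_assoc, mul_smul_comm, ← map_mul, ← map_mul, fam, ← h.E_add hef.left hx hu,
    ← h.E_add hef.left hu hx, add_comm]

/-- The unipotent radical of the stabiliser of `e`. -/
def rad (h : OC Q) (e : N) : Set (Om Q) := {g | ∃ u, polar Q e u = 0 ∧ g = h.E e u}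

theorem isAvg_pr (hψ : ψ ≠ 1) (hef : IsHyp Q e f) : IsAvg ρ (h.rad e) (h.pr ρ ψ e f 0) := by
  have h1 := isAvg_add (ρ := ρ) (Nat.card_eq_fintype_card (α := hypC Q ⊤ e f) ▸ card_module_ne_zero hψ)
    (fam_add (h := h) hef)
  have h2 : h.pr ρ ψ e f 0 = (Fintype.card (hypC Q ⊤ e f) : K)⁻¹ • ∑ x : hypC Q ⊤ e f, ρ (h.fam e f x) := by
    simp [pr, wproj]
  rw [← h2] at h1
  refine ⟨?_, ?_, fun T hT => h1.absL T ?_, fun T hT => h1.absR T ?_⟩
  · rintro _ ⟨u, hu, rfl⟩
    simpa using E_mul_pr (h := h) (ρ := ρ) (ψ := ψ) (w := 0) hef (by simp) hu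
  · rintro _ ⟨u, hu, rfl⟩
    simpa using pr_mul_E (h := h) (ρ := ρ) (ψ := ψ) (w := 0) hef (by simp) hu
  · rintro _ ⟨u, rfl⟩
    exact hT _ ⟨u, (mem_hypC.mp u.2).2.1, rfl⟩
  · rintro _ ⟨u, rfl⟩
    exact hT _ ⟨u, (mem_hypC.mp u.2).2.1, rfl⟩

variable [FiniteDimensional K M]

theorem trace_mul_pr (hψ : ψ ≠ 1) (hef : IsHyp Q e f) {w : N} (hw : polar Q e w = 0) {g : Om Q} {c : K}
    (hg : ∀ v ∈ h.Wt ρ ψ e w, ρ g v = c • v) :
    LinearMap.trace K M (ρ g * h.pr ρ ψ e f w) = c * finrank K (h.Wt ρ ψ e w) := by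
  rw [← wsp_eq hef hw] at hg ⊢
  exact trace_mul_wproj_of_smul hψ (fam_add hef) hg

theorem trace_pr (hψ : ψ ≠ 1) (hef : IsHyp Q e f) {w : N} (hw : polar Q e w = 0) :
    LinearMap.trace K M (h.pr ρ ψ e f w) = finrank K (h.Wt ρ ψ e w) := by
  simpa using trace_mul_pr (h := h) (ρ := ρ) hψ hef hw (g := 1) (c := 1) (by simp)

omit [FiniteDimensional K M] in
theorem trace_mul_pr_of_ne (hψ : ψ ≠ 1) (hef : IsHyp Q e f) {w : N} (hw : polar Q e w = 0) {g : Om Q}
    (hg : g.1.1 e = e) (hne : g.1.1 w - w ∉ F ∙ e) : LinearMap.trace K M (ρ g * h.pr ρ ψ e f w) = 0 := by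
  have h1 : ρ g * h.pr ρ ψ e f w = (ρ g * h.pr ρ ψ e f w) * h.pr ρ ψ e f w :=
    LinearMap.ext fun v => by simp only [Module.End.mul_apply, pr_of_mem hψ hef hw (pr_mem hef hw v)]
  have h2 : h.pr ρ ψ e f w * (ρ g * h.pr ρ ψ e f w) = 0 := LinearMap.ext fun v =>
    pr_of_mem_ne hψ hef hw (by rw [← hg, OG.polar_app, hw]) hne
      (by simpa only [hg, Module.End.mul_apply] using map_mem_Wt g (pr_mem (h := h) (ρ := ρ) (ψ := ψ) hef hw v))
  rw [h1, LinearMap.trace_mul_comm, h2, map_zero]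

theorem finrank_Wt_eq {e e' w w' : N} (he : Q e = 0) (he0 : e ≠ 0) (he' : Q e' = 0) (he0' : e' ≠ 0)
    (hw : polar Q e w = 0) (hwe : w ∉ F ∙ e) (hw' : polar Q e' w' = 0) (hwe' : w' ∉ F ∙ e')
    (hq : Q w = Q w') : finrank K (h.Wt ρ ψ e w) = finrank K (h.Wt ρ ψ e' w') := by
  have hdim := h.dim
  obtain ⟨g, hg, rfl⟩ := exists_commutator_app_eq h.nd (by omega) he0 he0' (he.trans he'.symm)
  rw [← finrank_Wt_conj ⟨g, hg⟩ e w]
  obtain ⟨f, hef⟩ := exists_hyp h.nd he0' he'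
  have d1 := finrank_hypC hef (W := ⊤) trivial trivial
  rw [finrank_top] at d1
  have hW := (ndon_top h.nd).hypC hef trivial trivial
  have hgw : polar Q (g.1 e) (g.1 w) = 0 := by rw [OG.polar_app, hw]
  have h1 := hef.proj_mem (W := ⊤) (x := g.1 w) trivial trivial trivial
  have h2 := hef.proj_mem (W := ⊤) (x := w') trivial trivial trivial
  simp only [hgw, hw', zero_smul, sub_zero] at h1 h2
  obtain ⟨k, ⟨hk, hk'⟩, hkw⟩ := exists_eich_trans_of_four_le hW (by omega) (H := commutator (OG Q))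
    (fun u _ v _ => eich_mem_commutator h.nd (by omega) u v) h1 (fun h0 => hwe (by
      rw [sub_eq_zero, ← map_smul, g.1.injective.eq_iff] at h0
      exact Submodule.mem_span_singleton.mpr ⟨_, h0.symm⟩)) h2
    (fun h0 => hwe' (Submodule.mem_span_singleton.mpr ⟨_, (sub_eq_zero.mp h0).symm⟩))
    (by rw [map_sub_smul_singular he' hgw, map_sub_smul_singular he' hw', OG.map_app, hq])
  have hke : k.1 (g.1 e) = g.1 e := movIn_fix hW hk' fun y hy => (mem_hypC.mp hy).2.1
  have h3 := finrank_Wt_conj (h := h) (ρ := ρ) (ψ := ψ) ⟨k, hk⟩ (g.1 e) (g.1 w - polar Q f (g.1 w) • g.1 e)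
  change finrank K (h.Wt ρ ψ (k.1 _) (k.1 _)) = _ at h3
  rw [hke, hkw] at h3
  rw [sub_eq_add_neg, ← neg_smul, Wt_add_smul, sub_eq_add_neg, ← neg_smul, Wt_add_smul] at h3
  exact h3.symm

variable (h ρ ψ) in
/-- The non-zero weights are the vectors on one level set of `Q`, with multiplicity one. -/
def Lev (c : F) : Prop :=
  ∀ e w, Q e = 0 → e ≠ 0 → polar Q e w = 0 → w ∉ F ∙ e → finrank K (h.Wt ρ ψ e w) = if Q w = c then 1 else 0

omit [FiniteDimensional K M] in
theorem exists_smul_of_finrank_eq_one {W : Submodule K M} (h1 : finrank K W = 1) {v : M} (hv : v ∈ W)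
    (hv0 : v ≠ 0) {x : M} (hx : x ∈ W) : ∃ c : K, x = c • v := by
  obtain ⟨c, hc⟩ := (finrank_eq_one_iff_of_nonzero' (⟨v, hv⟩ : W) (fun h0 => hv0 (congrArg Subtype.val h0))).mp
    h1 ⟨x, hx⟩
  exact ⟨c, (congrArg Subtype.val hc).symm⟩

/-- Root elements of the stabiliser of a weight act trivially on the weight line. -/
theorem Lev.E_apply (hψ : ψ ≠ 1) {c : F} (hL : h.Lev ρ ψ c) (hc : c ≠ 0 → 9 ≤ finrank F N)
    (hs : finrank F N = 8 → 3 < Fintype.card F ∨
      nu Q ⊤ 0 = Fintype.card F ^ 3 + (Fintype.card F ^ 3 - 1) * Fintype.card F ^ 4)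
    {e p w u : N} (he : Q e = 0) (he0 : e ≠ 0) (hp : Q p = 0) (hep : polar Q e p = 0)
    (hew : polar Q e w = 0) (hwe : w ∉ F ∙ e) (hpw : polar Q p w = 0)
    (hu1 : polar Q e u = 0) (hu2 : polar Q p u = 0) (hu3 : polar Q w u = 0) {v : M}
    (hv : v ∈ h.Wt ρ ψ e w) : ρ (h.E p u) v = v := by
  by_cases hpe : p ∈ F ∙ e
  · obtain ⟨a, rfl⟩ := Submodule.mem_span_singleton.mp hpe
    rw [h.E_smul_left he hu1, hv _ (by simp [hu1])]
    simp [hu3]
  by_cases hv0 : v = 0
  · simp [hv0]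
  have h1 := hL e w he he0 hew hwe
  split_ifs at h1 with hw
  swap
  · rw [Submodule.finrank_eq_zero.mp h1] at hv
    exact absurd hv hv0
  have hp0 : p ≠ 0 := fun h0 => hpe (h0 ▸ Submodule.zero_mem _)
  have hfix : ∀ g : Om Q, g.1.1 e = e → g.1.1 w = w → ∃ a : K, ρ g v = a • v := fun g h2 h3 =>
    exists_smul_of_finrank_eq_one h1 hv hv0 (h2 ▸ h3 ▸ map_mem_Wt g hv)
  obtain ⟨p', hpp⟩ := exists_hyp h.nd hp0 hp
  obtain ⟨w', hw'⟩ : ∃ w' : hypC Q ⊤ p p', h.pr ρ ψ p p' w' v ≠ 0 := by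
    by_contra h0
    push Not at h0
    have := LinearMap.congr_fun (sum_pr (h := h) (ρ := ρ) hψ hpp) v
    rw [LinearMap.sum_apply, Finset.sum_eq_zero fun w _ => h0 w] at this
    exact hv0 this.symm
  have hpw' := (mem_hypC.mp w'.2).2.1
  have h2 : ∀ u, polar Q e u = 0 → polar Q p u = 0 → polar Q w u = 0 →
      ρ (h.E p u) v = ψ (polar Q w' u) • v := fun u u1 u2 u3 => by
    obtain ⟨a, ha⟩ := hfix (h.E p u) (eich_app_of_polar (by rwa [polar_comm]) (by rwa [polar_comm]))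
      (eich_app_of_polar hpw (by rwa [polar_comm]))
    have := LinearMap.congr_fun (pr_mul_E (h := h) (ρ := ρ) (ψ := ψ) hpp hpw' u2) v
    rw [Module.End.mul_apply, ha, map_smul, LinearMap.smul_apply] at this
    rw [ha, smul_left_injective K hw' this]
  rw [h2 u hu1 hu2 hu3, polar_eq_zero_of_inv h hc hs he he0 hp hep hpe hew hpw hw (w' := w') ?_
    (by rwa [polar_comm]) (fun hc0 => ?_) (fun g hg g1 g2 g3 u u1 u2 u3 => ?_) hu1 hu2 hu3,
    AddChar.map_zero_eq_one, one_smul]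
  · refine eq_zero_of_forall_psi hψ fun t => smul_left_injective K hv0 ?_
    have := h2 (t • e) (by simp [polar_self', he]) (by simp [polar_comm Q p e, hep])
      (by simp [polar_comm Q w e, hew])
    rw [← h.E_smul_left hp (by rwa [polar_comm]), h.E_swap he (by simp [map_smul', hp]) (by simp [hep]),
      hv _ (by simp [hep])] at this
    simpa [polar_comm Q w p, hpw] using this.symm
  · by_cases h0 : (w' : N) ∈ F ∙ p
    · obtain ⟨a, ha⟩ := Submodule.mem_span_singleton.mp h0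
      simp [← ha, map_smul', hp]
    · have h3 := hL p w' hp hp0 hpw' h0
      split_ifs at h3 with h4
      · rw [h4, hc0]
      · exact absurd ((Submodule.finrank_eq_zero.mp h3).le (pr_mem hpp hpw' v)) hw'
  · refine sub_eq_zero.mp (eq_zero_of_forall_psi hψ fun t => ?_)
    obtain ⟨a, ha⟩ := hfix ⟨g, hg⟩ g1 g3
    have ha0 : a • v ≠ 0 := fun h0 => hv0 (rho_injective (ρ := ρ) ⟨g, hg⟩ (by rw [ha, h0, map_zero]))
    have h3 := congrArg (fun x => ρ x v) (h.E_mul ⟨g, hg⟩ p (t • u))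
    simp only [map_mul, Module.End.mul_apply, g2] at h3
    rw [h2 _ (by simp [u1]) (by simp [u2]) (by simp [u3]), map_smul (ρ _), ha, map_smul (ρ _),
      h2 _ (by rw [← g1, OG.polar_app]; simp [u1]) (by rw [← g2, OG.polar_app]; simp [u2])
        (by rw [← g3, OG.polar_app]; simp [u3]), smul_comm] at h3
    have h4 := smul_left_injective K ha0 h3
    simp only [map_smul, polar_smul_right, smul_eq_mul] at h4
    rw [mul_sub, AddChar.map_sub_eq_div, h4, div_self (AddChar.val_isUnit ψ _).ne_zero]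

end OC

end CL.LS
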