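/-
Counting singular vectors and pairs in an orthogonal space.
-/
import Cfsg.Agent.Known.MCOWt

set_option autoImplicit false

open Module QuadraticMap CL.Cls
open scoped Classical

namespace CL.LS

variable {F N : Type*} [Field F] [AddCommGroup N] [Module F N] [Fintype F] [Fintype N]
  {Q : QuadraticForm F N}

omit [Fintype F] in
theorem sum_sub {M : Type*} [AddCommMonoid M] (W : Submodule F N) (g : N → M) :
    ∑ x, (if x ∈ W then g x else 0) = ∑ x : W, g x := by
  rw [← Finset.sum_filter]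
  exact Finset.sum_subtype _ (by simp) g

omit [Fintype F] in
theorem sum_top {M : Type*} [AddCommMonoid M] (g : N → M) : ∑ x, g x = ∑ x : (⊤ : Submodule F N), g x := by
  simpa using sum_sub (F := F) ⊤ g

/-- The number of non-zero vectors of `W` on a level set of `Q`. -/
noncomputable def nu' (Q : QuadraticForm F N) (W : Submodule F N) (c : F) : ℕ :=
  ∑ w : W, if w.1 ≠ 0 ∧ Q w = c then 1 else 0

omit [Fintype F] in
theorem nu_eq_nu' (W : Submodule F N) (c : F) : nu Q W c = nu' Q W c + if c = 0 then 1 else 0 := by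
  have : (if c = 0 then 1 else 0) = ∑ w : W, if w = 0 then (if c = 0 then 1 else 0) else 0 := by simp
  rw [this, nu, nu', ← Finset.sum_add_distrib]
  refine Finset.sum_congr rfl fun w _ => ?_
  by_cases hw : w = 0
  · simp [hw, eq_comm]
  · simp [hw]

omit [Fintype F] in
theorem cast_nu' {R : Type*} [Semiring R] (W : Submodule F N) (c : F) (x : R) :
    ∑ w : W, (if w.1 ≠ 0 ∧ Q w = c then x else 0) = nu' Q W c * x := by
  rw [nu', Nat.cast_sum, Finset.sum_mul]
  simp

theorem nu'_hypC_eq {W W' : Submodule F N} {p p' r r' : N} (h : IsHyp Q p p') (hp : p ∈ W) (hp' : p' ∈ W)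
    (h' : IsHyp Q r r') (hr : r ∈ W') (hr' : r' ∈ W') (hc : Fintype.card W = Fintype.card W') {c : F}
    (hn : nu Q W c = nu Q W' c) : nu' Q (hypC Q W p p') c = nu' Q (hypC Q W' r r') c := by
  have := nu_hypC_eq h hp hp' h' hr hr' hc hn
  rwa [nu_eq_nu', nu_eq_nu', Nat.add_right_cancel_iff] at this

omit [Fintype F] [Fintype N] in
theorem smul_add_mem_span_iff {W : Submodule F N} {p p' y : N} (h : IsHyp Q p p') (hy : y ∈ hypC Q W p p')
    (a : F) : a • p + y ∈ F ∙ p ↔ y = 0 := by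
  refine ⟨fun h0 => ?_, fun h0 => by simp [h0, Submodule.smul_mem, Submodule.mem_span_singleton_self]⟩
  obtain ⟨b, hb⟩ := Submodule.mem_span_singleton.mp h0
  have := congrArg (polar Q p') hb
  simp only [polar_smul_right, polar_add_right, h.polar_eq', (mem_hypC.mp hy).2.2, smul_eq_mul, mul_one,
    add_zero] at this
  simpa [this] using hb.symm

theorem sum_perp_level {W : Submodule F N} {p p' : N} (h : IsHyp Q p p') (hp : p ∈ W) (hp' : p' ∈ W) (c : F)
    {R : Type*} [CommSemiring R] (x : R) :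
    ∑ w : W, (if Q w = c ∧ polar Q p w = 0 ∧ w.1 ∉ F ∙ p then x else 0) =
      Fintype.card F * nu' Q (hypC Q W p p') c * x := by
  have := sum_perp h hp hp' fun w => if Q w = c ∧ w ∉ F ∙ p then x else 0
  rw [Finset.sum_congr rfl fun a _ => Finset.sum_congr rfl fun (y : hypC Q W p p') _ =>
    show _ = if y.1 ≠ 0 ∧ Q y = c then x else 0 by
      rw [smul_add_mem_span_iff h y.2, map_add', map_smul', h.left, polar_smul_left, (mem_hypC.mp y.2).2.1]
      simp [and_comm], cast_nu', Finset.sum_const, Finset.card_univ, nsmul_eq_mul, ← mul_assoc] at this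
  rw [← this]
  refine Finset.sum_congr rfl fun w _ => ?_
  by_cases h1 : polar Q p w = 0 <;> simp [h1]

theorem sum_one_sub_psi {K : Type*} [Field K] {ψ : AddChar F K} (hψ : ψ ≠ 1) :
    ∑ t : Fˣ, (1 - ψ t) = Fintype.card F := by
  have := sum_eq_add_sum_units fun t => 1 - ψ t
  rw [Finset.sum_sub_distrib, AddChar.sum_eq_zero_of_ne_one hψ] at this
  simpa using this.symm

omit [Fintype N] in
theorem sum_units_ite_one {R : Type*} [AddCommMonoid R] (x : R) : ∑ t : Fˣ, (if (t : F) = 1 then x else 0) = x := by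
  rw [Finset.sum_eq_single 1 (fun t _ ht => if_neg (by simpa using ht)) (by simp)]
  simp

theorem card_mul_sum_ker {A R : Type*} [AddCommGroup A] [Module F A] [Fintype A] [CommSemiring R]
    {φ : Dual F A} (hφ : φ ≠ 0) :
    (Fintype.card F : R) * ∑ u, (if φ u = 0 then 1 else 0) = Fintype.card A := by
  obtain ⟨u₀, hu₀⟩ : ∃ u₀, φ u₀ = 1 := by
    obtain ⟨u, hu⟩ := DFunLike.ne_iff.mp hφ
    exact ⟨(φ u)⁻¹ • u, by rw [map_smul, smul_eq_mul, inv_mul_cancel₀ hu]⟩
  have h1 : ∀ t : F, ∑ u, (if φ u = 0 then (1 : R) else 0) = ∑ u, if φ u = t then 1 else 0 := fun t =>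
    Fintype.sum_equiv (Equiv.addRight (t • u₀)) _ _ fun u => by simp [hu₀]
  rw [← nsmul_eq_mul, ← Finset.card_univ, ← Finset.sum_const, Finset.sum_congr rfl fun t _ => h1 t,
    Finset.sum_comm]
  simp

namespace OC

variable (h : OC Q) {e f p p' : N}

include h

omit [Fintype F] [Fintype N] in
theorem nd1 (hef : IsHyp Q e f) : NDon Q (hypC Q ⊤ e f) := (ndon_top h.nd).hypC hef Submodule.mem_top Submodule.mem_top

omit h [Fintype F] in
theorem finrank1 (hef : IsHyp Q e f) : finrank F (hypC Q ⊤ e f) + 2 = finrank F N := by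
  simpa using finrank_hypC hef (W := ⊤) Submodule.mem_top Submodule.mem_top

omit h in
theorem card2 (hef : IsHyp Q e f) (hpp : IsHyp Q p p') (hp : p ∈ hypC Q ⊤ e f) (hp' : p' ∈ hypC Q ⊤ e f) :
    Fintype.card (hypC Q (hypC Q ⊤ e f) p p') = Fintype.card F ^ (finrank F N - 4) := by
  have := finrank1 hef
  have := finrank_hypC hpp hp hp'
  rw [card_submodule]
  congr 1
  omega

/-- The singular vectors orthogonal to a singular vector. -/
theorem sum_sing_perp (hef : IsHyp Q e f) {a : N} (ha : Q a = 0) (ha0 : a ≠ 0) {R : Type*} [CommSemiring R]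
    (x : R) : ∑ b, (if Q b = 0 ∧ polar Q a b = 0 ∧ b ∉ F ∙ a then x else 0) =
      Fintype.card F * nu' Q (hypC Q ⊤ e f) 0 * x := by
  obtain ⟨a', haa⟩ := exists_hyp h.nd ha0 ha
  rw [sum_top (F := F), sum_perp_level haa Submodule.mem_top Submodule.mem_top,
    nu'_hypC_eq haa Submodule.mem_top Submodule.mem_top hef Submodule.mem_top Submodule.mem_top rfl rfl]

theorem sum_level_one (hef : IsHyp Q e f) {a : N} (ha : Q a = 0) (hea : polar Q e a = 0) (c : F)
    {R : Type*} [CommSemiring R] (x : R) :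
    ∑ w : hypC Q ⊤ e f, (if (w.1 ≠ 0 ∧ Q w = c) ∧ polar Q w a = 1 then x else 0) =
      if a ∉ F ∙ e then (Fintype.card F : R) ^ (finrank F N - 4) * x else 0 := by
  split_ifs with hae
  · obtain ⟨s, rfl⟩ := Submodule.mem_span_singleton.mp hae
    exact Finset.sum_eq_zero fun w _ => if_neg fun h0 => by
      simpa [polar_comm Q w e, (mem_hypC.mp w.2).2.1] using h0.2
  have h1 := hef.proj_mem (W := ⊤) (x := a) Submodule.mem_top Submodule.mem_top Submodule.mem_top
  rw [hea, zero_smul, sub_zero] at h1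
  obtain ⟨a', ha', haa⟩ := (h.nd1 hef).exists_hyp h1
    (fun h0 => hae (Submodule.mem_span_singleton.mpr ⟨_, (sub_eq_zero.mp h0).symm⟩))
    (by rw [map_sub_smul_singular hef.left hea, ha])
  have := sum_level haa h1 ha' c fun t => if t = 1 then x else 0
  rw [card2 hef haa h1 ha', sum_units_ite_one] at this
  simp only [zero_ne_one, if_false, mul_zero, zero_add, Units.val_one, if_true, Nat.cast_pow] at this
  rw [← this]
  refine Finset.sum_congr rfl fun w _ => ?_
  rw [polar_sub_left, polar_smul_left, (mem_hypC.mp w.2).2.1, smul_zero, sub_zero, polar_comm Q a]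
  by_cases h2 : polar Q w a = 1
  · have : w.1 ≠ 0 := fun h0 => by simp [h0] at h2
    simp [h2, this]
  · simp [h2]

theorem sum_sing_perp3 (hef : IsHyp Q e f) (hpp : IsHyp Q p p') (hp : p ∈ hypC Q ⊤ e f)
    (hp' : p' ∈ hypC Q ⊤ e f) {a w : N} (ha : Q a = 0) (hea : polar Q e a = 0) (hew : polar Q e w = 0)
    (hwa : polar Q w a = 1) {R : Type*} [CommSemiring R] :
    ∑ b, (if Q b = 0 ∧ polar Q a b = 0 ∧ polar Q e b = 0 ∧ polar Q w b = 0 then (1 : R) else 0) =
      Fintype.card F * nu Q (hypC Q (hypC Q ⊤ e f) p p') 0 := by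
  have haa : IsHyp Q a (w - Q w • a) := ⟨ha, by
    rw [Cls.map_sub', map_smul', ha, polar_smul_right, hwa]; simp, by
    simp [polar_comm Q a w, hwa, polar_self', ha]⟩
  have he : e ∈ hypC Q ⊤ a (w - Q w • a) :=
    mem_hypC.mpr ⟨trivial, by rwa [polar_comm], by simp [polar_comm Q w e, polar_comm Q a e, hea, hew]⟩
  obtain ⟨f', hf', hef'⟩ := (h.nd1 haa).exists_hyp he hef.left_ne_zero hef.left
  have := sum_level hef' he hf' 0 fun t => if t = 0 then (1 : R) else 0
  rw [nu_hypC_eq hef' he hf' hpp hp hp' (card_hypC_eq haa Submodule.mem_top Submodule.mem_top hef Submodule.mem_top Submodule.mem_top rfl)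
    (nu_hypC_eq haa Submodule.mem_top Submodule.mem_top hef Submodule.mem_top Submodule.mem_top rfl rfl), ← sum_sub _
      fun b => if Q b = 0 then (if polar Q e b = 0 then (1 : R) else 0) else 0] at this
  simp only [if_true, mul_one, Units.ne_zero, if_false, Finset.sum_const_zero, mul_zero, add_zero] at this
  rw [← this]
  refine Finset.sum_congr rfl fun b _ => ?_
  by_cases h1 : polar Q a b = 0 <;> by_cases h2 : polar Q w b = 0 <;> simp [mem_hypC, h1, h2, ite_and]

theorem sum_sing_one (hef : IsHyp Q e f) {R : Type*} [CommSemiring R] (x : R) :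
    ∑ a, (if Q a = 0 ∧ polar Q e a = 1 then x else 0) =
      (Fintype.card F : R) ^ 2 * Fintype.card F ^ (finrank F N - 4) * x := by
  have := sum_level (W := ⊤) hef Submodule.mem_top Submodule.mem_top 0 fun t => if t = 1 then x else 0
  rw [sum_units_ite_one, card_submodule,
    show finrank F (hypC Q ⊤ e f) = 2 + (finrank F N - 4) by have := finrank1 hef; have := h.dim; omega,
    ← sum_top (F := F) fun a => if Q a = 0 then (if polar Q e a = 1 then x else 0) else 0] at this
  simpa [ite_and, pow_add] using this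

omit [Fintype F] [Fintype N] in
theorem exists_polar_ne_zero_perp (hef : IsHyp Q e f) (hpp : IsHyp Q p p') (hp : p ∈ hypC Q ⊤ e f)
    (hp' : p' ∈ hypC Q ⊤ e f) {w : N} (hw : w ∈ hypC Q ⊤ e f) (hwp : w ∉ F ∙ p) :
    ∃ u, polar Q e u = 0 ∧ polar Q p u = 0 ∧ polar Q w u ≠ 0 := by
  by_cases h1 : polar Q p w = 0
  · have h2 := hpp.proj_mem hp hp' hw
    rw [h1, zero_smul, sub_zero] at h2
    obtain ⟨u, hu, hu'⟩ := ((h.nd1 hef).hypC hpp hp hp').exists_polar_ne_zero h2
      fun h0 => hwp (Submodule.mem_span_singleton.mpr ⟨_, (sub_eq_zero.mp h0).symm⟩)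
    have h3 := (mem_hypC.mp hu).2.1
    exact ⟨u, (mem_hypC.mp (hypC_le hu)).2.1, h3, by simpa [h3] using hu'⟩
  · exact ⟨p, (mem_hypC.mp hp).2.1, hpp.polar_left, by rwa [polar_comm]⟩

theorem exists_conj_triple (hef : IsHyp Q e f) {a b : N} (hea : IsHyp Q e a) (hp : p ∈ hypC Q ⊤ e f)
    (hp0 : p ≠ 0) (hb : b ∈ hypC Q ⊤ e a) (hb0 : b ≠ 0) (hq : Q p = Q b) :
    ∃ g : Om Q, g.1.1 e = e ∧ g.1.1 f = a ∧ g.1.1 p = b := by
  have hdim := h.dim
  have d1 := finrank1 hea
  obtain ⟨g, ⟨hg, -⟩, g1, g2⟩ := exists_eich_app_eq (W := ⊤) (H := commutator (OG Q)) (u := e) (x := f) (y := a)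
    (fun v _ => eich_mem_commutator h.nd (by omega) _ _) Submodule.mem_top Submodule.mem_top Submodule.mem_top hef.left
    (by simp [hef.polar_eq]) (by rw [hef.polar_eq, hea.polar_eq]) (by rw [hef.right, hea.right])
  obtain ⟨k, ⟨hk, hk'⟩, hkp⟩ := exists_eich_trans_of_four_le (h.nd1 hea) (by omega) (H := commutator (OG Q))
    (fun u _ v _ => eich_mem_commutator h.nd (by omega) u v) (x := g.1 p)
    (mem_hypC.mpr ⟨trivial, by rw [← g1, OG.polar_app, (mem_hypC.mp hp).2.1],
      by rw [← g2, OG.polar_app, (mem_hypC.mp hp).2.2]⟩) (OG.app_ne_zero g hp0) hb hb0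
    (by rw [OG.map_app, hq])
  refine ⟨⟨k * g, Subgroup.mul_mem _ hk hg⟩, ?_, ?_, hkp⟩
  · rw [OG.mul_app, g1, movIn_fix (h.nd1 hea) hk' fun y hy => (mem_hypC.mp hy).2.1]
  · rw [OG.mul_app, g2, movIn_fix (h.nd1 hea) hk' fun y hy => (mem_hypC.mp hy).2.2]

end OC

end CL.LS
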