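/-
Traces of long root elements on a representation of `Ω(Q)` with a single orbit of weights.
-/
import Cfsg.Agent.Known.MCOCount

set_option autoImplicit false

open Module QuadraticMap CL.Cls
open scoped Classical

namespace CL.LS

variable {F N : Type*} [Field F] [AddCommGroup N] [Module F N] [Fintype F] [Fintype N]
  {Q : QuadraticForm F N}

namespace OC

variable {h : OC Q} {K M : Type*} [Field K] [AddCommGroup M] [Module K M] {ρ : Om Q →* Module.End K M}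
  {ψ : AddChar F K} {e f p p' : N} {c : F}

/-- The Eichler transformations with centre `p` fixing `e`. -/
def rad₂ (h : OC Q) (p e : N) : Set (Om Q) := {g | ∃ u, polar Q e u = 0 ∧ polar Q p u = 0 ∧ g = h.E p u}

theorem conj_mem_rad₂ (g : Om Q) {e' p' : N} {α β : F} (hα : α ≠ 0) (hβ : β ≠ 0) (hp' : Q p' = 0)
    (h1 : g.1.1 e = α • e') (h2 : g.1.1 p = β • p') : ∀ x ∈ h.rad₂ p e, g * x * g⁻¹ ∈ h.rad₂ p' e' := by
  rintro _ ⟨u, u1, u2, rfl⟩
  rw [← OG.polar_app g.1, h1, polar_smul_left, smul_eq_zero_iff_right hα] at u1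
  rw [← OG.polar_app g.1, h2, polar_smul_left, smul_eq_zero_iff_right hβ] at u2
  exact ⟨β • g.1.1 u, by simp [u1], by simp [u2], by rw [h.E_conj, h2, h.E_smul_left hp' u2]⟩

theorem rad_eq (e : N) : h.rad e = h.rad₂ e e := Set.ext fun _ => exists_congr fun _ => by simp

omit [Fintype F] [Fintype N] in
theorem inv_app_of {g : Om Q} {e e' : N} {α : F} (hα : α ≠ 0) (h1 : g.1.1 e = α • e') :
    (g⁻¹).1.1 e' = α⁻¹ • e := by
  rw [eq_inv_smul_iff₀ hα, ← map_smul, ← h1, Subgroup.coe_inv, OG.inv_app_app]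

theorem conj_avg {g : Om Q} {e' p' : N} {α β : F} (hα : α ≠ 0) (hβ : β ≠ 0) (hp : Q p = 0) (hp' : Q p' = 0)
    (h1 : g.1.1 e = α • e') (h2 : g.1.1 p = β • p') {a a' : Module.End K M} (ha : IsAvg ρ (h.rad₂ p e) a)
    (ha' : IsAvg ρ (h.rad₂ p' e') a') : ρ g * a = a' * ρ g :=
  ha.conj ha' (conj_mem_rad₂ g hα hβ hp' h1 h2) fun y hy => by
    simpa using conj_mem_rad₂ g⁻¹ (inv_ne_zero hα) (inv_ne_zero hβ) hp (inv_app_of hα h1) (inv_app_of hβ h2) y hy

/-- The average over `rad₂`. -/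
noncomputable def av₂ (h : OC Q) (ρ : Om Q →* Module.End K M) (p e : N) : Module.End K M :=
  (Fintype.card ↥(perp Q e ⊓ perp Q p) : K)⁻¹ • ∑ u : ↥(perp Q e ⊓ perp Q p), ρ (h.E p u)

theorem isAvg_av₂ (hψ : ψ ≠ 1) (hp : Q p = 0) : IsAvg ρ (h.rad₂ p e) (h.av₂ ρ p e) := by
  have := isAvg_add (ρ := ρ) (Nat.card_eq_fintype_card (α := ↥(perp Q e ⊓ perp Q p)) ▸ card_module_ne_zero hψ)
    (a := fun u : ↥(perp Q e ⊓ perp Q p) => h.E p u) fun x y => h.E_add hp x.2.2 y.2.2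
  refine cast (congrArg (IsAvg ρ · _) (Eq.symm ?_)) this
  exact Set.ext fun g => ⟨fun ⟨u, u1, u2, hu⟩ => ⟨⟨u, u1, u2⟩, hu.symm⟩,
    fun ⟨u, hu⟩ => ⟨u, u.2.1, u.2.2, hu.symm⟩⟩

theorem comm_pr_zero (hψ : ψ ≠ 1) (hef : IsHyp Q e f) {g : Om Q} {α : F} (hα : α ≠ 0) (hg : g.1.1 e = α • e) :
    ρ g * h.pr ρ ψ e f 0 = h.pr ρ ψ e f 0 * ρ g :=
  conj_avg hα hα hef.left hef.left hg hg (rad_eq (h := h) e ▸ isAvg_pr hψ hef)
    (rad_eq (h := h) e ▸ isAvg_pr hψ hef)

omit [Fintype F] [Fintype N] in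
theorem notMem_span (hef : IsHyp Q e f) {w : N} (hw : w ∈ hypC Q ⊤ e f) (hw0 : w ≠ 0) : w ∉ F ∙ e :=
  fun h0 => hw0 ((smul_add_mem_span_iff hef hw 0).mp (by simpa using h0))

theorem trace_eq_sum_pr (hψ : ψ ≠ 1) (hef : IsHyp Q e f) (T : Module.End K M) :
    LinearMap.trace K M T = ∑ w : hypC Q ⊤ e f, LinearMap.trace K M (T * h.pr ρ ψ e f w) := by
  rw [← map_sum, ← Finset.mul_sum, sum_pr hψ hef, mul_one]

omit [Fintype F] [Fintype N] in
theorem trace_eq_of_conj {g : Om Q} {a a' : Module.End K M} (h : ρ g * a = a' * ρ g) :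
    LinearMap.trace K M a = LinearMap.trace K M a' := by
  have h1 : a = ρ g⁻¹ * (a' * ρ g) := by rw [← h, ← mul_assoc, ← map_mul, inv_mul_cancel, map_one, one_mul]
  rw [h1, LinearMap.trace_mul_comm, mul_assoc, ← map_mul, mul_inv_cancel, map_one, mul_one]

variable [FiniteDimensional K M]

theorem Lev.pr_eq_zero (hL : h.Lev ρ ψ c) (hef : IsHyp Q e f) {w : N} (hw : w ∈ hypC Q ⊤ e f) (hw0 : w ≠ 0)
    (hq : Q w ≠ c) : h.pr ρ ψ e f w = 0 := by
  have h1 := hL e w hef.left hef.left_ne_zero (mem_hypC.mp hw).2.1 (notMem_span hef hw hw0)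
  rw [if_neg hq, Submodule.finrank_eq_zero] at h1
  exact LinearMap.ext fun v => h1.le (pr_mem hef (mem_hypC.mp hw).2.1 v)

omit [FiniteDimensional K M] in
theorem Lev.finrank_eq (hL : h.Lev ρ ψ c) (hef : IsHyp Q e f) {w : N} (hw : w ∈ hypC Q ⊤ e f) (hw0 : w ≠ 0)
    (hq : Q w = c) : finrank K (h.Wt ρ ψ e w) = 1 := by
  rw [hL e w hef.left hef.left_ne_zero (mem_hypC.mp hw).2.1 (notMem_span hef hw hw0), if_pos hq]

theorem Lev.one_sub_pr (hψ : ψ ≠ 1) (hL : h.Lev ρ ψ c) (hef : IsHyp Q e f) :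
    1 - h.pr ρ ψ e f 0 = ∑ w : hypC Q ⊤ e f, if w.1 ≠ 0 ∧ Q w = c then h.pr ρ ψ e f w else 0 := by
  rw [← sum_pr (h := h) (ρ := ρ) hψ hef, ← Finset.add_sum_erase _ _ (Finset.mem_univ 0),
    ← Finset.add_sum_erase _ _ (Finset.mem_univ 0)]
  simp only [ZeroMemClass.coe_zero, add_sub_cancel_left, ne_eq, not_true_eq_false, false_and, if_false,
    zero_add]
  refine Finset.sum_congr rfl fun w hw => ?_
  have hw0 : w.1 ≠ 0 := fun h0 => Finset.ne_of_mem_erase hw (Subtype.ext h0)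
  split_ifs with h1
  · rfl
  · exact hL.pr_eq_zero hef w.2 hw0 fun h2 => h1 ⟨hw0, h2⟩

/-- The trace of a long root element. -/
theorem Lev.trace_root (hψ : ψ ≠ 1) (hL : h.Lev ρ ψ c) {a b : N} (ha : Q a = 0) (ha0 : a ≠ 0) (hb : Q b = 0)
    (hab : polar Q a b = 0) (hba : b ∉ F ∙ a) : LinearMap.trace K M (1 - ρ (h.E a b)) =
      (Fintype.card F : K) ^ (finrank F N - 4) * Fintype.card F := by
  obtain ⟨a', haa⟩ := exists_hyp h.nd ha0 ha
  have h1 := haa.proj_mem (W := ⊤) (x := b) trivial trivial trivial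
  rw [hab, zero_smul, sub_zero] at h1
  obtain ⟨b', hb', hbb⟩ := (h.nd1 haa).exists_hyp h1
    (fun h0 => hba (Submodule.mem_span_singleton.mpr ⟨_, (sub_eq_zero.mp h0).symm⟩))
    (by rw [map_sub_smul_singular ha hab, hb])
  have := sum_level hbb h1 hb' c fun t => 1 - ψ t
  rw [card2 haa hbb h1 hb', sum_one_sub_psi hψ, AddChar.map_zero_eq_one, sub_self, mul_zero, zero_add,
    Nat.cast_pow] at this
  rw [← this, trace_eq_sum_pr (h := h) (ρ := ρ) hψ haa]
  refine Finset.sum_congr rfl fun w _ => ?_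
  have hw := (mem_hypC.mp w.2).2.1
  rw [sub_mul, one_mul, E_mul_pr haa hw hab, map_sub, map_smul, trace_pr hψ haa hw, polar_sub_left,
    polar_smul_left, hw, smul_zero, sub_zero, polar_comm Q b]
  by_cases hw0 : w.1 = 0
  · simp [hw0]
  · rw [hL a w ha ha0 hw (notMem_span haa w.2 hw0)]
    split_ifs <;> simp

theorem Lev.trace_sub (hψ : ψ ≠ 1) (hL : h.Lev ρ ψ c) (hc : c ≠ 0 → 9 ≤ finrank F N)
    (hs : finrank F N = 8 → 3 < Fintype.card F ∨
      nu Q ⊤ 0 = Fintype.card F ^ 3 + (Fintype.card F ^ 3 - 1) * Fintype.card F ^ 4)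
    (H : Hyp2 Q e f p p') :
    LinearMap.trace K M (h.pr ρ ψ e f 0) - LinearMap.trace K M (h.pr ρ ψ e f 0 * h.av₂ ρ p e) =
      nu' Q (hypC Q (hypC Q ⊤ e f) p p') c := by
  have hef := H.ef
  have hp : p ∈ hypC Q ⊤ e f := mem_hypC.mpr ⟨trivial, H.ep, H.fp⟩
  have hp' : p' ∈ hypC Q ⊤ e f := mem_hypC.mpr ⟨trivial, H.ep', H.fp'⟩
  have hq : (Fintype.card F : K) ≠ 0 := Nat.card_eq_fintype_card (α := F) ▸ card_ne_zero hψ
  have hA : ∀ x y : N, (Fintype.card ↥(perp Q x ⊓ perp Q y) : K) ≠ 0 := fun x y =>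
    Nat.card_eq_fintype_card (α := ↥(perp Q x ⊓ perp Q y)) ▸ card_module_ne_zero hψ
  have h2 := isAvg_av₂ (h := h) (ρ := ρ) (e := e) hψ H.pp.left
  have h0 := isAvg_av₂ (h := h) (ρ := ρ) (e := p) hψ H.ef.left
  have t1 : LinearMap.trace K M (h.av₂ ρ e p) = LinearMap.trace K M (h.av₂ ρ p e) := by
    have hn := ((H.isSL_x 1).mul H (H.isSL_y (-1))).mul H (H.isSL_x 1)
    exact trace_eq_of_conj (conj_avg (g := h.E e ((1 : F) • p') * h.E p ((-1 : F) • f) * h.E e ((1 : F) • p'))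
      (α := 1) (β := -1) one_ne_zero (by simp) H.ef.left H.pp.left ((hn.app_p H).trans (by simp))
      ((hn.app_e H).trans (by simp)) h0 h2)
  have t2 : ∀ w : hypC Q ⊤ e f, h.av₂ ρ e p * h.pr ρ ψ e f w =
      if w.1 ∈ F ∙ p then h.pr ρ ψ e f w else 0 := fun w => by
    have hw := (mem_hypC.mp w.2).2.1
    split_ifs with h1
    · obtain ⟨s, hs⟩ := Submodule.mem_span_singleton.mp h1
      refine h0.absL _ ?_
      rintro _ ⟨u, u1, u2, rfl⟩
      rw [E_mul_pr hef hw u2, ← hs]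
      simp [u1]
    · obtain ⟨u, u1, u2, u3⟩ := h.exists_polar_ne_zero_perp hef H.pp hp hp' w.2 h1
      rw [av₂, smul_mul_assoc, Finset.sum_mul, Finset.sum_congr rfl fun u _ => E_mul_pr hef hw u.2.2,
        ← Finset.sum_smul]
      have := sum_psi_dual hψ (l := lw Q (perp Q p ⊓ perp Q e) w) fun h0 =>
        u3 (LinearMap.congr_fun h0 ⟨u, u2, u1⟩)
      simp only [lw_apply] at this
      rw [this, zero_smul, smul_zero]
  have t3 : ∀ w : hypC Q ⊤ e f, LinearMap.trace K M (h.av₂ ρ p e * h.pr ρ ψ e f w) =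
      (if w.1 ∈ F ∙ p then LinearMap.trace K M (h.pr ρ ψ e f w) else 0) +
      (if Q w = c ∧ polar Q p w = 0 ∧ w.1 ∉ F ∙ p then (Fintype.card F : K)⁻¹ else 0) -
      if w = 0 then LinearMap.trace K M (h.pr ρ ψ e f 0) -
        LinearMap.trace K M (h.pr ρ ψ e f 0 * h.av₂ ρ p e) else 0 := fun w => by
    have hw := (mem_hypC.mp w.2).2.1
    by_cases hw0 : w = 0
    · simp [hw0, LinearMap.trace_mul_comm K (h.av₂ ρ p e)]
    have hw0' : w.1 ≠ 0 := fun h0 => hw0 (Subtype.ext h0)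
    have hwe := notMem_span hef w.2 hw0'
    rw [if_neg hw0, sub_zero]
    by_cases h1 : w.1 ∈ F ∙ p
    · rw [if_pos h1, if_neg fun h3 => h3.2.2 h1, add_zero, h2.absL]
      rintro _ ⟨u, u1, u2, rfl⟩
      obtain ⟨s, hs'⟩ := Submodule.mem_span_singleton.mp h1
      exact LinearMap.ext fun v => hL.E_apply hψ hc hs hef.left hef.left_ne_zero H.pp.left H.ep hw hwe
        (by simp [← hs', H.pp.polar_left]) u1 u2 (by simp [← hs', u2]) (pr_mem hef hw v)
    rw [if_neg h1, zero_add]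
    by_cases h3 : Q w = c
    swap
    · simp [h3, hL.pr_eq_zero hef w.2 hw0' h3]
    by_cases h4 : polar Q p w = 0
    · rw [if_pos ⟨h3, h4, h1⟩]
      obtain ⟨u, u1, u2, u3⟩ := h.exists_polar_ne_zero_perp hef H.pp hp hp' w.2 h1
      have h5 := card_mul_sum_ker (R := K) (φ := lw Q (perp Q e ⊓ perp Q p) w) fun h0 =>
        u3 (LinearMap.congr_fun h0 ⟨u, u1, u2⟩)
      rw [av₂, smul_mul_assoc, Finset.sum_mul, map_smul, map_sum, smul_eq_mul, inv_mul_eq_iff_eq_mul₀ (hA _ _),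
        ← h5, mul_comm, inv_mul_cancel_left₀ hq]
      refine Finset.sum_congr rfl fun u _ => ?_
      rw [lw_apply]
      split_ifs with h6
      · rw [trace_mul_pr hψ hef hw (c := 1) fun v hv => (hL.E_apply hψ hc hs hef.left hef.left_ne_zero
          H.pp.left H.ep hw hwe h4 u.2.1 u.2.2 h6 hv).trans (one_smul K v).symm, hL.finrank_eq hef w.2 hw0' h3]
        simp
      · refine trace_mul_pr_of_ne hψ hef hw (eich_app_of_polar (by rw [polar_comm, H.ep])
          (by rw [polar_comm]; exact u.2.1)) ?_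
        change (eich Q p u).1 w - w ∉ _
        rw [eich_app_of_perp H.pp.left u.2.2 h4, add_sub_cancel_left]
        exact notMem_span hef (Submodule.smul_mem _ _ hp)
          (smul_ne_zero (by rwa [polar_comm]) H.pp.left_ne_zero)
    · rw [if_neg fun h5 => h4 h5.2.1]
      by_contra h5
      refine h4 (eq_zero_of_forall_psi hψ fun t => mul_right_cancel₀ h5 ?_)
      have h6 := h2.right (h.E p ((-t) • e)) ⟨_, by simp [hef.polar_left],
        by simp [polar_comm Q p e, H.ep], rfl⟩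
      rw [← h.E_smul_left H.pp.left (by rw [polar_comm, H.ep]),
        h.E_swap hef.left (by simp [map_smul', H.pp.left]) (by simp [H.ep])] at h6
      conv_rhs => rw [← h6, mul_assoc, E_mul_pr hef hw (by simp [H.ep]), mul_smul_comm, map_smul]
      simp [polar_comm Q p w]
  rw [trace_eq_sum_pr (h := h) (ρ := ρ) hψ hef, trace_eq_sum_pr (h := h) (ρ := ρ) hψ hef (h.av₂ ρ p e),
    Finset.sum_congr rfl fun w _ => t3 w, Finset.sum_sub_distrib,
    Finset.sum_add_distrib, sum_perp_level H.pp hp hp', Finset.sum_ite_eq', if_pos (Finset.mem_univ _),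
    Finset.sum_congr rfl fun w _ => by rw [t2 w, apply_ite (LinearMap.trace K M), map_zero]] at t1
  field_simp at t1
  linear_combination t1

end OC

end CL.LS
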