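/-
The degree of an irreducible representation of `Ω(Q)` with a single orbit of weights: the scalar of
the class sum of the long root elements is computed in two ways.
-/
import Cfsg.Agent.Known.MCOTrace

set_option autoImplicit false

open Module QuadraticMap CL.Cls
open scoped Classical

namespace CL.LS

variable {F N : Type*} [Field F] [AddCommGroup N] [Module F N] [Fintype F] [Fintype N]
  {Q : QuadraticForm F N}

namespace OC

variable {h : OC Q} {K M : Type*} [Field K] [AddCommGroup M] [Module K M] {ρ : Om Q →* Module.End K M}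
  {ψ : AddChar F K} {e f p p' : N} {c : F} [FiniteDimensional K M]

omit [FiniteDimensional K M] in
theorem trace_opp_eq (hψ : ψ ≠ 1) (H : Hyp2 Q e f p p') {a b : N} (hea : IsHyp Q e a)
    (hb : b ∈ hypC Q ⊤ e a) (hb0 : b ≠ 0) (hq : Q b = 0) :
    LinearMap.trace K M ((1 - ρ (h.E a b)) * (1 - h.pr ρ ψ e f 0)) =
      LinearMap.trace K M ((1 - ρ (h.E f p)) * (1 - h.pr ρ ψ e f 0)) := by
  obtain ⟨g, g1, g2, g3⟩ := h.exists_conj_triple H.ef hea (mem_hypC.mpr ⟨trivial, H.ep, H.fp⟩)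
    H.pp.left_ne_zero hb hb0 (H.pp.left.trans hq.symm)
  refine (trace_eq_of_conj (ρ := ρ) (g := g) ?_).symm
  have h1 := comm_pr_zero (h := h) (ρ := ρ) hψ H.ef (g := g) one_ne_zero (by simpa using g1)
  have h2 := congrArg ρ (h.E_mul g f p)
  rw [g2, g3, map_mul, map_mul] at h2
  have k1 : ρ g * (1 - ρ (h.E f p)) = (1 - ρ (h.E a b)) * ρ g := by rw [mul_sub, sub_mul, h2, mul_one, one_mul]
  have k2 : ρ g * (1 - h.pr ρ ψ e f 0) = (1 - h.pr ρ ψ e f 0) * ρ g := by
    rw [mul_sub, sub_mul, h1, mul_one, one_mul]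
  rw [← mul_assoc, k1, mul_assoc, k2, mul_assoc]

theorem Lev.trace_opp [CharZero K] (hψ : ψ ≠ 1) (hL : h.Lev ρ ψ c) (hc : c ≠ 0 → 9 ≤ finrank F N)
    (hs : finrank F N = 8 → 3 < Fintype.card F ∨
      nu Q ⊤ 0 = Fintype.card F ^ 3 + (Fintype.card F ^ 3 - 1) * Fintype.card F ^ 4)
    (H : Hyp2 Q e f p p') : ∃ t : ℕ,
    Fintype.card F * LinearMap.trace K M ((1 - ρ (h.E f p)) * (1 - h.pr ρ ψ e f 0)) =
      (Fintype.card F : K) ^ 2 * Fintype.card F ^ (finrank F N - 4) -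
        Fintype.card F * nu' Q (hypC Q (hypC Q ⊤ e f) p p') c - t := by
  have hef := H.ef
  have hpe : polar Q p e = 0 := by rw [polar_comm, H.ep]
  have hpf : polar Q p f = 0 := by rw [polar_comm, H.fp]
  have hq : (Fintype.card F : K) ≠ 0 := Nat.cast_ne_zero.mpr Fintype.card_ne_zero
  let x : F → Om Q := fun t => h.E e (t • p')
  let y : F → Om Q := fun t => h.E p (t • f)
  let n : Om Q := x 1 * y (-1) * x 1
  let k : Fˣ → Om Q := fun t => x t * y (-t⁻¹) * x t * (x (-1) * y 1 * x (-1))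
  have hn : IsSL Q e f p p' 0 1 (-1) 0 n.1 :=
    (((H.isSL_x 1).mul H (H.isSL_y (-1))).mul H (H.isSL_x 1)).congr (by simp) (by simp) (by simp) (by simp)
  have hk : ∀ t : Fˣ, IsSL Q e f p p' t 0 0 (t : F)⁻¹ (k t).1 := fun t =>
    ((((H.isSL_x t).mul H (H.isSL_y (-((t⁻¹ : Fˣ) : F)))).mul H (H.isSL_x t)).mul H
      (((H.isSL_x (-1)).mul H (H.isSL_y 1)).mul H (H.isSL_x (-1)))).congr
      (by simp) (by simp) (by simp) (by simp)
  have h0 := isAvg_pr (h := h) (ρ := ρ) hψ hef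
  have h2 := isAvg_av₂ (h := h) (ρ := ρ) (e := e) hψ H.pp.left
  have h00 := isAvg_av₂ (h := h) (ρ := ρ) (e := p) hψ H.ef.left
  have hp := isAvg_pr (h := h) (ρ := ρ) hψ H.pp
  have hyadd : ∀ s t, y (s + t) = y s * y t := fun s t => by
    simp only [y, add_smul]
    exact h.E_add H.pp.left (by simp [hpf]) (by simp [hpf])
  have hm := isAvg_add (ρ := ρ) hq hyadd
  have hx : ∀ t, x t ∈ h.rad e := fun t => ⟨_, by simp [H.ep'], rfl⟩
  obtain ⟨r, b, hrb⟩ := sl2_trace (ρ := ρ) (n := n) (h := k) (y := y) h0.idem h2.idem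
    (h2.comm (by
      rintro _ ⟨u, u1, u2, rfl⟩
      exact comm_pr_zero hψ hef one_ne_zero (by
        rw [one_smul]; exact eich_app_of_polar hpe (by rwa [polar_comm]))))
    (fun s t => Subtype.ext ((hk _).unique ((hk s).mul H (hk t)) (by simp) (by simp) (by simp)
      (by simp [mul_comm])))
    (fun t => comm_pr_zero hψ hef t.ne_zero (((hk t).app_e H).trans (by simp)))
    (fun t => conj_avg t.ne_zero (inv_ne_zero t.ne_zero) H.pp.left H.pp.left
      (((hk t).app_e H).trans (by simp)) (((hk t).app_p H).trans (by simp)) h2 h2)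
    (fun t => Subtype.ext ((hn.mul H (hk t)).unique ((hk _).mul H hn) (by simp) (by simp) (by simp) (by simp)))
    (Subtype.ext ((hn.mul H hn).unique (hk _) (by simp) (by simp) (by simp) (by simp)))
    (by
      rw [mul_assoc, conj_avg (α := -1) (β := 1) (by simp) one_ne_zero H.pp.left H.ef.left
        ((hn.app_e H).trans (by simp)) ((hn.app_p H).trans (by simp)) h2 h00, ← mul_assoc,
        h00.mul_right h0 fun _ ⟨u, _, u2, hu⟩ => ⟨u, u2, hu⟩])
    (by
      rw [conj_avg (α := -1) (β := -1) (by simp) (by simp) H.ef.left H.pp.left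
        ((hn.app_e H).trans (by simp)) ((hn.app_e H).trans (by simp)) (rad_eq (h := h) e ▸ h0)
        (rad_eq (h := h) p ▸ hp), ← hp.absL (h.av₂ ρ p e * _), ← mul_assoc,
        h2.mul_right hp fun _ ⟨u, _, u2, hu⟩ => ⟨u, u2, hu⟩,
        hm.mul_right hp fun _ ⟨t, ht⟩ => ⟨_, by simp [hpf], ht.symm⟩]
      rintro _ ⟨u, hu, rfl⟩
      have h3 : h.E p u = y (polar Q e u) * h.E p (u - polar Q e u • f) := by
        rw [← h.E_add H.pp.left (by simp [hpf]) (by simp [hpf, hu]), add_sub_cancel]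
      have h4 : h.av₂ ρ p e * ρ (y (polar Q e u)) = ρ (y (polar Q e u)) * h.av₂ ρ p e := h2.comm (by
        rintro _ ⟨v, -, v2, rfl⟩
        rw [← map_mul, ← map_mul, ← h.E_add H.pp.left (by simp [hpf]) v2,
          ← h.E_add H.pp.left v2 (by simp [hpf]), add_comm])
      rw [h3, map_mul, mul_assoc, ← mul_assoc _ (h.av₂ ρ p e),
        h2.left _ ⟨_, by simp [hef.polar_eq], by simp [hpf, hu], rfl⟩, ← mul_assoc, ← h4, mul_assoc,
        hm.left _ ⟨_, rfl⟩])
    (by simp [y, h.E_zero_right])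
    (fun t => by
      have h3 : y t = x t⁻¹ * (k (-t⁻¹) * n) * x t⁻¹ := Subtype.ext ((H.isSL_y t).unique
        (((H.isSL_x _).mul H ((hk _).mul H hn)).mul H (H.isSL_x _)) (by simp) (by simp) (by simp) (by simp))
      rw [h3, map_mul, map_mul, map_mul, mul_assoc, mul_assoc, h0.left _ (hx _), ← mul_assoc, ← mul_assoc,
        h0.right _ (hx _), ← mul_assoc])
  refine ⟨Fintype.card F * r + (Fintype.card F + 1) * b, ?_⟩
  rw [hL.trace_sub hψ hc hs H] at hrb
  have h5 : ∀ t : Fˣ, LinearMap.trace K M (h.pr ρ ψ e f 0 * (1 - ρ (y t))) =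
      (Fintype.card F : K) ^ (finrank F N - 4) * Fintype.card F -
        LinearMap.trace K M ((1 - ρ (h.E f p)) * (1 - h.pr ρ ψ e f 0)) := fun t => by
    have h6 : y t = h.E f (-((t : F) • p)) := by
      rw [← h.E_swap hef.right (by simp [map_smul', H.pp.left]) (by simp [H.fp]),
        h.E_smul_left H.pp.left hpf]
    have h7 : -((t : F) • p) ∈ hypC Q ⊤ e f := mem_hypC.mpr ⟨trivial, by simp [H.ep], by simp [H.fp]⟩
    have h8 : -((t : F) • p) ≠ 0 := by simp [H.pp.left_ne_zero]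
    rw [← trace_opp_eq hψ H hef h7 h8 (by simp [map_smul', H.pp.left]),
      ← hL.trace_root hψ hef.right hef.symm.left_ne_zero (b := -((t : F) • p))
        (by simp [map_smul', H.pp.left]) (by simp [H.fp])
        (notMem_span hef.symm (mem_hypC.mpr ⟨trivial, by simp [H.fp], by simp [H.ep]⟩) h8),
      h6, mul_sub (1 - _) 1, mul_one, map_sub _ (1 - _), LinearMap.trace_mul_comm]
    ring
  have hq1 : (Fintype.card Fˣ : K) = Fintype.card F - 1 := by
    rw [Fintype.card_units, Nat.cast_sub Fintype.card_pos, Nat.cast_one]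
  have hq2 : (Fintype.card F : K) - 1 ≠ 0 := hq1 ▸ Nat.cast_ne_zero.mpr Fintype.card_ne_zero
  rw [Finset.sum_congr rfl fun t _ => h5 t, Finset.sum_const, Finset.card_univ, nsmul_eq_mul, hq1] at hrb
  refine mul_left_cancel₀ hq2 ?_
  push_cast
  linear_combination -hrb

/-- The pairs defining long root elements. -/
def RP (Q : QuadraticForm F N) (a b : N) : Prop := Q a = 0 ∧ Q b = 0 ∧ polar Q a b = 0

theorem E_sl {a b : N} (hab : RP Q a b) {α β γ δ : F} (hd : α * δ - β * γ = 1) :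
    RP Q (α • a + β • b) (γ • a + δ • b) ∧ h.E (α • a + β • b) (γ • a + δ • b) = h.E a b :=
  ⟨(eich_sl hab.1 hab.2.1 hab.2.2 hd).1, Subtype.ext (eich_sl hab.1 hab.2.1 hab.2.2 hd).2⟩

theorem Lev.sum_perp_pairs (hψ : ψ ≠ 1) (hL : h.Lev ρ ψ c) (hc : c ≠ 0 → 9 ≤ finrank F N)
    (hs : finrank F N = 8 → 3 < Fintype.card F ∨
      nu Q ⊤ 0 = Fintype.card F ^ 3 + (Fintype.card F ^ 3 - 1) * Fintype.card F ^ 4)
    (H : Hyp2 Q e f p p') {w : N} (hw : w ∈ hypC Q ⊤ e f) (hw0 : w ≠ 0) (hq : Q w = c) :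
    ∑ a, ∑ b, (if RP Q a b ∧ polar Q e a = 0 ∧ polar Q e b = 0 then
      LinearMap.trace K M ((1 - ρ (h.E a b)) * h.pr ρ ψ e f w) else 0) =
      ((Fintype.card F : K) ^ 2 - 1) * ∑ a, if (Q a = 0 ∧ polar Q e a = 0) ∧ polar Q w a = 1 then
        (Fintype.card F : K) * nu Q (hypC Q (hypC Q ⊤ e f) p p') 0 else 0 := by
  have hef := H.ef
  have hew := (mem_hypC.mp hw).2.1
  have h1 := hL.finrank_eq hef hw hw0 hq
  rw [sum_pairs _ _ (polarBilin Q w) fun a b α β γ δ hd hab => ⟨⟨(E_sl (h := h) hab.1 hd).1,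
    by simp [hab.2], by simp [hab.2]⟩, by rw [(E_sl hab.1 hd).2]⟩, Finset.sum_eq_zero, zero_add]
  swap
  · refine fun a _ => Finset.sum_eq_zero fun b _ => ite_eq_right_iff.mpr fun hab => ?_
    rw [sub_mul, one_mul, map_sub, trace_pr hψ hef hew, trace_mul_pr hψ hef hew (c := 1) fun v hv =>
      (hL.E_apply hψ hc hs hef.left hef.left_ne_zero hab.1.1.1 hab.1.2.1 hew (notMem_span hef hw hw0)
        (by rw [polar_comm]; exact hab.2.1) hab.1.2.2 hab.1.1.2.2 hab.2.2 hv).trans (one_smul K v).symm,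
      one_mul, sub_self]
  refine congrArg _ (Finset.sum_congr rfl fun a _ => ?_)
  split_ifs with ha
  swap
  · exact Finset.sum_eq_zero fun b _ => if_neg fun h0 => ha ⟨⟨h0.1.1.1, h0.1.2.1⟩, h0.2.1⟩
  obtain ⟨⟨a1, a2⟩, a3⟩ := ha
  have h2 : ∑ b, (if Q b = 0 ∧ polar Q a b = 0 ∧ polar Q e b = 0 ∧ polar Q w b = 0 then
      LinearMap.trace K M (ρ (h.E a b) * h.pr ρ ψ e f w) else 0) = 0 := by
    by_contra h0
    refine one_ne_zero (eq_zero_of_forall_psi hψ fun t => mul_right_cancel₀ h0 ?_)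
    rw [one_mul, mul_one, Finset.mul_sum]
    refine Fintype.sum_equiv (Equiv.addRight ((-t) • e)) _ _ fun b => ?_
    have hae : polar Q a e = 0 := by rwa [polar_comm]
    have hwe : polar Q w e = 0 := by rwa [polar_comm]
    simp only [Equiv.coe_addRight, polar_add_right, polar_smul_right, hae, hwe, hef.polar_left, smul_zero,
      add_zero]
    by_cases hb : polar Q a b = 0 ∧ polar Q e b = 0 ∧ polar Q w b = 0
    · rw [neg_smul, ← sub_eq_add_neg, map_sub_smul_singular hef.left hb.2.1, sub_eq_add_neg, ← neg_smul,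
        h.E_add a1 hb.1 (by simp [hae]), ← h.E_smul_left a1 hae,
        h.E_swap hef.left (by simp [map_smul', a1]) (by simp [a2]), map_mul ρ, mul_assoc,
        E_mul_pr hef hew (by simp [a2]), mul_smul_comm, map_smul]
      simp [a3]
    · simp [hb]
  rw [← h.sum_sing_perp3 hef H.pp (mem_hypC.mpr ⟨trivial, H.ep, H.fp⟩) (mem_hypC.mpr ⟨trivial, H.ep', H.fp'⟩)
    a1 a2 hew a3]
  refine Eq.trans ?_ (sub_zero _)
  rw [← h2, ← Finset.sum_sub_distrib]
  refine Finset.sum_congr rfl fun b _ => ?_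
  by_cases hb : Q b = 0 ∧ polar Q a b = 0 ∧ polar Q e b = 0 ∧ polar Q w b = 0
  · rw [if_pos hb, if_pos hb, if_pos ⟨⟨⟨a1, hb.1, hb.2.1⟩, a2, hb.2.2.1⟩, a3, hb.2.2.2⟩, sub_mul, one_mul,
      map_sub, trace_pr hψ hef hew, h1, Nat.cast_one]
  · rw [if_neg hb, if_neg hb, if_neg fun h0 => hb ⟨h0.1.1.2.1, h0.1.1.2.2, h0.1.2.2, h0.2.2⟩, sub_zero]

/-- The degree formula. -/
theorem Lev.degree [CharZero K] (hψ : ψ ≠ 1) (hL : h.Lev ρ ψ c) (hc : c ≠ 0 → 9 ≤ finrank F N)
    (hs : finrank F N = 8 → 3 < Fintype.card F ∨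
      nu Q ⊤ 0 = Fintype.card F ^ 3 + (Fintype.card F ^ 3 - 1) * Fintype.card F ^ 4)
    (H : Hyp2 Q e f p p') (hS : ∀ T : Module.End K M, (∀ g, ρ g * T = T * ρ g) → ∃ s : K, T = s • 1) :
    ∃ t : ℕ, (Fintype.card F : ℤ) * nu' Q ⊤ 0 * nu' Q (hypC Q ⊤ e f) c =
      finrank K M * (Fintype.card F ^ 2 - 1) * (Fintype.card F * nu Q (hypC Q (hypC Q ⊤ e f) p p') 0 +
        Fintype.card F ^ 2 * Fintype.card F ^ (finrank F N - 4) -
          Fintype.card F * nu' Q (hypC Q (hypC Q ⊤ e f) p p') c - t) := by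
  have hef := H.ef
  obtain ⟨t, ht⟩ := hL.trace_opp hψ hc hs H
  refine ⟨t, ?_⟩
  obtain ⟨s, hs'⟩ := hS (∑ a, ∑ b, if RP Q a b then 1 - ρ (h.E a b) else 0) fun g => by
    rw [Finset.mul_sum, Finset.sum_mul]
    refine Fintype.sum_equiv g.1.1.toEquiv _ _ fun a => ?_
    rw [Finset.mul_sum, Finset.sum_mul]
    refine Fintype.sum_equiv g.1.1.toEquiv _ _ fun b => ?_
    have h0 : RP Q (g.1.1 a) (g.1.1 b) ↔ RP Q a b := by simp only [RP, OG.map_app, OG.polar_app]
    simp only [LinearEquiv.coe_toEquiv]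
    by_cases h1 : RP Q a b
    · rw [if_pos h1, if_pos (h0.mpr h1), mul_sub, sub_mul, ← map_mul, ← map_mul, h.E_mul, mul_one, one_mul]
    · rw [if_neg h1, if_neg (mt h0.mp h1), mul_zero, zero_mul]
  have h1 : s * finrank K M = nu' Q ⊤ 0 * (Fintype.card F * nu' Q (hypC Q ⊤ e f) 0 *
      ((Fintype.card F : K) ^ (finrank F N - 4) * Fintype.card F)) := by
    have := congrArg (LinearMap.trace K M) hs'
    rw [map_smul, LinearMap.trace_one, smul_eq_mul] at this
    rw [← this, map_sum, ← cast_nu', ← sum_top (F := F) fun a => if a ≠ 0 ∧ Q a = 0 then _ else (0 : K)]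
    refine Finset.sum_congr rfl fun a _ => ?_
    rw [map_sum]
    split_ifs with ha
    · rw [← h.sum_sing_perp hef ha.2 ha.1]
      refine Finset.sum_congr rfl fun b _ => ?_
      by_cases hb : RP Q a b
      · by_cases hba : b ∈ F ∙ a
        · obtain ⟨s, rfl⟩ := Submodule.mem_span_singleton.mp hba
          simp [h.E_smul_self, hba]
        · rw [if_pos hb, if_pos ⟨hb.2.1, hb.2.2, hba⟩, hL.trace_root hψ ha.2 ha.1 hb.2.1 hb.2.2 hba]
      · rw [if_neg hb, if_neg fun h0 => hb ⟨ha.2, h0.1, h0.2.1⟩, map_zero]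
    · refine Finset.sum_eq_zero fun b _ => ?_
      split_ifs with hb
      · rw [not_and_or, not_not] at ha
        simp [ha.resolve_right (not_not.mpr hb.1), h.E_zero_left]
      · simp
  have h2 : s * nu' Q (hypC Q ⊤ e f) c = ∑ a, ∑ b, if RP Q a b then
      LinearMap.trace K M ((1 - ρ (h.E a b)) * (1 - h.pr ρ ψ e f 0)) else 0 := by
    have := congrArg (fun T => LinearMap.trace K M (T * (1 - h.pr ρ ψ e f 0))) hs'
    simp only [Finset.sum_mul, map_sum, ite_mul, zero_mul, apply_ite (LinearMap.trace K M), map_zero] at this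
    rw [this, smul_mul_assoc, one_mul, map_smul, hL.one_sub_pr hψ hef, map_sum, smul_eq_mul,
      ← mul_one (nu' _ _ _ : K), ← cast_nu']
    refine congrArg _ (Finset.sum_congr rfl fun w _ => ?_)
    split_ifs with hw
    · rw [trace_pr hψ hef (mem_hypC.mp w.2).2.1, hL.finrank_eq hef w.2 hw.1 hw.2, Nat.cast_one]
    · simp
  have h3 : ∑ a, ∑ b, (if RP Q a b ∧ polarBilin Q e a = 0 ∧ polarBilin Q e b = 0 then
      LinearMap.trace K M ((1 - ρ (h.E a b)) * (1 - h.pr ρ ψ e f 0)) else 0) =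
      ((Fintype.card F : K) ^ 2 - 1) * (Fintype.card F * nu' Q (hypC Q ⊤ e f) 0 *
        (Fintype.card F ^ (finrank F N - 4) * (Fintype.card F * nu Q (hypC Q (hypC Q ⊤ e f) p p') 0))) := by
    have h4 : ∀ a b, (if RP Q a b ∧ polarBilin Q e a = 0 ∧ polarBilin Q e b = 0 then
        LinearMap.trace K M ((1 - ρ (h.E a b)) * (1 - h.pr ρ ψ e f 0)) else 0) =
        ∑ w : hypC Q ⊤ e f, if w.1 ≠ 0 ∧ Q w = c then (if RP Q a b ∧ polar Q e a = 0 ∧ polar Q e b = 0 then
          LinearMap.trace K M ((1 - ρ (h.E a b)) * h.pr ρ ψ e f w) else 0) else 0 := fun a b => by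
      simp only [polarBilin_apply_apply]
      split_ifs
      · rw [hL.one_sub_pr hψ hef, Finset.mul_sum, map_sum]
        exact Finset.sum_congr rfl fun w _ => by split_ifs <;> simp
      · simp
    simp_rw [h4]
    rw [Finset.sum_congr rfl fun a _ => Finset.sum_comm, Finset.sum_comm,
      ← h.sum_sing_perp hef hef.left hef.left_ne_zero, Finset.mul_sum]
    have h5 : ∀ w : hypC Q ⊤ e f, (∑ a, ∑ b, if w.1 ≠ 0 ∧ Q w = c then
        (if RP Q a b ∧ polar Q e a = 0 ∧ polar Q e b = 0 then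
          LinearMap.trace K M ((1 - ρ (h.E a b)) * h.pr ρ ψ e f w) else 0) else 0) =
        ∑ a, ((Fintype.card F : K) ^ 2 - 1) * if Q a = 0 ∧ polar Q e a = 0 then
          (if (w.1 ≠ 0 ∧ Q w = c) ∧ polar Q w a = 1 then
            (Fintype.card F : K) * nu Q (hypC Q (hypC Q ⊤ e f) p p') 0 else 0) else 0 := fun w => by
      by_cases hw : w.1 ≠ 0 ∧ Q w = c
      · simp only [if_pos hw]
        rw [hL.sum_perp_pairs hψ hc hs H w.2 hw.1 hw.2, Finset.mul_sum]
        simp only [hw, ne_eq, not_false_eq_true, true_and, ite_and]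
      · simp only [hw, false_and, if_false, ite_self, Finset.sum_const_zero, mul_zero]
    rw [Finset.sum_congr rfl fun w _ => h5 w, Finset.sum_comm]
    refine Finset.sum_congr rfl fun a _ => ?_
    rw [← Finset.mul_sum]
    congr 1
    by_cases ha : Q a = 0 ∧ polar Q e a = 0
    · simp only [if_pos ha]
      rw [h.sum_level_one hef ha.1 ha.2]
      simp only [ha, true_and]
    · rw [if_neg fun h0 => ha ⟨h0.1, h0.2.1⟩]
      simp only [if_neg ha, Finset.sum_const_zero]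
  have h4 : ∑ a, ∑ b, (if RP Q a b ∧ polarBilin Q e a = 1 ∧ polarBilin Q e b = 0 then
      LinearMap.trace K M ((1 - ρ (h.E a b)) * (1 - h.pr ρ ψ e f 0)) else 0) =
      (Fintype.card F : K) ^ 2 * Fintype.card F ^ (finrank F N - 4) * (nu' Q (hypC Q ⊤ e f) 0 *
        LinearMap.trace K M ((1 - ρ (h.E f p)) * (1 - h.pr ρ ψ e f 0))) := by
    rw [← h.sum_sing_one hef]
    refine Finset.sum_congr rfl fun a _ => ?_
    split_ifs with ha
    · have hea : IsHyp Q e a := ⟨hef.left, ha.1, ha.2⟩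
      rw [← nu'_hypC_eq hea Submodule.mem_top Submodule.mem_top hef Submodule.mem_top Submodule.mem_top rfl rfl,
        ← cast_nu', ← sum_sub _ fun b => if b ≠ 0 ∧ Q b = 0 then _ else (0 : K)]
      refine Finset.sum_congr rfl fun b _ => ?_
      by_cases hb : b ∈ hypC Q ⊤ e a
      · by_cases hb0 : b = 0
        · simp [hb0, h.E_zero_right]
        · by_cases hq : Q b = 0
          · rw [if_pos ⟨⟨ha.1, hq, (mem_hypC.mp hb).2.2⟩, ha.2, (mem_hypC.mp hb).2.1⟩, if_pos hb,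
              if_pos ⟨hb0, hq⟩, trace_opp_eq hψ H hea hb hb0 hq]
          · simp [RP, hq]
      · rw [if_neg hb, if_neg fun h0 => hb (mem_hypC.mpr ⟨trivial, h0.2.2, h0.1.2.2⟩)]
    · exact Finset.sum_eq_zero fun b _ => if_neg fun h0 => ha ⟨h0.1.1, h0.2.1⟩
  rw [sum_pairs _ _ (polarBilin Q e) fun a b α β γ δ hd hab => ⟨(E_sl (h := h) hab hd).1,
    by rw [(E_sl hab hd).2]⟩, h3, h4] at h2
  have hq : (Fintype.card F : K) ≠ 0 := Nat.cast_ne_zero.mpr Fintype.card_ne_zero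
  have h5 : (nu' Q (hypC Q ⊤ e f) 0 : K) ≠ 0 := by
    have := two_le_nu (mem_hypC.mpr ⟨Submodule.mem_top, H.ep, H.fp⟩) H.pp.left_ne_zero H.pp.left
    rw [nu_eq_nu', if_pos rfl] at this
    exact Nat.cast_ne_zero.mpr (by omega)
  refine Int.cast_injective (α := K) (mul_left_cancel₀ (mul_ne_zero (mul_ne_zero h5 (pow_ne_zero 2 hq))
    (pow_ne_zero (finrank F N - 4) hq)) ?_)
  push_cast
  linear_combination (-(Fintype.card F : K) * nu' Q (hypC Q ⊤ e f) c) * h1 +
    ((Fintype.card F : K) * finrank K M) * h2 + (finrank K M * ((Fintype.card F : K) ^ 2 - 1) *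
      (Fintype.card F ^ 2 * Fintype.card F ^ (finrank F N - 4) * nu' Q (hypC Q ⊤ e f) 0)) * ht

end OC

end CL.LS
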