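/-
Minimal degrees of complex representations of orthogonal groups.
-/
import Cfsg.Agent.Known.MCOMain
import Cfsg.Agent.Known.MCOArith
import Cfsg.Agent.Known.LSSp
import Cfsg.Agent.Cls.OrthCount
import Cfsg.Agent.Cls.OrthPlane
import Cfsg.Agent.Char.Integrality

set_option autoImplicit false

open Module QuadraticMap CL.Cls
open scoped Classical

namespace CL.LS

variable {F N : Type*} [Field F] [AddCommGroup N] [Module F N] [Fintype F] [Fintype N]
  {Q : QuadraticForm F N}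

namespace OC

variable {h : OC Q} {K M : Type*} [Field K] [AddCommGroup M] [Module K M] {ρ : Om Q →* Module.End K M}
  {ψ : AddChar F K} {e f p p' : N} {c : F} [FiniteDimensional K M]

omit [FiniteDimensional K M] in
theorem Lev.sq_eq_one (hL : h.Lev ρ ψ c) (H : Hyp2 Q e f p p') (hc : c ≠ 0) {β : F} (hβ : β ≠ 0) :
    β ^ 2 = 1 := by
  have hw : c • p + (1 : F) • p' ∈ hypC Q ⊤ e f :=
    mem_hypC.mpr ⟨trivial, by simp [H.ep, H.ep'], by simp [H.fp, H.fp']⟩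
  have hq : Q (c • p + (1 : F) • p') = c := by rw [H.pp.map_comb, mul_one]
  have hw0 : c • p + (1 : F) • p' ≠ 0 := fun h0 => hc (by rw [← hq, h0, map_zero])
  have h1 := hL (β • e) (β • (c • p + (1 : F) • p')) (by simp [map_smul', H.ef.left])
    (smul_ne_zero hβ H.ef.left_ne_zero) (by simp [H.ep, H.ep']) fun h0 =>
      notMem_span H.ef (Submodule.smul_mem _ β hw) (smul_ne_zero hβ hw0)
        (Submodule.span_singleton_smul_le F β e h0)
  rw [Wt_smul H.ef.left _ hβ, hL.finrank_eq H.ef hw hw0 hq, map_smul', hq] at h1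
  split_ifs at h1 with h2
  exact mul_right_cancel₀ hc (h2.trans (one_mul c).symm)

theorem exists_lev [CharZero K] (hψ : ψ ≠ 1) (H : Hyp2 Q e f p p') (hρ : ∃ g, ρ g ≠ 1) :
    (∃ c₁ c₂, nu' Q (hypC Q ⊤ e f) c₁ + nu' Q (hypC Q ⊤ e f) c₂ ≤ finrank K M) ∨
      ∃ c, nu' Q (hypC Q ⊤ e f) c ≤ finrank K M ∧ h.Lev ρ ψ c := by
  have hef := H.ef
  have hdim := h.dim
  have hsum : finrank K M = ∑ w : hypC Q ⊤ e f, finrank K (h.Wt ρ ψ e w) := by
    have := trace_eq_sum_pr (h := h) (ρ := ρ) hψ hef 1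
    rw [LinearMap.trace_one, Finset.sum_congr rfl fun w _ => by
      rw [one_mul, trace_pr hψ hef (mem_hypC.mp w.2).2.1]] at this
    exact_mod_cast this
  have heq : ∀ w w' : hypC Q ⊤ e f, w.1 ≠ 0 → w'.1 ≠ 0 → Q w = Q w' →
      finrank K (h.Wt ρ ψ e w) = finrank K (h.Wt ρ ψ e w') := fun w w' h1 h2 h3 =>
    finrank_Wt_eq hef.left hef.left_ne_zero hef.left hef.left_ne_zero (mem_hypC.mp w.2).2.1
      (notMem_span hef w.2 h1) (mem_hypC.mp w'.2).2.1 (notMem_span hef w'.2 h2) h3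
  obtain ⟨w₀, hw₀, h0⟩ : ∃ w : hypC Q ⊤ e f, w.1 ≠ 0 ∧ 1 ≤ finrank K (h.Wt ρ ψ e w) := by
    by_contra h0
    push Not at h0
    obtain ⟨g, hg⟩ := hρ
    have h1 : h.pr ρ ψ e f 0 = 1 := by
      rw [← sum_pr (h := h) (ρ := ρ) hψ hef, Finset.sum_eq_single 0 (fun w _ hw => LinearMap.ext fun v =>
        (Submodule.finrank_eq_zero.mp (Nat.lt_one_iff.mp (h0 w fun h2 => hw (Subtype.ext h2)))).le
          (pr_mem hef (mem_hypC.mp w.2).2.1 v)) (by simp)]
      rfl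
    obtain ⟨k, hk, hkg⟩ := commutator_le_of_singular h.nd (by omega) (H := ρ.ker.map (Subgroup.subtype _))
      (fun u v hu _ huv => ⟨h.E u v, by
        by_cases hu0 : u = 0
        · simp [hu0, h.E_zero_left]
        obtain ⟨k, hk, rfl⟩ := exists_commutator_app_eq h.nd (by omega) hef.left_ne_zero hu0
          (hef.left.trans hu.symm)
        obtain ⟨v, rfl⟩ := k.1.surjective v
        have h2 := (isAvg_pr (h := h) (ρ := ρ) hψ hef).left _ ⟨v, by rwa [OG.polar_app] at huv, rfl⟩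
        rw [h1, mul_one] at h2
        exact h.E_conj ⟨k, hk⟩ e v ▸ (MonoidHom.normal_ker ρ).conj_mem _ h2 _, rfl⟩) g.2
    exact hg (Subtype.ext hkg ▸ hk)
  by_cases h1 : ∃ w : hypC Q ⊤ e f, w.1 ≠ 0 ∧ (if Q w = Q w₀ then 2 else 1) ≤ finrank K (h.Wt ρ ψ e w)
  · obtain ⟨w₁, hw₁, h1⟩ := h1
    refine Or.inl ⟨Q w₀, Q w₁, ?_⟩
    rw [hsum, nu', nu', ← Finset.sum_add_distrib]
    refine Finset.sum_le_sum fun w _ => ?_
    split_ifs with h2 h3 h3
    · rw [if_pos (h3.2.symm.trans h2.2)] at h1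
      rwa [heq w w₁ h3.1 hw₁ h3.2]
    · rwa [heq w w₀ h2.1 hw₀ h2.2]
    · rw [heq w w₁ h3.1 hw₁ h3.2]
      exact le_trans (by split_ifs <;> simp) h1
    · simp
  · push Not at h1
    refine Or.inr ⟨Q w₀, ?_, fun e' w' he' he0 hw' hwe => ?_⟩
    · rw [hsum, nu']
      refine Finset.sum_le_sum fun w _ => ?_
      split_ifs with h2
      · rwa [heq w w₀ h2.1 hw₀ h2.2]
      · simp
    · have hw : Q w' • p + (1 : F) • p' ∈ hypC Q ⊤ e f :=
        mem_hypC.mpr ⟨trivial, by simp [H.ep, H.ep'], by simp [H.fp, H.fp']⟩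
      have hq : Q (Q w' • p + (1 : F) • p') = Q w' := by rw [H.pp.map_comb, mul_one]
      have hw0 : Q w' • p + (1 : F) • p' ≠ 0 := fun h0 => by
        simpa [H.pp.polar_left, H.pp.polar_eq] using congrArg (polar Q p) h0
      rw [finrank_Wt_eq he' he0 hef.left hef.left_ne_zero hw' hwe (mem_hypC.mp hw).2.1
        (notMem_span hef hw hw0) hq.symm]
      have h2 := h1 ⟨_, hw⟩ hw0
      simp only [hq] at h2
      split_ifs at h2 ⊢ with h3
      · have := heq ⟨_, hw⟩ w₀ hw0 hw₀ (hq.trans h3)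
        simp only at this
        omega
      · omega

include h in
theorem exists_hyp2 : ∃ e f p p', Hyp2 Q e f p p' := by
  have hdim := h.dim
  obtain ⟨e, -, f, -, hef⟩ := (ndon_top h.nd).exists_isHyp (by rw [finrank_top]; omega)
  have := finrank1 hef
  obtain ⟨p, hp, p', hp', hpp⟩ := (h.nd1 hef).exists_isHyp (by omega)
  exact ⟨e, f, p, p', hef, hpp, (mem_hypC.mp hp).2.1, (mem_hypC.mp hp').2.1, (mem_hypC.mp hp).2.2,
    (mem_hypC.mp hp').2.2⟩

/-- The numerical information on the degree. -/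
theorem degree_cases [CharZero K] (h : OC Q) (ρ : Om Q →* Module.End K M) (hψ : ψ ≠ 1) (hρ : ∃ g, ρ g ≠ 1)
    (hS : ∀ T : Module.End K M, (∀ g, ρ g * T = T * ρ g) → ∃ s : K, T = s • 1)
    (hs : finrank F N = 8 → 3 < Fintype.card F ∨
      nu Q ⊤ 0 = Fintype.card F ^ 3 + (Fintype.card F ^ 3 - 1) * Fintype.card F ^ 4)
    {q x y d : ℤ} (hq : q = Fintype.card F) (hd : d = finrank K M) {r : F → ℕ} (hr : r 0 = 1)
    (hx : q ^ (finrank F N - 4) = q ^ 2 * x ^ 2 * y)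
    (hnu : ∀ c, (nu Q ⊤ c : ℤ) = q ^ 3 * x * r c + (q ^ 3 * x - 1) * (q ^ 2 * x * y)) (hx1 : 1 ≤ x) :
    2 * ((q ^ 2 * x - 1) * (q * x * y)) ≤ d ∨
    (∃ t : ℕ, q * (q ^ 3 * x + (q ^ 3 * x - 1) * (q ^ 2 * x * y) - 1) *
      (q ^ 2 * x + (q ^ 2 * x - 1) * (q * x * y) - 1) = d * (q ^ 2 - 1) * (q + q ^ 4 * x ^ 2 * y - t)) ∨
    (q ≤ 3 ∧ ∃ c, c ≠ 0 ∧ q ^ 2 * x * r c + (q ^ 2 * x - 1) * (q * x * y) ≤ d ∧ (9 ≤ finrank F N →
      ∃ t : ℕ, q * (q ^ 3 * x + (q ^ 3 * x - 1) * (q ^ 2 * x * y) - 1) *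
        (q ^ 2 * x * r c + (q ^ 2 * x - 1) * (q * x * y)) =
          d * (q ^ 2 - 1) * (q ^ 4 * x ^ 2 * y - q ^ 2 * x * (r c - 1) - t))) := by
  obtain ⟨e, f, p, p', H⟩ := h.exists_hyp2
  have hp : p ∈ hypC Q ⊤ e f := mem_hypC.mpr ⟨trivial, H.ep, H.fp⟩
  have hp' : p' ∈ hypC Q ⊤ e f := mem_hypC.mpr ⟨trivial, H.ep', H.fp'⟩
  have hq0 : 0 < q := by rw [hq]; exact_mod_cast Fintype.card_pos
  have hq1 : ((Fintype.card F - 1 : ℕ) : ℤ) = q - 1 := by rw [hq, Nat.cast_sub Fintype.card_pos, Nat.cast_one]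
  have c2 : (Fintype.card (hypC Q (hypC Q ⊤ e f) p p') : ℤ) = q ^ 2 * x ^ 2 * y := by
    rw [card2 H.ef H.pp hp hp', ← hx, hq, Nat.cast_pow]
  have n1 : ∀ c, (nu Q (hypC Q ⊤ e f) c : ℤ) = q ^ 2 * x * r c + (q ^ 2 * x - 1) * (q * x * y) := fun c => by
    have := congrArg (Nat.cast : ℕ → ℤ) (nu_hyp (W := ⊤) H.ef trivial trivial c)
    rw [card_hypC H.pp hp hp', hnu, Nat.cast_add, Nat.cast_mul, Nat.cast_mul, Nat.cast_mul, Nat.cast_pow,
      hq1, c2, ← hq] at this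
    exact mul_left_cancel₀ hq0.ne' (by linear_combination -this)
  have n2 : ∀ c, (nu Q (hypC Q (hypC Q ⊤ e f) p p') c : ℤ) = q * x * r c + (q * x - 1) * (x * y) := fun c => by
    have := congrArg (Nat.cast : ℕ → ℤ) (nu_hyp H.pp hp hp' c)
    rw [n1, Nat.cast_add, Nat.cast_mul, Nat.cast_mul, hq1, c2, ← hq] at this
    exact mul_left_cancel₀ hq0.ne' (by linear_combination -this)
  have n' : ∀ (W : Submodule F N) (c : F), (nu' Q W c : ℤ) = nu Q W c - if c = 0 then 1 else 0 := fun W c => by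
    rw [nu_eq_nu']; push_cast; ring
  rcases exists_lev (h := h) hψ H hρ with ⟨c₁, c₂, h1⟩ | ⟨c, h1, hL⟩
  · have h2 : ∀ c, (q ^ 2 * x - 1) * (q * x * y) ≤ nu' Q (hypC Q ⊤ e f) c := fun c => by
      rw [n', n1]
      split_ifs with hc
      · rw [hc, hr]
        have : 0 < q ^ 2 * x := by positivity
        push_cast
        linarith
      · have : 0 ≤ q ^ 2 * x * r c := by positivity
        linarith
    have h3 : (nu' Q (hypC Q ⊤ e f) c₁ : ℤ) + nu' Q (hypC Q ⊤ e f) c₂ ≤ d := by rw [hd]; exact_mod_cast h1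
    exact Or.inl (by linarith [h2 c₁, h2 c₂])
  by_cases hc : c = 0
  · obtain ⟨t, ht⟩ := hL.degree hψ (fun h0 => absurd hc h0) hs H hS
    rw [n', n', n', hnu, n1, n2, n2, ← hq, ← hd, hx, hc, hr, if_pos rfl] at ht
    exact Or.inr (Or.inl ⟨t, by push_cast at ht; linear_combination ht⟩)
  refine Or.inr (Or.inr ⟨?_, c, hc, ?_, fun h9 => ?_⟩)
  · by_contra h2
    obtain ⟨β, hβ, hβ'⟩ := exists_sq_ne_one (F := F) (by omega)
    exact hβ' (hL.sq_eq_one H hc hβ)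
  · have h3 : (nu' Q (hypC Q ⊤ e f) c : ℤ) ≤ d := by rw [hd]; exact_mod_cast h1
    rwa [n', n1, if_neg hc, sub_zero] at h3
  · obtain ⟨t, ht⟩ := hL.degree hψ (fun _ => h9) hs H hS
    rw [n', n', n', hnu, n1, n2, n2, ← hq, ← hd, hx, hr, if_pos rfl, if_neg hc] at ht
    exact ⟨t, by push_cast at ht; linear_combination ht⟩

end OC

omit [Fintype F] in
theorem nu_top (c : F) : nu Q ⊤ c = Nat.card {v // Q v = c} := by
  rw [nu, ← sum_top (F := F) fun w => if Q w = c then 1 else 0, Nat.card_eq_fintype_card, Fintype.card_subtype,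
    Finset.card_filter]

omit [Fintype N] in
theorem card_level {V W : Type*} [Finite W] {i : ℕ} (e : V ≃ (Fin (i + 3) → F) × (Fin (i + 3) → F) × W)
    {P : V → F} {P₀ : W → F} (he : ∀ v, P v = ∑ j, (e v).1 j * (e v).2.1 j + P₀ (e v).2.2) (c : F) :
    (Nat.card {v // P v = c} : ℤ) = (Fintype.card F : ℤ) ^ 3 * Fintype.card F ^ i * Nat.card {w // P₀ w = c} +
      (Fintype.card F ^ 3 * Fintype.card F ^ i - 1) * (Fintype.card F ^ 2 * Fintype.card F ^ i * Nat.card W) := by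
  have := card_zeros_hyp_add (F := F) (i + 3) (W := W) fun w => P₀ w - c
  rw [← Nat.card_congr (e.subtypeEquiv (p := fun v => P v = c) fun v => by
    rw [he, ← add_sub_assoc, sub_eq_zero])] at this
  rw [this, Nat.card_congr (Equiv.subtypeEquivRight fun w => sub_eq_zero)]
  push_cast [Nat.one_le_pow _ _ Fintype.card_pos]
  ring

omit [Fintype N] in
theorem le_card_aniso {a b : F} (hab : ∀ z₁ z₂ : F, z₁ ^ 2 + a * z₁ * z₂ + b * z₂ ^ 2 = 0 → z₁ = 0 ∧ z₂ = 0)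
    {c : F} (hc : c ≠ 0) :
    Fintype.card F + 1 ≤ Nat.card {t : F × F // t.1 ^ 2 + a * t.1 * t.2 + b * t.2 ^ 2 = c} := by
  have := fact_QAlg hab
  obtain ⟨z, hz⟩ := norm_QAlg_surjective (a := a) (b := b) c
  have hz0 : z ≠ 0 := fun h0 => hc (by rw [← hz, h0]; simp)
  rw [← Nat.card_eq_fintype_card, ← natCard_unitary_QAlg (a := a) (b := b)]
  refine Nat.card_le_card_of_injective (fun u => ⟨((u.1 * z).re, (u.1 * z).im), by
    rw [← nrmForm_apply', nrmForm_apply, map_mul, QuadraticAlgebra.norm_eq_one_iff_mem_unitary.2 u.2, hz,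
      one_mul]⟩) fun u v huv => ?_
  have h1 := congrArg Subtype.val huv
  exact Subtype.ext (mul_right_cancel₀ hz0 (QuadraticAlgebra.ext (congrArg Prod.fst h1) (congrArg Prod.snd h1)))

omit [Fintype N] in
theorem exists_om_rep {ι : Type} [Fintype ι] [DecidableEq ι] (Q : QuadraticForm F (ι → F)) {k : ℕ}
    (ρ : Representation ℂ (Cfsg.Omega F ⇑Q) (Fin k → ℂ)) (hρ : ρ.IsIrreducible) (hk : 2 ≤ k) :
    ∃ σ : Om Q →* Module.End ℂ (Fin k → ℂ), (∃ g, σ g ≠ 1) ∧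
      ∀ T : Module.End ℂ (Fin k → ℂ), (∀ g, σ g * T = T * σ g) → ∃ s : ℂ, T = s • 1 := by
  refine ⟨MonoidHom.comp ρ (omegaEquiv Q).symm.toMonoidHom, ?_, fun T hT => ?_⟩
  · by_contra h0
    push Not at h0
    exact not_commutator_le_ker ρ hρ hk fun g _ => by simpa using h0 (omegaEquiv Q g)
  · exact CL.Char.exists_scalar_of_commute ρ T fun g => by simpa using (hT (omegaEquiv Q g)).symm

omit [Fintype N] in
theorem div_le_of_lt {X : ℕ} {q k : ℕ} (hq : 2 ≤ q) (h : (X : ℤ) < ((q : ℤ) ^ 2 - 1) * (k + 1)) :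
    X / (q ^ 2 - 1) ≤ k := by
  have h1 : 1 < q ^ 2 := by nlinarith
  refine Nat.lt_succ_iff.mp ((Nat.div_lt_iff_lt_mul (by omega)).mpr ?_)
  zify [h1.le]
  linarith

omit [Fintype N] in
theorem omega_odd_bound (n : ℕ) (hn : 3 ≤ n) (hodd : Odd (Fintype.card F)) (h3 : 3 < Fintype.card F) {k : ℕ}
    (ρ : Representation ℂ (Cfsg.Omega F (qfOdd n F)) (Fin k → ℂ)) (hρ : ρ.IsIrreducible) (hk : 2 ≤ k) :
    (Fintype.card F ^ (2 * n) - 1) / (Fintype.card F ^ 2 - 1) ≤ k := by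
  obtain ⟨i, rfl⟩ : ∃ i, n = i + 3 := ⟨n - 3, by omega⟩
  obtain ⟨σ, h1, h2⟩ := exists_om_rep _ ρ hρ hk
  obtain ⟨ψ, hψ⟩ := exists_psi_complex (F := F)
  have hm : finrank F (Unit ⊕ (Fin (i + 3) ⊕ Fin (i + 3)) → F) = 2 * i + 7 := by simp; omega
  have h : OC (qfOdd (i + 3) F) := ⟨nondeg_qfOdd (two_ne_zero_of_odd hodd), by omega⟩
  obtain ⟨q, hq⟩ : ∃ q : ℤ, q = Fintype.card F := ⟨_, rfl⟩
  have hq3 : 3 < q := by rw [hq]; exact_mod_cast h3
  have hx : 1 ≤ q ^ i := one_le_pow₀ (by omega)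
  have := h.degree_cases σ hψ h1 h2 (by omega) hq (d := k) (x := q ^ i) (y := q) (by simp)
    (r := fun c => Nat.card {t : F // t ^ 2 = c}) (by simp) (by rw [hm, show 2 * i + 7 - 4 = 2 * i + 3 by omega]; ring)
    (fun c => by
      rw [nu_top, card_level (W := F) (P₀ := fun t => t ^ 2)
        ⟨fun v => (fun j => v (.inr (.inl j)), fun j => v (.inr (.inr j)), v (.inl ())),
          fun p => Sum.elim (fun _ => p.2.2) (Sum.elim p.1 p.2.1), fun v => by ext (j | j | j) <;> rfl,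
          fun p => rfl⟩ fun v => by rw [qfOdd_apply, add_comm]; rfl, Nat.card_eq_fintype_card (α := F), ← hq]) hx
  refine div_le_of_lt (by omega) ?_
  rw [Nat.cast_sub (Nat.one_le_pow _ _ Fintype.card_pos), Nat.cast_pow, ← hq,
    show q ^ (2 * (i + 3)) = q ^ 6 * (q ^ i) ^ 2 by ring, Nat.cast_one]
  generalize q ^ i = x at this hx
  rcases this with h4 | ⟨t, h4⟩ | ⟨h4, -⟩
  · have h5 : 16 ≤ q ^ 2 := by nlinarith
    have h6 : q ^ 2 ≤ q ^ 2 * x := le_mul_of_one_le_right (by positivity) hx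
    obtain ⟨u, hu⟩ : ∃ u, u = q ^ 2 * x := ⟨_, rfl⟩
    have h7 : 2 * ((u - 1) * u) ≤ k := by rw [hu]; linarith
    rw [show q ^ 6 * x ^ 2 = q ^ 2 * u ^ 2 by rw [hu]; ring]
    nlinarith [mul_le_mul_of_nonneg_left h7 (show 0 ≤ q ^ 2 - 1 by linarith),
      mul_nonneg (show 0 ≤ q ^ 2 - 16 by linarith) (show 0 ≤ u * (u - 2) by nlinarith)]
  · exact mco_odd (t := t) (by omega) hx (by positivity) (by positivity) (by linear_combination h4)
  · omega

omit [Fintype N] in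
theorem omega_plus_bound (n : ℕ) (hn : 4 ≤ n) (h3 : 3 < Fintype.card F) {k : ℕ}
    (ρ : Representation ℂ (Cfsg.Omega F (qfPlus n F)) (Fin k → ℂ)) (hρ : ρ.IsIrreducible) (hk : 2 ≤ k) :
    (Fintype.card F ^ n - 1) * (Fintype.card F ^ (n - 1) + Fintype.card F) / (Fintype.card F ^ 2 - 1) ≤ k := by
  obtain ⟨i, rfl⟩ : ∃ i, n = i + 1 + 3 := ⟨n - 4, by omega⟩
  obtain ⟨σ, h1, h2⟩ := exists_om_rep _ ρ hρ hk
  obtain ⟨ψ, hψ⟩ := exists_psi_complex (F := F)
  have hm : finrank F (Fin (i + 1 + 3) ⊕ Fin (i + 1 + 3) → F) = 2 * i + 8 := by simp; omega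
  have h : OC (qfPlus (i + 1 + 3) F) := ⟨nondeg_qfPlus, by omega⟩
  obtain ⟨q, hq⟩ : ∃ q : ℤ, q = Fintype.card F := ⟨_, rfl⟩
  have hq3 : 3 < q := by rw [hq]; exact_mod_cast h3
  have hx : 1 ≤ q ^ i := one_le_pow₀ (by omega)
  have := h.degree_cases σ hψ h1 h2 (fun _ => Or.inl h3) hq (d := k) (x := q ^ (i + 1)) (y := 1) (by simp)
    (r := fun c => Nat.card {_t : Unit // 0 = c}) (by simp)
    (by rw [hm, show 2 * i + 8 - 4 = 2 * i + 4 by omega]; ring)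
    (fun c => by
      rw [nu_top, card_level (W := Unit) (P₀ := fun _ => 0)
        ⟨fun v => (fun j => v (.inl j), fun j => v (.inr j), ()),
          fun p => Sum.elim p.1 p.2.1, fun v => by ext (j | j) <;> rfl,
          fun p => rfl⟩ fun v => by rw [qfPlus_apply, add_zero]; rfl, ← hq]
      simp) (one_le_pow₀ (by omega))
  refine div_le_of_lt (by omega) ?_
  obtain ⟨G, hG⟩ := sub_one_dvd_pow_sub_one (q ^ 2) (i + 3)
  rw [Nat.cast_mul, Nat.cast_sub (Nat.one_le_pow _ _ Fintype.card_pos), Nat.cast_add, Nat.cast_pow, Nat.cast_pow,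
    ← hq, show q ^ (i + 1 + 3) = q ^ 2 * (q ^ 2 * q ^ i) by ring, Nat.cast_one,
    show q ^ (i + 1 + 3 - 1) = q * (q ^ 2 * q ^ i) by rw [Nat.add_succ_sub_one]; ring]
  rw [show (q ^ 2) ^ (i + 3) = q ^ 2 * (q ^ 2 * q ^ i) ^ 2 by ring] at hG
  rw [pow_succ' q i] at this
  generalize q ^ i = x at this hx hG
  have h6 : q ^ 2 ≤ q ^ 2 * x := le_mul_of_one_le_right (by positivity) hx
  rcases this with h4 | ⟨t, h4⟩ | ⟨h4, -⟩
  · have h5 : 16 ≤ q ^ 2 := by nlinarith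
    obtain ⟨u, hu⟩ : ∃ u, u = q ^ 2 * x := ⟨_, rfl⟩
    have h7 : 2 * ((q * u - 1) * u) ≤ k := by rw [hu]; linarith
    rw [← hu] at h6 ⊢
    have h8 : 0 ≤ q * u * (u - 3) := mul_nonneg (by nlinarith) (by linarith)
    nlinarith [mul_le_mul_of_nonneg_left h7 (show 0 ≤ q ^ 2 - 1 by linarith),
      mul_nonneg (show 0 ≤ q ^ 2 - 16 by linarith) h8, mul_nonneg (show 0 ≤ q - 4 by linarith)
        (show 0 ≤ q ^ 2 * u by nlinarith)]
  · simpa using mco_even (t := t) (ε := 1) (by omega) h6 (by positivity) (by positivity)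
      (Or.inr ⟨rfl, by omega⟩) hG (by linear_combination h4)
  · omega

omit [Fintype N] in
theorem omega_minus_bound (n : ℕ) (hn : 4 ≤ n) (a b : F)
    (hab : ∀ z₁ z₂ : F, z₁ ^ 2 + a * z₁ * z₂ + b * z₂ ^ 2 = 0 → z₁ = 0 ∧ z₂ = 0) {k : ℕ}
    (ρ : Representation ℂ (Cfsg.Omega F (qfMinus (n - 1) F a b)) (Fin k → ℂ)) (hρ : ρ.IsIrreducible)
    (hk : 2 ≤ k) :
    (Fintype.card F ^ n + 1) * (Fintype.card F ^ (n - 1) - Fintype.card F) / (Fintype.card F ^ 2 - 1) ≤ k := by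
  obtain ⟨i, rfl⟩ : ∃ i, n = i + 3 + 1 := ⟨n - 4, by omega⟩
  simp only [Nat.add_sub_cancel] at ρ hρ ⊢
  obtain ⟨σ, h1, h2⟩ := exists_om_rep (qfMinus (i + 3) F a b) ρ hρ hk
  obtain ⟨ψ, hψ⟩ := exists_psi_complex (F := F)
  have hm : finrank F ((Fin (i + 3) ⊕ Fin (i + 3)) ⊕ Fin 2 → F) = 2 * i + 8 := by simp; omega
  have h : OC (qfMinus (i + 3) F a b) := ⟨nondeg_qfMinus a b hab, by omega⟩
  obtain ⟨q, hq⟩ : ∃ q : ℤ, q = Fintype.card F := ⟨_, rfl⟩
  have hq1 : 1 < Fintype.card F := Fintype.one_lt_card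
  have hq2 : 2 ≤ q := by rw [hq]; exact_mod_cast hq1
  have hx : 1 ≤ q ^ i := one_le_pow₀ (by omega)
  have := h.degree_cases σ hψ h1 h2 (fun h8 => Or.inr (by
      obtain rfl : i = 0 := by omega
      rw [nu_top]
      exact card_zeros_quadFormMinus 3 a b hab)) hq (d := k) (x := q ^ i) (y := q ^ 2) (by simp)
    (r := fun c => Nat.card {t : F × F // t.1 ^ 2 + a * t.1 * t.2 + b * t.2 ^ 2 = c})
    (Nat.card_eq_one_iff_exists.mpr ⟨⟨0, by simp⟩, fun y => Subtype.ext (Prod.ext (hab _ _ y.2).1 (hab _ _ y.2).2)⟩)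
    (by rw [hm, show 2 * i + 8 - 4 = 2 * i + 4 by omega]; ring)
    (fun c => by
      rw [nu_top, card_level (W := F × F) (P₀ := fun t => t.1 ^ 2 + a * t.1 * t.2 + b * t.2 ^ 2)
        ⟨fun v => (fun j => v (.inl (.inl j)), fun j => v (.inl (.inr j)), v (.inr 0), v (.inr 1)),
          fun p => Sum.elim (Sum.elim p.1 p.2.1) ![p.2.2.1, p.2.2.2], fun v => by
            ext ((j | j) | j)
            · rfl
            · rfl
            · fin_cases j <;> rfl,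
          fun p => rfl⟩ fun v => by rw [qfMinus_apply]; rfl, Nat.card_prod, Nat.card_eq_fintype_card (α := F),
          Nat.cast_mul, ← hq]
      ring) hx
  refine div_le_of_lt (by omega) ?_
  obtain ⟨G, hG⟩ := sub_one_dvd_pow_sub_one (q ^ 2) (i + 3)
  rw [Nat.cast_mul, Nat.cast_sub (Nat.le_self_pow (by omega) _), Nat.cast_add, Nat.cast_pow, Nat.cast_pow,
    ← hq, show q ^ (i + 3 + 1) = q ^ 2 * (q ^ 2 * q ^ i) by ring, Nat.cast_one,
    show q ^ (i + 3) = q * (q ^ 2 * q ^ i) by ring]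
  rw [show (q ^ 2) ^ (i + 3) = q ^ 2 * (q ^ 2 * q ^ i) ^ 2 by ring] at hG
  have h6 : q ^ 2 ≤ q ^ 2 * q ^ i := le_mul_of_one_le_right (by positivity) hx
  have h5 : 4 ≤ q ^ 2 := by nlinarith
  have hk0 : (0 : ℤ) ≤ k := by positivity
  rcases this with h4 | ⟨t, h4⟩ | ⟨-, c, hc, h4, h7⟩
  · generalize q ^ i = x at h4 hx h6
    obtain ⟨u, hu⟩ : ∃ u, u = q ^ 2 * x := ⟨_, rfl⟩
    have h7 : 2 * ((u - 1) * (q * u)) ≤ k := by rw [hu]; linarith
    rw [← hu] at h6 ⊢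
    have h8 : 0 ≤ q * u := by nlinarith
    nlinarith [mul_le_mul_of_nonneg_left h7 (show 0 ≤ q ^ 2 - 1 by linarith),
      mul_nonneg h8 (show 0 ≤ (q ^ 2 - 2) * u - (q ^ 2 - 1) by nlinarith)]
  · simpa [sub_eq_add_neg] using mco_even (t := t) (ε := -1) hq2 h6 hk0 (by positivity)
      (Or.inl rfl) hG (by linear_combination h4)
  · have h8 : q + 1 ≤ Nat.card {t : F × F // t.1 ^ 2 + a * t.1 * t.2 + b * t.2 ^ 2 = c} := by
      rw [hq]; exact_mod_cast le_card_aniso hab hc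
    generalize (Nat.card {t : F × F // t.1 ^ 2 + a * t.1 * t.2 + b * t.2 ^ 2 = c} : ℤ) = r at h4 h7 h8
    rcases Nat.eq_zero_or_pos i with rfl | hi
    · simp only [pow_zero, mul_one] at h4 ⊢
      have h9 : q ^ 5 + q ≤ k := by nlinarith [mul_le_mul_of_nonneg_left h8 (show 0 ≤ q ^ 2 by positivity)]
      nlinarith [mul_le_mul_of_nonneg_left h9 (show 0 ≤ q ^ 2 - 1 by linarith)]
    · obtain ⟨t, ht⟩ := h7 (by omega)
      generalize q ^ i = x at ht hx h6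
      obtain ⟨u, hu⟩ : ∃ u, u = q ^ 2 * x := ⟨_, rfl⟩
      have h9 : q * ((q ^ 2 * u + 1) * (q * u - 1)) * (u * r + (u - 1) * (q * u)) =
          k * (q ^ 2 - 1) * (q ^ 2 * u ^ 2 - u * (r - 1) - t) := by rw [hu]; linear_combination ht
      rw [← hu] at h6 ⊢
      have hu0 : 0 < u := by linarith
      have hqu : 8 ≤ q * u := by nlinarith
      have h10 : k * (q ^ 2 - 1) * (q ^ 2 * u ^ 2 - u * (r - 1) - t) ≤ k * (q ^ 2 - 1) * (q ^ 2 * u ^ 2) :=
        mul_le_mul_of_nonneg_left (by nlinarith [Int.natCast_nonneg t]) (mul_nonneg hk0 (by linarith))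
      have h11 : q * ((q ^ 2 * u + 1) * (q * u - 1)) * (u + (u - 1) * (q * u)) ≤
          q * ((q ^ 2 * u + 1) * (q * u - 1)) * (u * r + (u - 1) * (q * u)) :=
        mul_le_mul_of_nonneg_left (by nlinarith) (mul_nonneg (by linarith)
          (mul_nonneg (by positivity) (by linarith)))
      refine lt_of_le_of_lt (le_of_mul_le_mul_left (a := q ^ 2 * u ^ 2) (c := (q ^ 2 - 1) * k) ?_
        (by positivity)) (by linarith)
      nlinarith [mul_nonneg (show 0 ≤ q * u * (q ^ 2 * u + 1) by positivity) (show 0 ≤ q - 1 by linarith)]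

end CL.LS
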