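/-
Minimal degrees of exceptional groups, part 7: certificates that a polynomial value does not divide a group order.
-/
import Cfsg.Agent.Base

set_option autoImplicit false

namespace CL.MX

/-- Evaluation of a list of coefficients. -/
def ev : List ℤ → ℤ → ℤ
  | [], _ => 0
  | a :: l, x => a + x * ev l x

/-- Addition. -/
def padd : List ℤ → List ℤ → List ℤ
  | [], m => m
  | a :: l, [] => a :: l
  | a :: l, b :: m => (a + b) :: padd l m

/-- Multiplication. -/
def pmul : List ℤ → List ℤ → List ℤ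
  | [], _ => []
  | a :: l, m => padd (m.map (a * ·)) (0 :: pmul l m)

/-- Taylor shift. -/
def pshift (s : ℤ) : List ℤ → List ℤ
  | [] => []
  | a :: l => padd [a] (pmul [s, 1] (pshift s l))

theorem ev_padd (x : ℤ) : ∀ l m, ev (padd l m) x = ev l x + ev m x
  | [], m => by simp [padd, ev]
  | a :: l, [] => by simp [padd, ev]
  | a :: l, b :: m => by simp only [padd, ev, ev_padd x l m]; ring

theorem ev_map (x a : ℤ) : ∀ m : List ℤ, ev (m.map (a * ·)) x = a * ev m x
  | [] => by simp [ev]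
  | b :: m => by simp only [List.map, ev, ev_map x a m]; ring

theorem ev_pmul (x : ℤ) (m : List ℤ) : ∀ l, ev (pmul l m) x = ev l x * ev m x
  | [] => by simp [pmul, ev]
  | a :: l => by simp only [pmul, ev_padd, ev_map, ev, ev_pmul x m l]; ring

theorem ev_pshift (x s : ℤ) : ∀ l, ev (pshift s l) x = ev l (s + x)
  | [] => by simp [pshift, ev]
  | a :: l => by simp only [pshift, ev_padd, ev_pmul, ev, ev_pshift x s l]; ring

theorem ev_zero (x : ℤ) : ∀ l : List ℤ, l.all (· == 0) = true → ev l x = 0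
  | [], _ => rfl
  | a :: l, h => by
    simp only [List.all_cons, Bool.and_eq_true, beq_iff_eq] at h
    simp [ev, h.1, ev_zero x l h.2]

theorem ev_nonneg {x : ℤ} (hx : 0 ≤ x) : ∀ l : List ℤ, l.all (fun a => decide (0 ≤ a)) = true → 0 ≤ ev l x
  | [], _ => le_rfl
  | a :: l, h => by
    simp only [List.all_cons, Bool.and_eq_true, decide_eq_true_eq] at h
    exact add_nonneg h.1 (mul_nonneg hx (ev_nonneg hx l h.2))

/-- The product of the values. -/
def pv (x : ℤ) : List (List ℤ) → ℤ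
  | [] => 1
  | f :: fs => ev f x * pv x fs

/-- Bezout certificates; the result is the product of the resultants, or `0`. -/
def bez (d : List ℤ) : List (List ℤ) → List (List ℤ × List ℤ × ℤ) → ℤ
  | [], _ => 1
  | _ :: _, [] => 0
  | f :: fs, (u, v, r) :: L => if (padd (padd (pmul u d) (pmul v f)) [-r]).all (· == 0) then r * bez d fs L else 0

theorem dvd_bez (d : List ℤ) (x : ℤ) : ∀ fs L (a : ℤ), ev d x ∣ a * pv x fs → ev d x ∣ a * bez d fs L
  | [], _, _, h => by simpa [bez, pv] using h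
  | _ :: _, [], _, _ => by simp [bez]
  | f :: fs, (u, v, r) :: L, a, h => by
    rw [bez]; split_ifs with e
    · have := ev_zero x _ e
      simp only [ev_padd, ev_pmul, ev] at this
      rw [← mul_assoc]
      refine dvd_bez d x fs L _ ?_
      rw [show a * r * pv x fs = ev d x * (a * ev u x * pv x fs) + a * pv x (f :: fs) * ev v x by
        rw [pv]; linear_combination (-a * pv x fs) * this]
      exact dvd_add (dvd_mul_right _ _) (h.mul_right _)
    · simp

theorem dvd_of_primePow {q : ℕ} (hq : IsPrimePow q) {d y R : ℤ} {j N : ℕ} (hj : 0 < j) (hjq : j < q) (h : d ∣ q * R - j)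
    (h' : d ∣ (q : ℤ) ^ N * y) : d ∣ j * y := by
  obtain ⟨p, e, hp, -, rfl⟩ := (isPrimePow_nat_iff q).1 hq
  obtain ⟨a, -, ha⟩ := (Nat.dvd_prime_pow hp (m := e * N) (i := Int.gcd d (((p ^ e : ℕ) : ℤ) ^ N))).1 (by
    have := Int.gcd_dvd_right d (((p ^ e : ℕ) : ℤ) ^ N)
    rw [pow_mul]; exact_mod_cast this)
  have h1 := (Int.gcd_dvd_left d (((p ^ e : ℕ) : ℤ) ^ N)).trans h
  refine (dvd_gcd_mul_of_dvd_mul h').trans (mul_dvd_mul_right ?_ y)
  rw [← Int.coe_gcd]
  rw [ha] at h1 ⊢
  rcases le_total a e with h2 | h2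
  · exact (dvd_sub_right ((Int.natCast_dvd_natCast.2 (pow_dvd_pow p h2)).mul_right R)).1 h1
  · have := (dvd_sub_right (dvd_mul_right _ R)).1 ((Int.natCast_dvd_natCast.2 (pow_dvd_pow p h2)).trans h1)
    exact absurd (Nat.le_of_dvd hj (Int.natCast_dvd_natCast.1 this)) (not_le.2 hjq)

/-- The certificate that `x T(x) - j` does not divide `x ^ N ∏ f (x)`. -/
def chkGap (T : List ℤ) (fs : List (List ℤ)) (N j : ℕ) (C : List ℤ × List ℤ × List (List ℤ × List ℤ × ℤ) × ℕ) : Bool :=
  (padd (pmul C.1 C.2.1) (padd ((0 :: T).map (-1 * ·)) [(j : ℤ)])).all (· == 0) && decide (0 < bez C.2.1 fs C.2.2.1) &&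
    decide (j < C.2.2.2) && (pshift C.2.2.2 (padd C.2.1 [-(j * bez C.2.1 fs C.2.2.1) - 1])).all (fun a => decide (0 ≤ a)) &&
    (List.range C.2.2.2).all fun q => decide (q < 2) || ((q : ℤ) ^ N * pv q fs) % (ev (0 :: T) q - j) != 0

theorem not_dvd_of_chk {T : List ℤ} {fs : List (List ℤ)} {N j : ℕ} {C} (h : chkGap T fs N j C = true) (hj : 0 < j) {q : ℕ}
    (hq : IsPrimePow q) : ¬ ev (0 :: T) q - j ∣ (q : ℤ) ^ N * pv q fs := fun hd => by
  simp only [chkGap, Bool.and_eq_true, decide_eq_true_eq] at h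
  obtain ⟨⟨⟨⟨h1, h2⟩, h3⟩, h4⟩, h5⟩ := h
  rcases lt_or_ge q C.2.2.2 with h6 | h6
  · have := List.all_eq_true.1 h5 q (List.mem_range.2 h6)
    simp only [Bool.or_eq_true, decide_eq_true_eq, bne_iff_ne] at this
    exact this.elim (not_lt.2 hq.two_le) fun e => e (Int.emod_eq_zero_of_dvd hd)
  have k1 := ev_zero q _ h1
  have k2 := ev_nonneg (x := q - C.2.2.2) (by omega) _ h4
  simp only [ev_padd, ev_pmul, ev_map, ev_pshift, ev, add_sub_cancel] at k1 k2
  have k3 : ev C.2.1 q ∣ ev (0 :: T) q - j := ⟨ev C.1 q, by rw [ev]; linear_combination -k1⟩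
  have k4 := dvd_bez _ _ _ C.2.2.1 _ (dvd_of_primePow hq hj (h3.trans_le h6) (R := ev T q) (by simpa [ev] using k3) (k3.trans hd))
  have := Int.le_of_dvd (by positivity) k4
  omega

/-- The certificates for `j = 1, …, r`. -/
def chkAll (T : List ℤ) (fs : List (List ℤ)) (N : ℕ) : List (List ℤ × List ℤ × List (List ℤ × List ℤ × ℤ) × ℕ) → Bool
  | [] => true
  | C :: L => chkGap T fs N (L.length + 1) C && chkAll T fs N L

theorem le_of_chk {T : List ℤ} {fs : List (List ℤ)} {N : ℕ} {q : ℕ} (hq : IsPrimePow q) {k : ℤ}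
    (hk : k ∣ (q : ℤ) ^ N * pv q fs) : ∀ L, chkAll T fs N L = true → ev (0 :: T) q ≤ k + L.length → ev (0 :: T) q ≤ k
  | [], _, h => by simpa using h
  | C :: L, h, h' => by
    simp only [chkAll, Bool.and_eq_true] at h
    refine le_of_chk hq hk L h.2 (le_of_not_gt fun e => not_dvd_of_chk h.1 (Nat.succ_pos _) hq ?_)
    rw [List.length_cons] at h'
    rwa [show ev (0 :: T) q - ((L.length + 1 : ℕ) : ℤ) = k by push_cast at h' ⊢; omega]

end CL.MX
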