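/-
Minimal degrees of exceptional groups, part 2: simply laced root systems and their Steinberg systems.
-/
import Cfsg.Agent.Chev.TwOrth
import Cfsg.Agent.Chev.StLead

set_option autoImplicit false
set_option linter.unusedSectionVars false

open scoped commutatorElement

namespace CL.MX

open CL.Chev

variable {ι Φ : Type} [Fintype ι] [DecidableEq ι] {R : RS ι Φ}

/-- All roots have the same length. -/
def SL (R : RS ι Φ) : Prop := ∀ r s, R.len r = R.len s

/-- The root `α - γ` when `⟨γ, α⟩ = 1`. -/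
noncomputable def op (R : RS ι Φ) (α γ : Φ) : Φ := R.refl γ α

namespace SL

variable (hl : SL R)
include hl

theorem symm (r s : Φ) : R.pair r s = R.pair s r := by
  have h := R.len_pair r s
  rw [hl r s] at h
  exact mul_left_cancel₀ (R.len_pos s).ne' h

theorem cases (r s : Φ) : s = r ∨ s = R.neg r ∨ R.pair r s = 1 ∨ R.pair r s = 0 ∨ R.pair r s = -1 := by
  by_cases h1 : s = r
  · exact .inl h1
  by_cases h2 : s = R.neg r
  · exact .inr (.inl h2)
  have h := R.pair_mul_pair_le h1 h2
  rw [hl.symm s r] at h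
  have h3 : R.pair r s < 2 := by nlinarith
  have h4 : -2 < R.pair r s := by nlinarith
  omega

theorem le_two (r s : Φ) : R.pair r s ≤ 2 := by
  rcases hl.cases r s with rfl | rfl | h | h | h <;> simp_all

theorem eq_of_two_le {r s : Φ} (h : 2 ≤ R.pair r s) : s = r := by
  rcases hl.cases r s with rfl | rfl | h | h | h <;> simp_all

theorem neg_two_le (r s : Φ) : -2 ≤ R.pair r s := by
  have := hl.le_two r (R.neg s); rw [R.pair_neg_right] at this; omega

theorem eq_neg_of_le {r s : Φ} (h : R.pair r s ≤ -2) : s = R.neg r := by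
  have := hl.eq_of_two_le (r := r) (s := R.neg s) (by rw [R.pair_neg_right]; omega)
  rw [← this, R.neg_neg]

theorem pair_refl (m r s : Φ) : R.pair m (R.refl r s) = R.pair m s - R.pair r s * R.pair m r := by
  rw [R.pair_of_root_comb (k := R.refl r s) (r := s) (s := r) (a := 1) (b := -R.pair r s)
    (by rw [R.root_refl, one_smul, neg_smul, sub_eq_add_neg])]
  ring

theorem comb {k r s : Φ} (h : R.Comb k r s) (hne : s ≠ R.neg r) : R.pair r s = -1 ∧ k = R.refl r s := by
  have h1 : R.pair r s = -1 := by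
    have h2 := mt (fun h' => R.not_comb_of_pair_nonneg hl h' k) (not_not.2 h)
    have h3 := mt hl.eq_neg_of_le hne
    omega
  exact ⟨h1, R.eq_refl_of_comb' hl h1 h⟩

theorem comb_root {k r s : Φ} (h : R.Comb k r s) (hne : s ≠ R.neg r) : R.root k = R.root r + R.root s := by
  obtain ⟨h1, rfl⟩ := hl.comb h hne
  rw [R.root_refl, h1]; simp [add_comm]

theorem comb_pair {k r s : Φ} (h : R.Comb k r s) (hne : s ≠ R.neg r) (m : Φ) : R.pair m k = R.pair m r + R.pair m s := by
  obtain ⟨h1, rfl⟩ := hl.comb h hne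
  rw [hl.pair_refl, h1]; ring

variable {α γ : Φ} (h : R.pair α γ = 1)
include h

theorem root_op : R.root (op R α γ) = R.root α - R.root γ := by
  rw [op, R.root_refl, hl.symm, h, one_smul]

theorem pair_op (m : Φ) : R.pair m (op R α γ) = R.pair m α - R.pair m γ := by
  rw [op, hl.pair_refl, hl.symm γ, h, one_mul]

theorem pair_op_self : R.pair α (op R α γ) = 1 := by rw [hl.pair_op h, h, R.pair_self]; norm_num

theorem pair_op_neg : R.pair γ (op R α γ) = -1 := by rw [hl.pair_op h, hl.symm, h, R.pair_self]; norm_num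

theorem op_op : op R α (op R α γ) = γ := R.root_inj (by rw [hl.root_op (hl.pair_op_self h), hl.root_op h]; abel)

theorem refl_op : R.refl γ (op R α γ) = α := R.refl_refl γ α

theorem eq_op {δ : Φ} (h' : R.pair α δ = 1) (h'' : R.pair γ δ = -1) : δ = op R α γ := by
  have := hl.eq_of_two_le (r := α) (s := R.refl γ δ) (by rw [hl.pair_refl, h, h', h'']; norm_num)
  rw [op, ← this, R.refl_refl]

theorem pos_op_iff : R.Pos (op R α γ) ↔ R.root γ ≤ R.root α := by
  rw [RS.Pos, hl.root_op h, sub_nonneg]

end SL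

variable {F : Type*} [Field F] {G : Type*} [Group G] {S : StSys R F G}

theorem SL.commute (hl : SL R) (S : StSys R F G) {r s : Φ} (h : 0 ≤ R.pair r s) (t u : F) : Commute (S.x r t) (S.x s u) :=
  S.commute_x (fun e => by rw [e, R.pair_neg_right, R.pair_self] at h; omega) (R.not_comb_of_pair_nonneg hl h) t u

theorem SL.commute_XS (hl : SL R) (S : StSys R F G) {A B : Set Φ} (h : ∀ r ∈ A, ∀ s ∈ B, 0 ≤ R.pair r s) {g g' : G}
    (hg : g ∈ S.XS A) (hg' : g' ∈ S.XS B) : Commute g g' := by
  have := S.commutator_XS_le (A := A) (A' := B) (I := ∅) (S.XS_le_normalizer (R.ideal_empty A) (by simp))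
    (S.XS_le_normalizer (R.ideal_empty B) (by simp))
    (fun r hr hs => by have := h r hr _ hs; rw [R.pair_neg_right, R.pair_self] at this; omega)
    fun r hr s hs k hk => R.not_comb_of_pair_nonneg hl (h r hr s hs) k hk
  rw [S.XS_empty] at this
  exact commutatorElement_eq_one_iff_commute.1 (Subgroup.mem_bot.1 (this (Subgroup.commutator_mem_commutator hg hg')))

variable [Finite Φ]

theorem SL.comm_mem (hl : SL R) (S : StSys R F G) {r s : Φ} (h : R.pair r s = -1) (t u : F) :
    ∃ v, ⁅S.x r t, S.x s u⁆ = S.x (R.refl r s) v := by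
  have hne : s ≠ R.neg r := fun e => by rw [e, R.pair_neg_right, R.pair_self] at h; omega
  exact S.mem_X.1 (S.comm_mem_XS (I := {R.refl r s}) hne (fun k hk => (hl.comb hk hne).2) t u)

/-- Chevalley's commutator formula. -/
theorem SL.comm (hl : SL R) (hS : S.Faithful) {r s : Φ} (h : R.pair r s = -1) (t u : F) :
    ⁅S.x r t, S.x s u⁆ = S.x (R.refl r s) (S.η r s * t * u) := by
  rcases eq_or_ne t 0 with rfl | ht
  · simp
  obtain ⟨v, hv⟩ := hl.comm_mem S h t u
  have h1 : R.pair r (R.refl r s) = 1 := by rw [R.pair_refl_right, h]; norm_num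
  have h2 : R.pair s (R.refl r s) = 1 := by rw [hl.pair_refl, h, hl.symm s r, h, R.pair_self]; norm_num
  obtain ⟨w, hw⟩ := hl.comm_mem S (r := R.neg r) (s := R.refl r s) (by rw [R.pair_neg_left, h1]) (-t⁻¹) v
  rw [R.refl_neg, R.refl_refl] at hw
  have h3 := S.conj_n r s ht u
  rw [h, neg_neg, zpow_one, StSys.n] at h3
  have c1 := hl.commute S (r := r) (s := R.refl r s) (by omega) t (S.η r s * t * u)
  have c2 := hl.commute S (r := R.neg r) (s := s) (by rw [R.pair_neg_left, h]; norm_num) (-t⁻¹) u
  have c3 := hl.commute S (r := s) (s := R.refl r s) (by omega)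
  have e : S.x s w * S.x (R.refl r s) v * S.x s u = S.x (R.refl r s) (S.η r s * t * u) := by
    rw [← hw, ← mul_right_inj (S.x r t), c1.eq, ← h3, commutatorElement_def, inv_mul_cancel_right, mul_assoc _ _ (S.x s u),
      ← c2.inv_left.eq.symm, ← hv, commutatorElement_def]
    group
  rw [(c3 w v).eq, mul_assoc, ← S.x_add, ← eq_inv_mul_iff_mul_eq, ← S.x_neg, ← S.x_add] at e
  rw [hv]
  by_contra hne
  have h4 : -v + S.η r s * t * u ≠ 0 := fun e0 => hne (by rw [neg_add_eq_zero.1 e0])
  have := hS.eq_of_x_eq h4 e.symm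
  rw [this, R.pair_self] at h2
  omega

end CL.MX
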