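/-
Minimal degrees of exceptional groups, part 3: fixed points of a graph-field automorphism on a simply laced Steinberg system.
-/
import Cfsg.Agent.Known.MXRoot

set_option autoImplicit false
set_option linter.unusedSectionVars false

open scoped commutatorElement

namespace CL.MX

open CL.Chev

variable {ι Φ : Type} [Fintype ι] [DecidableEq ι] {R : RS ι Φ} {F : Type*} [Field F] {G : Type*} [Group G]

/-- An automorphism of order dividing `m ∈ {2, 3}` permuting the root subgroups. -/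
structure Tw (S : StSys R F G) where
  σ : G ≃* G
  ρ : Equiv.Perm Φ
  π : Equiv.Perm ι
  θ : F ≃+* F
  ε : Φ → F
  m : ℕ
  faithful : S.Faithful
  sl : SL R
  root_ρ : ∀ r i, R.root (ρ r) (π i) = R.root r i
  pair_ρ : ∀ r s, R.pair (ρ r) (ρ s) = R.pair r s
  map : ∀ r t, σ (S.x r t) = S.x (ρ r) (ε r * θ t)
  ε_neg : ∀ r, ε r * ε (R.neg r) = 1
  ε_fix : ∀ r, ρ r = r → ε r = 1
  hm : m = 2 ∨ m = 3
  ord : ∀ r t, σ^[m] (S.x r t) = S.x r t
  orth : ∀ r, ρ r ≠ r → R.pair r (ρ r) = 0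
  tr : (∃ r, ρ r ≠ r) → ∀ s, θ s = s → ∃ t, (if m = 2 then t + θ t else t + θ t + θ (θ t)) = s

theorem SL.closed (hl : SL R) {A : Set Φ} (h : ∀ r ∈ A, ∀ s ∈ A, 0 ≤ R.pair r s) : R.Closed A :=
  fun k _ _ hr hs hk => (R.not_comb_of_pair_nonneg hl (h _ hr _ hs) k hk).elim

namespace Tw

variable {S : StSys R F G} (T : Tw S)

/-- The fixed points. -/
def K : Subgroup G := T.σ.toMonoidHom.eqLocus (MonoidHom.id G)

theorem mem_K {g : G} : g ∈ T.K ↔ T.σ g = g := Iff.rfl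

/-- The norm map. -/
def nm (g : G) : G := if T.m = 2 then g * T.σ g else g * T.σ g * T.σ (T.σ g)

/-- The orbit of a root. -/
def orb (r : Φ) : Set Φ := {r, T.ρ r, T.ρ (T.ρ r)}

/-- Stable sets of roots. -/
def Stab (A : Set Φ) : Prop := ∀ r ∈ A, T.ρ r ∈ A

theorem ext_π {r s : Φ} (h : ∀ i, R.root r (T.π i) = R.root s (T.π i)) : r = s :=
  R.root_inj (funext fun i => by obtain ⟨i, rfl⟩ := T.π.surjective i; exact h i)

theorem ρ_neg (r : Φ) : T.ρ (R.neg r) = R.neg (T.ρ r) := T.ext_π fun i => by simp [R.root_neg, T.root_ρ]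

theorem ρ_refl (r s : Φ) : T.ρ (R.refl r s) = R.refl (T.ρ r) (T.ρ s) :=
  T.ext_π fun i => by simp [R.root_refl, T.root_ρ, T.pair_ρ]

theorem ρ_le (r s : Φ) : R.root (T.ρ r) ≤ R.root (T.ρ s) ↔ R.root r ≤ R.root s := by
  rw [Pi.le_def, Pi.le_def, T.π.surjective.forall]; simp only [T.root_ρ]

theorem ρ_pos (r : Φ) : R.Pos (T.ρ r) ↔ R.Pos r := by
  rw [RS.Pos, RS.Pos, Pi.le_def, Pi.le_def, T.π.surjective.forall]; simp only [T.root_ρ, Pi.zero_apply]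

theorem ρ_ht (r : Φ) : R.ht (T.ρ r) = R.ht r := by
  rw [RS.ht, RS.ht, ← Equiv.sum_comp T.π]; simp only [T.root_ρ]

theorem pair_fix {α : Φ} (hα : T.ρ α = α) (r : Φ) : R.pair α (T.ρ r) = R.pair α r := by
  conv_lhs => rw [← hα, T.pair_ρ]

theorem ρ_op {α : Φ} (hα : T.ρ α = α) (γ : Φ) : T.ρ (op R α γ) = op R α (T.ρ γ) := by rw [op, T.ρ_refl, hα, op]

theorem neg_fix {r : Φ} : T.ρ (R.neg r) = R.neg r ↔ T.ρ r = r := by rw [T.ρ_neg, R.neg_inj.eq_iff]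

theorem map_fix {r : Φ} (hr : T.ρ r = r) (t : F) : T.σ (S.x r t) = S.x r (T.θ t) := by
  rw [T.map, hr, T.ε_fix r hr, one_mul]

theorem x_mem {r : Φ} (hr : T.ρ r = r) {t : F} (ht : T.θ t = t) : S.x r t ∈ T.K := by rw [mem_K, T.map_fix hr, ht]

theorem ε_ne_zero (r : Φ) : T.ε r ≠ 0 := left_ne_zero_of_mul_eq_one (T.ε_neg r)

theorem map_n (r : Φ) (t : F) : T.σ (S.n r t) = S.n (T.ρ r) (T.ε r * T.θ t) := by
  simp only [StSys.n, map_mul, T.map, T.ρ_neg, map_neg, map_inv₀, mul_inv, mul_neg,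
    ← eq_inv_of_mul_eq_one_right (T.ε_neg r)]

theorem n_mem {r : Φ} (hr : T.ρ r = r) {t : F} (ht : T.θ t = t) : S.n r t ∈ T.K := by
  rw [mem_K, T.map_n, hr, T.ε_fix r hr, one_mul, ht]

theorem h_mem {r : Φ} (hr : T.ρ r = r) {t : F} (ht : T.θ t = t) : S.h r t ∈ T.K :=
  mul_mem (T.n_mem hr ht) (T.n_mem hr (by simp))

theorem map_mem {A B : Set Φ} (h : ∀ r ∈ A, T.ρ r ∈ B) {g : G} (hg : g ∈ S.XS A) : T.σ g ∈ S.XS B := by
  have : S.XS A ≤ (S.XS B).comap T.σ.toMonoidHom := S.XS_le_iff.2 fun r hr t => by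
    rw [Subgroup.mem_comap, MulEquiv.coe_toMonoidHom, T.map]; exact S.x_mem_XS (h r hr) _
  exact this hg

theorem ord_XS {A : Set Φ} {g : G} (hg : g ∈ S.XS A) : T.σ^[T.m] g = g := by
  induction hg using Subgroup.closure_induction with
  | mem g hg => obtain ⟨r, -, t, rfl⟩ := hg; exact T.ord r t
  | one => exact iterate_map_one T.σ _
  | mul a b _ _ ha hb => rw [iterate_map_mul, ha, hb]
  | inv a _ ha => rw [iterate_map_inv, ha]

theorem ord2 (h : T.m = 2) {A : Set Φ} {g : G} (hg : g ∈ S.XS A) : T.σ (T.σ g) = g := by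
  simpa [h] using T.ord_XS hg

theorem ord3 (h : T.m ≠ 2) {A : Set Φ} {g : G} (hg : g ∈ S.XS A) : T.σ (T.σ (T.σ g)) = g := by
  simpa [T.hm.resolve_left h] using T.ord_XS hg

variable [Finite Φ]

theorem ρ2 (h : T.m = 2) (r : Φ) : T.ρ (T.ρ r) = r := by
  have := T.ord2 h (S.x_mem_X r 1)
  rw [T.map, T.map] at this
  exact (T.faithful.eq_of_x_eq one_ne_zero this.symm).symm

theorem ρ3 (h : T.m ≠ 2) (r : Φ) : T.ρ (T.ρ (T.ρ r)) = r := by
  have := T.ord3 h (S.x_mem_X r 1)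
  rw [T.map, T.map, T.map] at this
  exact (T.faithful.eq_of_x_eq one_ne_zero this.symm).symm

theorem fix_of_mem {r : Φ} (hr : T.ρ r = r) {t : F} (h : S.x r t ∈ T.K) : T.θ t = t :=
  T.faithful.uFaithful.x_injective r ((T.map_fix hr t).symm.trans h)

theorem self_mem_orb (r : Φ) : r ∈ T.orb r := .inl rfl

theorem stab_orb (r : Φ) : T.Stab (T.orb r) := by
  rintro _ (rfl | rfl | rfl)
  · exact .inr (.inl rfl)
  · exact .inr (.inr rfl)
  · by_cases h : T.m = 2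
    · rw [T.ρ2 h]; exact .inr (.inl rfl)
    · rw [T.ρ3 h]; exact .inl rfl

theorem orb_subset {A : Set Φ} (hA : T.Stab A) {r : Φ} (hr : r ∈ A) : T.orb r ⊆ A := by
  rintro _ (rfl | rfl | rfl)
  exacts [hr, hA _ hr, hA _ (hA _ hr)]

theorem mem_orb_ρ (r : Φ) : r ∈ T.orb (T.ρ r) := by
  by_cases h : T.m = 2
  · exact .inr (.inl (T.ρ2 h r).symm)
  · exact .inr (.inr (T.ρ3 h r).symm)

theorem orb_ρ (r : Φ) : T.orb (T.ρ r) = T.orb r :=
  (T.orb_subset (T.stab_orb r) (.inr (.inl rfl))).antisymm (T.orb_subset (T.stab_orb _) (T.mem_orb_ρ r))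

theorem orb_eq {r s : Φ} (h : s ∈ T.orb r) : T.orb s = T.orb r := by
  rcases h with rfl | rfl | rfl <;> simp only [T.orb_ρ]

theorem Stab.inv {T : Tw S} {A : Set Φ} (hA : T.Stab A) {r : Φ} (hr : T.ρ r ∈ A) : r ∈ A :=
  T.orb_subset hA hr (T.mem_orb_ρ r)

theorem orb_fix {r : Φ} (h : T.ρ r = r) : T.orb r = {r} := by simp [orb, h]

theorem of_orb {β : Sort*} (f : Φ → β) (hf : ∀ r, f (T.ρ r) = f r) {r s : Φ} (h : s ∈ T.orb r) : f s = f r := by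
  rcases h with rfl | rfl | rfl <;> simp only [hf]

theorem pair_orb {α : Φ} (hα : T.ρ α = α) {r s : Φ} (h : s ∈ T.orb r) : R.pair α s = R.pair α r :=
  T.of_orb _ (T.pair_fix hα) h

theorem pos_orb {r s : Φ} (h : s ∈ T.orb r) : R.Pos s ↔ R.Pos r := (T.of_orb _ (fun r => propext (T.ρ_pos r)) h).to_iff

theorem fix_orb {r s : Φ} (h : s ∈ T.orb r) : T.ρ s = s ↔ T.ρ r = r :=
  (T.of_orb (fun r => T.ρ r = r) (fun r => propext T.ρ.injective.eq_iff) h).to_iff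

theorem orth2 (h : T.m ≠ 2) {r : Φ} (hr : T.ρ r ≠ r) : R.pair r (T.ρ (T.ρ r)) = 0 := by
  rw [← T.pair_ρ, T.ρ3 h, T.sl.symm, T.orth r hr]

theorem pair_orb_nonneg {r s s' : Φ} (h : s ∈ T.orb r) (h' : s' ∈ T.orb r) : 0 ≤ R.pair s s' := by
  rw [← T.orb_eq h] at h'
  by_cases hs : T.ρ s = s
  · rw [T.orb_fix hs] at h'; rw [h', R.pair_self]; norm_num
  rcases h' with rfl | rfl | rfl
  · simp
  · exact (T.orth s hs).ge
  · by_cases hm : T.m = 2
    · simp [T.ρ2 hm]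
    · exact (T.orth2 hm hs).ge

theorem closed_of_subset {r : Φ} {A : Set Φ} (h : A ⊆ T.orb r) : R.Closed A :=
  T.sl.closed fun _ h1 _ h2 => T.pair_orb_nonneg (h h1) (h h2)

theorem ncard_orb {r : Φ} (hr : T.ρ r ≠ r) : (T.orb r).ncard = T.m := by
  by_cases h : T.m = 2
  · rw [orb, T.ρ2 h, Set.insert_eq_of_mem (by simp), Set.ncard_pair hr, h]
  · have h1 : T.ρ (T.ρ r) ≠ r := fun e => hr (by simpa [e] using T.ρ3 h r)
    rw [orb, T.hm.resolve_left h]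
    exact Set.ncard_eq_three.2 ⟨_, _, _, hr.symm, h1.symm, T.ρ.injective.ne hr.symm, rfl⟩

/-! ### The norm map on the rank one subgroups -/

theorem nm_mem_XS {A B : Set Φ} (hB : T.Stab B) (h : A ⊆ B) {g : G} (hg : g ∈ S.XS A) : T.nm g ∈ S.XS B := by
  have h1 := S.XS_mono h hg
  unfold nm; split_ifs
  · exact mul_mem h1 (T.map_mem hB h1)
  · exact mul_mem (mul_mem h1 (T.map_mem hB h1)) (T.map_mem hB (T.map_mem hB h1))

theorem map_L {r : Φ} {g : G} (hg : g ∈ S.XS {r, R.neg r}) : T.σ g ∈ S.XS {T.ρ r, R.neg (T.ρ r)} :=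
  T.map_mem (by simp [T.ρ_neg]) hg

include T in
theorem commute_L {r s : Φ} (h : R.pair r s = 0) {g g' : G} (hg : g ∈ S.XS {r, R.neg r}) (hg' : g' ∈ S.XS {s, R.neg s}) :
    Commute g g' := T.sl.commute_XS S (by simp [h]) hg hg'

section

variable {r : Φ} (hr : T.ρ r ≠ r) {g g' : G} (hg : g ∈ S.XS {r, R.neg r}) (hg' : g' ∈ S.XS {r, R.neg r})
include hr hg

theorem nm_mem : T.nm g ∈ T.K := by
  rw [mem_K]; unfold nm; split_ifs with h
  · rw [map_mul, T.ord2 h hg, (T.commute_L (T.orth r hr) hg (T.map_L hg)).eq]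
  · rw [map_mul, map_mul, T.ord3 h hg, ← ((T.commute_L (T.orth r hr) hg (T.map_L hg)).mul_right
      (T.commute_L (T.orth2 h hr) hg (T.map_L (T.map_L hg)))).eq, mul_assoc]

include hg'

theorem nm_mul : T.nm (g * g') = T.nm g * T.nm g' := by
  have c1 := T.commute_L (T.orth r hr) hg' (T.map_L hg)
  unfold nm; split_ifs with h
  · rw [map_mul, mul_assoc, mul_assoc, ← mul_assoc g', c1.eq, mul_assoc]
  · have c2 := T.commute_L (T.orth2 h hr) hg' (T.map_L (T.map_L hg))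
    have c3 := c1.map T.σ
    simp only [map_mul, mul_assoc]
    rw [← mul_assoc g', c1.eq, mul_assoc, ← mul_assoc (T.σ g'), c3.eq, mul_assoc, ← mul_assoc g', c2.eq, mul_assoc]

end

theorem nm_one : T.nm 1 = 1 := by simp [nm]

theorem nm_inv {r : Φ} (hr : T.ρ r ≠ r) {g : G} (hg : g ∈ S.XS {r, R.neg r}) : T.nm g⁻¹ = (T.nm g)⁻¹ :=
  eq_inv_of_mul_eq_one_left (by rw [← T.nm_mul hr (inv_mem hg) hg, inv_mul_cancel, nm_one])

theorem x_mem_L (r : Φ) (t : F) : S.x r t ∈ S.XS {r, R.neg r} := S.x_mem_XS (by simp) t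

theorem nm_x_mem (r : Φ) (t : F) : T.nm (S.x r t) ∈ S.XS (T.orb r) :=
  T.nm_mem_XS (T.stab_orb r) (A := {r}) (by simpa using T.self_mem_orb r) (S.x_mem_X r t)

theorem exists_nm_x {r : Φ} (hr : T.ρ r ≠ r) (t : F) : ∃ b ∈ S.XS (T.orb r \ {r}), T.nm (S.x r t) = S.x r t * b := by
  have h1 : T.ρ r ∈ T.orb r \ {r} := ⟨.inr (.inl rfl), hr⟩
  unfold nm; split_ifs with h
  · exact ⟨_, T.map_mem (A := {r}) (by simpa using h1) (S.x_mem_X r t), rfl⟩
  · have h2 : T.ρ (T.ρ r) ∈ T.orb r \ {r} := ⟨.inr (.inr rfl), fun e => hr (by simpa [show _ = r from e] using T.ρ3 h r)⟩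
    refine ⟨_, mul_mem ?_ ?_, mul_assoc _ _ _⟩ <;> simp only [T.map]
    exacts [S.x_mem_XS h1 _, S.x_mem_XS h2 _]

theorem nm_x_injective {r : Φ} (hr : T.ρ r ≠ r) (hp : R.Pos r) : Function.Injective fun t => T.nm (S.x r t) := by
  intro t u e
  obtain ⟨b, hb, e1⟩ := T.exists_nm_x hr (t - u)
  rw [sub_eq_add_neg, S.x_add, T.nm_mul hr (x_mem_L r t) (x_mem_L r _), S.x_neg, T.nm_inv hr (x_mem_L r u),
    show T.nm (S.x r t) = _ from e, mul_inv_cancel, ← S.x_neg, ← S.x_add, eq_comm, mul_eq_one_iff_eq_inv] at e1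
  exact sub_eq_zero.1 (T.faithful.uFaithful.eq_zero_of_x_mem (A := T.orb r \ {r}) (fun s hs => (T.pos_orb hs.1).2 hp)
    (T.closed_of_subset Set.sdiff_subset) hp (by simp) (by rw [sub_eq_add_neg, e1]; exact inv_mem hb))

theorem exists_eq_nm {r : Φ} (hr : T.ρ r ≠ r) (hp : R.Pos r) {g : G} (hg : g ∈ S.XS (T.orb r)) (hK : g ∈ T.K) :
    ∃ t, g = T.nm (S.x r t) := by
  have hpos : ∀ {A : Set Φ}, A ⊆ T.orb r → ∀ s ∈ A, R.Pos s := fun h s hs => (T.pos_orb (h hs)).2 hp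
  obtain ⟨a, ha, b, hb, rfl⟩ := S.exists_mul_of_mem_XS (A₁ := {r}) (A₂ := {r}ᶜ) (hpos le_rfl) (T.closed_of_subset le_rfl)
    (by simp) hg
  obtain ⟨t, rfl⟩ := S.mem_X.1 (S.XS_mono Set.inter_subset_right ha)
  obtain ⟨b', hb', e⟩ := T.exists_nm_x hr t
  have hz : b'⁻¹ * b ∈ T.K := by
    have := mul_mem (inv_mem (T.nm_mem hr (x_mem_L r t))) hK
    rwa [e, mul_inv_rev, mul_assoc, inv_mul_cancel_left] at this
  have h0 : b'⁻¹ * b ∈ S.XS (T.orb r \ {r}) := mul_mem (inv_mem hb') hb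
  have key : ∀ s, b'⁻¹ * b ∈ S.XS (T.orb r \ {s}) → b'⁻¹ * b ∈ S.XS (T.orb r \ {T.ρ s}) := fun s hs => by
    rw [← T.mem_K.1 hz]
    exact T.map_mem (fun k hk => show _ ∧ _ from ⟨T.stab_orb r k hk.1, T.ρ.injective.ne hk.2⟩) hs
  have h1 : b'⁻¹ * b ∈ S.XS ∅ := by
    have e1 := T.faithful.uFaithful.XS_inf (A := T.orb r \ {r}) (A' := T.orb r \ {T.ρ r}) (hpos Set.sdiff_subset)
      (T.closed_of_subset Set.sdiff_subset) (hpos Set.sdiff_subset) (T.closed_of_subset Set.sdiff_subset)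
    have e2 := T.faithful.uFaithful.XS_inf (A := (T.orb r \ {r}) ∩ (T.orb r \ {T.ρ r})) (A' := T.orb r \ {T.ρ (T.ρ r)})
      (hpos fun _ h => h.1.1) (T.closed_of_subset fun _ h => h.1.1) (hpos Set.sdiff_subset) (T.closed_of_subset Set.sdiff_subset)
    refine S.XS_mono ?_ (e2.le ⟨e1.le ⟨h0, key _ h0⟩, key _ (key _ h0)⟩)
    rintro k ⟨⟨⟨h | h | h, h1⟩, -, h2⟩, -, h3⟩
    exacts [h1 h, h2 h, h3 h]
  rw [S.XS_empty, Subgroup.mem_bot, inv_mul_eq_one] at h1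
  exact ⟨t, by rw [e, h1]⟩

/-! ### Stable closed sets of positive roots -/

/-- Stable closed sets of positive roots. -/
structure Good (A : Set Φ) : Prop where
  pos : ∀ r ∈ A, R.Pos r
  closed : R.Closed A
  stab : T.Stab A

theorem good_orb {r : Φ} (hr : R.Pos r) : T.Good (T.orb r) :=
  ⟨fun _ h => (T.pos_orb h).2 hr, T.closed_of_subset le_rfl, T.stab_orb r⟩

variable {T}

theorem Good.split {A B C : Set Φ} (hA : T.Good A) (hB : T.Good B) (hC : T.Good C) (h : A ⊆ B ∪ C) (h' : B ∩ C = ∅) {g : G}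
    (hg : g ∈ S.XS A) (hK : g ∈ T.K) : ∃ b ∈ S.XS B, ∃ c ∈ S.XS C, b ∈ T.K ∧ c ∈ T.K ∧ g = b * c := by
  obtain ⟨b, hb, c, hc, rfl⟩ := S.exists_mul_of_mem_XS hA.pos hA.closed h hg
  replace hb := S.XS_mono Set.inter_subset_right hb
  replace hc := S.XS_mono Set.inter_subset_right hc
  have e := T.faithful.uFaithful.XS_inf hB.pos hB.closed hC.pos hC.closed
  rw [mem_K, map_mul] at hK
  have e1 : b⁻¹ * T.σ b = c * (T.σ c)⁻¹ := by rw [inv_mul_eq_iff_eq_mul, ← mul_assoc, ← hK, mul_inv_cancel_right]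
  have h1 : b⁻¹ * T.σ b ∈ S.XS B ⊓ S.XS C := Subgroup.mem_inf.2 ⟨mul_mem (inv_mem hb) (T.map_mem hB.stab hb),
    e1 ▸ mul_mem hc (inv_mem (T.map_mem hC.stab hc))⟩
  rw [e, h', S.XS_empty, Subgroup.mem_bot] at h1
  exact ⟨b, hb, c, hc, (inv_mul_eq_one.1 h1).symm, (mul_inv_eq_one.1 (e1 ▸ h1)).symm, rfl⟩

theorem Good.induction {p : Set Φ → Prop} (h0 : p ∅)
    (h1 : ∀ A, ∀ r ∈ A, T.Good A → T.Good (A \ T.orb r) → p (A \ T.orb r) → p A) {A : Set Φ} (hA : T.Good A) : p A := by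
  induction hn : A.ncard using Nat.strong_induction_on generalizing A with
  | _ n ih =>
  rcases A.eq_empty_or_nonempty with rfl | hne
  · exact h0
  obtain ⟨r, hr, hmin⟩ := Set.exists_min_image A R.ht A.toFinite hne
  have hg : T.Good (A \ T.orb r) := ⟨fun s hs => hA.pos s hs.1, fun k s s' hs hs' hk => ⟨hA.closed hs.1 hs'.1 hk, fun hk' => by
    have := hk.ht_lt_left (hA.pos s hs.1) (hA.pos s' hs'.1)
    have := T.of_orb _ T.ρ_ht hk'
    have := hmin s hs.1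
    omega⟩, fun s hs => ⟨hA.stab s hs.1, fun h => hs.2 ((T.stab_orb r).inv h)⟩⟩
  exact h1 A r hr hA hg (ih _ (hn ▸ Set.ncard_lt_ncard ⟨Set.sdiff_subset, fun h => (h hr).2 (T.self_mem_orb r)⟩) hg rfl)

theorem Good.le {A : Set Φ} (hA : T.Good A) {L : Subgroup G} (h : ∀ r ∈ A, ∀ g ∈ S.XS (T.orb r), g ∈ T.K → g ∈ L) :
    ∀ g ∈ S.XS A, g ∈ T.K → g ∈ L := by
  revert h
  refine hA.induction (p := fun A => (∀ r ∈ A, ∀ g ∈ S.XS (T.orb r), g ∈ T.K → g ∈ L) → ∀ g ∈ S.XS A, g ∈ T.K → g ∈ L)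
    ?_ fun A r hr hA hA' ih h => ?_
  · intro _ g hg _; rw [S.XS_empty, Subgroup.mem_bot] at hg; exact hg ▸ one_mem L
  · intro g hg hK
    obtain ⟨b, hb, c, hc, k1, k2, rfl⟩ := hA.split (T.good_orb (hA.pos r hr)) hA' (by simp) (by simp) hg hK
    exact mul_mem (h r hr b hb k1) (ih (fun s hs => h s hs.1) c hc k2)

theorem Good.card_split {A B C : Set Φ} (hA : T.Good A) (hB : T.Good B) (hC : T.Good C) (h : A = B ∪ C) (h' : B ∩ C = ∅) :
    Nat.card (S.XS A ⊓ T.K : Subgroup G) = Nat.card (S.XS B ⊓ T.K : Subgroup G) * Nat.card (S.XS C ⊓ T.K : Subgroup G) := by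
  rw [← Nat.card_prod]
  refine (Nat.card_congr (Equiv.ofBijective (fun p : (S.XS B ⊓ T.K : Subgroup G) × (S.XS C ⊓ T.K : Subgroup G) =>
    (⟨p.1 * p.2, mul_mem (S.XS_mono (by simp [h]) p.1.2.1) (S.XS_mono (by simp [h]) p.2.2.1), mul_mem p.1.2.2 p.2.2.2⟩ :
      (S.XS A ⊓ T.K : Subgroup G))) ⟨fun p p' e => ?_, fun g => ?_⟩)).symm
  · have e0 : (p.1 : G) * p.2 = p'.1 * p'.2 := congrArg Subtype.val e
    have e1 : (p'.1 : G)⁻¹ * p.1 = p'.2 * (p.2 : G)⁻¹ := by rw [inv_mul_eq_iff_eq_mul, ← mul_assoc, ← e0, mul_inv_cancel_right]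
    have h1 : (p'.1 : G)⁻¹ * p.1 ∈ S.XS B ⊓ S.XS C := Subgroup.mem_inf.2 ⟨mul_mem (inv_mem (Subgroup.mem_inf.1 p'.1.2).1) p.1.2.1,
      e1 ▸ mul_mem p'.2.2.1 (inv_mem (Subgroup.mem_inf.1 p.2.2).1)⟩
    rw [T.faithful.uFaithful.XS_inf hB.pos hB.closed hC.pos hC.closed, h', S.XS_empty, Subgroup.mem_bot] at h1
    exact Prod.ext (Subtype.ext (inv_mul_eq_one.1 h1).symm) (Subtype.ext (mul_inv_eq_one.1 (e1 ▸ h1)).symm)
  · obtain ⟨b, hb, c, hc, k1, k2, e⟩ := hA.split hB hC h.le h' g.2.1 g.2.2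
    exact ⟨(⟨b, hb, k1⟩, ⟨c, hc, k2⟩), Subtype.ext e.symm⟩

variable (T)

/-- The order of the fixed field. -/
noncomputable def q : ℕ := Nat.card {t : F // T.θ t = t}

theorem card_orb_fix {r : Φ} (hr : T.ρ r = r) : Nat.card (S.XS (T.orb r) ⊓ T.K : Subgroup G) = T.q := by
  rw [T.orb_fix hr]
  refine (Nat.card_congr (Equiv.ofBijective (fun t : {t : F // T.θ t = t} =>
    (⟨S.x r t, S.x_mem_X r t, T.x_mem hr t.2⟩ : (S.XS {r} ⊓ T.K : Subgroup G))) ⟨fun t u e => ?_, fun g => ?_⟩)).symm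
  · exact Subtype.ext (T.faithful.uFaithful.x_injective r (congrArg Subtype.val e))
  · obtain ⟨t, ht⟩ := S.mem_X.1 g.2.1
    exact ⟨⟨t, T.fix_of_mem hr (ht ▸ g.2.2)⟩, Subtype.ext ht.symm⟩

theorem card_orb {r : Φ} (hr : T.ρ r ≠ r) (hp : R.Pos r) : Nat.card (S.XS (T.orb r) ⊓ T.K : Subgroup G) = Nat.card F := by
  refine (Nat.card_congr (Equiv.ofBijective (fun t : F => (⟨T.nm (S.x r t), T.nm_x_mem r t, T.nm_mem hr (x_mem_L r t)⟩ :
    (S.XS (T.orb r) ⊓ T.K : Subgroup G))) ⟨fun t u e => ?_, fun g => ?_⟩)).symm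
  · exact T.nm_x_injective hr hp (congrArg Subtype.val e)
  · obtain ⟨t, ht⟩ := T.exists_eq_nm hr hp g.2.1 g.2.2
    exact ⟨t, Subtype.ext ht.symm⟩

variable {T}

theorem Good.card {A : Set Φ} (hA : T.Good A) : Nat.card (S.XS A ⊓ T.K : Subgroup G) ^ T.m =
    T.q ^ (T.m * (A ∩ {r | T.ρ r = r}).ncard) * Nat.card F ^ (A ∩ {r | T.ρ r ≠ r}).ncard := by
  refine hA.induction (p := fun A => Nat.card (S.XS A ⊓ T.K : Subgroup G) ^ T.m =
    T.q ^ (T.m * (A ∩ {r | T.ρ r = r}).ncard) * Nat.card F ^ (A ∩ {r | T.ρ r ≠ r}).ncard) (by simp) fun A r hr hA hA' ih => ?_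
  · have hs := T.orb_subset hA.stab hr
    have key : ∀ P : Set Φ, (A ∩ P).ncard = (T.orb r ∩ P).ncard + ((A \ T.orb r) ∩ P).ncard := fun P => by
      rw [← Set.ncard_union_eq (Set.disjoint_left.2 fun k h h' => h'.1.2 h.1), ← Set.union_inter_distrib_right,
        Set.union_sdiff_cancel hs]
    rw [hA.card_split (T.good_orb (hA.pos r hr)) hA' (Set.union_sdiff_cancel hs).symm (by simp), mul_pow, ih, key, key]
    by_cases h : T.ρ r = r
    · have e1 : T.orb r ∩ {r | T.ρ r = r} = {r} := by rw [T.orb_fix h]; exact Set.inter_eq_left.2 (by simpa using h)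
      have e2 : T.orb r ∩ {r | T.ρ r ≠ r} = ∅ := Set.eq_empty_of_forall_notMem fun s hs => hs.2 ((T.fix_orb hs.1).2 h)
      rw [T.card_orb_fix h, e1, e2, Set.ncard_singleton, Set.ncard_empty]; ring
    · have e1 : T.orb r ∩ {r | T.ρ r = r} = ∅ := Set.eq_empty_of_forall_notMem fun s hs => h ((T.fix_orb hs.1).1 hs.2)
      have e2 : T.orb r ∩ {r | T.ρ r ≠ r} = T.orb r := Set.inter_eq_left.2 fun s hs => mt (T.fix_orb hs).1 h
      rw [T.card_orb h (hA.pos r hr), e1, e2, T.ncard_orb h, Set.ncard_empty]; ring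

end Tw

end CL.MX
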