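/-
Minimal degrees of exceptional groups, part 4: weight spaces of long root subgroups.
-/
import Cfsg.Agent.Known.MXTw
import Cfsg.Agent.Known.MXBase

set_option autoImplicit false
set_option linter.unusedSectionVars false

open Module
open scoped commutatorElement

namespace CL.MX

open CL.Chev

variable {ι Φ : Type} [Fintype ι] [DecidableEq ι] {R : RS ι Φ} {F : Type*} [Field F] {G : Type*} [Group G]
  {S : StSys R F G} [Finite Φ]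

namespace Tw

variable (T : Tw S)

/-- Isotropic sets of roots in the radical belonging to `α`. -/
structure Iso (α : Φ) (Γ : Set Φ) : Prop where
  pos : ∀ γ ∈ Γ, R.Pos γ
  stab : T.Stab Γ
  lev : ∀ γ ∈ Γ, R.pair α γ = 1
  iso : ∀ γ ∈ Γ, op R α γ ∉ Γ

include T in
theorem nonneg_of_ne {α γ δ : Φ} (h1 : R.pair α γ = 1) (h2 : R.pair α δ = 1) (h : δ ≠ op R α γ) : 0 ≤ R.pair γ δ := by
  have h3 := mt (T.sl.eq_op h1 h2) h
  have h4 : ¬ R.pair γ δ ≤ -2 := fun h => by rw [T.sl.eq_neg_of_le h, R.pair_neg_right] at h2; omega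
  omega

theorem comm_mul {α : Φ} {y y' g : G} {s s' : F} (h : ⁅y, g⁆ = S.x α s) (h' : ⁅y', g⁆ = S.x α s') (hc : Commute y (S.x α s')) :
    ⁅y * y', g⁆ = S.x α (s + s') := by
  rw [add_comm, S.x_add, ← h, ← mul_inv_cancel_right (S.x α s') y, ← hc.eq, ← h']
  simp only [commutatorElement_def]; group

theorem comm_mem_K {g g' : G} (h : g ∈ T.K) (h' : g' ∈ T.K) : ⁅g, g'⁆ ∈ T.K := by
  rw [commutatorElement_def]; exact mul_mem (mul_mem (mul_mem h h') (inv_mem h)) (inv_mem h')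

variable {T}

theorem Iso.nonneg {α : Φ} {Γ : Set Φ} (h : T.Iso α Γ) : ∀ γ ∈ Γ, ∀ δ ∈ Γ, 0 ≤ R.pair γ δ := fun γ h1 δ h2 =>
  T.nonneg_of_ne (h.lev γ h1) (h.lev δ h2) fun e => h.iso γ h1 (e ▸ h2)

theorem Iso.good {α : Φ} {Γ : Set Φ} (h : T.Iso α Γ) : T.Good Γ := ⟨h.pos, T.sl.closed h.nonneg, h.stab⟩

theorem Iso.mono {α : Φ} {Γ Γ' : Set Φ} (h : T.Iso α Γ) (hs : Γ' ⊆ Γ) (h' : T.Stab Γ') : T.Iso α Γ' :=
  ⟨fun γ hγ => h.pos γ (hs hγ), h', fun γ hγ => h.lev γ (hs hγ), fun γ hγ e => h.iso γ (hs hγ) (hs e)⟩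

theorem iso_orb {α γ : Φ} (hα : T.ρ α = α) (h : R.pair α γ = 1) (hp : R.Pos γ) : T.Iso α (T.orb γ) :=
  ⟨fun _ h => (T.pos_orb h).2 hp, T.stab_orb γ, fun _ h' => (T.pair_orb hα h').trans h, fun δ h1 h2 => by
    have := T.pair_orb_nonneg h1 h2
    rw [T.sl.pair_op_neg ((T.pair_orb hα h1).trans h)] at this; omega⟩

/-- The commutator pairing is non-degenerate. -/
theorem Iso.exists_comm {α : Φ} {Γ : Set Φ} (h : T.Iso α Γ) (hα : T.ρ α = α) {g : G} (hg : g ∈ S.XS Γ) (hK : g ∈ T.K)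
    (h1 : g ≠ 1) : ∃ γ ∈ Γ, ∀ s, T.θ s = s → ∃ b ∈ S.XS (T.orb (op R α γ)), b ∈ T.K ∧ ⁅b, g⁆ = S.x α s := by
  obtain ⟨l, hl, hl'⟩ := exists_list_of_finite Γ.toFinite
  obtain ⟨t₀, ht₀⟩ := S.exists_prodL h.pos h.good.closed hl hl' hg
  obtain ⟨γ, hγl, hγ0⟩ : ∃ γ ∈ l, t₀ γ ≠ 0 := by
    by_contra! h0
    exact h1 (ht₀.trans (S.prodL_eq_one h0))
  have hγ := (hl' γ).1 hγl
  obtain ⟨x, hx, b, hb, e⟩ := S.exists_mul_of_mem_XS (A₁ := {γ}) (A₂ := {γ}ᶜ) h.pos h.good.closed (by simp) hg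
  obtain ⟨t, rfl⟩ := S.mem_X.1 (S.XS_mono Set.inter_subset_right hx)
  have ht : t ≠ 0 := by
    rintro rfl
    rw [S.x_zero, one_mul] at e
    rw [← e, ht₀, T.faithful.uFaithful.prodL_mem_XS_iff (fun r hr => h.pos r hr.1)
      (T.sl.closed fun r hr s hs => h.nonneg r hr.1 s hs.1) hl fun r hr => h.pos r ((hl' r).1 hr)] at hb
    exact hγ0 (hb γ hγl (by simp))
  have hγ1 := h.lev γ hγ
  have hδ := T.sl.pair_op_self hγ1
  set δ := op R α γ with hδe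
  have key : ∀ u, ⁅S.x δ u, g⁆ = S.x α (S.η δ γ * u * t) := fun u => by
    have c := T.sl.commute_XS S (A := {δ}) (B := Γ ∩ {γ}ᶜ) (fun r hr s hs => hr ▸ T.nonneg_of_ne hδ (h.lev s hs.1)
      (by rw [hδe, T.sl.op_op hγ1]; exact hs.2)) (S.x_mem_X δ u) hb
    have e1 := T.sl.comm T.faithful (r := δ) (s := γ) (by rw [T.sl.symm, T.sl.pair_op_neg hγ1]) u t
    rw [show R.refl δ γ = α by rw [← T.sl.op_op hγ1]; exact R.refl_refl _ _] at e1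
    rw [← e1, e, commutatorElement_def, commutatorElement_def, mul_inv_rev, ← mul_assoc (S.x δ u), mul_assoc _ b,
      c.inv_left.symm.eq]
    group
  have h0 := S.η_cast_ne_zero δ γ
  refine ⟨γ, hγ, fun s hs => ?_⟩
  by_cases hf : T.ρ δ = δ
  · have h2 := T.fix_of_mem hα (key 1 ▸ T.comm_mem_K (T.x_mem hf (map_one _)) hK)
    rw [mul_one] at h2
    refine ⟨S.x δ (s / (S.η δ γ * t)), S.x_mem_XS (T.self_mem_orb δ) _, T.x_mem hf (by rw [map_div₀, hs, h2]), ?_⟩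
    rw [key]; congr 1; field_simp
  obtain ⟨t₁, ht₁⟩ := T.tr ⟨δ, hf⟩ s hs
  refine ⟨_, T.nm_x_mem δ (t₁ / (S.η δ γ * t)), T.nm_mem hf (x_mem_L δ _), ?_⟩
  have k1 : ⁅S.x δ (t₁ / (S.η δ γ * t)), g⁆ = S.x α t₁ := by rw [key]; congr 1; field_simp
  have k2 : ∀ y s, ⁅y, g⁆ = S.x α s → ⁅T.σ y, g⁆ = S.x α (T.θ s) := fun y s e => by
    rw [← T.map_fix hα, ← e, map_commutatorElement, T.mem_K.1 hK]
  have c1 := (T.sl.commute S (r := α) (s := δ) (by omega) · (t₁ / (S.η δ γ * t)))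
  unfold nm; split_ifs at ht₁ ⊢
  · rw [← ht₁]; exact comm_mul k1 (k2 _ _ k1) (c1 _).symm
  · rw [← ht₁]
    refine comm_mul (comm_mul k1 (k2 _ _ k1) (c1 _).symm) (k2 _ _ (k2 _ _ k1)) ((c1 _).symm.mul_left ?_)
    rw [← T.map_fix hα]; exact (c1 _).symm.map T.σ

variable (T)

/-- Elements of `N ⊓ K`. -/
structure Tr (n : G) (w : Equiv.Perm Φ) : Prop where
  mem : n ∈ T.K
  ind : S.Induces n w
  comm : ∀ r, T.ρ (w r) = w (T.ρ r)

theorem tr_one : T.Tr 1 1 := ⟨one_mem _, S.induces_one, fun _ => rfl⟩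

theorem tr_n {r : Φ} (hr : T.ρ r = r) : T.Tr (S.n r 1) (R.refl r) :=
  ⟨T.n_mem hr (map_one _), S.induces_n r one_ne_zero, fun s => by rw [T.ρ_refl, hr]⟩

variable {T}

theorem Tr.mul {n n' : G} {w w' : Equiv.Perm Φ} (h : T.Tr n w) (h' : T.Tr n' w') : T.Tr (n * n') (w * w') :=
  ⟨mul_mem h.mem h'.mem, h.ind.mul h'.ind, fun r => by simp only [Equiv.Perm.mul_apply, h.comm, h'.comm]⟩

theorem Tr.inv {n : G} {w : Equiv.Perm Φ} (h : T.Tr n w) : T.Tr n⁻¹ w⁻¹ :=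
  ⟨inv_mem h.mem, h.ind.inv, fun r => w.injective (by rw [← h.comm]; simp)⟩

theorem Tr.fix {n : G} {w : Equiv.Perm Φ} (h : T.Tr n w) (r : Φ) : T.ρ (w r) = w r ↔ T.ρ r = r := by
  rw [h.comm, w.injective.eq_iff]

theorem Tr.pair {n : G} {w : Equiv.Perm Φ} (h : T.Tr n w) (r s : Φ) : R.pair (w r) (w s) = R.pair r s :=
  RS.aut_pair h.ind.aut r s

theorem Tr.exists_conj {n : G} {w : Equiv.Perm Φ} (h : T.Tr n w) {α : Φ} (hα : T.ρ α = α) :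
    ∃ e, e ≠ 0 ∧ T.θ e = e ∧ ∀ t, n * S.x α t * n⁻¹ = S.x (w α) (e * t) := by
  obtain ⟨e, h1, h2⟩ := h.ind.exists_conj α
  refine ⟨e, h1, T.fix_of_mem ((h.fix α).2 hα) ?_, h2⟩
  rw [← mul_one e, ← h2]
  exact mul_mem (mul_mem h.mem (T.x_mem hα (map_one _))) (inv_mem h.mem)

theorem op_fix {α γ : Φ} (hα : T.ρ α = α) : T.ρ (op R α γ) = op R α γ ↔ T.ρ γ = γ ∨ op R α (T.ρ γ) = op R α γ := by
  rw [T.ρ_op hα]; exact ⟨.inr, fun h => h.elim (fun h => by rw [h]) id⟩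

theorem op_fix_iff {α γ : Φ} (hα : T.ρ α = α) (h : R.pair α γ = 1) : T.ρ (op R α γ) = op R α γ ↔ T.ρ γ = γ := by
  refine ⟨fun e => ?_, fun e => by rw [T.ρ_op hα, e]⟩
  conv_lhs => rw [← T.sl.op_op h, T.ρ_op hα, e, T.sl.op_op h]

variable (T)

/-- The first hypotheses on the fixed roots. -/
structure Hyp (α₀ : Φ) : Prop where
  top : R.Highest α₀
  fix : T.ρ α₀ = α₀
  h2 : ∀ β, T.ρ β = β → R.pair α₀ β = 0 → ∃ γ, T.ρ γ = γ ∧ R.pair α₀ γ = 1 ∧ R.pair β γ = 1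
  h3 : ∃ γ, T.ρ γ = γ ∧ R.pair α₀ γ = 1

variable {T}

theorem Hyp.exists_tr {α₀ : Φ} (H : T.Hyp α₀) {β : Φ} (hβ : T.ρ β = β) : ∃ n w, T.Tr n w ∧ w α₀ = β := by
  have step : ∀ {α β : Φ}, T.ρ α = α → T.ρ β = β → R.pair α β = 1 → ∃ n w, T.Tr n w ∧ w α = β := fun hα hβ h =>
    ⟨_, _, T.tr_n ((op_fix_iff hα h).2 hβ), T.sl.op_op h⟩
  rcases T.sl.cases α₀ β with rfl | rfl | h | h | h
  · exact ⟨_, _, T.tr_one, rfl⟩
  · exact ⟨_, _, T.tr_n H.fix, R.refl_self α₀⟩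
  · exact step H.fix hβ h
  · obtain ⟨γ, h1, h2, h3⟩ := H.h2 β hβ h
    obtain ⟨n, w, h4, h5⟩ := step H.fix h1 h2
    obtain ⟨n', w', h6, h7⟩ := step h1 hβ (T.sl.symm _ _ ▸ h3)
    exact ⟨_, _, h6.mul h4, by rw [Equiv.Perm.mul_apply, h5, h7]⟩
  · obtain ⟨n, w, h4, h5⟩ := step (β := R.refl α₀ β) H.fix (by rw [T.ρ_refl, H.fix, hβ]) (by rw [R.pair_refl_right, h]; rfl)
    exact ⟨_, _, (T.tr_n H.fix).mul h4, by rw [Equiv.Perm.mul_apply, h5, R.refl_refl]⟩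

theorem Hyp.exists_mid {α₀ : Φ} (H : T.Hyp α₀) {α β : Φ} (hα : T.ρ α = α) (hβ : T.ρ β = β) (h : R.pair α β = 0) :
    ∃ γ, T.ρ γ = γ ∧ R.pair α γ = 1 ∧ R.pair β γ = 1 := by
  obtain ⟨n, w, h1, rfl⟩ := H.exists_tr hα
  obtain ⟨β, rfl⟩ := w.surjective β
  obtain ⟨γ, h2, h3, h4⟩ := H.h2 β ((h1.fix β).1 hβ) (h1.pair _ _ ▸ h)
  exact ⟨w γ, (h1.fix γ).2 h2, (h1.pair _ _).trans h3, (h1.pair _ _).trans h4⟩

variable (T) {V : Type*} [AddCommGroup V] [Module ℂ V]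

/-- The weight space of the fixed points in the root subgroup of `α`. -/
def Wt (a : G → End ℂ V) (ψ : AddChar F ℂ) (α : Φ) (c : F) : Submodule ℂ V where
  carrier := {v | ∀ t, T.θ t = t → a (S.x α t) v = ψ (c * t) • v}
  add_mem' hv hw t ht := by rw [map_add, hv t ht, hw t ht, smul_add]
  zero_mem' t _ := by simp
  smul_mem' c v hv t ht := by rw [map_smul, hv t ht, smul_comm]

variable {T} {a : G → End ℂ V} {ψ : AddChar F ℂ}

theorem Fx_le_Wt {A : Set Φ} {β : Φ} (hβ : T.ρ β = β) (h : β ∈ A) : Fx T.K a (S.XS A) ≤ T.Wt a ψ β 0 := fun v hv t ht => by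
  rw [zero_mul, AddChar.map_zero_eq_one, one_smul]; exact hv _ (S.x_mem_XS h t) (T.x_mem hβ ht)

theorem Wt_le_Fx {β : Φ} (hβ : T.ρ β = β) : T.Wt a ψ β 0 ≤ Fx T.K a (S.XS {β}) := fun v hv g hg hK => by
  obtain ⟨t, rfl⟩ := S.mem_X.1 hg
  rw [hv t (T.fix_of_mem hβ hK), zero_mul, AddChar.map_zero_eq_one, one_smul]

variable (ha : Act T.K a)
include ha

theorem mem_Fx {A : Set Φ} (hA : T.Good A) {v : V} (h : ∀ r ∈ A, v ∈ Fx T.K a (S.XS (T.orb r))) : v ∈ Fx T.K a (S.XS A) :=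
  fun g hg hK => (hA.le (L := ha.Fv v) (fun r hr g h1 h2 => ⟨h2, h r hr g h1 h2⟩) g hg hK).2

theorem map_Wt {n : G} (hn : n ∈ T.K) {α β : Φ} (hα : T.ρ α = α) {e c : F} (he : e ≠ 0) (he' : T.θ e = e)
    (h : ∀ t, n * S.x α t * n⁻¹ = S.x β (e * t)) {v : V} (hv : v ∈ T.Wt a ψ α c) : a n v ∈ T.Wt a ψ β (c / e) := fun t ht => by
  have h1 : T.θ (t / e) = t / e := by rw [map_div₀, ht, he']
  have h2 := h (t / e)
  rw [mul_div_cancel₀ _ he] at h2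
  rw [← h2, ha.mul_apply (mul_mem hn (T.x_mem hα h1)) (inv_mem hn), ha.inv_apply hn, ha.mul_apply hn (T.x_mem hα h1), hv _ h1,
    map_smul]
  congr 2; field_simp

theorem map_Wt_XS {α : Φ} (hα : T.ρ α = α) {A : Set Φ} (hA : ∀ r ∈ A, 0 ≤ R.pair α r) {g : G} (hg : g ∈ S.XS A) (hK : g ∈ T.K)
    {c : F} {v : V} (hv : v ∈ T.Wt a ψ α c) : a g v ∈ T.Wt a ψ α c := by
  simpa using map_Wt ha hK hα one_ne_zero (map_one _) (fun t => by
    rw [one_mul, ← (T.sl.commute_XS S (A := {α}) (by simpa using hA) (S.x_mem_X α t) hg).eq, mul_inv_cancel_right]) hv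

variable [FiniteDimensional ℂ V]

theorem Hyp.finrank_Wt {α₀ : Φ} (H : T.Hyp α₀) {β : Φ} (hβ : T.ρ β = β) {c : F} (hc : T.θ c = c) (hc0 : c ≠ 0) :
    finrank ℂ (T.Wt a ψ β c) = finrank ℂ (T.Wt a ψ α₀ 1) := by
  have k1 : ∀ {c c' : F}, T.θ c = c → c ≠ 0 → T.θ c' = c' → c' ≠ 0 →
      finrank ℂ (T.Wt a ψ α₀ c) ≤ finrank ℂ (T.Wt a ψ α₀ c') := fun {c c'} h1 h2 h3 h4 => by
    obtain ⟨γ, h5, h6⟩ := H.h3
    have h7 : T.θ (c / c') = c / c' := by rw [map_div₀, h1, h3]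
    refine ha.finrank_le_of_map (T.h_mem h5 h7) fun v hv => ?_
    have := map_Wt ha (T.h_mem h5 h7) H.fix (div_ne_zero h2 h4) h7 (fun t => by
      rw [S.conj_h γ α₀ (div_ne_zero h2 h4), T.sl.symm, h6, zpow_one]) hv
    rwa [div_div_cancel₀ h2] at this
  obtain ⟨n, w, h1, rfl⟩ := H.exists_tr hβ
  obtain ⟨e, e1, e2, e3⟩ := h1.exists_conj H.fix
  obtain ⟨e', e1', e2', e3'⟩ := h1.inv.exists_conj hβ
  refine le_antisymm ((ha.finrank_le_of_map h1.inv.mem fun v => map_Wt ha h1.inv.mem hβ e1' e2' e3').trans ?_)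
    ((k1 (map_one _) one_ne_zero (c' := c * e) (by rw [map_mul, hc, e2]) (mul_ne_zero hc0 e1)).trans ?_)
  · rw [show w⁻¹ (w α₀) = α₀ from w.symm_apply_apply α₀]
    exact k1 (by rw [map_div₀, hc, e2']) (div_ne_zero hc0 e1') (map_one _) one_ne_zero
  · refine ha.finrank_le_of_map h1.mem fun v hv => ?_
    simpa [e1] using map_Wt ha h1.mem H.fix e1 e2 e3 hv

variable [Finite F] (hψ : ∃ t, T.θ t = t ∧ ψ t ≠ 1)
include hψ

theorem Iso.heis {α : Φ} {Γ : Set Φ} (h : T.Iso α Γ) (hα : T.ρ α = α) {c : F} (hc : T.θ c = c) (hc0 : c ≠ 0)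
    {W : Submodule ℂ V} (hW : W ≤ T.Wt a ψ α c) (h1 : ∀ g ∈ S.XS Γ, g ∈ T.K → ∀ v ∈ W, a g v ∈ W)
    (h2 : ∀ γ ∈ Γ, ∀ g ∈ S.XS (T.orb (op R α γ)), g ∈ T.K → ∀ v ∈ W, a g v ∈ W) :
    finrank ℂ W = Nat.card (S.XS Γ ⊓ T.K : Subgroup G) * finrank ℂ (W ⊓ Fx T.K a (S.XS Γ) : Submodule ℂ V) := by
  have := S.finite_XS h.pos h.good.closed
  have : Finite (S.XS Γ ⊓ T.K : Subgroup G) := Finite.of_injective _ (Subgroup.inclusion_injective inf_le_left)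
  refine ha.heis _ W h1 fun g hg hK hne => ?_
  obtain ⟨γ, hγ, h3⟩ := h.exists_comm hα hg hK hne
  obtain ⟨t, ht, ht1⟩ := hψ
  have h4 : T.θ (t / c) = t / c := by rw [map_div₀, ht, hc]
  obtain ⟨b, hb, hbK, e⟩ := h3 _ h4
  exact ⟨b, hbK, h2 γ hγ b hb hbK, ψ t, ht1, fun v hv => by rw [e, hW hv _ h4, mul_div_cancel₀ _ hc0]⟩

theorem Iso.heis_Wt {α : Φ} {Γ : Set Φ} (h : T.Iso α Γ) (hα : T.ρ α = α) {c : F} (hc : T.θ c = c) (hc0 : c ≠ 0) :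
    finrank ℂ (T.Wt a ψ α c) =
      Nat.card (S.XS Γ ⊓ T.K : Subgroup G) * finrank ℂ (T.Wt a ψ α c ⊓ Fx T.K a (S.XS Γ) : Submodule ℂ V) :=
  h.heis ha hψ hα hc hc0 le_rfl (fun _ hg hK _ => map_Wt_XS ha hα (fun r hr => by rw [h.lev r hr]; norm_num) hg hK)
    fun γ hγ _ hg hK _ => map_Wt_XS ha hα (fun r hr => by
      rw [T.pair_orb hα hr, T.sl.pair_op_self (h.lev γ hγ)]; norm_num) hg hK

omit ha in
theorem sum_Wt_le (α : Φ) (M : Submodule ℂ V) {N : ℕ}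
    (h : ∀ c, T.θ c = c → c ≠ 0 → N ≤ finrank ℂ (T.Wt a ψ α c ⊓ M : Submodule ℂ V)) :
    finrank ℂ (T.Wt a ψ α 0 ⊓ M : Submodule ℂ V) + (T.q - 1) * N ≤ finrank ℂ M := by
  classical
  let _ := Fintype.ofFinite {t : F // T.θ t = t}
  refine le_trans ?_ (sum_finrank_le (I := {t : F // T.θ t = t}) (J := {t : F // T.θ t = t}) (fun t => a (S.x α t))
    (fun c t => ψ (c * t)) (fun c c' e => ?_) (fun c => T.Wt a ψ α c ⊓ M) (fun c v hv t => hv.1 t t.2) fun _ => inf_le_right)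
  · rw [← Finset.add_sum_erase _ _ (Finset.mem_univ ⟨0, map_zero _⟩)]
    refine Nat.add_le_add_left (le_trans ?_ (Finset.card_nsmul_le_sum _ _ N fun (c : {t : F // T.θ t = t}) hc =>
      h c c.2 fun e => (Finset.mem_erase.1 hc).1 (Subtype.ext e))) _
    rw [Finset.card_erase_of_mem (Finset.mem_univ _), Finset.card_univ, q, Nat.card_eq_fintype_card, smul_eq_mul]
  · by_contra hne
    obtain ⟨t, ht, ht1⟩ := hψ
    have h0 : (c : F) - c' ≠ 0 := sub_ne_zero.2 fun e => hne (Subtype.ext e)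
    have := congrFun e ⟨t / (c - c'), by rw [map_div₀, ht, map_sub, c.2, c'.2]⟩
    refine ht1 ?_
    rw [← mul_div_cancel₀ t h0, sub_mul, AddChar.map_sub_eq_div, show ψ _ = _ from this, div_self]
    exact (ψ.val_isUnit _).ne_zero

omit ha in
theorem sum_le (I : Finset Φ) (N : Φ → ℕ) (h : ∀ α ∈ I, ∀ c, T.θ c = c → c ≠ 0 → ∃ W : Submodule ℂ V, N α ≤ finrank ℂ W ∧
      W ≤ T.Wt a ψ α c ∧ ∀ β ∈ I, β ≠ α → R.ht α ≤ R.ht β → W ≤ T.Wt a ψ β 0) :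
    finrank ℂ (⨅ β ∈ I, T.Wt a ψ β 0 : Submodule ℂ V) + (T.q - 1) * ∑ α ∈ I, N α ≤ finrank ℂ V := by
  classical
  induction I using Finset.induction_on_min_value R.ht with
  | empty => simpa using Submodule.finrank_le _
  | insert α I hα hmin ih =>
    have h1 := ih fun β hβ c h1 h2 => (h β (Finset.mem_insert_of_mem hβ) c h1 h2).imp fun W hW =>
      ⟨hW.1, hW.2.1, fun γ hγ => hW.2.2 γ (Finset.mem_insert_of_mem hγ)⟩
    have h2 := sum_Wt_le (a := a) hψ α (⨅ β ∈ I, T.Wt a ψ β 0) (N := N α) fun c h1 h2 => by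
      obtain ⟨W, k1, k2, k3⟩ := h α (Finset.mem_insert_self _ _) c h1 h2
      exact k1.trans (Submodule.finrank_mono (le_inf k2 (le_iInf₂ fun β hβ =>
        k3 β (Finset.mem_insert_of_mem hβ) (fun e => hα (e ▸ hβ)) (hmin β hβ))))
    rw [Finset.sum_insert hα, Finset.iInf_insert, mul_add]
    omega

/-- A long root subgroup that acts non-trivially has a non-trivial weight. -/
theorem exists_Wt {α : Φ} (hα : T.ρ α = α) {t : F} (ht : T.θ t = t) (h : a (S.x α t) ≠ 1) :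
    ∃ c, T.θ c = c ∧ c ≠ 0 ∧ T.Wt a ψ α c ≠ ⊥ := by
  let F₀ : Subfield F := RingHom.eqLocusField (T.θ : F →+* F) (RingHom.id F)
  let ρ : Multiplicative F₀ →* End ℂ V :=
    { toFun := fun t => a (S.x α (Multiplicative.toAdd t : F₀))
      map_one' := by simpa using ha.one
      map_mul' := fun t u => by
        rw [← ha.mul (T.x_mem hα (Multiplicative.toAdd t).2) (T.x_mem hα (Multiplicative.toAdd u).2), ← S.x_add]; rfl }
  obtain ⟨s, hs, hs1⟩ := hψ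
  obtain ⟨l, hl, hl1⟩ := CL.LS.exists_weight (F := F₀) (A := F₀) (ρ := ρ) (ψ := ψ.compAddMonoidHom F₀.subtype.toAddMonoidHom)
    (a := Multiplicative.ofAdd) (fun e => hs1 (DFunLike.congr_fun e ⟨s, hs⟩)) (fun _ _ => rfl) (x := ⟨t, ht⟩) h
  have hl' : ∀ x : F₀, l x = l 1 * x := fun x => by rw [mul_comm, ← smul_eq_mul, ← map_smul, smul_eq_mul, mul_one]
  refine ⟨l 1, (l 1).2, fun e => hl1 ?_, fun e => hl (eq_bot_iff.2 fun v hv => e.le fun u hu => ?_)⟩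
  · rw [hl', show l 1 = 0 from Subtype.ext e, zero_mul, AddChar.map_zero_eq_one]
  · have := CL.LS.mem_wsp.1 hv ⟨u, hu⟩
    rw [hl'] at this; exact this

end Tw

end CL.MX
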