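/-
Minimal degrees of exceptional groups, part 5: in the multiplicity one case the weights of the extraspecial radical are roots.
-/
import Cfsg.Agent.Known.MXHeis

set_option autoImplicit false
set_option linter.unusedSectionVars false

open Module
open scoped commutatorElement

namespace CL.MX

open CL.Chev

variable {ι Φ : Type} [Fintype ι] [DecidableEq ι] {R : RS ι Φ} {F : Type*} [Field F] {G : Type*} [Group G]
  {S : StSys R F G} [Finite Φ]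

theorem SL.ideal_lev (hl : SL R) {β : Φ} {A B : Set Φ} (hA : ∀ δ ∈ A, 1 ≤ R.pair β δ) (hB : ∀ δ ∈ B, 1 ≤ R.pair β δ)
    (h : β ∈ B) : R.Ideal A B := fun k r s hr hs hk => by
  have h1 := hA r hr
  have h2 := hB s hs
  have h3 := hl.comb_pair hk (fun e => by rw [e, R.pair_neg_right] at h2; omega) β
  rwa [hl.eq_of_two_le (r := β) (s := k) (by omega)]

theorem SL.le_normalizer (hl : SL R) (S : StSys R F G) {β : Φ} {A B : Set Φ} (hA : ∀ δ ∈ A, 1 ≤ R.pair β δ)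
    (hB : ∀ δ ∈ B, 1 ≤ R.pair β δ) (h : β ∈ B) : S.XS A ≤ Subgroup.normalizer (S.XS B : Set G) :=
  S.XS_le_normalizer (hl.ideal_lev hA hB h) fun r hr e => by
    have := hA r hr; have := hB _ e; rw [R.pair_neg_right] at this; omega

theorem pos_of_lev {α₀ δ : Φ} (h : R.Highest α₀) (h1 : 1 ≤ R.pair α₀ δ) : R.Pos δ := by
  by_contra h2
  have := h.pair_nonneg ((R.pos_neg_iff δ).2 h2)
  rw [R.pair_neg_right] at this; omega

namespace Tw

variable (T : Tw S)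

/-- The norm of the field extension. -/
def Nm (c : F) : F := if T.m = 2 then c * T.θ c else c * T.θ c * T.θ (T.θ c)

theorem induces_map {g : G} (h : S.Induces g 1) : S.Induces (T.σ g) 1 := by
  obtain ⟨-, c, h1, h2⟩ := h
  refine ⟨one_mem _, fun r => T.θ (c (T.ρ.symm r)), fun r => ?_, fun r t => ?_⟩
  · obtain ⟨r, rfl⟩ := T.ρ.surjective r
    simp only [← T.ρ_neg, Equiv.symm_apply_apply, ← map_mul, h1, map_one]
  · obtain ⟨r, rfl⟩ := T.ρ.surjective r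
    obtain ⟨t, rfl⟩ : ∃ u, t = T.ε r * T.θ u := ⟨T.θ.symm (t / T.ε r), by simp [mul_div_cancel₀ _ (T.ε_ne_zero r)]⟩
    rw [← T.map, ← map_inv, ← map_mul, ← map_mul, h2, T.map]
    simp [mul_left_comm]

theorem conj_map {g : G} {r : Φ} (hr : T.ρ r = r) {e : F} (h : ∀ t, g * S.x r t * g⁻¹ = S.x r (e * t)) (t : F) :
    T.σ g * S.x r t * (T.σ g)⁻¹ = S.x r (T.θ e * t) := by
  obtain ⟨t, rfl⟩ := T.θ.surjective t
  rw [← T.map_fix hr, ← map_inv, ← map_mul, ← map_mul, h, T.map_fix hr, map_mul]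

theorem exists_tor {δ : Φ} (hδ : T.ρ δ ≠ δ) {c : F} (hc : c ≠ 0) : ∃ h ∈ T.K, S.Induces h 1 ∧
    (∀ r, T.ρ r = r → ∀ t, h * S.x r t * h⁻¹ = S.x r (T.Nm c ^ R.pair δ r * t)) ∧
    ∀ u, h * T.nm (S.x δ u) * h⁻¹ = T.nm (S.x δ (c ^ 2 * u)) := by
  have h1 : S.h δ c ∈ S.XS {δ, R.neg δ} := mul_mem (S.n_mem_XS (by simp) (by simp) _) (S.n_mem_XS (by simp) (by simp) _)
  have h2 := S.induces_h δ hc
  have key : ∀ {g g' : G} {r : Φ} {e e' : F}, (∀ t, g * S.x r t * g⁻¹ = S.x r (e * t)) →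
      (∀ t, g' * S.x r t * g'⁻¹ = S.x r (e' * t)) → ∀ t, g * g' * S.x r t * (g * g')⁻¹ = S.x r (e * e' * t) :=
    fun h h' t => by rw [mul_assoc _ _ t, ← h, ← h']; group
  refine ⟨_, T.nm_mem hδ h1, ?_, fun r hr => ?_, fun u => ?_⟩
  · unfold nm; split_ifs
    · simpa using h2.mul (T.induces_map h2)
    · simpa using (h2.mul (T.induces_map h2)).mul (T.induces_map (T.induces_map h2))
  · have h3 := S.conj_h δ r hc
    unfold nm Nm; split_ifs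
    · simpa only [mul_zpow, map_zpow₀] using key h3 (T.conj_map hr h3)
    · simpa only [mul_zpow, map_zpow₀] using key (key h3 (T.conj_map hr h3)) (T.conj_map hr (T.conj_map hr h3))
  · rw [← T.nm_inv hδ h1, ← T.nm_mul hδ h1 (x_mem_L δ u), ← T.nm_mul hδ (mul_mem h1 (x_mem_L δ u)) (inv_mem h1),
      S.conj_h δ δ hc, R.pair_self, zpow_ofNat]

/-- The polarisation belonging to the pair `β, α`. -/
def G1 (R : RS ι Φ) (β α : Φ) : Set Φ := {γ | R.pair α γ = 1 ∧ 1 ≤ R.pair β γ}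
/-- The roots of the radical of `β` not obtuse to `α`. -/
def B1 (R : RS ι Φ) (β α : Φ) : Set Φ := {δ | 1 ≤ R.pair β δ ∧ 0 ≤ R.pair α δ ∧ δ ≠ α}
/-- The roots of the radical of `β` other than `α`. -/
def B2 (R : RS ι Φ) (β α : Φ) : Set Φ := {δ | 1 ≤ R.pair β δ ∧ δ ≠ α}

variable {T} {V : Type*} [AddCommGroup V] [Module ℂ V] {a : G → End ℂ V} {ψ : AddChar F ℂ} (ha : Act T.K a)
  {α₀ α : Φ} (H : T.Hyp α₀) (hα : T.ρ α = α) (h1 : R.pair α₀ α = 1)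
include H hα h1

theorem G1_le : G1 R α₀ α ⊆ B1 R α₀ α := fun γ h => ⟨h.2, h.1.symm ▸ zero_le_one, fun e => by
  have := h.1; rw [e, R.pair_self] at this; omega⟩

theorem top_mem_G1 : α₀ ∈ G1 R α₀ α := ⟨T.sl.symm _ _ ▸ h1, by simp⟩

theorem stab_G1 : T.Stab (G1 R α₀ α) := fun r h => by simpa only [G1, Set.mem_ofPred_eq, T.pair_fix hα, T.pair_fix H.fix] using h

theorem iso_G1 : T.Iso α (G1 R α₀ α) := ⟨fun _ h => pos_of_lev H.top h.2, stab_G1 H hα h1, fun _ h => h.1, fun γ h e => by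
  have h2 := e.2
  have h3 := h.2
  rw [T.sl.pair_op h.1] at h2; omega⟩

theorem good_B1 : T.Good (B1 R α₀ α) :=
  ⟨fun _ h => pos_of_lev H.top h.1, T.sl.ideal_lev (fun _ h => h.1) (fun _ h => h.1) (G1_le H hα h1 (top_mem_G1 H hα h1)),
    fun r h => ⟨(T.pair_fix H.fix r).symm ▸ h.1, (T.pair_fix hα r).symm ▸ h.2.1, fun e => h.2.2 (T.ρ.injective (e.trans hα.symm))⟩⟩

theorem good_B2 : T.Good (B2 R α₀ α) :=
  ⟨fun _ h => pos_of_lev H.top h.1, T.sl.ideal_lev (fun _ h => h.1) (fun _ h => h.1)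
    ⟨by simp, (G1_le H hα h1 (top_mem_G1 H hα h1)).2.2⟩,
    fun r h => ⟨(T.pair_fix H.fix r).symm ▸ h.1, fun e => h.2 (T.ρ.injective (e.trans hα.symm))⟩⟩

variable [FiniteDimensional ℂ V] {c : F} (hE : finrank ℂ (T.Wt a ψ α c ⊓ Fx T.K a (S.XS (G1 R α₀ α)) : Submodule ℂ V) = 1)
  {v : V} (hv : v ∈ T.Wt a ψ α c ⊓ Fx T.K a (S.XS (G1 R α₀ α))) (h0 : v ≠ 0)
include ha hE hv h0

theorem mem_St {B : Set Φ} (hB : v ∈ Fx T.K a (S.XS B)) {g : G} (hg : g ∈ T.K)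
    (k1 : ∀ y ∈ S.XS (G1 R α₀ α), g⁻¹ * y * g ∈ S.XS B) (k2 : ∀ t, ⁅(S.x α t)⁻¹, g⁻¹⁆ ∈ S.XS B) : g ∈ ha.St v := by
  refine ha.mem_St_of_finrank hE hv h0 hg ⟨fun t ht => ?_, ha.map_mem_Fx hg k1 hB⟩
  have h2 := T.x_mem hα ht
  have h3 := T.comm_mem_K (inv_mem h2) (inv_mem hg)
  rw [ha.conj_apply hg h2, show g⁻¹ * S.x α t * g = S.x α t * ⁅(S.x α t)⁻¹, g⁻¹⁆ by rw [commutatorElement_def]; group,
    ha.mul_apply h2 h3, hB _ (k2 t) h3, hv.1 t ht, map_smul]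

theorem mem_St_lev {g : G} (hg : g ∈ S.XS {δ | 1 ≤ R.pair α₀ δ}) (hK : g ∈ T.K) : g ∈ ha.St v := by
  have hN := fun A (hA : ∀ δ ∈ A, 1 ≤ R.pair α₀ δ) => T.sl.le_normalizer S hA (fun _ h => h.2) (top_mem_G1 H hα h1)
  refine mem_St ha H hα h1 hE hv h0 hv.2 hK (fun y hy => inv_conj_mem_of_normalizer (hN _ (fun _ h => h) hg) hy) fun t => ?_
  have hne : ∀ s, 1 ≤ R.pair α₀ s → s ≠ R.neg α := fun s hs e => by rw [e, R.pair_neg_right] at hs; omega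
  refine S.commutator_XS_le (A := {α}) (A' := {δ | 1 ≤ R.pair α₀ δ}) (hN _ (by simp [h1])) (hN _ fun _ h => h)
    (fun r hr hs => hne _ hs (by rw [hr])) (fun r hr s hs k hk => ?_)
    (Subgroup.commutator_mem_commutator (inv_mem (S.x_mem_X α t)) (inv_mem hg))
  rw [hr] at hk
  have h3 := T.sl.comb_pair hk (hne s hs) α₀
  rw [T.sl.eq_of_two_le (r := α₀) (s := k) (by have : 1 ≤ R.pair α₀ s := hs; omega)]
  exact top_mem_G1 H hα h1

theorem mem_St_orth {g : G} (hg : g ∈ S.XS {ε | R.pair α₀ ε = 0 ∧ R.pair α ε = 0}) (hK : g ∈ T.K) : g ∈ ha.St v := by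
  refine ha.mem_St_of_finrank hE hv h0 hK ⟨map_Wt_XS ha hα (fun _ h => h.2.ge) hg hK hv.1,
    ha.map_mem_Fx_of_normalizer hK (S.XS_le_normalizer (fun k r s hr hs hk => ?_) (fun r hr e => ?_) hg) hv.2⟩
  · have hne : s ≠ R.neg r := fun e => by have := hs.1; rw [e, R.pair_neg_right, hr.2] at this; omega
    exact ⟨by rw [T.sl.comb_pair hk hne, hr.2, hs.1, zero_add], by rw [T.sl.comb_pair hk hne, hr.1, zero_add]; exact hs.2⟩
  · have := e.1; rw [R.pair_neg_right, hr.2] at this; omega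

theorem mem_St_tor {h : G} (hK : h ∈ T.K) (k1 : S.Induces h 1) (k2 : ∀ t, h * S.x α t * h⁻¹ = S.x α (1 * t)) :
    h ∈ ha.St v :=
  ha.mem_St_of_finrank hE hv h0 hK ⟨by simpa using map_Wt ha hK hα one_ne_zero (map_one _) k2 hv.1,
    ha.map_mem_Fx_of_normalizer hK (k1.mem_normalizer_XS fun _ => Iff.rfl) hv.2⟩

theorem mem_Fx_B1 (h4 : ∀ δ, T.ρ δ = δ → R.pair α₀ δ = 1 → R.pair α δ = 0 →
      ∃ ε, R.pair α₀ ε = 0 ∧ R.pair α ε = 0 ∧ R.pair δ ε = 1)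
    (h6 : (∃ r, T.ρ r ≠ r) → ∃ c : F, c ≠ 0 ∧ c ^ 2 ≠ 1) : v ∈ Fx T.K a (S.XS (B1 R α₀ α)) := by
  refine mem_Fx ha (good_B1 H hα h1) fun δ hδ => ?_
  by_cases h2 : R.pair α δ = 1
  · exact Fx_mono (S.XS_mono (T.orb_subset (stab_G1 H hα h1) ⟨h2, hδ.1⟩)) hv.2
  have h3 : R.pair α δ = 0 := by have := mt T.sl.eq_of_two_le hδ.2.2; have := hδ.2.1; omega
  have h5 : R.pair α₀ δ = 1 := by
    have : ¬ 2 ≤ R.pair α₀ δ := fun h => by rw [T.sl.eq_of_two_le h, T.sl.symm] at h3; omega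
    have := hδ.1; omega
  have hQ : ∀ {r : Φ}, R.pair α₀ r = 1 → ∀ g ∈ S.XS (T.orb r), g ∈ T.K → g ∈ ha.St v := fun hr g hg =>
    mem_St_lev ha H hα h1 hE hv h0 (S.XS_mono (fun s hs => ((T.pair_orb H.fix hs).trans hr).ge) hg)
  intro g hg hK
  by_cases hf : T.ρ δ = δ
  · obtain ⟨ε, e1, e2, e3⟩ := h4 δ hf h5 h3
    have e4 : R.pair α₀ (op R δ ε) = 1 := by rw [T.sl.pair_op e3, h5, e1, sub_zero]
    have e5 := pos_of_lev H.top e4.ge
    obtain ⟨y, hy, hyK, hy1⟩ : ∃ y ∈ S.XS (T.orb (op R δ ε)), y ∈ T.K ∧ y ≠ 1 := by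
      by_cases hf' : T.ρ (op R δ ε) = op R δ ε
      · exact ⟨_, S.x_mem_XS (T.self_mem_orb _) 1, T.x_mem hf' (map_one _), by simp [T.faithful.x_eq_one_iff]⟩
      · exact ⟨_, T.nm_x_mem _ 1, T.nm_mem hf' (x_mem_L _ 1), fun e => one_ne_zero
          (T.nm_x_injective hf' e5 (a₂ := 0) (e.trans (by simp [T.nm_one])))⟩
    obtain ⟨γ, hγ, k⟩ := (iso_orb hf (T.sl.pair_op_self e3) e5).exists_comm hf hy hyK hy1
    rw [T.orb_fix hf] at hg
    obtain ⟨s, rfl⟩ := S.mem_X.1 hg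
    obtain ⟨b, hb, hbK, e⟩ := k s (T.fix_of_mem hf hK)
    have e6 := (T.pair_orb hf hγ).trans (T.sl.pair_op_self e3)
    refine e ▸ (ha.comm_mem_Fv (mem_St_orth ha H hα h1 hE hv h0 (S.XS_mono (fun r hr => show _ ∧ _ from ⟨?_, ?_⟩) hb) hbK) (hQ e4 y hy hyK)).2
    · rw [T.pair_orb H.fix hr, T.sl.pair_op e6, T.pair_orb H.fix hγ, e4, h5, sub_self]
    · rw [T.pair_orb hα hr, T.sl.pair_op e6, T.pair_orb hα hγ, T.sl.pair_op e3, e2, h3]; rfl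
  · obtain ⟨c₀, c1, c2⟩ := h6 ⟨δ, hf⟩
    obtain ⟨h, k1, k2, k3, k4⟩ := T.exists_tor hf c1
    obtain ⟨u, rfl⟩ := T.exists_eq_nm hf (pos_of_lev H.top hδ.1) hg hK
    have e : T.nm (S.x δ u) = ⁅h, T.nm (S.x δ (u / (c₀ ^ 2 - 1)))⁆ := by
      rw [commutatorElement_def, k4, ← T.nm_inv hf (x_mem_L _ _), ← T.nm_mul hf (x_mem_L _ _) (inv_mem (x_mem_L _ _)), ← S.x_neg,
        ← S.x_add]
      congr 2; field_simp [sub_ne_zero.2 c2]; ring
    exact e ▸ (ha.comm_mem_Fv (mem_St_tor ha H hα h1 hE hv h0 k1 k2 (by simpa [T.sl.symm δ, h3] using k3 α hα))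
      (hQ h5 _ (T.nm_x_mem _ _) (T.nm_mem hf (x_mem_L _ _)))).2

theorem mem_Fx_B2 (hB : v ∈ Fx T.K a (S.XS (B1 R α₀ α)))
    (h5 : (∃ ε, T.ρ ε = ε ∧ R.pair α₀ ε = 0 ∧ R.pair α ε = -1) ∨
      ∃ δ, T.ρ δ ≠ δ ∧ R.pair α₀ δ = 1 ∧ R.pair α δ = 0 ∧ ∃ c : F, c ≠ 0 ∧ T.Nm c ≠ 1) :
    v ∈ Fx T.K a (S.XS (B2 R α₀ α)) := by
  refine mem_Fx ha (good_B2 H hα h1) fun r hr => ?_
  by_cases h2 : 0 ≤ R.pair α r
  · exact Fx_mono (S.XS_mono (T.orb_subset (good_B1 H hα h1).stab ⟨hr.1, h2, hr.2⟩)) hB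
  have h3 : r = op R α₀ α := by
    have k1 : ¬ 2 ≤ R.pair α₀ r := fun h => by rw [T.sl.eq_of_two_le h, T.sl.symm] at h2; omega
    have k2 : ¬ R.pair α r ≤ -2 := fun h => by have := hr.1; rw [T.sl.eq_neg_of_le h, R.pair_neg_right] at this; omega
    have := hr.1
    exact T.sl.eq_op h1 (by omega) (by omega)
  have hf : T.ρ r = r := h3 ▸ (op_fix_iff H.fix h1).2 hα
  have h6 : ∀ m, R.pair r m = R.pair α₀ m - R.pair α m := fun m => by
    rw [T.sl.symm, h3, T.sl.pair_op h1, T.sl.symm m, T.sl.symm m]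
  rw [T.orb_fix hf]
  intro g hg hK
  obtain ⟨s, rfl⟩ := S.mem_X.1 hg
  have hs := T.fix_of_mem hf hK
  rcases h5 with ⟨ε, e0, e1, e2⟩ | ⟨δ, e0, e1, e2, c₀, c1, c2⟩
  · have e3 : R.pair r ε = 1 := by rw [h6, e1, e2]; rfl
    have e4 : S.x r s = ⁅S.x ε (S.η ε (op R r ε) * s), S.x (op R r ε) 1⁆ := by
      rw [T.sl.comm T.faithful (T.sl.pair_op_neg e3), T.sl.refl_op e3, mul_one, ← mul_assoc, S.η_cast_mul_self, one_mul]
    have e5 : R.pair α₀ (op R r ε) = 1 := by rw [T.sl.pair_op e3, e1, h3, T.sl.pair_op_self h1, sub_zero]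
    refine e4 ▸ (ha.comm_mem_Fv (mem_St ha H hα h1 hE hv h0 hB (T.x_mem e0 (by rw [map_mul, hs, map_intCast]))
      (fun y hy => ?_) fun t => ?_) (mem_St_lev ha H hα h1 hE hv h0 (S.x_mem_XS e5.ge 1)
        (T.x_mem ((op_fix_iff hf e3).2 e0) (map_one _)))).2
    · rw [← S.x_neg, ← inv_inv (S.x ε (_ * s)), ← S.x_neg]
      refine S.conj_mem_XS_of_forall (fun γ hγ t => ?_) hy
      have hne : γ ≠ R.neg ε := fun e => by have := hγ.2; rw [e, R.pair_neg_right, e1] at this; omega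
      rw [← mul_inv_cancel_right (_ * _ * _) (S.x γ t)⁻¹, inv_inv]
      refine mul_mem (S.comm_mem_XS hne (fun k hk => ?_) _ t) (S.x_mem_XS (G1_le H hα h1 hγ) t)
      have k1 : R.pair α k = 0 := by rw [T.sl.comb_pair hk hne, e2, hγ.1]; rfl
      exact ⟨by rw [T.sl.comb_pair hk hne, e1, zero_add]; exact hγ.2, k1.ge, fun e => by rw [e, R.pair_self] at k1; omega⟩
    · have hne : ε ≠ R.neg α := fun e => by rw [e, R.pair_neg_right, h1] at e1; omega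
      rw [← S.x_neg, ← S.x_neg]
      refine S.comm_mem_XS hne (fun k hk => G1_le H hα h1 ⟨?_, ?_⟩) _ _
      · rw [T.sl.comb_pair hk hne, e2, R.pair_self]; rfl
      · rw [T.sl.comb_pair hk hne, e1, h1, add_zero]
  · obtain ⟨h, k1, k2, k3, -⟩ := T.exists_tor e0 c1
    have k4 := k3 r hf
    rw [T.sl.symm, h6, e1, e2, sub_zero, zpow_one] at k4
    have k5 : T.θ (T.Nm c₀) = T.Nm c₀ := T.fix_of_mem hf (by
      rw [← mul_one (T.Nm c₀), ← k4]; exact mul_mem (mul_mem k1 (T.x_mem hf (map_one _))) (inv_mem k1))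
    have e : S.x r s = ⁅h, S.x r (s / (T.Nm c₀ - 1))⁆ := by
      rw [commutatorElement_def, k4, ← S.x_neg, ← S.x_add]
      congr 1; field_simp [sub_ne_zero.2 c2]; ring
    exact e ▸ (ha.comm_mem_Fv (mem_St_tor ha H hα h1 hE hv h0 k1 k2 (by simpa [T.sl.symm δ, e2] using k3 α hα))
      (mem_St_lev ha H hα h1 hE hv h0 (S.x_mem_XS hr.1 _) (T.x_mem hf (by rw [map_div₀, hs, map_sub, k5, map_one])))).2

end Tw

end CL.MX
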