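/-
Minimal degrees of exceptional groups, part 6: the lower bound.
-/
import Cfsg.Agent.Known.MXStep

set_option autoImplicit false
set_option linter.unusedSectionVars false

open Module
open scoped commutatorElement

namespace CL.MX

open CL.Chev

variable {ι Φ : Type} [Fintype ι] [DecidableEq ι] {R : RS ι Φ} {F : Type*} [Field F] {G : Type*} [Group G]
  {S : StSys R F G} [Finite Φ]

theorem SL.half (hl : SL R) {α : Φ} {X Γ : Set Φ} (h1 : ∀ γ ∈ X, R.pair α γ = 1 ∧ op R α γ ∈ X ∧ (γ ∈ Γ ∨ op R α γ ∈ Γ))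
    (h2 : ∀ γ ∈ Γ, γ ∈ X ∧ op R α γ ∉ Γ) : X.ncard = 2 * Γ.ncard := by
  have e : X = Γ ∪ op R α '' Γ := Set.Subset.antisymm
    (fun γ h => (h1 γ h).2.2.imp_right fun h' => ⟨_, h', hl.op_op (h1 γ h).1⟩)
    (Set.union_subset (fun γ h => (h2 γ h).1) (by rintro _ ⟨γ, h, rfl⟩; exact (h1 γ (h2 γ h).1).2.1))
  rw [e, Set.ncard_union_eq (Set.disjoint_right.2 (by rintro _ ⟨γ, h, rfl⟩; exact (h2 γ h).2)),
    Set.InjOn.ncard_image fun γ h δ h' e => by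
      rw [← hl.op_op (h1 γ (h2 γ h).1).1, e, hl.op_op (h1 δ (h2 δ h').1).1], two_mul]

/-- The positive roots not below `α`. -/
def Kp (R : RS ι Φ) (α : Φ) : Set Φ := {δ | R.Pos δ ∧ ¬ R.root δ ≤ R.root α}

/-- The positive roots `γ` with `α - γ` a positive root. -/
def Qp (R : RS ι Φ) (α : Φ) : Set Φ := {γ | R.pair α γ = 1 ∧ R.Pos γ ∧ R.root γ ≤ R.root α}

theorem mem_Kp_of_le {α δ k : Φ} (h : δ ∈ Kp R α) (hk : R.root δ ≤ R.root k) : k ∈ Kp R α :=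
  ⟨le_trans h.1 hk, fun e => h.2 (hk.trans e)⟩

theorem SL.ideal_Kp (hl : SL R) (α : Φ) {k r s : Φ} (hr : R.Pos r) (hs : s ∈ Kp R α) (hk : R.Comb k r s) : k ∈ Kp R α :=
  mem_Kp_of_le hs (by rw [hl.comb_root hk (hr.ne_neg hs.1)]; exact le_add_of_nonneg_left hr)

namespace Tw

variable (T : Tw S)

/-- The `m`-th power of the order of the fixed points in the group belonging to `X`. -/
noncomputable def sz (X : Set Φ) : ℕ := T.q ^ (T.m * (X ∩ {r | T.ρ r = r}).ncard) * Nat.card F ^ (X ∩ {r | T.ρ r ≠ r}).ncard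

variable {T}

theorem Iso.card {α : Φ} {X Γ : Set Φ} (h : T.Iso α Γ) (hα : T.ρ α = α) (h0 : Γ ⊆ X)
    (h1 : ∀ γ ∈ X, R.pair α γ = 1 ∧ op R α γ ∈ X ∧ (γ ∈ Γ ∨ op R α γ ∈ Γ)) {N : ℕ} (hN : N ^ (2 * T.m) = T.sz X) :
    Nat.card (S.XS Γ ⊓ T.K : Subgroup G) = N := by
  have key : ∀ P : Set Φ, (∀ γ ∈ X, op R α γ ∈ P ↔ γ ∈ P) → (X ∩ P).ncard = 2 * (Γ ∩ P).ncard := fun P hP =>
    T.sl.half (α := α) (fun γ hγ => ⟨(h1 γ hγ.1).1, ⟨(h1 γ hγ.1).2.1, (hP γ hγ.1).2 hγ.2⟩,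
      (h1 γ hγ.1).2.2.imp (fun h => ⟨h, hγ.2⟩) fun h => ⟨h, (hP γ hγ.1).2 hγ.2⟩⟩)
      fun γ hγ => ⟨⟨h0 hγ.1, hγ.2⟩, fun e => h.iso γ hγ.1 e.1⟩
  refine Nat.pow_left_injective (n := 2 * T.m) (by have := T.hm; omega) ?_
  simp only [hN]
  rw [mul_comm 2, pow_mul, h.good.card, sz, key _ fun γ hγ => op_fix_iff hα (h1 γ hγ).1,
    key _ fun γ hγ => (op_fix_iff hα (h1 γ hγ).1).not]
  ring

theorem Tr.sz {n : G} {w : Equiv.Perm Φ} (h : T.Tr n w) (α : Φ) :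
    T.sz {γ | R.pair (w α) γ = 1} = T.sz {γ | R.pair α γ = 1} := by
  have key : ∀ P : Set Φ, (∀ γ, w γ ∈ P ↔ γ ∈ P) →
      ({γ | R.pair (w α) γ = 1} ∩ P).ncard = ({γ | R.pair α γ = 1} ∩ P).ncard := fun P hP => by
    rw [← Set.ncard_image_of_injective ({γ | R.pair α γ = 1} ∩ P) w.injective]
    congr 1
    ext γ
    obtain ⟨γ, rfl⟩ := w.surjective γ
    simp [h.pair, hP]
  rw [Tw.sz, Tw.sz, key _ h.fix, key _ fun γ => (h.fix γ).not]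

variable {V : Type*} [AddCommGroup V] [Module ℂ V] {a : G → End ℂ V} {ψ : AddChar F ℂ} (ha : Act T.K a)
  {α₀ : Φ} (H : T.Hyp α₀) [FiniteDimensional ℂ V] [Finite F] (hψ : ∃ t, T.θ t = t ∧ ψ t ≠ 1)
  {N₀ : ℕ} (hN₀ : N₀ ^ (2 * T.m) = T.sz {γ | R.pair α₀ γ = 1})
include ha H hψ hN₀

theorem finrank_pol {α : Φ} {Γ : Set Φ} (h : T.Iso α Γ) (hα : T.ρ α = α)
    (h1 : ∀ γ, R.pair α γ = 1 → γ ∈ Γ ∨ op R α γ ∈ Γ) {c : F} (hc : T.θ c = c) (hc0 : c ≠ 0) :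
    finrank ℂ (T.Wt a ψ α₀ 1) = N₀ * finrank ℂ (T.Wt a ψ α c ⊓ Fx T.K a (S.XS Γ) : Submodule ℂ V) := by
  rw [← H.finrank_Wt ha hα hc hc0, h.heis_Wt ha hψ hα hc hc0, h.card (X := {γ | R.pair α γ = 1}) hα h.lev
    (fun γ hγ => ⟨hγ, T.sl.pair_op_self hγ, h1 γ hγ⟩) (N := N₀)]
  obtain ⟨n, w, h2, rfl⟩ := H.exists_tr hα
  rw [hN₀, h2.sz]

theorem finrank_G1 {α : Φ} (hα : T.ρ α = α) (h1 : R.pair α₀ α = 1) {c : F} (hc : T.θ c = c) (hc0 : c ≠ 0) :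
    finrank ℂ (T.Wt a ψ α₀ 1) = N₀ * finrank ℂ (T.Wt a ψ α c ⊓ Fx T.K a (S.XS (G1 R α₀ α)) : Submodule ℂ V) :=
  finrank_pol ha H hψ hN₀ (iso_G1 H hα h1) hα (fun γ hγ => by
    by_cases h : 1 ≤ R.pair α₀ γ
    · exact .inl ⟨hγ, h⟩
    · exact .inr ⟨T.sl.pair_op_self hγ, by rw [T.sl.pair_op hγ]; omega⟩) hc hc0

omit hN₀ in
/-- The two highest layers. -/
theorem two_layers {α : Φ} (hα : T.ρ α = α) (h1 : R.pair α₀ α = 1) : ∃ D', finrank ℂ (T.Wt a ψ α₀ 1) = T.q * D' ∧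
    finrank ℂ (T.Wt a ψ α₀ 0 ⊓ T.Wt a ψ α 0 : Submodule ℂ V) + (T.q - 1) * (T.q * D' + D') ≤ finrank ℂ V := by
  classical
  have h2 : T.Iso α (T.orb α₀) := iso_orb hα (T.sl.symm _ _ ▸ h1) H.top.pos
  have hne : α₀ ≠ α := fun e => by rw [e, R.pair_self] at h1; omega
  have h3 : ∀ c, T.θ c = c → c ≠ 0 → finrank ℂ (T.Wt a ψ α₀ 1) =
      T.q * finrank ℂ (T.Wt a ψ α c ⊓ Fx T.K a (S.XS (T.orb α₀)) : Submodule ℂ V) := fun c hc hc0 => by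
    rw [← H.finrank_Wt ha hα hc hc0, h2.heis_Wt ha hψ hα hc hc0, T.card_orb_fix H.fix]
  have hq : 0 < T.q := by
    have : Nonempty {t : F // T.θ t = t} := ⟨⟨0, map_zero _⟩⟩
    exact Nat.card_pos
  refine ⟨_, h3 1 (map_one _) one_ne_zero, ?_⟩
  set D' := finrank ℂ (T.Wt a ψ α 1 ⊓ Fx T.K a (S.XS (T.orb α₀)) : Submodule ℂ V)
  have := sum_le (a := a) hψ {α₀, α} (fun β => if β = α₀ then T.q * D' else D') fun β hβ c hc hc0 => by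
    rcases Finset.mem_insert.1 hβ with rfl | hβ
    · refine ⟨_, ?_, le_rfl, fun γ _ h4 h5 => absurd (H.top γ h4) (not_lt.2 h5)⟩
      rw [if_pos rfl, H.finrank_Wt ha H.fix hc hc0, h3 1 (map_one _) one_ne_zero]
    · rw [Finset.mem_singleton.1 hβ, if_neg hne.symm]
      refine ⟨_, (Nat.eq_of_mul_eq_mul_left hq ((h3 1 (map_one _) one_ne_zero).symm.trans (h3 c hc hc0))).le, inf_le_left,
        fun γ h4 h5 _ => inf_le_right.trans (Fx_le_Wt ?_ ?_)⟩ <;>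
        rw [(Finset.mem_insert.1 h4).resolve_right (by simpa using h5)]
      exacts [H.fix, T.self_mem_orb α₀]
  rwa [Finset.sum_pair hne, if_pos rfl, if_neg hne.symm, Finset.iInf_insert, Finset.iInf_singleton] at this

variable (hD : finrank ℂ (T.Wt a ψ α₀ 1) = N₀)
  (hP : ∀ α, T.ρ α = α → R.pair α₀ α = 1 → ∀ c, T.θ c = c → c ≠ 0 →
    ∃ v ≠ 0, v ∈ T.Wt a ψ α c ∧ v ∈ Fx T.K a (S.XS (B2 R α₀ α)))
include hP

omit hN₀ hψ in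
theorem exists_B2 {β α : Φ} (hβ : T.ρ β = β) (hα : T.ρ α = α) (h1 : R.pair β α = 1) {c : F} (hc : T.θ c = c) (hc0 : c ≠ 0) :
    ∃ v ≠ 0, v ∈ T.Wt a ψ α c ∧ v ∈ Fx T.K a (S.XS (B2 R β α)) := by
  obtain ⟨n, w, h2, rfl⟩ := H.exists_tr hβ
  obtain ⟨α, rfl⟩ := w.surjective α
  rw [h2.fix] at hα
  obtain ⟨e, e1, e2, e3⟩ := h2.exists_conj hα
  obtain ⟨v, h3, h4, h5⟩ := hP α hα (h2.pair _ _ ▸ h1) (c * e) (by rw [map_mul, hc, e2]) (mul_ne_zero hc0 e1)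
  refine ⟨a n v, ha.ne_zero h2.mem h3, by simpa [e1] using map_Wt ha h2.mem hα e1 e2 e3 h4,
    ha.map_mem_Fx h2.mem (fun y => h2.ind.inv_conj_mem_XS fun r hr => ?_) h5⟩
  obtain ⟨r, rfl⟩ := w.surjective r
  rw [show w⁻¹ (w r) = r from w.symm_apply_apply r]
  exact ⟨h2.pair _ _ ▸ hr.1, fun e => hr.2 (congrArg w e)⟩

include hD

theorem exists_layer (hN0 : N₀ ≠ 0) {α : Φ} (hα : T.ρ α = α) (hp : R.Pos α) {N : ℕ} (hN : N ^ (2 * T.m) = T.sz (Qp R α))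
    {c : F} (hc : T.θ c = c) (hc0 : c ≠ 0) : ∃ W : Submodule ℂ V, N ≤ finrank ℂ W ∧ W ≤ T.Wt a ψ α c ∧
      ∀ β, T.ρ β = β → R.Pos β → β ≠ α → R.ht α ≤ R.ht β → W ≤ T.Wt a ψ β 0 := by
  obtain ⟨f, hf⟩ := Countable.exists_injective_nat (Set Φ)
  have hl := T.sl
  have hK : ∀ γ, R.pair α γ = 1 → (γ ∈ Kp R α ↔ ¬ R.Pos (op R α γ)) := fun γ h => ⟨fun h' => (hl.pos_op_iff h).not.2 h'.2,
    fun h' => ⟨by
      have := (R.not_pos_iff _).1 h'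
      rw [hl.root_op h, sub_nonpos] at this
      exact le_trans hp this, (hl.pos_op_iff h).not.1 h'⟩⟩
  have hQ : ∀ γ ∈ Qp R α, op R α γ ∈ Qp R α := fun γ h => ⟨hl.pair_op_self h.1, (hl.pos_op_iff h.1).2 h.2.2, by
    rw [hl.root_op h.1]; exact sub_le_self _ h.2.1⟩
  have sK : T.Stab (Kp R α) := fun γ h => ⟨(T.ρ_pos γ).2 h.1, by rw [← hα, T.ρ_le]; exact h.2⟩
  have sQ : T.Stab (Qp R α) := fun γ h => ⟨(T.pair_fix hα γ).trans h.1, (T.ρ_pos γ).2 h.2.1, by rw [← hα, T.ρ_le]; exact h.2.2⟩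
  let Γ₂ : Set Φ := {γ | γ ∈ Qp R α ∧ f (T.orb γ) < f (T.orb (op R α γ))}
  let Γ : Set Φ := {γ | R.pair α γ = 1 ∧ γ ∈ Kp R α} ∪ Γ₂
  have s2 : T.Stab Γ₂ := fun γ h => ⟨sQ γ h.1, by rw [← T.ρ_op hα, T.orb_ρ, T.orb_ρ]; exact h.2⟩
  have c2 : ∀ γ ∈ Qp R α, γ ∈ Γ₂ ∨ op R α γ ∈ Γ₂ := fun γ h => by
    rcases lt_trichotomy (f (T.orb γ)) (f (T.orb (op R α γ))) with h' | h' | h'
    · exact .inl ⟨h, h'⟩
    · have := T.pair_orb_nonneg (T.self_mem_orb γ) (hf h' ▸ T.self_mem_orb (op R α γ))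
      rw [hl.pair_op_neg h.1] at this; omega
    · exact .inr ⟨hQ γ h, by rwa [hl.op_op h.1]⟩
  have iΓ : T.Iso α Γ := by
    refine ⟨fun γ h => h.elim (·.2.1) (·.1.2.1), fun γ h => h.imp (fun h => ⟨(T.pair_fix hα γ).trans h.1, sK γ h.2⟩) (s2 γ),
      fun γ h => h.elim (·.1) (·.1.1), ?_⟩
    rintro γ (h | h) (h' | h')
    · exact (hK γ h.1).1 h.2 h'.2.1
    · exact (hK γ h.1).1 h.2 h'.1.2.1
    · exact h'.2.2 (hQ γ h.1).2.2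
    · have := h'.2; rw [hl.op_op h.1.1] at this; exact lt_asymm h.2 this
  have hE : finrank ℂ (T.Wt a ψ α c ⊓ Fx T.K a (S.XS Γ) : Submodule ℂ V) = 1 := by
    have := finrank_pol ha H hψ hN₀ iΓ hα (fun γ h => by
      by_cases h1 : R.Pos (op R α γ)
      · by_cases h2 : R.Pos γ
        · exact (c2 γ ⟨h, h2, (hl.pos_op_iff h).1 h1⟩).imp .inr .inr
        · exact .inr (.inl ⟨hl.pair_op_self h, (hK _ (hl.pair_op_self h)).2 (by rwa [hl.op_op h])⟩)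
      · exact .inl (.inl ⟨h, (hK γ h).2 h1⟩)) hc hc0
    rw [hD] at this
    exact (Nat.eq_of_mul_eq_mul_left (Nat.pos_of_ne_zero hN0) ((mul_one _).trans this)).symm
  -- the line is fixed by the groups `J β`
  have lev0 : ∀ β, R.pair α β = 1 → β ∈ Kp R α → ∀ γ, R.pair α γ = 1 → R.Pos γ → 0 ≤ R.pair β γ := fun β h1 h2 γ h3 h4 =>
    T.nonneg_of_ne h1 h3 fun e => (hK β h1).1 h2 (e ▸ h4)
  have key : ∀ β, T.ρ β = β → R.pair α β = 1 → β ∈ Kp R α → T.Wt a ψ α c ⊓ Fx T.K a (S.XS Γ) ≤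
      Fx T.K a (S.XS {δ | δ ∈ Kp R α ∧ 1 ≤ R.pair β δ}) := fun β hβ h1 h2 => by
    let B : Set Φ := {δ | 1 ≤ R.pair β δ ∧ (δ ∈ Kp R α ∨ δ ∈ Γ)}
    have iY : T.Iso α {γ | γ ∈ Γ ∧ R.pair β γ = 0} := iΓ.mono (fun _ h => h.1) fun γ h =>
      ⟨iΓ.stab γ h.1, (T.pair_fix hβ γ).trans h.2⟩
    have h3 := iY.heis ha hψ hα hc hc0 (W := T.Wt a ψ α c ⊓ Fx T.K a (S.XS B)) inf_le_left
      (fun g hg k v hv => ⟨map_Wt_XS ha hα (fun r hr => by rw [iY.lev r hr]; norm_num) hg k hv.1,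
        ha.map_mem_Fx_of_normalizer k (S.XS_le_normalizer (fun k r s hr hs hk => ?_) (fun r hr e => ?_) hg) hv.2⟩)
      (fun γ hγ g hg k v hv => ⟨map_Wt_XS ha hα (fun r hr => by
          rw [T.pair_orb hα hr, hl.pair_op_self (iY.lev γ hγ)]; norm_num) hg k hv.1,
        ha.map_mem_Fx_of_normalizer k (hl.le_normalizer S (β := β) (fun r hr => by
          rw [T.pair_orb hβ hr, hl.pair_op (iY.lev γ hγ), hγ.2, hl.symm, h1]; norm_num) (fun _ h => h.1)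
          (show _ ∧ _ from ⟨by simp, .inl h2⟩) hg) hv.2⟩)
    · obtain ⟨v, v0, v1, v2⟩ := exists_B2 ha H hP hβ hα (hl.symm _ _ ▸ h1) hc hc0
      have h4 : finrank ℂ (T.Wt a ψ α c ⊓ Fx T.K a (S.XS B) : Submodule ℂ V) ≠ 0 := fun e => v0 (by
        refine (Submodule.eq_bot_iff _).1 (Submodule.finrank_eq_zero.1 e) v ⟨v1, Fx_mono (S.XS_mono fun δ h => show _ ∧ _ from ⟨h.1, ?_⟩) v2⟩
        rintro rfl
        exact h.2.elim (fun h => h.2 le_rfl) fun h => by have := iΓ.lev _ h; rw [R.pair_self] at this; omega)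
      have h6 : (T.Wt a ψ α c ⊓ Fx T.K a (S.XS B)) ⊓ Fx T.K a (S.XS {γ | γ ∈ Γ ∧ R.pair β γ = 0}) ≤
          T.Wt a ψ α c ⊓ Fx T.K a (S.XS Γ) := fun v hv => ⟨hv.1.1, mem_Fx ha iΓ.good fun γ hγ => ?_⟩
      · exact (le_of_finrank_one hE h6 (right_ne_zero_of_mul (h3 ▸ h4))).trans (inf_le_left.trans (inf_le_right.trans
          (Fx_mono (S.XS_mono fun δ h => show _ ∧ _ from ⟨h.2, .inl h.1⟩))))
      rcases (lev0 β h1 h2 γ (iΓ.lev γ hγ) (iΓ.pos γ hγ)).eq_or_lt with h5 | h5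
      · exact Fx_mono (S.XS_mono (T.orb_subset iY.stab (show _ ∧ _ from ⟨hγ, h5.symm⟩))) hv.2
      · exact Fx_mono (S.XS_mono fun s hs => show _ ∧ _ from ⟨(T.pair_orb hβ hs).symm ▸ h5, .inr (T.orb_subset iΓ.stab hγ hs)⟩) hv.1.2
    · rcases hs.2 with h5 | h5
      · exact show _ ∧ _ from ⟨by rw [hl.comb_pair hk ((iY.pos r hr).ne_neg h5.1), hr.2, zero_add]; exact hs.1,
          .inl (hl.ideal_Kp α (iY.pos r hr) h5 hk)⟩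
      · exact (R.not_comb_of_pair_nonneg hl (iΓ.nonneg r hr.1 s h5) k hk).elim
    · have := e.1; rw [R.pair_neg_right, hr.2] at this; omega
  have i2 : T.Iso α Γ₂ := iΓ.mono Set.subset_union_right s2
  let W : Submodule ℂ V := T.Wt a ψ α c ⊓ ⨅ β ∈ {β | T.ρ β = β ∧ R.pair α β = 1 ∧ β ∈ Kp R α},
    Fx T.K a (S.XS {δ | δ ∈ Kp R α ∧ 1 ≤ R.pair β δ})
  have inv : ∀ g ∈ S.XS (Qp R α), g ∈ T.K → ∀ v ∈ W, a g v ∈ W := fun g hg k v hv => by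
    refine ⟨map_Wt_XS ha hα (fun r hr => by rw [hr.1]; norm_num) hg k hv.1, (Submodule.mem_iInf _).2 fun β =>
      (Submodule.mem_iInf _).2 fun hβ => ha.map_mem_Fx_of_normalizer k (S.XS_le_normalizer_of_pos (fun k r s hr hs hk =>
        show _ ∧ _ from ⟨hl.ideal_Kp α hr.2.1 hs.1 hk, ?_⟩) (fun r hr => hr.2.1) (fun r hr => hr.1.1) hg)
          ((Submodule.mem_iInf _).1 ((Submodule.mem_iInf _).1 hv.2 β) hβ)⟩
    have := lev0 β hβ.2.1 hβ.2.2 r hr.1 hr.2.1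
    have := hs.2
    rw [hl.comb_pair hk (hr.2.1.ne_neg hs.1.1)]; omega
  have h3 := i2.heis ha hψ hα hc hc0 (W := W) inf_le_left (fun g hg => inv g (S.XS_mono (fun _ h => h.1) hg))
    fun γ hγ g hg => inv g (S.XS_mono (T.orb_subset sQ (hQ γ hγ.1)) hg)
  rw [i2.card hα (fun _ h => h.1) (fun γ h => ⟨h.1, hQ γ h, c2 γ h⟩) hN] at h3
  refine ⟨W, h3 ▸ Nat.le_mul_of_pos_right _ (hE.ge.trans (Submodule.finrank_mono (le_inf (le_inf inf_le_left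
    (le_iInf₂ fun β hβ => key β hβ.1 hβ.2.1 hβ.2.2)) (inf_le_right.trans (Fx_mono (S.XS_mono Set.subset_union_right)))))),
    inf_le_left, fun δ hδ h4 h5 h6 => ?_⟩
  have h7 : δ ∈ Kp R α := ⟨h4, fun e => h5 (R.root_inj (funext fun i =>
    (Finset.sum_eq_sum_iff_of_le fun i _ => e i).1 (le_antisymm (Finset.sum_le_sum fun i _ => e i) h6) i (Finset.mem_univ i)))⟩
  suffices ∃ β, (T.ρ β = β ∧ R.pair α β = 1 ∧ β ∈ Kp R α) ∧ 1 ≤ R.pair β δ by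
    obtain ⟨β, h8, h9⟩ := this
    exact inf_le_right.trans ((iInf₂_le β h8).trans (Fx_le_Wt hδ ⟨h7, h9⟩))
  have up : ∀ γ, T.ρ γ = γ → R.Pos γ → R.pair δ γ = -1 → R.pair α γ + R.pair α δ = 1 →
      ∃ β, (T.ρ β = β ∧ R.pair α β = 1 ∧ β ∈ Kp R α) ∧ 1 ≤ R.pair β δ := fun γ k1 k2 k3 k4 =>
    ⟨R.refl δ γ, ⟨by rw [T.ρ_refl, hδ, k1], by rw [hl.pair_refl, k3]; omega,
      mem_Kp_of_le h7 (by rw [R.root_refl, k3]; simpa using (show 0 ≤ R.root γ from k2))⟩, by rw [hl.symm, R.pair_refl_right, k3]; norm_num⟩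
  rcases hl.cases α δ with h | h | h | h | h
  · exact absurd h h5
  · exact absurd h (hp.ne_neg h4)
  · exact ⟨δ, ⟨hδ, h, h7⟩, by simp⟩
  · obtain ⟨γ, k1, k2, k3⟩ := H.exists_mid hα hδ h
    by_cases k4 : R.Pos (op R α γ)
    · exact up _ ((op_fix_iff hα k2).2 k1) k4 (by rw [hl.pair_op k2, k3, hl.symm, h]; rfl) (by rw [hl.pair_op_self k2, h]; rfl)
    · exact ⟨γ, ⟨k1, k2, (hK γ k2).2 k4⟩, by rw [hl.symm, k3]⟩
  · exact up α hα hp (hl.symm _ _ ▸ h) (by rw [R.pair_self, h]; rfl)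

theorem all_layers (hN0 : N₀ ≠ 0) (I : Finset Φ) (hI : ∀ α ∈ I, T.ρ α = α ∧ R.Pos α) (N : Φ → ℕ)
    (hN : ∀ α ∈ I, N α ^ (2 * T.m) = T.sz (Qp R α)) :
    finrank ℂ (⨅ β ∈ I, T.Wt a ψ β 0 : Submodule ℂ V) + (T.q - 1) * ∑ α ∈ I, N α ≤ finrank ℂ V :=
  sum_le hψ I N fun α hα _ hc hc0 =>
    (exists_layer ha H hψ hN₀ hD hP hN0 (hI α hα).1 (hI α hα).2 (hN α hα) hc hc0).imp fun _ h =>
      ⟨h.1, h.2.1, fun β hβ => h.2.2 β (hI β hβ).1 (hI β hβ).2⟩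

omit hP hD hN₀ in
theorem finrank_ne_zero {t : F} (ht : T.θ t = t) (hne : a (S.x α₀ t) ≠ 1) : finrank ℂ (T.Wt a ψ α₀ 1) ≠ 0 := by
  obtain ⟨c, h1, h2, h3⟩ := exists_Wt ha hψ H.fix ht hne
  rw [← H.finrank_Wt ha H.fix h1 h2]
  exact fun e => h3 (Submodule.finrank_eq_zero.1 e)

omit hP in
theorem exists_B1 (hN0 : N₀ ≠ 0) (h4 : ∀ α δ, T.ρ α = α → R.pair α₀ α = 1 → T.ρ δ = δ → R.pair α₀ δ = 1 → R.pair α δ = 0 →
      ∃ ε, R.pair α₀ ε = 0 ∧ R.pair α ε = 0 ∧ R.pair δ ε = 1)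
    (h6 : (∃ r, T.ρ r ≠ r) → ∃ c : F, c ≠ 0 ∧ c ^ 2 ≠ 1) {α : Φ} (hα : T.ρ α = α) (h1 : R.pair α₀ α = 1) {c : F}
    (hc : T.θ c = c) (hc0 : c ≠ 0) : finrank ℂ (T.Wt a ψ α c ⊓ Fx T.K a (S.XS (G1 R α₀ α)) : Submodule ℂ V) = 1 ∧
      ∃ v ≠ 0, v ∈ T.Wt a ψ α c ⊓ Fx T.K a (S.XS (G1 R α₀ α)) ∧ v ∈ Fx T.K a (S.XS (B1 R α₀ α)) := by
  have hE := finrank_G1 ha H hψ hN₀ hα h1 hc hc0
  rw [hD] at hE
  replace hE := (Nat.eq_of_mul_eq_mul_left (Nat.pos_of_ne_zero hN0) ((mul_one _).trans hE)).symm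
  obtain ⟨v, hv, h0⟩ := Submodule.exists_mem_ne_zero_of_ne_bot (p := T.Wt a ψ α c ⊓ Fx T.K a (S.XS (G1 R α₀ α))) fun e => by
    rw [e, finrank_bot] at hE; exact zero_ne_one hE
  exact ⟨hE, v, h0, hv, mem_Fx_B1 ha H hα h1 hE hv h0 (fun δ => h4 α δ hα h1) h6⟩

omit hP hD in
/-- The lower bound. -/
theorem bound {t : F} (ht : T.θ t = t) (hne : a (S.x α₀ t) ≠ 1)
    (h4 : ∀ α δ, T.ρ α = α → R.pair α₀ α = 1 → T.ρ δ = δ → R.pair α₀ δ = 1 → R.pair α δ = 0 →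
      ∃ ε, R.pair α₀ ε = 0 ∧ R.pair α ε = 0 ∧ R.pair δ ε = 1)
    (h5 : ∀ α, T.ρ α = α → R.pair α₀ α = 1 → (∃ ε, T.ρ ε = ε ∧ R.pair α₀ ε = 0 ∧ R.pair α ε = -1) ∨
      ∃ δ, T.ρ δ ≠ δ ∧ R.pair α₀ δ = 1 ∧ R.pair α δ = 0 ∧ ∃ c : F, c ≠ 0 ∧ T.Nm c ≠ 1)
    (h6 : (∃ r, T.ρ r ≠ r) → ∃ c : F, c ≠ 0 ∧ c ^ 2 ≠ 1) (I : Finset Φ) (hI : ∀ α ∈ I, T.ρ α = α ∧ R.Pos α) (N : Φ → ℕ)
    (hN : ∀ α ∈ I, N α ^ (2 * T.m) = T.sz (Qp R α)) :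
    (∃ D, 2 * N₀ ≤ T.q * D ∧ (T.q - 1) * (T.q * D + D) ≤ finrank ℂ V) ∨
      finrank ℂ (T.Wt a ψ α₀ 1) = N₀ ∧ (T.q - 1) * ∑ α ∈ I, N α ≤ finrank ℂ V := by
  obtain ⟨γ, h1, h2⟩ := H.h3
  have h3 := finrank_G1 ha H hψ hN₀ h1 h2 (map_one _) one_ne_zero
  have h0 := finrank_ne_zero ha H hψ ht hne
  have hN0 : N₀ ≠ 0 := left_ne_zero_of_mul (h3 ▸ h0)
  by_cases hD : finrank ℂ (T.Wt a ψ α₀ 1) = N₀
  · refine .inr ⟨hD, le_of_add_le_right (all_layers ha H hψ hN₀ hD (fun α hα h1 c hc hc0 => ?_) hN0 I hI N hN)⟩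
    obtain ⟨hE, v, h0, hv, hB⟩ := exists_B1 ha H hψ hN₀ hD hN0 h4 h6 hα h1 hc hc0
    exact ⟨v, h0, hv.1, mem_Fx_B2 ha H hα h1 hE hv h0 hB (h5 α hα h1)⟩
  · obtain ⟨D, e1, e2⟩ := two_layers ha H hψ h1 h2
    refine .inl ⟨D, ?_, le_of_add_le_right e2⟩
    rw [← e1, h3, mul_comm]
    rw [h3] at h0 hD
    have := right_ne_zero_of_mul h0
    refine Nat.mul_le_mul_left _ (le_of_not_gt fun e => hD ?_)
    rw [show finrank ℂ (T.Wt a ψ γ 1 ⊓ Fx T.K a (S.XS (G1 R α₀ γ)) : Submodule ℂ V) = 1 by omega, mul_one]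

end Tw

end CL.MX
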