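/-
Minimal degrees of exceptional groups, part 8: the root combinatorics on the packed tables.
-/
import Cfsg.Agent.Known.MXMain
import Cfsg.Agent.Known.MXArith
import Cfsg.Agent.Chev.TabLead

set_option autoImplicit false
set_option linter.unusedSectionVars false

open Module

namespace CL.MX

open CL.Chev CL.Chev.Cert Cfsg Cfsg.Lie

/-- The number of `k < n` with `f k`. -/
def cntLt (n : ℕ) (f : ℕ → Bool) : ℕ := Nat.rec 0 (fun k ih => cond (f k) (Nat.succ ih) ih) n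

theorem cntLt_eq (f : ℕ → Bool) : ∀ n, cntLt n f = ((Finset.range n).filter fun k => f k = true).card
  | 0 => rfl
  | n + 1 => by
    rw [Finset.range_add_one, Finset.filter_insert, show cntLt (n + 1) f = cond (f n) (cntLt n f + 1) (cntLt n f) from rfl, cntLt_eq f n]
    cases f n <;> simp

theorem ncard_eq_cnt {n : ℕ} (f : ℕ → Bool) : {r : Fin n | f r = true}.ncard = cntLt n f := by
  rw [cntLt_eq, ← Set.ncard_image_of_injective _ Fin.val_injective, ← Set.ncard_coe_finset]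
  congr 1
  ext k
  simp only [Set.mem_image, Set.mem_ofPred_eq, Finset.coe_filter, Finset.mem_range]
  exact ⟨by rintro ⟨r, h, rfl⟩; exact ⟨r.2, h⟩, fun h => ⟨⟨k, h.1⟩, h.2, rfl⟩⟩

theorem ev_mono (x : ℤ) : ∀ k, ev (List.replicate k 0 ++ [1]) x = x ^ k
  | 0 => by simp [ev]
  | k + 1 => by rw [List.replicate_succ, List.cons_append, ev, ev_mono x k]; ring

/-- The sum of the monomials `x ^ e k` over the `k < n` with `f k`. -/
def psum (n : ℕ) (f : ℕ → Bool) (e : ℕ → ℕ) : List ℤ :=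
  Nat.rec [] (fun k ih => cond (f k) (padd (List.replicate (e k) 0 ++ [1]) ih) ih) n

theorem ev_psum (f : ℕ → Bool) (e : ℕ → ℕ) (x : ℤ) :
    ∀ n, ev (psum n f e) x = ∑ k ∈ Finset.range n, if f k = true then x ^ e k else 0
  | 0 => rfl
  | n + 1 => by
    rw [Finset.sum_range_succ, show psum (n + 1) f e = cond (f n) (padd (List.replicate (e n) 0 ++ [1]) (psum n f e)) (psum n f e)
      from rfl, ← ev_psum f e x n]
    cases f n <;> simp [ev_padd, ev_mono, add_comm]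

section
variable (A : Aux) (ρ : ℕ → ℕ)
/-- fixed roots -/
def fxB (r : ℕ) : Bool := Nat.beq (ρ r) r
/-- positive roots -/
def posB (r : ℕ) : Bool := allLt A.l fun i => leZ 0 (A.rt r i)
/-- the order on roots -/
def leB (r s : ℕ) : Bool := allLt A.l fun i => leZ (A.rt r i) (A.rt s i)
/-- the pairing -/
def pb (r s : ℕ) (c : ℤ) : Bool := beqZ (A.pr r s) c
/-- the hypotheses `Hyp` -/
def hypChk : Bool := A.topChk && fxB ρ (A.ng 0) && (allLt A.n fun β => !(fxB ρ β && pb A (A.ng 0) β 0) ||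
  anyLt A.n fun γ => fxB ρ γ && pb A (A.ng 0) γ 1 && pb A β γ 1) && anyLt A.n fun γ => fxB ρ γ && pb A (A.ng 0) γ 1
/-- the hypothesis `h4` -/
def h4Chk : Bool := allLt A.n fun α => !(fxB ρ α && pb A (A.ng 0) α 1) || allLt A.n fun δ =>
  !(fxB ρ δ && pb A (A.ng 0) δ 1 && pb A α δ 0) || anyLt A.n fun ε => pb A (A.ng 0) ε 0 && pb A α ε 0 && pb A δ ε 1
/-- the hypothesis `h5` -/
def h5Chk (b : Bool) : Bool := allLt A.n fun α => !(fxB ρ α && pb A (A.ng 0) α 1) ||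
  (anyLt A.n fun ε => fxB ρ ε && pb A (A.ng 0) ε 0 && pb A α ε (-1)) ||
  (b && anyLt A.n fun δ => !fxB ρ δ && pb A (A.ng 0) δ 1 && pb A α δ 0)
/-- the size of `Qp` -/
def qc (α : ℕ) : ℕ := cntLt A.n fun γ => pb A α γ 1 && posB A γ && leB A γ α
/-- the numerical part -/
def layChk (e r : ℕ) (L : List ℤ) : Bool := Nat.beq (cntLt A.n fun γ => pb A (A.ng 0) γ 1) (2 * (e + 1)) &&
  (allLt A.n fun α => !(fxB ρ α && posB A α) || Nat.beq (qc A α % 2) 0) &&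
  (padd (pmul [-1, 1] (psum A.n (fun α => fxB ρ α && posB A α) fun α => qc A α / 2)) (padd [(r : ℤ)] (L.map (-1 * ·)))).all (· == 0) &&
  (pshift 2 (padd (List.replicate e 0 ++ [-2, 0, 2]) (L.map (-1 * ·)))).all (fun a => decide (0 ≤ a))
end

variable {F : Type*} [Field F] {G : Type*} [Group G]

theorem Tw.sz_eq {ι Φ : Type} [Fintype ι] [DecidableEq ι] {R : RS ι Φ} {S : StSys R F G} [Finite Φ] (T : Tw S)
    (hF : (∃ r, T.ρ r ≠ r) → Nat.card F = T.q ^ T.m) {X : Set Φ} {e : ℕ} (h : X.ncard = 2 * e) :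
    (T.q ^ e) ^ (2 * T.m) = T.sz X := by
  rw [← Set.ncard_inter_add_ncard_sdiff_eq_ncard X {r | T.ρ r = r}] at h
  have e1 : X \ {r | T.ρ r = r} = X ∩ {r | T.ρ r ≠ r} := rfl
  rw [Tw.sz, ← e1]
  by_cases h1 : ∃ r, T.ρ r ≠ r
  · rw [hF h1, ← pow_mul, ← pow_mul, ← pow_add, ← mul_add, h]; congr 1; ring
  · have : X \ {r | T.ρ r = r} = ∅ := Set.eq_empty_of_forall_notMem fun r hr => h1 ⟨r, hr.2⟩
    rw [this, Set.ncard_empty, add_zero] at h
    rw [this, Set.ncard_empty, pow_zero, mul_one, ← pow_mul, h]; congr 1; ring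

variable {D : ChevalleyDatum} {A : Aux} (Tb : Tab D A) (E : Real D) {S : StSys E.R F G} (T : Tw S) {ρ : ℕ → ℕ}
  (hρ : ∀ r, (T.ρ r : ℕ) = ρ r)
include Tb

theorem tab_ex {p : ℕ → Prop} (h : ∃ k < A.n, p k) : ∃ r : Fin D.nroots, p r := let ⟨k, h1, h2⟩ := h; ⟨⟨k, Tb.lt_nroots h1⟩, h2⟩

theorem pb_iff (r s : Fin D.nroots) (c : ℤ) : pb A r s c = true ↔ E.R.pair r s = c := by rw [pb, beqZ_iff, Tb.pair E]

theorem posB_iff (r : Fin D.nroots) : posB A r = true ↔ E.R.Pos r := by simp only [posB, allLt_iff, leZ_iff, Tb.pos_iff E]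

theorem leB_iff (r s : Fin D.nroots) : leB A r s = true ↔ E.R.root r ≤ E.R.root s := by
  simp only [leB, allLt_iff, leZ_iff, Pi.le_def, Tb.root E]
  exact ⟨fun h i => h i (Tb.lt_l i), fun h i hi => h ⟨i, Tb.lt_rank hi⟩⟩

theorem tab_ncard {f : ℕ → Bool} {X : Set (Fin D.nroots)} (h : ∀ r : Fin D.nroots, f r = true ↔ r ∈ X) : X.ncard = cntLt A.n f := by
  rw [← Tb.ag.nroots, ← ncard_eq_cnt]; congr 1; ext r; exact (h r).symm

include hρ

omit Tb in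
theorem fxB_iff (r : Fin D.nroots) : fxB ρ r = true ↔ T.ρ r = r := by rw [fxB, beq_iff', ← hρ, Fin.val_inj]

theorem tab_hyp (h : hypChk A ρ = true) : T.Hyp Tb.top := by
  simp only [hypChk, Bool.and_eq_true, allLt_iff, anyLt_iff, Bool.or_eq_true, Bool.not_eq_true', Bool.eq_false_iff] at h
  obtain ⟨⟨⟨h1, h2⟩, h3⟩, h4⟩ := h
  refine ⟨Tb.highest E h1, (fxB_iff E T hρ Tb.top).1 h2, fun β hβ h5 => ?_, ?_⟩
  · obtain ⟨γ, ⟨k1, k2⟩, k3⟩ := tab_ex Tb ((h3 β (Tb.lt_n β)).resolve_left (by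
      simpa using ⟨(fxB_iff E T hρ β).2 hβ, (pb_iff Tb E Tb.top β 0).2 h5⟩))
    exact ⟨γ, (fxB_iff E T hρ γ).1 k1, (pb_iff Tb E Tb.top γ 1).1 k2, (pb_iff Tb E β γ 1).1 k3⟩
  · obtain ⟨γ, k1, k2⟩ := tab_ex Tb h4
    exact ⟨γ, (fxB_iff E T hρ γ).1 k1, (pb_iff Tb E Tb.top γ 1).1 k2⟩

theorem tab_h4 (h : h4Chk A ρ = true) (α δ : Fin D.nroots) (h1 : T.ρ α = α) (h2 : E.R.pair Tb.top α = 1) (h3 : T.ρ δ = δ)
    (h4 : E.R.pair Tb.top δ = 1) (h5 : E.R.pair α δ = 0) :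
    ∃ ε, E.R.pair Tb.top ε = 0 ∧ E.R.pair α ε = 0 ∧ E.R.pair δ ε = 1 := by
  simp only [h4Chk, Bool.and_eq_true, allLt_iff, anyLt_iff, Bool.or_eq_true, Bool.not_eq_true', Bool.eq_false_iff] at h
  obtain ⟨ε, ⟨k1, k2⟩, k3⟩ := tab_ex Tb ((((h α (Tb.lt_n α)).resolve_left (by
    simpa using ⟨(fxB_iff E T hρ α).2 h1, (pb_iff Tb E Tb.top α 1).2 h2⟩)) δ (Tb.lt_n δ)).resolve_left (not_not.2 (by
      simp only [Bool.and_eq_true]
      exact ⟨⟨(fxB_iff E T hρ δ).2 h3, (pb_iff Tb E Tb.top δ 1).2 h4⟩, (pb_iff Tb E α δ 0).2 h5⟩)))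
  exact ⟨ε, (pb_iff Tb E Tb.top ε 0).1 k1, (pb_iff Tb E α ε 0).1 k2, (pb_iff Tb E δ ε 1).1 k3⟩

theorem tab_h5 {b : Bool} (h : h5Chk A ρ b = true) (hb : b = true → ∃ c : F, c ≠ 0 ∧ T.Nm c ≠ 1) (α : Fin D.nroots)
    (h1 : T.ρ α = α) (h2 : E.R.pair Tb.top α = 1) : (∃ ε, T.ρ ε = ε ∧ E.R.pair Tb.top ε = 0 ∧ E.R.pair α ε = -1) ∨
      ∃ δ, T.ρ δ ≠ δ ∧ E.R.pair Tb.top δ = 1 ∧ E.R.pair α δ = 0 ∧ ∃ c : F, c ≠ 0 ∧ T.Nm c ≠ 1 := by
  simp only [h5Chk, Bool.and_eq_true, allLt_iff, anyLt_iff, Bool.or_eq_true, Bool.not_eq_true', Bool.eq_false_iff, or_assoc] at h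
  rcases (h α (Tb.lt_n α)).resolve_left (by
    simpa using ⟨(fxB_iff E T hρ α).2 h1, (pb_iff Tb E Tb.top α 1).2 h2⟩) with h | ⟨h, h'⟩
  · obtain ⟨ε, ⟨k1, k2⟩, k3⟩ := tab_ex Tb h
    exact .inl ⟨ε, (fxB_iff E T hρ ε).1 k1, (pb_iff Tb E Tb.top ε 0).1 k2, (pb_iff Tb E α ε _).1 k3⟩
  · obtain ⟨ε, ⟨k1, k2⟩, k3⟩ := tab_ex Tb h'
    exact .inr ⟨ε, mt (fxB_iff E T hρ ε).2 k1, (pb_iff Tb E Tb.top ε 1).1 k2, (pb_iff Tb E α ε _).1 k3, hb h⟩

variable {V : Type*} [AddCommGroup V] [Module ℂ V] {a : G → End ℂ V} {ψ : AddChar F ℂ} (ha : Act T.K a)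
  [FiniteDimensional ℂ V] [Finite F] (hψ : ∃ t, T.θ t = t ∧ ψ t ≠ 1)
  (hF : (∃ r, T.ρ r ≠ r) → Nat.card F = T.q ^ T.m ∧ ∃ c : F, c ≠ 0 ∧ c ^ 2 ≠ 1) {e r : ℕ} {L : List ℤ}
  (hl : layChk A ρ e r L = true)
include hF hl

omit hρ in
theorem tab_N0 : (T.q ^ (e + 1)) ^ (2 * T.m) = T.sz {γ | E.R.pair Tb.top γ = 1} := by
  simp only [layChk, Bool.and_eq_true, beq_iff'] at hl
  exact T.sz_eq (fun h => (hF h).1) ((tab_ncard Tb fun r => pb_iff Tb E Tb.top r 1).trans hl.1.1.1)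

omit hρ Tb hF in
theorem tab_two (hq : 2 ≤ T.q) {N d : ℕ} (h1 : 2 * T.q ^ (e + 1) ≤ T.q * N) (h2 : (T.q - 1) * (T.q * N + N) ≤ d) :
    ev L T.q ≤ d := by
  simp only [layChk, Bool.and_eq_true] at hl
  have k1 := ev_nonneg (x := T.q - 2) (by omega) _ hl.2
  have k0 : ∀ (x : ℤ) k, ev (List.replicate k 0 ++ [-2, 0, 2]) x = x ^ k * (2 * x ^ 2 - 2) := fun x k => by
    induction k with
    | zero => simp [ev]; ring
    | succ k ih => rw [List.replicate_succ, List.cons_append, ev, ih]; ring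
  rw [ev_pshift, add_sub_cancel, ev_padd, ev_map, k0] at k1
  have k2 : 2 * T.q ^ e ≤ N := Nat.le_of_mul_le_mul_left (c := T.q) (le_of_eq_of_le (by ring) h1) (by omega)
  zify [show 1 ≤ T.q by omega] at h2 k2
  have k3 : (0 : ℤ) ≤ (T.q : ℤ) ^ 2 - 1 := by have : (2 : ℤ) ≤ T.q := by exact_mod_cast hq
                                              nlinarith
  nlinarith [mul_le_mul_of_nonneg_left k2 k3]

include ha hψ

theorem tab_bound (hq : 2 ≤ T.q) (h1 : hypChk A ρ = true) (h4 : h4Chk A ρ = true) {b : Bool} (h5 : h5Chk A ρ b = true)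
    (hb : b = true → ∃ c : F, c ≠ 0 ∧ T.Nm c ≠ 1) {t : F} (ht : T.θ t = t) (hne : a (S.x Tb.top t) ≠ 1) :
    ev L T.q ≤ finrank ℂ V ∨ finrank ℂ (T.Wt a ψ Tb.top 1) = T.q ^ (e + 1) ∧ ev L T.q ≤ finrank ℂ V + r := by
  classical
  have hl' := hl
  simp only [layChk, Bool.and_eq_true, beq_iff', allLt_iff, Bool.or_eq_true, Bool.not_eq_true', Bool.eq_false_iff] at hl'
  refine (Tw.bound ha (tab_hyp Tb E T hρ h1) hψ (tab_N0 Tb E T hF hl) ht hne (tab_h4 Tb E T hρ h4) (tab_h5 Tb E T hρ h5 hb)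
    (fun h => (hF h).2) (Finset.univ.filter fun α => (fxB ρ α && posB A α) = true) (fun α hα => ?_) (fun α => T.q ^ (qc A α / 2))
    fun α hα => ?_).imp (fun ⟨N, k1, k2⟩ => tab_two E T hl hq k1 k2) (And.imp_right fun h => ?_)
  · simpa only [Finset.mem_filter, Finset.mem_univ, true_and, Bool.and_eq_true, fxB_iff E T hρ, posB_iff Tb E] using hα
  · refine T.sz_eq (fun h => (hF h).1) ((tab_ncard Tb (f := fun γ => pb A α γ 1 && posB A γ && leB A γ α) fun r => ?_).trans ?_)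
    · simp only [Bool.and_eq_true, pb_iff Tb E, posB_iff Tb E, leB_iff Tb E, and_assoc]; rfl
    · have := (hl'.1.1.2 α (Tb.lt_n α)).resolve_left (not_not.2 (Finset.mem_filter.1 hα).2)
      change qc A α = _
      omega
  · have k1 := ev_zero T.q _ hl'.1.2
    rw [ev_padd, ev_padd, ev_pmul, ev_map, ev_psum, ← Tb.ag.nroots, ← Fin.sum_univ_eq_sum_range
      (fun k => if (fxB ρ k && posB A k) = true then (T.q : ℤ) ^ (qc A k / 2) else 0), ← Finset.sum_filter] at k1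
    zify [show 1 ≤ T.q by omega] at h
    simp only [ev] at k1
    linarith

end CL.MX
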