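/-
Minimal degrees of exceptional groups, part 9: representations, the untwisted groups.
-/
import Cfsg.Agent.Known.MXTab
import Cfsg.Agent.Known.LSSp
import Cfsg.Agent.Char.Integrality
import Cfsg.Agent.Chev.RealAut
import Cfsg.Agent.Chev.TwReal

set_option autoImplicit false
set_option linter.unusedSectionVars false

open Module

namespace CL.MX

open CL.Chev CL.Chev.Cert Cfsg Cfsg.Lie

theorem exists_act_of {G Γ : Type*} [Group G] [Group Γ] [Finite Γ] [IsSimpleGroup Γ] {K : Subgroup G} (e : K ≃* Γ) {k : ℕ}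
    (ρ : Representation ℂ Γ (Fin k → ℂ)) (hρ : ρ.IsIrreducible) (hk : 2 ≤ k) :
    ∃ a : G → End ℂ (Fin k → ℂ), Act K a ∧ (∀ g ∈ K, g ≠ 1 → a g ≠ 1) ∧ ∀ g : K, a g = ρ (e g) := by
  obtain ⟨a, ha, h⟩ := exists_act (MonoidHom.comp ρ e.toMonoidHom)
  refine ⟨a, ha, fun g hg h1 h2 => h1 ?_, h⟩
  have h3 := (MonoidHom.normal_ker ρ).eq_bot_or_eq_top.resolve_right fun h => CL.LS.not_commutator_le_ker ρ hρ hk (h ▸ le_top)
  exact congrArg Subtype.val (e.map_eq_one_iff.1 (Subgroup.mem_bot.1 (h3 ▸ (h ⟨g, hg⟩).symm.trans h2 : e ⟨g, hg⟩ ∈ ⊥)))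

theorem exists_psi (F : Type*) [Field F] [Finite F] : ∃ ψ : AddChar F ℂ, ψ 1 ≠ 1 := by
  obtain ⟨ψ, h⟩ := CL.LS.exists_psi_complex (F := F)
  obtain ⟨t, ht⟩ := DFunLike.ne_iff.1 h
  exact ⟨ψ.mulShift t, by simpa using ht⟩

variable {F : Type*} [Field F] {G : Type*} [Group G]

/-- The trivial twist. -/
def Tw.one {ι Φ : Type} [Fintype ι] [DecidableEq ι] {R : RS ι Φ} {S : StSys R F G} (hS : S.Faithful) (hl : SL R) : Tw S :=
  ⟨.refl _, 1, 1, .refl _, fun _ => 1, 2, hS, hl, fun _ _ => rfl, fun _ _ => rfl, fun _ _ => by simp, fun _ => mul_one _,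
    fun _ _ => rfl, .inl rfl, fun _ _ => rfl, fun _ h => (h rfl).elim, fun ⟨_, h⟩ => (h rfl).elim⟩

variable {D : ChevalleyDatum} {A : Aux} (Tb : Tab D A) (E : Real D)
include Tb

theorem tab_sl (h : (allLt A.l fun i => allLt A.l fun j => beqZ (A.ca i (A.sim j)) (A.ca j (A.sim i))) = true) : SL E.R :=
  E.irred.len_eq fun i j => by
    simp only [allLt_iff, beqZ_iff] at h
    rw [Tb.cartan E, Tb.cartan E, h i (Tb.lt_l i) j (Tb.lt_l j)]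

theorem rep_bound {S : StSys E.R F G} (T : Tw S) {ρ : ℕ → ℕ} (hρ : ∀ r, (T.ρ r : ℕ) = ρ r) [Finite F] {q : ℕ} (hq : T.q = q)
    (hq2 : 2 ≤ q) (hF : (∃ r, T.ρ r ≠ r) → Nat.card F = q ^ T.m ∧ ∃ c : F, c ≠ 0 ∧ c ^ 2 ≠ 1) {e r : ℕ} {L : List ℤ} {b : Bool}
    (h : (layChk A ρ e r L && hypChk A ρ && h4Chk A ρ && h5Chk A ρ b) = true) (hb : b = true → ∃ c : F, c ≠ 0 ∧ T.Nm c ≠ 1)
    {Γ : Type*} [Group Γ] [Finite Γ] [IsSimpleGroup Γ] (j : T.K ≃* Γ) {k : ℕ}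
    (τ : Representation ℂ Γ (Fin k → ℂ)) (hτ : τ.IsIrreducible) (hk : 2 ≤ k) :
    ev L q ≤ k ∨ ev L q ≤ k + r ∧ ∃ (a : G → End ℂ (Fin k → ℂ)) (ψ : AddChar F ℂ), (∀ g : T.K, a g = τ (j g)) ∧
      finrank ℂ (T.Wt a ψ Tb.top 1) = q ^ (e + 1) := by
  subst hq
  simp only [Bool.and_eq_true] at h
  obtain ⟨a, ha, h1, h2⟩ := exists_act_of j τ hτ hk
  obtain ⟨ψ, hψ⟩ := exists_psi F
  have := tab_bound Tb E T hρ ha ⟨1, map_one _, hψ⟩ hF h.1.1.1 hq2 h.1.1.2 h.1.2 h.2 hb (map_one _)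
    (h1 _ (T.x_mem (tab_hyp Tb E T hρ h.1.1.2).fix (map_one _)) (by simp [T.faithful.x_eq_one_iff]))
  rw [finrank_fin_fun] at this
  exact this.imp_right fun h => ⟨h.2, a, ψ, h2, h.1⟩

theorem rep_bound_one [Fintype F] (hl : SL E.R) {e r : ℕ} {L : List ℤ}
    (h : (layChk A id e r L && hypChk A id && h4Chk A id && h5Chk A id false) = true) [IsSimpleGroup (D.group F)] {k : ℕ}
    (τ : Representation ℂ (D.group F) (Fin k → ℂ)) (hτ : τ.IsIrreducible) (hk : 2 ≤ k) :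
    ev L (Fintype.card F) ≤ k ∨ ev L (Fintype.card F) ≤ k + r ∧ ∃ ψ : AddChar F ℂ,
      finrank ℂ ((Tw.one (E.full F).faithful hl).Wt τ ψ Tb.top 1) = Fintype.card F ^ (e + 1) := by
  let T := Tw.one (E.full F).faithful hl
  refine (rep_bound Tb E T (ρ := id) (fun _ => rfl) (by simp [Tw.q, T, Tw.one]) Fintype.one_lt_card (fun ⟨_, h⟩ => (h rfl).elim) h
    nofun ((MulEquiv.subgroupCongr (eq_top_iff.2 fun _ _ => rfl)).trans Subgroup.topEquiv) τ hτ hk).imp_right (And.imp_right ?_)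
  rintro ⟨a, ψ, h1, h2⟩
  obtain rfl : a = τ := funext fun g => h1 ⟨g, rfl⟩
  exact ⟨ψ, h2⟩

end CL.MX
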