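/-
Minimal degrees of exceptional groups, part 11: a divisibility from the central characters; the group `E₆`.
-/
import Cfsg.Agent.Known.MXRep
import Cfsg.Agent.Chev.WeylReal

set_option autoImplicit false
set_option linter.unusedSectionVars false

open Module

namespace CL.MX

open CL.Chev CL.Chev.Cert Cfsg Cfsg.Lie CL.Cox

theorem dvd_index_mul {G V : Type*} [Group G] [Finite G] [AddCommGroup V] [Module ℂ V] [FiniteDimensional ℂ V]
    (ρ : Representation ℂ G V) [ρ.IsIrreducible] {P Z : Subgroup G} (h : P ≤ Subgroup.normalizer (Z : Set G)) :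
    finrank ℂ V ∣ P.index * (Nat.card Z * finrank ℂ (Representation.invariants (ρ.comp Z.subtype))) := by
  classical
  let _ := Fintype.ofFinite G
  let _ := Fintype.ofFinite (G ⧸ P)
  have h1 := CL.Char.isIntegral_sum_mul_char_div ρ (fun x => ∑ s : G ⧸ P, if s.out⁻¹ * x * s.out ∈ Z then 1 else 0)
    (fun x g => (Fintype.sum_equiv (MulAction.toPerm g) _ _ fun s => by
      obtain ⟨p, hp⟩ := QuotientGroup.mk_out_eq_mul P (g * s.out)
      rw [MulAction.toPerm_apply, ← MulAction.Quotient.mk_smul_out, smul_eq_mul, hp]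
      refine if_congr ((Subgroup.mem_normalizer_iff.1 (h (inv_mem p.2)) _).trans ?_) rfl rfl
      rw [show (g * s.out * p)⁻¹ * (g * x * g⁻¹) * (g * s.out * p) = (p : G)⁻¹ * (s.out⁻¹ * x * s.out) * p⁻¹⁻¹ by group]
      rfl).symm)
    fun x => IsIntegral.sum _ fun s _ => by split_ifs; exacts [isIntegral_one, isIntegral_zero]
  have h0 : (Nat.card Z : ℂ) ≠ 0 := Nat.cast_ne_zero.2 Nat.card_pos.ne'
  let _ := invertibleOfNonzero h0
  have h2 := Representation.card_inv_mul_sum_char_eq_finrank (ρ.comp Z.subtype)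
  rw [inv_mul_eq_iff_eq_mul₀ h0] at h2
  refine CL.Char.dvd_of_isIntegral_div (CL.Char.finrank_pos_of_irr ρ).ne' ?_
  convert h1 using 2
  simp only [Finset.sum_mul]
  rw [Finset.sum_comm, Finset.sum_congr rfl fun s _ => (?_ : _ = ∑ z : Z, ρ.character z), Finset.sum_const, Finset.card_univ,
    Nat.cast_mul, Nat.cast_mul, ← h2, nsmul_eq_mul, Subgroup.index, Nat.card_eq_fintype_card]
  · rfl
  · rw [← Equiv.sum_comp (MulAut.conj s.out).toEquiv, ← Finset.sum_subtype (Finset.univ.filter (· ∈ Z)) (by simp), Finset.sum_filter]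
    refine Finset.sum_congr rfl fun x _ => ?_
    change (if s.out⁻¹ * (s.out * x * s.out⁻¹) * s.out ∈ Z then 1 else 0) * ρ.character (s.out * x * s.out⁻¹) = _
    rw [Representation.char_conj, show s.out⁻¹ * (s.out * x * s.out⁻¹) * s.out = x by group, ite_mul, one_mul, zero_mul]

variable {F : Type*} [Field F] [Fintype F] {G : Type*} [Group G] [Finite G]

theorem dvd_index_P {ι Φ : Type} [Fintype ι] [DecidableEq ι] {R : RS ι Φ} {S : StSys R F G} [Finite Φ] (hS : S.Faithful) (hl : SL R)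
    {α₀ : Φ} (H : (Tw.one hS hl).Hyp α₀) {J : Set ι} (hJ : ∀ r ∈ R.PhiJ J, R.pair α₀ r = 0)
    {V : Type*} [AddCommGroup V] [Module ℂ V] [FiniteDimensional ℂ V] (τ : Representation ℂ G V) [τ.IsIrreducible]
    {ψ : AddChar F ℂ} (hψ : ψ 1 ≠ 1) :
    finrank ℂ V ∣ (S.P J).index * (Fintype.card F * ((Fintype.card F - 1) * finrank ℂ ((Tw.one hS hl).Wt τ ψ α₀ 1))) := by
  classical
  set T := Tw.one hS hl
  have ha : Act T.K τ := ⟨map_one τ, fun _ _ => map_mul τ _ _⟩
  have h1 := dvd_index_mul τ (P := S.P J) (Z := S.XS {α₀}) (by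
    rw [S.P_eq]
    refine sup_le (S.H_le_normalizer_XS _) (fun g hg => Subgroup.centralizer_le_normalizer _ fun z hz => ?_)
    refine (hl.commute_XS S (fun r hr s hs => ?_) hz hg).eq
    rw [hr]
    exact hs.elim H.top.pair_nonneg fun h => (hJ s h).ge)
  have h2 : Nat.card (S.XS {α₀}) = Fintype.card F := by
    rw [hS.uFaithful.card_XS (by simpa using H.top.pos) (hl.closed (by simp)), Set.ncard_singleton, pow_one, Nat.card_eq_fintype_card]
  have h3 : Representation.invariants (τ.comp (S.XS {α₀}).subtype) = T.Wt τ ψ α₀ 0 :=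
    le_antisymm (fun v hv => Tw.Fx_le_Wt H.fix (Set.mem_singleton _) fun g hg _ => hv ⟨g, hg⟩)
      fun v hv g => Tw.Wt_le_Fx H.fix hv g g.2 rfl
  let _ := Fintype.ofFinite (Dual F F)
  have h4 := CL.LS.sum_finrank_wsp (ρ := τ) (ψ := ψ) (a := S.x α₀) (fun e => hψ (by rw [e]; rfl)) (S.x_add α₀)
  rw [← Equiv.sum_comp (LinearMap.ringLmapEquivSelf F F F).symm.toEquiv, Finset.sum_congr rfl
    (g := fun c => finrank ℂ (T.Wt τ ψ α₀ c)) fun c _ => congrArg (fun P : Submodule ℂ V => finrank ℂ P) (Submodule.ext fun v => by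
      simp only [CL.LS.mem_wsp]
      exact ⟨fun h t _ => by simpa [mul_comm] using h t, fun h t => by simpa [mul_comm] using h t rfl⟩),
    ← Finset.add_sum_erase _ _ (Finset.mem_univ 0), Finset.sum_congr rfl fun c hc =>
      H.finrank_Wt ha H.fix rfl (Finset.mem_erase.1 hc).1, Finset.sum_const, Finset.card_erase_of_mem (Finset.mem_univ _),
    Finset.card_univ, smul_eq_mul] at h4
  rw [h2, h3] at h1
  refine (Nat.dvd_add_right h1).1 ?_
  rw [← mul_add, ← mul_add, h4]
  exact (dvd_mul_left _ _).mul_left _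

theorem psum_A4 {W : Type*} [Group W] (cs : CoxeterSystem CoxeterMatrix.E₆ W) (q : ℕ) :
    CL.Cox.psum cs [3, 2, 4, 0] (fun w => q ^ cs.length w) = geom q 2 * geom q 3 * geom q 4 * geom q 5 := by
  have e : (fun _ => q) = fun i => q ^ waE6 i * 1 ^ wbE6 i := by
    funext i; fin_cases i <;> simp [waE6, wbE6]
  have hf := e ▸ lenMul_pow_length cs q
  have hA := isCartan_E6.repOK
  have h := And.intro (finite_parab_nil cs) (psum_nil cs fun w => q ^ cs.length w)
  replace h := orbit_step2 cs hA stepE6_0 q 1 _ hf h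
  replace h := orbit_step2 cs hA (K := [3, 2]) (j := 2) (L := toFinW 6 [[], [2], [3, 2]]) (ds := [(0, 0), (1, 0), (2, 0)])
    (by decide +kernel) q 1 _ hf h
  replace h := orbit_step2 cs hA (K := [3, 2, 4]) (j := 4) (L := toFinW 6 [[], [4], [3, 4], [2, 3, 4]])
    (ds := [(0, 0), (1, 0), (2, 0), (3, 0)]) (by decide +kernel) q 1 _ hf h
  replace h := orbit_step2 cs hA (K := [3, 2, 4, 0]) (j := 0) (L := toFinW 6 [[], [0], [2, 0], [3, 2, 0], [4, 3, 2, 0]])
    (ds := [(0, 0), (1, 0), (2, 0), (3, 0), (4, 0)]) (by decide +kernel) q 1 _ hf h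
  rw [h.2]
  simp only [poly2, dE6_0, List.map_cons, List.map_nil, List.sum_cons, List.sum_nil, geom,
    Finset.sum_range_succ, Finset.sum_range_zero, pow_zero, mul_one, CoxeterSystem.length_one]
  ring

theorem card_P_eq {D : ChevalleyDatum} (E : Real D) {M : CoxeterMatrix (Fin D.rank)} (hM : IsCartan M (datCartan D))
    (K : List (Fin D.rank)) : Nat.card ((E.Sg F).P {k | k ∈ K}) =
      Nat.card (E.Sg F).B * CL.Cox.psum (E.cs hM) K fun w => Fintype.card F ^ (E.cs hM).length w := by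
  let _ := Fintype.ofFinite (E.R.WJ {k | k ∈ K})
  let e : E.R.WJ {k | k ∈ K} ≃ parab (E.cs hM) {k | k ∈ K} :=
    ⟨fun w => ⟨⟨w, E.R.WJ_le_W _ w.2⟩, (E.R.mem_parab_coxOf _).2 w.2⟩, fun w => ⟨w.1, (E.R.mem_parab_coxOf _).1 w.2⟩,
      fun _ => rfl, fun _ => rfl⟩
  rw [(E.full F).faithful.card_P, CL.Cox.psum, ← finsum_comp_equiv e, finsum_eq_sum_of_fintype, Nat.card_eq_fintype_card (α := F)]
  simp only [E.cs_length]
  rfl

theorem index_P_mul {D : ChevalleyDatum} (E : Real D) {M : CoxeterMatrix (Fin D.rank)} (hM : IsCartan M (datCartan D))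
    (K : List (Fin D.rank)) : ((E.Sg F).P {k | k ∈ K}).index * CL.Cox.psum (E.cs hM) K (fun w => Fintype.card F ^ (E.cs hM).length w) =
      ∑ᶠ w, Fintype.card F ^ (E.cs hM).length w := by
  have h2 := card_P_eq (F := F) E hM (List.finRange _)
  rw [psum_eq_finsum _ List.mem_finRange, show {k | k ∈ List.finRange D.rank} = Set.univ from
    Set.eq_univ_of_forall List.mem_finRange, StSys.P_univ, (E.full F).top, Subgroup.card_top,
    ← Subgroup.index_mul_card ((E.Sg F).P {k | k ∈ K}), card_P_eq E hM K, mul_left_comm] at h2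
  exact Nat.eq_of_mul_eq_mul_left Nat.card_pos h2

theorem index_A4 (E : Real chevE6) : ((E.Sg F).P {k : Fin 6 | k ∈ [3, 2, 4, 0]}).index ∣
    (Fintype.card F ^ 6 - 1) * (Fintype.card F ^ 8 - 1) * (Fintype.card F ^ 9 - 1) * (Fintype.card F ^ 12 - 1) := by
  have h1 := (index_P_mul (F := F) E isCartan_datE6 ([3, 2, 4, 0] : List (Fin 6))).trans
    (poincare_E6 (E.cs isCartan_datE6) (Fintype.card F) _ (lenMul_pow_length _ _))
  have h2 := (congrArg (_ * ·) (psum_A4 (E.cs isCartan_datE6) (Fintype.card F))).symm.trans h1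
  have hq : 1 ≤ Fintype.card F := Fintype.card_pos
  have h5 : ∀ d, 0 < geom (Fintype.card F) (d + 1) := fun d => by
    rw [geom, Finset.sum_range_succ']; positivity
  simp only [← geom_mul hq]
  refine Dvd.intro (geom (Fintype.card F) 3 * geom (Fintype.card F) 4 * (Fintype.card F - 1) ^ 4) (Nat.eq_of_mul_eq_mul_left
    (mul_pos (h5 1) (h5 4)) ?_)
  replace h2 : ((E.Sg F).P {k : Fin 6 | k ∈ [3, 2, 4, 0]}).index * _ = _ :=
    h2.trans (congrArg (_ * ·) ((congrArg (_ ^ ·) (CoxeterSystem.length_one _)).trans (pow_zero _)))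
  linear_combination (Fintype.card F - 1) ^ 4 * h2

theorem bound_E6 {e r : ℕ} {L : List ℤ}
    (h : (layChk auxE6 id e r L && hypChk auxE6 id && h4Chk auxE6 id && h5Chk auxE6 id false) = true) {k : ℕ}
    (τ : Representation ℂ (chevE6.group F) (Fin k → ℂ)) (hτ : τ.IsIrreducible) (hk : 2 ≤ k) :
    ev L (Fintype.card F) ≤ k ∨ ev L (Fintype.card F) ≤ k + r ∧ k ∣
      (Fintype.card F ^ 6 - 1) * (Fintype.card F ^ 8 - 1) * (Fintype.card F ^ 9 - 1) * (Fintype.card F ^ 12 - 1) *
      (Fintype.card F * ((Fintype.card F - 1) * Fintype.card F ^ (e + 1))) := by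
  obtain ⟨h1, h2⟩ := bond_of_mem (D := chevE6) (by simp)
  have := (realE6.isSimpleGroup (F := F) (realE6.commutator_eq_top_of_bond h1 h2)).1
  have hl := tab_sl tabE6 realE6 (by decide +kernel)
  let T := Tw.one (realE6.full F).faithful hl
  simp only [Bool.and_eq_true] at h
  obtain ⟨a, ha, h1, h2⟩ := exists_act_of (K := T.K)
    ((MulEquiv.subgroupCongr (eq_top_iff.2 fun _ _ => rfl)).trans Subgroup.topEquiv) τ hτ hk
  obtain rfl : a = τ := funext fun g => h2 ⟨g, rfl⟩
  obtain ⟨ψ, hψ⟩ := exists_psi F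
  have hq : T.q = Fintype.card F := by simp [Tw.q, T, Tw.one]
  have H := tab_hyp tabE6 realE6 T (ρ := id) (fun _ => rfl) h.1.1.2
  have := tab_bound tabE6 realE6 T (ρ := id) (fun _ => rfl) ha ⟨1, map_one _, hψ⟩ (fun ⟨_, h⟩ => (h rfl).elim) h.1.1.1
    (hq ▸ Fintype.one_lt_card) h.1.1.2 h.1.2 h.2 nofun (map_one _) (h1 _ rfl (by simp [T.faithful.x_eq_one_iff]))
  rw [finrank_fin_fun, hq] at this
  refine this.imp_right fun h => ⟨h.2, ?_⟩
  have h3 := dvd_index_P (realE6.full F).faithful hl H (J := {k : Fin 6 | k ∈ [3, 2, 4, 0]}) (fun r hr => ?_) τ hψ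
  · rw [finrank_fin_fun, h.1] at h3
    exact h3.trans (mul_dvd_mul_right (index_A4 realE6) _)
  · have h4 : (allLt 72 fun r => !(beqZ (auxE6.rt r 1) 0 && beqZ (auxE6.rt r 5) 0) || pb auxE6 (auxE6.ng 0) r 0) = true := by
      decide +kernel
    simp only [allLt_iff, Bool.or_eq_true, Bool.not_eq_true', Bool.eq_false_iff, ne_eq, Bool.and_eq_true, beqZ_iff] at h4
    rw [tabE6.mem_PhiJ] at hr
    exact (pb_iff tabE6 realE6 tabE6.top r 0).1 ((h4 r r.2).resolve_left (not_not.2
      ⟨hr (1 : Fin 6) (show (1 : Fin 6) ∉ [3, 2, 4, 0] by decide), hr (5 : Fin 6) (show (5 : Fin 6) ∉ [3, 2, 4, 0] by decide)⟩))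

end CL.MX
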