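/-
Minimal degrees of exceptional groups, part 12: the twisted groups.
-/
import Cfsg.Agent.Known.MXRep
import Cfsg.Agent.Chev.Fold

set_option autoImplicit false
set_option linter.unusedSectionVars false

open Module

namespace CL.MX

open CL.Chev CL.Chev.Cert Cfsg Cfsg.Lie

/-- The checks for a twist. -/
def twChk (A : Aux) (πT ρT cT m : ℕ) : Bool := (Nat.beq m 2 || Nat.beq m 3) && allLt A.n fun r => Nat.blt (dig ρT 8 r) A.n &&
  (allLt A.l fun i => beqZ (A.rt (dig ρT 8 r) (dig πT 4 i)) (A.rt r i)) &&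
  (allLt A.n fun s => beqZ (A.pr (dig ρT 8 r) (dig ρT 8 s)) (A.pr r s)) &&
  beqZ (Aux.bsign cT r * Aux.bsign cT (A.ng r)) 1 &&
  (cond (Nat.beq (dig ρT 8 r) r) (beqZ (Aux.bsign cT r) 1) (beqZ (A.pr r (dig ρT 8 r)) 0)) &&
  cond (Nat.beq m 2) (Nat.beq (dig ρT 8 (dig ρT 8 r)) r && beqZ (Aux.bsign cT (dig ρT 8 r) * Aux.bsign cT r) 1)
    (Nat.beq (dig ρT 8 (dig ρT 8 (dig ρT 8 r))) r &&
      beqZ (Aux.bsign cT (dig ρT 8 (dig ρT 8 r)) * Aux.bsign cT (dig ρT 8 r) * Aux.bsign cT r) 1)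

variable {F : Type*} [Field F]

theorem exists_trace {θ : F ≃+* F} {m : ℕ} (hm : m = 2 ∨ m = 3) (h : ∀ t, θ^[m] t = t) (h' : (∃ u, θ u ≠ u) ∨ (m : F) ≠ 0) (s : F)
    (hs : θ s = s) : ∃ t, (if m = 2 then t + θ t else t + θ t + θ (θ t)) = s := by
  suffices ∃ t, (if m = 2 then t + θ t else t + θ t + θ (θ t)) ≠ 0 by
    obtain ⟨t, ht⟩ := this
    have h1 := h t
    rcases hm with rfl | rfl <;> simp only [Function.iterate_succ, Function.iterate_zero, Function.comp, id, if_true,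
      show (3 : ℕ) ≠ 2 by decide, if_false] at ht h1 ⊢
    · exact ⟨s / (t + θ t) * t, by simp only [map_mul, map_div₀, map_add, hs, h1]; rw [add_comm (θ t)]; field_simp⟩
    · refine ⟨s / (t + θ t + θ (θ t)) * t, ?_⟩
      have e : θ (t + θ t + θ (θ t)) = t + θ t + θ (θ t) := by simp only [map_add, h1]; ring
      simp only [map_mul, map_div₀, hs, e]; field_simp
  by_contra! h0
  rcases hm with rfl | rfl <;> simp only [if_true, show (3 : ℕ) ≠ 2 by decide, if_false] at h0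
  · refine h'.elim (fun ⟨u, hu⟩ => hu ?_) fun h => h (by simpa [one_add_one_eq_two] using h0 1)
    have h1 := h0 1
    rw [map_one] at h1
    linear_combination h0 u - u * h1
  · have h1 := h0 1
    rw [map_one, map_one] at h1
    refine h'.elim (fun ⟨u, hu⟩ => mul_ne_zero (sub_ne_zero.2 hu) (sub_ne_zero.2 (θ.injective.ne hu)) ?_)
      fun h => h (by push_cast; linear_combination h1)
    have h2 := h0 (u * u)
    simp only [map_mul] at h2
    linear_combination -h2 + (u + θ (θ u)) * h0 u - u * θ (θ u) * h1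

theorem exists_tw {D : ChevalleyDatum} {A : Aux} (Tb : Tab D A) (E : Real D) (hl : SL E.R) {πT ρT cT m : ℕ}
    (h : twChk A πT ρT cT m = true) {θ : F ≃+* F} (hθ : ∀ t, θ^[m] t = t) (h' : (∃ u, θ u ≠ u) ∨ (m : F) ≠ 0)
    (B : (E.S F).res.GAut) (h1 : ∀ i, (B.π i : ℕ) = dig πT 4 i)
    (h2 : ∀ r < A.n, ∀ t, B.σ (E.xG r t) = E.xG (dig ρT 8 r) (Aux.bsign cT r * θ t ^ A.glam 1 r)) :
    ∃ T : Tw (E.S F).res, T.σ = B.σ ∧ T.θ = θ ∧ T.m = m ∧ ∀ r, (T.ρ r : ℕ) = dig ρT 8 r := by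
  simp only [twChk, Bool.and_eq_true, Bool.or_eq_true, beq_iff', allLt_iff, beqZ_iff, Nat.blt_eq, cond_beq] at h
  obtain ⟨hm, h⟩ := h
  have hS := (E.faithful F).res
  have k0 : ∀ (r : Fin D.nroots) t, B.σ ((E.S F).res.x r t) =
      (E.S F).res.x ⟨dig ρT 8 r, Tb.lt_nroots (h r (Tb.lt_n r)).1.1.1.1.1⟩ (Aux.bsign cT r * θ t) := fun r t => by
    rw [← E.xG_coe, h2 r (Tb.lt_n r), Aux.glam_one, pow_one, E.xG_of_lt]
  have k1 : ∀ r, B.ρ hS r = ⟨dig ρT 8 r, Tb.lt_nroots (h r (Tb.lt_n r)).1.1.1.1.1⟩ := fun r => B.ρ_eq hS one_ne_zero (k0 r 1)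
  refine ⟨⟨B.σ, B.ρ hS, B.π, θ, fun r => Aux.bsign cT r, m, hS, hl, fun r i => ?_, fun r s => ?_, fun r t => by rw [k0, k1],
    fun r => ?_, fun r hr => ?_, hm, fun r t => ?_, fun r hr => ?_, fun _ => exists_trace hm hθ h'⟩, rfl, rfl, rfl,
    fun r => by simp only [k1]⟩
  · rw [Tb.root E, Tb.root E, k1, h1]; exact (h r (Tb.lt_n r)).1.1.1.1.2 i (Tb.lt_l i)
  · rw [Tb.pair E, Tb.pair E, k1, k1]; exact (h r (Tb.lt_n r)).1.1.1.2 s (Tb.lt_n s)
  · rw [Tb.neg E, ← Int.cast_mul, (h r (Tb.lt_n r)).1.1.2, Int.cast_one]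
  · have := (h r (Tb.lt_n r)).1.2
    rw [k1, Fin.ext_iff] at hr
    rw [if_pos hr, beqZ_iff] at this
    simp only [this, Int.cast_one]
  · have h3 := (h r (Tb.lt_n r)).2
    have h4 := hθ t
    rcases hm with rfl | rfl <;> simp only [Function.iterate_succ, Function.iterate_zero, Function.comp, id, if_true,
      show (3 : ℕ) ≠ 2 by decide, if_false, Bool.and_eq_true, beq_iff', beqZ_iff, k0, map_mul, map_intCast] at h3 h4 ⊢ <;>
      simp only [h3.1, h4, ← mul_assoc, ← Int.cast_mul, h3.2, Int.cast_one, one_mul]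
  · have := (h r (Tb.lt_n r)).1.2
    rw [k1, Ne, Fin.ext_iff] at hr
    rw [if_neg hr, beqZ_iff] at this
    rw [Tb.pair E, k1]; exact this

theorem frob_facts {K : Type*} [Field K] [Fintype K] {q m : ℕ} (hq : IsPrimePow q) (hK : Fintype.card K = q ^ m) (hm : 2 ≤ m)
    {θ : K ≃+* K} (hθ : ∀ t, θ t = t ^ q) : (∀ t, θ^[m] t = t) ∧ (∃ u, θ u ≠ u) ∧ Nat.card {t // θ t = t} = q ∧
      Nat.card K = q ^ m ∧ ∃ c : K, c ≠ 0 ∧ c ^ 2 ≠ 1 := by
  have h1 : Nat.card K = q ^ m := by rw [Nat.card_eq_fintype_card, hK]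
  have h2 : Nat.card {t // θ t = t} = q := by simp only [hθ]; exact card_fixed hq.pos h1
  have h3 : q ^ 2 ≤ q ^ m := Nat.pow_le_pow_right hq.pos hm
  have h4 := hq.two_le
  refine ⟨fun t => ?_, ?_, h2, h1, exists_sq_ne_one (by rw [h1]; nlinarith)⟩
  · rw [show (θ : K → K) = (· ^ q) from funext hθ, pow_iterate, ← hK]; exact FiniteField.pow_card t
  · by_contra! h0
    simp only [h0, Nat.card_congr (Equiv.subtypeUnivEquiv (p := fun _ : K => True) fun _ => trivial), h1] at h2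
    nlinarith

theorem exists_twE6 {K : Type*} [Field K] [Fintype K] {q : ℕ} (hq : IsPrimePow q) (hK : Fintype.card K = q ^ 2) :
    ∃ T : Tw (realE6.S K).res, Nonempty (T.K ≃* twistedE6 K q) ∧ T.m = 2 ∧ (∀ t, T.θ t = t ^ q) ∧ ∀ r, (T.ρ r : ℕ) = dig
      0x47464542374441363f34313c2d2926244340353e33303d322f2e3b2c28253a2b27392a380f1d0e201c0d221f1b0c1918150a17140912070423211e1a0b1613081106031005020100
      8 r := by
  have h := isTwE6 realE6 hq hK
  obtain ⟨A, θ, a, hθ, e⟩ := h.ex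
  obtain ⟨B, h1, h2, h3⟩ := tabE6.exists_gAut realE6 nCheckE6 graphCheckE6 (F := K) Int.cast_zero ⟨RingEquiv.refl K, by simp⟩ θ
  have b : StSys.GAut.IsE6 (R := realE6.R) B θ := ⟨a.cartan, a.irred, a.faithful, a.adjoint, a.hMul,
    Equiv.ext fun i => Fin.ext ((h1 i).trans ((by decide : ∀ i : Fin 6, dig 0x23415 4 i = (piE6 i : ℕ)) i)),
    fun i => RingEquiv.ext fun t => (h2 i t).trans (by rw [Aux.glam_one, pow_one]), a.sq⟩
  obtain ⟨f1, f2, -⟩ := frob_facts hq hK le_rfl hθ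
  obtain ⟨T, t1, t2, t3, t4⟩ := exists_tw tabE6 realE6 (tab_sl tabE6 realE6 (by decide +kernel)) (m := 2) (by decide +kernel) f1
    (.inl f2) B h1 h3
  refine ⟨T, ⟨(MulEquiv.subgroupCongr ?_).trans (Subgroup.subgroupOfEquivOfLe h.le)⟩, t3, t2 ▸ hθ, t4⟩
  refine Eq.trans (Subgroup.ext fun g => ?_) e.symm
  rw [T.mem_K, t1]
  refine ⟨b.twData.mem_of_fixed a.faithful (StSys.res_grp _) fun k hk e => ?_, b.twData.fix g⟩
  obtain ⟨c, hc, rfl⟩ := b.exists_torus hk e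
  exact b.torus_mem b.twData c hc

theorem exists_twD4 {K : Type*} [Field K] [Fintype K] {q : ℕ} (hq : IsPrimePow q) (hK : Fintype.card K = q ^ 3) :
    ∃ T : Tw (realD4.S K).res, Nonempty (T.K ≃* twistedD4 K q) ∧ T.m = 3 ∧ (∀ t, T.θ t = t ^ q) ∧ ∀ r, (T.ρ r : ℕ) = dig
      0x17161115100d140f130e0c12050b090408030a0702060100 8 r := by
  have h := isTwD4 realD4 hq hK
  obtain ⟨A, θ, a, hθ, e⟩ := h.ex
  obtain ⟨B, h1, h2, h3⟩ := tabD4.exists_gAut realD4 nCheckD4 graphCheckD4_2130 (F := K) Int.cast_zero ⟨RingEquiv.refl K, by simp⟩ θ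
  have b : StSys.GAut.IsD4 (R := realD4.R) B θ := ⟨a.cartan, a.irred, a.faithful, a.adjoint, a.hMul,
    Equiv.ext fun i => Fin.ext ((h1 i).trans ((by decide : ∀ i : Fin 4, dig 0x312 4 i = (piD4 i : ℕ)) i)),
    fun i => RingEquiv.ext fun t => (h2 i t).trans (by rw [Aux.glam_one, pow_one]), a.cube⟩
  obtain ⟨f1, f2, -⟩ := frob_facts hq hK (by norm_num) hθ
  obtain ⟨T, t1, t2, t3, t4⟩ := exists_tw tabD4 realD4 (tab_sl tabD4 realD4 (by decide +kernel)) (m := 3) (by decide +kernel) f1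
    (.inl f2) B h1 h3
  refine ⟨T, ⟨(MulEquiv.subgroupCongr ?_).trans (Subgroup.subgroupOfEquivOfLe h.le)⟩, t3, t2 ▸ hθ, t4⟩
  refine Eq.trans (Subgroup.ext fun g => ?_) e.symm
  rw [T.mem_K, t1]
  refine ⟨b.twData.mem_of_fixed a.faithful (StSys.res_grp _) fun k hk e => ?_, b.twData.fix g⟩
  obtain ⟨c, hc, rfl⟩ := b.exists_torus hk e
  exact b.torus_mem b.twData c hc

end CL.MX
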