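/-
Minimal degrees of exceptional groups, part 13: the group `³D₄(2)`.
-/
import Cfsg.Agent.Known.MXTwist

set_option autoImplicit false
set_option linter.unusedSectionVars false

open Module
open scoped commutatorElement

namespace CL.MX

open CL.Chev

variable {ι Φ : Type} [Fintype ι] [DecidableEq ι] {R : RS ι Φ} {F : Type*} [Field F] {G : Type*} [Group G]
  {S : StSys R F G} [Finite Φ]

theorem SL.step (hl : SL R) (hS : S.Faithful) {α₀ α δ γ : Φ} (h : R.pair δ γ = -1) (h0 : R.pair α₀ δ = 0) (h1 : R.pair α δ = 1)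
    (h2 : 1 ≤ R.pair α₀ γ) {u : F} (hu : u ≠ 0) {g : G}
    (hg : ∃ t ≠ 0, ∃ r ∈ S.XS {s | 1 ≤ R.pair α₀ s ∧ R.pair α s < R.pair α γ}, g = S.x γ t * r) :
    ∃ t ≠ 0, ∃ r ∈ S.XS {s | 1 ≤ R.pair α₀ s ∧ R.pair α s < R.pair α (R.refl δ γ)},
      S.x δ u * g * (S.x δ u)⁻¹ = S.x (R.refl δ γ) t * r := by
  obtain ⟨t, ht, r, hr, rfl⟩ := hg
  have e : R.pair α (R.refl δ γ) = R.pair α γ + 1 := by rw [hl.pair_refl, h, h1]; ring
  refine ⟨S.η δ γ * u * t, mul_ne_zero (mul_ne_zero (S.η_cast_ne_zero δ γ) hu) ht, S.x γ t * (S.x δ u * r * (S.x δ u)⁻¹),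
    mul_mem (S.x_mem_XS (show _ ∧ _ from ⟨h2, by omega⟩) t) (S.conj_mem_XS_of_forall (fun s hs w => ?_) hr), by
      rw [← hl.comm hS h, commutatorElement_def]; group⟩
  have hne : s ≠ R.neg δ := fun e => by have := hs.1; rw [e, R.pair_neg_right, h0] at this; omega
  rw [← mul_inv_cancel_right (_ * _ * _) (S.x s w)⁻¹, inv_inv]
  have h3 := hs.1
  have h4 := hs.2
  exact mul_mem (S.comm_mem_XS hne (fun k hk => show _ ∧ _ from ⟨by rw [hl.comb_pair hk hne]; omega,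
    by rw [hl.comb_pair hk hne]; omega⟩) _ w) (S.x_mem_XS (show _ ∧ _ from ⟨h3, by omega⟩) w)

namespace Tw

variable {T : Tw S} {α₀ α δ : Φ} (H : T.Hyp α₀) (hα : T.ρ α = α) (h1 : R.pair α₀ α = 1) (hm : T.m ≠ 2) (hδ : T.ρ δ ≠ δ)
  (k0 : R.pair α₀ δ = 0) (k1 : R.pair α δ = 1)
include H hα h1 hm hδ k0 k1

theorem comm_triple {u s : F} (hu : u ≠ 0) (hs : T.θ s = s) (hs0 : s ≠ 0) : ∃ t ≠ 0, T.θ t = t ∧ ∃ r ∈ S.XS (B1 R α₀ α), r ∈ T.K ∧
    ⁅T.nm (S.x δ u), S.x (op R α₀ α) s⁆ = S.x α t * r := by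
  have hl := T.sl
  have hb := (op_fix_iff H.fix h1).2 hα
  have b0 := hl.pair_op_self h1
  have b1 := hl.pair_op_neg h1
  have b2 : R.pair δ (op R α₀ α) = -1 := by rw [hl.pair_op h1, hl.symm δ, hl.symm δ, k0, k1]; rfl
  set b := op R α₀ α
  have c1 : ∀ r, R.pair (T.ρ r) b = R.pair r b := fun r => by rw [hl.symm, T.pair_fix hb, hl.symm]
  have o1 := T.orth δ hδ
  have o2 := T.orth2 hm hδ
  have o3 := (T.pair_ρ _ _).trans o1
  have hε := fun r (t : F) (ht : t ≠ 0) => mul_ne_zero (T.ε_ne_zero r) (T.θ.map_ne_zero_iff.2 ht)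
  have s1 := hl.step T.faithful (δ := T.ρ (T.ρ δ)) (γ := b) (α₀ := α₀) (α := α) (by rw [c1, c1, b2])
    (by rw [T.pair_fix H.fix, T.pair_fix H.fix, k0]) (by rw [T.pair_fix hα, T.pair_fix hα, k1]) b0.ge
    (hε (T.ρ δ) _ (hε δ u hu)) ⟨s, hs0, 1, one_mem _, (mul_one _).symm⟩
  have p1 : ∀ m, R.pair m (R.refl (T.ρ (T.ρ δ)) b) = R.pair m b + R.pair m (T.ρ (T.ρ δ)) := fun m => by
    rw [hl.pair_refl, c1, c1, b2]; ring
  have s2 := hl.step T.faithful (δ := T.ρ δ) (by rw [p1, c1, b2, o3]; rfl) (by rw [T.pair_fix H.fix, k0])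
    (by rw [T.pair_fix hα, k1]) (by rw [p1, T.pair_fix H.fix, T.pair_fix H.fix, k0, b0]; rfl) (hε δ u hu) s1
  have p2 : ∀ m, R.pair m (R.refl (T.ρ δ) (R.refl (T.ρ (T.ρ δ)) b)) = R.pair m b + R.pair m (T.ρ (T.ρ δ)) + R.pair m (T.ρ δ) :=
    fun m => by rw [hl.pair_refl, p1, p1, c1, b2, o3]; ring
  have q2 : R.pair δ (R.refl (T.ρ δ) (R.refl (T.ρ (T.ρ δ)) b)) = -1 := by rw [p2, b2, o1, o2]; rfl
  obtain ⟨t, ht, r, hr, e⟩ := hl.step T.faithful (δ := δ) q2 k0 k1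
    (by simp only [p2, T.pair_fix H.fix, k0, b0]; rfl) hu s2
  rw [hl.eq_of_two_le (r := α) (s := R.refl δ _) (by simp only [hl.pair_refl α δ, q2, p2, T.pair_fix hα, k1, b1]; rfl)] at hr e
  have hA : T.Good {s | 1 ≤ R.pair α₀ s ∧ 0 ≤ R.pair α s} := ⟨fun _ h => pos_of_lev H.top h.1,
    hl.ideal_lev (fun _ h => h.1) (fun _ h => h.1) ⟨by simp, by rw [hl.symm, h1]; norm_num⟩,
    fun r h => by simpa only [Set.mem_ofPred_eq, T.pair_fix hα, T.pair_fix H.fix] using h⟩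
  have hne : ∀ r ∈ T.orb δ, ∀ s, 1 ≤ R.pair α₀ s → s ≠ R.neg r := fun r hr s hs e => by
    rw [e, R.pair_neg_right, T.pair_orb H.fix hr, k0] at hs; omega
  have h3 : ⁅T.nm (S.x δ u), S.x b s⁆ ∈ S.XS {s | 1 ≤ R.pair α₀ s ∧ 0 ≤ R.pair α s} :=
    S.commutator_XS_le (A := T.orb δ) (A' := {b}) (S.XS_le_normalizer (fun k r s hr hs hk => by
      have := hs.1; have := hs.2
      constructor <;> rw [hl.comb_pair hk (hne r hr s hs.1)] <;> simp only [T.pair_orb H.fix hr, T.pair_orb hα hr] <;> omega)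
      fun r hr h => hne r hr _ h.1 rfl) (hl.le_normalizer S (by simp [b0]) (fun _ h => h.1) (show _ ∧ _ from ⟨by simp, by rw [hl.symm, h1]; norm_num⟩))
      (fun r hr h => hne r hr _ b0.ge (Eq.symm h)) (fun r hr s hs k hk => by
        rw [hs] at hk
        constructor <;> rw [hl.comb_pair hk (hne r hr _ b0.ge)] <;> simp only [T.pair_orb H.fix hr, T.pair_orb hα hr] <;> omega)
      (Subgroup.commutator_mem_commutator (T.nm_x_mem δ u) (S.x_mem_X b s))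
  obtain ⟨x, hx, r', hr', xK, rK, e'⟩ := hA.split (T.good_orb (pos_of_lev H.top h1.ge)) (good_B1 H hα h1) (fun s hs => by
    rw [T.orb_fix hα]; exact (em (s = α)).imp id fun h => ⟨hs.1, hs.2, h⟩) (by
      rw [T.orb_fix hα, Set.singleton_inter_eq_empty]; exact fun h => h.2.2 rfl) h3
    (T.comm_mem_K (T.nm_mem hδ (x_mem_L δ u)) (T.x_mem hb hs))
  rw [T.orb_fix hα] at hx
  obtain ⟨t', rfl⟩ := S.mem_X.1 hx
  refine ⟨t', ?_, T.fix_of_mem hα xK, r', hr', rK, e'⟩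
  rintro rfl
  have h4 : S.x α t ∈ S.XS (B2 R α₀ α) := by
    have e2 : S.x α t = r' * S.x b s * r⁻¹ := by
      rw [S.x_zero, one_mul] at e'
      rw [← e', eq_mul_inv_iff_mul_eq, ← e, commutatorElement_def, nm, if_neg hm, T.map, T.map]; group
    refine e2 ▸ mul_mem (mul_mem (S.XS_mono (fun s hs => show _ ∧ _ from ⟨hs.1, hs.2.2⟩) hr') (S.x_mem_XS
      (show _ ∧ _ from ⟨b0.ge, fun e => by rw [e, R.pair_self] at b1; omega⟩) s))
      (inv_mem (S.XS_mono (fun s hs => show _ ∧ _ from ⟨hs.1, fun e => by have := hs.2; rw [e] at this; omega⟩) hr))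
  have := (T.faithful.uFaithful.prodL_mem_XS_iff (l := [α]) (t := fun _ => t) (good_B2 H hα h1).pos (good_B2 H hα h1).closed
    (by simp) (by simpa using pos_of_lev H.top h1.ge)).1 (by simpa [StSys.prodL] using h4)
  exact ht (this α (by simp) fun h => h.2 rfl)

theorem two_special {V : Type*} [AddCommGroup V] [Module ℂ V] {a : G → End ℂ V} {ψ : AddChar F ℂ} (ha : Act T.K a) (hψ : ψ 1 ≠ 1)
    (h2 : ∀ t, T.θ t = t → t = 0 ∨ t = 1) {v : V} (h0 : v ≠ 0) (hv : v ∈ T.Wt a ψ α 1) (hB : v ∈ Fx T.K a (S.XS (B1 R α₀ α))) :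
    T.Wt a ψ α₀ 0 ⊓ T.Wt a ψ (op R α₀ α) 0 ≠ ⊥ := fun h => by
  obtain ⟨t, ht, ht', r, hr, rK, e⟩ := comm_triple H hα h1 hm hδ k0 k1 one_ne_zero (map_one _) one_ne_zero
  obtain rfl := (h2 t ht').resolve_left ht
  have hb := (op_fix_iff H.fix h1).2 hα
  have b0 := T.sl.pair_op_self h1
  set b := op R α₀ α
  have xK := T.x_mem hb (map_one T.θ)
  have yK := T.nm_mem hδ (x_mem_L δ 1)
  have h3 : S.x b 1 * S.x b 1 = 1 := by
    rw [← S.x_add, (h2 (1 + 1) (by rw [map_add, map_one])).resolve_right (by simp), S.x_zero]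
  have key : ∀ w ∈ T.Wt a ψ α₀ 0, a (S.x b 1) w = -w := fun w hw => by
    refine eq_neg_of_add_eq_zero_right ((Submodule.eq_bot_iff _).1 h _ ⟨add_mem hw
      (map_Wt_XS ha H.fix (A := {b}) (by simp [b0]) (S.x_mem_X b 1) xK hw), fun t ht => ?_⟩)
    rw [zero_mul, AddChar.map_zero_eq_one, one_smul]
    rcases h2 t ht with rfl | rfl
    · rw [S.x_zero, ha.one_apply]
    · rw [map_add, ← ha.mul_apply xK xK, h3, ha.one_apply, add_comm]
  have h4 : v ∈ T.Wt a ψ α₀ 0 := Fx_le_Wt H.fix (G1_le H hα h1 (top_mem_G1 H hα h1)) hB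
  have h5 := key _ (map_Wt_XS ha H.fix (fun r hr => ((T.pair_orb H.fix hr).trans k0).ge) (inv_mem (T.nm_x_mem δ 1)) (inv_mem yK) h4)
  have h6 := congrArg (a · v) e
  rw [ha.mul_apply (T.x_mem hα ht') rK, hB r hr rK, hv 1 ht', commutatorElement_def, inv_eq_of_mul_eq_one_right h3,
    ha.mul_apply (mul_mem (mul_mem yK xK) (inv_mem yK)) xK, key v h4, map_neg, ha.mul_apply (mul_mem yK xK) (inv_mem yK),
    ha.mul_apply yK xK, h5, map_neg, neg_neg, ha.apply_inv yK, mul_one] at h6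
  exact hψ (smul_left_injective ℂ h0 (h6.symm.trans (one_smul _ _).symm))

theorem bound_two {V : Type*} [AddCommGroup V] [Module ℂ V] {a : G → End ℂ V} {ψ : AddChar F ℂ} (ha : Act T.K a) (hψ : ψ 1 ≠ 1)
    (h2 : ∀ t, T.θ t = t → t = 0 ∨ t = 1) [FiniteDimensional ℂ V] [Finite F] {N₀ : ℕ}
    (hN₀ : N₀ ^ (2 * T.m) = T.sz {γ | R.pair α₀ γ = 1}) (hne : a (S.x α₀ 1) ≠ 1)
    (h4 : ∀ α δ, T.ρ α = α → R.pair α₀ α = 1 → T.ρ δ = δ → R.pair α₀ δ = 1 → R.pair α δ = 0 →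
      ∃ ε, R.pair α₀ ε = 0 ∧ R.pair α ε = 0 ∧ R.pair δ ε = 1) (h6 : ∃ c : F, c ≠ 0 ∧ c ^ 2 ≠ 1) :
    ∃ D, (T.q - 1) * (T.q * D + D) ≤ finrank ℂ V ∧ (2 * N₀ ≤ T.q * D ∨ N₀ = T.q * D ∧ (T.q - 1) * (T.q * D + D) < finrank ℂ V) := by
  have hψ' : ∃ t, T.θ t = t ∧ ψ t ≠ 1 := ⟨1, map_one _, hψ⟩
  have h3 := finrank_G1 ha H hψ' hN₀ hα h1 (map_one _) one_ne_zero
  have h0 := finrank_ne_zero ha H hψ' (map_one _) hne
  obtain ⟨D, e1, e2⟩ := two_layers ha H hψ' ((op_fix_iff H.fix h1).2 hα) (T.sl.pair_op_self h1)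
  refine ⟨D, le_of_add_le_right e2, ?_⟩
  by_cases hD : finrank ℂ (T.Wt a ψ α₀ 1) = N₀
  · obtain ⟨-, v, h5, hv, hB⟩ := exists_B1 ha H hψ' hN₀ hD (hD ▸ h0) h4 (fun _ => h6) hα h1 (map_one _) one_ne_zero
    have := mt Submodule.finrank_eq_zero.1 (two_special H hα h1 hm hδ k0 k1 ha hψ h2 h5 hv.1 hB)
    exact .inr ⟨hD ▸ e1, by omega⟩
  · refine .inl ?_
    rw [← e1, h3, mul_comm]
    rw [h3] at h0 hD
    have := right_ne_zero_of_mul h0
    refine Nat.mul_le_mul_left _ (le_of_not_gt fun e => hD ?_)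
    rw [show finrank ℂ (T.Wt a ψ α 1 ⊓ Fx T.K a (S.XS (G1 R α₀ α)) : Submodule ℂ V) = 1 by omega, mul_one]

end Tw

end CL.MX
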