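/-
p-minimal groups with a normal simple subgroup of Lie type: the sixteen families.
-/
import Cfsg.Agent.Known.PMin2
import Cfsg.Agent.Known.AltSelfNorm
import Cfsg.Agent.Chev.RealAut
import Cfsg.Agent.Chev.StSylow
import Cfsg.Agent.S0256
import Cfsg.Prelude.Def_AlmostLie

set_option autoImplicit false

namespace CL.Chev.PM

open Cfsg BN St Subgroup CL.Chev.Ord Finset

variable {K : Type*} [Group K] {p : ℕ}

theorem exists_equiv_map [Fact p.Prime] [Finite K] (U : Sylow p K) {G : Type*} [Group G] (e : K ≃* G) {V : Subgroup G}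
    (hV : IsPGroup p V) (hi : ¬ p ∣ V.index) : ∃ e' : K ≃* G, (U : Subgroup K).map e'.toMonoidHom = V := by
  have := Finite.of_equiv _ e.toEquiv
  obtain ⟨g, hg⟩ := MulAction.exists_smul_eq G (U.mapSurjective (f := e.toMonoidHom) e.surjective) (hV.toSylow hi)
  exact ⟨e.trans (MulAut.conj g), (map_map _ (MulAut.conj g).toMonoidHom e.toMonoidHom).symm.trans (congrArg Sylow.toSubgroup hg)⟩

theorem le_normalizer_of_map {U Y : Subgroup K} {G : Type*} [Group G] (e : K ≃* G)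
    (h : Y.map e.toMonoidHom ≤ normalizer ((U.map e.toMonoidHom : Subgroup G) : Set G)) : Y ≤ normalizer (U : Set K) := by
  rwa [← map_equiv_normalizer_eq, map_le_map_iff_of_injective e.injective] at h

theorem Outer.of_map {U : Subgroup K} {A : Subgroup (MulAut K)} {G : Type*} [Group G] (e : K ≃* G)
    (h : Outer (U.map e.toMonoidHom) (A.map (MulAut.congr e).toMonoidHom)) : Outer U A := fun h1 => h (by
  rintro _ ⟨θ, hθ, rfl⟩
  obtain ⟨u, hu, rfl⟩ := h1 θ hθ
  exact ⟨_, ⟨u, hu, rfl⟩, by ext; simp⟩)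

variable [hp : Fact p.Prime] [Finite K] {U : Sylow p K} {A : Subgroup (MulAut K)} {Y : Subgroup K}

theorem lie_main (h : IsLieTypeChar p K) (hP : PMin p U A Y) : Y ≤ normalizer ((U : Subgroup K) : Set K) ∧
    (Nat.card U + 1 ∣ Nat.card K ∨ p = 2 ∧ Outer U A ∧ R2 (Nat.card U) (normalizer ((U : Subgroup K) : Set K)).index) := by
  obtain ⟨_, Q, L, hS⟩ := exists_lieBN h
  obtain ⟨e, he⟩ := exists_equiv_map U (.refl K) L.pgroup L.pSplit.not_dvd_index
  have h1 := bn_main L.irr hS (he ▸ hP.map e)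
  rw [← he, ← map_equiv_normalizer_eq, index_map_of_bijective e.bijective, card_map_of_injective e.injective, map_equiv_normalizer_eq] at h1
  exact ⟨le_normalizer_of_map e h1.1, h1.2.imp_right fun h => ⟨h.1, h.2.1.of_map e, h.2.2⟩⟩

theorem normalizer_ne_top [IsSimpleGroup K] (U : Sylow p K) {n r : ℕ} (hn : Nat.card K = n) (hr : r.Prime)
    (h : p ∣ n ∧ r ∣ n ∧ r ≠ p) : normalizer ((U : Subgroup K) : Set K) ≠ ⊤ := fun e =>
  (normalizer_eq_top_iff.1 e).eq_bot_or_eq_top.elim (U.ne_bot_of_dvd_card (hn ▸ h.1)) fun e => by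
    have h1 := U.card_eq_multiplicity
    rw [e, card_top] at h1
    exact h.2.2 ((Nat.prime_dvd_prime_iff_eq hr hp.out).1 (hr.dvd_of_dvd_pow (h1 ▸ hn ▸ h.2.1)))

theorem lie_normalizer_ne_top (h : IsLieTypeChar p K) (U : Sylow p K) : normalizer ((U : Subgroup K) : Set K) ≠ ⊤ := fun h1 => by
  obtain ⟨_, Q, L, s, hs⟩ := exists_lieBN h
  obtain ⟨e, he⟩ := exists_equiv_map U (.refl K) L.pgroup L.pSplit.not_dvd_index
  refine gen_notMem_B (P := Q.P) ⟨s, hs⟩ (Q.normalizer_U.le ?_)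
  rw [← he, ← map_equiv_normalizer_eq, h1, map_top_of_surjective _ e.surjective]
  trivial

theorem generic {g u i : ℕ} {O : Prop} (H : u + 1 ∣ g ∨ p = 2 ∧ O ∧ R2 u i) (hu : u = p ^ g.factorization p)
    (hi : i ∣ g) (hg : g ≠ 0) (h : ℕ) {q d n N X : ℕ} (hq : q ∣ p ^ n) (h1 : 1 < q) (hd : q.Coprime d) (e : d * g = q ^ N * X) (L : Lo q h X)
    (hN : h < N * 2 ∧ 1 < N ∧ ¬ (q = 2 ∧ N = 3)) :
    p = 2 ∧ O ∧ ∃ a, 0 < a ∧ q = 2 ^ a ∧ i ∣ q ^ N * X ∧ R2 (q ^ N) i := by
  obtain ⟨a, h2, h3, h4⟩ := pow_factorization_eq hp.out hq h1 hg hd e L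
  rw [hu, h4] at H
  obtain ⟨rfl, h5, h6⟩ := H.resolve_left fun H => not_R1 h1 L hN.1 hN.2.1 hN.2.2 (H.trans (e ▸ dvd_mul_left _ _))
  exact ⟨rfl, h5, a, h2, h3, hi.trans (e ▸ dvd_mul_left _ _), h6⟩

theorem generic_false {g u i : ℕ} {O : Prop} (H : u + 1 ∣ g ∨ p = 2 ∧ O ∧ R2 u i) (hu : u = p ^ g.factorization p)
    (hi : i ∣ g) (hg : g ≠ 0) (h : ℕ) {q d n N X : ℕ} (hq : q ∣ p ^ n) (h1 : 1 < q) (hd : q.Coprime d) (e : d * g = q ^ N * X) (L : Lo q h X)
    (hN : h < N ∧ 6 < N) : False := by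
  obtain ⟨-, -, a, h2, rfl, h3, h4⟩ := generic H hu hi hg h hq h1 hd e L (by omega)
  exact not_R2 L hN.1 (by omega) h2 (by nlinarith) h3 h4

omit hp [Finite K] in
theorem chev_false {ι Φ : Type} [Fintype ι] [DecidableEq ι] {R : RS ι Φ} {F : Type*} [Field F] [Finite F] [Finite Φ]
    {S : StSys R F K} (h : S.Full) (h1 : Nat.card h.nodePerm.range = 1) {i j : ι} (hij : j ≠ i) (hP : PMin p S.U A Y)
    (hY : Y ≤ normalizer (S.U : Set K)) : False := by
  have h2 : normalizer (S.U : Set K) = S.B := by rw [← h.faithful.normalizer_U, h.top, inf_top_eq]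
  have h3 : S.XS {R.neg (R.simple i)} ≤ S.P {i} := S.XS_le_iff.2 (by
    rintro _ rfl t
    by_cases ht : t = 0
    · simp [ht]
    · exact StSys.mem_P_singleton.2 (.inr (StSys.x_neg_simple_mem_cell i ht)))
  have h4 : Inv A (normalizer (S.U : Set K) ⊔ S.XS {R.neg (R.simple i)}) := fun θ hθ => by
    obtain ⟨g, hg⟩ := h.exists_conj_mul_mem_A0 θ
    have h5 : g ∈ normalizer (S.U : Set K) := mem_normalizer_iff.2 fun z => by
      obtain ⟨z, rfl⟩ := θ.surjective z
      exact (hP.U_inv.iff hθ z).trans (hg.1 z).symm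
    refine (map_le_iff_le_comap (f := θ.toMonoidHom)).1 ((Subgroup.map_sup _ _ _).trans_le (sup_le
      ((hP.U_inv.normalizer.map_eq hθ).trans_le le_sup_left) (map_le_iff_le_comap.2 (S.XS_le_iff.2 ?_))))
    rintro _ rfl t
    obtain ⟨c, φ, ⟨-, e⟩, -⟩ := h.nodePerm_spec ⟨_, hg⟩
    have h6 : h.nodePerm ⟨_, hg⟩ = 1 := mem_bot.1 ((card_eq_one.1 h1).le (MonoidHom.mem_range.2 ⟨_, rfl⟩))
    have h7 : g * θ (S.x (R.neg (R.simple i)) t) * g⁻¹ ∈ S.XS {R.neg (R.simple i)} :=
      Set.mem_of_eq_of_mem (e i t) (S.x_mem_XS (by simp [h6]) _)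
    exact (mul_mem_cancel_left (mem_sup_left h5)).1 ((mul_mem_cancel_right (inv_mem (mem_sup_left h5))).1 (mem_sup_right h7))
  have h5 := hY (hP.max _ (le_normalizer.trans le_sup_left) (fun e => hij ((h.faithful.nS_mem_P_iff (J := {i})).1
    (sup_le (h2.le.trans (S.B_le_P _)) h3 (e.ge (mem_top _))))) h4 (mem_sup_right (S.x_mem_XS (Set.mem_singleton _) 1)))
  rw [h2, ← S.P_empty, h.faithful.mem_P_iff_of_mem_cell (StSys.x_neg_simple_mem_cell i one_ne_zero), R.sperm_mem_WJ_iff] at h5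
  exact h5

omit hp in
theorem normalizer_eq_of_alt {n : ℕ} (hn : 6 ≤ n) (e : K ≃* alternatingGroup (Fin n)) (U : Sylow 2 K) :
    normalizer ((U : Subgroup K) : Set K) = U := by
  have h := Known.normalizer_sylow_two_alt (by simpa using hn)
    (Grp.isSylowIn_map_subtype (U.mapSurjective (f := e.toMonoidHom) e.surjective))
  refine map_injective (f := e.toMonoidHom) e.injective (map_subtype_inj.1 (.trans ?_ h))
  rw [map_equiv_normalizer_eq, ← subgroupOf_map_subtype, subgroupOf_normalizer_eq (map_subtype_le _), subgroupOf,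
    comap_map_eq_self_of_injective (subtype_injective _)]
  rfl

/-- The conclusion for the group `K`. -/
def Concl (p : ℕ) (K : Type*) [Group K] (O : Prop) : Prop := IsLieRankOneChar p K ∨ (p = 2 ∧ O ∧
  ((∃ (F : Type) (_ : Field F) (_ : Fintype F) (_ : CharP F 2), Nonempty (K ≃* Matrix.ProjectiveSpecialLinearGroup (Fin 3) F)) ∨
    (∃ (F : Type) (_ : Field F) (_ : Fintype F) (_ : CharP F 2), 4 ≤ Fintype.card F ∧ Nonempty (K ≃* PSp 2 F)) ∨
    Nonempty (K ≃* alternatingGroup (Fin 6))))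

theorem lie_concl (h : IsLieTypeChar p K) (hP : PMin p U A Y) : Concl p K (Outer U A) := by
  obtain ⟨hY, H⟩ := lie_main h hP
  have hu := U.card_eq_multiplicity
  have hi := (normalizer ((U : Subgroup K) : Set K)).index_dvd_card
  have hg : Nat.card K ≠ 0 := Nat.card_pos.ne'
  have G := @generic p _ _ _ _ _ H hu hi hg
  have G' := @generic_false p _ _ _ _ _ H hu hi hg
  rcases h with ⟨F, _, _, _, n, h1, h2, ⟨e⟩⟩ | ⟨F, _, _, _, m, h1, h2, ⟨e⟩⟩ | ⟨F, _, _, _, n, q, h1, h2, h3, ⟨e⟩⟩ |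
    ⟨F, _, _, _, m, h1, h2, ⟨e⟩⟩ | ⟨F, _, _, _, m, h1, ⟨e⟩⟩ | ⟨F, _, _, _, m, a, b, h1, h2, ⟨e⟩⟩ |
    ⟨F, _, _, _, ⟨h1, ⟨e⟩⟩ | ⟨⟨e⟩⟩ | ⟨⟨e⟩⟩ | ⟨⟨e⟩⟩ | ⟨⟨e⟩⟩⟩ | ⟨F, _, _, _, q, hq, ⟨h1, ⟨e⟩⟩ | ⟨h1, ⟨e⟩⟩⟩ |
    ⟨rfl, h⟩ | ⟨rfl, F, _, _, m, h1, h2, ⟨e⟩⟩ | ⟨rfl, h⟩
  rotate_left 13
  · exact .inl (.inr (.inr (.inl ⟨rfl, h⟩)))
  rotate_left
  · exact .inl (.inr (.inr (.inr ⟨rfl, .inl h⟩)))
  rotate_right
  all_goals
    have h0 := Fintype.one_lt_card (α := F)
    rw [Nat.card_congr e.toEquiv] at G G'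
  · rw [h2] at h0
    obtain ⟨-, -, a, -, h3, h4, h5⟩ := G 12 dvd_rfl h0 (Nat.coprime_one_right _)
      (by simp only [one_mul, Agent.S1068.result h2, mul_assoc]; rfl) (.mul (by simpa using lo_sub (i := 1) (by omega))
        (.mul (lo_add (by omega)) (.mul (lo_sub (by omega)) (lo_add (by omega))))) (by omega)
    exact (not_R2_F4 (by omega) h4 h5).elim
  all_goals obtain ⟨k, hk⟩ := card_dvd F p
  · obtain rfl | h3 := h1.eq_or_lt
    · exact .inl (.inl ⟨F, _, _, inferInstance, h2 rfl, ⟨e⟩⟩)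
    have : NeZero n := ⟨by omega⟩
    have h4 := (SLn.card_PSL_mul (ι := Fin n) (F := F)).trans SLn.card_SL
    have h5 := coprime_sub h0 one_ne_zero (Fintype.card (Fin n))
    rw [pow_one] at h5
    have L : Lo (Fintype.card F) n _ := lo_prod (m := Fintype.card (Fin n) - 1) (f := fun i => Fintype.card F ^ (i + 2) - 1)
      fun i hi => lo_sub (by simp at hi; omega)
    rw [Fintype.card_fin] at h4 h5 L
    obtain rfl | rfl | h7 : n = 3 ∨ n = 4 ∨ 5 ≤ n := by omega
    · obtain ⟨rfl, h6⟩ : p = 2 ∧ Outer U A := by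
        by_cases h6 : Fintype.card F = 2
        · obtain ⟨a, -, -, h7⟩ := pow_factorization_eq hp.out hk h0 (Nat.card_congr e.toEquiv ▸ hg) h5 h4 L
          rw [hu, Nat.card_congr e.toEquiv, h7, Nat.eq_div_of_mul_eq_right (by simp) h4, h6] at H
          exact (H.resolve_left (by decide)).imp_right And.left
        · exact (G _ hk h0 h5 h4 L (by omega)).imp_right And.left
      exact .inr ⟨rfl, h6, .inl ⟨F, _, inferInstance, inferInstance, ⟨e⟩⟩⟩
    · obtain ⟨rfl, -, a, h6, h7, h8, h9⟩ := G _ hk h0 h5 h4 L (by omega)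
      rw [h7] at h4 h8 h9 L
      refine (not_R2 L (by omega) (by omega) h6 (fun h10 => ?_) h8 h9).elim
      obtain rfl : a = 1 := by omega
      obtain ⟨e'⟩ := Agent.S0256.result h7
      obtain ⟨b, m, x, k1, k2, k3, k4, k5, -⟩ := h9.ex h8
      have k6 := (U : Subgroup K).card_mul_index
      rw [← normalizer_eq_of_alt (by decide) (e.trans e') U, ← k5, normalizer_eq_of_alt (by decide) (e.trans e') U, hu,
        Nat.card_congr e.toEquiv, Nat.eq_div_of_mul_eq_right (by simp) h4] at k6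
      have : b ≤ 2 := by nlinarith
      obtain rfl := Nat.eq_div_of_mul_eq_left (Nat.sub_pos_of_lt (Nat.one_lt_two_pow k2.ne')).ne' k4
      revert k6
      interval_cases b <;> decide +kernel
    · have : n * 4 ≤ n * (n - 1) := Nat.mul_le_mul_left _ (by omega)
      exact (G' _ hk h0 h5 h4 L (by omega)).elim
  · have : Nonempty (Fin m) := ⟨⟨0, by omega⟩⟩
    have h3 : Nat.gcd 2 (Fintype.card F - 1) * Nat.card (PSp m F) = Fintype.card F ^ m ^ 2 *
        ∏ i ∈ range m, (Fintype.card F ^ (2 * (i + 1)) - 1) := by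
      rw [← Nat.card_eq_fintype_card, ← Sp.card_symplecticGroup, ← Sp.card_center_symplecticGroup (l := Fin m), mul_comm]
      exact (Subgroup.card_eq_card_quotient_mul_card_subgroup _).symm
    have h4 := coprime_sub h0 one_ne_zero 2
    rw [pow_one] at h4
    obtain rfl | h5 := h1.eq_or_lt
    · obtain ⟨rfl, h5, a, -, h6, -⟩ := G _ hk h0 h4 h3 (lo_even le_rfl) (by omega)
      refine .inr ⟨rfl, h5, .inr (.inl ⟨F, inferInstance, inferInstance, inferInstance, ?_, ⟨e⟩⟩)⟩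
      have := h2 rfl
      rcases a with _ | _ | a <;> omega
    · exact (G' _ hk h0 h4 h3 (lo_even le_rfl) ⟨by nlinarith, by nlinarith⟩).elim
  · obtain rfl | h4 := h2.eq_or_lt
    · exact .inl (.inr (.inl ⟨F, _, _, inferInstance, q, h1, fun e => h3 ⟨rfl, e⟩, ⟨e⟩⟩))
    exfalso
    replace h0 : 1 < q := by_contra fun e => by rw [h1] at h0; interval_cases q <;> simp at h0
    have h5 := (mul_assoc _ _ _).trans (Uni.card_PSU h1 (n := n) (by omega))
    have h6 : q.Coprime (n.gcd (q + 1) * (q + 1)) := .mul_right (by simpa using coprime_add one_ne_zero n) (by simp)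
    replace hk := (dvd_pow_self q two_ne_zero).trans (h1 ▸ hk)
    obtain rfl | rfl | h7 : n = 4 ∨ n = 5 ∨ 6 ≤ n := by omega
    · obtain ⟨-, -, a, h7, rfl, h8, h9⟩ := G _ hk h0 h6 h5 (lo_gu le_rfl) (by omega)
      exact not_R2_U4 h7 h8 h9
    · obtain ⟨-, -, a, h7, rfl, h8, h9⟩ := G _ hk h0 h6 h5 (lo_gu le_rfl) (by omega)
      exact not_R2_U5 h7 h8 h9
    · have : n * 5 ≤ n * (n - 1) := Nat.mul_le_mul_left _ (by omega)
      exact G' _ hk h0 h6 h5 (lo_gu le_rfl) (by omega)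
  · exact (G' _ hk h0 (Nat.coprime_two_right.2 h2) (Agent.S0292.result rfl h2 m h1) (lo_even le_rfl)
      ⟨by nlinarith, by nlinarith⟩).elim
  · have : m * 3 ≤ m * (m - 1) := Nat.mul_le_mul_left _ (by omega)
    exact (G' (m * 2) hk h0 (coprime_sub h0 (by omega) 4) ((Agent.S0293.result rfl _ h1).trans (mul_assoc _ _ _))
      (.mul (lo_sub (by omega)) (lo_even (by omega))) (by omega)).elim
  · have : m * 3 ≤ m * (m - 1) := Nat.mul_le_mul_left _ (by omega)
    exact (G' (m * 2) hk h0 (coprime_add (by omega) 4) ((Agent.S0294.result rfl _ h1 a b h2).trans (mul_assoc _ _ _))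
      (.mul (lo_add (by omega)) (lo_even (by omega))) (by omega)).elim
  · obtain ⟨rfl, -, a, -, h2, -⟩ := G 6 hk h0 (Nat.coprime_one_right _)
      (by rw [one_mul, Agent.S1059.result rfl, mul_assoc]) (.mul (lo_sub (by omega)) (lo_sub (by omega))) (by omega)
    have E := realG2
    have h3 := (E.full F).faithful.not_dvd_index_U (E.full F).hMul 2
    rw [(E.full F).top, ← relIndex, relIndex_top_right] at h3
    obtain ⟨e', he⟩ := exists_equiv_map U e ((E.full F).faithful.uFaithful.isPGroup_U 2) h3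
    obtain ⟨t, ht⟩ := exists_ne_zero_one_of_three_le h1
    refine (chev_false (E.full F) ((card_range_G2 F E fun h => ?_).trans (if_neg (by simp [ringChar.eq F 2])))
      (i := ⟨0, by decide⟩) (j := ⟨1, by decide⟩) (by decide) (he ▸ hP.map e') ?_).elim
    · exact ht.2 (mul_left_cancel₀ ht.1 (by rw [← sq, h, mul_one]))
    · rw [← he, ← map_equiv_normalizer_eq]
      exact map_mono hY
  · exact (G' 12 hk h0 (Nat.coprime_one_right _) (by simp only [one_mul, Agent.S1062.result rfl, mul_assoc]; rfl)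
      (by repeat first | refine .mul (lo_sub (by omega)) ?_ | exact lo_sub (by omega)) (by omega)).elim
  · exact (G' 12 hk h0 (by simpa using coprime_sub h0 one_ne_zero 3)
      (by simp only [Agent.S1063.result rfl, mul_assoc]; rfl)
      (by repeat first | refine .mul (lo_sub (by omega)) ?_ | exact lo_sub (by omega)) (by omega)).elim
  · exact (G' 18 hk h0 (by simpa using coprime_sub h0 one_ne_zero 2)
      (by simp only [Agent.S1064.result rfl, mul_assoc]; rfl)
      (by repeat first | refine .mul (lo_sub (by omega)) ?_ | exact lo_sub (by omega)) (by omega)).elim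
  · exact (G' 30 hk h0 (Nat.coprime_one_right _) (by simp only [one_mul, Agent.S1065.result rfl, mul_assoc]; rfl)
      (by repeat first | refine .mul (lo_sub (by omega)) ?_ | exact lo_sub (by omega)) (by omega)).elim
  · exact (G' 18 ((dvd_pow_self q two_ne_zero).trans (h1 ▸ hk)) hq.one_lt (by simpa using coprime_add one_ne_zero 3)
      (by simp only [Agent.S1066.result hq h1, mul_assoc]; rfl) (by
        repeat first | refine .mul (lo_sub (by omega)) ?_ | refine .mul (lo_add (by omega)) ?_ | exact lo_sub (by omega)) (by omega)).elim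
  · obtain ⟨-, -, a, h2, rfl, h3, h4⟩ := G 12 ((dvd_pow_self q three_ne_zero).trans (h1 ▸ hk)) hq.one_lt
      (Nat.coprime_one_right _) (by simp only [one_mul, Agent.S1067.result hq h1, mul_assoc]; rfl)
      (.mul (lo_sub (by omega)) (.mul (lo_sub (by omega)) fun l _ e =>
        ⟨12, by omega, le_rfl, sub_eq_D4 hq.pos ▸ e.mul_left _⟩)) (by omega)
    exact (not_R2_D4 h2 h3 h4).elim

end CL.Chev.PM
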