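/-
p-minimal groups with a normal simple subgroup of Lie type: the four derived groups.
-/
import Cfsg.Agent.Known.PMin3
import Cfsg.Agent.Grp.SylowIn
import Cfsg.Agent.S0815
import Cfsg.Agent.S1057
import Cfsg.Agent.S1074

set_option autoImplicit false

namespace CL.Chev.PM

open Cfsg BN St SharpBN Subgroup Equiv Equiv.Perm

variable {K : Type*} [Group K] [Finite K] {A : Subgroup (MulAut K)} {Y : Subgroup K}

theorem relIndex_eq_index {P T : Subgroup K} [T.Normal] (h : P ⊔ T = ⊤) : P.relIndex T = P.index := by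
  refine Nat.eq_of_mul_eq_mul_right (Nat.pos_of_ne_zero T.index_ne_zero_of_finite) ?_
  rw [← inf_relIndex_right, relIndex_mul_index inf_le_right, ← relIndex_mul_index (inf_le_left (b := T)), inf_relIndex_left,
    ← relIndex_sup_right, h, relIndex_top_right, mul_comm]

theorem tits_false (h : Lie.IsoTits K) {U : Sylow 2 K} (hP : PMin 2 U A Y) : False := by
  obtain ⟨Q, f, D, hf, hK⟩ := exists_derData_of_isoTits h
  have := D.normal
  obtain ⟨e, he⟩ := exists_equiv_map U (.refl K) (D.lie.pgroup.comap_of_injective f hf) fun e =>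
    D.lie.pSplit.not_dvd_index (e.trans (by rw [index_comap, hK]; exact relIndex_dvd_index_of_normal_right _ _))
  have h0 : cellSubgroup Q.P ∅ = Q.U := cellSubgroup_empty.trans (le_antisymm D.B_le Q.U_le_B)
  have L : Lat (Q.U.comap f) fun J => (cellSubgroup Q.P J).comap f := by
    refine ⟨fun J J' => ⟨fun h s hs => ?_, fun h => comap_mono (cellSubgroup_le_cellSubgroup.2 h)⟩, fun M hM => ?_,
      by rw [h0], by rw [h0]; exact le_normalizer⟩
    · obtain ⟨_, ⟨x, hx, rfl⟩, h1⟩ := mem_nodes_of D.ha (DerData.inf_le_map hK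
        ((comap_mono (cellSubgroup_le_cellSubgroup.2 (Set.singleton_subset_iff.2 hs))).trans h))
      exact gen_mem_cellSubgroup_iff.1 ((mem_cellSubgroup_iff_of_mem_cell (gen_mem_cell s)).2
        ((mem_cellSubgroup_iff_of_mem_cell h1).1 hx))
    · rw [h0] at hM
      have h1 := DerData.inf_le_map hK hM
      exact ⟨Q.nodes (M.map f), le_antisymm (map_le_iff_le_comap.1 (le_cellSubgroup_nodes D.hb h1 D.ha)) fun x hx =>
        (mem_map_iff_mem hf).1 (D.le_of_nodes h1 (hK ▸ map_le_range _ _) ⟨hx, hK ▸ ⟨x, rfl⟩⟩)⟩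
  replace hP := he ▸ hP.map e
  obtain ⟨s, t, -, h1⟩ := D.two
  obtain ⟨θ, -, h2⟩ := (L.trans (by rw [h0]; exact hP.U_inv) hP).2 s t
  have h3 : ∀ r, ((cellSubgroup Q.P {r}).comap f).index = (cellSubgroup Q.P {r}).index := fun r => by
    rw [index_comap, hK]
    refine relIndex_eq_index (eq_top_iff.2 fun g _ => ?_)
    obtain ⟨m, hm, h3⟩ := exists_of_mem_cellSubgroup D.hb inf_le_right (g := g) (by
      rw [Set.eq_univ_of_forall fun s => mem_nodes_of D.ha inf_le_right, cellSubgroup_univ]; trivial)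
    simpa using mul_mem (mem_sup_right hm) (mem_sup_left (B_le_cellSubgroup {r} h3))
  have h4 := (cellSubgroup Q.P {s}).card_mul_index.trans (cellSubgroup Q.P {t}).card_mul_index.symm
  rw [← h3, ← h3, ← h2, index_map_of_bijective θ.bijective, Nat.mul_left_inj index_ne_zero_of_finite,
    card_cellSubgroup_singleton, card_cellSubgroup_singleton, Nat.mul_right_inj Nat.card_pos.ne', gen_def, gen_def,
    cellIdx_mk, cellIdx_mk] at h4
  exact h1 (by simpa using h4)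

theorem false_of_index_two {T : Subgroup K} [T.Normal] (h2 : T.index = 2)
    (hc : Function.Bijective (MulAut.conjNormal (H := T))) {U P P' : Subgroup K} (hU : ¬ 2 ∣ U.index) (h : U ≤ P) (h' : U ≤ P')
    (hP : P ≠ ⊤) (hP' : P' ≠ ⊤) (ht : P ⊔ P' = ⊤) {V Y : Subgroup T} {A : Subgroup (MulAut T)} (H : PMin 2 V A Y) : False := by
  have h3 : ∀ P, U ≤ P → P ≠ ⊤ → ¬ T ≤ P := fun P h hP e => ((Nat.dvd_prime Nat.prime_two).1 (h2 ▸ index_dvd_of_le e)).elim
    (mt index_eq_one.1 hP) fun e => hU (e ▸ index_dvd_of_le h)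
  obtain ⟨g, hg⟩ := exists_conj_mem_of_index (H.pA.comap_of_injective _ hc.1) hU
  have h4 : ∀ P, U ≤ P → P ≠ ⊤ → ∀ x ∈ P ⊓ T, ∃ y ∈ Y, (y : K) = g * x * g⁻¹ := fun P h hP x hx => by
    refine ⟨⟨_, ‹T.Normal›.conj_mem x hx.2 g⟩, H.max (P.comap ((MulAut.conj g⁻¹).toMonoidHom.comp T.subtype))
      (fun v hv => h ?_) (fun e => h3 P h hP fun t ht => ?_) (fun θ hθ z hz => ?_) (by simpa [mul_assoc] using hx.1), rfl⟩
    · simpa using hg v (show _ ∈ A by convert H.inn v hv; ext; simp)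
    · simpa [mul_assoc] using e.ge (mem_top (⟨_, ‹T.Normal›.conj_mem t ht g⟩ : T))
    · obtain ⟨d, rfl⟩ := hc.2 θ
      simpa [mul_assoc] using mul_mem (mul_mem (h (hg d hθ)) hz) (inv_mem (h (hg d hθ)))
  obtain ⟨u, hu, hu'⟩ : ∃ u ∈ U, u ∉ T := by_contra fun e => hU (h2 ▸ index_dvd_of_le fun u hu => by_contra fun e' => e ⟨u, hu, e'⟩)
  have h5 : ∀ Q, U ≤ Q → Q ⊓ T ≤ P ⊓ T ⊔ P' ⊓ T → Q ≤ P ⊓ T ⊔ P' ⊓ T ⊔ U := fun Q h1 h2' x hx => by
    by_cases e : x ∈ T
    · exact mem_sup_left (h2' ⟨hx, e⟩)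
    · exact (mul_mem_cancel_right (mem_sup_right hu)).1
        (mem_sup_left (h2' ⟨mul_mem hx (h1 hu), (mul_mem_iff_of_index_two h2).2 (by simp [e, hu'])⟩))
  refine H.ne_top (eq_top_iff.2 fun t _ => ?_)
  have h6 : g⁻¹ * t * g ∈ ((P ⊓ T ⊔ P' ⊓ T ⊔ U : Subgroup K) : Set K) :=
    sup_le (h5 P h le_sup_left) (h5 P' h' le_sup_right) (ht.ge (mem_top _))
  have h7 : ∀ Q, U ≤ Q → U ≤ normalizer ((Q ⊓ T : Subgroup K) : Set K) := fun Q h u hu => mem_normalizer_fintype fun x hx =>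
    ⟨Q.mul_mem (Q.mul_mem (h hu) hx.1) (inv_mem (h hu)), ‹T.Normal›.conj_mem x hx.2 u⟩
  rw [coe_mul_of_right_le_normalizer_left _ _ ((le_inf (h7 P h) (h7 P' h')).trans (normalizer_inf_normalizer_le_normalizer_sup _ _))] at h6
  obtain ⟨w, hw, v, hv, e⟩ := h6
  have h8 : P ⊓ T ⊔ P' ⊓ T ≤ (Y.map T.subtype).comap (MulAut.conj g).toMonoidHom := sup_le (h4 P h hP) (h4 P' h' hP')
  replace e : w * v = g⁻¹ * t * g := e
  have h9 : v ∈ T := (T.mul_mem_cancel_left ((sup_le inf_le_right inf_le_right : P ⊓ T ⊔ P' ⊓ T ≤ T) hw)).1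
    (by simpa [e] using ‹T.Normal›.conj_mem _ t.2 g⁻¹)
  obtain ⟨y, hy, e'⟩ := h8 (mul_mem hw (mem_sup_left ⟨h hv, h9⟩))
  rwa [show t = y from Subtype.ext (by simpa [e, mul_assoc] using e'.symm)]

theorem chev_two_false {ι Φ : Type} [Fintype ι] [DecidableEq ι] {R : RS ι Φ} {F : Type*} [Field F] [Finite F] [Finite Φ]
    [CharP F 2] {S : StSys R F K} (h : S.Full) {i j : ι} (hij : i ≠ j) (hι : ∀ k, k = i ∨ k = j) {T : Subgroup K} [T.Normal]
    [IsSimpleGroup T] (h1 : ¬ (Nat.card T).Prime) (h2 : T.index = 2) (h3 : Nat.card K = Nat.card (MulAut T))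
    {V Y : Subgroup T} {A : Subgroup (MulAut T)} (H : PMin 2 V A Y) : False := by
  have h4 := h.faithful.not_dvd_index_U h.hMul 2
  rw [h.top, ← relIndex, relIndex_top_right] at h4
  have h5 : ∀ {i j}, j ≠ i → S.P {i} ≠ ⊤ := fun {i j} hij e =>
    hij ((h.faithful.nS_mem_P_iff (J := {i})).1 (e.ge (mem_top _)))
  have h6 := fun J => S.U_le_B.trans (S.B_le_P J)
  refine false_of_index_two h2 ((Nat.bijective_iff_injective_and_card _).2 ⟨?_, h3⟩) h4 (h6 _) (h6 _) (h5 hij) (h5 hij.symm) ?_ H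
  · refine (injective_iff_map_eq_one _).2 fun x hx => ?_
    have h6 : ∀ y ∈ T, x * y * x⁻¹ = y := fun y hy => congrArg Subtype.val (DFunLike.congr_fun hx (⟨y, hy⟩ : T))
    by_cases h7 : x ∈ T
    · refine congrArg Subtype.val (mem_bot.1 (((center T).normal_of_characteristic.eq_bot_or_eq_top.resolve_right fun e => ?_).le
        (mem_center_iff.2 fun y => Subtype.ext (mul_inv_eq_iff_eq_mul.1 (h6 y y.2)).symm : (⟨x, h7⟩ : T) ∈ _)))
      let := Group.commGroupOfCenterEqTop e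
      exact h1 IsSimpleGroup.prime_card
    · refine h.conj_injective (MulEquiv.ext fun y => ?_)
      by_cases h8 : y ∈ T
      · simpa using h6 y h8
      · simpa [mul_inv_eq_iff_eq_mul, ← mul_assoc] using h6 (y * x) ((mul_mem_iff_of_index_two h2).2 (by simp [h7, h8]))
  · rw [eq_top_iff, ← h.top, StSys.grp_eq_closure]
    refine sup_le ((h6 _).trans le_sup_left) ((closure_le _).2 ?_)
    rintro _ ⟨k, rfl⟩
    rcases hι k with rfl | rfl
    exacts [mem_sup_right (S.nS_mem_P rfl), mem_sup_left (S.nS_mem_P rfl)]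

omit [Finite K] in
theorem u33_false {F : Type*} [Field F] [Fintype F] (hF : Fintype.card F = 9) (e : K ≃* PSU 3 F 3) {U : Subgroup K}
    (hP : PMin 2 U A Y) : False := by
  obtain ⟨E, _, _, hE⟩ : ∃ (E : Type) (_ : Field E) (_ : Fintype E), Fintype.card E = 2 := 
    ⟨ZMod 2, inferInstance, inferInstance, ZMod.card 2⟩
  have : CharP E 2 := charP_of_card_eq_prime hE
  obtain ⟨e'⟩ := Agent.S1057.result hE hF
  obtain ⟨_, M, hM⟩ := exists_model_of_psu hF e'
  have h1 := M.card_G_three hM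
  have h2 : Nat.card (Lie.chevG2.group E) = 12096 := (Agent.S1059.result hE).trans (by norm_num)
  have h3 := (commutator (Lie.chevG2.group E)).card_mul_index
  rw [h1, h2] at h3
  have h4 := (show ∀ n, 6048 * n = 12096 → n = 2 by omega) _ h3
  have h5 := hP.map (e.trans e'.symm)
  refine chev_two_false (realG2.full E) (i := ⟨0, by decide⟩) (j := ⟨1, by decide⟩) (by decide) (by decide)
    (T := commutator _) (by rw [h1]; norm_num) h4 ?_ h5
  rw [Nat.card_congr (MulAut.congr e').toEquiv, Agent.S0815.result 3 1 le_rfl (pow_one 3).symm hF 3 le_rfl (by norm_num),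
    ← Nat.card_congr e'.toEquiv, h1, h2]
  rfl

theorem l28_main {F : Type*} [Field F] [Fintype F] (hF : Fintype.card F = 8)
    (e : K ≃* Matrix.ProjectiveSpecialLinearGroup (Fin 2) F) {U : Sylow 3 K} (hP : PMin 3 U A Y) :
    Y ≤ normalizer ((U : Subgroup K) : Set K) := by
  obtain ⟨_, h1, t, ht⟩ := card_psl_two_eight hF e
  have hU := le_normalizer.trans hP.N_le
  have h2 : Nat.card U = 3 ^ 2 := by rw [U.card_eq_multiplicity, h1]; decide +kernel
  have h3 := (Grp.isSylowIn_of_le U hU).le_of_normalized (Grp.pCoreOf_isPGroup 3 Y) (Grp.pCoreOf_le 3 Y)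
    (Grp.le_normalizer_pCoreOf 3 Y)
  obtain ⟨⟨z, hz⟩, h4⟩ := ne_bot_iff_exists_ne_one.1 fun e => hP.ne_top (eq_top_of_pCore_of_card_504 h1 ht
    ((map_eq_bot_iff_of_injective _ Y.subtype_injective).1 e) fun e => U.not_dvd_index (e.trans (index_dvd_of_le hU)))
  have h5 : ∀ g : K, g ^ 9 = 1 ∨ g ^ 14 = 1 := fun g => by
    have : CharP F 2 := charP_of_card_eq_prime_pow (f := 3) hF
    have h := SL2.psl_orderOf_cases 2 (e g)
    rw [e.orderOf_eq, hF] at h
    simp only [← orderOf_dvd_iff_pow_eq_one]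
    exact h.imp_right fun h => h.elim (·.trans (by decide)) (· ▸ by decide)
  have h6 : z ^ 9 = 1 := congrArg Subtype.val (h2 ▸ pow_card_eq_one' (x := (⟨z, h3 hz⟩ : U)))
  have h7 : centralizer (pCoreOf 3 Y : Set K) = U := U.is_maximal' (fun ⟨x, hx⟩ => ⟨2, Subtype.ext ?_⟩) fun u hu y hy =>
    congrArg Subtype.val ((IsPGroup.isMulCommutative_of_card_eq_prime_sq h2).is_comm.comm ⟨y, h3 hy⟩ ⟨u, hu⟩)
  · refine h7 ▸ fun y hy => mem_normalizer_fintype fun u hu x hx => ?_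
    have := hu _ ((mem_normalizer_iff.1 (Grp.le_normalizer_pCoreOf 3 Y (inv_mem hy)) x).1 hx)
    calc x * (y * u * y⁻¹) = y * (y⁻¹ * x * y⁻¹⁻¹ * u) * y⁻¹ := by group
      _ = _ := by rw [this]; group
  · have h8 : Commute z x := hx z hz
    refine (h5 x).elim id fun h9 => (h5 (z * x)).elim (by simp [h8.mul_pow, h6]) fun h10 => absurd (Subtype.ext ?_) h4
    rw [h8.mul_pow, h9, mul_one] at h10
    simpa using pow_gcd_eq_one.2 ⟨h6, h10⟩

/-- An involution of `A₆`. -/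
def z6 : alternatingGroup (Fin 6) := ⟨swap 0 1 * swap 2 3, mem_alternatingGroup.2 (by decide)⟩
/-- Two involutions commuting with `z6`. -/
def c6 : Bool → alternatingGroup (Fin 6)
  | true => ⟨swap 0 2 * swap 1 3, mem_alternatingGroup.2 (by decide)⟩
  | false => ⟨swap 0 1 * swap 4 5, mem_alternatingGroup.2 (by decide)⟩
/-- Two elements of order three. -/
def s6 : Bool → alternatingGroup (Fin 6)
  | true => ⟨swap 1 2 * swap 2 3, mem_alternatingGroup.2 (by decide)⟩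
  | false => ⟨swap 0 2 * swap 2 4 * swap 1 3 * swap 3 5, mem_alternatingGroup.2 (by decide)⟩

set_option synthInstance.maxSize 2048 in
theorem six1 : ∀ u : alternatingGroup (Fin 6), u * z6 = z6 * u → (u ≠ 1 → (u = z6 ∨ ∃ i, c6 i * u * (c6 i)⁻¹ * u⁻¹ = z6) ∧
    (u * u = 1 → u = z6 ∨ ∃ i, u = c6 i ∨ u = z6 * c6 i)) ∧ ∀ i, ∀ n ∈ [z6, c6 i, z6 * c6 i], u * n * u⁻¹ ∈ [z6, c6 i, z6 * c6 i] := by
  decide +kernel

theorem six2 : Fintype.card {u : alternatingGroup (Fin 6) // u * z6 = z6 * u} = 8 := by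
  decide +kernel

set_option synthInstance.maxSize 2048 in
theorem six3 : z6 ≠ 1 ∧ z6 * z6 = 1 ∧ ∀ i, c6 i * z6 = z6 * c6 i ∧ s6 i * z6 ≠ z6 * s6 i ∧
    s6 (!i) * z6 * (s6 (!i))⁻¹ ∉ [z6, c6 i, z6 * c6 i] ∧
    (∀ n ∈ [z6, c6 i, z6 * c6 i], s6 i * n * (s6 i)⁻¹ ∈ [z6, c6 i, z6 * c6 i] ∧ n * n = 1 ∧ n ≠ 1) ∧
    ∀ n ∈ [c6 i, z6 * c6 i], ∀ m ∈ [c6 (!i), z6 * c6 (!i)], n * m ≠ m * n := by
  decide +kernel

theorem six_main {A : Subgroup (MulAut (alternatingGroup (Fin 6)))} {Y : Subgroup (alternatingGroup (Fin 6))}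
    (hP : PMin 2 (centralizer {z6}) A Y) (hS : Grp.IsSylowIn 2 (centralizer {z6}) ⊤) :
    Y ≤ centralizer {z6} ∧ Outer (centralizer {z6}) A := by
  obtain ⟨z1, z2, h⟩ := six3
  have key : ∀ i, (∀ θ ∈ A, ∀ n ∈ [z6, c6 i, z6 * c6 i], θ n ∈ [z6, c6 i, z6 * c6 i]) → s6 i ∈ Y := fun i H =>
    hP.max (normalizer {n | n ∈ [z6, c6 i, z6 * c6 i]})
      (fun u hu => mem_normalizer_fintype ((six1 u (mem_centralizer_singleton_iff.1 hu)).2 i))
      (fun e => (h i).2.2.1 ((mem_set_normalizer_iff.1 (e.ge (mem_top _)) z6).1 (by simp)))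
      (fun θ hθ g hg => mem_normalizer_fintype fun n hn => by
        simpa using H θ hθ _ ((mem_set_normalizer_iff.1 hg _).1 (H _ (inv_mem hθ) n hn)))
      (mem_normalizer_fintype fun n hn => ((h i).2.2.2.1 n hn).1)
  have hY : Y ≤ centralizer {z6} := fun y hy => by
    have hU := le_normalizer.trans hP.N_le
    have h1 := (hS.of_le hU le_top).le_of_normalized (Grp.pCoreOf_isPGroup 2 Y) (Grp.pCoreOf_le 2 Y)
      (Grp.le_normalizer_pCoreOf 2 Y)
    have h2 : ∀ y ∈ Y, ∀ x ∈ pCoreOf 2 Y, y * x * y⁻¹ ∈ pCoreOf 2 Y := fun y hy x =>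
      (mem_normalizer_iff.1 (Grp.le_normalizer_pCoreOf 2 Y hy) x).1
    have h3 : Inv A (pCoreOf 2 Y) := fun θ hθ x hx => by
      rw [← hP.Y_inv.map_eq hθ, ← Grp.map_pCoreOf_of_injective θ.injective]
      exact ⟨x, hx, rfl⟩
    have hc : ∀ i, c6 i ∈ centralizer {z6} := fun i => mem_centralizer_singleton_iff.2 (h i).1
    have hz : z6 ∈ pCoreOf 2 Y := by
      obtain ⟨_, h4⟩ := card_alternating_six (.refl _)
      obtain ⟨⟨x, hx⟩, h4⟩ := ne_bot_iff_exists_ne_one.1 fun e => hP.ne_top (eq_top_of_pCore_of_card_360 h4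
        ((map_eq_bot_iff_of_injective _ Y.subtype_injective).1 e) (relIndex_top_right Y ▸ hS.not_dvd_relIndex_of_le hU le_top))
      obtain e | ⟨i, e⟩ := ((six1 x (mem_centralizer_singleton_iff.1 (h1 hx))).1 fun e => h4 (Subtype.ext e)).1
      · exact e ▸ hx
      · exact e ▸ mul_mem (h2 _ (hU (hc i)) x hx) (inv_mem hx)
    have h4 : ∀ x ∈ pCoreOf 2 Y, x * (y * z6 * y⁻¹) = y * z6 * y⁻¹ * x := fun x hx => by
      have := mem_centralizer_singleton_iff.1 (h1 (h2 _ (inv_mem hy) x hx))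
      calc _ = y * (y⁻¹ * x * y⁻¹⁻¹ * z6) * y⁻¹ := by group
        _ = _ := by rw [this]; group
    obtain e | ⟨i, e⟩ := ((six1 _ (mem_centralizer_singleton_iff.1 (h1 (h2 y hy _ hz)))).1 (by simpa using z1)).2
      (by rw [conj_mul, z2]; simp)
    · exact mem_centralizer_singleton_iff.2 (mul_inv_eq_iff_eq_mul.1 e)
    have h5 : ∀ m ∈ [c6 (!i), z6 * c6 (!i)], m ∉ pCoreOf 2 Y := fun m hm e' =>
      (h i).2.2.2.2 _ (by simpa using e) m hm (h4 m e').symm
    have h6 : ∀ n ∈ [c6 i, z6 * c6 i], n ∈ pCoreOf 2 Y := by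
      have := h2 y hy _ hz
      rcases e with e | e <;> simpa [mul_mem_cancel_left hz, e] using this
    have h7 := key (!i) fun θ hθ n hn => by
      obtain ⟨-, k1, k2⟩ := (h !i).2.2.2.1 n hn
      have k3 : n ∈ centralizer {z6} := by
        simp only [List.mem_cons, List.not_mem_nil, or_false] at hn
        rcases hn with rfl | rfl | rfl
        exacts [h1 hz, hc _, mul_mem (h1 hz) (hc _)]
      clear e
      obtain e | ⟨j, e⟩ := ((six1 _ (mem_centralizer_singleton_iff.1 (hP.U_inv θ hθ n k3))).1 (by simpa using k2)).2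
        (by rw [← map_mul, k1, map_one])
      · simp [e]
      rcases List.mem_cons.1 hn with rfl | hn
      · refine ((h j).2.2.2.2 _ (by simpa using e) (c6 (!j)) (by simp) ?_).elim
        simpa using congrArg θ (mem_centralizer_singleton_iff.1 (hP.U_inv _ (inv_mem hθ) _ (hc !j))).symm
      obtain rfl | rfl : j = i ∨ j = !i := by cases i <;> cases j <;> simp
      · exact (h5 n hn ((h3.iff hθ n).1 (h6 _ (by simpa using e)))).elim
      · simp [e]
    have h8 := ((h !i).2.2.2.1 z6 (by simp)).1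
    rw [List.mem_cons, mul_inv_eq_iff_eq_mul] at h8
    exact (h5 _ (h8.resolve_left (h _).2.1) (h2 _ h7 _ hz)).elim
  refine ⟨hY, fun H => (h true).2.1 (mem_centralizer_singleton_iff.1 (hY (key true fun θ hθ => ?_)))⟩
  obtain ⟨u, hu, rfl⟩ := H θ hθ
  exact (six1 u (mem_centralizer_singleton_iff.1 hu)).2 _

theorem six_concl (e : K ≃* alternatingGroup (Fin 6)) {U : Sylow 2 K} (hP : PMin 2 U A Y) :
    Y ≤ normalizer ((U : Subgroup K) : Set K) ∧ Outer U A := by
  have h1 : Nat.card (centralizer {z6}) = 2 ^ 3 := (Nat.card_congr (Equiv.subtypeEquivRight fun _ =>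
    mem_centralizer_singleton_iff)).trans (Nat.card_eq_fintype_card.trans six2)
  have h2 := (centralizer {z6}).card_mul_index
  rw [h1, (card_alternating_six (.refl _)).2] at h2
  obtain ⟨e', he⟩ := exists_equiv_map U e (.of_card h1) (by omega)
  obtain ⟨h3, h4⟩ := six_main (he ▸ hP.map e') ⟨le_top, .of_card h1, by rw [relIndex_top_right]; omega⟩
  exact ⟨le_normalizer_of_map e' (he ▸ h3.trans le_normalizer), .of_map e' (he ▸ h4)⟩

theorem main {p : ℕ} [Fact p.Prime] (h : IsChevSimple p K) {U : Sylow p K} (hP : PMin p U A Y) :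
    Y ≤ normalizer ((U : Subgroup K) : Set K) ∧ Concl p K (Outer U A) := by
  rcases h with h | ⟨rfl, ⟨⟨e⟩⟩ | ⟨F, _, _, hF, ⟨e⟩⟩ | h⟩ | ⟨rfl, F, _, _, hF, ⟨e⟩⟩
  · exact ⟨(lie_main h hP).1, lie_concl h hP⟩
  · exact (six_concl e hP).imp_right fun h => .inr ⟨rfl, h, .inr (.inr ⟨e⟩)⟩
  · exact (u33_false hF e hP).elim
  · exact (tits_false h hP).elim
  · exact ⟨l28_main hF e hP, .inl (.inr (.inr (.inr ⟨rfl, .inr ⟨F, _, _, hF, ⟨e⟩⟩⟩)))⟩

theorem normalizer_sylow_ne_top {p : ℕ} [Fact p.Prime] (h : IsChevSimple p K) (U : Sylow p K) :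
    normalizer ((U : Subgroup K) : Set K) ≠ ⊤ := by
  rcases h with h | ⟨rfl, ⟨⟨e⟩⟩ | ⟨F, _, _, hF, ⟨e⟩⟩ | ⟨⟨e⟩⟩⟩ | ⟨rfl, F, _, _, hF, ⟨e⟩⟩
  · exact lie_normalizer_ne_top h U
  · obtain ⟨_, h⟩ := card_alternating_six e
    exact normalizer_ne_top U h Nat.prime_three (by decide)
  · obtain ⟨_, M, h⟩ := exists_model_of_psu hF e
    exact normalizer_ne_top U (M.card_G_three h) Nat.prime_three (by decide)
  · obtain ⟨-, hs, -, h⟩ := Agent.S1074.result
    have := @MulEquiv.isSimpleGroup _ _ _ _ hs e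
    rw [← Nat.card_congr e.toEquiv] at h
    exact normalizer_ne_top U h Nat.prime_three (by norm_num)
  · obtain ⟨_, h, -⟩ := card_psl_two_eight hF e
    exact normalizer_ne_top U h Nat.prime_two (by decide)

end CL.Chev.PM
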