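/-
Bounded presentations of groups of type `Dₙ` from those of `SL_n`.
-/
import Cfsg.Agent.Known.PresSp
import Cfsg.Agent.Perm.CTSimply

set_option autoImplicit false

universe u

namespace CL.Known

open Matrix Equiv CL.Chev CL.Chev.SL2 Monoid
open scoped commutatorElement MatrixGroups

section SL

variable {Ω : Type} [Fintype Ω] [DecidableEq Ω] {K : Type*} [Field K]

variable (K) in
/-- the standard Weyl element -/
def wn (i j : Ω) : SpecialLinearGroup Ω K := elt i j 1 * elt j i (-1) * elt i j 1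

theorem wn_val {i j : Ω} (h : i ≠ j) :
    (wn K i j).1 = of fun k l => if l = swap i j k then (if k = j then (-1 : K) else 1) else 0 := by
  change (elt i j (1 : K)).1 * (elt j i (-1 : K)).1 * (elt i j (1 : K)).1 = _
  simp only [elt_val h, elt_val h.symm, mul_add, add_mul, mul_one, one_mul, single_mul_single_same,
    single_mul_single_of_ne _ _ _ _ h, single_mul_single_of_ne _ _ _ _ h.symm]
  ext k l
  simp only [Matrix.add_apply, one_apply, single_apply, of_apply, swap_apply_def, Matrix.zero_apply]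
  grind

theorem wn_conj {i j : Ω} (h : i ≠ j) {k l : Ω} (hkl : k ≠ l) (t : K) : wn K i j * elt k l t * (wn K i j)⁻¹ =
    elt (swap i j k) (swap i j l) ((if k = i then -1 else 1) * (if l = i then -1 else 1) * t) := by
  have := monomial_conj_elt (by intro k; split_ifs <;> simp) (wn_val (K := K) h) ((swap i j).injective.ne hkl) t
  simp only [swap_apply_self, swap_apply_eq_iff, swap_apply_right] at this
  rw [this]
  congr 2
  split_ifs <;> simp

theorem wn_braid {i j k : Ω} (h1 : i ≠ j) (h2 : j ≠ k) (h3 : i ≠ k) :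
    wn K i j * wn K j k * wn K i j = wn K j k * wn K i j * wn K j k := by
  have e1 : wn K i j * wn K j k * (wn K i j)⁻¹ = wn K i k := by
    rw [wn.eq_1 K j k, ← conj_mul, ← conj_mul, wn_conj h1 h2, wn_conj h1 h2.symm]
    simp [wn, h1.symm, h3.symm, swap_apply_of_ne_of_ne, h2.symm]
  have e2 : wn K j k * wn K i k * (wn K j k)⁻¹ = wn K i j := by
    rw [wn.eq_1 K i k, ← conj_mul, ← conj_mul, wn_conj h2 h3, wn_conj h2 h3.symm]
    simp [wn, h1, h3, swap_apply_of_ne_of_ne, h2.symm]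
  rw [← e1] at e2
  calc _ = wn K j k * (wn K i j * wn K j k * (wn K i j)⁻¹) * (wn K j k)⁻¹ * wn K j k * wn K i j := by rw [e2]
    _ = _ := by group

theorem exists_dia {H : Subgroup (SpecialLinearGroup Ω K)} {i j : Ω} (h : i ≠ j) (h1 : ∀ t, elt i j t ∈ H)
    (h2 : ∀ t, elt j i t ∈ H) {y : K} (hy : y ≠ 0) : ∃ g ∈ H, ActsDiag elt g (dgl i j y) :=
  ⟨SpecialLinearGroup.diag2n h y hy, by
    simp only [SLn.diag2n_decompose, ← elt_eq]
    exact mul_mem (mul_mem (mul_mem (mul_mem (mul_mem (h1 _) (h2 _)) (h1 _)) (h1 _)) (h2 _)) (h1 _),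
    actsDiag_of_diagonal rfl fun k => by simp only [dgl]; split_ifs <;> simp [hy]⟩

theorem rel_elt {i j : Ω} (h : i ≠ j) : Rel (elt i j : K → _) (elt j i) :=
  ⟨stRel_elt.add i j h, stRel_elt.add j i h.symm, fun t ht u => by
    have e : nn (elt i j) (elt j i) t = SpecialLinearGroup.diag2n h t ht * wn K i j := by
      simp only [SLn.diag2n_decompose, ← elt_eq, wn, nn, addHom_neg (stRel_elt.add i j h),
        addHom_neg (stRel_elt.add j i h.symm)]
      group
    rw [e, _root_.mul_inv_rev, ← mul_assoc, mul_assoc _ (wn K i j), mul_assoc _ (_ * _), wn_conj h h,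
      actsDiag_of_diagonal (d := dgl i j t) rfl (fun k => by simp only [dgl]; split_ifs <;> simp [ht]) _ _
        (by simpa using h.symm)]
    simp [dgl, h.symm, pow_two]⟩

theorem sl3Std_elt {J : Type*} [Group J] (ρ : SpecialLinearGroup Ω K →* J) {i j k : Ω} (h1 : i ≠ j) (h2 : j ≠ k) (h3 : i ≠ k) :
    SL3Std (fun t => ρ (elt i j t)) (fun t => ρ (elt j i t)) (fun t => ρ (elt j k t)) fun t => ρ (elt k j t) := by
  have n : ∀ {a b}, a ≠ b → ![i, j, k] a ≠ ![i, j, k] b := (List.nodup_ofFn.1 (by simp [*]) : (![i, j, k]).Injective).ne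
  exact ⟨_, (SL3Rel.mk (X := fun a b (t : K) => elt (![i, j, k] a) (![i, j, k] b) t) (fun a b h => stRel_elt.add _ _ (n h))
    (fun a b c h h' h'' => stRel_elt.mul _ _ _ (n h) (n h') (n h''))
    fun a b c d e1 e2 e3 e4 => stRel_elt.comm _ _ _ _ (n e1) (n e2) (n e4) (n e3)).map ρ, rfl, rfl, rfl, rfl⟩

theorem eq_top_of_simple {n : ℕ} {H : Subgroup (SpecialLinearGroup (Fin (n + 1)) K)}
    (h1 : ∀ (i : Fin n) t, elt i.succ i.castSucc t ∈ H) (h2 : ∀ (i : Fin n) t, elt i.castSucc i.succ t ∈ H) : H = ⊤ := by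
  have c : ∀ {a b}, a ∈ H → b ∈ H → ⁅a, b⁆ ∈ H := fun ha hb => mul_mem (mul_mem (mul_mem ha hb) (inv_mem ha)) (inv_mem hb)
  have key : ∀ i j : Fin (n + 1), i < j → ∀ t, elt i j t ∈ H ∧ elt j i t ∈ H := fun i j => by
    induction j using Fin.induction with
    | zero => simp
    | succ j ih =>
      intro h t
      rcases (Fin.le_castSucc_iff.2 h).eq_or_lt with rfl | e
      · exact ⟨h2 j t, h1 j t⟩
      have n := j.castSucc_lt_succ.ne
      exact ⟨by simpa [stRel_elt.mul _ _ _ e.ne n h.ne] using c (ih e t).1 (h2 j 1),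
        by simpa [stRel_elt.mul _ _ _ n.symm e.ne' h.ne'] using c (h1 j 1) (ih e t).2⟩
  exact eq_top_iff.2 fun g _ => elt_induction (· ∈ H) H.one_mem
    (fun i j h t => h.lt_or_gt.elim (fun e => (key i j e t).1) fun e => (key j i e t).2) (fun _ _ => H.mul_mem) g

theorem exists_two_gen_SL2 [Finite K] : ∃ a b : SL(2, K), Subgroup.closure {a, b} = ⊤ ∧ Subgroup.normalClosure {a} = ⊤ := by
  have n01 : (0 : Fin 2) ≠ 1 := by decide
  have hw : (wn K (0 : Fin 2) 1).1 = of fun i j => if j = Equiv.addRight 1 i then (if i = 1 then (-1 : K) else 1) else 0 := by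
    rw [wn_val n01, show swap (0 : Fin 2) 1 = Equiv.addRight 1 by decide]
  have hc : ∀ i : Fin 2, (if i = 1 then (-1 : K) else 1) ≠ 0 := fun i => by split_ifs <;> simp
  have key : ∀ a : SL(2, K), elt 0 1 1 ∈ Subgroup.normalClosure {a} → wn K 0 1 ∈ Subgroup.normalClosure {a} := fun a h =>
    mul_mem (mul_mem h (by simpa [wn_conj] using Subgroup.normalClosure_normal.conj_mem _ h (wn K 0 1))) h
  by_cases h : Nat.card K ≤ 3
  · have := closure_eq_top_small h le_rfl hc hw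
    have m := Subgroup.subset_normalClosure (Set.mem_singleton (elt 0 1 1 : SL(2, K)))
    exact ⟨_, _, this, eq_top_iff.2 (this ▸ (Subgroup.closure_le _).2 (Set.pair_subset m (key _ m)))⟩
  · obtain ⟨ζ, h0, -, ho⟩ := exists_field_gen K
    have h1 := sq_ne_one_of_card (by omega) ho
    have := closure_eq_top_big (h := SpecialLinearGroup.diag2n n01 ζ h0) h0 h1
      (powGen_pow h0 ho two_pos (Or.inl le_rfl)) le_rfl hc rfl hw
    have m := Subgroup.subset_normalClosure (Set.mem_singleton (SpecialLinearGroup.diag2n n01 ζ h0))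
    have m' : elt 0 1 1 ∈ Subgroup.normalClosure {SpecialLinearGroup.diag2n n01 ζ h0} := by
      rw [elt_eq n01, ← div_mul_cancel₀ 1 (sub_ne_zero.2 h1), ← SLn.commutator_diag2n_transvection n01 ζ h0,
        commutatorElement_def, mul_assoc, mul_assoc, ← mul_assoc (SpecialLinearGroup.transvection _ _)]
      exact mul_mem m (Subgroup.normalClosure_normal.conj_mem _ (inv_mem m) _)
    exact ⟨_, _, this, eq_top_iff.2 (this ▸ (Subgroup.closure_le _).2 (Set.pair_subset m (mul_mem m' (key _ m'))))⟩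

end SL

theorem exists_three_gen {A B G : Type*} [Group A] [Group B] [Group G] (f : A →* G) (g : B →* G)
    (hc : ∀ a b, Commute (f a) (g b)) (hA : ∃ a b : A, Subgroup.closure {a, b} = ⊤ ∧ Subgroup.normalClosure {a} = ⊤)
    (hB : ∃ a b : B, Subgroup.closure {a, b} = ⊤) : ∃ l : List G, l.length = 3 ∧ (∀ x ∈ l, x ∈ f.range ⊔ g.range) ∧
      ∀ H : Subgroup G, (∀ x ∈ l, x ∈ H) → f.range ≤ H ∧ g.range ≤ H := by
  obtain ⟨a, b, h1, h2⟩ := hA
  obtain ⟨c, d, h3⟩ := hB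
  have m1 : ∀ a, f a ∈ f.range ⊔ g.range := fun a => Subgroup.mem_sup_left ⟨a, rfl⟩
  have m2 : ∀ a, g a ∈ f.range ⊔ g.range := fun a => Subgroup.mem_sup_right ⟨a, rfl⟩
  refine ⟨[f a, f b * g c, g d], rfl, by simp [m1, m2, mul_mem], fun H hH => ?_⟩
  simp only [List.mem_cons, List.not_mem_nil, or_false, forall_eq_or_imp, forall_eq] at hH
  have : (H.comap f).Normal := by
    rw [← Subgroup.normalizer_eq_top_iff, eq_top_iff, ← h1, Subgroup.closure_le]
    refine Set.pair_subset (Subgroup.le_normalizer hH.1) (Subgroup.mem_normalizer_iff.2 fun x => ?_)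
    rw [Subgroup.mem_comap, Subgroup.mem_comap, show f (b * x * b⁻¹) = f b * g c * f x * (f b * g c)⁻¹ by
      rw [mul_assoc (f b), ← (hc x c).eq]; simp [mul_assoc], Subgroup.mul_mem_cancel_right _ (inv_mem hH.2.1),
      Subgroup.mul_mem_cancel_left _ hH.2.1]
  have e : ∀ x, f x ∈ H := fun x =>
    Subgroup.normalClosure_le_normal (N := H.comap f) (Set.singleton_subset_iff.2 hH.1) (h2 ▸ Subgroup.mem_top x)
  refine ⟨by rintro _ ⟨x, rfl⟩; exact e x, ?_⟩
  rintro _ ⟨x, rfl⟩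
  exact (Subgroup.closure_le (H.comap g)).2 (Set.pair_subset ((Subgroup.mul_mem_cancel_left _ (e b)).1 hH.2.1) hH.2.2)
    (h3 ▸ Subgroup.mem_top x)

theorem commute_of_braid {J : Type*} [Group J] {a b c x : J} (h1 : a * b * a = b * a * b) (h2 : c * a * c = a * c * a)
    (h3 : Commute c b) (h4 : Commute c ((b * a)⁻¹ * x * (b * a))) : Commute b (a * c * x * c⁻¹ * a⁻¹) := by
  have e : b * (a * c) = a * c * (b * a * c * (b * a)⁻¹) := by
    calc _ = b * a * b * c * b⁻¹ := by rw [mul_assoc _ b, ← h3.eq]; group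
      _ = a * b * (a * c * a) * a⁻¹ * b⁻¹ := by rw [← h1]; group
      _ = a * (b * c) * a * c * a⁻¹ * b⁻¹ := by rw [← h2]; group
      _ = _ := by rw [← h3.eq]; group
  have e' : Commute (b * a * c * (b * a)⁻¹) x := by simpa [mul_assoc] using h4.conj (b * a)
  calc _ = b * (a * c) * x * (a * c)⁻¹ := by group
    _ = a * c * x * (a * c)⁻¹ * (a * c * (b * a * c * (b * a)⁻¹)) * (a * c)⁻¹ := by rw [e, mul_assoc (a * c), e'.eq]; group
    _ = _ := by rw [← e]; group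

section D

variable {Ω : Type} [Fintype Ω] [DecidableEq Ω] {K : Type*} [Field K] [Finite K] {J : Type*} [Group J]

/-- the root elements attached to the extra node -/
def yD (ρ : SpecialLinearGroup Ω K →* J) (c : J) (a b i j : Ω) (t : K) : J :=
  ρ (wn K a b) * c * ρ (elt i j t) * c⁻¹ * (ρ (wn K a b))⁻¹

variable {ρ : SpecialLinearGroup Ω K →* J} {c : J} {o₀ o₁ o₂ o₃ : Ω}

omit [Finite K] in
theorem yD_add {a b i j : Ω} (h : i ≠ j) (s t : K) : yD ρ c a b i j (s + t) = yD ρ c a b i j s * yD ρ c a b i j t := by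
  simp only [yD, stRel_elt.add i j h, map_mul]; group

omit [Finite K] in
theorem map_yD {J' : Type*} [Group J'] (φ : J →* J') (a b i j : Ω) (t : K) :
    φ (yD ρ c a b i j t) = yD (φ.comp ρ) (φ c) a b i j t := by simp [yD]

theorem dn_rel (n01 : o₀ ≠ o₁) (n02 : o₀ ≠ o₂) (n03 : o₀ ≠ o₃) (n12 : o₁ ≠ o₂) (n13 : o₁ ≠ o₃) (n23 : o₂ ≠ o₃)
    (h0 : ∀ t, Commute c (ρ (elt o₀ o₁ t)) ∧ Commute c (ρ (elt o₁ o₀ t)))
    (h1 : ∀ i j, i ≠ j → i ≠ o₀ → i ≠ o₁ → j ≠ o₀ → j ≠ o₁ → ∀ t, Commute c (ρ (elt i j t)))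
    (h2 : c * ρ (wn K o₁ o₂) * c = ρ (wn K o₁ o₂) * c * ρ (wn K o₁ o₂))
    (h3 : Commute (yD ρ c o₁ o₂ o₂ o₁ 1) (ρ (elt o₁ o₀ 1)))
    (h4 : (∃ o, o ≠ o₀ ∧ o ≠ o₁ ∧ o ≠ o₂ ∧ o ≠ o₃) ∨ Commute (yD ρ c o₁ o₂ o₂ o₁ 1) (ρ (elt o₃ o₂ 1))) :
    (∀ i j, i ≠ j → i = o₁ ∧ j = o₀ ∨ i ≠ o₀ ∧ i ≠ o₁ ∧ j ≠ o₀ ∧ j ≠ o₁ → ∀ t u,
      Commute (yD ρ c o₁ o₂ o₂ o₁ t) (ρ (elt i j u)) ∧ Commute (yD ρ c o₁ o₂ o₂ o₁ t) (ρ (elt j i u)) ∧
      Commute (yD ρ c o₁ o₂ o₁ o₂ t) (ρ (elt i j u)) ∧ Commute (yD ρ c o₁ o₂ o₁ o₂ t) (ρ (elt j i u))) ∧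
    SL3Std (yD ρ c o₁ o₂ o₂ o₁) (yD ρ c o₁ o₂ o₁ o₂) (fun t => ρ (elt o₂ o₁ t)) fun t => ρ (elt o₁ o₂ t) := by
  set a := wn K o₁ o₂ with ha
  set y := yD ρ c o₁ o₂ with hy
  have hy' : ∀ i j t, y i j t = ρ a * c * ρ (elt i j t) * c⁻¹ * (ρ a)⁻¹ := fun _ _ _ => rfl
  have cw : ∀ {i j g}, (∀ t, Commute g (ρ (elt i j t))) → (∀ t, Commute g (ρ (elt j i t))) → Commute g (ρ (wn K i j)) :=
    fun h h' => by simp only [wn, map_mul]; exact ((h _).mul_right (h' _)).mul_right (h _)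
  have cj : ∀ {g w i j k l}, i ≠ j → (∀ t, ∃ u, w * elt i j u * w⁻¹ = elt k l t) → Commute g (ρ w) →
      (∀ t, Commute g (ρ (elt i j t))) → ∀ t, Commute g (ρ (elt k l t)) := fun h e h1 h2 t => by
    obtain ⟨u, e⟩ := e t
    rw [← e, map_mul, map_mul, map_inv]
    exact (h1.mul_right (h2 u)).mul_right h1.inv_right
  have b1 : Commute c (ρ (wn K o₂ o₃)) :=
    cw (h1 _ _ n23 n02.symm n12.symm n03.symm n13.symm) (h1 _ _ n23.symm n03.symm n13.symm n02.symm n12.symm)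
  have b0 : Commute c (ρ (wn K o₀ o₁)) := cw (fun t => (h0 t).1) fun t => (h0 t).2
  have br : ∀ {b i j k l t u}, a * b * a = b * a * b → Commute c (ρ b) → b * (a * elt k l u * a⁻¹) * b⁻¹ = elt i j t →
      Commute c (ρ (elt k l u)) → Commute (y i j t) (ρ b) := fun e e1 e2 e3 =>
    (commute_of_braid (by simpa using congrArg ρ e) h2 e1 (by rw [← e2]; simpa [mul_assoc] using e3)).symm
  have c1 : ∀ t, Commute (y o₂ o₁ t) (ρ (wn K o₂ o₃)) := fun t =>
    br (wn_braid n12 n23 n13) b1 (k := o₃) (l := o₂) (u := t)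
      (by simp [ha, wn_conj, swap_apply_of_ne_of_ne, n12, n13, n23, n12.symm, n13.symm, n23.symm])
      (h1 _ _ n23.symm n03.symm n13.symm n02.symm n12.symm _)
  have c2 : ∀ t, Commute (y o₁ o₂ t) (ρ (wn K o₂ o₃)) := fun t =>
    br (wn_braid n12 n23 n13) b1 (k := o₂) (l := o₃) (u := t)
      (by simp [ha, wn_conj, swap_apply_of_ne_of_ne, n12, n13, n23, n12.symm, n13.symm, n23.symm])
      (h1 _ _ n23 n02.symm n12.symm n03.symm n13.symm _)
  have c0 : ∀ t, Commute (y o₂ o₁ t) (ρ (wn K o₀ o₁)) := fun t =>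
    br (wn_braid n01 n12 n02).symm b0 (k := o₁) (l := o₀) (u := t)
      (by simp [ha, wn_conj, swap_apply_of_ne_of_ne, n12, n02, n01, n12.symm, n02.symm, n01.symm]) (h0 _).2
  have sw : ∀ t, c * y o₂ o₁ (-t) * c⁻¹ = y o₁ o₂ t := fun t => by
    have : a * elt o₂ o₁ (-t) * a⁻¹ = elt o₁ o₂ t := by simp [ha, wn_conj, n12, n12.symm]
    calc _ = c * ρ a * c * ρ (elt o₂ o₁ (-t)) * (c * ρ a * c)⁻¹ := by rw [hy']; group
      _ = _ := by rw [h2, hy', ← this, map_mul, map_mul, map_inv]; group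
  have tor : ∀ α β : K, α ≠ 0 → β ≠ 0 → ∃ g, (∀ t, ρ g * y o₂ o₁ t * (ρ g)⁻¹ = y o₂ o₁ (α * β * t)) ∧
      ActsDiag elt g (dgl o₀ o₂ α * dgl o₁ o₃ β) := fun α β hα hβ => by
    let H := (Subgroup.centralizer {ρ a * c * (ρ a)⁻¹}).comap ρ
    have m : ∀ {i j k l}, (∀ t, Commute c (ρ (elt i j t))) → (∀ t, ∃ u, a * elt i j u * a⁻¹ = elt k l t) →
        ∀ t, elt k l t ∈ H := fun h e t => by
      obtain ⟨u, e⟩ := e t
      rw [← e]
      exact Subgroup.mem_centralizer_singleton_iff.2 (by simpa using ((h u).conj (ρ a)).symm.eq)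
    obtain ⟨g, g1, g2⟩ := exists_dia (H := H) n02
      (m (fun t => (h0 t).1) fun t => ⟨-t, by simp [wn_conj, swap_apply_of_ne_of_ne, *]⟩)
      (m (fun t => (h0 t).2) fun t => ⟨-t, by simp [ha, wn_conj, swap_apply_of_ne_of_ne, n01, n02, n01.symm, n12]⟩) hα
    obtain ⟨g', g1', g2'⟩ := exists_dia (H := H) n13
      (m (h1 _ _ n23 n02.symm n12.symm n03.symm n13.symm) fun t =>
        ⟨t, by simp [ha, wn_conj, swap_apply_of_ne_of_ne, n12, n23, n12.symm, n13.symm, n23.symm]⟩)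
      (m (h1 _ _ n23.symm n03.symm n13.symm n02.symm n12.symm) fun t =>
        ⟨t, by simp [ha, wn_conj, swap_apply_of_ne_of_ne, n12, n12.symm, n13.symm, n23.symm]⟩) hβ
    refine ⟨g * g', fun t => ?_, g2.mul g2'⟩
    have e : ∀ t, y o₂ o₁ t = ρ a * c * (ρ a)⁻¹ * ρ (elt o₁ o₂ (-t)) * (ρ a * c * (ρ a)⁻¹)⁻¹ := fun t => by
      have : a * elt o₂ o₁ t * a⁻¹ = elt o₁ o₂ (-t) := by simp [ha, wn_conj, n12, n12.symm]
      rw [hy', ← this, map_mul, map_mul, map_inv]; group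
    have e1 : Commute (ρ (g * g')) _ := Subgroup.mem_centralizer_singleton_iff.1 (mul_mem g1 g1' : g * g' ∈ H)
    rw [e, e, ← conj_mul, ← conj_mul, e1.mul_inv_cancel, e1.inv_right.mul_inv_cancel, ← map_inv ρ (g * g'), ← map_mul, ← map_mul,
      g2.mul g2' _ _ n12]
    simp [dgl, n01.symm, n02.symm, n12.symm, n12, n23, mul_comm α]
  have sp : ∀ {i j}, i ≠ j → Commute (y o₂ o₁ 1) (ρ (elt i j 1)) → (∀ γ u : K, γ ≠ 0 → u ≠ 0 → ∃ α β : K, α ≠ 0 ∧ β ≠ 0 ∧
      α * β = u⁻¹ * γ ^ 2 ∧ (dgl o₀ o₂ α * dgl o₁ o₃ β) i * ((dgl o₀ o₂ α * dgl o₁ o₃ β) j)⁻¹ = u) →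
      ∀ t u, Commute (y o₂ o₁ t) (ρ (elt i j u)) := fun {i j} hij h e t u => by
    by_cases hu : u = 0
    · simp [hu, addHom_zero (stRel_elt.add i j hij)]
    refine (commute_of_span (yD_add n12.symm) closure_sq_eq_top (inv_ne_zero hu) ?_ t).symm
    rintro _ ⟨γ, hγ, rfl⟩
    obtain ⟨α, β, hα, hβ, e1, e2⟩ := e γ u hγ hu
    obtain ⟨g, g1, g2⟩ := tor α β hα hβ
    have := h.conj (ρ g)
    rw [g1, ← map_inv, ← map_mul, ← map_mul, g2 _ _ hij, e1, e2, mul_one, mul_one] at this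
    exact this.symm
  have far : ∀ i j, i ≠ j → i ≠ o₀ → i ≠ o₁ → j ≠ o₀ → j ≠ o₁ → i ≠ o₂ → j ≠ o₂ → ∀ t u,
      Commute (y o₂ o₁ t) (ρ (elt i j u)) := fun i j e a1 a2 a3 a4 a5 a6 t u => by
    have f : ∀ {k l}, k ≠ l → k = o₁ ∨ k = o₂ → l = o₁ ∨ l = o₂ → ∀ t, Commute (ρ (elt i j u)) (ρ (elt k l t)) :=
      fun h1 h2 h3 t => (stRel_elt.comm _ _ _ _ e h1 (by rcases h3 with rfl | rfl <;> assumption)
        (by rcases h2 with rfl | rfl <;> assumption) _ _).map ρ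
    have f1 := cw (f n12 (.inl rfl) (.inr rfl)) (f n12.symm (.inr rfl) (.inl rfl))
    have f2 := (h1 i j e a1 a2 a3 a4 u).symm
    exact ((((f1.mul_right f2).mul_right (f n12.symm (.inr rfl) (.inl rfl) t)).mul_right f2.inv_right).mul_right
      f1.inv_right).symm
  have cm : ∀ {g i j k}, i ≠ j → j ≠ k → i ≠ k → (∀ t, Commute g (ρ (elt i j t))) → (∀ t, Commute g (ρ (elt j k t))) →
      ∀ t, Commute g (ρ (elt i k t)) := fun {g i j k} e1 e2 e3 a1 a2 t => by
    rw [← one_mul t, ← stRel_elt.mul i j k e1 e2 e3, map_commutatorElement]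
    exact (((a1 _).mul_right (a2 _)).mul_right (a1 _).inv_right).mul_right (a2 _).inv_right
  have d1 : ∀ j, j ≠ o₀ → j ≠ o₁ → j ≠ o₂ → j ≠ o₃ → ∀ t u, Commute (y o₂ o₁ t) (ρ (elt o₂ j u)) := fun j a0 a1 a2 a3 t =>
    cj a3.symm (fun u => ⟨u, by simp [wn_conj, swap_apply_of_ne_of_ne, n23, n23.symm, a2, a3, a3.symm]⟩) (c1 t)
      (far _ _ a3.symm n03.symm n13.symm a0 a1 n23.symm a2 t)
  have d2 : ∀ j, j ≠ o₀ → j ≠ o₁ → j ≠ o₂ → j ≠ o₃ → ∀ t u, Commute (y o₂ o₁ t) (ρ (elt j o₂ u)) := fun j a0 a1 a2 a3 t =>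
    cj a3 (fun u => ⟨u, by simp [wn_conj, swap_apply_of_ne_of_ne, n23, n23.symm, a2, a3]⟩) (c1 t)
      (far _ _ a3 a0 a1 n03.symm n13.symm a2 n23.symm t)
  have d3 : ∀ t u, Commute (y o₂ o₁ t) (ρ (elt o₃ o₂ u)) := by
    rcases h4 with ⟨o, a0, a1, a2, a3⟩ | h4
    · exact fun t => cm a3.symm a2 n23.symm (far _ _ a3.symm n03.symm n13.symm a0 a1 n23.symm a2 t) (d2 o a0 a1 a2 a3 t)
    · refine sp n23.symm h4 fun γ u hγ hu => ⟨γ, γ / u, hγ, div_ne_zero hγ hu, by ring, ?_⟩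
      simp [dgl, n02.symm, n03.symm, n12.symm, n13.symm, n23.symm, n23]
      field_simp
  have d0 : ∀ t u, Commute (y o₂ o₁ t) (ρ (elt o₁ o₀ u)) := by
    refine sp n01.symm h3 fun γ u hγ hu => ⟨γ / u, γ, div_ne_zero hγ hu, hγ, by ring, ?_⟩
    simp [dgl, n01.symm, n01, n12, n03]
    field_simp
  have d4 : ∀ i j, i ≠ j → i ≠ o₀ → i ≠ o₁ → j ≠ o₀ → j ≠ o₁ → ∀ t u, Commute (y o₂ o₁ t) (ρ (elt i j u)) := by
    intro i j e a0 a1 a2 a3 t
    by_cases e1 : i = o₂
    · subst e1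
      by_cases e2 : j = o₃
      · subst e2
        exact cj n23.symm (fun u => ⟨-u, by simp [wn_conj, n23, n23.symm]⟩) (c1 t) (d3 t)
      · exact d1 j a2 a3 e.symm e2 t
    by_cases e2 : j = o₂
    · subst e2
      by_cases e3 : i = o₃
      exacts [e3 ▸ d3 t, d2 i a0 a1 e e3 t]
    · exact far i j e a0 a1 a2 a3 e1 e2 t
  have sw' : ∀ {g}, Commute c g → (∀ t, Commute (y o₂ o₁ t) g) → ∀ t, Commute (y o₁ o₂ t) g := fun e e' t =>
    sw t ▸ (e.mul_left (e' _)).mul_left e.inv_left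
  refine ⟨fun i j e h t u => ?_, ?_⟩
  · rcases h with ⟨rfl, rfl⟩ | ⟨a0, a1, a2, a3⟩
    · have d5 := fun t => cj e (k := j) (l := i) (fun u => ⟨-u, by simp [wn_conj, e, e.symm]⟩) (c0 t) (d0 t)
      exact ⟨d0 t u, d5 t u, sw' (h0 u).2 (d0 · u) t, sw' (h0 u).1 (d5 · u) t⟩
    · exact ⟨d4 i j e a0 a1 a2 a3 t u, d4 j i e.symm a2 a3 a0 a1 t u,
        sw' (h1 i j e a0 a1 a2 a3 u) (d4 i j e a0 a1 a2 a3 · u) t,
        sw' (h1 j i e.symm a2 a3 a0 a1 u) (d4 j i e.symm a2 a3 a0 a1 · u) t⟩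
  · have r := sl3Std_elt ((MulAut.conj (ρ (wn K o₂ o₃) * (ρ a * c))).toMonoidHom.comp ρ) n23.symm n12.symm n13.symm
    have e : ∀ {k l i j : Ω} {t}, Commute c (ρ (elt k l t)) → wn K o₂ o₃ * (a * elt k l t * a⁻¹) * (wn K o₂ o₃)⁻¹ = elt i j t →
        ρ (wn K o₂ o₃) * (ρ a * c) * ρ (elt k l t) * (ρ (wn K o₂ o₃) * (ρ a * c))⁻¹ = ρ (elt i j t) := fun e e' => by
      rw [← e', map_mul, map_mul, map_mul, map_mul, ← e.mul_inv_cancel, e.mul_inv_cancel]; simp [mul_assoc, e.left_comm]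
    convert r.symm using 2 with t t t t
    · rw [← (c1 t).symm.mul_inv_cancel, hy']; simp [mul_assoc]
    · rw [← (c2 t).symm.mul_inv_cancel, hy']; simp [mul_assoc]
    · exact (e (h1 _ _ n23.symm n03.symm n13.symm n02.symm n12.symm _)
        (by simp [ha, wn_conj, swap_apply_of_ne_of_ne, n12, n13, n23, n12.symm, n13.symm, n23.symm])).symm
    · exact (e (h1 _ _ n23 n02.symm n12.symm n03.symm n13.symm _)
        (by simp [ha, wn_conj, swap_apply_of_ne_of_ne, n12, n13, n23, n12.symm, n13.symm, n23.symm])).symm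

end D

section Main

variable {F : Type u} [Field F] [Finite F] {G : Type u} [Group G] {k : ℕ}

/-- the root system of type `D` -/
noncomputable abbrev rsD (k : ℕ) : RS (Option (Fin (k + 3))) (PhiK 0 (k + 4)) := (euclK (.inl rfl) (k + 2)).rs

theorem cartanD (i : Fin (k + 3)) : (rsD k).cartan none (some i) = (if i = 1 then -1 else 0) ∧
    (rsD k).cartan (some i) none = if i = 1 then -1 else 0 := by
  simp only [Eucl.cartan_eq, EuclK.cvec_simple]
  simp only [euclK, sVec, aVec, Int.ediv_zero, if_true, add_dotProduct, dotProduct_add, single_dotProduct, dotProduct_single,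
    Pi.sub_apply, Pi.single_apply, Fin.ext_iff, Fin.val_succ, Fin.val_castSucc, Fin.val_zero, Fin.val_one]
  constructor <;> split_ifs <;> first | omega | contradiction

theorem bp_D {S : StSys (rsD k) F G} (hS : S.Faithful) (hg : S.grp = ⊤)
    (hk : ∀ c, S.hMul_of_finite.torus c = 1 → c = 1 ∨ c = Pi.mulSingle none (-1) * Pi.mulSingle (some 0) (-1))
    (lev lev' : SpecialLinearGroup (Fin (k + 4)) F →* G)
    (hl : ∀ i j, i ≠ j → i ≠ 0 → j ≠ 0 → ∀ t, lev' (elt i j t) = lev (elt i j t))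
    (s : Option (Fin (k + 3)) → F) (hs : ∀ i, s i * s i = 1)
    (h1 : ∀ (i : Fin (k + 3)) t, S.x ((rsD k).simple (some i)) t = lev (elt i.succ i.castSucc (s (some i) * t)) ∧
      S.x ((rsD k).neg ((rsD k).simple (some i))) t = lev (elt i.castSucc i.succ (s (some i) * t)))
    (h2 : ∀ t, S.x ((rsD k).simple none) t = lev' (elt 1 0 (s none * t)) ∧
      S.x ((rsD k).neg ((rsD k).simple none)) t = lev' (elt 0 1 (s none * t)))
    {d r : ℕ} (hB : BP (SpecialLinearGroup (Fin (k + 4)) F) d r) : BP G (d + 1) (r + if k = 0 then 7 else 6) := by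
  classical
  let R := rsD k
  have n : ∀ a b : Fin 4, a ≠ b → (Fin.ofNat (k + 4) a ≠ Fin.ofNat (k + 4) b) := fun a b h e => h (Fin.ext (by
    simpa [Fin.ext_iff, Nat.mod_eq_of_lt (show a.val < k + 4 by omega), Nat.mod_eq_of_lt (show b.val < k + 4 by omega)] using e))
  have n01 : (0 : Fin (k + 4)) ≠ 1 := n 0 1 (by decide)
  have n02 : (0 : Fin (k + 4)) ≠ 2 := n 0 2 (by decide)
  have n03 : (0 : Fin (k + 4)) ≠ 3 := n 0 3 (by decide)
  have n12 : (1 : Fin (k + 4)) ≠ 2 := n 1 2 (by decide)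
  have n13 : (1 : Fin (k + 4)) ≠ 3 := n 1 3 (by decide)
  have n23 : (2 : Fin (k + 4)) ≠ 3 := n 2 3 (by decide)
  let P := Coprod (SpecialLinearGroup (Fin (k + 4)) F) (FreeGroup (Fin 1))
  let f : P →* G := Coprod.lift lev (FreeGroup.lift fun _ => lev' (wn F 0 1))
  let c : P := Coprod.inr (FreeGroup.of 0)
  let ρ : _ →* P := Coprod.inl
  have fc : f c = lev' (wn F 0 1) := FreeGroup.lift_apply_of
  have fρ : ∀ g, f (ρ g) = lev g := fun g => rfl
  have fa : lev (wn F 1 2) = lev' (wn F 1 2) := by simp [wn, hl _ _ n12, hl _ _ n12.symm, n01.symm, n02.symm]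
  have fy : ∀ i j, i ≠ j → i ≠ 0 → j ≠ 0 → ∀ t, f (yD ρ c 1 2 i j t) =
      lev' (wn F 1 2 * (wn F 0 1 * elt i j t * (wn F 0 1)⁻¹) * (wn F 1 2)⁻¹) := fun i j a b c t => by
    simp [yD, fρ, fc, fa, hl i j a b c, mul_assoc]
  have fy1 : ∀ t, f (yD ρ c 1 2 2 1 t) = lev' (elt 1 0 t) := fun t => by
    rw [fy _ _ n12.symm n02.symm n01.symm]
    simp [wn_conj, swap_apply_of_ne_of_ne, n01, n02, n12, n01.symm, n02.symm, n12.symm]
  have fy2 : ∀ t, f (yD ρ c 1 2 1 2 t) = lev' (elt 0 1 t) := fun t => by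
    rw [fy _ _ n12 n01.symm n02.symm]
    simp [wn_conj, swap_apply_of_ne_of_ne, n01, n02, n12, n01.symm, n02.symm, n12.symm]
  let A : Option (Fin (k + 3)) → F → P := fun i t =>
    i.elim (yD ρ c 1 2 2 1 (s none * t)) fun i => ρ (elt i.succ i.castSucc (s (some i) * t))
  let B : Option (Fin (k + 3)) → F → P := fun i t =>
    i.elim (yD ρ c 1 2 1 2 (s none * t)) fun i => ρ (elt i.castSucc i.succ (s (some i) * t))
  have fA : ∀ i t, f (A i t) = S.x (R.simple i) t := by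
    rintro (_ | i) t
    exacts [(fy1 _).trans (h2 t).1.symm, (h1 i t).1.symm]
  have fB : ∀ i t, f (B i t) = S.x (R.neg (R.simple i)) t := by
    rintro (_ | i) t
    exacts [(fy2 _).trans (h2 t).2.symm, (h1 i t).2.symm]
  have sc : ∀ i t, s i * (s i * t) = t := fun i t => by rw [← mul_assoc, hs, one_mul]
  have cO : ∀ r ∈ R.PhiJ {none}, ∀ r' ∈ R.PhiJ {some 0}, ∀ t u, Commute (S.x r t) (S.x r' u) := fun r hr r' hr' =>
    have h0 : R.cartan none (some 0) = 0 := (cartanD 0).1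
    S.commute_x (by
      have := R.pair_eq_zero_of_orth h0 hr hr'
      intro e; rw [e, R.pair_neg_right, R.pair_self] at this; omega) fun _ => R.not_comb_of_orth (by simp) h0 hr hr'
  have p1 : ∀ i, R.simple i ∈ R.PhiJ {i} := fun i => by simp
  have p2 : ∀ i, R.neg (R.simple i) ∈ R.PhiJ {i} := fun i => by simp
  have q1 : ∀ t, lev' (elt 1 0 t) = S.x (R.simple none) (s none * t) := fun t => by rw [(h2 _).1, sc]
  have q2 : ∀ t, lev' (elt 0 1 t) = S.x (R.neg (R.simple none)) (s none * t) := fun t => by rw [(h2 _).2, sc]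
  have q3 : ∀ t, lev (elt 1 0 t) = S.x (R.simple (some 0)) (s (some 0) * t) := fun t => by rw [(h1 0 _).1, sc]; rfl
  have q4 : ∀ t, lev (elt 0 1 t) = S.x (R.neg (R.simple (some 0))) (s (some 0) * t) := fun t => by rw [(h1 0 _).2, sc]; rfl
  have cO' : ∀ r' ∈ R.PhiJ {some 0}, ∀ u, Commute (lev' (wn F 0 1)) (S.x r' u) := fun r hr u => by
    simp only [wn, map_mul, q1, q2]
    exact ((cO _ (p2 _) r hr _ _).mul_left (cO _ (p1 _) r hr _ _)).mul_left (cO _ (p2 _) r hr _ _)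
  obtain ⟨j₁, j1, j2⟩ := (rel_elt (K := F) n01).exists_hom_of_finite
  let j₂ := (succSL (k + 3) F).comp (succSL (k + 2) F)
  have j3 : ∀ i j, i ≠ j → ∀ t, j₂ (elt i j t) = elt i.succ.succ j.succ.succ t := fun i j h t => by
    simp only [j₂, MonoidHom.comp_apply, succSL_elt h, succSL_elt ((Fin.succ_injective _).ne h)]
  have m0 : ∀ i : Fin (k + 2), (0 : Fin (k + 4)) ≠ i.succ.succ := fun i => (Fin.succ_ne_zero _).symm
  have m1 : ∀ i : Fin (k + 2), (1 : Fin (k + 4)) ≠ i.succ.succ := fun i => (Fin.succ_succ_ne_one _).symm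
  have m2 : ∀ {i j : Fin (k + 2)}, i ≠ j → i.succ.succ ≠ j.succ.succ := fun h => by simpa
  obtain ⟨l, l1, l2, l3⟩ := exists_three_gen j₁ j₂ (fun a b => by
    induction b using elt_induction with
    | h1 => simp
    | h3 a b ha hb => rw [map_mul]; exact ha.mul_right hb
    | h2 i j h t =>
      rw [j3 i j h]
      induction a using SL2.induction_on with
      | hu u => exact j1 u ▸ stRel_elt.comm _ _ _ _ n01 (m2 h) (m0 _) (m1 _) _ _
      | hl u => exact j2 u ▸ stRel_elt.comm _ _ _ _ n01.symm (m2 h) (m1 _) (m0 _) _ _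
      | hm a b ha hb => rw [map_mul]; exact ha.mul_left hb) exists_two_gen_SL2 (exists_two_gen_SL (by omega))
  let z : P := hh (A none) (B none) (-1) * hh (A (some 0)) (B (some 0)) (-1)
  have := (hB.coprod (BP.free 1)).of_list f ?_ (l.map (fun x => ⁅c, ρ x⁆) ++
    [c * ρ (wn F 1 2) * c * (ρ (wn F 1 2) * c * ρ (wn F 1 2))⁻¹, ⁅yD ρ c 1 2 2 1 1, ρ (elt 1 0 1)⁆,
      if f z = 1 then z else 1] ++ if k = 0 then [⁅yD ρ c 1 2 2 1 1, ρ (elt 3 2 1)⁆] else []) ?_ fun J _ φ hφ => ?_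
  · refine this.mono ?_
    split_ifs <;> simp [l1]
  · rw [← MonoidHom.range_eq_top, eq_top_iff, ← hg, StSys.grp, ← R.PhiJ_univ]
    exact StSys.XS_PhiJ_le' (fun i _ t => ⟨_, fA i t⟩) fun i _ t => ⟨_, fB i t⟩
  · simp only [List.mem_append, List.mem_map, or_imp, forall_and, forall_exists_index, and_imp, forall_apply_eq_imp_iff₂,
      List.mem_cons, List.not_mem_nil, or_false, forall_eq, map_commutatorElement, commutatorElement_eq_one_iff_commute,
      map_mul, map_inv, mul_inv_eq_one, fc, fρ, fy1]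
    refine ⟨⟨fun x hx => ?_, ?_, ?_, by split_ifs <;> simp [*]⟩, ?_⟩
    · refine Subgroup.mem_centralizer_singleton_iff.1 ((sup_le (c := (Subgroup.centralizer {_}).comap lev) ?_ ?_) (l2 x hx))
        |>.symm <;> rintro _ ⟨g, rfl⟩
      · induction g using SL2.induction_on with
        | hu u => exact Subgroup.mem_centralizer_singleton_iff.2 (by rw [j1, q4]; exact (cO' _ (p2 _) _).symm)
        | hl u => exact Subgroup.mem_centralizer_singleton_iff.2 (by rw [j2, q3]; exact (cO' _ (p1 _) _).symm)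
        | hm a b ha hb => rw [map_mul]; exact mul_mem ha hb
      · induction g using elt_induction with
        | h1 => simp
        | h3 a b ha hb => rw [map_mul]; exact mul_mem ha hb
        | h2 i j h t =>
          rw [j3 i j h, Subgroup.mem_comap, Subgroup.mem_centralizer_singleton_iff, ← hl _ _ (m2 h) (m0 _).symm (m0 _).symm,
            ← map_mul, ← map_mul, eq_comm, mul_inv_eq_iff_eq_mul.1 (wn_conj n01 (m2 h) t)]
          simp [swap_apply_of_ne_of_ne, (m0 _).symm, (m1 _).symm]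
    · simpa [fa] using congrArg lev' (wn_braid (K := F) n01 n12 n02)
    · rw [q1, q3]
      exact cO _ (p1 _) _ (p1 _) _ _
    · split_ifs
      · simp only [List.mem_singleton, forall_eq, map_commutatorElement, commutatorElement_eq_one_iff_commute, fρ, fy1,
          ← hl _ _ n23.symm n03.symm n02.symm]
        exact (stRel_elt.comm _ _ _ _ n01.symm n23.symm n12 n03 _ _).map lev'
      · simp
  let ψ := φ.prod f
  simp only [List.mem_append, List.mem_map, or_imp, forall_and, forall_exists_index, and_imp, forall_apply_eq_imp_iff₂,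
    List.mem_cons, List.not_mem_nil, or_false, forall_eq, map_commutatorElement, commutatorElement_eq_one_iff_commute,
    map_mul, map_inv, mul_inv_eq_one, map_yD] at hφ
  obtain ⟨⟨r1, r2, r3, r4⟩, r5⟩ := hφ
  obtain ⟨e1, e2⟩ := l3 ((Subgroup.centralizer {φ c}).comap (φ.comp ρ)) fun x hx =>
    Subgroup.mem_centralizer_singleton_iff.2 (r1 x hx).symm
  have e3 : ∀ {g}, g ∈ (Subgroup.centralizer {φ c}).comap (φ.comp ρ) → Commute (φ c) (φ.comp ρ g) := fun h =>
    (Subgroup.mem_centralizer_singleton_iff.1 h).symm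
  have ex : ∀ i : Fin (k + 4), i ≠ 0 → i ≠ 1 → ∃ j : Fin (k + 2), j.succ.succ = i := fun i h0 h1 => by
    obtain ⟨i, rfl⟩ := Fin.exists_succ_eq.2 h0
    obtain ⟨i, rfl⟩ := Fin.exists_succ_eq.2 (fun e => h1 (e ▸ rfl) : i ≠ 0)
    exact ⟨i, rfl⟩
  obtain ⟨D1, D2⟩ := dn_rel (ρ := φ.comp ρ) (c := φ c) n01 n02 n03 n12 n13 n23
    (fun t => ⟨e3 (e1 ⟨_, j1 t⟩), e3 (e1 ⟨_, j2 t⟩)⟩) (fun i j h a0 a1 a2 a3 t => by
      obtain ⟨i, rfl⟩ := ex i a0 a1
      obtain ⟨j, rfl⟩ := ex j a2 a3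
      exact e3 (e2 ⟨_, j3 i j (fun e => h (e ▸ rfl)) t⟩)) r2 r3 (by
      rcases k with _ | k
      · exact .inr (by simpa [map_commutatorElement, commutatorElement_eq_one_iff_commute, map_yD] using r5)
      · exact .inl ⟨4, by simp [Fin.ext_iff, Nat.mod_eq_of_lt]⟩)
  have si : ∀ i, (s i)⁻¹ = s i := fun i => inv_eq_of_mul_eq_one_right (hs i)
  have tw : ∀ {a b a' b' : F → J} (i j), SL3Std a b a' b' → SL3Std (fun t => a (s i * t)) (fun t => b (s i * t))
      (fun t => a' (s j * t)) fun t => b' (s j * t) := fun i j h => by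
    simpa [si] using h.twist (RingHom.id F) (left_ne_zero_of_mul_eq_one (hs i)) (left_ne_zero_of_mul_eq_one (hs j))
  have sn : ∀ i : Fin (k + 3), i.succ ≠ i.castSucc := fun i => i.castSucc_lt_succ.ne'
  have no : ∀ i : Fin (k + 3), i ≠ 1 → ∀ t u, Commute (φ (A none t)) (φ (A (some i) u)) ∧
      Commute (φ (A none t)) (φ (B (some i) u)) ∧ Commute (φ (B none t)) (φ (A (some i) u)) ∧
      Commute (φ (B none t)) (φ (B (some i) u)) := fun i hi t u => by
    simp only [A, B, Option.elim, map_yD]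
    exact D1 _ _ (sn i) (by
      simp only [ne_eq, Fin.ext_iff, Fin.val_succ, Fin.val_castSucc, Fin.val_zero, Fin.val_one] at hi ⊢; omega) _ _
  have ad : ∀ i j : Fin (k + 3), j.val + 1 = i → SL3Std (fun t => φ (A (some i) t)) (fun t => φ (B (some i) t))
      (fun t => φ (A (some j) t)) fun t => φ (B (some j) t) := fun i j h => by
    have e : i.castSucc = j.succ := Fin.ext h.symm
    simp only [A, B, Option.elim, e]
    exact tw _ _ (sl3Std_elt (φ.comp ρ) (e ▸ sn i) (sn j) fun e => by simp [Fin.ext_iff] at e; omega)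
  obtain ⟨S', hS', a1, a2⟩ := S.exists_sys_simply (fun i t => φ (A i t)) (fun i t => φ (B i t)) hS.uFaithful
    (EuclK.irred _ (by simp)) (by simp) (EuclK.noG2 _)
    (by rintro (_ | i) t u <;> simp [A, mul_add, yD_add n12.symm, stRel_elt.add _ _ (sn _)])
    (by rintro (_ | i) t u <;> simp [B, mul_add, yD_add n12, stRel_elt.add _ _ (sn _).symm]) (by
      rintro (_ | i) (_ | j) h
      · exact absurd rfl h
      · by_cases e : j = 1
        · subst e
          exact .inr ⟨(cartanD 1).1, (cartanD 1).2, by simpa [A, B, map_yD] using tw none (some 1) D2⟩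
        · exact .inl ⟨(cartanD j).1.trans (if_neg e), no j e⟩
      · by_cases e : i = 1
        · subst e
          exact .inr ⟨(cartanD 1).2, (cartanD 1).1, by simpa [A, B, map_yD] using (tw none (some 1) D2).symm⟩
        · exact .inl ⟨(cartanD i).2.trans (if_neg e), fun t u =>
            ⟨(no i e u t).1.symm, (no i e u t).2.2.1.symm, (no i e u t).2.1.symm, (no i e u t).2.2.2.symm⟩⟩
      · have h' : i ≠ j := fun e => h (e ▸ rfl)
        simp only [EuclK.cartan_some, aVec_aVec, if_neg h', if_neg h'.symm, or_comm (a := j.val + 1 = i)]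
        split_ifs with e
        · exact .inr ⟨rfl, rfl, e.elim (fun e => (ad j i e).symm) (ad i j)⟩
        · refine .inl ⟨rfl, fun t u => ⟨?_, ?_, ?_, ?_⟩⟩ <;>
            refine (stRel_elt.comm _ _ _ _ ?_ ?_ ?_ ?_ _ _).map (φ.comp ρ) <;>
            simp only [ne_eq, Fin.ext_iff, Fin.val_succ, Fin.val_castSucc] at h' ⊢ <;> omega)
  have b1 : ∀ i t, S'.x ((rsD k).simple i) t = ψ (A i t) := fun i t =>
    Prod.ext (a1 i t) ((congrArg (fun T : StSys R F G => T.x (R.simple i) t) hS').trans (fA i t).symm)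
  have b2 : ∀ i t, S'.x ((rsD k).neg ((rsD k).simple i)) t = ψ (B i t) := fun i t =>
    Prod.ext (a2 i t) ((congrArg (fun T : StSys R F G => T.x (R.neg (R.simple i)) t) hS').trans (fB i t).symm)
  have g1 : ∀ g, ψ (ρ g) ∈ S'.grp := fun g => by
    have := eq_top_of_simple (H := S'.grp.comap (ψ.comp ρ))
      (fun i t => by rw [← sc (some i) t]; exact (b1 (some i) _ ▸ S'.x_mem_grp _ _ :))
      fun i t => by rw [← sc (some i) t]; exact (b2 (some i) _ ▸ S'.x_mem_grp _ _ :)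
    exact (this ▸ Subgroup.mem_top g :)
  have g2 : ψ c ∈ S'.grp := by
    have e : ψ c * ψ (ρ (wn F 1 2)) * ψ c = ψ (ρ (wn F 1 2)) * ψ c * ψ (ρ (wn F 1 2)) :=
      Prod.ext r2 (by simpa [ψ, fc, fρ, fa] using congrArg lev' (wn_braid (K := F) n01 n12 n02))
    have y1 : ∀ t, ψ (yD ρ c 1 2 2 1 t) ∈ S'.grp := fun t => by rw [← sc none t]; exact (b1 none _ ▸ S'.x_mem_grp _ _ :)
    have y2 : ∀ t, ψ (yD ρ c 1 2 1 2 t) ∈ S'.grp := fun t => by rw [← sc none t]; exact (b2 none _ ▸ S'.x_mem_grp _ _ :)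
    convert mul_mem (mul_mem (y2 1) (y1 (-1))) (y2 1) using 1
    simp only [yD, map_mul, map_inv]
    calc _ = ψ (ρ (wn F 1 2)) * ψ c * ψ (ρ (wn F 1 2)) * (ψ c)⁻¹ * (ψ (ρ (wn F 1 2)))⁻¹ := by rw [← e]; group
      _ = _ := by nth_rewrite 2 [wn]; simp only [map_mul]; group
  intro w hw
  have g3 : ψ w ∈ S'.grp := by
    clear hw
    induction w using Coprod.induction_on with
    | inl g => exact g1 g
    | mul a b ha hb => rw [map_mul]; exact mul_mem ha hb
    | inr g =>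
      induction g using FreeGroup.induction_on with
      | C1 => simp
      | of x => exact Subsingleton.elim 0 x ▸ g2
      | inv_of x h => rw [map_inv, map_inv]; exact inv_mem h
      | mul a b ha hb => rw [map_mul, map_mul]; exact mul_mem ha hb
  subst hS'
  obtain ⟨d, hd⟩ := S'.hMul_of_finite.mem_H_iff.1 (StSys.mem_H_of_map hS g3 hw)
  have h3 := congrArg (MonoidHom.snd J G) hd
  rw [S'.hMul_of_finite.map_torus (StSys.hMul_of_finite _)] at h3
  rcases hk d (h3.trans hw) with rfl | rfl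
  · exact (congrArg Prod.fst hd).symm.trans (by simp)
  · have e : ψ w = ψ z := by
      simp [← hd, StSys.HMul.torus_mulSingle, StSys.h, StSys.n, b1, b2, z, hh, nn]
    have : f z = 1 := (congrArg Prod.snd e).symm.trans hw
    rw [if_pos this] at r4
    exact (congrArg Prod.fst e).trans r4

end Main

end CL.Known
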