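/-
The symplectic group is generated by three conjugate regular unipotent elements.
-/
import Cfsg.Agent.Known.RegSp1

set_option autoImplicit false

open Module CL.Known CL.Sp

namespace CL.RegU

variable {F : Type*} [Field F]

/-- The model of a regular unipotent element. -/
theorem exists_model_sp (m : ℕ) {ν : F} (hν : ν ≠ 2) : ∃ B : LinearMap.BilinForm F (Tr F (m + 2) × Tr F (m + 2)),
    B.IsAlt ∧ B.Nondegenerate ∧ ∃ A ∈ Isom B, ∃ s, Cyc A s ∧ nil A ^ (2 * m + 4) = 0 ∧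
      B ((nil A ^ (2 * m + 3)) s) s = 2 - ν ∧ B s (A s) = 1 ∧ B s (A (A s)) = ν := by
  obtain ⟨χ, hχ⟩ := exists_fun (m + 2) fun i => if i = 0 then 1 else ν - 2
  obtain ⟨z, hz⟩ : ∃ z, z = zz F (m + 2) := ⟨_, rfl⟩
  have z0 : z ^ (m + 2) = 0 := hz ▸ zz_pow F _
  have p0 : χ 1 = 1 := by simpa using hχ 0 (by omega)
  have p1 : χ z = ν - 2 := by simpa [hz] using hχ 1 (by omega)
  have p2 : χ (z ^ (m + 1)) = ν - 2 := by simpa [hz] using hχ (m + 1) (by omega)
  let B : LinearMap.BilinForm F (Tr F (m + 2) × Tr F (m + 2)) := LinearMap.mk₂ F (fun u v => χ (u.1 * v.2 - u.2 * v.1))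
    (fun _ _ _ => by simp only [Prod.fst_add, Prod.snd_add, ← map_add]; congr 1; ring)
    (fun _ _ _ => by simp [← smul_sub])
    (fun _ _ _ => by simp only [Prod.fst_add, Prod.snd_add, ← map_add]; congr 1; ring)
    (fun _ _ _ => by simp [← smul_sub])
  have hB : ∀ u v, B u v = χ (u.1 * v.2 - u.2 * v.1) := fun _ _ => rfl
  let A : (Tr F (m + 2) × Tr F (m + 2)) ≃ₗ[F] (Tr F (m + 2) × Tr F (m + 2)) :=
    { toFun u := (-u.2, u.1 + (z + 2) * u.2)
      invFun u := (u.2 + (z + 2) * u.1, -u.1)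
      map_add' _ _ := Prod.ext (by simp [add_comm]) (by simp only [Prod.fst_add, Prod.snd_add]; ring)
      map_smul' _ _ := Prod.ext (by simp) (by simp)
      left_inv _ := Prod.ext (by simp) (by simp)
      right_inv _ := Prod.ext (by simp) (by simp) }
  have hA : ∀ u, A u = (-u.2, u.1 + (z + 2) * u.2) := fun _ => rfl
  have hA' : ∀ (f : Tr F (m + 2)) u, A (f • u) = f • A u := fun f u => by
    simp only [hA]; exact Prod.ext (by simp) (by simp; ring)
  have hN : ∀ i u, (nil A ^ (2 * i)) u = z ^ i • (A ^ i) u := fun i u => by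
    induction i with
    | zero => simp
    | succ i ih =>
      rw [mul_add, mul_one, nil_pow_succ, nil_pow_succ, ih, pow_succ' A, LinearEquiv.mul_apply]
      generalize (A ^ i) u = v
      simp only [hA]
      exact Prod.ext (by simp; ring) (by simp; ring)
  have hT : ∀ i u, z ^ (m + 1) • (A ^ i) (A u - u) = z ^ (m + 1) • (A u - u) := fun i u => by
    induction i generalizing u with
    | zero => simp
    | succ i ih =>
      rw [pow_succ A, LinearEquiv.mul_apply, map_sub A, ih]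
      simp only [hA]
      exact Prod.ext (by simp; linear_combination -u.2 * z0)
        (by simp; linear_combination (u.1 + (z + 2) * u.2) * z0)
  have hAlt : B.IsAlt := fun u => by rw [hB, mul_comm, sub_self, map_zero]
  refine ⟨B, hAlt, hAlt.isRefl.nondegenerate_iff_separatingLeft.2 fun x hx => ?_, A, fun u v => ?_, (1, 0),
    fun W w1 w2 v => ?_, LinearMap.ext fun u => ?_, ?_, by simp [hB, hA, p0], ?_⟩
  · have h : ∀ a : Tr F (m + 2), (∀ g, χ (a * g) = 0) → a = 0 := fun a ha => by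
      by_contra a0
      obtain ⟨g, hg⟩ := exists_mul_eq a0
      exact hν (sub_eq_zero.1 (p2.symm.trans (by have := ha g; rwa [hg, ← hz] at this)))
    exact Prod.ext (h _ fun g => by simpa [hB] using hx (0, g)) (h _ fun g => by simpa [hB] using hx (g, 0))
  · rw [hB, hB, hA, hA]; congr 1; ring
  · have w3 : W.map (A : _ →ₗ[F] _) = W :=
      Submodule.eq_of_le_of_finrank_eq (by rintro _ ⟨x, hx, rfl⟩; exact w2 x hx) (A.finrank_map_eq W)
    have w4 : ∀ f : Tr F (m + 2), ∀ v ∈ W, f • v ∈ W := by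
      refine tr_induction (by simp) (fun f hf v hv => ?_) (fun f g a b v hv => add_smul f g v ▸ add_mem (a v hv) (b v hv))
        fun a f hf v hv => smul_assoc a f v ▸ W.smul_mem a (hf v hv)
      obtain ⟨u, hu, rfl⟩ := w3.ge hv
      rw [mul_comm, mul_smul, ← hz]
      refine hf _ ?_
      convert sub_mem (sub_mem (add_mem (w2 _ hv) hu) hv) hv using 1
      simp only [LinearEquiv.coe_coe, hA]
      exact Prod.ext (by simp; ring) (by simp; ring)
    convert add_mem (w4 v.1 _ w1) (w4 v.2 _ (w2 _ w1)) using 1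
    simp [hA]
  · rw [show 2 * m + 4 = 2 * (m + 2) by ring, hN, z0, zero_smul]; rfl
  · rw [show 2 * m + 3 = 2 * (m + 1) + 1 by ring, pow_succ (nil A), Module.End.mul_apply, hN, nil_apply, hT]
    simp [hB, hA, p2]
  · simp only [hB, hA]
    rw [show (1 : Tr F (m + 2)) * (-0 + (z + 2) * (1 + (z + 2) * 0)) - 0 * -(1 + (z + 2) * 0) = z + 1 + 1 by ring]
    simp only [map_add, p0, p1]; ring

theorem exists_powGen_sq [Finite F] : ∃ l : F, l ≠ 0 ∧ PowGen (l ^ 2) ∧ l ^ 2 ≠ 2 := by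
  obtain ⟨γ, h0, -, h2⟩ := exists_field_gen F
  have h := powGen_pow h0 h2 two_pos (Or.inl le_rfl)
  by_cases e : γ ^ 2 = 2
  · refine ⟨1, one_ne_zero, eq_top_iff.2 (h.ge.trans ((AddSubgroup.closure_le _).2 ?_)), fun e => one_ne_zero (α := F)
      (by linear_combination -e)⟩
    rintro _ ⟨i, rfl⟩
    have := nsmul_mem (AddSubgroup.subset_closure (k := Set.range fun i : ℕ => ((1 : F) ^ 2) ^ i) ⟨0, pow_zero _⟩) (2 ^ i)
    rw [nsmul_one, Nat.cast_pow, Nat.cast_two, ← e] at this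
    exact this
  · exact ⟨γ, h0, h, e⟩

theorem exists_powGen_trace [Finite F] [CharP F 2] (h4 : 4 < Nat.card F) : ∃ α : F, α + α ^ 2 ≠ 0 ∧ PowGen (α + α ^ 2) := by
  have key : ∀ α : F, α ≠ 0 → (∀ n : ℕ, α ^ n = 1 → Nat.card F - 1 ∣ n) → ¬ (α + α ^ 2 ≠ 0 ∧ PowGen (α + α ^ 2)) →
      ∃ P, 2 ≤ P ∧ P ^ 2 ≤ Nat.card F ∧ α ^ P = α + 1 := fun α h0 h hn => by
    have h2 : (2 : F) = 0 := CharTwo.two_eq_zero
    by_cases e : α + α ^ 2 = 0
    · have := Nat.le_of_dvd one_pos (h 1 (mul_left_cancel₀ h0 (by linear_combination e - α * h2))); omega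
    obtain ⟨d, d1, d2, d3⟩ := exists_frobenius_fixed 2 fun hp => hn ⟨e, hp⟩
    have d4 : 2 ≤ 2 ^ d := Nat.le_self_pow (by omega) 2
    rw [add_pow_char_pow, ← pow_mul, mul_comm, pow_mul] at d3
    generalize 2 ^ d = P at d2 d3 d4
    refine ⟨P, d4, d2, ?_⟩
    obtain ⟨r, rfl⟩ : ∃ r, P = r + 1 := ⟨P - 1, by omega⟩
    refine sub_eq_zero.1 ((mul_eq_zero.1 (?_ : (α ^ (r + 1) - α) * _ = 0)).resolve_left fun e => ?_)
    · linear_combination d3 + (α + α ^ 2 - α ^ (r + 1) - α ^ (r + 1) * α) * h2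
    · have := Nat.le_of_dvd (by omega) (h r (mul_left_cancel₀ h0 (by linear_combination e)))
      obtain ⟨Q, hQ⟩ : ∃ Q, Nat.card F = Q + 1 := ⟨_, (Nat.succ_pred_eq_of_pos Nat.card_pos).symm⟩
      rw [hQ] at this d2
      simp at this; nlinarith
  obtain ⟨γ, h0, -, h2⟩ := exists_field_gen F
  by_contra! H
  obtain ⟨P, p1, p2, p3⟩ := key γ h0 h2 fun h => H _ h.1 h.2
  obtain ⟨Q, q1, q2, q3⟩ := key γ⁻¹ (inv_ne_zero h0) (fun n hn => h2 n (by simpa using hn)) fun h => H _ h.1 h.2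
  obtain ⟨r, rfl⟩ : ∃ r, P = r + 1 := ⟨P - 1, by omega⟩
  have := Nat.le_of_dvd (by omega) (h2 (r + Q) (mul_left_cancel₀ h0 (by
    rw [inv_pow] at q3
    field_simp at q3
    linear_combination γ ^ Q * p3 - q3)))
  obtain ⟨N, hN⟩ : ∃ N, Nat.card F = N + 1 := ⟨_, (Nat.succ_pred_eq_of_pos Nat.card_pos).symm⟩
  rw [hN] at this p2 q2 h4
  simp at this; nlinarith

theorem sp_gen_three_of [Fintype F] (m : ℕ) {ν l : F} (hν : PowGen ν) (ν2 : ν ≠ 2) (hl : l ≠ 0) {j : ℕ} (hj : 1 + j * ν ≠ 0)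
    (hj' : j = 0 ∧ ν = l ^ 2 ∨ m = 0 ∧ j = 2 ∧ 2 = (0 : F) ∧ ν = l)
    (hc : ∀ δ : F, (m = 0 → δ = ν - 2) → (m ≠ 0 → δ = 0) → ∃ c a, (l ^ 2 / (2 - ν)) ^ 2 = c + 2 * a + c ^ 2 * δ) :
    ∃ u g h : Matrix.symplecticGroup (Fin (m + 2)) F,
      IsNilpotent ((u : Matrix (Fin (m + 2) ⊕ Fin (m + 2)) (Fin (m + 2) ⊕ Fin (m + 2)) F) - 1) ∧
      ((u : Matrix (Fin (m + 2) ⊕ Fin (m + 2)) (Fin (m + 2) ⊕ Fin (m + 2)) F) - 1) ^ (2 * (m + 2) - 1) ≠ 0 ∧
      Subgroup.closure ({u, g * u * g⁻¹, h * u * h⁻¹} : Set (Matrix.symplecticGroup (Fin (m + 2)) F)) = ⊤ := by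
  obtain ⟨B, hB, hN, A, hA, s, hs, a0, a3, a1, a2⟩ := exists_model_sp m ν2
  have hU : ∀ u v, B (A u) (A v) = B u v := hA
  have ν3 : 2 - ν ≠ 0 := sub_ne_zero.2 ν2.symm
  obtain ⟨c, a, hc⟩ := hc (B ((nil A ^ (2 * m + 2)) s) ((nil A ^ (2 * m + 1)) s))
    (by rintro rfl; simp [pow_two, hU, a1, a2, alt_self hB, alt_neg hB (A s) s, alt_neg hB (A (A s)) s]; ring)
    fun m0 => form_nil_pow hA _ _ (by
      rw [← Module.End.mul_apply, ← pow_add, pow_eq_zero_of_le (by omega) a0]; rfl)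
  obtain ⟨g, hg, g', hg', H⟩ := exists_gen_sp hB hN hA hs (k := 2 * m) (by rw [a0]; rfl) a1 a2 hν ν2 hl
    (by rw [a3, div_mul_cancel₀ _ ν3]) hc hj (by
      rcases hj' with ⟨rfl, e⟩ | ⟨rfl, rfl, h2, e⟩
      · simp [a1, a2, alt_self hB, e]
      · have e1 := congrArg (B s) (LinearMap.congr_fun a0 s)
        have e2 := congrArg (B (A s)) (LinearMap.congr_fun a0 s)
        simp only [mul_zero, zero_add, nil_pow_succ, pow_zero, Module.End.one_apply, map_sub, hU, a1, a2, alt_self hB,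
          alt_neg hB (A s) s, LinearMap.zero_apply, map_zero] at e1 e2
        simp only [pow_two, LinearEquiv.mul_apply, map_add, map_sub, map_smul, a2, smul_eq_mul, ← e]
        linear_combination e1 + 3 * e2 + (3 * ν - 5) * h2)
  obtain ⟨e, he⟩ := CL.Cls.exists_equiv_sympForm B hN.1 hB (m := m + 2) (by simp [finrank_tr]; ring)
  let φ := (isomCongr e fun u v => (stdForm_eq_sympForm _ _).trans (he u v)).trans (spEquiv (Fin (m + 2)) F).symm
  have hφ := pow_eq_zero_iff_of e (A := A) (u := (φ ⟨A, hA⟩).1) fun v => by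
    rw [← spLin_apply, ← coe_spEquiv, MulEquiv.trans_apply, MulEquiv.apply_symm_apply]
    exact congrArg (fun x => e (A x)) (e.symm_apply_apply v)
  exact ⟨φ ⟨A, hA⟩, φ ⟨g, hg⟩, φ ⟨g', hg'⟩, ⟨_, (hφ _).2 a0⟩, fun e => ν3 (by
      rw [← a3, show 2 * m + 3 = 2 * (m + 2) - 1 by omega, (hφ _).1 e]; simp),
    closure_eq_top_of le_rfl φ fun M hM m => H M hM (m ⟨A, hA⟩ (by simp))
      (m (⟨g, hg⟩ * ⟨A, hA⟩ * ⟨g, hg⟩⁻¹) (by rw [map_mul, map_mul, map_inv]; simp))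
      (m (⟨g', hg'⟩ * ⟨A, hA⟩ * ⟨g', hg'⟩⁻¹) (by rw [map_mul, map_mul, map_inv]; simp))⟩

theorem sp_gen_three [Fintype F] (m : ℕ) (h22 : ¬ (m = 0 ∧ Fintype.card F = 2)) :
    ∃ u g h : Matrix.symplecticGroup (Fin (m + 2)) F,
      IsNilpotent ((u : Matrix (Fin (m + 2) ⊕ Fin (m + 2)) (Fin (m + 2) ⊕ Fin (m + 2)) F) - 1) ∧
      ((u : Matrix (Fin (m + 2) ⊕ Fin (m + 2)) (Fin (m + 2) ⊕ Fin (m + 2)) F) - 1) ^ (2 * (m + 2) - 1) ≠ 0 ∧
      Subgroup.closure ({u, g * u * g⁻¹, h * u * h⁻¹} : Set (Matrix.symplecticGroup (Fin (m + 2)) F)) = ⊤ := by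
  by_cases h : (2 : F) = 0 ∧ m = 0
  · obtain ⟨h2, rfl⟩ := h
    have : CharP F 2 := CharTwo.of_one_ne_zero_of_two_eq_zero one_ne_zero h2
    rcases lt_or_ge 4 (Nat.card F) with h4 | h4
    · obtain ⟨α, a0, hα⟩ := exists_powGen_trace h4
      obtain ⟨l, hl⟩ := FiniteField.isSquare_of_char_two (ringChar.eq F 2) (α + α ^ 2)
      refine sp_gen_three_of 0 hα (by rwa [h2]) (l := l) (by rintro rfl; simp [a0] at hl) (j := 0) (by simp)
        (Or.inl ⟨rfl, hl.trans (pow_two l).symm⟩) fun δ e _ => ⟨α / (α + α ^ 2), 0, ?_⟩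
      rw [e rfl, pow_two l, ← hl, h2, zero_sub, sub_zero, div_neg, div_self a0]
      obtain ⟨ν, hν⟩ : ∃ ν, ν = α + α ^ 2 := ⟨_, rfl⟩
      rw [← hν] at a0 ⊢
      field_simp; linear_combination hν
    · obtain ⟨γ, h0, h1, h3⟩ := exists_field_gen F
      have c4 : Nat.card F = 4 := by
        have := FiniteField.even_card_iff_char_two.1 (ringChar.eq F 2)
        have := Fintype.one_lt_card (α := F)
        rw [Nat.card_eq_fintype_card] at h4 ⊢
        omega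
      have g3 : γ ^ 3 = 1 := by simpa [← Nat.card_eq_fintype_card, c4] using FiniteField.pow_card_sub_one_eq_one γ h0
      have g1 : γ - 1 ≠ 0 := fun e => by
        have := h3 1 (by linear_combination e)
        rw [c4] at this; omega
      have g2 : γ ^ 2 + γ + 1 = 0 := mul_left_cancel₀ g1 (by linear_combination g3)
      refine sp_gen_three_of 0 (by simpa using powGen_pow h0 h3 one_pos (Or.inl one_le_two)) (by rwa [h2]) h0 (j := 2)
        (by simp [h2]) (Or.inr ⟨rfl, rfl, h2, rfl⟩) fun δ e _ => ⟨1, 0, ?_⟩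
      rw [e rfl, h2, zero_sub, sub_zero, div_neg, pow_two γ, mul_div_cancel_right₀ _ h0]
      linear_combination g2 - (γ + 1) * h2
  · obtain ⟨l, l0, h1, h2⟩ := exists_powGen_sq (F := F)
    refine sp_gen_three_of m h1 h2 l0 (j := 0) (by simp) (Or.inl ⟨rfl, rfl⟩) fun δ _ e => ?_
    by_cases h3 : (2 : F) = 0
    · exact ⟨_, 0, by rw [e fun e => h ⟨h3, e⟩, mul_zero, mul_zero, add_zero, add_zero]⟩
    · exact ⟨0, (l ^ 2 / (2 - l ^ 2)) ^ 2 / 2, by rw [mul_div_cancel₀ _ h3]; simp⟩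

end CL.RegU
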