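/-
`SU₃(q)` is generated by two conjugate regular unipotent elements: the abstract part.
-/
import Cfsg.Agent.Known.RegU2
import Cfsg.Agent.Cls.SL2Root

set_option autoImplicit false

open Module CL.Known CL.Uni

namespace CL.RegU

variable {F : Type*} [Field F] {q : ℕ} {σ : F →+* F} {V : Type*} [AddCommGroup V] [Module F V]
  {B : V →ₛₗ[σ] V →ₗ[F] F} {M : Subgroup (V ≃ₗ[F] V)}

/-- A standard frame of a three-dimensional unitary space. -/
structure Fr3 (B : V →ₛₗ[σ] V →ₗ[F] F) (q : ℕ) (r s w : V) : Prop where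
  h : IsHerm B q
  dim : finrank F V = 3
  rr : B r r = 0
  ss : B s s = 0
  rs : B r s = 1
  sr : B s r = 1
  rw : B r w = 0
  wr : B w r = 0
  sw : B s w = 0
  ws : B w s = 0
  ww : B w w = 1

/-- Generation by two conjugate regular unipotent elements. -/
def Gen2 (B : V →ₛₗ[σ] V →ₗ[F] F) : Prop := ∃ A ∈ SUG B, ∃ g ∈ SUG B, nil A ^ 3 = 0 ∧ nil A ^ 2 ≠ 0 ∧
  ∀ M ≤ UG B, A ∈ M → g * A * g⁻¹ ∈ M → SUG B ≤ M

variable [FiniteDimensional F V]

theorem exists_fr3 (h : IsHerm B q) (h3 : finrank F V = 3) : ∃ r s w, Fr3 B q r s w := by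
  have : Nontrivial V := Module.nontrivial_of_finrank_pos (R := F) (by omega)
  obtain ⟨w, hw⟩ := h.exists_self_eq (map_one σ)
  have h1 := h.restrict_perp_singleton (v := w) (by simp [hw])
  have h2 := h.finrank_perp_singleton (v := w) (by rintro rfl; simp at hw)
  obtain ⟨r, r0, hr⟩ := h1.exists_isotropic (by omega)
  obtain ⟨s, hs, hrs⟩ := h1.exists_hyperbolic r0 hr
  have a := mem_perp_singleton.1 r.2
  have b := mem_perp_singleton.1 s.2
  exact ⟨r, s, w, h, h3, hr, hs, hrs, h.flip_one hrs, h.flip_zero a, a, h.flip_zero b, b, hw⟩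

namespace Fr3

variable {r s w : V} (D : Fr3 B q r s w)
include D

theorem eq_zero {x : V} (h1 : B r x = 0) (h2 : B s x = 0) (h3 : B w x = 0) : x = 0 := by
  have li : LinearIndependent F ![r, s, w] := by
    rw [Fintype.linearIndependent_iff]
    intro g hg i
    have a := congrArg (B s) hg
    have b := congrArg (B r) hg
    have c := congrArg (B w) hg
    simp [Fin.sum_univ_three, D.rr, D.ss, D.rs, D.sr, D.rw, D.wr, D.sw, D.ws, D.ww] at a b c
    fin_cases i <;> assumption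
  refine D.h.nondeg' x fun y => ?_
  have : x ∈ perp B (Submodule.span F (Set.range ![r, s, w])) := mem_perp_span.2 (by simp [h1, h2, h3])
  exact this y ((li.span_eq_top_of_card_eq_finrank' (by simp [D.dim])).ge trivial)

theorem eq_add {x : V} (h1 : B r x = 0) : x = B w x • w + B s x • r :=
  sub_eq_zero.1 (D.eq_zero (by simp [h1, D.rw, D.rr]) (by simp [D.sw, D.sr]) (by simp [D.ww, D.wr]))

omit [FiniteDimensional F V] in
theorem smul_mem (a : F) : a • r ∈ eSub D.h M D.rr :=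
  ⟨by simp [D.rr], a - σ a, 1, one_mem _, by rw [← zero_add (a • r), isEich_add_smul, isEich_zero]; simpa using isTv_zero r⟩

theorem SUG_le (hq : q ≠ 2) (hM : M ≤ UG B) (hE : ∀ b : F, b • w ∈ eSub D.h M D.rr) {k : V ≃ₗ[F] V} (hk : k ∈ M) {x c : F}
    (e : IsEich B s (x • w) c k) (hc : c ≠ 0) : SUG B ≤ M :=
  SUG_le_of_eSub D.h hM D.rr D.dim.ge (fun a => hq a.2)
    (fun v hv => by rw [D.eq_add hv]; exact add_mem (hE _) (D.smul_mem _)) hk
    (by rw [e]; simpa [LinearMap.map_smulₛₗ, D.rr, D.rs, D.sr, D.rw, D.wr] using hc)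

omit [FiniteDimensional F V] in
theorem triple (hM : M ≤ UG B) {x₁ x₂ c₁ c₂ : F} (h₁ : c₁ ≠ 0) (h₂ : c₂ ≠ 0) (t₁ : c₁ + σ c₁ = x₁ * σ x₁)
    (t₂ : c₂ + σ c₂ = x₂ * σ x₂) {A B₁ B₂ : V ≃ₗ[F] V}
    (eA : IsEich B r ((x₁ / σ c₁ + x₂ / c₂) • w) (1 / σ c₁ + 1 / σ c₂ + x₂ * σ x₁ / (c₁ * c₂)) A)
    (e₁ : IsEich B s (x₁ • w) c₁ B₁) (e₂ : IsEich B s (x₂ • w) c₂ B₂) (mA : A ∈ M) (m₁ : B₁ ∈ M) (m₂ : B₂ ∈ M) {b : F}
    (hb : b • w ∈ eSub D.h M D.rr) : (σ c₂ ^ 2 * σ c₁ / (c₁ ^ 2 * c₂) * b) • w ∈ eSub D.h M D.rr := by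
  have h₁' := (map_ne_zero σ).2 h₁
  have h₂' := (map_ne_zero σ).2 h₂
  have k1 : (B₁ * A * B₂) r = (c₂ / σ c₁) • r := by
    rw [LinearEquiv.mul_apply, LinearEquiv.mul_apply, e₁, eA, e₂]
    simp only [map_add, map_sub, map_smul, LinearMap.map_smulₛₗ, LinearMap.smul_apply, smul_eq_mul, map_div₀, D.h.bar_bar,
      D.rr, D.ss, D.rs, D.sr, D.rw, D.wr, D.sw, D.ws, D.ww]
    match_scalars <;> field_simp <;> generalize σ c₁ = C₁ at t₁ ⊢ <;> generalize σ c₂ = C₂ at t₂ ⊢ <;>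
      obtain rfl := eq_sub_of_add_eq t₁ <;> obtain rfl := eq_sub_of_add_eq t₂ <;> ring
  have k2 : ∃ e : F, (B₁ * A * B₂) w = (σ c₂ * σ c₁ / (c₁ * c₂)) • w + e • r := by
    refine ⟨σ x₂ * (1 / σ c₁ + 1 / σ c₂ + x₂ * σ x₁ / (c₁ * c₂)) - σ (x₁ / σ c₁ + x₂ / c₂), ?_⟩
    rw [LinearEquiv.mul_apply, LinearEquiv.mul_apply, e₁, eA, e₂]
    simp only [map_add, map_sub, map_smul, LinearMap.map_smulₛₗ, LinearMap.smul_apply, smul_eq_mul, map_div₀, D.h.bar_bar,
      D.ss, D.rs, D.sr, D.rw, D.wr, D.sw, D.ws, D.ww]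
    match_scalars <;> field_simp <;> generalize σ c₁ = C₁ at t₁ ⊢ <;> generalize σ c₂ = C₂ at t₂ ⊢ <;>
      obtain rfl := eq_sub_of_add_eq t₁ <;> obtain rfl := eq_sub_of_add_eq t₂ <;> ring
  obtain ⟨e, k2⟩ := k2
  have := sub_mem (conj_mem_eSub D.h hM D.rr hb (mul_mem (mul_mem m₁ mA) m₂) k1) (D.smul_mem (σ (c₂ / σ c₁) * b * e))
  convert this using 1
  rw [map_smul, k2, map_div₀, D.h.bar_bar]
  match_scalars <;> field_simp
  ring

omit [FiniteDimensional F V] in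
theorem form (x : F) : B (x • w) (x • w) = x * σ x := by simp [LinearMap.map_smulₛₗ, D.ww]

theorem exists_r {x c : F} (hc : c + σ c = x * σ x) : ∃ g ∈ SUG B, IsEich B r (x • w) c g :=
  D.h.exists_eich D.rr (by simp [D.rw]) (by rw [hc, D.form])

theorem exists_s {x c : F} (hc : c + σ c = x * σ x) : ∃ g ∈ SUG B, IsEich B s (x • w) c g :=
  D.h.exists_eich D.ss (by simp [D.sw]) (by rw [hc, D.form])

theorem exists_conj {x y c d a : F} (hx0 : x ≠ 0) (ha : a ≠ 0) {A : V ≃ₗ[F] V} (hA : A ∈ SUG B)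
    (eA : IsEich B r (y • w) d A) (hc : c + σ c = x * σ x) (hx : σ a ^ 2 / a * y = x) :
    ∃ g ∈ SUG B, IsEich B s (x • w) c (g * A * g⁻¹) := by
  obtain ⟨τ, τ0, hτ⟩ := D.h.bar.exists_trace_zero
  have ha' := (map_ne_zero σ).2 ha
  obtain ⟨n, hn, n1, -, n3⟩ := D.h.exists_weyl D.rr D.ss D.rs τ0 hτ
  obtain ⟨t, ht, t1, -, t3, t4⟩ := D.h.exists_diag D.rr D.ss D.rs (mul_ne_zero ha τ0)
  obtain ⟨k, hk, k1, k2, k3⟩ := D.h.exists_reflection (v := w) (by simp [D.ww]) (a := -σ a / a)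
    (by rw [map_div₀, map_neg, D.h.bar_bar]; field_simp)
  have hn' := D.h.TG_le_SUG hn
  have h1 : n * t * k ∈ SUG B := mem_SUG.2 ⟨mul_mem (mul_mem (SUG_le_UG hn') ht) hk, by
    rw [map_mul, map_mul, (mem_SUG.1 hn').2, t4, k3, map_mul, hτ]; field_simp⟩
  have h2 := eA.conj (SUG_le_UG h1)
  have h3 : (n * t * k) r = (-a) • s := by
    rw [LinearEquiv.mul_apply, LinearEquiv.mul_apply, k2 r D.wr, t1, map_smul, n1]
    match_scalars; field_simp
  have h4 : σ (-a) • (n * t * k) (y • w) = x • w := by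
    simp only [LinearEquiv.mul_apply, map_smul, k1, t3 w D.rw D.sw, n3 w D.rw D.sw, map_neg, ← hx]
    match_scalars; field_simp
  rw [h3, isEich_smul D.h.bar_bar, h4] at h2
  generalize d * (-a * σ (-a)) = d' at h2
  have h5 := trace_eq_of_isEich D.h D.ss (s := r) (by simp [D.sw]) (SUG_le_UG (conj_mem_SUG (SUG_le_UG h1) hA)) h2
    (by simp [D.sr])
  rw [D.form] at h5
  obtain ⟨e, he⟩ := D.h.bar.exists_sub_bar_eq (c := d' - c) (by rw [map_sub]; linear_combination h5 - hc)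
  obtain ⟨c', hc'⟩ := D.h.bar.exists_trace_eq (D.h.bar.norm_fixed (-σ (e / x)))
  obtain ⟨g, hg, eg⟩ := D.exists_s hc'
  have h6 := h2.conj (SUG_le_UG hg)
  have h7 : g (x • w) = x • w + e • s := by
    rw [eg]
    simp only [LinearMap.map_smulₛₗ, LinearMap.smul_apply, map_smul, smul_eq_mul, D.sw, D.ww, map_neg, D.h.bar_bar]
    match_scalars <;> field_simp <;> ring
  rw [eg.fix D.ss (by simp [LinearMap.map_smulₛₗ, D.ws]), h7, isEich_add_smul,
    show d' + σ e - e = c by linear_combination -he] at h6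
  exact ⟨g * (n * t * k), mul_mem hg h1, by simpa [mul_assoc] using h6⟩

omit [FiniteDimensional F V] in
theorem nil_three {y d : F} {A : V ≃ₗ[F] V} (eA : IsEich B r (y • w) d A) : nil A ^ 3 = 0 := by
  ext x
  simp only [pow_succ, pow_zero, one_mul, Module.End.mul_apply, nil_apply, eA _, map_add, map_sub, map_smul,
    LinearMap.map_smulₛₗ, LinearMap.smul_apply, smul_eq_mul, D.rr, D.rw, D.wr, D.ww, LinearMap.zero_apply]
  module

omit [FiniteDimensional F V] in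
theorem nil_two {y d : F} (hy : y ≠ 0) {A : V ≃ₗ[F] V} (eA : IsEich B r (y • w) d A) : nil A ^ 2 ≠ 0 := fun e => by
  have := congrArg (B s) (LinearMap.congr_fun e s)
  simp [pow_two, eA _, LinearMap.map_smulₛₗ, D.rr, D.rw, D.wr, D.ww, D.rs, D.sr, D.ws, hy] at this

omit [FiniteDimensional F V] in
theorem trace {x₁ x₂ c₁ c₂ : F} (h₁ : c₁ ≠ 0) (h₂ : c₂ ≠ 0) (t₁ : c₁ + σ c₁ = x₁ * σ x₁) (t₂ : c₂ + σ c₂ = x₂ * σ x₂) :
    (1 / σ c₁ + 1 / σ c₂ + x₂ * σ x₁ / (c₁ * c₂)) + σ (1 / σ c₁ + 1 / σ c₂ + x₂ * σ x₁ / (c₁ * c₂)) =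
      (x₁ / σ c₁ + x₂ / c₂) * σ (x₁ / σ c₁ + x₂ / c₂) := by
  have h₁' := (map_ne_zero σ).2 h₁
  have h₂' := (map_ne_zero σ).2 h₂
  simp only [map_add, map_div₀, map_mul, map_one, D.h.bar_bar]
  field_simp
  linear_combination c₂ * σ c₂ * t₁ + c₁ * σ c₁ * t₂

theorem gen_of_triple (hq : q ≠ 2) {x x₂ c c₂ a : F} (h₁ : c ≠ 0) (h₂ : c₂ ≠ 0) (t₁ : c + σ c = x * σ x)
    (t₂ : c₂ + σ c₂ = x₂ * σ x₂) (hx : x ≠ 0) (ha : a ≠ 0) (e : σ a ^ 2 / a * (x / σ c + x₂ / c₂) = x)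
    (hm : PowGen (σ c₂ ^ 2 * σ c / (c ^ 2 * c₂)))
    (hj : ∀ g, IsEich B s (x • w) c g → ∃ j : ℕ, IsEich B s (x₂ • w) c₂ (g ^ j)) : Gen2 B := by
  have hy : x / σ c + x₂ / c₂ ≠ 0 := fun e' => hx (by rw [← e, e', mul_zero])
  obtain ⟨A, hA, eA⟩ := D.exists_r (D.trace h₁ h₂ t₁ t₂)
  obtain ⟨g, hg, eg⟩ := D.exists_conj hx ha hA eA t₁ e
  obtain ⟨j, ej⟩ := hj _ eg
  refine ⟨A, hA, g, hg, D.nil_three eA, D.nil_two hy eA, fun M hM m1 m2 => D.SUG_le hq hM ?_ m2 eg h₁⟩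
  exact eq_top_of_powGen hm ((eSub D.h M D.rr).comap (LinearMap.toSpanSingleton F V w).toAddMonoidHom)
    (fun b hb => D.triple hM h₁ h₂ t₁ t₂ eA eg ej m1 m2 (pow_mem m2 j) hb) ⟨by simp [D.rw], _, A, m1, eA⟩ hy

theorem gen_generic (h2 : q ≠ 2) (h5 : q ≠ 5) (h8 : q ≠ 8) : Gen2 B := by
  have hb := D.h.bar
  have := hb.finite
  have := hb.two_le
  obtain ⟨ζ, hζ⟩ := hb.exists_primitiveRoot
  obtain ⟨y, y0, hy⟩ := hb.exists_div_bar_eq (x := ζ) (by rw [hb.norm_eq_pow, hζ.pow_eq_one])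
  have y1 := (map_ne_zero σ).2 y0
  have t0 : σ y + y ≠ 0 := fun e => by
    have : ζ ^ 2 = 1 := by
      rw [show ζ = -1 from mul_right_cancel₀ y1 (by linear_combination e - hy)]; simp
    have := Nat.le_of_dvd two_pos (hζ.dvd_of_pow_eq_one 2 this); omega
  obtain ⟨x, hx⟩ := hb.exists_norm_eq (a := σ y + y) (by rw [map_add, hb.bar_bar, add_comm])
  have x0 : x ≠ 0 := by rintro rfl; exact t0 (by simpa using hx.symm)
  refine D.gen_of_triple h2 (x := x) (x₂ := x) (c := σ y) (c₂ := σ y) (a := σ y * y / (σ y + y)) y1 y1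
    (by rw [hb.bar_bar, hx]) (by rw [hb.bar_bar, hx]) x0 (div_ne_zero (mul_ne_zero y1 y0) t0) ?_ ?_
    fun g hg => ⟨1, by rwa [pow_one]⟩
  · simp only [map_div₀, map_mul, map_add, hb.bar_bar, add_comm y]
    field_simp
  · rw [hb.bar_bar, show y ^ 2 * y / (σ y ^ 2 * σ y) = ζ ^ 3 by
      rw [div_eq_iff (by simp [y0])]; linear_combination (y ^ 2 + y * ζ * σ y + (ζ * σ y) ^ 2) * hy]
    obtain ⟨p, f, hp, _, hf, rfl⟩ := hb.exists_prime_pow
    have : Fact p.Prime := ⟨hp⟩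
    by_contra hc
    obtain ⟨d, d1, d2, d3⟩ := exists_frobenius_fixed p hc
    rw [hb.card] at d2
    have d4 : d ≤ f := (Nat.pow_le_pow_iff_right hp.one_lt).1 ((Nat.pow_le_pow_iff_left two_ne_zero).1 d2)
    have d5 : 2 ≤ p ^ d := hp.two_le.trans (Nat.le_self_pow (by omega) p)
    obtain ⟨k, hk⟩ := pow_dvd_pow p d4
    obtain ⟨P, hP⟩ : ∃ P, p ^ d = P + 1 := ⟨p ^ d - 1, by omega⟩
    rw [hP, pow_succ, mul_eq_right₀ (pow_ne_zero _ (hζ.ne_zero (by omega))), ← pow_mul] at d3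
    obtain ⟨l, hl⟩ := hζ.dvd_of_pow_eq_one _ d3
    rw [hP] at hk d5
    generalize p ^ f = Q at *
    have k0 : 1 ≤ k := by rcases k with _ | k <;> omega
    have l3 : l < 3 := by by_contra; nlinarith
    subst hk
    interval_cases l
    · omega
    · have : k < 3 := by by_contra; nlinarith
      interval_cases k <;> omega
    · have : k < 2 := by by_contra; nlinarith
      interval_cases k; omega

theorem gen_five (h5 : q = 5) : Gen2 B := by
  subst h5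
  have hb := D.h.bar
  have := hb.finite
  have c5 : (5 : F) = 0 := by simpa using hb.cast_q
  obtain ⟨θ, θ0, hθ, h2⟩ : ∃ θ : F, θ ≠ 0 ∧ σ θ = -θ ∧ θ ^ 2 = 2 := by
    obtain ⟨τ, τ0, hτ⟩ := hb.exists_trace_zero
    have h1 : (τ ^ 2 - 2) * (τ ^ 2 - 3) = 0 :=
      mul_left_cancel₀ τ0 (by linear_combination hτ - hb.apply τ + (τ - τ ^ 3) * c5)
    rcases mul_eq_zero.1 h1 with h | h
    · exact ⟨τ, τ0, hτ, sub_eq_zero.1 h⟩
    · refine ⟨2 * τ, mul_ne_zero (fun e => one_ne_zero (α := F) (by linear_combination c5 - 2 * e)) τ0,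
        by rw [map_mul, hτ, map_ofNat, mul_neg], by linear_combination 4 * h + 2 * c5⟩
  have s1 : σ (3 + 2 * θ) = 3 - 2 * θ := by rw [map_add, map_mul, hθ, map_ofNat, map_ofNat]; ring
  have s2 : σ (2 + 4 * θ) = 2 - 4 * θ := by rw [map_add, map_mul, hθ, map_ofNat, map_ofNat]; ring
  have i1 : (3 + 2 * θ) * (3 - 2 * θ) = 1 := by linear_combination -4 * h2
  have i2 : (2 + 4 * θ) * (1 - 2 * θ) = 1 := by linear_combination -8 * h2 - 3 * c5
  have n1 := left_ne_zero_of_mul_eq_one i1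
  have n2 := left_ne_zero_of_mul_eq_one i2
  refine D.gen_of_triple (by omega) (x := 1) (x₂ := 2) (c := 3 + 2 * θ) (c₂ := 2 + 4 * θ) (a := θ) n1 n2
    (by rw [s1, map_one]; linear_combination c5) (by rw [s2, map_ofNat]; ring) one_ne_zero θ0 ?_ ?_ fun g hg => ⟨2, ?_⟩
  · rw [s1, hθ, one_div, div_eq_mul_inv 2, ← eq_inv_of_mul_eq_one_left i1, ← eq_inv_of_mul_eq_one_right i2]
    field_simp
    linear_combination -2 * h2 + (θ - 1) * c5
  · have : σ (2 + 4 * θ) ^ 2 * σ (3 + 2 * θ) / ((3 + 2 * θ) ^ 2 * (2 + 4 * θ)) = 3 * θ := by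
      rw [s1, s2, div_eq_iff (mul_ne_zero (pow_ne_zero _ n1) n2)]
      linear_combination (-196 - 200 * θ - 48 * θ ^ 2) * h2 + (-76 - 102 * θ) * c5
    rw [this]
    have : Fact (Nat.Prime 5) := ⟨by norm_num⟩
    have : CharP F 5 := (CharP.charP_iff_prime_eq_zero (by norm_num)).2 (by simpa using c5)
    by_contra hc
    obtain ⟨d, d1, d2, d3⟩ := exists_frobenius_fixed 5 hc
    rw [hb.card] at d2
    obtain rfl : d = 1 :=
      le_antisymm ((Nat.pow_le_pow_iff_right (by norm_num : 1 < 5)).1 ((Nat.pow_le_pow_iff_left two_ne_zero).1 d2)) d1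
    rw [pow_one, ← hb.apply, map_mul, hθ, map_ofNat] at d3
    exact θ0 (by linear_combination -d3 - θ * c5)
  · have := hg.mul hg D.ss (by simp [D.ws]) (by simp [D.sw])
    rw [D.form, ← add_smul, ← pow_two] at this
    convert this using 1
    · norm_num
    · rw [map_one]; linear_combination -c5

theorem gen_even (h2 : (2 : F) = 0) (hq : 4 ≤ q) : Gen2 B := by
  have hb := D.h.bar
  have := hb.finite
  have hn : ∀ x : F, -x = x := fun x => by linear_combination -x * h2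
  obtain ⟨γ, γ0, hγ, -⟩ := exists_field_gen F
  have hδ : ∀ t, σ t = t → t ≠ 0 → ∃ k : ℕ, (γ * σ γ) ^ k = t := fun t ht t0 => by
    obtain ⟨x, rfl⟩ := hb.exists_norm_eq ht
    obtain ⟨k, rfl⟩ := hγ x (left_ne_zero_of_mul t0)
    exact ⟨k, by rw [mul_pow, map_pow]⟩
  have δ1 : γ * σ γ ≠ 1 := fun e => by
    obtain ⟨x, x0, hx⟩ := hb.exists_norm_ne_one (by omega)
    obtain ⟨k, hk⟩ := hδ _ (hb.norm_fixed x) (by simp [x0])
    exact hx (by rw [← hk, e, one_pow])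
  have δ0 : γ * σ γ ≠ 0 := by simp [γ0]
  have δ2 := hb.norm_fixed γ
  generalize γ * σ γ = δ at hδ δ1 δ0 δ2
  obtain ⟨c, hc⟩ := hb.exists_trace_one
  obtain ⟨A, hA, eA⟩ := D.exists_r (x := 1) (c := c) (by simpa using hc)
  have t1 : c + δ + σ (c + δ) = 1 * σ 1 := by rw [map_add, δ2, map_one]; linear_combination hc + δ * h2
  have c0 : c + δ ≠ 0 := fun e => by simp [e] at t1
  obtain ⟨g, hg, eg⟩ := D.exists_conj one_ne_zero one_ne_zero hA eA t1 (by simp)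
  refine ⟨A, hA, g, hg, D.nil_three eA, D.nil_two one_ne_zero eA, fun M hM m1 m2 => D.SUG_le (by omega) hM ?_ m2 eg c0⟩
  generalize g * A * g⁻¹ = C at eg m2
  rw [one_smul] at eA eg
  have w2 : w + w = 0 := by rw [← two_smul F, h2, zero_smul]
  have a1 : IsTv B r 1 (A * A) := by
    have := eA.mul eA D.rr D.wr D.rw
    rw [w2, isEich_zero, D.ww] at this
    convert this using 1; linear_combination (c + 1) * h2
  have a2 : IsTv B s 1 (C * C) := by
    have := eg.mul eg D.ss D.ws D.sw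
    rw [w2, isEich_zero, D.ww] at this
    convert this using 1; linear_combination (c + δ + 1) * h2
  have a3 : IsTv B r δ (A * A * (C * C) * (A * A) * C * (A * A * (C * C) * (A * A))⁻¹ * A⁻¹) := by
    have := eg.conj (hM (mul_mem (mul_mem (mul_mem m1 m1) (mul_mem m2 m2)) (mul_mem m1 m1)))
    have e1 : (A * A * (C * C) * (A * A)) s = r := by
      rw [LinearEquiv.mul_apply, LinearEquiv.mul_apply, a1, a2, a1]
      simp only [map_add, map_smul, D.rr, D.rs, D.sr, D.ss, smul_eq_mul]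
      match_scalars
      · linear_combination h2
      · linear_combination h2
    rw [e1, LinearEquiv.mul_apply, LinearEquiv.mul_apply, a1.fix D.rw, a2.fix D.sw, a1.fix D.rw] at this
    have := this.mul (eA.inv D.rr D.wr D.rw) D.rr D.wr (by simp [D.rw])
    rw [add_neg_cancel, isEich_zero] at this
    convert this using 1
    simp only [map_neg, D.ww]; linear_combination δ * h2
  have tv : ∀ {v b k}, IsTv B v b k → k ∈ M → B v w = 0 → k ∈ M ⊓ MulAction.stabilizer (V ≃ₗ[F] V) w :=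
    fun e m h0 => ⟨m, e.fix h0⟩
  obtain ⟨L, l1, l2, l3⟩ := CL.SL2.plane_dickson (MonoidHom.id _) (M ⊓ MulAction.stabilizer (V ≃ₗ[F] V) w) r s
    (c := 1) (b₁ := 1) (b₂ := δ) one_ne_zero
    ⟨_, tv a2 (mul_mem m2 m2) D.sw, by simpa [D.sr] using a2 r, a2.fix D.ss⟩
    ⟨_, tv a1 (mul_mem m1 m1) D.rw, a1.fix D.rr, by simpa [D.rs] using a1 s⟩
    ⟨_, tv a3 (by apply_rules [mul_mem, inv_mem]) D.rw, a3.fix D.rr, by simpa [D.rs] using a3 s⟩
    one_ne_zero δ0 δ1 (by rwa [hn])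
  have l4 : ∀ t, σ t = t → t ∈ L := fun t ht => by
    rcases eq_or_ne t 0 with rfl | t0
    · exact L.zero_mem
    obtain ⟨k, rfl⟩ := hδ t ht t0
    exact pow_mem (by simpa using (l1 δ).1 ⟨_, tv a3 (by apply_rules [mul_mem, inv_mem]) D.rw, a3.fix D.rr,
      by simpa [D.rs] using a3 s⟩) k
  have ex : ∀ {k k' : V ≃ₗ[F] V}, k r = k' r → k s = k' s → k w = k' w → k = k' := fun {k k'} e1 e2 e3 => by
    ext x
    have := D.eq_add (x := x - B r x • s) (by simp [D.rs])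
    rw [eq_add_of_sub_eq this]
    simp only [map_add, map_smul, e1, e2, e3]
  have c1 : r ∈ UCen B M := ⟨D.rr, fun b k hb' e => by
    obtain ⟨k', m, e1, e2⟩ := (l1 b).2 (by simpa using l4 b (hb'.trans (hn b)))
    rw [ex (k := k) (k' := k') ((e.fix D.rr).trans e1.symm) (by simpa [D.rs, e s] using e2.symm)
      ((e.fix D.rw).trans m.2.symm)]
    exact m.1⟩
  have c2 : s ∈ UCen B M := ⟨D.ss, fun b k hb' e => by
    obtain ⟨k', m, e1, e2⟩ := l2 b (l4 b (hb'.trans (hn b)))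
    rw [ex (k := k) (k' := k') (by simpa [D.sr, e r] using e1.symm) ((e.fix D.ss).trans e2.symm)
      ((e.fix D.sw).trans m.2.symm)]
    exact m.1⟩
  have k1 : ∀ t b, σ t = t → b • w ∈ eSub D.h M D.rr → (t * b) • w ∈ eSub D.h M D.rr := fun t b ht hb' => by
    rcases eq_or_ne t 0 with rfl | t0
    · simp
    obtain ⟨k, m, e1, -⟩ := l3 t (l4 t ht) t0
    have := conj_mem_eSub D.h hM D.rr hb' m.1 e1
    rwa [map_smul, show k w = w from m.2, ht, smul_smul] at this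
  have k2 : (1 : F) • w ∈ eSub D.h M D.rr := ⟨by simp [D.rw], c, A, m1, by rwa [one_smul]⟩
  obtain ⟨ζ, hζ⟩ := hb.exists_primitiveRoot
  have z1 : ζ * σ ζ = 1 := by rw [hb.norm_eq_pow, hζ.pow_eq_one]
  obtain ⟨y, y0, hy⟩ := hb.exists_div_bar_eq z1
  have y1 := (map_ne_zero σ).2 y0
  have z6 : σ (ζ ^ 3) ≠ ζ ^ 3 := fun e => by
    have h6 : ζ ^ 6 = 1 := by
      rw [map_pow] at e; linear_combination -ζ ^ 3 * e + ((ζ * σ ζ) ^ 2 + ζ * σ ζ + 1) * z1
    have h7 := hζ.dvd_of_pow_eq_one 6 h6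
    have h8 := Nat.le_of_dvd (by omega) h7
    have h9 := hb.cast_q
    obtain rfl | rfl : q = 4 ∨ q = 5 := by omega
    · omega
    · exact one_ne_zero (α := F) (by push_cast at h9; linear_combination h9 - 2 * h2)
  have t0 : σ y + y ≠ 0 := fun e => z6 (by
    rw [show ζ = 1 from mul_right_cancel₀ y1 (by linear_combination e - hy - σ y * h2)]; simp)
  have u0 : σ y / (σ y + y) ≠ 0 := div_ne_zero y1 t0
  have u1 : σ (σ y / (σ y + y)) = y / (σ y + y) := by rw [map_div₀, map_add, hb.bar_bar, add_comm]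
  have u2 : σ y / (σ y + y) + σ (σ y / (σ y + y)) = 1 * σ 1 := by rw [u1, map_one]; field_simp
  obtain ⟨C', -, e1⟩ := D.exists_s u2
  obtain ⟨A', -, e2⟩ := D.exists_r (D.trace u0 u0 u2 u2)
  have m3 : C' ∈ M := D.h.eichIn_of_mem c2 D.sw (by simpa [D.ww] using t1) eg m2 _ _
    (u2.trans (by simp [D.ww])) (by rwa [one_smul] at e1)
  have m4 : A' ∈ M := by
    obtain ⟨h0, d, k, m, e⟩ := k1 (1 / σ (σ y / (σ y + y)) + 1 / (σ y / (σ y + y))) 1
      (by rw [map_add, one_div, one_div, map_inv₀, map_inv₀, hb.bar_bar, add_comm]) k2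
    rw [mul_one] at h0 e
    exact D.h.eichIn_of_mem c1 h0 (trace_eq_of_isEich D.h D.rr (s := s) h0 (hM m) e (by simp [D.rs])) e m _ _
      (by rw [D.form, D.trace u0 u0 u2 u2]) e2
  have k3 := D.triple hM u0 u0 u2 u2 e2 e1 e1 m4 m3 m3 k2
  rw [u1, show (y / (σ y + y)) ^ 2 * (y / (σ y + y)) / ((σ y / (σ y + y)) ^ 2 * (σ y / (σ y + y))) = ζ ^ 3 by
    field_simp; linear_combination (y ^ 2 + y * ζ * σ y + (ζ * σ y) ^ 2) * hy, mul_one] at k3
  generalize ζ ^ 3 = m at z6 k3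
  intro b
  have z7 : m - σ m ≠ 0 := sub_ne_zero.2 z6.symm
  have z8 : σ m - m ≠ 0 := sub_ne_zero.2 z6
  have := add_mem (k1 ((m * σ b - σ m * b) / (m - σ m)) _ ?_ k2) (k1 ((b - σ b) / (m - σ m)) _ ?_ k3)
  · convert this using 1
    match_scalars; field_simp; ring
  all_goals
    simp only [map_div₀, map_sub, map_mul, hb.bar_bar]
    field_simp; ring

theorem gen2 (hq : q ≠ 2) : Gen2 B := by
  rcases eq_or_ne q 5 with h5 | h5
  · exact D.gen_five h5
  rcases eq_or_ne q 8 with h8 | h8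
  · refine D.gen_even ?_ (by omega)
    have := D.h.bar.cast_q
    rw [h8] at this
    exact pow_eq_zero_iff (n := 3) (by omega) |>.1 (by push_cast at this; linear_combination this)
  exact D.gen_generic hq h5 h8

end Fr3

/-- `SU₃(q)` is generated by two conjugate regular unipotent elements. -/
theorem su_gen_two (h : IsBar σ q) (hq : q ≠ 2) : ∃ u g : Cfsg.SU 3 F q,
    (IsNilpotent (((u : Matrix.SpecialLinearGroup (Fin 3) F) : Matrix (Fin 3) (Fin 3) F) - 1) ∧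
      (((u : Matrix.SpecialLinearGroup (Fin 3) F) : Matrix (Fin 3) (Fin 3) F) - 1) ^ (3 - 1) ≠ 0) ∧
      Subgroup.closure ({u, g * u * g⁻¹} : Set (Cfsg.SU 3 F q)) = ⊤ := by
  have hB := isHerm_stdB h (Fin 3)
  obtain ⟨r, s, w, D⟩ := exists_fr3 hB (by simp)
  obtain ⟨A, hA, g, hg, a1, a2, H⟩ := D.gen2 hq
  obtain ⟨φ, hφ⟩ := exists_su hB D.dim
  exact ⟨φ ⟨A, hA⟩, φ ⟨g, hg⟩, ⟨⟨_, (hφ _ _).2 a1⟩, fun e => a2 ((hφ _ _).1 e)⟩,
    closure_eq_top_of SUG_le_UG φ fun M hM m => H M hM (m ⟨A, hA⟩ (by simp))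
      (m (⟨g, hg⟩ * ⟨A, hA⟩ * ⟨g, hg⟩⁻¹) (by rw [map_mul, map_mul, map_inv]; simp))⟩

end CL.RegU
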