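/-
helper60: Sylow 2-subgroups with elementary abelian commutator quotient; reduction to the root subgroups of a split
(B,N)-pair.
-/
import Cfsg.Agent.Known.LieOver

set_option autoImplicit false

namespace CL.SqD

open Cfsg Subgroup CL.Chev CL.Chev.St CL.Chev.BN CL.Chev.SharpBN
open scoped commutatorElement

variable {G : Type*} [Group G]

/-- Squares of elements of `U` lie in `[U, U]`. -/
def Sq (U : Subgroup G) : Prop := ∀ x ∈ U, x * x ∈ ⁅U, U⁆

theorem Sq.of_sq {U : Subgroup G} (h : ∀ x ∈ U, x * x = 1) : Sq U := fun x hx => h x hx ▸ one_mem _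

theorem Sq.map {G' : Type*} [Group G'] {U : Subgroup G} (h : Sq U) (f : G →* G') : Sq (U.map f) := by
  rintro _ ⟨x, hx, rfl⟩
  rw [← map_commutator, ← map_mul]
  exact mem_map_of_mem f (h x hx)

theorem Sq.comap {G' : Type*} [Group G'] {U : Subgroup G} (h : Sq U) {f : G' →* G} (hf : Function.Injective f)
    (hU : U ≤ f.range) : Sq (U.comap f) := fun x hx => by
  have := h _ hx
  rw [← map_comap_eq_self hU, ← map_commutator, ← map_mul] at this
  exact (mem_map_iff_mem hf).1 this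

theorem sq_mul {U : Subgroup G} {x y : G} (hx : x ∈ U) (hy : y ∈ U) (h1 : x * x ∈ ⁅U, U⁆) (h2 : y * y ∈ ⁅U, U⁆) :
    x * y * (x * y) ∈ ⁅U, U⁆ := by
  convert mul_mem (mul_mem h1 (commutator_mem_commutator (inv_mem hx) hy)) h2 using 1
  rw [commutatorElement_def]
  group

theorem sq_closure {X : Set G} (hc : ∀ a ∈ X, ∀ b ∈ X, a * b = b * a) (h : ∀ a ∈ X, a * a = 1) :
    ∀ g ∈ closure X, g * g = 1 := fun g hg => by
  have := isMulCommutative_closure hc
  induction hg using closure_induction with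
  | mem a ha => exact h a ha
  | one => exact mul_one 1
  | mul a b ha hb h1 h2 =>
    rw [mul_assoc, ← mul_assoc b, ← setLike_mul_comm ha hb, mul_assoc, h2, mul_one, h1]
  | inv a _ h1 => rw [← mul_inv_rev, h1, inv_one]

/-- A family with a central extension law all of whose central elements are commutators. -/
theorem sq_of_law {F : Type*} [Field F] {U : Subgroup G} (h2 : (2 : F) = 0) {W : F → F → G} {β : F → F → F}
    (hU : ∀ x, x ∈ U ↔ ∃ a b, x = W a b) (hm : ∀ a b a' b', W a b * W a' b' = W (a + a') (b + b' + β a a'))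
    (h0 : β 0 = 0) (hs : ∀ c, ∃ a a', β a a' + β a' a = c) : Sq U := fun x hx => by
  obtain ⟨t, u, rfl⟩ := (hU x).1 hx
  obtain ⟨a, a', e⟩ := hs (u + u + β t t)
  convert commutator_mem_commutator ((hU _).2 ⟨a, 0, rfl⟩) ((hU _).2 ⟨a', 0, rfl⟩) using 1
  rw [commutatorElement_def, eq_mul_inv_iff_mul_eq, eq_mul_inv_iff_mul_eq, mul_assoc, hm, hm, hm, hm, ← e,
    show t + t = 0 by linear_combination t * h2, h0]
  congr 1
  · ring
  · simp only [Pi.zero_apply]
    linear_combination β a' a * h2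

theorem exists_tits {F : Type*} [Field F] [Finite F] (h2 : (2 : F) = 0) (θ : F →+* F)
    (hi : Function.Injective fun r => θ r * r) {d : F} (hd : θ d ≠ d) (c : F) : ∃ a a', θ a * a' + θ a' * a = c := by
  have h1 : θ d + d ≠ 0 := fun e => hd (by linear_combination e - d * h2)
  obtain ⟨r, hr⟩ := Finite.surjective_of_injective hi (c / (θ d + d))
  refine ⟨r * d, r, ?_⟩
  rw [← div_mul_cancel₀ c h1, ← hr, map_mul]
  ring

/-- Some Sylow 2-subgroup has elementary abelian commutator quotient. -/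
def SD (G : Type*) [Group G] : Prop := ∃ P : Subgroup G, IsPGroup 2 P ∧ ¬ 2 ∣ P.index ∧ Sq P

theorem SD.map {G' : Type*} [Group G'] (h : SD G) {f : G →* G'} (hf : Function.Surjective f) : SD G' :=
  let ⟨P, h1, h2, h3⟩ := h; ⟨P.map f, h1.map f, fun e => h2 (e.trans (index_map_dvd P hf)), h3.map f⟩

theorem SD.of_equiv {G' : Type*} [Group G'] (h : SD G) (e : G' ≃* G) : SD G' :=
  h.map (f := e.symm.toMonoidHom) e.symm.surjective

theorem SD.quot (h : SD G) (N : Subgroup G) [N.Normal] : SD (G ⧸ N) := h.map (QuotientGroup.mk'_surjective N)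

theorem SD.comap {G' : Type*} [Group G'] (h : SD G) {f : G' →* G} (hf : Function.Injective f)
    (hr : ∀ g k, g ^ 2 ^ k = 1 → g ∈ f.range) : SD G' := by
  obtain ⟨P, h1, h2, h3⟩ := h
  have h4 : P ≤ f.range := fun u hu => by obtain ⟨k, hk⟩ := h1 ⟨u, hu⟩; exact hr u k (congrArg Subtype.val hk)
  exact ⟨P.comap f, h1.comap_of_injective f hf,
    fun e => h2 (e.trans (by rw [index_comap]; exact relIndex_dvd_index_of_le h4)), h3.comap hf h4⟩

theorem SD.result [Finite G] (h : SD G) (P : Sylow 2 G) (x : (P : Subgroup G)) :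
    x ^ 2 ∈ commutator (P : Subgroup G) := by
  obtain ⟨Q, h1, h2, h3⟩ := h
  obtain ⟨g, hg⟩ := MulAction.exists_smul_eq G (h1.toSylow h2) P
  have h4 : Sq (P : Subgroup G) := hg ▸ h3.map (MulAut.conj g).toMonoidHom
  rw [← mem_map_iff_mem (subtype_injective _), map_subtype_commutator, sq]
  exact h4 x x.2

variable {Q : SharpBN G}

theorem sq_U (h : ∀ s ∈ Q.S, Sq (Q.Un s)) : Sq Q.U := by
  have key : ∀ w, ∀ n : Q.N, BN.mk Q.P n = w → ∀ x ∈ Q.Un n, x * x ∈ ⁅Q.U, Q.U⁆ :=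
    (invGen Q.P).induction_right (fun n hn x hx => by
      rw [eq_one_of_mem_Un_of_mem_B hx (mk_eq_one_iff.1 hn), mul_one]; exact one_mem _) fun s w hw ih n hn x hx => by
    obtain ⟨m, rfl⟩ := mk_surjective Q.P w
    have h1 := wlen_add_gen hw
    rw [Un_congr (n' := m * genN s) hn] at hx
    obtain ⟨a, ha, c, hc, rfl⟩ := (mem_Un_mul_iff (n := m) (n' := genN s) h1).1 hx
    refine sq_mul (Un_le_U _ ha) (conj_mem_U_of_add (n := m) (n' := genN s) h1 hc) (ih m rfl a ha) ?_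
    have h2 : (Q.Un s).map (MulAut.conj (m : G)).toMonoidHom ≤ Q.U := by
      rintro _ ⟨c, hc, rfl⟩
      exact conj_mem_U_of_add (n := m) (n' := genN s) h1 hc
    exact commutator_mono h2 h2 ((h s s.2).map _ _ ⟨c, hc, rfl⟩)
  exact fun x hx => key _ Q.n0 rfl x ((Un_of_mk_w0 (n := Q.n0) rfl).ge hx)

theorem sd_of_U [Finite G] (L : PreLie 2 Q) (h : Sq Q.U) : SD G := ⟨Q.U, L.pgroup, L.sylow.not_dvd_index, h⟩

theorem sd_of_Un [Finite G] (L : PreLie 2 Q) (h : ∀ s ∈ Q.S, Sq (Q.Un s)) : SD G := sd_of_U L (sq_U h)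

theorem conj_mem_Un {s t : Q.S} (h0 : s ≠ t) (h : gen Q.P s * gen Q.P t = gen Q.P t * gen Q.P s) {c : G}
    (hc : c ∈ Q.Un t) : (s : G) * c * (s : G)⁻¹ ∈ Q.Un t ∧ (s : G)⁻¹ * c * s ∈ Q.U := by
  have h1 := (exchange Q.P).wlen_gen (invGen Q.P)
  have h2 := Un_le_Un_mul (n := genN t) (n' := genN s) (by rw [← gen_def, ← gen_def, wlen_gen_mul_gen h0.symm, h1, h1]) hc
  rw [← coe_mul, Un_congr (n' := (genN s)⁻¹ * genN t) (by simp [← gen_def, (invGen Q.P).inv, h])] at h2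
  refine ⟨mem_Un.2 ⟨conj_mem_U_of_add (n := genN s) (n' := genN t)
    (by rw [← gen_def, ← gen_def, wlen_gen_mul_gen h0, h1, h1]) hc, by simpa [mul_assoc] using (mem_Un.1 h2).2⟩, ?_⟩
  simpa using conj_mem_U_of_add (n := (genN s)⁻¹) (n' := genN t)
    (by rw [map_inv, ← gen_def, ← gen_def, (invGen Q.P).inv, wlen_gen_mul_gen h0, h1, h1]) hc

theorem sq_pair {p : ℕ} (L : PreLie p Q) {s t : Q.S} (h : gen Q.P s * gen Q.P t = gen Q.P t * gen Q.P s) {n : Q.N}
    (hn : IsLongest (gen Q.P) {s, t} (BN.mk Q.P n)) (hs : ∀ x ∈ Q.Un s, x * x = 1) (ht : ∀ x ∈ Q.Un t, x * x = 1) :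
    ∀ x ∈ Q.Un n, x * x = 1 := by
  have hi := invGen Q.P
  have hE := exchange Q.P
  have h1 := hE.wlen_gen hi
  rcases eq_or_ne s t with rfl | h0
  · rw [Un_congr (n' := genN s) (IsLongest.unique hi hE ⟨gen_mem_WJ (by simp), fun j hj => by
      rw [show j = s by simpa using hj, ← gen_def, hi.1, wlen_one, h1]; omega⟩ hn)]
    exact hs
  have h2 : wlen (gen Q.P) (BN.mk Q.P (genN s) * BN.mk Q.P (genN t)) =
      wlen (gen Q.P) (BN.mk Q.P (genN s)) + wlen (gen Q.P) (BN.mk Q.P (genN t)) := by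
    rw [← gen_def, ← gen_def, wlen_gen_mul_gen h0, h1, h1]
  have h3 : ∀ x ∈ Q.Un (s * t), ∃ a ∈ Q.Un s, ∃ c ∈ Q.Un t, x = a * c := fun x hx =>
    let ⟨a, ha, _, hc, e⟩ := (mem_Un_mul_iff h2).1 hx; ⟨a, ha, _, (conj_mem_Un h0 h hc).1, e⟩
  rw [Un_congr (n' := genN s * genN t) (IsLongest.unique hi hE ⟨mul_mem (gen_mem_WJ (by simp)) (gen_mem_WJ (by simp)), by
    rintro j (rfl | rfl)
    · rw [map_mul, ← gen_def, ← gen_def, hi.cancel_left, wlen_gen_mul_gen h0, h1]; omega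
    · rw [map_mul, ← gen_def, ← gen_def, wlen_gen_mul_gen h0, h, hi.cancel_left, h1]; omega⟩ hn)]
  intro x hx
  obtain ⟨a, ha, c, hc, rfl⟩ := h3 x hx
  have h4 : c ∈ Q.Un (s * t) := by
    rw [show Q.Un (s * t) = Q.Un (t * s) from Un_congr (n := genN s * genN t) (n' := genN t * genN s) h]
    exact Un_le_Un_mul (n := genN t) (n' := genN s) (by rw [← gen_def, ← gen_def, wlen_gen_mul_gen h0.symm, h1, h1]) hc
  have h5 := Un_le_Un_mul h2 ha
  obtain ⟨a', ha', c', hc', e⟩ := h3 _ (mul_mem (mul_mem (mul_mem (inv_mem h5) h4) h5) (inv_mem h4))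
  have h6 := L.strong s s.2 c (Un_le_U _ hc) (conj_mem_Un h0 h hc).2 a (Un_le_U _ ha)
  have h7 := L.strong t t.2 a (Un_le_U _ ha) (conj_mem_Un h0.symm h.symm ha).2 c⁻¹ (inv_mem (Un_le_U _ hc))
  obtain rfl : a' = 1 := eq_one_of_mem_Un ha' (Q.U_le_B (by
    convert mul_mem (mul_mem h6 (inv_mem (conj_mem_Un h0 h hc).2)) (inv_mem (conj_mem_Un h0 h hc').2) using 1
    rw [show a' = a⁻¹ * c * a * c⁻¹ * c'⁻¹ from eq_mul_inv_of_mul_eq e.symm]
    group))
  obtain rfl : c' = 1 := eq_one_of_mem_Un hc' (Q.U_le_B (by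
    convert mul_mem (inv_mem (conj_mem_Un h0.symm h.symm ha).2) h7 using 1
    rw [← one_mul c', ← e]
    group))
  calc a * c * (a * c) = a * a * (a⁻¹ * c * a * c⁻¹) * (c * c) := by group
    _ = 1 := by rw [e, hs a ha, ht c hc]; simp

theorem mem_Un_braid {s t : Q.S} (h : gen Q.P s * gen Q.P t ≠ gen Q.P t * gen Q.P s)
    (hb : gen Q.P s * gen Q.P t * gen Q.P s = gen Q.P t * gen Q.P s * gen Q.P t) {n : Q.N}
    (hn : IsLongest (gen Q.P) {s, t} (BN.mk Q.P n)) {x : G} : x ∈ Q.Un n ↔ ∃ a ∈ Q.Un s, ∃ c ∈ Q.Un t, ∃ d ∈ Q.Un s,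
      x = a * (s * c * (s : G)⁻¹) * (s * t * d * (s * t : G)⁻¹) := by
  have hi := invGen Q.P
  have hE := exchange Q.P
  have h1 := hE.wlen_gen hi
  have h0 : s ≠ t := fun e => h (by rw [e])
  have h2 := wlen_conj_gen h.symm
  have h3 : ∀ j ∈ ({s, t} : Set Q.S), gen Q.P j ∈ WJ (gen Q.P) {s, t} := fun j => gen_mem_WJ
  rw [Un_congr (n' := genN s * genN t * genN s) (IsLongest.unique hi hE
    ⟨mul_mem (mul_mem (h3 s (by simp)) (h3 t (by simp))) (h3 s (by simp)), by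
      rintro j (rfl | rfl) <;> rw [map_mul, map_mul, ← gen_def, ← gen_def, h2]
      · rw [mul_assoc, hi.cancel_left, wlen_gen_mul_gen h0.symm]; omega
      · rw [hb, mul_assoc, hi.cancel_left, wlen_gen_mul_gen h0]; omega⟩ hn)]
  refine (mem_Un_mul_iff (n := genN s * genN t) (n' := genN s)
    (by rw [map_mul, ← gen_def, ← gen_def, h2, wlen_gen_mul_gen h0, h1])).trans ?_
  have h4 := fun u => mem_Un_mul_iff (n := genN s) (n' := genN t) (u := u)
    (by rw [← gen_def, ← gen_def, wlen_gen_mul_gen h0, h1, h1])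
  exact ⟨fun ⟨_, ha, d, hd, e⟩ => let ⟨a, ha, c, hc, e'⟩ := (h4 _).1 ha; ⟨a, ha, c, hc, d, hd, by rw [e, e']; rfl⟩,
    fun ⟨a, ha, c, hc, d, hd, e⟩ => ⟨_, (h4 _).2 ⟨a, ha, c, hc, rfl⟩, d, hd, e⟩⟩

/-- The fixed points of a unitary twist of a Heisenberg group. -/
theorem sq_heis {F : Type*} [Field F] (h2 : (2 : F) = 0) {θ : F →+* F} (hθ : Function.Involutive θ) {ω : F}
    (hω : ω + θ ω = 1) {x y z : F → G} {σ : G ≃* G} {U : Subgroup G} (hU : ∀ g, g ∈ U ↔ ∃ a c d, g = x a * z c * y d)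
    (hx : ∀ a b, x a * x b = x (a + b)) (hy : ∀ a b, y a * y b = y (a + b)) (hz : ∀ a b, z a * z b = z (a + b))
    (xz : ∀ a c, Commute (x a) (z c)) (yz : ∀ a c, Commute (y a) (z c)) (yx : ∀ a d, y d * x a = x a * z (a * d) * y d)
    (σx : ∀ a, σ (x a) = y (θ a)) (σy : ∀ a, σ (y a) = x (θ a)) (σz : ∀ a, σ (z a) = z (θ a))
    (inj : ∀ a c d a' c' d', x a * z c * y d = x a' * z c' * y d' → d = d') : Sq (U ⊓ fixSub σ) := by
  have hm : ∀ a c d a' c' d', x a * z c * y d * (x a' * z c' * y d') = x (a + a') * z (c + a' * d + c') * y (d + d') :=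
    fun a c d a' c' d' => calc
      _ = x a * z c * (y d * x a') * z c' * y d' := by simp only [mul_assoc]
      _ = x a * (z c * x a') * z (a' * d) * (y d * z c') * y d' := by rw [yx]; simp only [mul_assoc]
      _ = _ := by rw [← (xz _ _).eq, (yz _ _).eq, ← hx, ← hy, ← hz, ← hz]; simp only [mul_assoc]
  have hσ : ∀ a c d, σ (x a * z c * y d) = x (θ d) * z (θ d * θ a + θ c) * y (θ a) := fun a c d => by
    rw [map_mul, map_mul, σx, σy, σz, (yz _ _).eq, mul_assoc, yx, ← mul_assoc, ← mul_assoc, ← (xz _ _).eq, add_comm, ← hz]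
    simp only [mul_assoc]
  have h1 : ∀ a, x a * z (ω * (a * θ a)) * y (θ a) ∈ U ⊓ fixSub σ := fun a => ⟨(hU _).2 ⟨_, _, _, rfl⟩, by
    change σ _ = _
    rw [hσ, hθ, map_mul, map_mul, hθ]
    congr 3
    linear_combination (a * θ a) * hω + (a * θ a - ω * (a * θ a)) * h2⟩
  rintro g ⟨hg, hg'⟩
  obtain ⟨a, c, d, rfl⟩ := (hU g).1 hg
  obtain rfl : θ a = d := inj _ _ _ _ _ _ ((hσ a c d).symm.trans hg')
  convert commutator_mem_commutator (h1 (ω * (a * θ a))) (h1 1) using 1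
  rw [commutatorElement_def, eq_mul_inv_iff_mul_eq, eq_mul_inv_iff_mul_eq, mul_assoc (_ * _), hm, hm, hm, hm]
  simp only [map_mul, hθ a, map_one]
  refine congrArg₂ _ (congrArg₂ _ (congrArg x ?_) (congrArg z ?_)) (congrArg y ?_)
  · linear_combination a * h2
  · linear_combination (-(a * θ a)) * hω + (c + (1 + ω * (a * θ a)) * θ a + ω * (a * θ a)) * h2
  · linear_combination θ a * h2

section Twist

variable {σ : G ≃* G} {G₁ : Type*} [Group G₁] {ι : G₁ →* G} {ρ : Equiv.Perm Q.S} {κ : Type*} {J : κ → Set Q.S}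
  {n : κ → G₁} (T : Q.Twist σ ι ρ J n)
include T

theorem exists_pair (h2 : Function.Involutive σ) (k : κ) : ∃ s t : Q.S, J k = {s, t} ∧ (t : G)⁻¹ * σ s ∈ Q.B := by
  have h1 : Function.Involutive ρ := fun s => gen_injective Q.P (mk_eq_iff.2 (by
    simpa [h2 s] using mul_mem (T.map_S (ρ s)) ((T.toAut.map_B _).2 (T.map_S s))))
  obtain ⟨s, e⟩ := T.orbit k
  refine ⟨s, ρ s, e.trans (Set.ext fun t => ⟨fun ht => ?_, ?_⟩), T.map_S s⟩
  · exact IsOrbit.forall_of_exists ⟨s, rfl⟩ (p := (· ∈ ({s, ρ s} : Set Q.S))) (i := s)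
      (fun i => or_comm.trans (or_congr ρ.injective.eq_iff h1.eq_iff))
      (Equiv.Perm.SameCycle.refl ρ s) ht (.inl rfl)
  · rintro (rfl | rfl)
    exacts [Equiv.Perm.SameCycle.refl ρ _, Equiv.Perm.sameCycle_apply_right.2 (.refl ρ _)]

theorem sd_twist [Finite G] (L : PreLie 2 Q) (h : ∀ k, Sq (Q.Un (ι (n k)) ⊓ fixSub σ)) : SD G₁ := by
  have := Finite.of_injective ι T.inj
  refine sd_of_Un (L.twist T) ?_
  rintro _ ⟨k, rfl⟩
  rw [show T.sharp.Un (n k) = (Q.Un (ι (n k)) ⊓ fixSub σ).comap ι from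
    ext fun u => T.mem_sharp_Un.trans (and_iff_left (T.fix u)).symm]
  exact (h k).comap T.inj fun y hy => T.fixU k y hy.1 hy.2

/-- Involutive twists with commuting orbits. -/
theorem sd_twist_comm [Finite G] (L : PreLie 2 Q) (h2 : Function.Involutive σ) (hs : ∀ s ∈ Q.S, ∀ x ∈ Q.Un s, x * x = 1)
    (h : ∀ s t : Q.S, (t : G)⁻¹ * σ s ∈ Q.B → gen Q.P s * gen Q.P t = gen Q.P t * gen Q.P s ∨
      ∀ m : Q.N, IsLongest (gen Q.P) {s, t} (BN.mk Q.P m) → Sq (Q.Un m ⊓ fixSub σ)) : SD G₁ :=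
  sd_twist T L fun k => by
    obtain ⟨s, t, e, h1⟩ := exists_pair T h2 k
    have h3 : IsLongest (gen Q.P) {s, t} (BN.mk Q.P (T.nN k)) := by rw [← e]; exact T.longest k
    rcases h s t h1 with h4 | h4
    · exact .of_sq fun x hx => sq_pair L h4 h3 (hs s s.2) (hs t t.2) x hx.1
    · exact h4 (T.nN k) h3

end Twist

end CL.SqD
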