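/-
helper60: the commutator quotient of a Sylow 2-subgroup of a linear, symplectic or unitary group in characteristic two.
-/
import Cfsg.Agent.Known.SqD1
import Cfsg.Agent.Known.LieOrth

set_option autoImplicit false

namespace CL.SqD

open Cfsg Subgroup CL.Chev CL.Chev.St CL.Chev.BN CL.Chev.SharpBN CL.Chev.GLB Equiv
open Matrix hiding swap swap_mul_self swap_comm

theorem gen_comm {G : Type*} [Group G] {P : BNPair G} {s t : P.S} (h : (s : G) * t = t * s) :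
    gen P s * gen P t = gen P t * gen P s := congrArg (BN.mk P) (Subtype.ext h : genN s * genN t = genN t * genN s)

variable {ι : Type*} [Fintype ι] [DecidableEq ι] {F : Type*} [Field F]

theorem tv_heis {i j l : ι} (h1 : i ≠ j) (h2 : j ≠ l) (h3 : i ≠ l) (a d : F) :
    tv h2 d * tv h1 a = tv h1 a * tv h3 (-(a * d)) * tv h2 d := by
  ext1
  rw [coe_tv_mul_tv _ _ h3.symm, Units.val_mul, coe_tv_mul_tv _ _ h1.symm, coe_tv, transvection]
  simp [mul_add, add_mul, single_mul_single_of_ne, h2.symm, ← single_neg]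
  abel

variable [LinearOrder ι]

theorem mem_Un_swap {i j : ι} (h : i ⋖ j) {x : GL ι F} : x ∈ (glBN ι F).Un (pm F (swap i j)) ↔ ∃ a, x = tv h.ne a := by
  rw [← mul_one (pm F _), ← map_one (dg (F := F)), mem_glBN_Un, swap_inv]
  refine ⟨fun hx => ⟨_, eq_tv h hx.1 hx.2⟩, ?_⟩
  rintro ⟨a, rfl⟩
  exact ⟨tv_mem_uni _ _ h.lt, tv_mem_uni _ _ (by simpa using h.lt)⟩

variable [CharP F 2]

theorem sq_gl : ∀ s ∈ (glBN ι F).S, ∀ x ∈ (glBN ι F).Un s, x * x = 1 := by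
  rintro _ ⟨i, j, h, rfl⟩ x hx
  obtain ⟨a, rfl⟩ := (mem_Un_swap h).1 hx
  rw [tv_mul, CharTwo.add_self_eq_zero, tv_zero]

theorem sd_SL [Finite F] {n : ℕ} (hn : 2 ≤ n) : SD (SpecialLinearGroup (Fin n) F) := by
  obtain ⟨Q, L, -, h⟩ := exists_lieBN_SL (F := F) 2 hn
  exact sd_of_U L.preLie (h ▸ (sq_U (Q := glBN _ F) fun s hs => .of_sq (sq_gl s hs)).comap
    SpecialLinearGroup.toGL_injective (uni_le_range_toGL Function.injective_id))

theorem sq_mid {θ : F →+* F} {τ : Perm ι} (hτ : StrictAnti τ) (hθ : Function.Involutive θ) {ω : F} (hω : ω + θ ω = 1)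
    (h : Function.Involutive (sig θ τ 1)) {i j : ι} (hij : i ⋖ j) (hj : τ j = j) {s t : (glBN ι F).S}
    (hs : (s : GL ι F) = pm F (swap i j)) (ht : (t : GL ι F) = pm F (swap j (τ i)))
    (hc : gen _ s * gen _ t ≠ gen _ t * gen _ s) {m : (glBN ι F).N}
    (hm : IsLongest (gen (glBN ι F).P) {s, t} (BN.mk _ m)) : Sq ((glBN ι F).Un m ⊓ fixSub (sigE h)) := by
  have h1 := inv_eq_of_strictAnti hτ
  have h2 := involutive_of_strictAnti hτ
  have h3 : j ⋖ τ i := ⟨hj ▸ hτ hij.lt, fun k a b => hij.2 (h2 i ▸ hτ b) (hj ▸ hτ a)⟩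
  have h4 : i < τ i := hij.lt.trans h3.lt
  have h5 : ∀ c : F, (s : GL ι F) * tv h3.ne c * (s : GL ι F)⁻¹ = tv h4.ne c := fun c => by
    simp only [hs, pm_conj_tv, swap_apply_right, swap_apply_of_ne_of_ne h4.ne' h3.ne']
  have h6 : ∀ c : F, (s * t : GL ι F) * tv hij.ne c * (s * t : GL ι F)⁻¹ = tv h3.ne c := fun c => by
    simp only [hs, ht, ← map_mul, pm_conj_tv, Perm.mul_apply, swap_apply_left, swap_apply_of_ne_of_ne h4.ne' h3.ne',
      swap_apply_of_ne_of_ne hij.ne h4.ne]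
  have h7 : ∀ {k l : ι} (e : k ≠ l) (c : F), sigE h (tv e c) = tv (τ.injective.ne e.symm) (θ c) := fun e c => by
    simp [sigE_apply, sig_tv, h1, CharTwo.neg_eq]
  have h8 : ∀ a c d : F, (tv hij.ne a * tv h4.ne c * tv h3.ne d).val j (τ i) = d := fun a c d => by
    rw [mul_apply_covBy h3 (mul_mem (tv_mem_uni _ _ hij.lt) (tv_mem_uni _ _ h4)) (tv_mem_uni _ _ h3.lt),
      mul_apply_covBy h3 (tv_mem_uni _ _ hij.lt) (tv_mem_uni _ _ h4)]
    simp [tv_apply, hij.ne, h3.ne]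
  refine sq_heis CharTwo.two_eq_zero hθ hω (x := tv hij.ne) (y := tv h3.ne) (z := tv h4.ne) (fun g => ?_) (tv_mul _)
    (tv_mul _) (tv_mul _) (commute_tv _ _ hij.ne' h4.ne') (commute_tv _ _ h4.ne' h3.ne')
    (fun a d => by rw [tv_heis hij.ne h3.ne h4.ne, CharTwo.neg_eq]) (fun a => by simp only [h7, hj])
    (fun a => by simp only [h7, hj, h2 i]) (fun a => by simp only [h7, h2 i])
    fun a c d a' c' d' e => by rw [← h8 a c d, e, h8]
  rw [mem_Un_braid hc (congrArg (BN.mk _) (Subtype.ext ?_ : genN s * genN t * genN s = genN t * genN s * genN t)) hm]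
  · simp only [hs, ht, mem_Un_swap hij, mem_Un_swap h3]
    rw [← hs, ← ht]
    exact ⟨by rintro ⟨_, ⟨a, rfl⟩, _, ⟨c, rfl⟩, _, ⟨d, rfl⟩, rfl⟩; exact ⟨a, c, d, by rw [h5, h6]⟩,
      fun ⟨a, c, d, e⟩ => ⟨_, ⟨a, rfl⟩, _, ⟨c, rfl⟩, _, ⟨d, rfl⟩, by rw [h5, h6, e]⟩⟩
  · simp only [coe_mul, coe_genN, hs, ht, ← map_mul]
    rw [swap_mul_swap_mul_swap hij.ne h4.ne, swap_comm i j, swap_comm j (τ i), swap_mul_swap_mul_swap h3.ne' h4.ne',
      swap_comm]

theorem sd_form [Finite F] {θ : F →+* F} {τ : Perm ι} (hτ : StrictAnti τ) (hθ : Function.Involutive θ)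
    (hω : (∃ j, τ j = j) → ∃ ω, ω + θ ω = 1) {G₁ : Type*} [Group G₁] {f : G₁ →* GL ι F} (inj : Function.Injective f)
    (fix : ∀ g u v, fm θ τ 1 ((f g).val *ᵥ u) ((f g).val *ᵥ v) = fm θ τ 1 u v)
    (hU : ∀ g : GL ι F, g.val.det = 1 → (∀ u v, fm θ τ 1 (g.val *ᵥ u) (g.val *ᵥ v) = fm θ τ 1 u v) → g ∈ f.range) :
    SD G₁ := by
  have h1 := inv_eq_of_strictAnti hτ
  have h2 := involutive_of_strictAnti hτ
  have h : Function.Involutive (sig θ τ (1 : ι → Fˣ)) := sig_involutive h2 hθ (c := 1) (by simp)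
  obtain ⟨ρ, n, T⟩ := exists_twist_form hτ h (fun i _ => ⟨1, one_ne_zero, by simp [CharTwo.add_self_eq_zero]⟩) inj
    (fun g => sig_eq_iff.2 (fix g)) fun u hu h => hU u (hu.elim (det_of_mem_uni Function.injective_id)
      (det_of_mem_uni OrderDual.toDual.injective)) (sig_eq_iff.1 h)
  refine sd_twist_comm T (preLie_gl ι F 2) h sq_gl ?_
  rintro ⟨_, i, j, hij, rfl⟩ ⟨_, k, l, hkl, rfl⟩ hs
  obtain ⟨d, hd⟩ := sig_pm (θ := θ) (τ := τ) (e := (1 : ι → Fˣ)) (swap i j)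
  rw [sigE_apply, hd, ← mul_assoc, ← map_inv, ← map_mul, glBN_B, pm_mul_dg_mem_par] at hs
  have h3 : swap k l = swap (τ i) (τ j) := by
    rw [inv_mul_eq_one.1 (eq_one_of_le hs), swap_apply_apply, h1]
  refine or_iff_not_imp_left.2 fun hc m hm => ?_
  by_cases hj : τ j = j
  · obtain ⟨ω, hω⟩ := hω ⟨j, hj⟩
    exact sq_mid hτ hθ hω h hij hj rfl (by simp only [h3, hj, swap_comm]) hc hm
  by_cases hi : τ i = i
  · obtain ⟨ω, hω⟩ := hω ⟨i, hi⟩
    exact sq_mid hτ hθ hω h (i := τ j) (j := i) ⟨hi ▸ hτ hij.lt, fun k a b => hij.2 (hi ▸ hτ b) (h2 j ▸ hτ a)⟩ hi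
      (by simp only [h3, hi, swap_comm]) (by simp only [h2 j]) (Ne.symm hc) (Set.pair_comm _ _ ▸ hm)
  refine absurd (gen_comm ?_) hc
  simp only [← map_mul, h3]
  by_cases h4 : τ j = i
  · rw [h4, ← h4, h2 j, h4, swap_comm j]
  · rw [mul_swap_eq_swap_mul, swap_apply_of_ne_of_ne hi fun e => h4 (by rw [← e, h2 i]), swap_apply_of_ne_of_ne h4 hj]

theorem sd_Sp [Finite F] (m : ℕ) : SD (symplecticGroup (Fin m) F) := by
  have h : ∀ u v, fm (RingHom.id F) (sumComm _ _) 1 u v = Sp.stdForm (Fin m) F u v := fun u v => by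
    simp [fm, Sp.stdForm_apply', CharTwo.sub_eq_add, Finset.sum_add_distrib]
  let _ := LinearOrder.lift' (htSum m) (htSum_injective m)
  refine sd_form (θ := RingHom.id F) (τ := sumComm _ _)
    (fun i j (h : htSum m i < htSum m j) => show htSum m j.swap < htSum m i.swap from ?_) (fun _ => rfl)
    (by rintro ⟨i | i, h⟩ <;> simp at h) Sp.spToGL_injective (fun g u v => ?_)
    fun g _ hg => ⟨⟨g.val, (Sp.mem_symplecticGroup_iff _).2 fun u v => ?_⟩, Units.ext rfl⟩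
  · rw [htSum_swap, htSum_swap]; omega
  · rw [h, h]
    exact (Sp.mem_symplecticGroup_iff _).1 g.2 u v
  · rw [← h, ← h, hg]

theorem sd_SU [Fintype F] (n : ℕ) {q : ℕ} (hF : Fintype.card F = q ^ 2) : SD (SU n F q) := by
  have hb := Uni.isBar_bar hF
  let B : (Fin n → F) →ₛₗ[Uni.bar hF] (Fin n → F) →ₗ[F] F :=
    (Uni.stdB (Uni.bar hF) (Fin n)).comp (LinearMap.funLeft F F Fin.rev)
  have h : ∀ u v, fm (Uni.bar hF) Fin.revPerm 1 u v = B u v := fun u v => by simp [fm, B, Uni.stdB_apply]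
  have hB : Uni.IsHerm B q := by
    refine ⟨hb, fun x y => ?_, fun x hx => funext fun i => ?_⟩
    · rw [← h, ← h, fm, fm, map_sum, ← Equiv.sum_comp Fin.revPerm]
      simp [hb.bar_bar, mul_comm]
    · simpa [← h, fm, Pi.single_apply] using hx (Pi.single i.rev 1)
  obtain ⟨φ⟩ := hB.nonempty_suEquiv (n := n) (by simp)
  refine (sd_form (θ := Uni.bar hF) (τ := Fin.revPerm) Fin.rev_strictAnti hb.bar_bar (fun _ => hb.exists_trace_one)
    (f := (Uni.glEquiv (Fin n) F).symm.toMonoidHom.comp (Uni.SUG B).subtype)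
    ((Uni.glEquiv (Fin n) F).symm.injective.comp Subtype.val_injective) (fun g u v => ?_)
    fun g hg hg' => ⟨⟨Uni.glEquiv _ F g, Uni.mem_SUG.2 ⟨fun u v => ?_, ?_⟩⟩, by simp⟩).of_equiv φ.symm
  · rw [h, h, ← Uni.glEquiv_apply, ← Uni.glEquiv_apply]
    simpa using g.2.1 u v
  · rw [← h, ← h, Uni.glEquiv_apply, Uni.glEquiv_apply, hg']
  · rw [Uni.dt_glEquiv, hg]

end CL.SqD
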