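/-
helper60: the commutator quotient of a Sylow 2-subgroup of a group of Lie type in characteristic two.
-/
import Cfsg.Agent.Known.SqD2
import Cfsg.Agent.Known.LieAll
import Cfsg.Agent.Chev.TwOutF4

set_option autoImplicit false

namespace CL.SqD

open Cfsg Cfsg.Lie Subgroup CL.Chev CL.Chev.St CL.Chev.BN CL.Chev.SharpBN CL.Chev.GLB Equiv
open Matrix hiding swap swap_mul_self swap_comm
open scoped commutatorElement

theorem SD.commutator {G : Type*} [Group G] [Finite G] {K : Subgroup G} (hK : K.index = 2) (h : SD K)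
    (hi : (commutator G).index = 2 ∨ (2 ≠ 2 ∧ (commutator G).index = 4)) : SD (commutator G) := by
  have h1 : _root_.commutator G ≤ K := commutator_le.2 fun a _ b _ => by
    rw [commutatorElement_def, mul_mem_iff_of_index_two hK, mul_mem_iff_of_index_two hK, mul_mem_iff_of_index_two hK,
      inv_mem_iff, inv_mem_iff]
    tauto
  have h2 := relIndex_mul_index h1
  rw [hK, hi.resolve_right fun e => e.1 rfl] at h2
  exact le_antisymm h1 (relIndex_eq_one.1 (by omega)) ▸ h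

section Orth

variable {ι : Type} [Fintype ι] [DecidableEq ι] {F : Type*} [Field F] [CharP F 2]

theorem sq_bn [LinearOrder ι] (A : Anti ι) : ∀ s ∈ (A.bn F).S, ∀ x ∈ (A.bn F).Un s, x * x = 1 := by
  have key : ∀ i j, i ⋖ j → j ≤ A.c → ∀ x ∈ A.U F, (pm F (A.rw i j))⁻¹ * x * pm F (A.rw i j) ∈ A.V F → x * x = 1 :=
    fun i j h hj x hx hx' => by
      rw [Anti.eq_xr h hj hx.1 ((pm_conj_mem_uni' _).1 (by
        simpa only [Anti.pm_rw_inv (h.le.trans hj) hj] using hx'.1)) (Anti.mem_orth.1 hx.2).1, Anti.xr_mul,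
        CharTwo.add_self_eq_zero, Anti.xr_zero]
  rintro s ⟨_, ⟨i, j, h, hj, rfl | rfl⟩, e⟩ x hx <;> refine Subtype.ext ?_
  · exact key i j h hj x hx.1 (e ▸ (mem_Un.1 hx).2)
  · have h1 : (s : GL ι F)⁻¹ * x * s ∈ A.V F := (mem_Un.1 hx).2
    have h2 : ∀ g, A.t F * (A.t F * g) = g := fun g => by rw [← mul_assoc, Anti.t_mul_t, one_mul]
    have := key i j h hj _ (Anti.t_conj_U hx.1) (by
      simpa [← e, mul_assoc, ← Anti.t.eq_def, Anti.t_inv, h2, Anti.t_mul_t] using Anti.t_conj_V h1)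
    simpa [mul_assoc, h2, Anti.t_mul_t] using congrArg (fun g => A.t F * g * A.t F) this

theorem commute_tw [LinearOrder ι] (A : Anti ι) {w : Perm ι} (hw : w ∈ A.SW) :
    w * (A.tw * w * A.tw) = A.tw * w * A.tw * w := by
  have key : ∀ i j, i ⋖ j → j ≤ A.c → Commute (A.rw i j) (A.tw * A.rw i j * A.tw) := fun i j h hj => by
    have hi := h.le.trans hj
    have h1 : ∀ k, k < A.c → A.tw k = k := fun k hk => swap_apply_of_ne_of_ne hk.ne (hk.trans A.cov.lt).ne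
    have h2 : A.tw * A.rw i j * A.tw = swap (A.tw i) (A.tw j) * swap (A.τ (A.tw j)) (A.τ (A.tw i)) := by
      rw [← Anti.tw_τ, ← Anti.tw_τ, swap_apply_apply, swap_apply_apply, Anti.rw,
        inv_eq_of_mul_eq_one_left Anti.tw_mul_tw, mul_assoc, mul_assoc, mul_assoc, mul_assoc, mul_assoc,
        ← mul_assoc A.tw A.tw, Anti.tw_mul_tw, one_mul]
    rw [h2, h1 i (h.lt.trans_le hj)]
    rcases hj.lt_or_eq with e | rfl
    · rw [h1 j e]; exact .refl _
    · rw [Anti.tw, swap_apply_left, Anti.ττ, Commute, SemiconjBy, ← mul_assoc, mul_swap_eq_swap_mul (A.rw _ _), mul_assoc,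
        mul_swap_eq_swap_mul (A.rw _ _), Anti.rw_τ hi hj, Anti.rw_τ hi hj, Anti.rw_left hi hj, Anti.rw_right hi hj, ← mul_assoc,
        mul_swap_eq_swap_mul (swap _ _), swap_apply_of_ne_of_ne h.ne (Anti.τ_ne_of_le hi hi).symm,
        swap_apply_of_ne_of_ne (Anti.τ_ne _) (A.τ.injective.ne h.ne')]
  obtain ⟨i, j, h, hj, rfl | rfl⟩ := hw
  · exact key i j h hj
  · rw [← mul_assoc A.tw, ← mul_assoc A.tw, Anti.tw_mul_tw, one_mul, mul_assoc (A.rw i j), Anti.tw_mul_tw, mul_one]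
    exact (key i j h hj).symm

variable [Finite F] {ht : ι → ℤ} (h1 : Function.Injective ht) {τ : Perm ι} (hτ : ∀ i, ht (τ i) = -ht i) {c : ι}
  (hc : ht c = -1) (h0 : ∀ i, ht i ≠ 0) {Q : (ι → F) → F} (hQ : ∀ v, Q v = ∑ i with ht i < 0, v i * v (τ i))
include h1 hτ hc h0 hQ

theorem sd_plus : ∃ K : Subgroup (isometryGroup F Q), K.index = 2 ∧ SD K := by
  obtain ⟨_, A, -, -, h2, -⟩ := exists_anti h1 hτ hc h0 hQ
  rw [← h2]
  exact ⟨_, Anti.index_comap_K (f := (A.orth F).subtype) (fun g => g.2) ⟨⟨_, Anti.t_mem_orth⟩, rfl⟩,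
    (sd_of_Un (Anti.preLie_bn 2) fun s hs => .of_sq (sq_bn A s hs)).of_equiv (subgroupOfEquivOfLe Anti.K_le)⟩

theorem sd_twist_orth {θ : F →+* F} (hθ : Function.Involutive θ) {G₁ : Type*} [Group G₁] {f : G₁ →* GL ι F}
    (inj : Function.Injective f) (hf : ∀ g, g ∈ f.range ↔ g ∈ isometryGroup F Q ∧
      pm F (swap c (τ c)) * GeneralLinearGroup.map θ g * pm F (swap c (τ c)) = g) :
    ∃ K : Subgroup G₁, K.index = 2 ∧ SD K := by
  obtain ⟨_, A, rfl, rfl, h2, -⟩ := exists_anti h1 hτ hc h0 hQ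
  simp only [← h2, ← Anti.tw.eq_def, ← Anti.t.eq_def, ← Anti.φ_apply] at hf
  obtain ⟨ρ, n, T⟩ := Anti.exists_twist_orth hθ inj (fun g => ((hf _).1 ⟨g, rfl⟩).2) fun g h h' => (hf g).2 ⟨h, h'⟩
  refine ⟨_, Anti.index_comap_K (fun g => ((hf _).1 ⟨g, rfl⟩).1) ((hf _).2 ⟨Anti.t_mem_orth, Anti.φ_t⟩),
    sd_twist_comm T (Anti.preLie_bn 2) (fun g => Subtype.ext (Anti.φ_φ hθ g.1)) (sq_bn A) ?_⟩
  rintro ⟨s, w, hw, e⟩ ⟨t, w', hw', e'⟩ hs
  have h3 : (t : GL ι F)⁻¹ * A.φ θ s ∈ par F (id : ι → ι) := hs.1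
  rw [← e, ← e', Anti.φ_pm, ← map_inv, ← map_mul] at h3
  refine .inl (gen_comm (Subtype.ext ?_))
  simp only [coe_mul, ← e, ← e', ← map_mul, inv_mul_eq_one.1 (eq_one_of_pm_mem h3), commute_tw A hw]

end Orth

variable {F : Type*} [Field F]

theorem sd_OmegaPlus [Fintype F] [CharP F 2] {m : ℕ} (hm : 3 ≤ m) : SD (Omega F (quadFormPlus m F)) := by
  rw [← Cls.coe_qfPlus]
  obtain ⟨K, hK, h1⟩ := sd_plus (F := F) (htSum_injective m) (τ := sumComm _ _) htSum_swap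
    (c := .inl ⟨0, by omega⟩) rfl htSum_ne_zero (Q := Cls.qfPlus m F) fun v => by
      rw [Finset.sum_filter, Fintype.sum_sum_type, Cls.qfPlus_apply]
      simp [htSum_inl_neg, htSum_inr_not_neg]
  exact h1.commutator hK (index_commutator_cases 2 Cls.nondeg_qfPlus (by simp; omega) fun h2 =>
    Cls.commutator_OG_eq_ker_dickson _ h2 (Known.hF_of_card (.inr (show m ≠ 2 by omega)) fun _ => by simp; omega))

theorem sd_minus {E : Type*} [Field E] (φ : F →+* E) [Finite E] [CharP E 2] (m : ℕ) {a b : F} {θ : E →+* E}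
    (hθ : Function.Involutive θ) (hfix : ∀ x, θ x = x ↔ x ∈ φ.range) {ω : E} (hω : ∀ z, ∃ x y, z = φ x + ω * φ y)
    (e0 : θ ω ≠ ω) (e1 : ω + θ ω = φ a) (e2 : ω * θ ω = φ b) :
    ∃ K : Subgroup (isometryGroup F (Cls.qfMinus m F a b)), K.index = 2 ∧ SD K := by
  let P : GL ((Fin m ⊕ Fin m) ⊕ Fin 2) E := .mkOfDetNeZero (fromBlocks 1 0 0 !![1, ω; 1, θ ω]) (by
    rwa [det_fromBlocks_zero₁₂, det_one, one_mul, det_fin_two_of, one_mul, mul_one, sub_ne_zero])
  let τ : Perm ((Fin m ⊕ Fin m) ⊕ Fin 2) := sumCongr (sumComm _ _) (swap 0 1)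
  let Q : (((Fin m ⊕ Fin m) ⊕ Fin 2) → E) → E := fun v =>
    ∑ i, v (.inl (.inl i)) * v (.inl (.inr i)) + v (.inr 0) * v (.inr 1)
  have h1 : ∀ v, Q (P.val *ᵥ v) = Cls.qfMinus m E (φ a) (φ b) v := fun v => by
    simp [Q, P, Cls.qfMinus_apply, fromBlocks_mulVec, ← e1, ← e2, vecHead, vecTail]
    ring
  have h2 : GeneralLinearGroup.map θ P = pm E (swap (.inr 0) (τ (.inr 0))) * P := by
    ext i j
    rw [pm_mul_apply, GeneralLinearGroup.map_apply]
    rcases i with i | i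
    · rw [swap_inv, swap_apply_of_ne_of_ne (by simp) (by simp [τ])]
      rcases j with j | j <;> simp [P, one_apply, apply_ite θ]
    · rcases j with j | j <;> fin_cases i <;> [skip; skip; fin_cases j; fin_cases j] <;> simp [P, τ, hθ ω]
  have h3 : ∀ g : GL ((Fin m ⊕ Fin m) ⊕ Fin 2) E, P * g * P⁻¹ ∈ isometryGroup E Q ↔
      g ∈ isometryGroup E (Cls.qfMinus m E (φ a) (φ b)) := fun g => by
    rw [Cls.mem_isometryGroup, Cls.mem_isometryGroup, (mulVec_surjective_iff_isUnit.2 P.isUnit).forall]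
    refine forall_congr' fun v => ?_
    rw [mulVec_mulVec, ← Units.val_mul, inv_mul_cancel_right, Units.val_mul, ← mulVec_mulVec, h1, h1]
  have h4 : ∀ g, pm E (swap (.inr 0) (τ (.inr 0))) * GeneralLinearGroup.map θ (P * g * P⁻¹) *
      pm E (swap (.inr 0) (τ (.inr 0))) = P * g * P⁻¹ ↔ GeneralLinearGroup.map θ g = g := fun g => by
    rw [map_mul, map_mul, map_inv, h2, _root_.mul_inv_rev, ← mul_assoc, ← mul_assoc, ← mul_assoc, ← mul_assoc,
      inv_mul_cancel_right, ← map_mul, swap_mul_self, map_one, one_mul, mul_left_inj, mul_right_inj]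
  refine sd_twist_orth (F := E) (ht := Sum.elim (2 * htSum m ·) ![-1, 1]) ?_ (τ := τ) ?_
    (c := .inr 0) rfl ?_ (Q := Q) ?_ hθ
    (f := (MulAut.conj P).toMonoidHom.comp ((GeneralLinearGroup.map φ).comp
      (isometryGroup F (Cls.qfMinus m F a b)).subtype)) ?_ fun g => ?_
  · rintro (i | i) (j | j) h
    · exact congrArg _ (htSum_injective m (by simpa using h))
    · fin_cases j <;> simp at h <;> omega
    · fin_cases i <;> simp at h <;> omega
    · fin_cases i <;> fin_cases j <;> simp at h ⊢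
  · rintro (i | i)
    · simp [τ, htSum_swap]
    · fin_cases i <;> simp [τ]
  · rintro (i | i)
    · simp [htSum_ne_zero]
    · fin_cases i <;> simp
  · intro v
    rw [Finset.sum_filter, Fintype.sum_sum_type, Fintype.sum_sum_type]
    simp [Q, τ, mul_neg_iff, htSum_inl_neg, htSum_inr_not_neg]
  · exact fun g g' h => Subtype.ext (Units.ext (Matrix.map_injective φ.injective
      (congrArg Units.val ((MulAut.conj P).injective h))))
  · obtain ⟨g, rfl⟩ := (MulAut.conj P).surjective g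
    rw [MulAut.conj_apply, h3, h4]
    constructor
    · rintro ⟨g, e⟩
      obtain rfl : GeneralLinearGroup.map φ g.1 = _ := (MulAut.conj P).injective e
      exact ⟨(map_mem_isometryGroup_iff φ hω _).2 g.2, by ext i j; exact (hfix _).2 ⟨_, rfl⟩⟩
    · rintro ⟨e1, e2⟩
      obtain ⟨g, rfl⟩ := exists_map_eq φ (fun x => (hfix x).1) e2
      exact ⟨⟨g, (map_mem_isometryGroup_iff φ hω _).1 e1⟩, rfl⟩

theorem sd_OmegaMinus [Fintype F] [CharP F 2] (m : ℕ) {a b : F}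
    (hab : ∀ z₁ z₂ : F, z₁ ^ 2 + a * z₁ * z₂ + b * z₂ ^ 2 = 0 → z₁ = 0 ∧ z₂ = 0) :
    SD (Omega F (quadFormMinus m F a b)) := by
  have := Cls.fact_QAlg hab
  have := Cls.finite_QAlg a b
  have hd := Cls.disc_ne_zero_of_anisotropic a b hab
  have : CharP (Cls.QAlg F a b) 2 := charP_of_injective_algebraMap (algebraMap F _).injective 2
  obtain ⟨K, hK, h⟩ := sd_minus (algebraMap F (Cls.QAlg F a b)) m (a := a) (b := b)
    (θ := starRingEnd _) (fun x => star_star x)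
    (fun x => ⟨fun h => ⟨_, Cls.eq_algebraMap_of_star_eq hd h⟩, by rintro ⟨x, rfl⟩; exact Cls.star_algebraMap_QAlg x⟩)
    (ω := QuadraticAlgebra.omega) (fun z => ⟨z.re, z.im, by ext <;> simp⟩)
    (fun h => by simpa using congrArg QuadraticAlgebra.im (Cls.eq_algebraMap_of_star_eq hd h))
    (by rw [starRingEnd_apply]; ext <;> simp) (by rw [starRingEnd_apply]; ext <;> simp)
  rw [← Cls.coe_qfMinus]
  exact h.commutator hK (index_commutator_cases 2 (Cls.nondeg_qfMinus a b hab) (by simp) fun _ =>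
    Known.commutator_qfMinus_two m hab)

section St

variable {ι Φ : Type} [Fintype ι] [DecidableEq ι] {R : RS ι Φ} [CharP F 2] {G : Type*} [Group G] (S : StSys R F G)

theorem sq_XP {J : Set ι} (h : ∀ i ∈ J, ∀ j ∈ J, i ≠ j → R.cartan i j = 0) : ∀ g ∈ S.XP J, g * g = 1 := by
  refine sq_closure ?_ ?_
  · rintro _ ⟨r, hr, t, rfl⟩ _ ⟨s, hs, u, rfl⟩
    obtain ⟨i, hi, rfl⟩ := (R.pos_PhiJ_of_orth h r).1 hr
    obtain ⟨j, hj, rfl⟩ := (R.pos_PhiJ_of_orth h s).1 hs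
    rcases eq_or_ne i j with rfl | e
    exacts [S.x_comm _ t u, S.commute_simple (h i hi j hj e) t u]
  · rintro _ ⟨r, -, t, rfl⟩
    rw [← S.x_add, CharTwo.add_self_eq_zero, S.x_zero]

variable {S} [Finite Φ] [Finite F] [Finite S.grp]

theorem sd_st (hS : S.Faithful) (hM : S.HMul) (hR : R.Irred) : SD S.grp :=
  sd_of_Un (hS.lieBN hM hR 2).preLie (by
    rintro _ ⟨i, rfl⟩
    refine .of_sq fun x hx => Subtype.ext ?_
    rw [hS.mem_sharp_Un (S.induces_nS i), R.sperm_inv, R.inv_sperm] at hx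
    obtain ⟨t, e⟩ := S.mem_X.1 hx
    rw [coe_mul, e, ← S.x_add, CharTwo.add_self_eq_zero, S.x_zero, coe_one])

theorem sd_tw {A : S.res.GAut} {κ : Type*} {J : κ → Set ι} {K : Subgroup G} (D : A.TwData J (K.subgroupOf S.grp))
    (hS : S.Faithful) (hK : K ≤ S.grp) (hM : S.HMul) (hR : R.Irred) (h : ∀ k, Sq (S.res.XP (J k) ⊓ fixSub A.σ)) : SD K :=
  sd_twist (D.twist hS hK) (hS.lieBN hM hR 2).preLie fun k =>
    (Subgroup.ext fun _ => D.mem_Un hS hK k : _ = S.res.XP (J k)) ▸ h k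

end St

theorem sd_real {D : ChevalleyDatum} (E : Real D) (F : Type*) [Field F] [Finite F] [CharP F 2] : SD (D.group F) := by
  rw [E.group_eq F]
  exact sd_st (E.faithful F) (E.hMul F) E.irred

theorem orth_E6 (k : Fin 4) : ∀ i ∈ wE6 k, ∀ j ∈ wE6 k, i = j ∨ Cox.cE6 i j = 0 := by
  fin_cases k <;> simp [wE6, Cox.cE6]

theorem orth_D4 (k : Fin 2) : ∀ i ∈ wD4 k, ∀ j ∈ wD4 k, i = j ∨ Cox.cD4 i j = 0 := by
  fin_cases k <;> simp [wD4, Cox.cD4]

theorem sd_of_isLieTypeChar {G : Type*} [Group G] (hG : IsLieTypeChar 2 G) : SD G := by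
  rcases hG with ⟨F, _, _, _, n, h1, h2, ⟨e⟩⟩ | ⟨F, _, _, _, m, h1, h2, ⟨e⟩⟩ | ⟨F, _, _, _, n, q, h1, h2, h3, ⟨e⟩⟩ |
    ⟨F, _, _, _, m, h1, h2, ⟨e⟩⟩ | ⟨F, _, _, _, m, h1, ⟨e⟩⟩ | ⟨F, _, _, _, m, a, b, h1, h2, ⟨e⟩⟩ |
    ⟨F, _, _, _, ⟨h1, ⟨e⟩⟩ | ⟨⟨e⟩⟩ | ⟨⟨e⟩⟩ | ⟨⟨e⟩⟩ | ⟨⟨e⟩⟩⟩ | ⟨F, _, _, _, q, hq, ⟨h1, ⟨e⟩⟩ | ⟨h1, ⟨e⟩⟩⟩ |
    ⟨-, F, _, _, m, h1, h2, ⟨e⟩⟩ | ⟨-, F, _, _, m, h1, h2, ⟨e⟩⟩ | ⟨h, -⟩
  · exact ((sd_SL h1).quot _).of_equiv e
  · exact ((sd_Sp m).quot _).of_equiv e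
  · exact ((sd_SU n h1).quot _).of_equiv e
  · exact absurd CharTwo.two_eq_zero (Cls.two_ne_zero_of_odd_card h2)
  · exact ((sd_OmegaPlus (by omega)).quot _).of_equiv e
  · exact ((sd_OmegaMinus _ h2).quot _).of_equiv e
  · exact (sd_real realG2 F).of_equiv e
  · exact (sd_real realF4 F).of_equiv e
  · exact (sd_real realE6 F).of_equiv e
  · exact (sd_real realE7 F).of_equiv e
  · exact (sd_real realE8 F).of_equiv e
  · have h := isTwE6 realE6 hq h1
    obtain ⟨A, θ, h2, -, D⟩ := h.ex'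
    refine (sd_tw D h.faithful h.le (realE6.hMul F) realE6.irred fun k => .of_sq fun x hx =>
      sq_XP _ (fun i hi j hj e => ?_) x hx.1).of_equiv e
    rw [mem_jE6] at hi hj
    exact (h2.ca i j).trans ((orth_E6 k i hi j hj).resolve_left e)
  · have h := isTwD4 realD4 hq h1
    obtain ⟨A, θ, h2, -, D⟩ := h.ex'
    refine (sd_tw D h.faithful h.le (realD4.hMul F) realD4.irred fun k => .of_sq fun x hx =>
      sq_XP _ (fun i hi j hj e => ?_) x hx.1).of_equiv e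
    rw [mem_jD4] at hi hj
    exact (h2.ca i j).trans ((orth_D4 k i hi j hj).resolve_left e)
  · let M := Sz.modelLie h1 h2
    obtain ⟨d, d0, d1⟩ := M.toTits.big
    refine (sd_of_U M.preLie (sq_of_law M.toTits.two (W := M.T) (fun _ => M.mem_U) M.T_mul (by simp [funext_iff])
      fun c => exists_tits M.toTits.two M.σ (fun _ _ => M.toTits.σ_mul_self_inj) (d := d) (fun h => d1 ?_) c)).of_equiv e
    simpa [h, sq, d0] using M.toTits.σσ d
  · have h := isTwF4 realF4 h2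
    have : CharP F 2 := charP_of_card_eq_prime_pow h2
    obtain ⟨A, θ, c, d, h3, D, -⟩ := h.ex'
    refine (sd_tw D h.faithful h.le (realF4.hMul F) realF4.irred fun k => ?_).of_equiv e
    fin_cases k
    · refine .of_sq fun x hx => sq_XP _ (fun i hi j hj e => ?_) x hx.1
      rw [h3.ca]
      rcases hi with rfl | rfl <;> rcases hj with rfl | rfl <;> first | exact absurd rfl e | rfl
    · obtain ⟨a, a0, a1⟩ := exists_ne_zero_one_of_three_le (F := F)
        (h2 ▸ (by norm_num : 3 ≤ 2 ^ 3).trans (Nat.pow_le_pow_right two_pos (by omega)))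
      exact sq_of_law CharTwo.two_eq_zero (W := StSys.suzP _ θ c d) (fun _ => h3.fix_suz_iff) h3.suzP_mul
        (by simp [funext_iff]) (exists_tits CharTwo.two_eq_zero θ.toRingHom h3.suzP.mul_injective (d := a) fun e =>
          a1 (mul_left_cancel₀ a0 (by simpa [show θ a = a from e, sq] using h3.sq a)))
  · omega

end CL.SqD
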