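/-
Schur multipliers of the Suzuki groups, part 2: transfer of cocycles, the covering group of `Sz(8)`.
-/
import Cfsg.Agent.Known.SzSchur
import Cfsg.Agent.Fgs.SchurCocycle
import Cfsg.Agent.Chev.SzField

set_option autoImplicit false

namespace CL.Schur

open Subgroup
open scoped commutatorElement

section transfer
variable {G : Type*} [Group G] {Ω : Type*} [MulAction G Ω] (s : Ω → G)

/-- The Schreier cocycle of a section. -/
def schreier (g : G) (p : Ω) : G := (s (g • p))⁻¹ * g * s p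

theorem schreier_mul (g h : G) (p : Ω) : schreier s (g * h) p = schreier s g (h • p) * schreier s h p := by
  simp only [schreier, mul_smul]; group

theorem schreier_one (p : Ω) : schreier s 1 p = 1 := by simp [schreier]

/-- The transfer (corestriction) of a cocycle on a subgroup containing the values of the Schreier cocycle. -/
def transferCocycle [Fintype Ω] {T : Type*} [CommGroup T] (B : Subgroup G) (hB : ∀ g p, schreier s g p ∈ B)
    (c : G → G → T) (h1 : c 1 1 = 1)
    (h2 : ∀ g ∈ B, ∀ h ∈ B, ∀ k ∈ B, c g h * c (g * h) k = c h k * c g (h * k)) : Cocycle G T where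
  c g h := ∏ p, c (schreier s g (h • p)) (schreier s h p)
  c_one := by simp [schreier_one, h1]
  c_assoc g h k := by
    rw [← Fintype.prod_equiv (MulAction.toPerm k) (fun p => c (schreier s g (h • k • p)) (schreier s h (k • p)))
      (fun p => c (schreier s g (h • p)) (schreier s h p)) (fun _ => rfl),
      ← Finset.prod_mul_distrib, ← Finset.prod_mul_distrib]
    refine Finset.prod_congr rfl fun p _ => ?_
    rw [schreier_mul, schreier_mul, mul_smul]
    exact h2 _ (hB _ _) _ (hB _ _) _ (hB _ _)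

end transfer

end CL.Schur

namespace CL.Chev.Sz

open Subgroup CL.Schur
open scoped commutatorElement

namespace Tits
variable {F : Type*} [Field F] (S : Tits F)

/-- The polynomial cochain on the Sylow 2-subgroup of `Sz(8)`. -/
def P8 (a a' b' : F) : F := a * S.σ b' + a ^ 2 * S.σ a * a' + S.σ a * a' ^ 3

variable (h8 : ∀ y, S.σ y ^ 2 = y)
include h8

theorem P8_scale {l : F} (hl : l ≠ 0) (a a' b' : F) : S.P8 (l * a) (l * a') (S.σ l * l * b') = S.P8 a a' b' := by
  have e : S.σ l * l ^ 3 = 1 := by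
    have h1 := h8 l
    have h2 := h8 (S.σ l)
    rw [S.σσ] at h2
    have : l * (S.σ l * l ^ 3) = l * 1 := by linear_combination h1 - S.σ l * h2 + 2 * S.σ l * h2
    exact mul_left_cancel₀ hl this
  simp only [P8, map_mul, S.σσ]
  linear_combination (a * S.σ b' + a ^ 2 * S.σ a * a' + S.σ a * a' ^ 3) * e

theorem P8_cocycle (a₁ a₂ a₃ b₂ b₃ : F) : ∃ t : F, (t = 0 ∨ t = 1) ∧
    S.P8 a₁ a₂ b₂ + S.P8 (a₁ + a₂) a₃ b₃ =
      S.P8 a₂ a₃ b₃ + S.P8 a₁ (a₂ + a₃) (b₂ + b₃ + S.σ a₂ * a₃) + t := by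
  have := S.charP
  have h4 : ∀ y, y ^ 4 = S.σ y := fun y => by
    have h2 := h8 (S.σ y)
    rw [S.σσ] at h2
    linear_combination h2
  refine ⟨a₁ * a₂ ^ 2 * S.σ a₃ + a₁ ^ 2 * S.σ a₂ * a₃ + S.σ a₁ * a₂ * a₃ ^ 2, ?_, ?_⟩
  · set t := a₁ * a₂ ^ 2 * S.σ a₃ + a₁ ^ 2 * S.σ a₂ * a₃ + S.σ a₁ * a₂ * a₃ ^ 2 with ht
    have : t ^ 2 = t := by
      rw [ht, CharTwo.add_sq, CharTwo.add_sq]
      simp only [mul_pow, ← pow_mul, h8, h4]
      ring
    have h : t * (t - 1) = 0 := by linear_combination this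
    exact (mul_eq_zero.1 h).imp id sub_eq_zero.1
  · simp only [P8, map_add, map_mul, S.σσ]
    grind

end Tits

namespace Model
variable {G : Type*} [Group G] {F : Type*} [Field F] (M : Model G F)

theorem exists_coord : ∃ co : G → F × F × Fˣ, ∀ a b c, co (M.T a b * M.D c) = (a, b, c) := by
  have hinj : Function.Injective fun x : F × F × Fˣ => M.T x.1 x.2.1 * M.D x.2.2 := by
    rintro ⟨a, b, c⟩ ⟨a', b', c'⟩ h
    obtain ⟨rfl, rfl, rfl⟩ := M.TD_inj h
    rfl
  exact ⟨_, fun a b c => Function.leftInverse_invFun hinj (a, b, c)⟩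

/-- The section of the action on the ovoid. -/
noncomputable def sec : M.Pt → G
  | none => 1
  | some p => M.T p.1 p.2 * M.w

theorem sec_inf : M.sec M.inf = 1 := rfl
theorem sec_pt (x y : F) : M.sec (M.pt x y) = M.T x y * M.w := rfl

theorem sec_smul (p : M.Pt) : M.sec p • M.inf = p := by
  rcases M.pt_cases p with rfl | ⟨x, y, rfl⟩
  · rw [sec_inf, one_smul]
  · rw [sec_pt, Tw_smul_inf]

theorem schreier_mem (g : G) (p : M.Pt) : schreier M.sec g p ∈ M.B := by
  rw [mem_B, schreier, mul_smul, mul_smul, sec_smul, inv_smul_eq_iff, sec_smul]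

theorem schreier_T_inf (a b : F) : schreier M.sec (M.T a b) M.inf = M.T a b := by
  simp [schreier, sec_inf]

theorem schreier_T_pt (a b x y : F) : schreier M.sec (M.T a b) (M.pt x y) = 1 := by
  rw [schreier, T_smul_pt, sec_pt, sec_pt, mul_assoc, ← mul_assoc (M.T a b), T_mul, add_comm a, add_comm b,
    inv_mul_cancel]

theorem exists_cover_eight [Finite F] (h8 : ∀ y, M.σ y ^ 2 = y) :
    ∃ c : Cocycle G (Multiplicative (F ⧸ AddSubgroup.zmultiples (1 : F))), Cfsg.IsStemExtension c.proj := by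
  classical
  have := Fintype.ofFinite M.Pt
  obtain ⟨co, hco⟩ := M.exists_coord
  let c₀ : G → G → Multiplicative (F ⧸ AddSubgroup.zmultiples (1 : F)) := fun g h => Multiplicative.ofAdd
    (M.toTits.P8 (co g).1 (M.σ (co g).2.2 * (co h).1) (M.σ (co g).2.2 * (co g).2.2 ^ 2 * (co h).2.1) : F)
  have hT : ∀ a b a' b', c₀ (M.T a b) (M.T a' b') =
      Multiplicative.ofAdd ((M.toTits.P8 a a' b' : F) : F ⧸ AddSubgroup.zmultiples (1 : F)) := by
    intro a b a' b'
    have e1 := hco a b 1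
    have e2 := hco a' b' 1
    rw [map_one, mul_one] at e1 e2
    simp only [c₀, e1, e2, Units.val_one, map_one, one_mul, one_pow]
  have h1 : c₀ 1 1 = 1 := by
    rw [← M.T_zero, hT]; simp [Tits.P8]
  have h2 : ∀ g ∈ M.B, ∀ h ∈ M.B, ∀ k ∈ M.B, c₀ g h * c₀ (g * h) k = c₀ h k * c₀ g (h * k) := by
    intro g hg h hh k hk
    obtain ⟨a₁, b₁, c₁, rfl⟩ := M.mem_B'.1 hg
    obtain ⟨a₂, b₂, c₂, rfl⟩ := M.mem_B'.1 hh
    obtain ⟨a₃, b₃, c₃, rfl⟩ := M.mem_B'.1 hk
    rw [TD_mul_TD, TD_mul_TD]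
    simp only [c₀, hco]
    rw [← ofAdd_add, ← ofAdd_add, ← QuotientAddGroup.mk_add, ← QuotientAddGroup.mk_add,
      ← M.toTits.P8_scale h8 (M.toTits.σ_ne_zero c₁.ne_zero) a₂]
    obtain ⟨t, ht, e⟩ := M.toTits.P8_cocycle h8 a₁ (M.σ c₁ * a₂) (M.σ c₁ * (M.σ c₂ * a₃))
      (M.σ c₁ * c₁ ^ 2 * b₂) (M.σ c₁ * c₁ ^ 2 * (M.σ c₂ * c₂ ^ 2 * b₃))
    congr 1
    rw [QuotientAddGroup.eq_iff_sub_mem]
    have : t ∈ AddSubgroup.zmultiples (1 : F) := by
      rcases ht with rfl | rfl
      · exact zero_mem _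
      · exact AddSubgroup.mem_zmultiples _
    convert this using 1
    rw [sub_eq_iff_eq_add, add_comm t]
    convert e using 3
    · simp only [Units.val_mul, map_mul]; ring
    · simp only [Units.val_mul, map_mul]; ring
    · congr 1; rw [M.σσ]; ring
    · congr 1
      · ring
      · rw [map_mul, M.σσ]; ring
  let c := transferCocycle M.sec M.B M.schreier_mem c₀ h1 h2
  have hc : ∀ a b a' b', c.c (M.T a b) (M.T a' b') =
      Multiplicative.ofAdd ((M.toTits.P8 a a' b' : F) : F ⧸ AddSubgroup.zmultiples (1 : F)) := by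
    intro a b a' b'
    rw [← hT]
    change ∏ p, _ = _
    rw [Finset.prod_eq_single M.inf]
    · rw [T_smul_inf, schreier_T_inf, schreier_T_inf]
    · intro p _ hp
      obtain ⟨x, y, rfl⟩ := M.exists_pt_of_ne hp
      rw [T_smul_pt, schreier_T_pt, schreier_T_pt, h1]
    · simp
  refine ⟨c, c.proj_surjective, c.ker_proj_le_center, ?_⟩
  rw [c.ker_proj]
  rintro _ ⟨t, rfl⟩
  obtain ⟨a, ha⟩ := QuotientAddGroup.mk_surjective t.toAdd
  have := c.commElt_of_commute (a := ⟨M.T a 0, 1⟩) (b := ⟨M.T 0 1, 1⟩) (M.T_comm_T_zero _ _ _)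
  simp only [hc] at this
  have e : Multiplicative.ofAdd ((M.toTits.P8 a 0 1 : F) : F ⧸ AddSubgroup.zmultiples (1 : F)) *
      (Multiplicative.ofAdd ((M.toTits.P8 0 a 0 : F) : F ⧸ AddSubgroup.zmultiples (1 : F)))⁻¹ = t := by
    simp [Tits.P8, ha]
  rw [← e, ← this]
  exact commutator_mem_commutator (mem_top _) (mem_top _)

include M in
/-- The Schur multiplier of `Sz(8)` is a four-group. -/
theorem schur_eight [Finite F] (h : Nat.card F = 8) :
    Cfsg.HasSchurMultiplier G (Multiplicative (ZMod 2 × ZMod 2)) := by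
  have := M.finite
  have := M.toTits.charP
  have h8 : ∀ y, M.σ y ^ 2 = y := by
    have := Fintype.ofFinite F
    have hq : ∀ y : F, y ^ 8 = y := fun y => by
      rw [← h, Nat.card_eq_fintype_card]; exact FiniteField.pow_card y
    obtain ⟨i, hi⟩ := M.toTits.exists_σ_eq_pow
    have hper : ∀ (j : ℕ) (y : F), y ^ 2 ^ j = y ^ 2 ^ (j % 3) := by
      intro j y
      conv_lhs => rw [← Nat.mod_add_div j 3, pow_add, pow_mul]
      generalize y ^ 2 ^ (j % 3) = x
      induction j / 3 with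
      | zero => simp
      | succ n ih => rw [mul_add, pow_add, pow_mul, ih]; exact hq x
    obtain ⟨y, h0, h1⟩ := M.big
    have hi3 : i % 3 = 0 ∨ i % 3 = 1 ∨ i % 3 = 2 := by omega
    rcases hi3 with h3 | h3 | h3
    · have : M.σ y = y := by rw [hi, hper, h3]; simp
      exact absurd (M.toTits.σ_fixed this) (by simp [h0, h1])
    · obtain ⟨x, hx⟩ := M.toTits.exists_σ_ne_sq
      exact absurd (by rw [hi, hper, h3]; simp) hx
    · intro x; rw [hi, hper, h3, ← pow_mul]; exact hq x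
  obtain ⟨c, hc⟩ := M.exists_cover_eight h8
  have hcard : Nat.card (F ⧸ AddSubgroup.zmultiples (1 : F)) = 4 := by
    have := AddSubgroup.card_eq_card_quotient_mul_card_addSubgroup (AddSubgroup.zmultiples (1 : F))
    rw [h, Nat.card_zmultiples, CharP.eq F (CharP.addOrderOf_one F) inferInstance] at this
    omega
  have hk : IsAddKleinFour (F ⧸ AddSubgroup.zmultiples (1 : F)) := by
    refine ⟨hcard, ?_⟩
    have : Nontrivial (F ⧸ AddSubgroup.zmultiples (1 : F)) :=
      Finite.one_lt_card_iff_nontrivial.1 (by rw [hcard]; norm_num)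
    refine (AddMonoid.exponent_eq_prime_iff Nat.prime_two).2 fun x hx => addOrderOf_eq_prime ?_ hx
    obtain ⟨a, rfl⟩ := QuotientAddGroup.mk_surjective x
    rw [two_nsmul, ← QuotientAddGroup.mk_add, CharTwo.add_self_eq_zero]; rfl
  obtain ⟨e⟩ : Nonempty ((F ⧸ AddSubgroup.zmultiples (1 : F)) ≃+ ZMod 2 × ZMod 2) := IsAddKleinFour.nonempty_addEquiv
  refine CL.Pc.hasSM_of_bounds [(2, 2), (5, 0), (7, 0), (13, 0)] ?_ 6 (by rw [M.card_G, h]; decide) (by simp) c.proj hc
    (c.kerEquiv.trans (AddEquiv.toMultiplicative e))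
  simp only [List.mem_cons, List.not_mem_nil, or_false]
  rintro p (rfl | rfl | rfl | rfl)
  · exact ⟨by norm_num, M.pBound_two_of_eight h⟩
  all_goals exact ⟨by norm_num, M.pBound_odd (by norm_num) (by norm_num)⟩

end Model

end CL.Chev.Sz
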